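import Mathlib
import Cfsg.Agent.PERM.S9Mod

/-! Subgroups of `GL(3,3)` in which the stabilizer of the diagonal vector is the group of
permutation matrices: the finite checks. -/

set_option autoImplicit false
set_option maxRecDepth 100000
set_option synthInstance.maxSize 2000

namespace CL.Odd

open MO

/-- the linear map with the given columns -/
def ap (a b c x : V3) : V3 := x.1 • a + x.2.1 • b + x.2.2 • c

/-- the change of frame -/
def fr (k : ZMod 3) (x : V3) : V3 := x + (k * (x.1 + x.2.1 + x.2.2)) • cc

/-- a map fixing the diagonal vector permutes the basis -/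
abbrev Ok (f : V3 → V3) : Prop := f cc = cc → (f (1, 0, 0), f (0, 1, 0)) ∈
  [((1, 0, 0), (0, 1, 0)), ((1, 0, 0), (0, 0, 1)), ((0, 1, 0), (1, 0, 0)), ((0, 1, 0), (0, 0, 1)),
    ((0, 0, 1), (1, 0, 0)), ((0, 0, 1), (0, 1, 0))]

/-- evaluation of a word -/
def ev (D : V3 → V3) : List (Option W48) → V3 → V3
  | [] => fun x => x
  | none :: l => fun x => D (ev D l x)
  | some w :: l => fun x => sg w (ev D l x)

/-- test words for an element of order three -/
def ws1 : List (List (Option W48)) :=
  [[none, some (7, true), none, none], [none, some (17, true), none, none],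
   [none, some (21, true), none, none], [none, none, some (2, false), none, some (4, false), none],
   [none, none, some (7, true), none, some (7, true), none, none, some (7, true), none],
   [none, none, some (4, false), none, some (2, false), none],
   [none, none, some (17, true), none, some (17, true), none, none, some (17, true), none],
   [none, none, some (21, true), none]]

/-- test words for an element of another frame -/
def ws2 : List (List (Option W48)) :=
  [[some (1, true), none, some (3, true)], [some (1, true), none, some (5, true)],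
   [some (8, false), none, some (1, true)], [some (8, false), none, some (3, true)],
   [some (10, false), none, some (1, true)], [some (10, false), none, some (5, true)],
   [none, some (3, true), none], [none, some (5, true), none], [none, some (8, false), none],
   [none, some (10, false), none], [none, some (13, true), none], [none, some (14, false), none]]

theorem cl1 : ∀ a b c, ap a b c (ap a b c a) = (1, 0, 0) → ap a b c (ap a b c b) = (0, 1, 0) →
    ap a b c (ap a b c c) = (0, 0, 1) → (∀ l ∈ ws1, Ok (ev (ap a b c) l)) →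
    ∃ k i, ∀ x, ap a b c (fr k x) = fr k (sig24 i x) := by decide +kernel

theorem cl2 : ∀ k i, T3 (i, false) → (∀ l ∈ ws2, Ok (ev (fun x => fr k (sig24 i (fr (-k) x))) l)) →
    ∃ t, inW 2 t ∧ ∃ j ∈ [0, 2, 4], ∀ x, sg t (fr k (sig24 i (fr (-k) x))) = sig24 j (sg t x) := by
  decide +kernel

theorem cl3 : ∀ a b, Ok (ev (ap a b (-cc - a - b)) [none, none]) →
    Ok (ev (ap a b (-cc - a - b)) [none, some (2, false), none]) →
    ∃ w, ∀ x, ap a b (-cc - a - b) x = sg w x := by decide +kernel

theorem cl4 : ∀ i, T3 (i, false) → i ∉ [0, 2, 4] → ∀ w, inW 2 w → inW 0 w ∨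
    ∃ a, inW 0 a ∧ ∃ b, inW 0 b ∧ w = wm a (wm (i, false) b) := by decide +kernel

theorem fr_add : ∀ k x y, fr k (x + y) = fr k x + fr k y := by decide +kernel

theorem fr_sg : ∀ k w, inW 0 w → ∀ x, fr k (sg w x) = sg w (fr k x) := by decide +kernel

theorem fr_fr : ∀ k x, fr k (fr (-k) x) = x ∧ fr (-k) (fr k x) = x := by decide +kernel

theorem exists_inW (Q : W48 → Prop) (hm : ∀ a b, Q a → Q b → Q (wm a b))
    (h0 : ∀ w, inW 0 w → Q w) : ∃ n, ∀ w, Q w ↔ inW n w := by
  have k : ∀ w, ∃ t ∈ [(0, false), (0, true), (6, false), (6, true)], (Q w ↔ Q t) ∧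
      ∀ n, inW n w = inW n t := fun w => by
    obtain ⟨t, m, ⟨a, ha, b, hb, e⟩, ⟨c, hc, d, hd, e'⟩, e''⟩ := (by decide +kernel : ∀ w,
      ∃ t ∈ [(0, false), (0, true), (6, false), (6, true)],
        (∃ a, inW 0 a ∧ ∃ b, inW 0 b ∧ wm a (wm w b) = t) ∧
        (∃ a, inW 0 a ∧ ∃ b, inW 0 b ∧ wm a (wm t b) = w) ∧ ∀ n, inW n w = inW n t) w
    exact ⟨t, m, ⟨fun q => e ▸ hm _ _ (h0 a ha) (hm _ _ q (h0 b hb)),
      fun q => e' ▸ hm _ _ (h0 c hc) (hm _ _ q (h0 d hd))⟩, e''⟩
  have d := h0 (2, false) (by decide)
  have k1 : Q (6, true) → Q (0, true) := fun q =>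
    (by decide +kernel : wm (6, true) (wm (2, false) (wm (6, true) (wm (2, false) (wm (6, true)
      (2, false))))) = (0, true)) ▸ hm _ _ q (hm _ _ d (hm _ _ q (hm _ _ d (hm _ _ q d))))
  have k2 : ∀ s, Q (0, true) → Q (6, s) → Q (6, !s) := fun s a b =>
    (by decide +kernel : ∀ s, wm (0, true) (6, s) = (6, !s)) s ▸ hm _ _ a b
  have k0 := h0 (0, false) (by decide)
  by_cases a : Q (0, true) <;> by_cases b : Q (6, false)
  on_goal 1 => refine ⟨3, fun w => ?_⟩
  on_goal 2 => refine ⟨1, fun w => ?_⟩
  on_goal 3 => refine ⟨2, fun w => ?_⟩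
  on_goal 4 => refine ⟨0, fun w => ?_⟩
  all_goals
    obtain ⟨t, m, e, e'⟩ := k w
    rw [e, e']
    simp only [List.mem_cons, List.not_mem_nil, or_false] at m
    rcases m with rfl | rfl | rfl | rfl
  all_goals first
    | exact iff_of_true ‹_› (by decide)
    | exact iff_of_false ‹_› (by decide)
    | exact iff_of_true (k2 false a b) (by decide)
    | exact iff_of_false (fun q => b (k2 true a q)) (by decide)
    | exact iff_of_false (mt k1 a) (by decide)

end CL.Odd
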