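import Mathlib
import Cfsg.Agent.PERM.FCRep

/-!
Constructions of fixed-point-free groups: subgroups of division rings, coprime products.
-/

namespace CL.FC

open Subgroup

variable {G : Type*} [Group G] [Finite G]

theorem hasT_of_ring {R : Type*} [Ring R] [Nontrivial R] (ρ : G →* R)
    (hρ : ∀ g : G, g ≠ 1 → IsUnit (ρ g - 1)) : HasT R G := by
  refine ⟨fun a => ρ a, fun h => by simpa using congrFun h 1, fun a g hg => ?_⟩
  simp only [map_mul, map_pow]
  rw [← Finset.mul_sum, geom_sum_eq_zero hρ hg (pow_orderOf_eq_one g), mul_zero]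

/-- a fixed-point-free representation in an algebra over a field of characteristic zero -/
theorem isFPF_of_algebra {K R : Type*} [Field K] [CharZero K] [Ring R] [Algebra K R] [Nontrivial R]
    (ρ : G →* R) (hρ : ∀ g : G, g ≠ 1 → IsUnit (ρ g - 1)) : IsFPF G :=
  isFPF_iff_hasT.mpr (hasT_int_of_torsionFree (k := K) (hasT_of_ring ρ hρ).field_of_module)

/-- a fixed-point-free representation in a ring of prime characteristic -/
theorem isFPF_of_charP {R : Type*} [Ring R] [Nontrivial R] (p : ℕ) [Fact p.Prime] [CharP R p]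
    (ρ : G →* R) (hρ : ∀ g : G, g ≠ 1 → IsUnit (ρ g - 1)) : IsFPF G := by
  letI : Algebra (ZMod p) R := ZMod.algebra R p
  have hp : ¬ p ∣ Nat.card G := by
    intro h
    obtain ⟨g, hg⟩ := exists_prime_orderOf_dvd_card' p h
    have hg1 : g ≠ 1 := by
      rintro rfl
      rw [orderOf_one] at hg
      exact (Fact.out : p.Prime).one_lt.ne hg
    have h1 := (hρ g hg1).pow p
    rw [sub_pow_char_of_commute p (Commute.one_right _), ← map_pow, ← hg, pow_orderOf_eq_one,
      map_one, one_pow, sub_self] at h1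
    exact not_isUnit_zero h1
  exact isFPF_iff_hasT.mpr (hasT_int_of_zmod hp (hasT_of_ring ρ hρ).field_of_module)

theorem isFPF_of_divisionRing {D : Type*} [DivisionRing D] (ρ : G →* D)
    (hρ : Function.Injective ρ) : IsFPF G := by
  have h1 : ∀ g : G, g ≠ 1 → IsUnit (ρ g - 1) := fun g hg =>
    IsUnit.mk0 _ (sub_ne_zero.mpr fun h => hg (hρ (h.trans (map_one ρ).symm)))
  obtain ⟨p, hp⟩ := CharP.exists D
  rcases CharP.char_is_prime_or_zero D p with h | rfl
  · haveI := Fact.mk h
    exact isFPF_of_charP p ρ h1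
  · haveI := CharP.charP_to_charZero D
    exact isFPF_of_algebra (K := ℚ) ρ h1

theorem isFPF_of_isCyclic [IsCyclic G] : IsFPF G := by
  haveI : NeZero (Nat.card G) := ⟨Nat.card_pos.ne'⟩
  have e : Multiplicative (ZMod (Nat.card G)) ≃* G := zmodCyclicMulEquiv inferInstance
  refine IsFPF.of_mulEquiv ?_ e
  exact isFPF_of_divisionRing (ZMod.stdAddChar (N := Nat.card G)).toMonoidHom
    ZMod.injective_stdAddChar

/-- It suffices to test the vanishing of the sums over a fixed exponent. -/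
theorem hasT_int_of_exponent {N : ℕ} (hN : 0 < N) (hG : ∀ g : G, g ^ N = 1) (t : G → ℤ)
    (ht0 : t ≠ 0) (ht : ∀ a g : G, g ≠ 1 → ∑ j ∈ Finset.range N, t (a * g ^ j) = 0) :
    HasT ℤ G := by
  refine ⟨t, ht0, fun a g hg => ?_⟩
  obtain ⟨m, hm⟩ := orderOf_dvd_of_pow_eq_one (hG g)
  have key : ∀ m : ℕ, ∑ j ∈ Finset.range (orderOf g * m), t (a * g ^ j) =
      m * ∑ j ∈ Finset.range (orderOf g), t (a * g ^ j) := by
    intro m
    induction m with
    | zero => simp
    | succ m ih =>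
      rw [Nat.mul_succ, Finset.sum_range_add, ih]
      simp only [pow_add, pow_mul, pow_orderOf_eq_one, one_pow, one_mul]
      push_cast; ring
  have h1 := ht a g hg
  rw [hm, key] at h1
  refine (mul_eq_zero.mp h1).resolve_left ?_
  rintro h2
  have : m = 0 := by exact_mod_cast h2
  rw [this] at hm; omega

theorem IsFPF.prod {A B : Type*} [Group A] [Finite A] [Group B] [Finite B] (hA : IsFPF A)
    (hB : IsFPF B) (hc : (Nat.card A).Coprime (Nat.card B)) : IsFPF (A × B) := by
  obtain ⟨n, ρ, hn, hρ⟩ := hA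
  obtain ⟨m, σ, hm, hσ⟩ := hB
  haveI : Nonempty (Fin n) := ⟨⟨0, hn⟩⟩
  haveI : Nonempty (Fin m) := ⟨⟨0, hm⟩⟩
  let ρ' : A →* Matrix (Fin n × Fin m) (Fin n × Fin m) ℂ :=
    { toFun := fun a => Matrix.kroneckerMap (· * ·) (ρ a) 1
      map_one' := by rw [map_one]; exact Matrix.one_kronecker_one
      map_mul' := fun a b => by rw [map_mul, ← Matrix.mul_kronecker_mul, mul_one] }
  let σ' : B →* Matrix (Fin n × Fin m) (Fin n × Fin m) ℂ :=
    { toFun := fun a => Matrix.kroneckerMap (· * ·) 1 (σ a)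
      map_one' := by rw [map_one]; exact Matrix.one_kronecker_one
      map_mul' := fun a b => by rw [map_mul, ← Matrix.mul_kronecker_mul, mul_one] }
  have hcomm : ∀ a b, Commute (ρ' a) (σ' b) := by
    intro a b
    change Matrix.kroneckerMap (· * ·) (ρ a) 1 * Matrix.kroneckerMap (· * ·) 1 (σ b) =
      Matrix.kroneckerMap (· * ·) 1 (σ b) * Matrix.kroneckerMap (· * ·) (ρ a) 1
    rw [← Matrix.mul_kronecker_mul, ← Matrix.mul_kronecker_mul]; simp
  have h1 : ∀ a : A, a ≠ 1 → IsUnit (ρ' a - 1) := by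
    intro a ha
    have : ρ' a - 1 = Matrix.kroneckerMap (· * ·) (ρ a - 1) (1 : Matrix (Fin m) (Fin m) ℂ) := by
      rw [← Matrix.one_kronecker_one (α := ℂ) (m := Fin n) (n := Fin m)]
      ext ⟨i, j⟩ ⟨k, l⟩
      simp only [ρ', MonoidHom.coe_mk, OneHom.coe_mk, Matrix.sub_apply, Matrix.kroneckerMap_apply,
        sub_mul]
    rw [this]
    exact Matrix.IsUnit.kronecker (hρ a ha) isUnit_one
  have h2 : ∀ a : B, a ≠ 1 → IsUnit (σ' a - 1) := by
    intro a ha
    have : σ' a - 1 = Matrix.kroneckerMap (· * ·) (1 : Matrix (Fin n) (Fin n) ℂ) (σ a - 1) := by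
      rw [← Matrix.one_kronecker_one (α := ℂ) (m := Fin n) (n := Fin m)]
      ext ⟨i, j⟩ ⟨k, l⟩
      simp only [σ', MonoidHom.coe_mk, OneHom.coe_mk, Matrix.sub_apply, Matrix.kroneckerMap_apply,
        mul_sub]
    rw [this]
    exact Matrix.IsUnit.kronecker isUnit_one (hσ a ha)
  let τ := ρ'.noncommCoprod σ' hcomm
  have hpow : ∀ (g : A × B) (k : ℕ), IsUnit (τ (g ^ k) - 1) → IsUnit (τ g - 1) := by
    intro g k h
    rw [map_pow, ← mul_geom_sum] at h
    refine ((Commute.isUnit_mul_iff ?_).mp h).1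
    exact (Commute.sum_right _ _ _ fun i _ =>
      ((Commute.refl (τ g)).sub_left (Commute.one_left _)).pow_right i)
  refine isFPF_of_algebra (K := ℂ) τ ?_
  rintro ⟨a, b⟩ hab
  by_cases ha : a = 1
  · subst ha
    have hb : b ≠ 1 := fun h => hab (by rw [h]; rfl)
    simpa [τ] using h2 b hb
  · apply hpow _ (Nat.card B)
    have h3 : a ^ Nat.card B ≠ 1 := by
      intro h
      apply ha
      have h4 := orderOf_dvd_of_pow_eq_one h
      exact orderOf_eq_one_iff.mp (Nat.eq_one_of_dvd_coprimes hc (orderOf_dvd_natCard a) h4)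
    simpa [τ] using h1 _ h3

theorem IsFPF.coprime_of_prod {A B : Type*} [Group A] [Finite A] [Group B] [Finite B]
    (h : IsFPF (A × B)) : (Nat.card A).Coprime (Nat.card B) := by
  apply Nat.coprime_of_dvd
  intro p hp hA hB
  haveI := Fact.mk hp
  obtain ⟨a, ha⟩ := exists_prime_orderOf_dvd_card' p hA
  obtain ⟨b, hb⟩ := exists_prime_orderOf_dvd_card' p hB
  have h1 : orderOf ((a, 1) : A × B) = p := by rw [Prod.orderOf_mk, ha]; simp
  have h2 : ((1, b) : A × B) ^ p = 1 := by
    rw [Prod.pow_mk, one_pow, ← hb, pow_orderOf_eq_one]; rfl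
  obtain ⟨k, hk⟩ := h.mem_zpowers_of_commute hp h1 h2 (by
    change _ = _; simp)
  have h3 : b = 1 := by simpa using (congrArg Prod.snd hk).symm
  rw [h3, orderOf_one] at hb
  exact hp.one_lt.ne hb

end CL.FC
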