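import Mathlib
import Cfsg.Agent.PERM.TW

/-!
Primitive groups with a subconstituent containing the alternating group: the two kernels meet
trivially.
-/

set_option autoImplicit false

namespace CL.AltSub

open Subgroup Cfsg CL.MSS CL.Comp CL.TW Equiv
open scoped commutatorElement

section perm

variable {X : Type*} [Fintype X] [DecidableEq X]

theorem cent_alt (h5 : 5 ≤ Nat.card X) :
    centralizer (alternatingGroup X : Set (Perm X)) = ⊥ := by
  by_contra hne
  have : Nontrivial (centralizer (alternatingGroup X : Set (Perm X))) :=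
    (nontrivial_iff_ne_bot _).2 hne
  have h1 := Equiv.Perm.alternatingGroup_le_of_normal h5 this
  have h2 : center (alternatingGroup X) = ⊤ := by
    rw [eq_top_iff]
    intro x _
    rw [mem_center_iff]
    intro y
    exact Subtype.ext (h1 x.2 y y.2)
  have := alternatingGroup.isSimpleGroup h5
  rw [alternatingGroup.center_eq_bot (by omega)] at h2
  exact bot_ne_top h2

theorem alt_le (h5 : 5 ≤ Nat.card X) {N : Subgroup (Perm X)}
    (hn : ∀ s ∈ alternatingGroup X, ∀ n ∈ N, s * n * s⁻¹ ∈ N) (hN : N ≠ ⊥) :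
    alternatingGroup X ≤ N := by
  have : (N.subgroupOf (alternatingGroup X)).Normal :=
    ⟨fun n hn' s => hn s s.2 n hn'⟩
  rcases alternatingGroup.normal_subgroup_eq_bot_or_eq_top h5
    (N := N.subgroupOf (alternatingGroup X)) with h | h
  · exfalso
    apply hN
    rw [eq_bot_iff, ← cent_alt h5]
    intro n hnN s hs
    have h1 : s * n * s⁻¹ * n⁻¹ ∈ alternatingGroup X := by
      have := (inferInstance : (alternatingGroup X).Normal).conj_mem _ (inv_mem hs) n
      simpa [mul_assoc] using mul_mem hs this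
    have h2 : (⟨_, h1⟩ : alternatingGroup X) ∈ N.subgroupOf (alternatingGroup X) :=
      mul_mem (hn s hs n hnN) (inv_mem hnN)
    rw [h, mem_bot, Subtype.ext_iff] at h2
    simp only [coe_one] at h2
    rwa [mul_inv_eq_one, mul_inv_eq_iff_eq_mul] at h2
  · exact subgroupOf_eq_top.1 h

theorem two_mul_card_alt (h5 : 2 ≤ Nat.card X) :
    2 * Nat.card (alternatingGroup X) = (Nat.card X).factorial := by
  have : Nontrivial X := Finite.one_lt_card_iff_nontrivial.1 h5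
  rw [two_mul_nat_card_alternatingGroup, Nat.card_perm]

theorem alt_le_of_card {N : Subgroup (Perm X)} (h : (Nat.card X).factorial ≤ 2 * Nat.card N) :
    alternatingGroup X ≤ N := by
  apply Equiv.Perm.alternatingGroup_le_of_index_le_two
  have h1 := N.index_mul_card
  rw [Nat.card_perm] at h1
  exact Nat.le_of_mul_le_mul_right (h1 ▸ h) Nat.card_pos

theorem quasi_alt (h5 : 5 ≤ Nat.card X) : IsQuasisimple (alternatingGroup X) := by
  have := alternatingGroup.isSimpleGroup h5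
  refine isQuasisimple_iff.2 ⟨⟨commutator_alternatingGroup_eq_top h5⟩, inferInstance,
    fun N hN => ?_⟩
  rcases hN.eq_bot_or_eq_top with h | h
  · exact Or.inr (h ▸ bot_le)
  · exact Or.inl h

theorem alt_trans (h3 : 3 ≤ Nat.card X) (x y : X) : ∃ s ∈ alternatingGroup X, s x = y := by
  have := alternatingGroup.isPretransitive_of_three_le_card X h3
  obtain ⟨s, hs⟩ := MulAction.exists_smul_eq (alternatingGroup X) x y
  exact ⟨s, s.2, hs⟩

end perm

variable {G : Type*} [Group G]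

/-- `ρ` is an action of `M` with kernel `K`. -/
structure Sd (M K : Subgroup G) {X : Type*} (ρ : M →* Perm X) : Prop where
  le : K ≤ M
  ker : ∀ m : M, ρ m = 1 ↔ (m : G) ∈ K

/-- The image of a subgroup. -/
def img {M : Subgroup G} {X : Type*} (ρ : M →* Perm X) (N : Subgroup G) : Subgroup (Perm X) :=
  (N.subgroupOf M).map ρ

theorem mem_img {M : Subgroup G} {X : Type*} {ρ : M →* Perm X} {N : Subgroup G} {s : Perm X} :
    s ∈ img ρ N ↔ ∃ m : M, (m : G) ∈ N ∧ ρ m = s := Iff.rfl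

namespace Sd

variable {M K : Subgroup G} {X : Type*} [Fintype X] [DecidableEq X] {ρ : M →* Perm X}
  (h : Sd M K ρ)
include h

omit [Fintype X] [DecidableEq X] in
theorem card_img [Finite G] {N : Subgroup G} (hN : N ≤ M) :
    Nat.card N = Nat.card (N ⊓ K : Subgroup G) * Nat.card (img ρ N) := by
  let f : N →* Perm X := ρ.comp (inclusion hN)
  have h1 : f.range = img ρ N := by
    ext s
    constructor
    · rintro ⟨n, rfl⟩; exact ⟨inclusion hN n, n.2, rfl⟩
    · rintro ⟨m, hm, rfl⟩; exact ⟨⟨m, hm⟩, rfl⟩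
  have h2 : f.ker = (N ⊓ K).subgroupOf N := by
    ext n
    rw [MonoidHom.mem_ker, mem_subgroupOf]
    exact (h.ker _).trans ⟨fun hn => ⟨n.2, hn⟩, fun hn => hn.2⟩
  rw [← f.ker.card_mul_index, index_ker, h1, h2,
    Nat.card_congr (subgroupOfEquivOfLe inf_le_left).toEquiv]

omit [DecidableEq X] in
theorem card_le [Finite G] {N : Subgroup G} (hN : N ≤ M) :
    Nat.card N ≤ Nat.card (N ⊓ K : Subgroup G) * (Nat.card X).factorial := by
  rw [h.card_img hN, ← Nat.card_perm]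
  exact Nat.mul_le_mul_left _ (card_le_card_group _)

theorem alt_le_img (h5 : 5 ≤ Nat.card X) (ha : alternatingGroup X ≤ ρ.range) {N : Subgroup G}
    (hN : N ≤ M) (hn : M ≤ normalizer (N : Set G)) (hK : ¬ N ≤ K) :
    alternatingGroup X ≤ img ρ N := by
  refine alt_le h5 ?_ ?_
  · rintro s hs _ ⟨n, hnN, rfl⟩
    obtain ⟨m, rfl⟩ := ha hs
    exact ⟨m * n * m⁻¹, conj_mem_of_normalizes hn m.2 hnN, by simp⟩
  · intro hb
    apply hK
    intro n hnN
    have : ρ ⟨n, hN hnN⟩ ∈ img ρ N := ⟨_, hnN, rfl⟩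
    rw [hb, mem_bot] at this
    exact (h.ker _).1 this

theorem card_ge [Finite G] (h2 : 2 ≤ Nat.card X) {N : Subgroup G} (hN : N ≤ M)
    (ha : alternatingGroup X ≤ img ρ N) :
    Nat.card (N ⊓ K : Subgroup G) * (Nat.card X).factorial ≤ 2 * Nat.card N := by
  rw [h.card_img hN, ← two_mul_card_alt h2]
  have := card_le_of_le ha
  nlinarith

end Sd

theorem le_sup_of_alt {M N B : Subgroup G} {X : Type*} [Fintype X] [DecidableEq X]
    {ρ : M →* Perm X} (h3 : 3 ≤ Nat.card X) (ha : alternatingGroup X ≤ img ρ N) {x : X}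
    (hB : ∀ m : M, (m : G) ∈ B ↔ ρ m x = x) : M ≤ N ⊔ (M ⊓ B) := by
  intro m hm
  obtain ⟨s, hs, hx⟩ := alt_trans h3 x (ρ ⟨m, hm⟩ x)
  obtain ⟨n, hn, rfl⟩ := ha hs
  have h1 : ((n⁻¹ * ⟨m, hm⟩ : M) : G) ∈ B := by
    rw [hB, map_mul, Perm.mul_apply, ← hx, map_inv]; simp
  have h0 : ((n⁻¹ * ⟨m, hm⟩ : M) : G) ∈ M ⊓ B := ⟨(n⁻¹ * ⟨m, hm⟩ : M).2, h1⟩
  have h2 : (n : G) * ((n⁻¹ * ⟨m, hm⟩ : M) : G) ∈ N ⊔ (M ⊓ B) := mul_mem_sup hn h0
  simpa using h2

theorem card_img_le {M N B : Subgroup G} {X : Type*} [Fintype X] [DecidableEq X]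
    {ρ : M →* Perm X} {x : X} (hB : ∀ m : M, (m : G) ∈ B ↔ ρ m x = x) (hN : N ≤ B) :
    Nat.card (img ρ N) ≤ (Nat.card X - 1).factorial := by
  have h1 : img ρ N ≤ MulAction.stabilizer (Perm X) x := by
    rintro _ ⟨n, hn, rfl⟩
    exact (hB n).1 (hN hn)
  refine (card_le_of_le h1).trans (le_of_eq ?_)
  have h2 := (MulAction.stabilizer (Perm X) x).card_mul_index
  rw [MulAction.index_stabilizer_of_transitive, Nat.card_perm] at h2
  have h3 : Nat.card X ≠ 0 := by
    have : Nonempty X := ⟨x⟩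
    exact Nat.card_pos.ne'
  rw [← Nat.mul_factorial_pred h3, mul_comm] at h2
  exact Nat.eq_of_mul_eq_mul_left (Nat.pos_of_ne_zero h3) h2

/-- The product of the components of a given order. -/
def Xs (M : Subgroup G) (n : ℕ) : Subgroup G := sSup {L | IsCompIn L M ∧ Nat.card L = n}

theorem Xs_le (M : Subgroup G) (n : ℕ) : Xs M n ≤ M := sSup_le fun _ hL => hL.1.le

theorem cj_Xs_le (g : G) (M : Subgroup G) (n : ℕ) : g •ᶜ Xs M n ≤ Xs (g •ᶜ M) n := by
  rw [map_le_iff_le_comap]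
  refine sSup_le fun L hL => ?_
  rw [← map_le_iff_le_comap]
  exact le_sSup ⟨hL.1.conj g, (card_cj g L).trans hL.2⟩

theorem cj_Xs (g : G) (M : Subgroup G) (n : ℕ) : g •ᶜ Xs M n = Xs (g •ᶜ M) n := by
  refine le_antisymm (cj_Xs_le g M n) (le_cj_iff.2 ?_)
  have := cj_Xs_le g⁻¹ (g •ᶜ M) n
  rwa [inv_cj_cj] at this

theorem Xs_normal (M : Subgroup G) (n : ℕ) : M ≤ normalizer (Xs M n : Set G) := fun g hg =>
  mem_normalizer_iff_cj.2 (by rw [cj_Xs, cj_eq_of_mem hg])

theorem fact_lt {d : ℕ} (h : 3 ≤ d) : 2 * (d - 1).factorial < d.factorial := by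
  rw [← Nat.mul_factorial_pred (show d ≠ 0 by omega)]
  exact Nat.mul_lt_mul_of_pos_right (by omega) (Nat.factorial_pos _)

/-- The hypotheses. -/
structure Hyp (M₁ M₂ : Subgroup G) {X₁ X₂ : Type*} [Fintype X₁] [DecidableEq X₁]
    (ρ₁ : M₁ →* Perm X₁) (ρ₂ : M₂ →* Perm X₂) (x₁ : X₁) (x₂ : X₂) (d : ℕ) : Prop where
  pair : Pair M₁ M₂
  s₁ : Sd M₁ (K M₁ M₂) ρ₁
  s₂ : Sd M₂ (K M₂ M₁) ρ₂
  b₁ : ∀ m : M₁, (m : G) ∈ M₂ ↔ ρ₁ m x₁ = x₁
  b₂ : ∀ m : M₂, (m : G) ∈ M₁ ↔ ρ₂ m x₂ = x₂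
  c₁ : Nat.card X₁ = d
  c₂ : Nat.card X₂ = d
  d6 : 6 ≤ d
  alt : alternatingGroup X₁ ≤ ρ₁.range
  ne : K M₁ M₂ ≠ ⊥
  fit : fittingOf (M₁ ⊓ M₂) = ⊥

namespace Hyp

variable [Finite G] {M₁ M₂ : Subgroup G} {X₁ X₂ : Type*} [Fintype X₁] [DecidableEq X₁]
  [Fintype X₂] [DecidableEq X₂] {ρ₁ : M₁ →* Perm X₁} {ρ₂ : M₂ →* Perm X₂} {x₁ : X₁} {x₂ : X₂}
  {d : ℕ} (h : Hyp M₁ M₂ ρ₁ ρ₂ x₁ x₂ d)
include h

omit [Fintype X₂] [DecidableEq X₂] in
theorem fit' {N : Subgroup G} (hN : N ≤ M₁ ⊓ M₂) (hn : M₁ ⊓ M₂ ≤ normalizer (N : Set G)) :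
    fittingOf N = ⊥ := by
  rw [fittingOf_of_subnormalIn hN (subnormalIn_of_le_normalizer hn), h.fit]; simp

omit [Fintype X₂] [DecidableEq X₂] in
theorem cen {N : Subgroup G} (hN : N ≤ M₁ ⊓ M₂) (hn : M₁ ⊓ M₂ ≤ normalizer (N : Set G)) :
    N ⊓ centralizer (N : Set G) = ⊥ := by
  rw [eq_bot_iff, ← h.fit]
  exact le_fittingOf_of_subnormalIn (inf_le_left.trans hN) (subnormalIn_of_le_normalizer
    (le_normalizer_inf hn (le_normalizer_centralizer hn)))
    (isNilpotent_of_le_centralizer (inf_centralizer_le_centralizer N))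

omit [Fintype X₂] [DecidableEq X₂] in
theorem lay {N : Subgroup G} (hN : N ≤ M₁ ⊓ M₂) (hn : M₁ ⊓ M₂ ≤ normalizer (N : Set G))
    (h0 : N ≠ ⊥) : layerOf N ≠ ⊥ := by
  intro hb
  apply h0
  rw [← fstarOf_eq_bot_iff, fstarOf_eq, hb, h.fit' hN hn, sup_idem]

omit [Finite G] [Fintype X₂] [DecidableEq X₂] h in
theorem K₁_le : K M₁ M₂ ≤ M₁ ⊓ M₂ := le_inf K_le_left K_le_right
omit [Finite G] [Fintype X₂] [DecidableEq X₂] h in
theorem K₂_le : K M₂ M₁ ≤ M₁ ⊓ M₂ := le_inf K_le_right K_le_left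
omit [Finite G] [Fintype X₂] [DecidableEq X₂] h in
theorem K₁_n : M₁ ⊓ M₂ ≤ normalizer (K M₁ M₂ : Set G) := inf_le_left.trans K_normal
omit [Finite G] [Fintype X₂] [DecidableEq X₂] h in
theorem K₂_n : M₁ ⊓ M₂ ≤ normalizer (K M₂ M₁ : Set G) := inf_le_right.trans K_normal

omit [Fintype X₂] [DecidableEq X₂] in
theorem card₁ : Nat.card (K M₁ M₂) * d.factorial ≤ 2 * Nat.card M₁ := by
  have := h.s₁.card_ge (by rw [h.c₁]; have := h.d6; omega) le_rfl (h.alt.trans (by
    rintro _ ⟨m, rfl⟩; exact ⟨m, m.2, rfl⟩))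
  rwa [inf_eq_right.2 K_le_left, h.c₁] at this

omit [DecidableEq X₂] in
theorem card₂ : Nat.card M₁ ≤ Nat.card (K M₂ M₁) * d.factorial := by
  have := h.s₂.card_le le_rfl
  rwa [inf_eq_right.2 K_le_left, h.c₂, ← h.pair.card_eq] at this

omit [DecidableEq X₂] in
theorem card₁₂ : Nat.card (K M₁ M₂) ≤ 2 * Nat.card (K M₂ M₁) := by
  apply Nat.le_of_mul_le_mul_right _ (Nat.factorial_pos d)
  nlinarith [h.card₁, h.card₂]

omit [DecidableEq X₂] in
theorem cent_ne : M₁ ⊓ centralizer (K M₁ M₂ : Set G) ≠ ⊥ := by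
  intro hC
  have hB : ∀ {L N : Subgroup G}, IsCompIn L N → K M₁ M₂ ≤ N → N ≤ M₁ → L ≤ K M₁ M₂ := by
    intro L N hL h1 h2
    refine (hL.le_or_commutator_eq_bot_of_le_normalizer h1
      ((hL.le.trans h2).trans K_normal)).resolve_right fun h3 => hL.ne_bot ?_
    rw [eq_bot_iff, ← hC]
    exact le_inf (hL.le.trans h2) (commutator_eq_bot_iff_le_centralizer.1 h3)
  have hK2 : ∀ {L : Subgroup G}, IsCompIn L (K M₂ M₁) → IsCompIn L (K M₁ M₂) := by
    intro L hL
    have h1 := hL.trans_of_le_normalizer K₂_le K₂_n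
    exact h1.mono (hB h1 K₁_le inf_le_left) K₁_le
  have hE2 : layerOf (K M₂ M₁) ≤ layerOf M₁ := layerOf_le_iff.2 fun L hL =>
    ((hK2 hL).trans_of_le_normalizer K_le_left K_normal).le_layerOf
  have hE1 : layerOf M₁ ≠ ⊥ := fun hb => h.lay K₁_le K₁_n h.ne
    (eq_bot_iff.2 ((layerOf_le_layerOf_of_le_normalizer K_le_left K_normal).trans hb.le))
  have hne2 : K M₂ M₁ ≠ ⊥ := by
    intro hb
    have h1 := h.card₁₂
    rw [hb, card_bot] at h1
    have h2 : IsCyclic (K M₁ M₂) := by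
      rcases Nat.lt_or_ge (Nat.card (K M₁ M₂)) 2 with h3 | h3
      · have : Subsingleton (K M₁ M₂) := Finite.card_le_one_iff_subsingleton.1 (by omega)
        infer_instance
      · exact isCyclic_of_prime_card (p := 2) (by omega)
    apply h.ne
    rw [← h.cen K₁_le K₁_n, left_eq_inf, le_centralizer_iff_isMulCommutative]
    infer_instance
  have hL2 := h.lay K₂_le K₂_n hne2
  have hL2n : M₂ ≤ normalizer (layerOf (K M₂ M₁) : Set G) :=
    K_normal.trans (normalizer_le_normalizer_layerOf _)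
  have hP2 : P M₂ M₁ ≠ ⊥ := fun hb => hL2 (eq_bot_iff.2 (le_trans (le_coreIn (le_inf
    (layerOf_le _) (layerOf_le_iff.2 fun L hL => (hK2 hL).le)) hL2n) hb.le))
  have hP1 : P M₁ M₂ = ⊥ := by
    by_contra hP1
    exact hE1 (h.pair.layerOf_eq_bot hP1 hP2)
  obtain ⟨g, hg⟩ := h.pair.symm.conj
  set K' := g •ᶜ K M₂ M₁ with hK'
  have hK'le : K' ≤ M₁ := by rw [hg]; exact cj_mono g K_le_left
  have hK'n : M₁ ≤ normalizer (K' : Set G) := by
    rw [hK', ← cj_normalizer]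
    conv_lhs => rw [hg]
    exact cj_mono g K_normal
  have hlay : layerOf K' = g •ᶜ layerOf (K M₂ M₁) := (map_conj_layerOf _ g).symm
  by_cases hle : K' ≤ K M₁ M₂
  · have hidx : K'.relIndex (K M₁ M₂) ≤ 2 := by
      have h1 := (K'.subgroupOf (K M₁ M₂)).index_mul_card
      rw [Nat.card_congr (subgroupOfEquivOfLe hle).toEquiv, hK', card_cj] at h1
      have h2 := h.card₁₂
      rw [← h1] at h2
      exact Nat.le_of_mul_le_mul_right h2 Nat.card_pos
    have h1 : layerOf M₁ ≤ K' := by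
      rw [layerOf_le_iff]
      intro L hL
      have hLK := hB hL K_le_left le_rfl
      rw [← hL.commutator_self, commutator_le]
      intro x hx y hy
      have h2 : K'.relIndex (K M₁ M₂) ≠ 0 := index_ne_zero_of_finite
      rcases (show K'.relIndex (K M₁ M₂) = 1 ∨ K'.relIndex (K M₁ M₂) = 2 by omega) with h3 | h3
      · exact relIndex_eq_one.1 h3 (hLK (L.mul_mem (L.mul_mem (L.mul_mem hx hy) (inv_mem hx))
          (inv_mem hy)))
      · have h4 := fun a b => mul_mem_iff_of_index_two (H := K'.subgroupOf (K M₁ M₂)) h3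
          (a := a) (b := b)
        have : (⟨x, hLK hx⟩ * ⟨y, hLK hy⟩ * (⟨x, hLK hx⟩⁻¹ * ⟨y, hLK hy⟩⁻¹) : K M₁ M₂) ∈
            K'.subgroupOf (K M₁ M₂) := by
          rw [h4, h4, h4, inv_mem_iff, inv_mem_iff]
        simpa [mem_subgroupOf, commutatorElement_def, mul_assoc] using this
    have h2 : layerOf M₁ ≤ layerOf K' := layerOf_le_layerOf_of_le h1 hK'le
    have h3 : layerOf (K M₂ M₁) = layerOf M₁ :=
      eq_of_le_of_card_ge hE2 ((card_le_of_le h2).trans (by rw [hlay, card_cj]))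
    exact hE1 (h.pair.eq_bot (layerOf_le _) (le_normalizer_layerOf _) (h3 ▸ hL2n))
  · have h5 : 5 ≤ Nat.card X₁ := by rw [h.c₁]; have := h.d6; omega
    have h1 := le_sup_of_alt (by omega) (h.s₁.alt_le_img h5 h.alt hK'le hK'n hle) h.b₁
    have hN : M₁ ≤ normalizer ((centralizer (K' : Set G) ⊓ (K M₁ M₂ ⊓ K M₂ M₁) : Subgroup G) : Set G) := by
      refine h1.trans (sup_le ?_ (le_normalizer_inf (le_normalizer_centralizer
        (inf_le_left.trans hK'n)) (le_normalizer_inf K₁_n K₂_n)))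
      exact (le_centralizer_comm.1 inf_le_left).trans (centralizer_le_normalizer _)
    have hN0 : centralizer (K' : Set G) ⊓ (K M₁ M₂ ⊓ K M₂ M₁) = ⊥ :=
      eq_bot_iff.2 ((le_coreIn inf_le_right hN).trans hP1.le)
    have h2 : layerOf (K M₂ M₁) ≤ layerOf K' := by
      rw [layerOf_le_iff]
      intro L hL
      have hL1 := (hK2 hL).trans_of_le_normalizer K_le_left K_normal
      rcases hL1.le_or_commutator_eq_bot_of_le_normalizer hK'le (hL1.le.trans hK'n) with h3 | h3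
      · exact (hL1.mono h3 hK'le).le_layerOf
      · exact absurd (eq_bot_iff.2 ((le_inf (commutator_eq_bot_iff_le_centralizer.1 h3)
          (le_inf (hK2 hL).le hL.le)).trans hN0.le)) hL.ne_bot
    have h3 : layerOf (K M₂ M₁) = layerOf K' :=
      eq_of_le_of_card_ge h2 (by rw [hlay, card_cj])
    refine hL2 (h.pair.eq_bot ((layerOf_le _).trans K_le_right) ?_ hL2n)
    rw [h3]
    exact hK'n.trans (normalizer_le_normalizer_layerOf _)

omit [Fintype X₂] [DecidableEq X₂] in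
theorem cent_inf : M₁ ⊓ centralizer (K M₁ M₂ : Set G) ⊓ K M₁ M₂ = ⊥ :=
  eq_bot_iff.2 ((le_inf inf_le_right (inf_le_left.trans inf_le_right)).trans
    (h.cen K₁_le K₁_n).le)

omit [DecidableEq X₂] in
theorem alt_cent : alternatingGroup X₁ ≤ img ρ₁ (M₁ ⊓ centralizer (K M₁ M₂ : Set G)) :=
  h.s₁.alt_le_img (by rw [h.c₁]; have := h.d6; omega) h.alt inf_le_left
    (le_normalizer_inf le_normalizer (le_normalizer_centralizer K_normal))
    fun hle => h.cent_ne (by rw [← h.cent_inf, left_eq_inf]; exact hle)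

theorem main : K M₁ M₂ ⊓ K M₂ M₁ = ⊥ ∧ alternatingGroup X₂ ≤ ρ₂.range := by
  have hd := h.d6
  have h5 : 5 ≤ Nat.card X₁ := by rw [h.c₁]; omega
  set C := M₁ ⊓ centralizer (K M₁ M₂ : Set G) with hC
  have hCn : M₁ ≤ normalizer (C : Set G) :=
    le_normalizer_inf le_normalizer (le_normalizer_centralizer K_normal)
  let A : Subgroup G := C ⊓ ((alternatingGroup X₁).comap ρ₁).map M₁.subtype
  have hAle : A ≤ M₁ := inf_le_left.trans inf_le_left
  have hAn : M₁ ≤ normalizer (A : Set G) := by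
    refine le_normalizer_inf hCn (le_normalizer_iff.2 ?_)
    rintro m hm _ ⟨y, hy, rfl⟩
    exact ⟨⟨m, hm⟩ * y * ⟨m, hm⟩⁻¹, (inferInstance : ((alternatingGroup X₁).comap ρ₁).Normal).conj_mem
      y hy _, rfl⟩
  let f : A →* alternatingGroup X₁ := (ρ₁.comp (inclusion hAle)).codRestrict _ (by
    rintro ⟨_, hx, y, hy, rfl⟩; exact hy)
  have hf : Function.Bijective f := by
    constructor
    · rw [injective_iff_map_eq_one]
      intro x hx
      have h1 : (x : G) ∈ C ⊓ K M₁ M₂ :=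
        ⟨x.2.1, (h.s₁.ker (inclusion hAle x)).1 (congrArg Subtype.val hx)⟩
      rw [h.cent_inf, mem_bot] at h1
      exact Subtype.ext h1
    · rintro ⟨s, hs⟩
      obtain ⟨m, hm, rfl⟩ := h.alt_cent hs
      exact ⟨⟨m, hm, m, hs, rfl⟩, rfl⟩
  let e := MulEquiv.ofBijective f hf
  have hA : IsCompIn A M₁ := isCompIn_of_le_normalizer hAle hAn ((quasi_alt h5).of_mulEquiv e.symm)
  set n := Nat.card (alternatingGroup X₁) with hn
  have hn2 : 2 * n = d.factorial := by rw [hn, two_mul_card_alt (by omega), h.c₁]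
  have hAc : Nat.card A = n := Nat.card_congr e.toEquiv
  obtain ⟨L, hL, hLc, hLK⟩ : ∃ L, IsCompIn L M₂ ∧ Nat.card L = n ∧ ¬ L ≤ K M₂ M₁ := by
    by_contra hcon
    push Not at hcon
    have h1 : Xs M₂ n ≤ Xs M₁ n := by
      refine sSup_le fun L hL => le_sSup ⟨?_, hL.2⟩
      have hL2 := hcon L hL.1 hL.2
      have hLB : IsCompIn L (M₁ ⊓ M₂) := hL.1.mono (hL2.trans K₂_le) inf_le_right
      rcases hLB.le_or_commutator_eq_bot_of_le_normalizer K₁_le (hLB.le.trans K₁_n) with h3 | h3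
      · exact (hLB.mono h3 K₁_le).trans_of_le_normalizer K_le_left K_normal
      · exfalso
        have h4 : L ≤ C := le_inf (hLB.le.trans inf_le_left) (commutator_eq_bot_iff_le_centralizer.1 h3)
        have h6 := h.s₁.card_img (hLB.le.trans inf_le_left)
        rw [eq_bot_iff.2 ((inf_le_inf_right _ h4).trans h.cent_inf.le), card_bot, one_mul, hL.2] at h6
        have h7 := card_img_le h.b₁ hL.1.le
        rw [← h6, h.c₁] at h7
        have := fact_lt (d := d) (by omega)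
        omega
    obtain ⟨g, hg⟩ := h.pair.conj
    have h2 : Xs M₂ n = Xs M₁ n := eq_of_le_of_card_ge h1 (by rw [hg, ← cj_Xs, card_cj])
    have h3 := h.pair.eq_bot (Xs_le M₁ n) (Xs_normal M₁ n) (h2 ▸ Xs_normal M₂ n)
    exact hA.ne_bot (eq_bot_iff.2 ((le_sSup (show A ∈ {L | IsCompIn L M₁ ∧ Nat.card L = n} from
      ⟨hA, hAc⟩)).trans h3.le))
  have hLc' : L ≤ centralizer (K M₂ M₁ : Set G) := commutator_eq_bot_iff_le_centralizer.1
    ((hL.le_or_commutator_eq_bot_of_le_normalizer K_le_left (hL.le.trans K_normal)).resolve_left hLK)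
  have h1 := h.s₂.card_img hL.le
  rw [eq_bot_iff.2 ((le_inf inf_le_right (inf_le_left.trans hLc')).trans (h.cen K₂_le K₂_n).le),
    card_bot, one_mul, hLc] at h1
  have h2 : alternatingGroup X₂ ≤ img ρ₂ L := alt_le_of_card (by rw [← h1, h.c₂, hn2])
  refine ⟨h.pair.eq_bot (inf_le_left.trans K_le_left) ?_ ?_, h2.trans (map_le_range _ _)⟩
  · refine (le_sup_of_alt (by omega) h.alt_cent h.b₁).trans (sup_le ?_ (le_normalizer_inf K₁_n K₂_n))
    exact (inf_le_right.trans (centralizer_le inf_le_left)).trans (centralizer_le_normalizer _)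
  · refine (le_sup_of_alt (by rw [h.c₂]; omega) h2 h.b₂).trans (sup_le ?_ ?_)
    · exact (hLc'.trans (centralizer_le inf_le_right)).trans (centralizer_le_normalizer _)
    · rw [inf_comm M₂]; exact le_normalizer_inf K₁_n K₂_n

end Hyp

end CL.AltSub
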