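import Mathlib
import Cfsg.Agent.PERM.AltSub1

/-!
Primitive groups with a subconstituent containing the alternating group: the point stabiliser.
-/

set_option autoImplicit false

namespace CL.AltSub

open Subgroup Cfsg CL.MSS CL.Comp CL.TW Equiv
open scoped commutatorElement

section perm

variable {X : Type*} [DecidableEq X]

omit [DecidableEq X] in
theorem res_aux {x : X} (g : MulAction.stabilizer (Perm X) x) (y : X) : g.1 y ≠ x ↔ y ≠ x := by
  have h : g.1 x = x := g.2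
  rw [not_iff_not]
  exact ⟨fun e => g.1.injective (e.trans h.symm), fun e => by rw [e, h]⟩

/-- Restriction to the complement of a fixed point. -/
def res (x : X) : MulAction.stabilizer (Perm X) x →* Perm {y // y ≠ x} where
  toFun g := g.1.subtypePerm (res_aux g)
  map_one' := by ext; rfl
  map_mul' g h := by ext; rfl

omit [DecidableEq X] in
theorem res_eq_one {x : X} {g : MulAction.stabilizer (Perm X) x} (h : res x g = 1) : g.1 = 1 := by
  ext y
  by_cases hy : y = x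
  · subst hy; exact g.2
  · exact congrArg Subtype.val (DFunLike.congr_fun h ⟨y, hy⟩)

theorem sign_res [Fintype X] {x : X} (g : MulAction.stabilizer (Perm X) x) :
    Perm.sign (res x g) = Perm.sign g.1 :=
  Perm.sign_subtypePerm g.1 (res_aux g) fun y hy e => hy (by subst e; exact g.2)

theorem res_surj {x : X} (t : Perm {y // y ≠ x}) : ∃ g, res x g = t := by
  refine ⟨⟨Perm.ofSubtype t, Perm.ofSubtype_apply_of_not_mem t (by simp)⟩, ?_⟩
  ext y
  exact Perm.ofSubtype_apply_coe t y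

theorem card_compl_pt [Fintype X] (x : X) : Nat.card {y // y ≠ x} = Nat.card X - 1 := by
  simp [Nat.card_eq_fintype_card]

variable {A B : Type*} [Fintype A] [DecidableEq A] [Fintype B] [DecidableEq B]

theorem mem_of_sign {R : Subgroup (Perm A × Perm B)}
    (h1 : ∀ s ∈ alternatingGroup A, (s, 1) ∈ R) (h2 : ∀ t ∈ alternatingGroup B, (1, t) ∈ R)
    {r x : Perm A × Perm B} (hr : r ∈ R) (e1 : Perm.sign r.1 = Perm.sign x.1)
    (e2 : Perm.sign r.2 = Perm.sign x.2) : x ∈ R := by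
  have h3 := mul_mem (mul_mem (h1 (x.1 * r.1⁻¹) (by
    rw [Perm.mem_alternatingGroup, map_mul, map_inv, e1, mul_inv_cancel]))
    (h2 (x.2 * r.2⁻¹) (by
    rw [Perm.mem_alternatingGroup, map_mul, map_inv, e2, mul_inv_cancel]))) hr
  convert h3 using 1
  ext <;> simp

theorem classify {R : Subgroup (Perm A × Perm B)}
    (h1 : ∀ s ∈ alternatingGroup A, (s, 1) ∈ R) (h2 : ∀ t ∈ alternatingGroup B, (1, t) ∈ R)
    (hq : (∃ r ∈ R, Perm.sign r.1 = 1 ∧ Perm.sign r.2 = -1) → ∃ r ∈ R, Perm.sign r.1 = -1) :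
    ((∀ r ∈ R, Perm.sign r.1 = 1) ∧ R = (alternatingGroup A).prod (alternatingGroup B)) ∨
    ((∃ r ∈ R, Perm.sign r.1 = -1) ∧ (R = ⊤ ∨ R = (⊤ : Subgroup (Perm A)).prod (alternatingGroup B) ∨
      R = ((Perm.sign.comp (MonoidHom.fst (Perm A) (Perm B))) *
         (Perm.sign.comp (MonoidHom.snd (Perm A) (Perm B)))).ker)) := by
  have key := fun {r x : Perm A × Perm B} => mem_of_sign h1 h2 (r := r) (x := x)
  have sg := Int.units_eq_one_or
  have ne1 : (1 : ℤˣ) ≠ -1 := by decide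
  by_cases hp : ∃ r ∈ R, Perm.sign r.1 = -1
  · refine Or.inr ⟨hp, ?_⟩
    obtain ⟨r, hr, er⟩ := hp
    by_cases hq' : ∃ r ∈ R, Perm.sign r.1 = 1 ∧ Perm.sign r.2 = -1
    · obtain ⟨u, hu, eu1, eu2⟩ := hq'
      refine Or.inl (eq_top_iff.2 fun x _ => ?_)
      rcases sg (Perm.sign x.1) with e1 | e1
      · rcases sg (Perm.sign x.2) with e2 | e2
        · exact key (one_mem R) (by simp [e1]) (by simp [e2])
        · exact key hu (by rw [eu1, e1]) (by rw [eu2, e2])
      · by_cases e2 : Perm.sign r.2 = Perm.sign x.2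
        · exact key hr (by rw [er, e1]) e2
        · refine key (mul_mem hr hu) (by simp [er, e1, eu1]) ?_
          rcases sg (Perm.sign x.2) with e3 | e3 <;> rcases sg (Perm.sign r.2) with e4 | e4 <;>
            simp_all
    · push Not at hq'
      have hq2 : ∀ y ∈ R, Perm.sign y.1 = 1 → Perm.sign y.2 = 1 := fun y hy e =>
        (sg _).resolve_right (hq' y hy e)
      have hq3 : ∀ y ∈ R, Perm.sign y.1 = -1 → Perm.sign y.2 = Perm.sign r.2 := by
        intro y hy e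
        have := hq2 _ (mul_mem hy hr) (by simp [e, er])
        rw [Prod.snd_mul, map_mul] at this
        rcases sg (Perm.sign y.2) with e3 | e3 <;> rcases sg (Perm.sign r.2) with e4 | e4 <;>
          simp_all
      rcases sg (Perm.sign r.2) with e | e
      · refine Or.inr (Or.inl (le_antisymm (fun y hy => ?_) fun y hy => ?_))
        · refine ⟨mem_top _, ?_⟩
          rcases sg (Perm.sign y.1) with e1 | e1
          · exact hq2 y hy e1
          · exact (hq3 y hy e1).trans e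
        · have hy2 : Perm.sign y.2 = 1 := hy.2
          rcases sg (Perm.sign y.1) with e1 | e1
          · exact key (one_mem R) (by simp [e1]) (by simp [hy2])
          · exact key hr (by rw [er, e1]) (by rw [e, hy2])
      · refine Or.inr (Or.inr (le_antisymm (fun y hy => ?_) fun y hy => ?_))
        · change Perm.sign y.1 * Perm.sign y.2 = 1
          rcases sg (Perm.sign y.1) with e1 | e1
          · rw [e1, hq2 y hy e1, mul_one]
          · rw [e1, hq3 y hy e1, e]; simp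
        · have hy2 : Perm.sign y.1 * Perm.sign y.2 = 1 := hy
          rcases sg (Perm.sign y.1) with e1 | e1
          · rw [e1, one_mul] at hy2
            exact key (one_mem R) (by simp [e1]) (by simp [hy2])
          · refine key hr (by rw [er, e1]) ?_
            rcases sg (Perm.sign y.2) with e3 | e3 <;> simp_all
  · have hp' : ∀ r ∈ R, Perm.sign r.1 = 1 := fun r hr =>
      (sg _).resolve_right fun e => hp ⟨r, hr, e⟩
    refine Or.inl ⟨hp', le_antisymm (fun y hy => ?_) fun y hy => ?_⟩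
    · exact ⟨hp' y hy, (sg _).resolve_right fun e => hp (hq ⟨y, hy, hp' y hy, e⟩)⟩
    · have e1 : Perm.sign y.1 = 1 := hy.1
      have e2 : Perm.sign y.2 = 1 := hy.2
      exact key (one_mem R) (by simp [e1]) (by simp [e2])

end perm

variable {G : Type*} [Group G]

/-- The action of a point stabiliser on the remaining points. -/
def sg {M B : Subgroup G} {X : Type*} (ρ : M →* Perm X) (x : X) (hB : B ≤ M)
    (hx : ∀ m : M, (m : G) ∈ B ↔ ρ m x = x) : B →* Perm {y // y ≠ x} :=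
  (res x).comp ((ρ.comp (inclusion hB)).codRestrict _ fun b => (hx (inclusion hB b)).1 b.2)

section sg

variable {M B K : Subgroup G} {X : Type*} [Fintype X] [DecidableEq X] {ρ : M →* Perm X} {x : X}
  (hB : B ≤ M) (hx : ∀ m : M, (m : G) ∈ B ↔ ρ m x = x)

omit [Fintype X] [DecidableEq X] in
theorem sd_sg (h : Sd M K ρ) (hK : K ≤ B) : Sd B K (sg ρ x hB hx) := by
  refine ⟨hK, fun b => ⟨fun e => (h.ker (inclusion hB b)).1 (res_eq_one e), fun e => ?_⟩⟩
  have : (ρ.comp (inclusion hB)).codRestrict (MulAction.stabilizer (Perm X) x)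
      (fun b => (hx (inclusion hB b)).1 b.2) b = 1 :=
    Subtype.ext ((h.ker (inclusion hB b)).2 e)
  rw [sg, MonoidHom.comp_apply, this, map_one]

theorem sign_sg (b : B) : Perm.sign (sg ρ x hB hx b) = Perm.sign (ρ (inclusion hB b)) :=
  sign_res _

theorem alt_sg (ha : alternatingGroup X ≤ ρ.range) :
    alternatingGroup {y // y ≠ x} ≤ (sg ρ x hB hx).range := by
  intro t ht
  obtain ⟨g, rfl⟩ := res_surj t
  have h1 : g.1 ∈ alternatingGroup X := by
    rw [Perm.mem_alternatingGroup, ← sign_res]; exact ht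
  obtain ⟨m, hm⟩ := ha h1
  refine ⟨⟨m, (hx m).2 (hm ▸ g.2)⟩, congrArg (res x) (Subtype.ext hm)⟩

end sg

namespace Hyp

variable [Finite G] {M₁ M₂ : Subgroup G} {X₁ X₂ : Type*} [Fintype X₁] [DecidableEq X₁]
  [Fintype X₂] [DecidableEq X₂] {ρ₁ : M₁ →* Perm X₁} {ρ₂ : M₂ →* Perm X₂} {x₁ : X₁} {x₂ : X₂}
  {d : ℕ} (h : Hyp M₁ M₂ ρ₁ ρ₂ x₁ x₂ d)
include h

theorem exists_phi : ∃ φ : M₁ →* Perm {y // y ≠ x₂},
    (∀ m, ρ₁ m = 1 → φ m = 1 → m = 1) ∧
    (∀ s ∈ alternatingGroup X₁, ∃ m, ρ₁ m = s ∧ φ m = 1) ∧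
    (∀ t ∈ alternatingGroup {y // y ≠ x₂}, ∃ m, ρ₁ m = 1 ∧ φ m = t) ∧
    ((∃ m, ρ₁ m = 1 ∧ Perm.sign (φ m) = -1) → ∃ m, Perm.sign (ρ₁ m) = -1) := by
  have hd := h.d6
  obtain ⟨hE, ha2⟩ := h.main
  have hx1 : ∀ m : M₁, (m : G) ∈ M₁ ⊓ M₂ ↔ ρ₁ m x₁ = x₁ := fun m =>
    ⟨fun e => (h.b₁ m).1 e.2, fun e => ⟨m.2, (h.b₁ m).2 e⟩⟩
  have hx2 : ∀ m : M₂, (m : G) ∈ M₁ ⊓ M₂ ↔ ρ₂ m x₂ = x₂ := fun m =>
    ⟨fun e => (h.b₂ m).1 e.1, fun e => ⟨(h.b₂ m).2 e, m.2⟩⟩
  let σ₁ := sg ρ₁ x₁ inf_le_left hx1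
  let σ₂ := sg ρ₂ x₂ inf_le_right hx2
  have s1 : Sd _ _ σ₁ := sd_sg inf_le_left hx1 h.s₁ K₁_le
  have s2 : Sd _ _ σ₂ := sd_sg inf_le_right hx2 h.s₂ K₂_le
  have c1 : Nat.card {y // y ≠ x₁} = d - 1 := by rw [card_compl_pt, h.c₁]
  have c2 : Nat.card {y // y ≠ x₂} = d - 1 := by rw [card_compl_pt, h.c₂]
  have hK1 : alternatingGroup _ ≤ img σ₂ (K M₁ M₂) :=
    s2.alt_le_img (by omega) (alt_sg _ _ ha2) K₁_le K₁_n fun hle => h.ne (by
      rw [← hE, left_eq_inf]; exact hle)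
  have hc1 := s2.card_img K₁_le
  rw [hE, card_bot, one_mul] at hc1
  have hc2 := s1.card_img K₂_le
  rw [inf_comm, hE, card_bot, one_mul] at hc2
  have hc12 : Nat.card (K M₁ M₂) ≤ Nat.card (K M₂ M₁) := by
    obtain ⟨g, hg⟩ := h.pair.conj
    have hle : g •ᶜ K M₁ M₂ ≤ M₂ := by
      conv_rhs => rw [hg]
      exact cj_mono g K_le_left
    have hn : M₂ ≤ normalizer ((g •ᶜ K M₁ M₂ : Subgroup G) : Set G) := by
      rw [← cj_normalizer]
      conv_lhs => rw [hg]
      exact cj_mono g K_normal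
    rw [← card_cj g]
    refine card_le_of_le ?_
    by_contra hcon
    have h1 := h.s₂.card_ge (by rw [h.c₂]; omega) hle
      (h.s₂.alt_le_img (by rw [h.c₂]; omega) ha2 hle hn hcon)
    have h2 := card_le_card_group (img σ₂ (K M₁ M₂))
    rw [Nat.card_perm, c2, ← hc1] at h2
    rw [card_cj, h.c₂] at h1
    have h3 := fact_lt (d := d) (by omega)
    have h4 : 0 < Nat.card (g •ᶜ K M₁ M₂ ⊓ K M₂ M₁ : Subgroup G) := Nat.card_pos
    nlinarith
  set C := M₁ ⊓ centralizer (K M₁ M₂ : Set G) with hC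
  have hCn : M₁ ≤ normalizer (C : Set G) :=
    le_normalizer_inf le_normalizer (le_normalizer_centralizer K_normal)
  have := normal_subgroupOf_of_le_normalizer hCn
  let π : (M₁ ⊓ M₂ : Subgroup G) →* M₁ ⧸ C.subgroupOf M₁ :=
    (QuotientGroup.mk' _).comp (inclusion inf_le_left)
  have hπ : Function.Surjective π := by
    intro q
    obtain ⟨m, rfl⟩ := QuotientGroup.mk_surjective q
    have h1 := le_sup_of_alt (by rw [h.c₁]; omega) h.alt_cent h.b₁ m.2
    rw [sup_comm, mem_sup_of_normalizes_right (inf_le_left.trans hCn)] at h1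
    obtain ⟨y, hy, z, hz, e⟩ := h1
    refine ⟨⟨y, hy⟩, QuotientGroup.eq.2 ?_⟩
    rw [mem_subgroupOf]
    simpa [← e] using hz
  have hker : π.ker ≤ σ₂.ker := by
    intro b hb
    have hbC : (b : G) ∈ C := (QuotientGroup.eq_one_iff (N := C.subgroupOf M₁) _).1 hb
    rw [MonoidHom.mem_ker, ← mem_bot, ← cent_alt (X := {y // y ≠ x₂}) (by omega)]
    intro t ht
    obtain ⟨k, hk, rfl⟩ := hK1 ht
    rw [← map_mul, ← map_mul]
    exact congrArg σ₂ (Subtype.ext (hbC.2 k hk))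
  let φ₀ := π.liftOfSurjective hπ ⟨σ₂, hker⟩
  have hφ₀ : ∀ b, φ₀ (π b) = σ₂ b := fun b => π.liftOfRightInverse_comp_apply _ _ ⟨σ₂, hker⟩ b
  have hφ : ∀ (m : M₁) (hm : (m : G) ∈ M₁ ⊓ M₂),
      (φ₀.comp (QuotientGroup.mk' (C.subgroupOf M₁))) m = σ₂ ⟨m, hm⟩ := fun m hm => hφ₀ ⟨m, hm⟩
  refine ⟨φ₀.comp (QuotientGroup.mk' _), fun m e1 e2 => ?_, fun s hs => ?_, fun t ht => ?_, ?_⟩
  · have h1 := (h.s₁.ker m).1 e1
    rw [hφ m (K₁_le h1)] at e2
    have h2 : (m : G) ∈ K M₁ M₂ ⊓ K M₂ M₁ := ⟨h1, (s2.ker _).1 e2⟩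
    rw [hE, mem_bot] at h2
    exact Subtype.ext h2
  · obtain ⟨m, hm, rfl⟩ := h.alt_cent hs
    refine ⟨m, rfl, ?_⟩
    rw [MonoidHom.comp_apply, QuotientGroup.mk'_apply,
      (QuotientGroup.eq_one_iff (N := C.subgroupOf M₁) m).2 hm, map_one]
  · obtain ⟨k, hk, rfl⟩ := hK1 ht
    exact ⟨⟨k, k.2.1⟩, (h.s₁.ker _).2 hk, hφ _ k.2⟩
  · rintro ⟨m, e1, e2⟩
    by_contra hcon
    push Not at hcon
    have h1 := (h.s₁.ker m).1 e1
    rw [hφ m (K₁_le h1)] at e2
    have h2 : img σ₁ (K M₂ M₁) ≤ alternatingGroup _ := by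
      rintro _ ⟨k, -, rfl⟩
      rw [Perm.mem_alternatingGroup, sign_sg]
      exact (Int.units_eq_one_or _).resolve_right (hcon _)
    have h3 := card_le_of_le h2
    have h4 : alternatingGroup _ < img σ₂ (K M₁ M₂) := lt_of_le_of_ne hK1 fun e => by
      have : σ₂ ⟨m, K₁_le h1⟩ ∈ img σ₂ (K M₁ M₂) := ⟨_, h1, rfl⟩
      rw [← e, Perm.mem_alternatingGroup, e2] at this
      exact absurd this (by decide)
    have h5 : Nat.card (alternatingGroup {y // y ≠ x₂}) < Nat.card (img σ₂ (K M₁ M₂)) :=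
      lt_of_le_of_ne (card_le_of_le h4.le) fun e => h4.ne (eq_of_le_of_card_ge h4.le e.ge)
    have h6 := two_mul_card_alt (X := {y // y ≠ x₁}) (by omega)
    have h7 := two_mul_card_alt (X := {y // y ≠ x₂}) (by omega)
    rw [c1] at h6
    rw [c2] at h7
    omega

theorem final :
    (ρ₁.range.index = 2 ∧
      Nonempty (M₁ ≃* alternatingGroup (Fin d) × alternatingGroup (Fin (d - 1)))) ∨
    (ρ₁.range = ⊤ ∧
      (Nonempty (M₁ ≃* Perm (Fin d) × Perm (Fin (d - 1))) ∨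
       Nonempty (M₁ ≃* Perm (Fin d) × alternatingGroup (Fin (d - 1))) ∨
       Nonempty (M₁ ≃* ((Perm.sign.comp (MonoidHom.fst (Perm (Fin d)) (Perm (Fin (d - 1))))) *
         (Perm.sign.comp (MonoidHom.snd (Perm (Fin d)) (Perm (Fin (d - 1)))))).ker))) := by
  have hd := h.d6
  obtain ⟨φ, h1, h2, h3, h4⟩ := h.exists_phi
  let e₁ : X₁ ≃ Fin d := Finite.equivFinOfCardEq h.c₁
  let e₂ : {y // y ≠ x₂} ≃ Fin (d - 1) := Finite.equivFinOfCardEq (by rw [card_compl_pt, h.c₂])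
  let ψ : M₁ →* Perm (Fin d) × Perm (Fin (d - 1)) :=
    (e₁.permCongrHom.toMonoidHom.comp ρ₁).prod (e₂.permCongrHom.toMonoidHom.comp φ)
  have hψ : ∀ m, ψ m = (e₁.permCongr (ρ₁ m), e₂.permCongr (φ m)) := fun m => rfl
  have hinj : Function.Injective ψ := by
    rw [injective_iff_map_eq_one]
    intro m hm
    exact h1 m ((map_eq_one_iff _ e₁.permCongrHom.injective).1 (congrArg Prod.fst hm))
      ((map_eq_one_iff _ e₂.permCongrHom.injective).1 (congrArg Prod.snd hm))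
  have one1 : e₁.permCongr 1 = 1 := map_one e₁.permCongrHom
  have one2 : e₂.permCongr 1 = 1 := map_one e₂.permCongrHom
  let E := MonoidHom.ofInjective hinj
  have : Nontrivial X₁ := Finite.one_lt_card_iff_nontrivial.1 (by rw [h.c₁]; omega)
  rcases classify (R := ψ.range) (fun s hs => by
      obtain ⟨m, e1, e2⟩ := h2 (e₁.permCongr.symm s) (by
        rw [Perm.mem_alternatingGroup, permCongr_symm, Perm.sign_permCongr]; exact hs)
      exact ⟨m, by rw [hψ, e1, e2, one2, apply_symm_apply]⟩) (fun t ht => by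
      obtain ⟨m, e1, e2⟩ := h3 (e₂.permCongr.symm t) (by
        rw [Perm.mem_alternatingGroup, permCongr_symm, Perm.sign_permCongr]; exact ht)
      exact ⟨m, by rw [hψ, e1, e2, one1, apply_symm_apply]⟩) (by
      rintro ⟨_, ⟨m, rfl⟩, e1, e2⟩
      simp only [hψ, Perm.sign_permCongr] at e1 e2
      obtain ⟨m', e3, e4⟩ := h2 _ e1
      obtain ⟨u, hu⟩ := h4 ⟨m'⁻¹ * m, by rw [map_mul, map_inv, e3, inv_mul_cancel], by
        rw [map_mul, map_inv, e4, inv_one, one_mul, e2]⟩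
      exact ⟨_, ⟨u, rfl⟩, by simpa only [hψ, Perm.sign_permCongr] using hu⟩) with ⟨a1, a2⟩ | ⟨a1, a2⟩
  · refine Or.inl ⟨?_, ⟨(E.trans (MulEquiv.subgroupCongr a2)).trans (prodEquiv _ _)⟩⟩
    rw [← alternatingGroup.index_eq_two (α := X₁)]
    congr 1
    refine le_antisymm ?_ h.alt
    rintro _ ⟨m, rfl⟩
    rw [Perm.mem_alternatingGroup]
    simpa only [hψ, Perm.sign_permCongr] using a1 _ ⟨m, rfl⟩
  · refine Or.inr ⟨?_, ?_⟩
    · obtain ⟨_, ⟨m, rfl⟩, hm⟩ := a1
      simp only [hψ, Perm.sign_permCongr] at hm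
      rw [eq_top_iff]
      intro s _
      rcases Int.units_eq_one_or (Perm.sign s) with e | e
      · exact h.alt e
      · have : s * (ρ₁ m)⁻¹ ∈ ρ₁.range := h.alt (by
          rw [Perm.mem_alternatingGroup, map_mul, map_inv, hm, e]; simp)
        simpa using mul_mem this (show ρ₁ m ∈ ρ₁.range from ⟨m, rfl⟩)
    · rcases a2 with a2 | a2 | a2
      · exact Or.inl ⟨(E.trans (MulEquiv.subgroupCongr a2)).trans topEquiv⟩
      · exact Or.inr (Or.inl ⟨((E.trans (MulEquiv.subgroupCongr a2)).trans (prodEquiv _ _)).trans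
          (topEquiv.prodCongr (MulEquiv.refl _))⟩)
      · exact Or.inr (Or.inr ⟨E.trans (MulEquiv.subgroupCongr a2)⟩)

end Hyp

end CL.AltSub
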