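import Mathlib
import Cfsg.Agent.SOLV.PGroupCyclicMax

/-! Doubly transitive groups of degree `p ^ 2 + 1` (Atkinson), part 1. -/

set_option autoImplicit false
set_option linter.unusedSectionVars false
open Subgroup MulAction

namespace CL.Atk
variable {G Ω : Type*} [Group G] [MulAction G Ω] {p : ℕ}

/-- a faithful doubly transitive group of degree `p ^ 2 + 1` -/
structure Two (G Ω : Type*) [Group G] [MulAction G Ω] (p : ℕ) : Prop where
  prime : p.Prime
  faith : ∀ g : G, (∀ x : Ω, g • x = x) → g = 1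
  two : ∀ {a b c d : Ω}, a ≠ b → c ≠ d → ∃ g : G, g • a = c ∧ g • b = d
  card : Nat.card Ω = p ^ 2 + 1

/-- an invariant family of block systems of the point stabilisers -/
structure Sys (G Ω : Type*) [Group G] [MulAction G Ω] (p : ℕ) where
  r : Ω → Ω → Ω → Prop
  equi : ∀ (g : G) {a b c}, r a b c → r (g • a) (g • b) (g • c)
  ne : ∀ {a b c}, r a b c → c ≠ a
  refl : ∀ {a b}, b ≠ a → r a b b
  symm : ∀ {a b c}, r a b c → r a c b
  trans : ∀ {a b c d}, r a b c → r a c d → r a b d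
  card : ∀ {a b}, b ≠ a → {c | r a b c}.ncard = p

theorem Sys.equi' (Q : Sys G Ω p) {g : G} {a b c : Ω} (hg : g • a = a) (h : Q.r a b c) :
    Q.r a (g • b) (g • c) := by simpa [hg] using Q.equi g h

theorem smul_ne {g : G} {a b : Ω} (hg : g • a = a) (h : b ≠ a) : g • b ≠ a := fun e =>
  h (smul_left_cancel g (e.trans hg.symm))

theorem card_eq_orbit (X : Subgroup G) (b : Ω) (O : Set Ω)
    (h : ∀ c, c ∈ O ↔ ∃ x ∈ X, x • b = c) :
    Nat.card X = O.ncard * Nat.card (X ⊓ stabilizer G b : Subgroup G) := by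
  have h1 : O = orbit X b := by
    ext c; rw [h]
    exact ⟨fun ⟨x, hx, e⟩ => ⟨⟨x, hx⟩, e⟩, fun ⟨x, e⟩ => ⟨x, x.2, e⟩⟩
  have h2 : stabilizer X b = (X ⊓ stabilizer G b).subgroupOf X := by
    ext x; simp [mem_subgroupOf, Subgroup.smul_def]
  rw [h1, ← index_stabilizer, ← (stabilizer X b).card_mul_index, mul_comm, h2,
    Nat.card_congr (subgroupOfEquivOfLe inf_le_left).toEquiv]

theorem Two.finite (h : Two G Ω p) : Finite Ω := Nat.finite_of_card_ne_zero (by rw [h.card]; omega)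

theorem Two.ncard_ne (h : Two G Ω p) (a : Ω) : {c | c ≠ a}.ncard = p ^ 2 := by
  have := h.finite
  have := Set.ncard_add_ncard_compl ({a} : Set Ω)
  rw [Set.ncard_singleton, h.card] at this
  have e : ({a} : Set Ω)ᶜ = {c | c ≠ a} := rfl
  rw [e] at this
  omega

/-- no Steiner system with lines of size `p + 1` -/
theorem Two.design (h : Two G Ω p) (Δ : Set Ω) (hΔ : Δ.ncard = p + 1) {a b : Ω} (hab : b ≠ a)
    (ha : a ∈ Δ) (h1 : ∀ g : G, g • a = a → g • b = b → ∀ x ∈ Δ, g • x ∈ Δ)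
    (h2 : ∀ c ∈ Δ, c ≠ a → ∃ g : G, g • a = a ∧ g • b = c ∧ ∀ x ∈ Δ, g • x ∈ Δ)
    (h3 : ∃ g : G, g • a ≠ a ∧ ∀ x ∈ Δ, g • x ∈ Δ) : False := by
  have := h.finite
  have hp := h.prime.two_le
  let N : Subgroup G :=
    { carrier := {g | ∀ x ∈ Δ, g • x ∈ Δ}
      one_mem' := fun x hx => by simpa using hx
      mul_mem' := fun {g k} hg hk x hx => by rw [mul_smul]; exact hg _ (hk x hx)
      inv_mem' := fun {g} hg x hx => by
        have hb : Set.BijOn (g • ·) Δ Δ := (Set.toFinite Δ).injOn_iff_bijOn_of_mapsTo hg |>.1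
          (MulAction.injective g).injOn
        obtain ⟨y, hy, rfl⟩ := hb.surjOn hx
        simpa using hy }
  have t1 : ∀ c ∈ Δ, ∃ n ∈ N, n • a = c := fun c hc => by
    by_cases hca : c = a
    · exact ⟨1, one_mem _, by simp [hca]⟩
    obtain ⟨g0, hg0, hg0'⟩ := h3
    obtain ⟨ge, -, e2, e3⟩ := h2 _ (hg0' a ha) hg0
    obtain ⟨gc, -, c2, c3⟩ := h2 c hc hca
    refine ⟨gc * ge⁻¹ * g0, mul_mem (mul_mem c3 (inv_mem e3)) hg0', ?_⟩
    rw [mul_smul, mul_smul, ← e2, inv_smul_smul, c2]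
  have t2 : ∀ c ∈ Δ, ∀ d ∈ Δ, d ≠ c → ∃ n ∈ N, n • a = c ∧ n • b = d := fun c hc d hd hdc => by
    obtain ⟨n, hn, e⟩ := t1 c hc
    obtain ⟨g, g1, g2, g3⟩ := h2 (n⁻¹ • d) (inv_mem hn d hd) (fun h' => hdc (by
      rw [← e, ← h', smul_inv_smul]))
    exact ⟨n * g, mul_mem hn g3, by rw [mul_smul, g1, e], by rw [mul_smul, g2, smul_inv_smul]⟩
  have key : ∀ g k : G, ∀ x ∈ Δ, ∀ y ∈ Δ, ∀ x' ∈ Δ, ∀ y' ∈ Δ, y ≠ x → g • x = k • x' →
      g • y = k • y' → k⁻¹ * g ∈ N := by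
    intro g k x hx y hy x' hx' y' hy' hne e1 e2
    obtain ⟨n, hn, n1, n2⟩ := t2 x hx y hy hne
    obtain ⟨m, hm, m1, m2⟩ := t2 x' hx' y' hy' (fun h' => hne (smul_left_cancel g (by
      rw [e1, e2, h'])))
    have : m⁻¹ * (k⁻¹ * g) * n ∈ N := h1 _
      (by simp only [mul_smul]; rw [n1, e1, inv_smul_smul, ← m1, inv_smul_smul])
      (by simp only [mul_smul]; rw [n2, e2, inv_smul_smul, ← m2, inv_smul_smul])
    simpa [mul_assoc] using mul_mem (mul_mem hm this) (inv_mem hn)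
  obtain ⟨δ, hδ⟩ : ∃ δ, δ ∉ Δ := by
    by_contra hc
    push Not at hc
    rw [Set.eq_univ_of_forall hc, Set.ncard_univ, h.card] at hΔ
    nlinarith
  have hb : b ∈ Δ := by
    obtain ⟨c, hc, hca⟩ := Set.exists_ne_of_one_lt_ncard (by omega : 1 < Δ.ncard) a
    obtain ⟨g, -, g2, g3⟩ := h2 c hc hca
    have := (inv_mem (show g ∈ N from g3)) c hc
    rwa [← g2, inv_smul_smul] at this
  choose g hg using fun γ : Δ => h.two hab.symm (show δ ≠ γ from fun e => hδ (e ▸ γ.2))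
  have hinj : Function.Injective fun q : Δ × (Δ \ {a} : Set Ω) => g q.1 • (q.2 : Ω) := by
    rintro ⟨γ, x⟩ ⟨γ', x'⟩ e
    simp only at e
    have hγ : γ = γ' := by
      by_contra hne
      have k1 := key (g γ) (g γ') a ha x x.2.1 a ha x' x'.2.1 x.2.2
        ((hg γ).1.trans (hg γ').1.symm) e
      have hy : (g γ')⁻¹ • (γ : Ω) ∈ Δ := by
        have := k1 b hb
        rwa [mul_smul, (hg γ).2] at this
      have k2 := key 1 (g γ') γ γ.2 γ' γ'.2 _ hy b hb (fun e' => hne (Subtype.ext e'.symm))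
        (by simp) (by simp [(hg γ').2])
      have := inv_mem k2 a ha
      simp only [mul_one, inv_inv, (hg γ').1] at this
      exact hδ this
    subst hγ
    exact Prod.ext rfl (Subtype.ext (smul_left_cancel _ e))
  have := Nat.card_le_card_of_injective _ hinj
  rw [Nat.card_prod, Nat.card_coe_set_eq, Nat.card_coe_set_eq, Set.ncard_sdiff_singleton_of_mem ha,
    hΔ, h.card] at this
  simp only [Nat.add_sub_cancel] at this
  nlinarith

variable [Finite G]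

theorem Two.card_stab (h : Two G Ω p) {a b : Ω} (hb : b ≠ a) :
    Nat.card (stabilizer G a) = p ^ 2 * Nat.card (stabilizer G a ⊓ stabilizer G b : Subgroup G) := by
  rw [card_eq_orbit (stabilizer G a) b {c | c ≠ a} fun c =>
    ⟨fun hc => (h.two hb.symm (Ne.symm hc)).imp fun _ hg => hg, fun ⟨x, hx, e⟩ => e ▸ smul_ne hx hb⟩,
    h.ncard_ne]

theorem Two.exists_S (h : Two G Ω p) {a : Ω} {T : Subgroup G} (hT : IsPGroup p T)
    (hTa : T ≤ stabilizer G a) : ∃ S : Subgroup G, T ≤ S ∧ S ≤ stabilizer G a ∧ IsPGroup p S ∧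
      ∀ b, b ≠ a → ∀ c, c ≠ a → ∃ s ∈ S, s • b = c := by
  have := Fact.mk h.prime
  have := h.finite
  obtain ⟨P, hP⟩ := (hT.comap_subtype (K := stabilizer G a)).exists_le_sylow
  refine ⟨(P : Subgroup (stabilizer G a)).map (stabilizer G a).subtype, fun t ht =>
    ⟨⟨t, hTa ht⟩, hP ht, rfl⟩, map_subtype_le _, P.isPGroup'.map _, fun b hb c hc => ?_⟩
  have hS : IsPGroup p ((P : Subgroup (stabilizer G a)).map (stabilizer G a).subtype) :=
    P.isPGroup'.map _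
  have hSa := map_subtype_le (P : Subgroup (stabilizer G a))
  have hcard : Nat.card ((P : Subgroup (stabilizer G a)).map (stabilizer G a).subtype) =
      p ^ (Nat.card (stabilizer G a)).factorization p := by
    rw [card_map_of_injective (subtype_injective _), P.card_eq_multiplicity]
  generalize (P : Subgroup (stabilizer G a)).map (stabilizer G a).subtype = S at hS hSa hcard ⊢
  have h1 := card_eq_orbit S b {c | ∃ x ∈ S, x • b = c} fun _ => Iff.rfl
  obtain ⟨k, hk⟩ := (hS.to_le (inf_le_left : S ⊓ stabilizer G b ≤ S)).exists_card_eq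
  have h2 := card_dvd_of_le (inf_le_inf_right (stabilizer G b) hSa)
  rw [hk, h.prime.pow_dvd_iff_le_factorization Nat.card_pos.ne'] at h2
  rw [h.card_stab hb, Nat.factorization_mul (pow_ne_zero _ h.prime.ne_zero) Nat.card_pos.ne',
    h.prime.factorization_pow] at hcard
  simp only [Finsupp.coe_add, Pi.add_apply, Finsupp.single_eq_same] at hcard
  have h3 : p ^ 2 ≤ {c | ∃ x ∈ S, x • b = c}.ncard := by
    rw [hcard, hk, pow_add] at h1
    refine Nat.le_of_mul_le_mul_right (c := p ^ k) ?_ (pow_pos h.prime.pos _)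
    rw [← h1]
    exact Nat.mul_le_mul_left _ (Nat.pow_le_pow_right h.prime.pos h2)
  have h4 : {c | ∃ x ∈ S, x • b = c} = {c | c ≠ a} :=
    Set.eq_of_subset_of_ncard_le (fun c ⟨x, hx, e⟩ => e ▸ smul_ne (hSa hx) hb)
      (by rw [h.ncard_ne]; exact h3)
  exact (h4.ge hc :)

/-- the stabiliser of a block -/
def Sys.blockStab (Q : Sys G Ω p) {a b : Ω} (hb : b ≠ a) : Subgroup G where
  carrier := {g | g • a = a ∧ Q.r a b (g • b)}
  one_mem' := ⟨one_smul _ _, by simpa using Q.refl hb⟩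
  mul_mem' := fun {g k} hg hk => ⟨by rw [mul_smul, hk.1, hg.1], by
    rw [mul_smul]; exact Q.trans hg.2 (Q.equi' hg.1 hk.2)⟩
  inv_mem' := fun {g} hg => ⟨inv_smul_eq_iff.2 hg.1.symm, by
    simpa using Q.symm (Q.equi' (inv_smul_eq_iff.2 hg.1.symm) hg.2)⟩

theorem Two.card_trans (h : Two G Ω p) {a : Ω} {S : Subgroup G} (hSa : S ≤ stabilizer G a)
    (htr : ∀ b, b ≠ a → ∀ c, c ≠ a → ∃ s ∈ S, s • b = c) {b : Ω} (hb : b ≠ a) :
    Nat.card S = p ^ 2 * Nat.card (S ⊓ stabilizer G b : Subgroup G) := by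
  rw [card_eq_orbit S b {c | c ≠ a} fun c =>
    ⟨fun hc => htr b hb c hc, fun ⟨x, hx, e⟩ => e ▸ smul_ne (hSa hx) hb⟩, h.ncard_ne]

theorem Two.card_block (Q : Sys G Ω p) {a : Ω} {S : Subgroup G} (hSa : S ≤ stabilizer G a)
    (htr : ∀ b, b ≠ a → ∀ c, c ≠ a → ∃ s ∈ S, s • b = c) {b : Ω} (hb : b ≠ a) :
    Nat.card (S ⊓ Q.blockStab hb : Subgroup G) =
      p * Nat.card (S ⊓ stabilizer G b : Subgroup G) := by
  rw [card_eq_orbit (S ⊓ Q.blockStab hb) b {c | Q.r a b c} fun c =>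
    ⟨fun hc => by
      obtain ⟨s, hs, rfl⟩ := htr b hb c (Q.ne hc)
      exact ⟨s, ⟨hs, hSa hs, hc⟩, rfl⟩,
      fun ⟨x, hx, e⟩ => e ▸ hx.2.2⟩, Q.card hb]
  congr 3
  ext x
  simp only [mem_inf, mem_stabilizer_iff]
  exact ⟨fun h => ⟨h.1.1, h.2⟩, fun h => ⟨⟨h.1, hSa h.1, by rw [h.2]; exact Q.refl hb⟩, h.2⟩⟩

theorem Two.relIndex_block (h : Two G Ω p) (Q : Sys G Ω p) {a : Ω} {S : Subgroup G}
    (hSa : S ≤ stabilizer G a) (htr : ∀ b, b ≠ a → ∀ c, c ≠ a → ∃ s ∈ S, s • b = c) {b : Ω}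
    (hb : b ≠ a) : (S ⊓ Q.blockStab hb).relIndex S = p := by
  have h1 := ((S ⊓ Q.blockStab hb).subgroupOf S).card_mul_index
  rw [Nat.card_congr (subgroupOfEquivOfLe inf_le_left).toEquiv, Two.card_block Q hSa htr hb,
    h.card_trans hSa htr hb] at h1
  have h2 : 0 < p * Nat.card (S ⊓ stabilizer G b : Subgroup G) :=
    Nat.mul_pos h.prime.pos Nat.card_pos
  refine Nat.eq_of_mul_eq_mul_left h2 (h1.trans ?_)
  ring

theorem Two.fixT (h : Two G Ω p) (Q : Sys G Ω p) {a b : Ω} (hb : b ≠ a) {T : Subgroup G}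
    (hT : IsPGroup p T) (hTa : T ≤ stabilizer G a) (hTb : T ≤ stabilizer G b) (hT0 : T ≠ ⊥)
    (hmax : ∀ X : Subgroup G, IsPGroup p X → X ≤ stabilizer G a → X ≤ stabilizer G b →
      Nat.card X ≤ Nat.card T) (c : Ω) : (∀ t ∈ T, t • c = c) ↔ c = a ∨ Q.r a b c := by
  have := Fact.mk h.prime
  have := h.finite
  have hblock : ∀ c, Q.r a b c → ∀ t ∈ T, t • c = c := by
    intro c hc t ht
    by_cases hcb : c = b
    · rw [hcb]; exact hTb ht
    have h1 := card_eq_orbit T c {d | ∃ x ∈ T, x • c = d} fun _ => Iff.rfl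
    obtain ⟨k, hk⟩ := hT.exists_card_eq
    obtain ⟨j, -, hj⟩ := (Nat.dvd_prime_pow h.prime).1 (Dvd.intro _ (h1.symm.trans hk))
    have h2 : {d | ∃ x ∈ T, x • c = d}.ncard < p := by
      rw [← Q.card hb]
      refine Set.ncard_lt_ncard ⟨?_, fun h' => ?_⟩
      · rintro _ ⟨x, hx, rfl⟩
        have := Q.equi' (hTa hx) hc
        rwa [show x • b = b from hTb hx] at this
      · obtain ⟨x, hx, e⟩ := h' (Q.refl hb)
        exact hcb (smul_left_cancel x (e.trans (show x • b = b from hTb hx).symm))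
    have h3 : j = 0 := by
      by_contra hj0
      rw [hj] at h2
      exact absurd h2 (not_lt.2 (Nat.le_self_pow hj0 p))
    rw [h3, pow_zero, Set.ncard_eq_one] at hj
    obtain ⟨d, hd⟩ := hj
    have e1 : t • c ∈ ({d} : Set Ω) := hd ▸ ⟨t, ht, rfl⟩
    have e2 : c ∈ ({d} : Set Ω) := hd ▸ ⟨1, one_mem _, one_smul _ _⟩
    exact e1.trans e2.symm
  refine ⟨fun hc => ?_, fun hc t ht => hc.elim (fun e => e ▸ hTa ht) fun hc => hblock c hc t ht⟩
  by_contra hcon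
  push Not at hcon
  obtain ⟨S, hTS, hSa, hS, htr⟩ := h.exists_S hT hTa
  have hSb : T = S ⊓ stabilizer G b := eq_of_le_of_card_ge (le_inf hTS hTb)
    (hmax _ (hS.to_le inf_le_left) (inf_le_left.trans hSa) inf_le_right)
  have hnorm : ∀ s ∈ S, (∀ t ∈ T, t • s • b = s • b) → s ∈ normalizer (T : Set G) := by
    intro s hs hfix
    refine inv_mem_iff.1 (mem_normalizer_fintype fun t ht => ?_)
    rw [hSb]
    refine mem_inf.2 ⟨mul_mem (mul_mem (inv_mem hs) (hTS ht)) (inv_mem (inv_mem hs)), ?_⟩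
    simp only [inv_inv, mem_stabilizer_iff, mul_smul]
    rw [hfix t ht, inv_smul_smul]
  obtain ⟨s, hs, rfl⟩ := htr b hb c hcon.1
  have hle : S ≤ normalizer (T : Set G) := by
    rw [← PCyc.sup_zpowers_eq_of_relIndex_prime h.prime inf_le_left
      (h.relIndex_block Q hSa htr hb) hs fun h' => hcon.2 h'.2.2]
    exact sup_le (fun x hx => hnorm x hx.1 (hblock _ hx.2.2)) (zpowers_le.2 (hnorm s hs hc))
  refine hT0 ((eq_bot_iff_forall T).2 fun t ht => h.faith t fun x => ?_)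
  by_cases hx : x = a
  · rw [hx]; exact hTa ht
  obtain ⟨u, hu, rfl⟩ := htr b hb x hx
  have := hTb ((mem_normalizer_iff.1 (inv_mem (hle hu)) t).1 ht)
  simp only [inv_inv, mem_stabilizer_iff, mul_smul] at this
  exact inv_smul_eq_iff.1 this

/-- two-point stabilisers have order prime to `p` -/
theorem Two.pbot (h : Two G Ω p) (Q : Sys G Ω p) {a b : Ω} (hb : b ≠ a) {X : Subgroup G}
    (hX : IsPGroup p X) (hXa : X ≤ stabilizer G a) (hXb : X ≤ stabilizer G b) : X = ⊥ := by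
  have := h.finite
  obtain ⟨T, ⟨hT, hTa, hTb⟩, hmax⟩ := Set.exists_max_image
    {T : Subgroup G | IsPGroup p T ∧ T ≤ stabilizer G a ∧ T ≤ stabilizer G b}
    (fun T => Nat.card T) (Set.toFinite _) ⟨X, hX, hXa, hXb⟩
  by_cases hT0 : T = ⊥
  · have := hmax X ⟨hX, hXa, hXb⟩
    rw [hT0, card_bot] at this
    exact eq_bot_of_card_le _ this
  exfalso
  have f1 := h.fixT Q hb hT hTa hTb hT0 fun X h1 h2 h3 => hmax X ⟨h1, h2, h3⟩
  have f2 := h.fixT Q hb.symm hT hTb hTa hT0 fun X h1 h2 h3 => hmax X ⟨h1, h3, h2⟩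
  refine h.design (insert a {c | Q.r a b c}) ?_ hb (Or.inl rfl) ?_ ?_ ?_
  · rw [Set.ncard_insert_of_notMem (s := {c | Q.r a b c}) (fun h' => Q.ne h' rfl), Q.card hb]
  · rintro g ga gb x (rfl | hx)
    · exact Or.inl ga
    · exact Or.inr (by simpa [gb] using Q.equi' ga hx)
  · rintro c (rfl | hc) hca
    · exact (hca rfl).elim
    obtain ⟨g, ga, gb⟩ := h.two hb.symm hca.symm
    refine ⟨g, ga, gb, ?_⟩
    rintro x (rfl | hx)
    · exact Or.inl ga
    · exact Or.inr (Q.trans hc (gb ▸ Q.equi' ga hx))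
  · obtain ⟨c, hc, hca⟩ := Set.exists_ne_of_one_lt_ncard
      (by rw [Q.card hb.symm]; exact h.prime.one_lt : 1 < {c | Q.r b a c}.ncard) a
    obtain ⟨g, gb, ga⟩ := h.two hb (Q.ne hc).symm
    refine ⟨g, ga ▸ hca, fun x hx => (f1 _).1 ((f2 _).2 ?_)⟩
    rcases (f2 _).1 ((f1 x).2 hx) with rfl | hx
    · exact Or.inl gb
    · exact Or.inr (Q.trans hc (ga ▸ Q.equi' gb hx))

/-- the regular Sylow subgroup of a point stabiliser -/
structure Reg (Q : Sys G Ω p) (a : Ω) (S : Subgroup G) (z : G) : Prop where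
  fix : ∀ s ∈ S, s • a = a
  comm : ∀ s ∈ S, ∀ t ∈ S, Commute s t
  tr : ∀ b, b ≠ a → ∀ c, c ≠ a → ∃ s ∈ S, s • b = c
  free : ∀ s ∈ S, ∀ b, b ≠ a → s • b = b → s = 1
  card : Nat.card S = p ^ 2
  mem : z ∈ S
  ord : orderOf z = p
  iff : ∀ b c, b ≠ a → (Q.r a b c ↔ ∃ w ∈ zpowers z, w • b = c)

theorem Two.exists_reg (h : Two G Ω p) (Q : Sys G Ω p) (a : Ω) :
    ∃ (S : Subgroup G) (z : G), Reg Q a S z := by
  have := Fact.mk h.prime
  have := h.finite
  obtain ⟨S, -, hSa, hS, htr⟩ := h.exists_S (a := a) IsPGroup.of_bot bot_le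
  have hbot : ∀ b, b ≠ a → S ⊓ stabilizer G b = ⊥ := fun b hb =>
    h.pbot Q hb (hS.to_le inf_le_left) (inf_le_left.trans hSa) inf_le_right
  obtain ⟨b, hb⟩ : ∃ b, b ≠ a := (Set.nonempty_of_ncard_ne_zero (s := {c | c ≠ a})
    (by rw [h.ncard_ne]; exact pow_ne_zero _ h.prime.ne_zero))
  have hcard : Nat.card S = p ^ 2 := by rw [h.card_trans hSa htr hb, hbot b hb, card_bot, mul_one]
  have hcomm : ∀ s ∈ S, ∀ t ∈ S, Commute s t := fun s hs t ht => congrArg Subtype.val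
    ((IsPGroup.isMulCommutative_of_card_eq_prime_sq hcard).is_comm.comm ⟨s, hs⟩ ⟨t, ht⟩)
  have hZ : Nat.card (S ⊓ Q.blockStab hb : Subgroup G) = p := by
    rw [Two.card_block Q hSa htr hb, hbot b hb, card_bot, mul_one]
  obtain ⟨z, hz⟩ := exists_prime_orderOf_dvd_card' (G := (S ⊓ Q.blockStab hb : Subgroup G)) p
    (by rw [hZ])
  have hzo : orderOf (z : G) = p := by rw [orderOf_coe, hz]
  have hzp : zpowers (z : G) = S ⊓ Q.blockStab hb :=
    eq_of_le_of_card_ge (zpowers_le.2 z.2) (by rw [Nat.card_zpowers, hzo, hZ])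
  refine ⟨S, z, fun s hs => hSa hs, hcomm, htr, fun s hs c hc e =>
    mem_bot.1 (hbot c hc ▸ ⟨hs, e⟩), hcard, z.2.1, hzo, fun c d hc => ?_⟩
  obtain ⟨s, hs, rfl⟩ := htr b hb c hc
  rw [hzp]
  constructor
  · intro hr
    obtain ⟨w, hw, rfl⟩ := htr _ hc d (Q.ne hr)
    refine ⟨w, ⟨hw, hSa hw, ?_⟩, rfl⟩
    have := Q.equi' (inv_smul_eq_iff.2 (show s • a = a from hSa hs).symm) hr
    rwa [inv_smul_smul, ← mul_smul w, (hcomm w hw s hs).eq, mul_smul, inv_smul_smul] at this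
  · rintro ⟨w, hw, rfl⟩
    rw [← mul_smul, (hcomm w hw.1 s hs).eq, mul_smul]
    exact Q.equi' (hSa hs) hw.2.2

end CL.Atk
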