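import Cfsg.Agent.PERM.Atk1
import Cfsg.Agent.PERM.SRing

/-! Doubly transitive groups of degree `p ^ 2 + 1`, part 2: a cyclotomic argument. -/

set_option autoImplicit false
set_option linter.unusedSectionVars false
open Subgroup MulAction Finset

namespace CL.Atk

theorem lin_root {p : ℕ} [hp : Fact p.Prime] {ζ : ℂ} (hζ : IsPrimitiveRoot ζ p) (α : ZMod p → ℤ)
    (h : ∑ t, (α t : ℂ) * ζ ^ t.val = 0) (s t : ZMod p) : α s = α t := by
  obtain ⟨n, rfl⟩ : ∃ n, p = n + 1 := ⟨p - 1, (Nat.succ_pred_eq_of_pos hp.out.pos).symm⟩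
  exact (hζ.sum_eq_zero_iff_forall_eq_int hp.out α).1 h s t

theorem cyc_pure {p : ℕ} [hp : Fact p.Prime] {ζ : ℂ} (hζ : IsPrimitiveRoot ζ p)
    (D : Finset (ZMod p)) (hne : D.Nonempty) (hnu : D ≠ univ)
    (h : ∀ j : ZMod p, j ≠ 0 → (∑ i ∈ D, ζ ^ (j * i).val) ^ p = (∑ i ∈ D, ζ ^ i.val) ^ p) :
    ∃ c, D = {c} ∨ D = {c}ᶜ := by
  classical
  have E : ∀ s t : ZMod p, ζ ^ (s + t).val = ζ ^ s.val * ζ ^ t.val := fun s t => by
    rw [ZMod.val_add, ← pow_eq_pow_mod _ hζ.pow_eq_one, pow_add]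
  have ind : ∀ (e : ZMod p ≃ ZMod p), ∑ t, ((if e.symm t ∈ D then 1 else 0 : ℤ) : ℂ) * ζ ^ t.val =
      ∑ i ∈ D, ζ ^ (e i).val := fun e => by
    rw [← e.sum_comp]
    simp [Finset.sum_ite_mem]
  obtain ⟨d, hd⟩ := hne
  have h0 : ∑ i ∈ D, ζ ^ i.val ≠ 0 := fun h0 => hnu (eq_univ_of_forall fun t => by
    have := lin_root hζ (fun t => if t ∈ D then 1 else 0) ((ind (Equiv.refl _)).trans h0) t d
    by_contra ht
    simp [hd, ht] at this)
  have hk : (D.card : ZMod p) ≠ 0 := by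
    rw [Ne, ZMod.natCast_eq_zero_iff]
    refine Nat.not_dvd_of_pos_of_lt (card_pos.2 ⟨d, hd⟩) ?_
    simpa using card_lt_card (ssubset_univ_iff.2 hnu)
  have key : ∀ j : ZMod p, j ≠ 0 → ∀ i, i ∈ D ↔
      j * (i - (∑ x ∈ D, x) / D.card) + (∑ x ∈ D, x) / D.card ∈ D := by
    intro j hj
    obtain ⟨c, -, hc⟩ := hζ.eq_pow_of_pow_eq_one
      (ξ := (∑ i ∈ D, ζ ^ (j * i).val) / ∑ i ∈ D, ζ ^ i.val)
      (by rw [div_pow, h j hj, div_self (pow_ne_zero _ h0)])
    rw [eq_div_iff h0] at hc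
    have h1 := lin_root hζ (fun t => (if (Equiv.mulLeft₀ j hj).symm t ∈ D then 1 else 0) -
      (if (Equiv.addRight (c : ZMod p)).symm t ∈ D then 1 else 0)) (by
        simp only [Int.cast_sub, sub_mul, sum_sub_distrib]
        rw [ind, ind, sub_eq_zero]
        simp only [Equiv.mulLeft₀_apply, Equiv.coe_addRight, E]
        rw [← hc, mul_sum]
        refine sum_congr rfl fun i _ => ?_
        rw [ZMod.val_natCast, ← pow_eq_pow_mod _ hζ.pow_eq_one, mul_comm])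
    have h2 : ∀ i, i ∈ D ↔ j * i - c ∈ D := fun i => by
      have a1 := h1 (j * i) (j * d)
      have a2 := h1 (j * i) (d + c)
      simp only [Equiv.mulLeft₀_symm_apply, inv_mul_cancel_left₀ hj, Equiv.addRight_symm,
        Equiv.coe_addRight, hd, if_true, add_sub_cancel_right, ← sub_eq_add_neg] at a1 a2
      by_contra hcon
      split_ifs at a1 a2 <;> first | omega | tauto
    have h3 : ∑ i ∈ D, (j * i - c) = ∑ i ∈ D, i :=
      sum_bij (fun i _ => j * i - c) (fun i hi => (h2 i).1 hi)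
        (fun a _ b _ e => mul_left_cancel₀ hj (sub_left_injective e))
        (fun b hb => ⟨j⁻¹ * (b + c), (h2 _).2 (by simpa [mul_inv_cancel_left₀ hj] using hb),
          by simp [mul_inv_cancel_left₀ hj]⟩) fun _ _ => rfl
    rw [sum_sub_distrib, ← mul_sum, sum_const, nsmul_eq_mul] at h3
    intro i
    rw [h2 i]
    have : j * (i - (∑ x ∈ D, x) / D.card) + (∑ x ∈ D, x) / D.card = j * i - c := by
      field_simp
      linear_combination -h3
    rw [this]
  generalize (∑ x ∈ D, x) / (D.card : ZMod p) = m at key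
  refine ⟨m, ?_⟩
  by_cases hc : ∃ i ∈ D, i ≠ m
  · right
    obtain ⟨i, hi, him⟩ := hc
    have hall : ∀ t, t ≠ m → t ∈ D := fun t ht => by
      have := (key ((t - m) / (i - m)) (div_ne_zero (sub_ne_zero.2 ht) (sub_ne_zero.2 him)) i).1 hi
      rwa [div_mul_cancel₀ _ (sub_ne_zero.2 him), sub_add_cancel] at this
    ext t
    simp only [mem_compl, mem_singleton]
    refine ⟨fun ht e => hnu (eq_univ_of_forall fun s => ?_), hall t⟩
    by_cases hs : s = m
    · rw [hs, ← e]; exact ht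
    · exact hall s hs
  · left
    push Not at hc
    exact eq_singleton_iff_unique_mem.2 ⟨hc d hd ▸ hd, hc⟩

variable {G Ω : Type*} [Group G] [MulAction G Ω] {p : ℕ}

open Classical in
/-- numbers of paths -/
noncomputable def paths [Fintype Ω] (A : Ω → Ω → Prop) (b : Ω) : ℕ → Ω → ℤ
  | 0 => fun y => if y = b then 1 else 0
  | n + 1 => fun y => ∑ x, if A x y then paths A b n x else 0

theorem paths_smul [Fintype Ω] (A : Ω → Ω → Prop) (b : Ω) {g : G} (hg : g • b = b)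
    (hA : ∀ x y, A (g • x) (g • y) ↔ A x y) (n : ℕ) (y : Ω) :
    paths A b n (g • y) = paths A b n y := by
  induction n generalizing y with
  | zero =>
    simp only [paths]
    congr 1
    rw [← hg, smul_left_cancel_iff, hg]
  | succ n ih =>
    simp only [paths]
    rw [← Equiv.sum_comp (MulAction.toPerm g)]
    exact sum_congr rfl fun x _ => by rw [toPerm_apply, ih, hA]

open Classical in
theorem paths_sum [Fintype Ω] (A : Ω → Ω → Prop) (b : Ω) {R : Type*} [Ring R] (v : Ω → R) (η : R)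
    (hb : v b = 1) (hv : ∀ x, ∑ y, (if A x y then v y else 0) = v x * η) (n : ℕ) :
    ∑ y, paths A b n y • v y = η ^ n := by
  induction n with
  | zero => simp [paths, hb]
  | succ n ih =>
    simp only [paths, sum_smul]
    rw [sum_comm, pow_succ, ← ih, sum_mul]
    refine sum_congr rfl fun x _ => ?_
    rw [smul_mul_assoc, ← hv, smul_sum]
    refine sum_congr rfl fun y _ => ?_
    split_ifs <;> simp

theorem paths_supp [Fintype Ω] (A : Ω → Ω → Prop) (b : Ω) (P : ℕ → Ω → Prop) (h0 : P 0 b)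
    (h : ∀ n x y, P n x → A x y → P (n + 1) y) (n : ℕ) (y : Ω) (hy : paths A b n y ≠ 0) :
    P n y := by
  induction n generalizing y with
  | zero =>
    simp only [paths, ne_eq, ite_eq_right_iff, one_ne_zero, imp_false, not_not] at hy
    rw [hy]; exact h0
  | succ n ih =>
    obtain ⟨x, -, hx⟩ := exists_ne_zero_of_sum_ne_zero hy
    simp only [ne_eq, ite_eq_right_iff, Classical.not_imp] at hx
    exact h n x y (ih x hx.2) hx.1

namespace Reg
variable {Q : Sys G Ω p} {a : Ω} {S : Subgroup G} {z : G} (R : Reg Q a S z)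
include R

theorem zle : zpowers z ≤ S := zpowers_le.2 R.mem

theorem eq_of_smul {s t : G} (hs : s ∈ S) (ht : t ∈ S) {b : Ω} (hb : b ≠ a) (h : s • b = t • b) :
    s = t := by
  have := R.free (t⁻¹ * s) (mul_mem (inv_mem ht) hs) b hb (by rw [mul_smul, h, inv_smul_smul])
  exact (inv_mul_eq_one.1 this).symm

theorem exists_val [NeZero p] {w : G} (hw : w ∈ zpowers z) : ∃ i : ZMod p, z ^ i.val = w := by
  obtain ⟨n, rfl⟩ := (IsOfFinOrder.mem_powers_iff_mem_zpowers (x := z)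
    (by rw [← orderOf_pos_iff, R.ord]; exact Nat.pos_of_ne_zero (NeZero.ne p))).2 hw
  exact ⟨n, by rw [ZMod.val_natCast, ← R.ord, pow_mod_orderOf]⟩

theorem val_inj [NeZero p] {i j : ZMod p} (h : z ^ i.val = z ^ j.val) : i = j :=
  ZMod.val_injective p (pow_injOn_Iio_orderOf (by simpa [R.ord] using i.val_lt)
    (by simpa [R.ord] using j.val_lt) h)

end Reg

/-- the kernel of the action of the point stabiliser on the blocks -/
def Sys.K (Q : Sys G Ω p) (a : Ω) : Subgroup G where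
  carrier := {g | g • a = a ∧ ∀ b, b ≠ a → Q.r a b (g • b)}
  one_mem' := ⟨one_smul _ _, fun b hb => by simpa using Q.refl hb⟩
  mul_mem' := fun {g k} hg hk => ⟨by rw [mul_smul, hk.1, hg.1], fun b hb => by
    rw [mul_smul]; exact Q.trans (hk.2 b hb) (hg.2 _ (smul_ne hk.1 hb))⟩
  inv_mem' := fun {g} hg => ⟨inv_smul_eq_iff.2 hg.1.symm, fun b hb => by
    simpa using Q.symm (hg.2 _ (smul_ne (inv_smul_eq_iff.2 hg.1.symm) hb))⟩

theorem Sys.conj_K (Q : Sys G Ω p) {a : Ω} (g : G) {k : G} (hk : k ∈ Q.K a) :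
    g * k * g⁻¹ ∈ Q.K (g • a) :=
  ⟨by simp [mul_smul, hk.1], fun b hb => by
    have := Q.equi g (hk.2 (g⁻¹ • b) fun h => hb (by rw [← h, smul_inv_smul]))
    simpa [mul_smul] using this⟩

theorem Sys.conj_K' (Q : Sys G Ω p) {a : Ω} {g k : G} (hg : g • a = a) (hk : k ∈ Q.K a) :
    g * k * g⁻¹ ∈ Q.K a := by simpa [hg] using Q.conj_K g hk

theorem Reg.zK {Q : Sys G Ω p} {a : Ω} {S : Subgroup G} {z : G} (R : Reg Q a S z) :
    zpowers z ≤ Q.K a := fun w hw =>
  ⟨R.fix w (R.zle hw), fun b hb => (R.iff b _ hb).2 ⟨w, hw, rfl⟩⟩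

theorem Two.not_dvd [Finite G] (h : Two G Ω p) (Q : Sys G Ω p) {a b : Ω} (hb : b ≠ a)
    {X : Subgroup G} (hXa : X ≤ stabilizer G a) (hXb : X ≤ stabilizer G b) :
    ¬ p ∣ Nat.card X := by
  have := Fact.mk h.prime
  intro hd
  obtain ⟨x, hx⟩ := exists_prime_orderOf_dvd_card' p hd
  have := h.pbot Q hb (X := zpowers (x : G)) (IsPGroup.of_card (n := 1)
    (by rw [Nat.card_zpowers, orderOf_coe, hx, pow_one])) ((zpowers_le.2 x.2).trans hXa)
    ((zpowers_le.2 x.2).trans hXb)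
  rw [zpowers_eq_bot, OneMemClass.coe_eq_one] at this
  rw [this, orderOf_one] at hx
  exact h.prime.one_lt.ne hx

open Classical in
theorem Reg.ring_id [Fintype Ω] [NeZero p] {Q : Sys G Ω p} {a : Ω} {S : Subgroup G} {z : G}
    (R : Reg Q a S z) {b : Ω} (hb : b ≠ a)
    (h2 : ∀ x y, Q.r a b x → Q.r a b y → x ≠ b → y ≠ b → ∃ k ∈ Q.K a, k • b = b ∧ k • x = y)
    {u : G} (hu : u ∈ S) (hup : u ^ p ∈ zpowers z) (hp1 : (1 : ZMod p) ≠ 0)
    {A : Ω → Ω → Prop}
    (hAd : A = fun x y => ∃ s ∈ S, ∃ k ∈ Q.K a, s • k • b = x ∧ s • k • u • b = y)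
    {T : Type*} [Ring T] (χ : S →* T) :
    (∑ i ∈ univ.filter fun i : ZMod p => ∃ c ∈ Q.K a, c • b = b ∧ c • u • b = z ^ i.val • u • b,
      χ ⟨z, R.mem⟩ ^ i.val * χ ⟨u, hu⟩) ^ p =
      ((paths A b p b - paths A b p (z ^ (1 : ZMod p).val • b) : ℤ) : T) +
        paths A b p (z ^ (1 : ZMod p).val • b) • ∑ i : ZMod p, χ ⟨z, R.mem⟩ ^ i.val := by
  have hγ : u • b ≠ a := smul_ne (R.fix u hu) hb
  have hzi : ∀ i : ℕ, z ^ i ∈ S := fun i => pow_mem R.mem i
  have hA1 : ∀ g ∈ Q.K a, ∀ x y, A x y → A (g • x) (g • y) := by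
    subst hAd
    rintro g hg _ _ ⟨s, hs, k, hk, rfl, rfl⟩
    refine ⟨s, hs, s⁻¹ * g * s⁻¹⁻¹ * k, mul_mem (Q.conj_K' (R.fix _ (inv_mem hs)) hg) hk, ?_, ?_⟩ <;>
      simp [mul_smul]
  have hA2 : ∀ g ∈ Q.K a, ∀ x y, A (g • x) (g • y) ↔ A x y := fun g hg x y =>
    ⟨fun h => by simpa using hA1 g⁻¹ (inv_mem hg) _ _ h, hA1 g hg x y⟩
  have hA3 : ∀ s ∈ S, ∀ y, A (s • b) y ↔ ∃ i : ZMod p,
      (∃ c ∈ Q.K a, c • b = b ∧ c • u • b = z ^ i.val • u • b) ∧ s • z ^ i.val • u • b = y := by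
    subst hAd
    intro s hs y
    constructor
    · rintro ⟨s', hs', k, hk, e, rfl⟩
      obtain ⟨w, hw, ew⟩ := (R.iff b _ hb).1 (hk.2 b hb)
      have hc : w⁻¹ * k ∈ Q.K a := mul_mem (inv_mem (R.zK hw)) hk
      obtain ⟨w', hw', ew'⟩ := (R.iff _ _ hγ).1 (hc.2 _ hγ)
      obtain ⟨i, rfl⟩ := R.exists_val hw'
      have : s' * w = s := R.eq_of_smul (mul_mem hs' (R.zle hw)) hs hb (by rw [mul_smul, ew, e])
      refine ⟨i, ⟨_, hc, by rw [mul_smul, ← ew, inv_smul_smul], ew'.symm⟩, ?_⟩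
      rw [ew', ← this]; simp [mul_smul]
    · rintro ⟨i, ⟨c, hc, c1, c2⟩, rfl⟩
      exact ⟨s, hs, c, hc, by rw [c1], by rw [c2]⟩
  have hA4 : ∀ y, ¬ A a y := by
    subst hAd
    rintro y ⟨s, hs, k, hk, e, -⟩
    exact smul_ne (R.fix s hs) (smul_ne hk.1 hb) e
  let v : Ω → T := fun y => if h : y ≠ a then χ ⟨_, (R.tr b hb y h).choose_spec.1⟩ else 0
  have hv : ∀ (s : G) (hs : s ∈ S), v (s • b) = χ ⟨s, hs⟩ := fun s hs => by
    have h := smul_ne (R.fix s hs) hb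
    simp only [v, dif_pos h]
    congr 2
    exact R.eq_of_smul (R.tr b hb _ h).choose_spec.1 hs hb (R.tr b hb _ h).choose_spec.2
  have hsum := paths_sum A b v (∑ i ∈ univ.filter fun i : ZMod p =>
      ∃ c ∈ Q.K a, c • b = b ∧ c • u • b = z ^ i.val • u • b, χ ⟨z, R.mem⟩ ^ i.val * χ ⟨u, hu⟩)
    (by simpa using (hv 1 (one_mem _)).trans (map_one χ)) (fun x => by
      by_cases hx : x = a
      · simp [hx, hA4, v]
      obtain ⟨s, hs, rfl⟩ := R.tr b hb x hx
      rw [hv s hs, mul_sum, sum_filter]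
      refine (Fintype.sum_of_injective (fun i : ZMod p => s • z ^ i.val • u • b) (fun i j e => ?_)
        _ _ (fun y hy => if_neg fun h => ?_) fun i => ?_).symm
      · exact R.val_inj (R.eq_of_smul (hzi _) (hzi _) hγ (smul_left_cancel s e))
      · obtain ⟨i, -, e⟩ := (hA3 s hs y).1 h
        exact hy ⟨i, e⟩
      · refine if_congr ⟨fun h => (hA3 s hs _).2 ⟨i, h, rfl⟩, fun h => ?_⟩ ?_ rfl
        · obtain ⟨j, hj, e⟩ := (hA3 s hs _).1 h
          rwa [← R.val_inj (R.eq_of_smul (hzi _) (hzi _) hγ (smul_left_cancel s e))]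
        · rw [← mul_smul, ← mul_smul, hv _ (mul_mem (mul_mem hs (hzi _)) hu), ← map_pow, ← map_mul,
            ← map_mul]
          congr 1
          exact Subtype.ext (by simp [mul_assoc])) p
  rw [← hsum]
  have hsupp : ∀ y, paths A b p y ≠ 0 → Q.r a b y := fun y hy => by
    have := paths_supp A b (fun n y => Q.r a (u ^ n • b) y) (by simpa using Q.refl hb) (by
      subst hAd
      rintro n _ _ hx ⟨s, hs, k, hk, rfl, rfl⟩
      have h1 := Q.equi' (R.fix u hu) (Q.trans hx (Q.symm (Q.equi' (R.fix s hs) (hk.2 b hb))))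
      rw [← mul_smul, ← pow_succ', ← mul_smul, (R.comm u hu s hs).eq, mul_smul] at h1
      exact Q.trans h1 (Q.equi' (R.fix s hs) (hk.2 _ hγ))) p y hy
    exact Q.trans ((R.iff b _ hb).2 ⟨_, hup, rfl⟩) this
  have hne : ∀ i : ZMod p, i ≠ 0 → z ^ i.val • b ≠ b := fun i hi e =>
    hi (R.val_inj (by rw [R.free _ (hzi _) b hb e]; simp))
  have hr : ∀ i : ZMod p, Q.r a b (z ^ i.val • b) := fun i =>
    (R.iff b _ hb).2 ⟨_, pow_mem (mem_zpowers z) _, rfl⟩
  rw [← Fintype.sum_of_injective (fun i : ZMod p => z ^ i.val • b)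
    (fun i j e => R.val_inj (R.eq_of_smul (hzi _) (hzi _) hb e))
    (fun i => paths A b p (z ^ i.val • b) • χ ⟨z, R.mem⟩ ^ i.val) _
    (fun y hy => by
      by_cases h0 : paths A b p y = 0
      · rw [h0, zero_smul]
      obtain ⟨w, hw, rfl⟩ := (R.iff b _ hb).1 (hsupp y h0)
      obtain ⟨i, rfl⟩ := R.exists_val hw
      exact (hy ⟨i, rfl⟩).elim)
    (fun i => by rw [hv _ (hzi _), ← map_pow]; rfl), smul_sum,
    ← add_sum_erase _ _ (mem_univ (0 : ZMod p)), ← add_sum_erase _ _ (mem_univ (0 : ZMod p)),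
    ← add_assoc]
  congr 1
  · simp
  · refine sum_congr rfl fun i hi => ?_
    obtain ⟨k, hk, k1, k2⟩ := h2 _ _ (hr 1) (hr i) (hne 1 hp1) (hne i (mem_erase.1 hi).1)
    rw [← k2, paths_smul A b k1 (hA2 k hk)]

theorem Reg.fixed_of_two [Finite G] (h : Two G Ω p) {Q : Sys G Ω p} {a : Ω} {S : Subgroup G}
    {z : G} (R : Reg Q a S z) (hp3 : 2 < p) {b : Ω} (hb : b ≠ a)
    (h2 : ∀ x y, Q.r a b x → Q.r a b y → x ≠ b → y ≠ b → ∃ k ∈ Q.K a, k • b = b ∧ k • x = y)
    {c : Ω} (hc : c ≠ a) : ∃ d, Q.r a c d ∧ ∀ k ∈ Q.K a, k • b = b → k • d = d := by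
  classical
  have := Fact.mk h.prime
  have := h.finite
  have := Fintype.ofFinite Ω
  obtain ⟨u, hu, rfl⟩ := R.tr b hb c hc
  have hzi : ∀ i : ℕ, z ^ i ∈ S := fun i => pow_mem R.mem i
  have hzp : z ^ p = 1 := by rw [← R.ord, pow_orderOf_eq_one]
  have hcS : ∀ x y : S, Commute x y := fun x y => Subtype.ext (R.comm _ x.2 _ y.2)
  have hup : u ^ p ∈ zpowers z := by
    have : ((zpowers z).subgroupOf S).Normal := ⟨fun x hx g => by
      rw [mem_subgroupOf] at hx ⊢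
      simpa [(R.comm g g.2 x x.2).eq] using hx⟩
    have h1 := ((zpowers z).subgroupOf S).card_mul_index
    rw [Nat.card_congr (subgroupOfEquivOfLe R.zle).toEquiv, Nat.card_zpowers, R.ord, R.card,
      pow_two] at h1
    have h2 := ((zpowers z).subgroupOf S).pow_index_mem ⟨u, hu⟩
    rwa [Nat.eq_of_mul_eq_mul_left h.prime.pos h1] at h2
  have hid := fun {T : Type _} [Ring T] (χ : S →* T) =>
    R.ring_id hb h2 hu hup one_ne_zero rfl χ
  have hid' := fun (χ : S →* ℂ) => R.ring_id hb h2 hu hup one_ne_zero rfl χ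
  set D := univ.filter fun i : ZMod p => ∃ c ∈ Q.K a, c • b = b ∧ c • u • b = z ^ i.val • u • b
    with hD
  have hD0 : (0 : ZMod p) ∈ D := by
    simp only [hD, mem_filter, mem_univ, true_and]
    exact ⟨1, one_mem _, by simp⟩
  have hDu : D ≠ univ := fun e => h.not_dvd Q hb (X := Q.K a ⊓ stabilizer G b)
    (fun x hx => hx.1.1) inf_le_right (by
      rw [card_eq_orbit _ (u • b) {d | Q.r a (u • b) d} fun d => ⟨fun hd => ?_,
        fun ⟨x, hx, e⟩ => e ▸ hx.1.2 _ hc⟩, Q.card hc]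
      · exact Dvd.intro _ rfl
      obtain ⟨w, hw, rfl⟩ := (R.iff _ _ hc).1 hd
      obtain ⟨i, rfl⟩ := R.exists_val hw
      have : i ∈ D := e ▸ mem_univ i
      obtain ⟨k, hk, k1, k2⟩ := (mem_filter.1 this).2
      exact ⟨k, ⟨hk, k1⟩, k2⟩)
  have hk : (D.card : ZMod p) ≠ 0 := by
    rw [Ne, ZMod.natCast_eq_zero_iff]
    refine Nat.not_dvd_of_pos_of_lt (card_pos.2 ⟨0, hD0⟩) ?_
    simpa using card_lt_card (ssubset_univ_iff.2 hDu)
  have hup1 : u ^ p = 1 := by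
    by_contra hne
    obtain ⟨m, hm⟩ := R.exists_val hup
    have hm0 : m ≠ 0 := by rintro rfl; exact hne (by simpa using hm.symm)
    obtain ⟨m', hm', hm''⟩ : ∃ m' : ZMod p, m' ≠ 0 ∧ m' ≠ m := by
      by_contra hcon
      push Not at hcon
      have : (univ : Finset (ZMod p)) ⊆ {0, m} := fun x _ => by
        by_cases hx : x = 0
        · simp [hx]
        · simp [hcon x hx]
      have := (card_le_card this).trans card_le_two
      simp only [card_univ, ZMod.card] at this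
      omega
    have e := hid (MonoidAlgebra.of (ZMod p) S)
    rw [SRing.sum_pow_of_commute h.prime (SRing.cast_eq_zero p) _ _ (fun i _ j _ => by
      simp only [← map_pow, ← map_mul]
      exact Commute.map (hcS _ _) _)] at e
    have e1 : ∀ i : ZMod p, (MonoidAlgebra.of (ZMod p) S ⟨z, R.mem⟩ ^ i.val *
        MonoidAlgebra.of (ZMod p) S ⟨u, hu⟩) ^ p = MonoidAlgebra.single ⟨z ^ m.val, hzi _⟩ 1 := by
      intro i
      rw [← map_pow, ← map_mul, ← map_pow, MonoidAlgebra.of_apply]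
      congr 1
      refine Subtype.ext ?_
      change (z ^ i.val * u) ^ p = z ^ m.val
      rw [(R.comm _ (hzi _) u hu).mul_pow, ← pow_mul, mul_comm, pow_mul, hm, hzp, one_pow, one_mul]
    have e2 : ∀ i : ZMod p, MonoidAlgebra.of (ZMod p) S ⟨z, R.mem⟩ ^ i.val =
        MonoidAlgebra.single ⟨z ^ i.val, hzi _⟩ 1 := fun i => by
      rw [← map_pow, MonoidAlgebra.of_apply]; rfl
    simp only [e1] at e
    simp only [e2] at e
    have e3 : ∀ i j : ZMod p, ((⟨z ^ i.val, hzi _⟩ : S) = ⟨z ^ j.val, hzi _⟩) ↔ i = j := fun i j =>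
      ⟨fun h => R.val_inj (congrArg Subtype.val h), fun h => by rw [h]⟩
    have e4 : ∀ j : ZMod p, j ≠ 0 → (1 : S) ≠ ⟨z ^ j.val, hzi _⟩ := fun j hj h =>
      hj ((e3 j 0).1 (h.symm.trans (Subtype.ext (by simp))))
    have f := fun j : ZMod p => congrArg (fun x : MonoidAlgebra (ZMod p) S =>
      x.coeff ⟨z ^ j.val, hzi _⟩) e
    have f1 := f m
    have f2 := f m'
    simp only [MonoidAlgebra.coeff_sum, Finsupp.finsetSum_apply, MonoidAlgebra.coeff_single,
      Finsupp.single_apply, e3, MonoidAlgebra.coeff_add, Finsupp.add_apply,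
      MonoidAlgebra.intCast_def, MonoidAlgebra.coeff_smul, Finsupp.smul_apply, e4 m hm0, e4 m' hm',
      if_false, sum_ite_eq', mem_univ, if_true, hm''.symm, sum_const, smul_zero, zero_add] at f1 f2
    exact hk (by simpa [← f2] using f1)
  let _ : CommGroup S := { (inferInstance : Group S) with
    mul_comm := fun x y => Subtype.ext (R.comm _ x.2 _ y.2) }
  obtain ⟨χ, hχ⟩ := CommGroup.exists_apply_ne_one_of_hasEnoughRootsOfUnity S ℂ
    (a := ⟨z, R.mem⟩) (fun e => h.prime.one_lt.ne (by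
      rw [← R.ord, show z = 1 from congrArg Subtype.val e, orderOf_one]))
  have hζ : IsPrimitiveRoot ((χ ⟨z, R.mem⟩ : ℂˣ) : ℂ) p := by
    rw [IsPrimitiveRoot.coe_units_iff]
    refine IsPrimitiveRoot.iff_orderOf.2 (orderOf_eq_prime ?_ hχ)
    rw [← map_pow, ← map_one χ]
    congr 1
    exact Subtype.ext (by simp [← R.ord])
  have hω : ((χ ⟨u, hu⟩ : ℂˣ) : ℂ) ^ p = 1 := by
    rw [← Units.val_pow_eq_pow_val, ← map_pow, show (⟨u, hu⟩ : S) ^ p = 1 from Subtype.ext hup1,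
      map_one, Units.val_one]
  have key : ∀ j : ZMod p, j ≠ 0 → (∑ i ∈ D, ((χ ⟨z, R.mem⟩ : ℂˣ) : ℂ) ^ (j * i).val) ^ p =
      ((paths (fun x y => ∃ s ∈ S, ∃ k ∈ Q.K a, s • k • b = x ∧ s • k • u • b = y) b p b -
        paths (fun x y => ∃ s ∈ S, ∃ k ∈ Q.K a, s • k • b = x ∧ s • k • u • b = y) b p
          (z ^ (1 : ZMod p).val • b) : ℤ) : ℂ) := by
    intro j hj
    have e := hid' ((powMonoidHom j.val).comp ((Units.coeHom ℂ).comp χ))
    simp only [MonoidHom.comp_apply, Units.coeHom_apply, powMonoidHom_apply] at e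
    have hζ' := hζ.pow_of_coprime j.val (Nat.coprime_of_lt_prime
      (fun h0 => hj ((ZMod.val_eq_zero j).1 h0)) j.val_lt h.prime).symm
    have h0 : ∑ i : ZMod p, (((χ ⟨z, R.mem⟩ : ℂˣ) : ℂ) ^ j.val) ^ i.val = 0 := by
      rw [← hζ'.geom_sum_eq_zero h.prime.one_lt]
      exact sum_nbij ZMod.val (fun i _ => mem_range.2 i.val_lt)
        (fun i _ j _ e => ZMod.val_injective p e)
        (fun n hn => ⟨n, by simp, ZMod.val_natCast_of_lt (by simpa using hn)⟩) fun _ _ => rfl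
    rw [h0, smul_zero, add_zero, ← sum_mul, mul_pow, ← pow_mul, mul_comm j.val p, pow_mul, hω,
      one_pow, mul_one] at e
    rw [← e]
    congr 1
    refine sum_congr rfl fun i _ => ?_
    rw [ZMod.val_mul, ← pow_eq_pow_mod _ hζ.pow_eq_one, pow_mul]
  obtain ⟨m, hm | hm⟩ := cyc_pure hζ D ⟨0, hD0⟩ hDu fun j hj => by
    rw [key j hj, ← key 1 one_ne_zero]; simp only [one_mul]
  · refine ⟨u • b, Q.refl hc, fun k hk k1 => ?_⟩
    obtain ⟨w, hw, e⟩ := (R.iff _ _ hc).1 (hk.2 _ hc)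
    obtain ⟨i, rfl⟩ := R.exists_val hw
    have : i ∈ D := mem_filter.2 ⟨mem_univ _, k, hk, k1, e.symm⟩
    rw [hm, mem_singleton] at this hD0
    rw [← e, this, ← hD0]; simp
  · have hr := (R.iff _ _ hc).2 ⟨_, pow_mem (mem_zpowers z) m.val, rfl⟩
    refine ⟨_, hr, fun k hk k1 => ?_⟩
    obtain ⟨w, hw, e⟩ := (R.iff _ _ hc).1 (Q.trans hr (hk.2 _ (Q.ne hr)))
    obtain ⟨i, rfl⟩ := R.exists_val hw
    by_cases hi : i = m
    · rw [← e, hi]
    have : i ∈ D := by rw [hm]; simpa using hi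
    obtain ⟨k', hk', k2, k3⟩ := (mem_filter.1 this).2
    have : m ∈ D := mem_filter.2 ⟨mem_univ _, k⁻¹ * k', mul_mem (inv_mem hk) hk',
      by rw [mul_smul, k2, inv_smul_eq_iff, k1], by rw [mul_smul, k3, e, inv_smul_smul]⟩
    rw [hm] at this
    simp at this

end CL.Atk
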