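import Cfsg.Agent.PERM.Atk2
import Cfsg.Agent.PERM.PrimeDeg

/-! Doubly transitive groups of degree `p ^ 2 + 1`, part 3: the kernel on the blocks. -/

set_option autoImplicit false
set_option linter.unusedSectionVars false
open Subgroup MulAction

namespace CL.Atk
variable {G Ω : Type*} [Group G] [MulAction G Ω] {p : ℕ} [Finite G]

theorem conjZ {g z w : G} (h : g * z * g⁻¹ ∈ zpowers z) (hw : w ∈ zpowers z) :
    g * w * g⁻¹ ∈ zpowers z := by
  obtain ⟨i, rfl⟩ := mem_zpowers_iff.1 hw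
  rw [← conj_zpow]; exact zpow_mem h i

namespace Reg
variable {Q : Sys G Ω p} {a : Ω} {S : Subgroup G} {z : G} (R : Reg Q a S z)
include R

theorem zpowers_eq (hp : p.Prime) {w : G} (hw : w ∈ zpowers z) (h1 : w ≠ 1) :
    zpowers w = zpowers z := by
  refine eq_of_le_of_card_ge (zpowers_le.2 hw) ?_
  have := orderOf_dvd_of_mem_zpowers hw
  rw [R.ord] at this
  rw [Nat.card_zpowers, Nat.card_zpowers, R.ord,
    (hp.eq_one_or_self_of_dvd _ this).resolve_left (by simpa using h1)]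

theorem commute_of (hp : p.Prime) {g w : G} (hw : w ∈ zpowers z) (h1 : w ≠ 1) (h : Commute g w) :
    Commute g z := by
  obtain ⟨i, hi⟩ := mem_zpowers_iff.1 (R.zpowers_eq hp hw h1 ▸ mem_zpowers z)
  rw [← hi]; exact h.zpow_right i

theorem uniq (hp : p.Prime) {g : G} (hg : g * z * g⁻¹ ∈ zpowers z) (hc : ¬ Commute g z) {x y : Ω}
    (hr : Q.r a x y) (hx : g • x = x) (hy : g • y = y) : y = x := by
  have hxa := Q.ne (Q.symm hr)
  obtain ⟨w, hw, rfl⟩ := (R.iff _ _ hxa).1 hr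
  by_contra hne
  refine hc (R.commute_of hp hw (by rintro rfl; simp at hne) ?_)
  have := R.eq_of_smul (R.zle (conjZ hg hw)) (R.zle hw) hxa (by
    rw [mul_smul, mul_smul, inv_smul_eq_iff.2 hx.symm, hy])
  exact mul_inv_eq_iff_eq_mul.1 this

theorem fix_block {g : G} (hc : Commute g z) {x y : Ω} (hr : Q.r a x y) (hx : g • x = x) :
    g • y = y := by
  obtain ⟨w, hw, rfl⟩ := (R.iff _ _ (Q.ne (Q.symm hr))).1 hr
  obtain ⟨i, rfl⟩ := mem_zpowers_iff.1 hw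
  rw [← mul_smul, (hc.zpow_right i).eq, mul_smul, hx]

theorem faithK (h : Two G Ω p) {g : G} (hg : g ∈ Q.K a) {b : Ω} (hb : b ≠ a)
    (hfix : ∀ c, Q.r a b c → g • c = c) : g = 1 := by
  let N : Subgroup G :=
    { carrier := {k | k ∈ Q.K a ∧ ∀ c, Q.r a b c → k • c = c}
      one_mem' := ⟨one_mem _, fun c _ => one_smul _ _⟩
      mul_mem' := fun {k l} hk hl => ⟨mul_mem hk.1 hl.1, fun c hc => by
        rw [mul_smul, hl.2 c hc, hk.2 c hc]⟩
      inv_mem' := fun {k} hk => ⟨inv_mem hk.1, fun c hc => inv_smul_eq_iff.2 (hk.2 c hc).symm⟩ }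
  have hN : ∀ y ∈ zpowers z, ∀ n ∈ N, y * n * y⁻¹ ∈ N := fun y hy n hn =>
    ⟨Q.conj_K' (R.zK hy).1 hn.1, fun c hc => by
      rw [mul_smul, mul_smul, hn.2 _ (Q.trans hc ((R.zK (inv_mem hy)).2 c (Q.ne hc))),
        smul_inv_smul]⟩
  refine h.faith g fun x => ?_
  by_cases hx : x = a
  · rw [hx]; exact hg.1
  by_contra hne
  obtain ⟨w, hw, e⟩ := (R.iff _ _ hx).1 (hg.2 x hx)
  have hpow : ∀ n : ℕ, ∃ k ∈ N, k • x = w ^ n • x := fun n => by
    induction n with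
    | zero => exact ⟨1, one_mem _, by simp⟩
    | succ n ih =>
      obtain ⟨k, hk, e'⟩ := ih
      refine ⟨w * k * w⁻¹ * g, mul_mem (hN w hw k hk) ⟨hg, hfix⟩, ?_⟩
      rw [pow_succ', mul_smul, mul_smul, mul_smul, ← e, inv_smul_smul, e', mul_smul]
  refine h.not_dvd Q hb (X := N) (fun k hk => hk.1.1) (fun k hk => hk.2 b (Q.refl hb)) ?_
  rw [card_eq_orbit N x {d | Q.r a x d} fun d => ⟨fun hd => ?_,
    fun ⟨k, hk, e⟩ => e ▸ hk.1.2 _ hx⟩, Q.card hx]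
  · exact Dvd.intro _ rfl
  obtain ⟨y, hy, rfl⟩ := (R.iff _ _ hx).1 hd
  rw [← R.zpowers_eq h.prime hw (by rintro rfl; exact hne (by simpa using e.symm))] at hy
  obtain ⟨n, rfl⟩ := mem_powers_iff_mem_zpowers.2 hy
  exact hpow n

theorem cardK {b : Ω} (hb : b ≠ a) :
    Nat.card (Q.K a) = p * Nat.card (Q.K a ⊓ stabilizer G b : Subgroup G) := by
  rw [card_eq_orbit (Q.K a) b {d | Q.r a b d} fun d => ⟨fun hd => ?_,
    fun ⟨k, hk, e⟩ => e ▸ hk.2 _ hb⟩, Q.card hb]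
  obtain ⟨w, hw, e⟩ := (R.iff _ _ hb).1 hd
  exact ⟨w, R.zK hw, e⟩

theorem fix_symm (h : Two G Ω p) {b c : Ω} (hb : b ≠ a) (hc : c ≠ a)
    (hfix : ∀ k ∈ Q.K a, k • b = b → k • c = c) : ∀ k ∈ Q.K a, k • c = c → k • b = b := by
  have : Q.K a ⊓ stabilizer G b = Q.K a ⊓ stabilizer G c :=
    eq_of_le_of_card_ge (fun k hk => ⟨hk.1, hfix k hk.1 hk.2⟩)
      (Nat.le_of_mul_le_mul_left (by rw [← R.cardK hb, ← R.cardK hc]) h.prime.pos)
  intro k hk e
  exact (this.ge ⟨hk, e⟩).2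

theorem k4 (h : Two G Ω p) {b c : Ω} (hC : ∃ k ∈ Q.K a, k • b = b ∧ k ≠ 1) (hr : Q.r a b c)
    (hfix : ∀ k ∈ Q.K a, k • b = b → k • c = c) : c = b := by
  have hb := Q.ne (Q.symm hr)
  obtain ⟨w, hw, rfl⟩ := (R.iff _ _ hb).1 hr
  by_contra hne
  have hpow : ∀ n : ℕ, ∀ k ∈ Q.K a, k • b = b → k • w ^ n • b = w ^ n • b := fun n => by
    induction n with
    | zero => intro k _ e; simpa using e
    | succ n ih =>
      intro k hk e
      have := ih (w⁻¹ * k * w⁻¹⁻¹) (Q.conj_K' (R.zK (inv_mem hw)).1 hk)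
        (by rw [inv_inv, mul_smul, mul_smul, hfix k hk e, inv_smul_smul])
      rw [inv_inv, mul_smul, mul_smul, inv_smul_eq_iff] at this
      rw [pow_succ', mul_smul, this]
  obtain ⟨k, hk, e, hk1⟩ := hC
  refine hk1 (R.faithK h hk hb fun c hc => ?_)
  obtain ⟨y, hy, rfl⟩ := (R.iff _ _ hb).1 hc
  rw [← R.zpowers_eq h.prime hw (by rintro rfl; simp at hne)] at hy
  obtain ⟨n, rfl⟩ := mem_powers_iff_mem_zpowers.2 hy
  exact hpow n k hk e

theorem exists_fixed (hp : p.Prime) {g : G} (hg : g * z * g⁻¹ ∈ zpowers z) (hc : ¬ Commute g z)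
    {x : Ω} (hr : Q.r a x (g • x)) : ∃ y, Q.r a x y ∧ g • y = y := by
  have hx := Q.ne (Q.symm hr)
  obtain ⟨t, ht, e⟩ := (R.iff _ _ hx).1 hr
  have hinj : Function.Injective fun w : zpowers z =>
      (⟨(w : G)⁻¹ * (g * w * g⁻¹), mul_mem (inv_mem w.2) (conjZ hg w.2)⟩ : zpowers z) := by
    intro w w' e
    have e : (w : G)⁻¹ * (g * w * g⁻¹) = (w' : G)⁻¹ * (g * w' * g⁻¹) := congrArg Subtype.val e
    by_contra hne
    refine hc (R.commute_of hp (mul_mem w'.2 (inv_mem w.2))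
      (fun h => hne (Subtype.ext (mul_inv_eq_one.1 h).symm)) ?_)
    calc g * ((w' : G) * (w : G)⁻¹) = w' * ((w' : G)⁻¹ * (g * w' * g⁻¹)) * g * (w : G)⁻¹ := by group
      _ = w' * (w : G)⁻¹ * g := by rw [← e]; group
  obtain ⟨w, hw⟩ := Finite.injective_iff_surjective.1 hinj ⟨t⁻¹, inv_mem ht⟩
  have hw : (w : G)⁻¹ * (g * w * g⁻¹) = t⁻¹ := congrArg Subtype.val hw
  refine ⟨(w : G) • x, (R.iff _ _ hx).2 ⟨w, w.2, rfl⟩, ?_⟩
  have : g * w = w * t⁻¹ * g := by rw [← hw]; group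
  rw [← mul_smul, this, mul_smul, mul_smul, ← e, inv_smul_smul]

theorem k5 (h : Two G Ω p) {b : Ω} (hb : b ≠ a) (hC : ∃ k ∈ Q.K a, k • b = b ∧ k ≠ 1) {c : Ω}
    (hc : c ≠ a) : ∃ d, Q.r a c d ∧ ∀ k ∈ Q.K a, k • b = b → k • d = d := by
  have := Fact.mk h.prime
  have := h.finite
  let B : SubMulAction (Q.K a) Ω :=
    { carrier := {c | Q.r a b c}
      smul_mem' := fun k c hc => Q.trans hc (k.2.2 c (Q.ne hc)) }
  have := Fintype.ofFinite B
  have hB : Fintype.card B = p := by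
    rw [← Nat.card_eq_fintype_card]
    exact (Nat.card_coe_set_eq {c | Q.r a b c}).trans (Q.card hb)
  have hzp : z ^ p = 1 := by rw [← R.ord, pow_orderOf_eq_one]
  have hz1 : z ≠ 1 := fun e => h.prime.one_lt.ne (by rw [← R.ord, e, orderOf_one])
  obtain ⟨C, hCσ, -⟩ := PermMod.exists_coord_of_pelt (G := Q.K a) hB ⟨z, R.zK (mem_zpowers z)⟩
    (k := 1) (Subtype.ext (by simpa using hzp)) (a := ⟨b, Q.refl hb⟩)
    (fun e => hz1 (R.free z R.mem b hb (congrArg Subtype.val e)))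
  by_cases hA : C.Affine
  · have hN : ∀ k ∈ Q.K a, k * z * k⁻¹ ∈ zpowers z := fun k hk => by
      obtain ⟨α, β, e⟩ := hA ⟨k, hk⟩
      have : (z ^ α.val)⁻¹ * (k * z * k⁻¹) = 1 := R.faithK h
        (mul_mem (inv_mem (R.zK (pow_mem (mem_zpowers z) _)))
          (Q.conj_K' hk.1 (R.zK (mem_zpowers z)))) hb fun x hx => by
        have e1 : (⟨k, hk⟩ : Q.K a) • C.σ • (⟨k, hk⟩ : Q.K a)⁻¹ • (⟨x, hx⟩ : B) =
            C.σ ^ α.val • (⟨x, hx⟩ : B) := C.e.injective (by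
          rw [e, C.he, C.he_pow, ZMod.natCast_zmod_val, mul_add, mul_one, add_right_comm, ← e,
            smul_inv_smul])
        have e2 := congrArg Subtype.val e1
        rw [hCσ] at e2
        rw [mul_smul, inv_smul_eq_iff, mul_smul, mul_smul]
        exact e2
      rw [inv_mul_eq_one] at this
      rw [← this]; exact pow_mem (mem_zpowers z) _
    have hcomm : ∀ k ∈ Q.K a, k • b = b → Commute k z → k = 1 := fun k hk e hc =>
      R.faithK h hk hb fun c hc' => R.fix_block hc hc' e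
    obtain ⟨k0, hk0, e0, hk1⟩ := hC
    have hnc : ¬ Commute k0 z := fun h' => hk1 (hcomm k0 hk0 e0 h')
    obtain ⟨d, hd, ed⟩ := R.exists_fixed h.prime (hN k0 hk0) hnc (hk0.2 c hc)
    refine ⟨d, hd, fun k hk e => R.uniq h.prime (hN k0 hk0) hnc (hk.2 d (Q.ne hd)) ed ?_⟩
    have hkk : (k * k0)⁻¹ * (k0 * k) = 1 := hcomm _
      (mul_mem (inv_mem (mul_mem hk hk0)) (mul_mem hk0 hk))
      (by rw [mul_smul, mul_smul, e, e0, inv_smul_eq_iff, mul_smul, e0, e]) (by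
        obtain ⟨i, hi⟩ := mem_zpowers_iff.1 (hN k hk)
        obtain ⟨j, hj⟩ := mem_zpowers_iff.1 (hN k0 hk0)
        have e1 : (k * k0) * z * (k * k0)⁻¹ = z ^ (i * j) := by
          calc (k * k0) * z * (k * k0)⁻¹ = k * (k0 * z * k0⁻¹) * k⁻¹ := by group
            _ = _ := by rw [← hj, ← conj_zpow, ← hi, zpow_mul]
        have e2 : (k0 * k) * z * (k0 * k)⁻¹ = z ^ (i * j) := by
          calc (k0 * k) * z * (k0 * k)⁻¹ = k0 * (k * z * k⁻¹) * k0⁻¹ := by group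
            _ = _ := by rw [← hi, ← conj_zpow, ← hj, mul_comm i, zpow_mul]
        calc (k * k0)⁻¹ * (k0 * k) * z
            = (k * k0)⁻¹ * ((k0 * k) * z * (k0 * k)⁻¹) * (k0 * k) := by group
          _ = z * ((k * k0)⁻¹ * (k0 * k)) := by rw [e2, ← e1]; group)
    rw [inv_mul_eq_one] at hkk
    rw [← mul_smul, ← hkk, mul_smul, ed]
  · have h3 : 2 < p := by
      by_contra h'
      exact hA (C.affine_of_le_three (by omega))
    refine R.fixed_of_two h h3 hb (fun x y hx hy hxb hyb => ?_) hc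
    have H : ∀ {a' b c d : B} (_ : a' ≠ b) (_ : c ≠ d), ∃ g : Q.K a, g • a' = c ∧ g • b = d :=
      is_two_pretransitive_iff.1 (C.two_transitive hA)
    have := @H ⟨b, Q.refl hb⟩ ⟨x, hx⟩ ⟨b, Q.refl hb⟩ ⟨y, hy⟩
      (fun e => hxb (congrArg Subtype.val e).symm) (fun e => hyb (congrArg Subtype.val e).symm)
    obtain ⟨k, k1, k2⟩ := this
    exact ⟨k, k.2, congrArg Subtype.val k1, congrArg Subtype.val k2⟩

/-- a set meeting every block in at most one point -/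
theorem inj_val [NeZero p] {F : Set Ω} (hF : ∀ x ∈ F, x ≠ a)
    (hu : ∀ x ∈ F, ∀ y ∈ F, Q.r a x y → y = x) :
    Function.Injective fun q : F × ZMod p => (⟨z ^ q.2.val • (q.1 : Ω),
      smul_ne (R.fix _ (pow_mem R.mem _)) (hF _ q.1.2)⟩ : {c | c ≠ a}) := by
  rintro ⟨x, i⟩ ⟨y, j⟩ e
  have e : z ^ i.val • (x : Ω) = z ^ j.val • (y : Ω) := congrArg Subtype.val e
  have : (y : Ω) = x := hu x x.2 y y.2 ((R.iff _ _ (hF x x.2)).2
    ⟨(z ^ j.val)⁻¹ * z ^ i.val, mul_mem (inv_mem (pow_mem (mem_zpowers z) _))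
      (pow_mem (mem_zpowers z) _), by rw [mul_smul, e, inv_smul_smul]⟩)
  rw [this] at e
  exact Prod.ext (Subtype.ext this.symm)
    (R.val_inj (R.eq_of_smul (pow_mem R.mem _) (pow_mem R.mem _) (hF x x.2) e))

theorem ncard_transversal (h : Two G Ω p) {F : Set Ω} (hF : ∀ x ∈ F, x ≠ a)
    (hu : ∀ x ∈ F, ∀ y ∈ F, Q.r a x y → y = x) :
    F.ncard = p ↔ ∀ c, c ≠ a → ∃ d ∈ F, Q.r a c d := by
  have := Fact.mk h.prime
  have := h.finite
  have hinj := R.inj_val hF hu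
  have hc : Nat.card (F × ZMod p) = F.ncard * p := by
    rw [Nat.card_prod, Nat.card_zmod, Nat.card_coe_set_eq]
  have hc' : Nat.card {c | c ≠ a} = p * p := by rw [Nat.card_coe_set_eq, h.ncard_ne, pow_two]
  constructor
  · intro e c hca
    obtain ⟨⟨d, i⟩, e'⟩ := ((Nat.bijective_iff_injective_and_card _).2
      ⟨hinj, by rw [hc, hc', e]⟩).2 ⟨c, hca⟩
    have e' : z ^ i.val • (d : Ω) = c := congrArg Subtype.val e'
    exact ⟨d, d.2, Q.symm ((R.iff _ _ (hF d d.2)).2 ⟨_, pow_mem (mem_zpowers z) _, e'⟩)⟩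
  · intro hs
    have := Nat.card_eq_of_bijective _ ⟨hinj, fun ⟨c, hca⟩ => by
      obtain ⟨d, hd, hr⟩ := hs c hca
      obtain ⟨w, hw, e⟩ := (R.iff _ _ (hF d hd)).1 (Q.symm hr)
      obtain ⟨i, rfl⟩ := R.exists_val hw
      exact ⟨(⟨d, hd⟩, i), Subtype.ext e⟩⟩
    rw [hc, hc'] at this
    exact Nat.eq_of_mul_eq_mul_right h.prime.pos this

end Reg

end CL.Atk
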