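import Cfsg.Agent.PERM.Atk3
import Cfsg.Agent.PERM.Sharp2
import Cfsg.Agent.S0741
import Cfsg.Agent.S0885

/-! Doubly transitive groups of degree `p ^ 2 + 1`, part 4: reduction to Zassenhaus groups. -/

set_option autoImplicit false
set_option linter.unusedSectionVars false
open Subgroup MulAction

namespace CL.Atk
variable {G Ω : Type*} [Group G] [MulAction G Ω] {p : ℕ} [Finite G]

theorem Two.design2 (h : Two G Ω p) (Q Q' : Sys G Ω p) {a b : Ω} (hb : b ≠ a)
    (he : ∀ x, Q'.r b a x → x = a ∨ Q.r a b x) : False := by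
  have := h.finite
  have c1 : (insert a {c | Q.r a b c}).ncard = p + 1 := by
    rw [Set.ncard_insert_of_notMem (s := {c | Q.r a b c}) (fun h' => Q.ne h' rfl), Q.card hb]
  have c2 : (insert b {c | Q'.r b a c}).ncard = p + 1 := by
    rw [Set.ncard_insert_of_notMem (s := {c | Q'.r b a c}) (fun h' => Q'.ne h' rfl),
      Q'.card hb.symm]
  have e : insert b {c | Q'.r b a c} = insert a {c | Q.r a b c} :=
    Set.eq_of_subset_of_ncard_le (by
      rintro x (rfl | hx)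
      · exact Or.inr (Q.refl hb)
      · exact he x hx) (by rw [c1, c2])
  refine h.design _ c1 hb (Or.inl rfl) ?_ ?_ ?_
  · rintro g ga gb x (rfl | hx)
    · exact Or.inl ga
    · exact Or.inr (by simpa [gb] using Q.equi' ga hx)
  · rintro c (rfl | hc) hca
    · exact (hca rfl).elim
    obtain ⟨g, ga, gb⟩ := h.two hb.symm hca.symm
    refine ⟨g, ga, gb, ?_⟩
    rintro x (rfl | hx)
    · exact Or.inl ga
    · exact Or.inr (Q.trans hc (gb ▸ Q.equi' ga hx))
  · obtain ⟨c, hc, hca⟩ := Set.exists_ne_of_one_lt_ncard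
      (by rw [Q'.card hb.symm]; exact h.prime.one_lt : 1 < {c | Q'.r b a c}.ncard) a
    obtain ⟨g, gb, ga⟩ := h.two hb (Q'.ne hc).symm
    rw [← e]
    refine ⟨g, ga ▸ hca, ?_⟩
    rintro x (rfl | hx)
    · exact Or.inl gb
    · exact Or.inr (Q'.trans hc (ga ▸ Q'.equi' gb hx))

theorem Sys.ncard_swap [Finite Ω] (Q : Sys G Ω p) {a b : Ω} (hb : b ≠ a) :
    (insert a {c | Q.r a b c} \ {b}).ncard = p := by
  rw [Set.ncard_sdiff_singleton_of_mem (s := insert a {c | Q.r a b c}) (Or.inr (Q.refl hb)),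
    Set.ncard_insert_of_notMem (s := {c | Q.r a b c}) (fun h' => Q.ne h' rfl), Q.card hb]
  rfl

theorem grid [Finite Ω] (hp : p.Prime) (Q Q' : Sys G Ω p) {b : Ω}
    (hex : ∀ x y, x ≠ b → y ≠ b → ∃ w, Q.r b x w ∧ Q'.r b y w)
    (hun : ∀ x y, Q.r b x y → Q'.r b x y → y = x) {F : Set Ω} (hF : ∀ x ∈ F, x ≠ b)
    (hcl : ∀ x ∈ F, ∀ y ∈ F, ∀ w, Q.r b x w → Q'.r b y w → w ∈ F) {a : Ω} (ha : a ∈ F)
    (hc : F.ncard = p) : (∀ x, Q.r b a x → x ∈ F) ∨ ∀ x, Q'.r b a x → x ∈ F := by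
  choose w hw using fun q : (F ∩ {x | Q.r b a x} : Set Ω) × (F ∩ {x | Q'.r b a x} : Set Ω) =>
    hex q.2 q.1 (hF _ q.2.2.1) (hF _ q.1.2.1)
  have hb : Function.Bijective fun q =>
      (⟨w q, hcl _ q.2.2.1 _ q.1.2.1 _ (hw q).1 (hw q).2⟩ : F) := by
    refine ⟨fun q q' e => ?_, fun ⟨v, hv⟩ => ?_⟩
    · have e : w q = w q' := congrArg Subtype.val e
      refine Prod.ext (Subtype.ext (hun _ _ ?_ ?_)) (Subtype.ext (hun _ _ ?_ ?_))
      · exact Q.trans (Q.symm q'.1.2.2) q.1.2.2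
      · exact Q'.trans (hw q').2 (e ▸ Q'.symm (hw q).2)
      · exact Q.trans (hw q').1 (e ▸ Q.symm (hw q).1)
      · exact Q'.trans (Q'.symm q'.2.2.2) q.2.2.2
    · obtain ⟨x, x1, x2⟩ := hex a v (hF a ha) (hF v hv)
      obtain ⟨y, y1, y2⟩ := hex v a (hF v hv) (hF a ha)
      have := hw (⟨x, hcl a ha v hv x x1 x2, x1⟩, ⟨y, hcl v hv a ha y y1 y2, y2⟩)
      exact ⟨_, Subtype.ext (hun _ _ (Q.trans y1 this.1) (Q'.trans x2 this.2))⟩
  have := Nat.card_eq_of_bijective _ hb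
  rw [Nat.card_prod, Nat.card_coe_set_eq, Nat.card_coe_set_eq, Nat.card_coe_set_eq, hc] at this
  rcases (Nat.dvd_prime hp).1 (Dvd.intro _ this) with h1 | h1
  · rw [h1, one_mul] at this
    right
    intro x hx
    exact ((Set.eq_of_subset_of_ncard_le (Set.inter_subset_right (s := F) (t := {x | Q'.r b a x}))
      (by rw [this, Q'.card (hF a ha)])).ge hx).1
  · left
    intro x hx
    exact ((Set.eq_of_subset_of_ncard_le (Set.inter_subset_right (s := F) (t := {x | Q.r b a x}))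
      (by rw [h1, Q.card (hF a ha)])).ge hx).1

theorem Two.K_inf (h : Two G Ω p) (Q : Sys G Ω p) {a b : Ω} (hb : b ≠ a) {k : G} (hk : k ∈ Q.K a)
    (hkb : k • b = b) : k = 1 := by
  have := h.finite
  by_contra hk1
  have hC : ∀ x y, y ≠ x → ∃ k ∈ Q.K x, k • y = y ∧ k ≠ 1 := fun x y hy => by
    obtain ⟨g, rfl, rfl⟩ := h.two hb.symm hy.symm
    exact ⟨_, Q.conj_K g hk, by simp [mul_smul, hkb], by simpa using hk1⟩
  choose S z R using h.exists_reg Q
  let Q' : Sys G Ω p :=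
    { r := fun x y w => y ≠ x ∧ w ≠ x ∧ ∀ k ∈ Q.K x, k • y = y → k • w = w
      equi := fun g x y w hr => ⟨fun e => hr.1 (smul_left_cancel g e),
        fun e => hr.2.1 (smul_left_cancel g e), fun k hk e => by
          have := hr.2.2 _ (by simpa using Q.conj_K g⁻¹ hk) (by simp [mul_smul, e])
          simpa [mul_smul, inv_smul_eq_iff] using this⟩
      ne := fun hr => hr.2.1
      refl := fun hy => ⟨hy, hy, fun _ _ e => e⟩
      symm := fun hr => ⟨hr.2.1, hr.1, (R _).fix_symm h hr.1 hr.2.1 hr.2.2⟩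
      trans := fun h1 h2 => ⟨h1.1, h2.2.1, fun k hk e => h2.2.2 k hk (h1.2.2 k hk e)⟩
      card := fun {x y} hy => ((R x).ncard_transversal h (fun _ hw => hw.2.1)
        fun u hu v hv hr => (R x).k4 h (hC x u hu.2.1) hr fun k hk e =>
          hv.2.2 k hk ((R x).fix_symm h hy hu.2.1 hu.2.2 k hk e)).2 fun c hc => by
            obtain ⟨d, hd, e⟩ := (R x).k5 h hy (hC x y hy) hc
            exact ⟨d, ⟨hy, Q.ne hd, e⟩, hd⟩ }
  have hun : ∀ x y, Q.r b x y → Q'.r b x y → y = x := fun x y h1 h2 =>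
    (R b).k4 h (hC b x h2.1) h1 h2.2.2
  have hF : ∀ x, x ∈ (insert a {c | Q'.r a b c}) \ {b} ↔
      x ≠ b ∧ ∀ k ∈ Q.K a, k • b = b → k • x = x := fun x =>
    ⟨fun hx => ⟨hx.2, fun k hk e => hx.1.elim (fun e => e ▸ hk.1) fun hx => hx.2.2 k hk e⟩,
      fun hx => ⟨(eq_or_ne x a).imp id fun hxa => ⟨hb, hxa, hx.2⟩, hx.1⟩⟩
  rcases grid h.prime Q Q' (F := (insert a {c | Q'.r a b c}) \ {b}) (a := a) (fun x y hx hy => by
      obtain ⟨d, hd, e⟩ := (R b).k5 h hy (hC b y hy) hx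
      exact ⟨d, hd, hy, Q.ne hd, e⟩) hun (fun x hx => hx.2) (fun x hx y hy w h1 h2 => by
      rw [hF] at hx hy ⊢
      refine ⟨Q.ne h1, fun k hk e => hun _ _ (Q.trans (Q.symm h1) ?_) (Q'.trans (Q'.symm h2) ?_)⟩
      · simpa [hx.2 k hk e] using Q.equi' e h1
      · simpa [hy.2 k hk e] using Q'.equi' e h2) ⟨Or.inl rfl, hb.symm⟩ (Q'.ncard_swap hb)
    with h1 | h1
  · exact h.design2 Q' Q hb fun x hx => (h1 x hx).1
  · exact h.design2 Q' Q' hb fun x hx => (h1 x hx).1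

namespace Reg
variable {Q : Sys G Ω p} {a : Ω} {S : Subgroup G} {z : G} (R : Reg Q a S z)
include R

theorem K_eq (h : Two G Ω p) : Q.K a = zpowers z := by
  obtain ⟨b, hb⟩ : ∃ b, b ≠ a := (Set.nonempty_of_ncard_ne_zero (s := {c | c ≠ a})
    (by rw [h.ncard_ne]; exact pow_ne_zero _ h.prime.ne_zero))
  refine (eq_of_le_of_card_ge R.zK ?_).symm
  rw [R.cardK hb, (eq_bot_iff_forall (Q.K a ⊓ stabilizer G b)).2 fun k hk =>
    h.K_inf Q hb hk.1 hk.2, card_bot, mul_one, Nat.card_zpowers, R.ord]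

theorem conj_mem (h : Two G Ω p) {g : G} (hg : g • a = a) : g * z * g⁻¹ ∈ zpowers z := by
  rw [← R.K_eq h]; exact Q.conj_K' hg (R.zK (mem_zpowers z))

theorem le_of_mem (hp : p.Prime) {U : Subgroup G} (hz : z ∈ U) {s : G} (hs : s ∈ S) (hsU : s ∈ U)
    (hsz : s ∉ zpowers z) : S ≤ U := by
  have h1 := ((zpowers z).subgroupOf S).card_mul_index
  rw [Nat.card_congr (subgroupOfEquivOfLe R.zle).toEquiv, Nat.card_zpowers, R.ord, R.card,
    pow_two] at h1
  rw [← PCyc.sup_zpowers_eq_of_relIndex_prime hp R.zle (Nat.eq_of_mul_eq_mul_left hp.pos h1) hs hsz]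
  exact sup_le (zpowers_le.2 hz) (zpowers_le.2 hsU)

theorem L_bot (h : Two G Ω p) {b : Ω} (hb : b ≠ a) {g : G} (ga : g • a = a) (gb : g • b = b)
    (gz : Commute g z) : g = 1 := by
  have := h.finite
  by_contra hg1
  let L : Subgroup G := stabilizer G a ⊓ stabilizer G b ⊓ centralizer {z}
  have hL : ∀ k, k ∈ L ↔ k • a = a ∧ k • b = b ∧ Commute k z := fun k => by
    simp only [L, mem_inf, mem_stabilizer_iff, mem_centralizer_singleton_iff, and_assoc]; rfl
  have hfix : ∀ c, (∀ k ∈ L, k • c = c) ↔ c = a ∨ Q.r a b c := fun c => by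
    refine ⟨fun hc => ?_, fun hc k hk => ?_⟩
    · by_contra hcon
      push Not at hcon
      obtain ⟨s, hs, rfl⟩ := R.tr b hb c hcon.1
      have hle : S ≤ normalizer (L : Set G) := by
        refine R.le_of_mem h.prime (mem_normalizer_fintype fun t ht => ?_) hs
          (inv_mem_iff.1 (mem_normalizer_fintype fun t ht => ?_))
          fun h' => hcon.2 ((R.iff _ _ hb).2 ⟨s, h', rfl⟩)
        · rwa [← ((hL t).1 ht).2.2.eq, mul_inv_cancel_right]
        · have hsa := R.fix s hs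
          have hsz := R.comm s hs z R.mem
          obtain ⟨t1, -, t3⟩ := (hL t).1 ht
          refine (hL _).2 ⟨?_, ?_, (hsz.inv_left.mul_left t3).mul_left hsz.inv_left.inv_left⟩
          · rw [inv_inv, mul_smul, mul_smul, hsa, t1, inv_smul_eq_iff, hsa]
          · rw [inv_inv, mul_smul, mul_smul, hc t ht, inv_smul_smul]
      refine hg1 (h.faith g fun x => ?_)
      by_cases hx : x = a
      · rw [hx, ga]
      obtain ⟨u, hu, rfl⟩ := R.tr b hb x hx
      have := ((hL _).1 ((mem_normalizer_iff.1 (inv_mem (hle hu)) g).1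
        ((hL g).2 ⟨ga, gb, gz⟩))).2.1
      simp only [inv_inv, mul_smul] at this
      exact inv_smul_eq_iff.1 this
    · obtain ⟨k1, k2, k3⟩ := (hL k).1 hk
      exact hc.elim (fun e => e ▸ k1) fun hc => R.fix_block k3 hc k2
  obtain ⟨S', z', R'⟩ := h.exists_reg Q b
  by_cases hc : ∀ k ∈ L, Commute k z'
  · exact h.design2 Q Q hb fun x hx => (hfix x).1 fun k hk =>
      R'.fix_block (hc k hk) hx ((hL k).1 hk).1
  push Not at hc
  obtain ⟨k, hk, hkz⟩ := hc
  obtain ⟨k1, k2, -⟩ := (hL k).1 hk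
  have htr := (R'.ncard_transversal h (F := (insert a {c | Q.r a b c}) \ {b}) (fun x hx => hx.2)
    fun x hx y hy hr => R'.uniq h.prime (R'.conj_mem h k2) hkz hr ((hfix x).2 hx.1 k hk)
      ((hfix y).2 hy.1 k hk)).1 (Q.ncard_swap hb)
  refine hkz ?_
  rw [h.K_inf Q hb.symm (k := k) ⟨k2, fun c hc => ?_⟩ k1]
  · exact Commute.one_left _
  obtain ⟨d, hd, hr⟩ := htr c hc
  have := Q.equi' k2 hr
  rw [(hfix d).2 hd.1 k hk] at this
  exact Q.trans hr (Q.symm this)

theorem three (h : Two G Ω p) {b c : Ω} (hb : b ≠ a) (hc : c ≠ a) (hbc : c ≠ b) {g : G}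
    (ga : g • a = a) (gb : g • b = b) (gc : g • c = c) : g = 1 := by
  by_cases hr : Q.r a b c
  · by_contra hg1
    exact hbc (R.uniq h.prime (R.conj_mem h ga) (fun h' => hg1 (R.L_bot h hb ga gb h')) hr gb gc)
  obtain ⟨s, hs, rfl⟩ := R.tr b hb c hc
  have hsa := R.fix s hs
  have gi : g⁻¹ • a = a := inv_smul_eq_iff.2 ga.symm
  have gi' : g⁻¹ • b = b := inv_smul_eq_iff.2 gb.symm
  have h1 : s⁻¹ * (g * s * g⁻¹) = 1 := by
    refine R.L_bot h hb ?_ ?_ ((R.comm s hs z R.mem).inv_left.mul_left ?_)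
    · rw [mul_smul, mul_smul, mul_smul, gi, hsa, ga, inv_smul_eq_iff, hsa]
    · rw [mul_smul, mul_smul, mul_smul, gi', gc, inv_smul_smul]
    · have := (R.comm s hs _ (R.zle (R.conj_mem h gi))).eq
      calc g * s * g⁻¹ * z = g * (s * (g⁻¹ * z * g⁻¹⁻¹)) * g⁻¹ := by group
        _ = z * (g * s * g⁻¹) := by rw [this]; group
  let U : Subgroup G :=
    { carrier := {t | t • a = a ∧ t⁻¹ * (g * t * g⁻¹) ∈ Q.K a}
      one_mem' := ⟨one_smul _ _, by simpa using one_mem _⟩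
      mul_mem' := fun {t u} ht hu => ⟨by rw [mul_smul, hu.1, ht.1], by
        convert mul_mem (Q.conj_K' (inv_smul_eq_iff.2 hu.1.symm) ht.2) hu.2 using 1; group⟩
      inv_mem' := fun {t} ht => ⟨inv_smul_eq_iff.2 ht.1.symm, by
        convert Q.conj_K' ht.1 (inv_mem ht.2) using 1; group⟩ }
  have hle : S ≤ U := R.le_of_mem h.prime
    ⟨R.fix z R.mem, R.zK (mul_mem (inv_mem (mem_zpowers z)) (R.conj_mem h ga))⟩ hs
    ⟨hsa, h1 ▸ one_mem _⟩ fun h' => hr ((R.iff _ _ hb).2 ⟨s, h', rfl⟩)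
  refine h.K_inf Q hb ⟨ga, fun x hx => ?_⟩ gb
  obtain ⟨u, hu, rfl⟩ := R.tr b hb x hx
  simpa [mul_smul, gi'] using Q.equi' (R.fix u hu) ((hle hu).2.2 b hb)

end Reg

theorem Two.no_regular (h : Two G Ω p) (hp : p ≠ 2) (a : Ω) (N : Subgroup G) (hN : N.Normal)
    (htr : IsPretransitive N Ω) (hs : ∀ x : Ω, stabilizer N x = ⊥) : False := by
  have hfree : ∀ n ∈ N, n • a = a → n = 1 := fun n hn e =>
    congrArg Subtype.val ((eq_bot_iff_forall _).1 (hs a) ⟨n, hn⟩ e)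
  have hc : Nat.card N = p ^ 2 + 1 := by
    rw [card_eq_orbit N a Set.univ fun c => ⟨fun _ => by
      obtain ⟨n, e⟩ := htr.exists_smul_eq a c
      exact ⟨n, n.2, e⟩, fun _ => trivial⟩,
      (eq_bot_iff_forall (N ⊓ stabilizer G a)).2 fun n hn => hfree n hn.1 hn.2, card_bot, mul_one, Set.ncard_univ,
      h.card]
  obtain ⟨m, hm⟩ := h.prime.odd_of_ne_two hp
  obtain ⟨t, ht⟩ := exists_prime_orderOf_dvd_card' (G := N) 2
    (by rw [hc, hm]; exact ⟨2 * m ^ 2 + 2 * m + 1, by ring⟩)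
  have ht1 : (t : G) ≠ 1 := fun e => by
    rw [OneMemClass.coe_eq_one] at e
    simp [e] at ht
  have ht2 : (t : G) ^ 2 = 1 := by
    rw [← ht, ← orderOf_coe, pow_orderOf_eq_one]
  have h2 : IsPGroup 2 N := fun n => ⟨1, Subtype.ext (by
    by_cases hn : (n : G) = 1
    · simp [hn]
    obtain ⟨g, g1, g2⟩ := h.two (fun e => ht1 (hfree t t.2 e.symm))
      (fun e => hn (hfree n n.2 e.symm))
    have : (n : G)⁻¹ * (g * t * g⁻¹) = 1 := hfree _ (mul_mem (inv_mem n.2) (hN.conj_mem _ t.2 g))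
      (by rw [mul_smul, mul_smul, mul_smul, inv_smul_eq_iff.2 g1.symm, g2, inv_smul_smul])
    simp [inv_mul_eq_one.1 this, conj_pow, ht2])⟩
  obtain ⟨k, hk⟩ := h2.exists_card_eq
  have hp2 := h.prime.two_le
  rw [hc, hm] at hk
  match k, hk with
  | 0, hk => simp at hk
  | 1, hk => nlinarith
  | k + 2, hk =>
    have : 4 * (m ^ 2 + m) + 2 = 4 * 2 ^ k := by rw [pow_add] at hk; linarith
    omega

theorem Two.main (h : Two G Ω p) (Q : Sys G Ω p) : p = 2 ∧ Nat.card G = 20 := by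
  have := h.finite
  have := Fintype.ofFinite Ω
  have hp := h.prime.two_le
  have hne : Nonempty Ω := (Nat.card_pos_iff.1 (by rw [h.card]; omega)).1
  obtain ⟨a⟩ := id hne
  obtain ⟨b, hb⟩ : ∃ b, b ≠ a := (Set.nonempty_of_ncard_ne_zero (s := {c | c ≠ a})
    (by rw [h.ncard_ne]; exact pow_ne_zero _ h.prime.ne_zero))
  choose S z R using h.exists_reg Q
  obtain ⟨c, hc, hcb⟩ := Set.exists_ne_of_one_lt_ncard
    (by rw [Q.card hb]; exact h.prime.one_lt : 1 < {c | Q.r a b c}.ncard) b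
  have he : Nat.card (stabilizer G a ⊓ stabilizer G b : Subgroup G) ≤ p - 1 := by
    rw [← Q.card hb, ← Set.ncard_sdiff_singleton_of_mem (s := {c | Q.r a b c}) (Q.refl hb),
      ← Nat.card_coe_set_eq]
    refine Nat.card_le_card_of_injective (fun g => ⟨(g : G) • c, ?_, smul_ne g.2.2 hcb⟩)
      fun g k e => ?_
    · have := Q.equi' g.2.1 hc
      rwa [show (g : G) • b = b from g.2.2] at this
    · have e : (g : G) • c = (k : G) • c := congrArg Subtype.val e
      have := mul_mem (inv_mem k.2) g.2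
      exact Subtype.ext (inv_mul_eq_one.1 ((R a).three h hb (Q.ne hc) hcb this.1 this.2
        (by rw [mul_smul, e, inv_smul_smul]))).symm
  have htr : IsPretransitive G Ω := ⟨fun x y => by
    by_cases e : x = y
    · exact ⟨1, by rw [one_smul, e]⟩
    · exact (h.two e (Ne.symm e)).imp fun _ hg => hg.1⟩
  by_cases hp2 : p = 2
  · refine ⟨hp2, ?_⟩
    have h0 : 0 < Nat.card (stabilizer G a ⊓ stabilizer G b : Subgroup G) := Nat.card_pos
    rw [← (stabilizer G a).card_mul_index, index_stabilizer_of_transitive, h.card,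
      h.card_stab hb, show Nat.card (stabilizer G a ⊓ stabilizer G b : Subgroup G) = 1 by omega,
      hp2]
    rfl
  exfalso
  have hZ : Cfsg.IsZassenhausGroup G Ω := by
    refine ⟨⟨fun {g k} e => inv_mul_eq_one.1 (h.faith _ fun x => by
      rw [mul_smul, ← e, inv_smul_smul])⟩, is_two_pretransitive_iff.2 h.two,
      fun g x y w h1 h2 h3 e1 e2 e3 => (R x).three h h1.symm h3.symm h2.symm e1 e2 e3, ?_,
      fun N hN ht => ?_⟩
    · by_contra hcon
      push Not at hcon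
      obtain ⟨N, hN, -, ht, hs⟩ := Zass.exists_regular_normal htr fun g y w h1 h2 h3 => by
        by_contra hg
        exact hcon g hg y w h1 h2 h3
      exact h.no_regular hp2 a N hN ht hs
    · by_contra hcon
      push Not at hcon
      exact h.no_regular hp2 a N hN ht hcon
  have hcard : Fintype.card Ω = p ^ 2 + 1 := by rw [← Nat.card_eq_fintype_card, h.card]
  obtain ⟨q, rfl⟩ : ∃ q, p = q + 2 := ⟨p - 2, by omega⟩
  have hq : (q + 2) ^ 2 = q ^ 2 + 4 * q + 4 := by ring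
  rcases Nat.even_or_odd (Nat.card (stabilizer G a ⊓ stabilizer G b : Subgroup G)) with h1 | h1
  · have := Cfsg.Agent.S0741.result hZ hb.symm h1
    omega
  · rcases Cfsg.Agent.S0885.result hZ hb.symm _ _ hcard rfl h1 (S a) (fun s hs => (R a).fix s hs)
      (by rw [hcard, (R a).card]) (fun u hu hu1 x e => by
        by_contra hx
        exact hu1 ((R a).free u hu x hx e)) with h2 | ⟨-, ⟨u, v, huv⟩, -⟩
    · omega
    · exact huv (Subtype.ext ((R a).comm u u.2 v v.2))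

theorem Two.sys (h : Two G Ω p) {a : Ω} {B : Set Ω} (ha : a ∉ B) (hc : B.ncard = p)
    (hB : ∀ g : G, g • a = a → ∀ x ∈ B, g • x ∈ B → ∀ y ∈ B, g • y ∈ B) :
    Nonempty (Sys G Ω p) := by
  obtain ⟨b0, hb0⟩ := Set.nonempty_of_ncard_ne_zero (hc ▸ h.prime.ne_zero)
  have key : ∀ {g k : G} {x y w : Ω}, g • x = a → k • x = a → g • y ∈ B → k • y ∈ B → k • w ∈ B →
      g • w ∈ B := fun {g k x y w} e1 e2 e3 e4 e5 => by
    simpa [mul_smul] using hB (g * k⁻¹) (by rw [mul_smul, inv_smul_eq_iff.2 e2.symm, e1]) _ e4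
      (by simpa [mul_smul] using e3) _ e5
  have hex : ∀ {x y : Ω}, y ≠ x → ∃ g : G, g • x = a ∧ g • y ∈ B := fun hy => by
    obtain ⟨g, g1, g2⟩ := h.two (c := a) (d := b0) hy.symm fun e => ha (e ▸ hb0)
    exact ⟨g, g1, by rw [g2]; exact hb0⟩
  exact ⟨{ r := fun x y w => ∃ g : G, g • x = a ∧ g • y ∈ B ∧ g • w ∈ B
           equi := fun k _ _ _ ⟨g, hg⟩ => ⟨g * k⁻¹, by simpa [mul_smul] using hg⟩
           ne := fun ⟨g, hg⟩ e => ha (by rw [← hg.1, ← e]; exact hg.2.2)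
           refl := fun hy => (hex hy).imp fun _ hg => ⟨hg.1, hg.2, hg.2⟩
           symm := fun ⟨g, hg⟩ => ⟨g, hg.1, hg.2.2, hg.2.1⟩
           trans := fun ⟨g, hg⟩ ⟨_, hk⟩ => ⟨g, hg.1, hg.2.1, key hg.1 hk.1 hg.2.2 hk.2.1 hk.2.2⟩
           card := fun {x y} hy => by
             obtain ⟨g, g1, g2⟩ := hex hy
             rw [← hc, ← Set.ncard_smul_set g⁻¹ B]
             congr 1
             ext w
             rw [Set.mem_inv_smul_set_iff]
             exact ⟨fun ⟨k, hk⟩ => key g1 hk.1 g2 hk.2.1 hk.2.2, fun hw => ⟨g, g1, g2, hw⟩⟩ }⟩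

end CL.Atk
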