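import Mathlib

/-!
Babai's bound on distinguishing sets of uniprimitive permutation groups: for distinct points
`x, y`, the set `D x y` of points `z` such that `x, y` lie in different orbits of the stabilizer
of `z` has at least `(√n - 1) / 2` elements.
-/

set_option autoImplicit false

namespace CL.Babai

open MulAction
open scoped Pointwise

variable (G : Type*) {Ω : Type*} [Group G] [MulAction G Ω]

/-- `u, v` lie in the same orbit of the stabilizer of `z`. -/
def Same (u v z : Ω) : Prop := ∃ g : G, g • z = z ∧ g • u = v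

/-- The distinguishing set. -/
def D (u v : Ω) : Set Ω := {z | ¬ Same G u v z}

/-- Invariant relations. -/
def Inv (R : Ω → Ω → Prop) : Prop := ∀ (g : G) a b, R a b → R (g • a) (g • b)

/-- The orbital of `(x, y)`. -/
def Orb (x y a b : Ω) : Prop := ∃ g : G, g • x = a ∧ g • y = b

variable {G}

theorem inv_orb (x y : Ω) : Inv G (Orb G x y) := by
  rintro g _ _ ⟨h, rfl, rfl⟩
  exact ⟨g * h, mul_smul _ _ _, mul_smul _ _ _⟩

theorem Inv.iff {R : Ω → Ω → Prop} (h : Inv G R) (g : G) (a b : Ω) :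
    R (g • a) (g • b) ↔ R a b :=
  ⟨fun h1 => by simpa using h g⁻¹ _ _ h1, h g a b⟩

theorem Inv.smul_set {R : Ω → Ω → Prop} (h : Inv G R) (g : G) (a : Ω) :
    g • {z | R a z} = {z | R (g • a) z} := by
  ext z
  rw [Set.mem_smul_set_iff_inv_smul_mem]
  change R a (g⁻¹ • z) ↔ R (g • a) z
  rw [← h.iff g, smul_inv_smul]

theorem Inv.mem_D {R : Ω → Ω → Prop} (h : Inv G R) {u v z : Ω} (h1 : R u z) (h2 : ¬ R v z) :
    z ∈ D G u v := by
  rintro ⟨g, e1, rfl⟩
  exact h2 (e1 ▸ h g _ _ h1)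

theorem Same.symm {u v z : Ω} (h : Same G u v z) : Same G v u z := by
  obtain ⟨g, e1, rfl⟩ := h
  exact ⟨g⁻¹, inv_smul_eq_iff.2 e1.symm, inv_smul_smul _ _⟩

theorem Same.trans {u v w z : Ω} (h : Same G u v z) (h' : Same G v w z) : Same G u w z := by
  obtain ⟨g, e1, rfl⟩ := h
  obtain ⟨k, e2, rfl⟩ := h'
  exact ⟨k * g, by rw [mul_smul, e1, e2], mul_smul _ _ _⟩

theorem D_comm (u v : Ω) : D G u v = D G v u :=
  Set.ext fun _ => not_congr ⟨Same.symm, Same.symm⟩

theorem D_self (u : Ω) : D G u u = ∅ :=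
  Set.eq_empty_of_forall_notMem fun _ h => h ⟨1, one_smul _ _, one_smul _ _⟩

theorem D_subset (u v w : Ω) : D G u w ⊆ D G u v ∪ D G v w := by
  intro z hz
  by_contra h
  simp only [D, Set.mem_union, Set.mem_ofPred_eq, not_or, not_not] at h
  exact hz (h.1.trans h.2)

theorem ncard_D_smul (g : G) (u v : Ω) : (D G (g • u) (g • v)).ncard = (D G u v).ncard := by
  rw [← Set.ncard_smul_set g (D G u v)]
  congr 1
  ext z
  rw [Set.mem_smul_set_iff_inv_smul_mem]
  refine not_congr ⟨?_, ?_⟩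
  · rintro ⟨h, e1, e2⟩
    exact ⟨g⁻¹ * h * g, by simp [mul_smul, e1], by simp [mul_smul, e2]⟩
  · rintro ⟨h, e1, e2⟩
    exact ⟨g * h * g⁻¹, by simp [mul_smul, e1], by simp [mul_smul, e2]⟩

theorem Inv.ncard_eq [IsPretransitive G Ω] {R : Ω → Ω → Prop} (h : Inv G R) (a b : Ω) :
    {z | R a z}.ncard = {z | R b z}.ncard := by
  obtain ⟨g, rfl⟩ := exists_smul_eq G a b
  rw [← h.smul_set, Set.ncard_smul_set]

variable [Finite Ω]

theorem Inv.exists_diff (hp : IsPreprimitive G Ω) {R : Ω → Ω → Prop} (h : Inv G R) {x y : Ω}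
    (hxy : x ≠ y) (h1 : ∃ z, R x z) (h2 : ∃ z, ¬ R x z) : ∃ z, R x z ∧ ¬ R y z := by
  by_contra hc
  push Not at hc
  have e : {z | R x z} = {z | R y z} :=
    Set.eq_of_subset_of_ncard_le hc (h.ncard_eq y x).le
  have : Nontrivial Ω := ⟨⟨x, y, hxy⟩⟩
  have hco := IsPreprimitive.isCoatom_stabilizer_of_isPreprimitive G x
  obtain ⟨g, rfl⟩ := exists_smul_eq G x y
  have hle : stabilizer G x ≤ stabilizer G {z | R x z} := fun k hk => by
    rw [mem_stabilizer_iff] at hk ⊢
    rw [h.smul_set, hk]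
  have := hco.2 _ (lt_of_le_of_ne hle fun e2 => by
    have : g ∈ stabilizer G {z | R x z} := by rw [mem_stabilizer_iff, h.smul_set, ← e]
    rw [← e2] at this
    exact hxy (mem_stabilizer_iff.1 this).symm)
  obtain ⟨a, ha⟩ := h1
  obtain ⟨b, hb⟩ := h2
  obtain ⟨k, rfl⟩ := exists_smul_eq G a b
  have hk : k ∈ stabilizer G {z | R x z} := this ▸ Subgroup.mem_top k
  have : k • a ∈ k • {z | R x z} := Set.smul_mem_smul_set ha
  rw [mem_stabilizer_iff.1 hk] at this
  exact hb this

variable (G) in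
/-- Balls in the undirected orbital graph of `(x, y)`. -/
def Ball (x y : Ω) : ℕ → Ω → Ω → Prop
  | 0 => fun a b => a = b
  | t + 1 => fun a b => Ball x y t a b ∨ ∃ c, (Orb G x y a c ∨ Orb G x y c a) ∧ Ball x y t c b

omit [Finite Ω] in
theorem inv_ball (x y : Ω) (t : ℕ) : Inv G (Ball G x y t) := by
  induction t with
  | zero => rintro g a b rfl; rfl
  | succ t ih =>
    rintro g a b (h | ⟨c, h1, h2⟩)
    · exact Or.inl (ih g a b h)
    · exact Or.inr ⟨g • c, h1.imp (inv_orb x y g _ _) (inv_orb x y g _ _), ih g _ _ h2⟩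

omit [Finite Ω] in
theorem ball_mono (x y : Ω) {s t : ℕ} (h : s ≤ t) {a b : Ω} (hb : Ball G x y s a b) :
    Ball G x y t a b := by
  induction t, h using Nat.le_induction with
  | base => exact hb
  | succ t _ ih => exact Or.inl ih

theorem ncard_D_le_of_ball (x y : Ω) (t : ℕ) : ∀ {a b : Ω}, Ball G x y t a b →
    (D G a b).ncard ≤ t * (D G x y).ncard := by
  induction t with
  | zero => rintro a b rfl; simp [D_self]
  | succ t ih =>
    rintro a b (h | ⟨c, h1, h2⟩)
    · exact (ih h).trans (Nat.mul_le_mul_right _ (by omega))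
    · have e : (D G a c).ncard = (D G x y).ncard := by
        rcases h1 with ⟨g, rfl, rfl⟩ | ⟨g, rfl, rfl⟩
        · exact ncard_D_smul g x y
        · rw [D_comm]; exact ncard_D_smul g x y
      have h3 := (Set.ncard_le_ncard (D_subset (G := G) a c b)).trans (Set.ncard_union_le _ _)
      have h4 := ih h2
      rw [e] at h3
      rw [Nat.succ_mul]
      omega

theorem ball_all (hp : IsPreprimitive G Ω) {x y : Ω} (hxy : x ≠ y) (a b : Ω) :
    Ball G x y (D G x y).ncard a b := by
  by_contra hc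
  have key : ∀ t : Fin ((D G x y).ncard + 1), ∃ z, Ball G x y t x z ∧ ¬ Ball G x y t y z := by
    intro t
    refine (inv_ball x y t).exists_diff hp hxy ⟨x, ball_mono x y (Nat.zero_le _) rfl⟩ ?_
    obtain ⟨g, rfl⟩ := exists_smul_eq G x a
    refine ⟨g⁻¹ • b, fun h => hc (ball_mono x y (Nat.le_of_lt_succ t.2) ?_)⟩
    simpa using inv_ball x y t g _ _ h
  choose z h1 h2 using key
  have lt : ∀ s t, s < t → z s ≠ z t := fun s t hst e =>
    h2 t (e ▸ ball_mono x y (s := s + 1) hst
      (Or.inr ⟨x, Or.inr ⟨1, one_smul _ _, one_smul _ _⟩, h1 s⟩))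
  have hinj : Function.Injective z := fun s t e => by
    rcases lt_trichotomy s t with h | h | h
    · exact absurd e (lt s t h)
    · exact h
    · exact absurd e.symm (lt t s h)
  have h3 : Set.range z ⊆ D G x y := by
    rintro _ ⟨t, rfl⟩
    exact (inv_ball x y t).mem_D (h1 t) (h2 t)
  have h4 := Set.ncard_le_ncard h3
  rw [Set.ncard_range_of_injective hinj] at h4
  simp at h4

theorem exists_large_D (u : Ω) {ρ : ℕ} (h : ∀ z, {v | Same G u v z}.ncard ≤ ρ) :
    ∃ v, Nat.card Ω ≤ (D G u v).ncard + ρ := by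
  classical
  have := Fintype.ofFinite Ω
  by_contra hc
  push Not at hc
  have e1 : ∀ v, (D G u v).ncard = ∑ z, if Same G u v z then 0 else 1 := fun v => by
    rw [Finset.sum_ite, Finset.sum_const_zero, zero_add, ← Finset.card_eq_sum_ones,
      ← Set.ncard_coe_finset]
    congr 1
    ext z
    simp [D]
  have e2 : ∀ z, Nat.card Ω ≤ (∑ v, if Same G u v z then 0 else 1) + ρ := fun z => by
    have h1 := Set.ncard_add_ncard_compl {v | Same G u v z}
    have h2 : {v | Same G u v z}ᶜ.ncard = ∑ v, if Same G u v z then 0 else 1 := by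
      rw [Finset.sum_ite, Finset.sum_const_zero, zero_add, ← Finset.card_eq_sum_ones,
        ← Set.ncard_coe_finset]
      congr 1
      ext z
      simp
    have := h z
    omega
  have : Nonempty Ω := ⟨u⟩
  have a1 := Finset.sum_lt_sum_of_nonempty (s := Finset.univ) Finset.univ_nonempty
    fun v _ => hc v
  have a2 := Finset.sum_le_sum (s := Finset.univ) fun z _ => e2 z
  simp only [e1, Finset.sum_add_distrib] at a1 a2
  rw [Finset.sum_comm] at a1
  omega

theorem ncard_orb_le (hp : IsPreprimitive G Ω) {z u : Ω} (hzu : z ≠ u) {a b : Ω} (hab : a ≠ b) :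
    {w | Orb G z u a w}.ncard ≤
      {w | Orb G a b a w}.ncard * ({w | Orb G z u a w} \ {w | Orb G z u b w}).ncard := by
  classical
  obtain ⟨w₁, h1, h2⟩ := (inv_orb (G := G) z u).exists_diff hp hab (by
    obtain ⟨g, rfl⟩ := exists_smul_eq G z a
    exact ⟨g • u, g, rfl, rfl⟩) ⟨a, by
    rintro ⟨g, e1, e2⟩
    exact hzu (MulAction.injective g (e1.trans e2.symm))⟩
  rw [Set.ncard_eq_toFinset_card _ (Set.toFinite _),
    Set.ncard_eq_toFinset_card {w | Orb G a b a w} (Set.toFinite _)]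
  refine le_trans (Finset.card_le_card ?_) (Finset.card_biUnion_le_card_mul _
    (fun b' => (Set.toFinite ({w | Orb G z u a w} \ {w | Orb G z u b' w})).toFinset) _ ?_)
  · intro w hw
    simp only [Set.Finite.mem_toFinset, Finset.mem_biUnion] at hw ⊢
    obtain ⟨g, e1, rfl⟩ := h1
    obtain ⟨k, e2, rfl⟩ := hw
    have e3 : (k * g⁻¹) • a = a := by rw [← e1, mul_smul, inv_smul_smul, e2, e1]
    refine ⟨(k * g⁻¹) • b, ⟨_, e3, rfl⟩, ⟨k, e2, rfl⟩, fun h => h2 ?_⟩
    have := inv_orb z u (k * g⁻¹)⁻¹ _ _ h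
    simpa [mul_smul] using this
  · intro b' hb'
    simp only [Set.Finite.mem_toFinset] at hb'
    obtain ⟨g, e1, rfl⟩ := hb'
    rw [← Set.ncard_eq_toFinset_card _ (Set.toFinite _), ← (inv_orb z u).smul_set g b]
    conv_lhs => rw [← e1, ← (inv_orb z u).smul_set g a]
    rw [← Set.smul_set_sdiff, Set.ncard_smul_set]

/-- Babai's bound. -/
theorem card_le (hp : IsPreprimitive G Ω) (h2 : ¬ ∀ a b c : Ω, b ≠ a → c ≠ a → Same G b c a)
    {x y : Ω} (hxy : x ≠ y) : Nat.card Ω ≤ (2 * (D G x y).ncard + 1) ^ 2 := by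
  have : Nonempty Ω := ⟨x⟩
  obtain ⟨⟨z, u⟩, hmax⟩ := Finite.exists_max fun p : Ω × Ω => {v | Same G p.2 v p.1}.ncard
  obtain ⟨v, hv⟩ := exists_large_D (G := G) x fun w => hmax (w, x)
  simp only at hv hmax
  set X := (D G x y).ncard with hX
  have hρ : ∀ a, {w | Orb G z u a w}.ncard = {v | Same G u v z}.ncard := fun a =>
    (inv_orb z u).ncard_eq a z
  set ρ := {v | Same G u v z}.ncard with hρ'
  by_cases hA : 2 * ρ ≤ Nat.card Ω
  · have := ncard_D_le_of_ball x y _ (ball_all hp hxy x v)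
    rw [← hX] at this
    nlinarith
  have hn2 : 2 ≤ Nat.card Ω := Finite.one_lt_card_iff_nontrivial.2 ⟨⟨x, y, hxy⟩⟩
  have hzu : z ≠ u := by
    rintro rfl
    have : ρ ≤ 1 := by
      rw [hρ', Set.ncard_le_one]
      rintro _ ⟨g, e1, rfl⟩ _ ⟨k, e2, rfl⟩
      rw [e1, e2]
    omega
  have hirr : ∀ a, ¬ Orb G z u a a := by
    rintro a ⟨g, e1, e2⟩
    exact hzu (MulAction.injective g (e1.trans e2.symm))
  by_cases hB : ∀ a b, Ball G x y 2 a b
  · have h3 := ncard_D_le_of_ball x y _ (hB x v)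
    rw [← hX] at h3
    obtain ⟨a, b, hb, hab⟩ : ∃ a b, b ≠ a ∧ ¬ Orb G z u a b := by
      by_contra hc
      push Not at hc
      refine h2 fun a b c h1 h2 => ?_
      obtain ⟨g, e1, rfl⟩ := hc a b h1
      obtain ⟨k, e2, rfl⟩ := hc a c h2
      exact ⟨k * g⁻¹, by rw [← e1, mul_smul, inv_smul_smul, e2, e1], by simp [mul_smul]⟩
    have h4 := ncard_orb_le hp hzu hb.symm
    have hc : ∀ a, ({w | Orb G z u a w}ᶜ \ {a}).ncard + 1 + ρ = Nat.card Ω := fun a => by
      rw [Set.ncard_sdiff_singleton_add_one (show a ∈ {w | Orb G z u a w}ᶜ from hirr a),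
        ← hρ a, add_comm, Set.ncard_add_ncard_compl]
    have h5 : {w | Orb G a b a w}.ncard ≤ ({w | Orb G z u a w}ᶜ \ {a}).ncard := by
      apply Set.ncard_le_ncard _ (Set.toFinite _)
      rintro _ ⟨g, e1, rfl⟩
      refine ⟨fun h => hab ?_, fun h => hb (MulAction.injective g (h.trans e1.symm))⟩
      rw [← (inv_orb z u).iff g, e1]
      exact h
    have h6 : ({w | Orb G z u a w} \ {w | Orb G z u b w}).ncard ≤
        ({w | Orb G z u b w}ᶜ \ {b}).ncard := by
      apply Set.ncard_le_ncard _ (Set.toFinite _)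
      rintro w ⟨h1, h2⟩
      exact ⟨h2, fun h => hab (h ▸ h1)⟩
    have h7 := hc a
    have h8 := hc b
    rw [hρ] at h4
    have h9 := h4.trans (Nat.mul_le_mul h5 h6)
    generalize ({w | Orb G z u a w}ᶜ \ {a}).ncard = k at *
    generalize ({w | Orb G z u b w}ᶜ \ {b}).ncard = k' at *
    obtain rfl : k = k' := by omega
    have : k + 1 ≤ 2 * X := by omega
    nlinarith
  · obtain ⟨a, b, h3, h4⟩ : ∃ a b, Ball G x y 3 a b ∧ ¬ Ball G x y 2 a b := by
      by_contra hc
      push Not at hc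
      have key : ∀ t, ∀ a b, Ball G x y (t + 2) a b → Ball G x y 2 a b := by
        intro t
        induction t with
        | zero => exact fun _ _ h => h
        | succ t ih =>
          rintro a b (h | ⟨c, h1, h2⟩)
          · exact ih a b h
          · exact hc a b (Or.inr ⟨c, h1, ih c b h2⟩)
      exact hB fun a b => key X a b (ball_mono x y (by omega) (ball_all hp hxy a b))
    have h5 := ncard_D_le_of_ball x y _ h3
    rw [← hX] at h5
    have hd : Disjoint {w | Orb G x y a w} {w | Orb G x y b w} := by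
      rw [Set.disjoint_left]
      intro w h1 h2
      exact h4 (Or.inr ⟨w, Or.inl h1, Or.inr ⟨b, Or.inr h2, rfl⟩⟩)
    have h6 : {w | Orb G x y a w} ∪ {w | Orb G x y b w} ⊆ D G a b := by
      rintro w (h | h)
      · exact (inv_orb x y).mem_D h fun h' => Set.disjoint_left.1 hd h h'
      · rw [D_comm]
        exact (inv_orb x y).mem_D h fun h' => Set.disjoint_left.1 hd h' h
    have h7 := Set.ncard_le_ncard h6
    rw [Set.ncard_union_eq hd, (inv_orb x y).ncard_eq a x, (inv_orb x y).ncard_eq b x] at h7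
    have h8 := ncard_orb_le hp hzu hxy
    have h9 : ({w | Orb G z u x w} \ {w | Orb G z u y w}).ncard ≤ X :=
      Set.ncard_le_ncard (fun w hw => (inv_orb z u).mem_D hw.1 hw.2)
    rw [hρ] at h8
    have h10 := h8.trans (Nat.mul_le_mul_left _ h9)
    generalize {w | Orb G x y x w}.ncard = r at *
    nlinarith

end CL.Babai
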