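/-
PERM library: binary affine groups, reflections.
-/
import Mathlib

set_option autoImplicit false

namespace CL.BinAff

variable {H : Type*} (V : Type*) [Group H] [AddCommGroup V] [DistribMulAction H V]

def dl (h : H) : V →+ V := AddMonoidHom.id V - DistribSMul.toAddMonoidHom V h
/-- fixed space -/
def fx (h : H) : AddSubgroup V := (dl V h).ker
/-- commutator space -/
def cm (h : H) : AddSubgroup V := (dl V h).range
/-- reflections: non-identity elements with a maximal fixed space -/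
def Rf (r : H) : Prop := r ≠ 1 ∧ ∀ h : H, h ≠ 1 → fx V r ≤ fx V h → fx V h ≤ fx V r

variable (H) in
structure Bin : Prop where
  faith : ∀ h : H, (∀ v : V, h • v = v) → h = 1
  irr : ∀ W : AddSubgroup V, (∀ h : H, ∀ w ∈ W, h • w ∈ W) → W = ⊥ ∨ W = ⊤
  bin : ∀ a : V, ∃ g : H, ∀ z (h : H), h • z = z - a → g • z = z - a

variable {V}

theorem mem_fx {h : H} {z : V} : z ∈ fx V h ↔ h • z = z := (sub_eq_zero (a := z) (b := h • z)).trans eq_comm

theorem mem_cm {h : H} {a : V} : a ∈ cm V h ↔ ∃ z, h • z = z - a :=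
  exists_congr fun z => show z - h • z = a ↔ _ by rw [eq_sub_iff_add_eq, sub_eq_iff_eq_add', eq_comm]

theorem sub_mem_cm (h : H) (z : V) : z - h • z ∈ cm V h := ⟨z, rfl⟩

theorem card_cm_mul (h : H) : Nat.card (fx V h) * Nat.card (cm V h) = Nat.card V := by
  rw [cm, ← AddSubgroup.index_ker, fx, AddSubgroup.card_mul_index]

theorem fx_eq [Finite V] {h k : H} (h1 : fx V h ≤ fx V k) (h2 : Nat.card (cm V h) ≤ Nat.card (cm V k)) :
    fx V k ≤ fx V h := by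
  refine (AddSubgroup.eq_of_le_of_card_ge h1 (Nat.le_of_mul_le_mul_right ?_ (Nat.card_pos (α := cm V k)))).ge
  rw [card_cm_mul, ← card_cm_mul (V := V) h]
  exact Nat.mul_le_mul_left _ h2

theorem smul_mem_cm {r : H} {a : V} (h : H) (ha : a ∈ cm V r) : h • a ∈ cm V (h * r * h⁻¹) := by
  obtain ⟨z, hz⟩ := mem_cm.1 ha
  exact mem_cm.2 ⟨h • z, by simp [mul_smul, hz, smul_sub]⟩

theorem smul_mem_cm' {r h : H} {a : V} (hc : Commute h r) (ha : a ∈ cm V r) : h • a ∈ cm V r := by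
  simpa [hc.eq] using smul_mem_cm h ha

theorem mem_fx_conj {r h : H} {z : V} : z ∈ fx V (h * r * h⁻¹) ↔ h⁻¹ • z ∈ fx V r := by
  simp [mem_fx, mul_smul, smul_eq_iff_eq_inv_smul h]

theorem Rf.conj {r : H} (hr : Rf V r) (h : H) : Rf V (h * r * h⁻¹) := by
  refine ⟨by simpa using hr.1, fun k hk hle z hz => mem_fx_conj.2 (hr.2 (h⁻¹ * k * h⁻¹⁻¹) (mt conj_eq_one_iff.1 hk)
    (fun x hx => mem_fx_conj.2 (hle (mem_fx_conj.2 (by simpa using hx)))) (mem_fx_conj.2 (by simpa using hz)))⟩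

theorem exists_rf [Finite V] {h : H} (h1 : h ≠ 1) : ∃ t : H, Rf V t ∧ fx V h ≤ fx V t := by
  obtain ⟨_, a, ⟨t, ht, rfl⟩, b⟩ := Finite.exists_le_maximal (p := fun W => ∃ t : H, t ≠ 1 ∧ fx V t = W) ⟨h, h1, rfl⟩
  exact ⟨t, ⟨ht, fun k hk => b ⟨k, hk, rfl⟩⟩, a⟩

theorem Rf.of_le {t h : H} (ht : Rf V t) (h1 : h ≠ 1) (hle : fx V t ≤ fx V h) : Rf V h :=
  ⟨h1, fun k hk h2 => (ht.2 k hk (hle.trans h2)).trans hle⟩

namespace Bin

variable (B : Bin H V)
include B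

theorem key (a : V) : ∃ g : H, ∀ z (h : H), h • z = z - a → g • z = z - a ∧ fx V h ≤ fx V g ∧ g • a = -a := by
  obtain ⟨g, hg⟩ := B.bin a
  refine ⟨g, fun z h hz => ⟨hg z h hz, fun f hf => ?_, ?_⟩⟩
  · have := hg (z + f) h (by rw [smul_add, hz, mem_fx.1 hf]; abel)
    rw [smul_add, hg z h hz, sub_add_eq_add_sub, sub_left_inj, add_right_inj] at this
    exact mem_fx.2 this
  · have := hg (a - z) h⁻¹ (by rw [inv_smul_eq_iff, sub_sub_cancel_left, smul_neg, hz, neg_sub])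
    rw [smul_sub, hg z h hz, sub_eq_iff_eq_add] at this
    rw [this]; abel

theorem nogo {a z z' : V} {h h' : H} (h1 : h • z = z - a) (h2 : h' • z' = z' - a) (h3 : h' • z = z) : a = 0 := by
  obtain ⟨g, hg⟩ := B.key a
  exact sub_eq_self.1 ((hg z h h1).1.symm.trans (mem_fx.1 ((hg z' h' h2).2.1 (mem_fx.2 h3))))

theorem rf_eq {r h : H} (hr : Rf V r) {a x : V} (ha : a ∈ cm V r) (h0 : a ≠ 0) (hx : h • x = x - a) :
    r • x = x - a ∧ fx V h ≤ fx V r := by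
  obtain ⟨g, hg⟩ := B.key a
  obtain ⟨z, hz⟩ := mem_cm.1 ha
  obtain ⟨a1, a2, -⟩ := hg z r hz
  obtain ⟨b1, b2, -⟩ := hg x h hx
  have := hr.2 g (by rintro rfl; exact h0 (by simpa using a1.symm)) a2
  have e := mem_fx.1 (this (mem_fx.2 (show g • (x - z) = x - z by rw [smul_sub, a1, b1]; abel)))
  rw [smul_sub, hz, sub_eq_iff_eq_add] at e
  exact ⟨by rw [e]; abel, b2.trans this⟩

theorem rf_cases {r h : H} (hr : Rf V r) {x : V} (hx : x - h • x ∈ cm V r) : h • x = x ∨ h • x = r • x :=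
  (eq_or_ne (x - h • x) 0).imp (fun e => (sub_eq_zero.1 e).symm) fun e => by
    rw [(B.rf_eq hr hx e (h := h) (x := x) (by simp)).1]; simp

theorem rf_sq {r : H} (hr : Rf V r) : r * r = 1 := B.faith _ fun z => by
  rcases B.rf_cases (h := r⁻¹) hr (x := r • z) (by simpa using neg_mem (sub_mem_cm r z)) with h | h
  · rw [inv_smul_smul] at h; rw [mul_smul, ← h, ← h]
  · rw [mul_smul, ← h, inv_smul_smul]

theorem rf_inv {r : H} (hr : Rf V r) : r⁻¹ = r := inv_eq_of_mul_eq_one_right (B.rf_sq hr)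

theorem rf_smul {r : H} (hr : Rf V r) (x : V) : r • r • x = x := by rw [← mul_smul, B.rf_sq hr, one_smul]

theorem rf_neg {r : H} (hr : Rf V r) {a : V} (ha : a ∈ cm V r) : r • a = -a := by
  obtain ⟨z, rfl⟩ := ha
  change r • (z - r • z) = -(z - r • z)
  rw [smul_sub, B.rf_smul hr, neg_sub]

theorem rf_uniq {r s : H} (hr : Rf V r) (hs : Rf V s) {a : V} (h0 : a ≠ 0) (h1 : a ∈ cm V r) (h2 : a ∈ cm V s) :
    r = s := by
  obtain ⟨z, hz⟩ := mem_cm.1 h1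
  obtain ⟨a1, a2⟩ := B.rf_eq hs h2 h0 hz
  by_contra hne
  have := hr.2 (r * s) (fun e => hne (by rw [← B.rf_inv hs]; exact eq_inv_of_mul_eq_one_left e))
    (fun x hx => mem_fx.2 (by rw [mul_smul, mem_fx.1 (a2 hx), mem_fx.1 hx]))
    (mem_fx.2 (show (r * s) • z = z by rw [mul_smul, a1, ← hz, B.rf_smul hr]))
  exact h0 (sub_eq_self.1 (hz.symm.trans (mem_fx.1 this)))

theorem mem_fx_mul {r s : H} (hr : Rf V r) (hs : Rf V s) (hne : r ≠ s) {x : V} :
    x ∈ fx V (r * s) ↔ r • x = x ∧ s • x = x := by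
  refine ⟨fun h => ?_, fun h => mem_fx.2 (by rw [mul_smul, h.2, h.1])⟩
  have e : s • x = r • x := by rw [← B.rf_smul hr (s • x), ← mul_smul r s, mem_fx.1 h]
  have : x - r • x = 0 := by_contra fun h0 => hne (B.rf_uniq hr hs h0 (sub_mem_cm r x) (e ▸ sub_mem_cm s x))
  exact ⟨(sub_eq_zero.1 this).symm, e.trans (sub_eq_zero.1 this).symm⟩

theorem conj_eq {r s h : H} (hr : Rf V r) (hs : Rf V s) {a : V} (h0 : a ≠ 0) (h1 : a ∈ cm V r)
    (h2 : h • a ∈ cm V s) : h * r * h⁻¹ = s :=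
  B.rf_uniq (hr.conj h) hs ((smul_ne_zero_iff_ne h).2 h0) (smul_mem_cm h h1) h2

theorem comm_of_fix {r h : H} (hr : Rf V r) {a : V} (h0 : a ≠ 0) (h1 : a ∈ cm V r) (h2 : h • a = a) : Commute h r :=
  mul_inv_eq_iff_eq_mul.1 (B.conj_eq hr hr h0 h1 (h2.symm ▸ h1))

theorem fix_of_comm {r s : H} (hr : Rf V r) (hs : Rf V s) (hne : r ≠ s) (hc : Commute s r) {a : V}
    (ha : a ∈ cm V r) : s • a = a :=
  (sub_eq_zero.1 (by_contra fun h0 => hne (B.rf_uniq hr hs h0 (sub_mem ha (smul_mem_cm' hc ha)) (sub_mem_cm s a)))).symm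

theorem two_or_odd : (∀ v : V, v + v = 0) ∨ ∀ v : V, v + v = 0 → v = 0 := by
  rcases B.irr (AddMonoidHom.id V + AddMonoidHom.id V).ker (fun h w (hw : w + w = 0) =>
    show h • w + h • w = 0 by rw [← smul_add, hw, smul_zero]) with h | h
  · exact .inr fun v hv => AddSubgroup.mem_bot.1 (h ▸ hv)
  · exact .inl fun v => h.ge (AddSubgroup.mem_top v)

theorem fix_cm {r h : H} (hr : Rf V r) {f x : V} (h0 : f ≠ 0) (hf : f ∈ cm V r) (e : h • f = f) (hx : x ∈ cm V r) :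
    h • x = x := by
  have k : ∀ x ∈ cm V r, h • x = x ∨ h • x = -x := fun x hx => B.rf_neg hr hx ▸
    B.rf_cases hr (sub_mem hx (smul_mem_cm' (B.comm_of_fix hr h0 hf e) hx))
  rcases k x hx with a | a
  · exact a
  rcases B.two_or_odd with h2 | h2
  · rw [a, neg_eq_of_add_eq_zero_right (h2 x)]
  rcases k _ (add_mem hx hf) with b | b <;> rw [smul_add, e] at b
  · exact add_right_cancel b
  · rw [a, neg_add, add_right_inj, eq_neg_iff_add_eq_zero] at b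
    exact absurd (h2 f b) h0

theorem ne_bot {r : H} (hr : r ≠ 1) : ∃ a ∈ cm V r, a ≠ 0 := by
  by_contra! h
  exact hr (B.faith r fun v => (sub_eq_zero.1 (h _ (sub_mem_cm r v))).symm)

variable [Finite V]

theorem exists_neg (v : V) {r : H} (hr : Rf V r) : ∃ h : H, h • v = -v := by
  obtain ⟨_, -, ⟨h, rfl⟩, hm⟩ := Finite.exists_le_minimal (p := fun W => ∃ t : H, fx V t = W) ⟨1, rfl⟩
  have h1 : (⨅ k : H, fx V (k * r * k⁻¹)) = ⊥ := (B.irr _ fun g w hw => AddSubgroup.mem_iInf.2 fun k =>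
    mem_fx_conj.2 (by simpa [mul_smul] using mem_fx_conj.1 (AddSubgroup.mem_iInf.1 hw (g⁻¹ * k)))).resolve_right
    fun e => hr.1 (B.faith r fun v => by
      simpa [mem_fx] using AddSubgroup.mem_iInf.1 (e.ge (AddSubgroup.mem_top v)) 1)
  have h2 : fx V h = ⊥ := eq_bot_iff.2 (h1 ▸ le_iInf fun k => by
    by_contra hn
    have : ∀ x ∈ fx V ((k * r * k⁻¹) * h), h • x = x ∧ (k * r * k⁻¹) • x = x := fun x hx => by
      have e : h • x = (k * r * k⁻¹) • x := by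
        rw [← B.rf_smul (hr.conj k) (h • x), ← mul_smul _ h, mem_fx.1 hx]
      have : x - h • x = 0 := by_contra fun h0 =>
        hn (B.rf_eq (hr.conj k) (e ▸ sub_mem_cm _ x) h0 (x := x) (by simp)).2
      exact ⟨(sub_eq_zero.1 this).symm, e.symm.trans (sub_eq_zero.1 this).symm⟩
    exact hn fun x hx => mem_fx.2 (this x (hm ⟨_, rfl⟩ (fun y hy => mem_fx.2 (this y hy).1) hx)).2)
  obtain ⟨z, hz⟩ := Finite.surjective_of_injective ((AddMonoidHom.ker_eq_bot_iff _).1 h2) v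
  obtain ⟨g, hg⟩ := B.key v
  exact ⟨g, (hg z h (by rw [← hz]; exact (sub_sub_cancel _ _).symm)).2.2⟩

omit [Finite V] in
theorem eq_zero_of_nc {r s : H} (hs : Rf V s) (hn : ¬ Commute r s) {a : V} (ha : a ∈ cm V s) (h : r • a = a) : a = 0 :=
  by_contra fun h0 => hn (B.comm_of_fix hs h0 ha h)

theorem card_le_of_nc {r s : H} (hs : Rf V s) (hn : ¬ Commute r s) : Nat.card (cm V s) ≤ Nat.card (cm V r) :=
  Nat.card_le_card_of_injective (((dl V r).rangeRestrict).comp (cm V s).subtype) ((injective_iff_map_eq_zero _).2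
    fun a h => Subtype.ext (B.eq_zero_of_nc hs hn a.2 (mem_fx.1 (congrArg Subtype.val h))))

theorem card_eq_of_nc {r s : H} (hr : Rf V r) (hs : Rf V s) (hn : ¬ Commute r s) :
    Nat.card (cm V r) = Nat.card (cm V s) :=
  (B.card_le_of_nc hr (mt Commute.symm hn)).antisymm (B.card_le_of_nc hs hn)

theorem exists_perp {r : H} (hr : Rf V r) (w : V) : ∃ g : H, g • w = -w ∧
    (∀ x (h : H), h • (x + w) = x - w → g • x = x) ∧ (∀ (x : V) (h : H), h • x = x → h • w = -w → g • x = x) ∧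
    ∀ (x : V) (h : H), h • x = -x → h • w = w → g • x = x := by
  obtain ⟨g, hg⟩ := B.key (w + w)
  obtain ⟨h0, e0⟩ := B.exists_neg w hr
  have e1 : g • w = -w := (hg w h0 (by simpa using e0)).1.trans (by simp)
  have e2 : ∀ x (h : H), h • (x + w) = x - w → g • x = x := fun x h e => by
    simpa [e1, sub_eq_add_neg, add_assoc] using (hg (x + w) h (by simpa using e)).1
  refine ⟨g, e1, e2, fun x h a b => e2 x h (by rw [smul_add, a, b, sub_eq_add_neg]), fun x h a b => ?_⟩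
  obtain ⟨k, hk⟩ := B.exists_neg (x - w) hr
  exact e2 x (k⁻¹ * h) (by rw [mul_smul, inv_smul_eq_iff, smul_add, a, b, hk]; abel)

section nc
variable {r s : H} (hr : Rf V r) (hs : Rf V s) (hn : ¬ Commute r s)
include hr hs hn

theorem eq_zero_of_WY {w : V} (hw : w ∈ cm V r ⊔ cm V s) (h : w ∈ fx V (r * s)) : w = 0 := by
  obtain ⟨h1, h2⟩ := (B.mem_fx_mul hr hs (by rintro rfl; exact hn rfl)).1 h
  obtain ⟨a, ha, b, hb, rfl⟩ := AddSubgroup.mem_sup.1 hw
  rcases B.two_or_odd with h0 | h0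
  · rw [smul_add, B.rf_neg hr ha, neg_eq_of_add_eq_zero_right (h0 a), add_right_inj] at h1
    rw [smul_add, B.rf_neg hs hb, neg_eq_of_add_eq_zero_right (h0 b), add_left_inj] at h2
    rw [B.eq_zero_of_nc hs hn hb h1, B.eq_zero_of_nc hr (mt Commute.symm hn) ha h2, add_zero]
  · obtain ⟨g, g1, -, -, g2⟩ := B.exists_perp hr (a + b)
    rw [smul_add, g2 a r (B.rf_neg hr ha) h1, g2 b s (B.rf_neg hs hb) h2] at g1
    exact h0 _ (eq_neg_iff_add_eq_zero.1 g1)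

theorem cm_mul : cm V (r * s) = cm V r ⊔ cm V s := by
  have h1 : cm V (r * s) ≤ cm V r ⊔ cm V s := by
    rintro _ ⟨z, rfl⟩
    rw [show dl V (r * s) z = (s • z - r • s • z) + (z - s • z) by change z - (r * s) • z = _; rw [mul_smul]; abel]
    exact AddSubgroup.add_mem_sup (sub_mem_cm _ _) (sub_mem_cm _ _)
  refine h1.antisymm fun w hw => ?_
  obtain ⟨z, hz⟩ := Finite.surjective_of_injective (f := ((dl V (r * s)).comp (cm V r ⊔ cm V s).subtype).codRestrict _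
    fun x => h1 ⟨x, rfl⟩) ((injective_iff_map_eq_zero _).2 fun x h =>
      Subtype.ext (B.eq_zero_of_WY hr hs hn x.2 (congrArg Subtype.val h))) ⟨w, hw⟩
  exact ⟨z, congrArg Subtype.val hz⟩

theorem card_cm_mul' : Nat.card (cm V (r * s)) = Nat.card (cm V r) ^ 2 := by
  rw [B.cm_mul hr hs hn, sq]
  nth_rewrite 2 [B.card_eq_of_nc hr hs hn]
  rw [← Nat.card_prod]
  refine (Nat.card_eq_of_bijective (fun p : cm V r × cm V s => (⟨p.1 + p.2, AddSubgroup.add_mem_sup p.1.2 p.2.2⟩ :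
    (cm V r ⊔ cm V s :))) ⟨fun p p' h => ?_, fun w => ?_⟩).symm
  · have h := congrArg Subtype.val h
    have e : (p.1 : V) - p'.1 = p'.2 - p.2 := by rw [sub_eq_sub_iff_add_eq_add, add_comm (p'.2 : V)]; exact h
    have : (p.1 : V) - p'.1 = 0 := by_contra fun h0 => hn (by
      rw [B.rf_uniq hr hs h0 (sub_mem p.1.2 p'.1.2) (e ▸ sub_mem p'.2.2 p.2.2)])
    exact Prod.ext (Subtype.ext (sub_eq_zero.1 this)) (Subtype.ext (sub_eq_zero.1 (e.symm.trans this)).symm)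
  · obtain ⟨a, ha, b, hb, e⟩ := AddSubgroup.mem_sup.1 w.2
    exact ⟨(⟨a, ha⟩, ⟨b, hb⟩), Subtype.ext e⟩

theorem decomp (v : V) : ∃ a ∈ cm V r, ∃ b ∈ cm V s, ∃ y ∈ fx V (r * s), v = a + b + y := by
  have h1 := (B.cm_mul hr hs hn).le
  obtain ⟨z, hz⟩ := Finite.surjective_of_injective (f := ((dl V (r * s)).comp (cm V r ⊔ cm V s).subtype).codRestrict _
    fun x => h1 ⟨x, rfl⟩) ((injective_iff_map_eq_zero _).2 fun x h =>
      Subtype.ext (B.eq_zero_of_WY hr hs hn x.2 (congrArg Subtype.val h))) ⟨_, h1 ⟨v, rfl⟩⟩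
  obtain ⟨a, ha, b, hb, e⟩ := AddSubgroup.mem_sup.1 z.2
  exact ⟨a, ha, b, hb, v - z, (map_sub _ _ _).trans (sub_eq_zero.2 (congrArg Subtype.val hz).symm), by simp [e]⟩

theorem eq_one_of_le {g : H} (h1 : ∀ a ∈ cm V r, g • a = a) (h2 : ∀ a ∈ cm V s, g • a = a)
    (h3 : fx V (r * s) ≤ fx V g) : g = 1 := B.faith g fun v => by
  obtain ⟨a, ha, b, hb, y, hy, rfl⟩ := B.decomp hr hs hn v
  rw [smul_add, smul_add, h1 a ha, h2 b hb, mem_fx.1 (h3 hy)]

theorem rf_of_le {g : H} (h0 : g ≠ 1) (h1 : ∀ a ∈ cm V r, g • a = a) (h3 : fx V (r * s) ≤ fx V g) : Rf V g := by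
  obtain ⟨t, ht, hle⟩ := exists_rf (V := V) h0
  have h4 : ∀ a ∈ cm V r, t • a = a := fun a ha => mem_fx.1 (hle (mem_fx.2 (h1 a ha)))
  obtain ⟨a, ha, a0⟩ := B.ne_bot hr.1
  have h5 : ¬ Commute t s := fun hc => ht.1 (B.eq_one_of_le hr hs hn h4 (fun b hb => B.fix_of_comm hs ht
    (by rintro rfl; exact hn (B.comm_of_fix hr a0 ha (h4 a ha)).symm) hc hb) (h3.trans hle))
  refine ht.of_le h0 fun v hv => ?_
  obtain ⟨a, ha, b, hb, y, hy, rfl⟩ := B.decomp hr hs hn v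
  rw [mem_fx, smul_add, smul_add, h4 a ha, mem_fx.1 (hle (h3 hy)), add_left_inj, add_right_inj] at hv
  rw [B.eq_zero_of_nc hs h5 hb hv, add_zero]
  exact add_mem (mem_fx.2 (h1 a ha)) (h3 hy)

theorem exists_nc {t : H} (ht : Rf V t) (h : fx V (r * s) ≤ fx V t) : ∃ u, (u = r ∨ u = s) ∧ Rf V u ∧ ¬ Commute t u ∧
    Nat.card (cm V t) = Nat.card (cm V r) ∧ fx V (t * u) ≤ fx V (r * s) := by
  have : ∃ u, (u = r ∨ u = s) ∧ Rf V u ∧ ¬ Commute t u ∧ Nat.card (cm V t) = Nat.card (cm V r) := by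
    by_cases h1 : Commute t r
    · have h2 : ¬ Commute t s := fun h2 => ht.1 (B.eq_one_of_le hr hs hn
        (fun a => B.fix_of_comm hr ht (by rintro rfl; exact hn h2) h1)
        (fun a => B.fix_of_comm hs ht (by rintro rfl; exact hn h1.symm) h2) h)
      exact ⟨s, .inr rfl, hs, h2, (B.card_eq_of_nc ht hs h2).trans (B.card_eq_of_nc hr hs hn).symm⟩
    · exact ⟨r, .inl rfl, hr, h1, B.card_eq_of_nc ht hr h1⟩
  obtain ⟨u, a, b, c, d⟩ := this
  refine ⟨u, a, b, c, d, fx_eq (fun y hy => mem_fx.2 ?_) (by rw [B.card_cm_mul' hr hs hn, B.card_cm_mul' ht b c, d])⟩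
  obtain ⟨h1, h2⟩ := (B.mem_fx_mul hr hs (by rintro rfl; exact hn rfl)).1 hy
  rcases a with rfl | rfl <;> simp only [mul_smul, h1, h2, mem_fx.1 (h hy)]

end nc

section two
variable (h2 : ∀ v : V, v + v = 0)
include h2

omit [Finite V] in
theorem fix_of_comm_two {r g : H} (hr : Rf V r) (hc : Commute g r) {a : V} (ha : a ∈ cm V r) : g • a = a :=
  (B.rf_cases hr (sub_mem ha (smul_mem_cm' hc ha))).elim id fun h =>
    h.trans ((B.rf_neg hr ha).trans (neg_eq_of_add_eq_zero_right (h2 a)))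

omit [Finite V] in
theorem nc_of_conj {r h : H} (hr : Rf V r) (hne : r ≠ h * r * h⁻¹) : ¬ Commute r (h * r * h⁻¹) := fun hc => by
  have hs := hr.conj h
  obtain ⟨x, hx, x0⟩ := B.ne_bot hr.1
  have hy := smul_mem_cm h hx
  obtain ⟨g, hg⟩ := B.key (x - h • x)
  obtain ⟨g1, -, g2⟩ := hg x h (by simp)
  generalize h * r * h⁻¹ = s at *
  rw [sub_sub_cancel] at g1
  have e1 := B.conj_eq hr hs x0 hx (g1 ▸ hy)
  have e2 := B.conj_eq (h := g) hs hr ((smul_ne_zero_iff_ne h).2 x0) hy (by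
    rw [smul_sub, g1, neg_sub, sub_right_inj] at g2; rwa [g2])
  have n : ∀ a b : V, a + b = a - b := fun a b => by rw [sub_eq_add_neg, neg_eq_of_add_eq_zero_right (h2 b)]
  have k : ∀ u, u ∈ cm V r ∨ u ∈ cm V s → ∀ z, (r * s) • z = z - (u - g • u) → u = 0 := fun u hu z hz => by
    have := B.nogo (z := u) (h := g) (by simp) hz (by
      rcases hu with hu | hu
      · rw [mul_smul, B.fix_of_comm_two h2 hr hc.symm hu, B.fix_of_comm_two h2 hr rfl hu]
      · rw [mul_smul, B.fix_of_comm_two h2 hs rfl hu, B.fix_of_comm_two h2 hs hc hu])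
    by_contra h0
    rcases hu with hu | hu
    · exact hne (B.rf_uniq hr hs h0 hu (sub_eq_zero.1 this ▸ e1 ▸ smul_mem_cm g hu))
    · exact hne (B.rf_uniq hr hs h0 (sub_eq_zero.1 this ▸ e2 ▸ smul_mem_cm g hu) hu)
  refine hr.1 (B.faith r fun z => ?_)
  obtain ⟨a, ha, ea⟩ : ∃ a ∈ cm V r, r • z = z - a := ⟨_, sub_mem_cm r z, by simp⟩
  obtain ⟨b, hb, eb⟩ : ∃ b ∈ cm V s, s • z = z - b := ⟨_, sub_mem_cm s z, by simp⟩
  have e3 : (r * s) • z = z - (a + b) := by rw [mul_smul, eb, smul_sub, ea, B.fix_of_comm_two h2 hs hc hb, sub_sub]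
  have e4 : (r * s) • g • z = g • (r * s) • z := by
    rw [← mul_smul, ← mul_smul, hc.eq, ← mul_assoc, mul_inv_eq_iff_eq_mul.1 e2, mul_assoc r,
      mul_inv_eq_iff_eq_mul.1 e1, ← mul_assoc r, hc.eq]
  have e5 : g • g • b = b := by
    rw [← mul_smul]
    exact B.fix_of_comm_two h2 hs (by
      rw [Commute, SemiconjBy, mul_assoc, mul_inv_eq_iff_eq_mul.1 e2, ← mul_assoc, mul_inv_eq_iff_eq_mul.1 e1,
        mul_assoc]) hb
  have e6 := k (a + g • b) (.inl (add_mem ha (e2 ▸ smul_mem_cm g hb))) (z + g • z) (by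
    rw [smul_add, e4, e3, smul_sub, smul_add, smul_add, e5, ← n (a + g • b)]; abel)
  rw [n, sub_eq_zero] at e6
  have := k b (.inr hb) z (by rw [e3, e6, ← n b, add_comm])
  simp [ea, e6, this]

theorem cov_two {r s : H} (hr : Rf V r) (hs : Rf V s) (hn : ¬ Commute r s) {w : V} (hw : w ∈ cm V r ⊔ cm V s)
    (h0 : w ≠ 0) : ∃ t : H, Rf V t ∧ w ∈ cm V t ∧ (¬ Commute t r ∨ ¬ Commute t s) := by
  obtain ⟨z, hz⟩ := mem_cm.1 ((B.cm_mul hr hs hn).ge hw)
  obtain ⟨g, hg⟩ := B.key w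
  obtain ⟨g1, g2, g3⟩ := hg z _ hz
  rw [neg_eq_of_add_eq_zero_right (h2 w)] at g3
  have g0 : g ≠ 1 := by rintro rfl; exact h0 (by simpa using g1.symm)
  obtain ⟨t, ht, hle⟩ := exists_rf (V := V) g0
  obtain ⟨u, -, hu, a, b, c⟩ := B.exists_nc hr hs hn ht (g2.trans hle)
  have hc : t = g * t * g⁻¹ := by_contra fun hne => h0 (B.eq_zero_of_WY hr hs hn hw (fx_eq (k := t * (g * t * g⁻¹))
    (fun y hy => mem_fx.2 (by simp only [mul_smul, mem_fx.1 (hle (g2 hy)), inv_smul_eq_iff.2 (mem_fx.1 (g2 hy)).symm,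
      mem_fx.1 (g2 hy)])) (by rw [B.card_cm_mul' hr hs hn, B.card_cm_mul' ht (ht.conj g) (B.nc_of_conj h2 ht hne), b])
    (mem_fx.2 (by simp only [mul_smul, mem_fx.1 (hle (mem_fx.2 g3)), inv_smul_eq_iff.2 g3.symm, g3]))))
  have hg' := B.rf_of_le ht hu a g0 (fun a => B.fix_of_comm_two h2 ht (mul_inv_eq_iff_eq_mul.1 hc.symm)) (c.trans g2)
  obtain ⟨u, e, -, a, -⟩ := B.exists_nc hr hs hn hg' g2
  exact ⟨g, hg', mem_cm.2 ⟨z, g1⟩, e.imp (by rintro rfl; exact a) (by rintro rfl; exact a)⟩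

theorem isConj_of_nc [Finite H] {r s : H} (hr : Rf V r) (hs : Rf V s) (hn : ¬ Commute r s) : IsConj r s := by
  have e : ∀ j, r * (r * s) ^ j = ((r * s) ^ j)⁻¹ * r := fun j => by
    rw [← inv_pow]
    exact SemiconjBy.pow_right (by rw [SemiconjBy, mul_inv_rev, B.rf_inv hr, B.rf_inv hs, mul_assoc, ← mul_assoc r,
      B.rf_sq hr, one_mul, mul_one]) j
  obtain ⟨m, hm | hm⟩ := Nat.even_or_odd' (orderOf (r * s))
  · have h1 : ((r * s) ^ m)⁻¹ = (r * s) ^ m := inv_eq_of_mul_eq_one_right (by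
      rw [← pow_add, ← two_mul, ← hm, pow_orderOf_eq_one])
    have h3 : Commute ((r * s) ^ m) r := (h1 ▸ e m :).symm
    have := B.eq_one_of_le hr hs hn (fun a => B.fix_of_comm_two h2 hr h3) (fun a => B.fix_of_comm_two h2 hs (by
      simpa [← mul_assoc, B.rf_sq hr] using h3.mul_right ((Commute.refl (r * s)).pow_left m)))
      fun y hy => mem_fx.2 (MulAction.mem_stabilizer_iff.1 (pow_mem (MulAction.mem_stabilizer_iff.2 (mem_fx.1 hy)) m))
    have h4 := orderOf_pos (r * s)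
    have := orderOf_le_of_pow_eq_one (by omega) this
    omega
  · refine isConj_iff.2 ⟨((r * s) ^ (m + 1))⁻¹, ?_⟩
    rw [← e, inv_inv, mul_assoc, ← pow_add, show m + 1 + (m + 1) = orderOf (r * s) + 1 by omega, pow_succ,
      pow_orderOf_eq_one, one_mul, ← mul_assoc, B.rf_sq hr, one_mul]

end two

section odd
variable (h2 : ∀ v : V, v + v = 0 → v = 0)
include h2

omit B [Finite V] in
theorem eq_zero_of_neg {g : H} {v : V} (h : g • v = -v) (h' : g • v = v) : v = 0 :=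
  h2 v (eq_neg_iff_add_eq_zero.1 (h'.symm.trans h))

omit B in
theorem mem_cm_of_neg {g : H} {v : V} (h : g • v = -v) : v ∈ cm V g := by
  obtain ⟨z, rfl⟩ := Finite.surjective_of_injective (f := AddMonoidHom.id V + AddMonoidHom.id V)
    ((injective_iff_map_eq_zero _).2 h2) v
  change g • (z + z) = -(z + z) at h
  refine mem_cm.2 ⟨z, ?_⟩
  change _ = z - (z + z)
  rw [sub_add_cancel_left, eq_neg_iff_add_eq_zero]
  exact h2 _ (by rw [add_add_add_comm, ← smul_add, h, neg_add_cancel])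

section nc
variable {r s : H} (hr : Rf V r) (hs : Rf V s) (hn : ¬ Commute r s)
include hr hs hn

theorem cm_le {h : H} (hh : fx V (r * s) ≤ fx V h) : cm V h ≤ cm V r ⊔ cm V s := fun u hu => by
  obtain ⟨a, ha, b, hb, y, hy, rfl⟩ := B.decomp hr hs hn u
  have hw := AddSubgroup.add_mem_sup ha hb
  obtain ⟨g, g1, -, -, g2⟩ := B.exists_perp hr y
  have k : ∀ {x : V} {k : H}, x ∈ cm V k → y ∈ fx V k → g • x = x := fun {x k} hx hk => by
    obtain ⟨z, hz⟩ := mem_cm.1 hx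
    obtain ⟨g', hg'⟩ := B.key x
    exact g2 x g' (hg' z k hz).2.2 (mem_fx.1 ((hg' z k hz).2.1 hk))
  have := k hu (hh hy)
  rw [smul_add, k ((B.cm_mul hr hs hn).ge hw) hy, add_right_inj] at this
  rwa [eq_zero_of_neg h2 g1 this, add_zero]

theorem star {t : H} (ht : Rf V t) (h : fx V (r * s) ≤ fx V t) {f : V} (hf : f ∈ cm V r ⊔ cm V s) (h0 : f ≠ 0)
    (h1 : t • f = f) : ∃ g : H, Rf V g ∧ fx V (r * s) ≤ fx V g ∧ f ∈ cm V g := by
  obtain ⟨u, -, hu, a, -, c⟩ := B.exists_nc hr hs hn ht h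
  obtain ⟨g, g1, -, g2, g3⟩ := B.exists_perp hr f
  obtain ⟨z, hz⟩ := mem_cm.1 ((B.cm_mul hr hs hn).ge hf)
  obtain ⟨g', hg'⟩ := B.key f
  have : fx V (r * s) ≤ fx V g := fun y hy => mem_fx.2 (g2 y g' (mem_fx.1 ((hg' z _ hz).2.1 hy)) (hg' z _ hz).2.2)
  exact ⟨g, B.rf_of_le ht hu a (by rintro rfl; exact h0 (eq_zero_of_neg h2 g1 (one_smul _ _)))
    (fun x hx => g3 x t (B.rf_neg ht hx) h1) (c.trans this), this, mem_cm_of_neg h2 g1⟩

theorem cov_odd {w : V} (hw : w ∈ cm V r ⊔ cm V s) (h0 : w ≠ 0) : ∃ t : H, Rf V t ∧ w ∈ cm V t := by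
  have d : ∀ h : H, h ≠ 1 → fx V (r * s) ≤ fx V h → ∀ f ∈ cm V r ⊔ cm V s, f ≠ 0 → h • f = f → Rf V h :=
    fun h h1 hh f hf f0 e => by
      obtain ⟨t, ht, hle⟩ := exists_rf (V := V) h1
      obtain ⟨g, hg, g1, g2⟩ := B.star h2 hr hs hn ht (hh.trans hle) hf f0 (mem_fx.1 (hle (mem_fx.2 e)))
      obtain ⟨u, -, hu, a, -, c⟩ := B.exists_nc hr hs hn hg g1
      exact B.rf_of_le hg hu a h1 (fun x hx => B.fix_cm hg f0 g2 e hx) (c.trans hh)
  by_contra! hc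
  have k : ∀ h : H, fx V (r * s) ≤ fx V h → h • w = w → h = 1 := fun h hh e => by_contra fun h1 => by
    obtain ⟨g, hg, -, g2⟩ := B.star h2 hr hs hn (d h h1 hh w hw h0 e) hh hw h0 e
    exact hc g hg g2
  suffices (r * s) * (r * s) = 1 from hn (by
    rw [Commute, SemiconjBy, eq_inv_of_mul_eq_one_left this, mul_inv_rev, B.rf_inv hr, B.rf_inv hs])
  by_cases h1 : w + (r * s) • w = 0
  · refine k _ (fun y hy => mem_fx.2 (by rw [mul_smul, mem_fx.1 hy, mem_fx.1 hy])) ?_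
    rw [add_eq_zero_iff_neg_eq] at h1
    rw [mul_smul, ← h1, smul_neg, ← h1, neg_neg]
  obtain ⟨g, hg⟩ := B.key (w - (r * s) • w)
  obtain ⟨g1, g2, g3⟩ := hg w (r * s) (by simp)
  rw [sub_sub_cancel] at g1
  have e : g⁻¹ * (r * s) = 1 := k _ (fun y hy => mem_fx.2 (by
    rw [mul_smul, mem_fx.1 hy, inv_smul_eq_iff, mem_fx.1 (g2 hy)])) (by rw [mul_smul, inv_smul_eq_iff, g1])
  rw [inv_mul_eq_one] at e
  rw [smul_sub, g1, neg_sub, sub_right_inj] at g3
  refine e ▸ B.rf_sq (d g (fun h => hn ?_) g2 _ ?_ h1 (by rw [smul_add, g1, g3, add_comm]))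
  · rw [eq_inv_of_mul_eq_one_left (e.symm.trans h), B.rf_inv hs]
  · simpa using sub_mem (add_mem hw hw) ((B.cm_mul hr hs hn).le (sub_mem_cm _ w))

end nc

theorem cov_of_conj {r h : H} (hr : Rf V r) {w : V} (hw : w ∈ cm V r ⊔ cm V (h * r * h⁻¹)) (h0 : w ≠ 0) :
    ∃ t : H, Rf V t ∧ w ∈ cm V t := by
  have hs := hr.conj h
  obtain ⟨x, hx, x0⟩ := B.ne_bot hr.1
  have hy := smul_mem_cm h hx
  have y0 := (smul_ne_zero_iff_ne h).2 x0
  generalize h * r * h⁻¹ = s at *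
  by_cases hne : r = s
  · exact ⟨r, hr, by simpa [← hne] using hw⟩
  by_cases hc : Commute r s
  swap
  · exact B.cov_odd h2 hr hs hc hw h0
  have a1 := B.fix_of_comm hr hs hne hc.symm hx
  have a2 := B.fix_of_comm hs hr (Ne.symm hne) hc hy
  obtain ⟨g, g1, g2, g3, -⟩ := B.exists_perp hr (x - h • x)
  obtain ⟨t, ht, hle⟩ := exists_rf (V := V) (h := g) (by
    rintro rfl
    exact hne (B.rf_uniq hr hs x0 hx (sub_eq_zero.1 (eq_zero_of_neg h2 g1 (one_smul _ _)) ▸ hy)))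
  have b1 : t • (x + h • x) = x + h • x := mem_fx.1 (hle (mem_fx.2 (g2 _ h (by
    rw [add_add_sub_cancel, smul_add]; abel))))
  have b2 : ∀ y : V, r • y = y → s • y = y → t • y = y := fun y a b => mem_fx.1 (hle (mem_fx.2 (g3 y (r * s)
    (by rw [mul_smul, b, a]) (by rw [mul_smul, smul_sub, a1, B.rf_neg hs hy, smul_sub, smul_neg, a2, B.rf_neg hr hx]; abel))))
  have n : ¬ (t • x = x ∧ t • h • x = h • x) := fun ⟨c1, c2⟩ => by
    obtain ⟨u, hu, u0⟩ := B.ne_bot ht.1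
    refine u0 (eq_zero_of_neg h2 (B.rf_neg ht hu) (b2 u (B.fix_of_comm ht hr ?_ (B.comm_of_fix hr x0 hx c1).symm hu)
      (B.fix_of_comm ht hs ?_ (B.comm_of_fix hs y0 hy c2).symm hu))) <;> rintro rfl
    exacts [x0 (eq_zero_of_neg h2 (B.rf_neg hr hx) c1), y0 (eq_zero_of_neg h2 (B.rf_neg hs hy) c2)]
  rw [smul_add] at b1
  have n1 : ¬ Commute r t := fun c => n (by
    by_cases e : r = t
    · subst e; rw [a2, add_left_inj] at b1; exact ⟨b1, a2⟩
    · have := B.fix_of_comm hr ht e c.symm hx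
      exact ⟨this, by rwa [this, add_right_inj] at b1⟩)
  have n2 : ¬ Commute t s := fun c => n (by
    by_cases e : s = t
    · subst e; rw [a1, add_right_inj] at b1; exact ⟨a1, b1⟩
    · have := B.fix_of_comm hs ht e c hy
      exact ⟨by rwa [this, add_left_inj] at b1, this⟩)
  refine B.cov_odd h2 hr ht n1 (sup_le le_sup_left (B.cm_le h2 hr ht n1 fun y hy => ?_) hw) h0
  obtain ⟨c1, c2⟩ := (B.mem_fx_mul hr ht (by rintro rfl; exact n1 rfl)).1 hy
  have := b2 (y + s • y) (by rw [smul_add, ← mul_smul, hc.eq, mul_smul, c1])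
    (by rw [smul_add, B.rf_smul hs, add_comm])
  rw [smul_add, c2, add_right_inj] at this
  exact mem_fx.2 (sub_eq_zero.1 (B.eq_zero_of_nc hs n2 (sub_mem_cm s y) (by rw [smul_sub, c2, this]))).symm

theorem cov_add {r : H} (hr : Rf V r) {a b : V} (ha : ∀ c ∈ cm V r, a + c ≠ 0 → ∃ t : H, Rf V t ∧ a + c ∈ cm V t)
    (hb : ∀ c ∈ cm V r, b + c ≠ 0 → ∃ t : H, Rf V t ∧ b + c ∈ cm V t) (h0 : a + b ≠ 0) :
    ∃ t : H, Rf V t ∧ a + b ∈ cm V t := by
  by_contra! hn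
  have k : ∀ c ∈ cm V r, ∃ h : H, h • (a + b) = a - b + (c + c) := fun c hc => by
    have e : a + b = (a + c) + (b + -c) := by abel
    have h1 : a + c ≠ 0 := fun h => by
      rw [h, zero_add] at e
      obtain ⟨t, ht, h'⟩ := hb _ (neg_mem hc) (e ▸ h0)
      exact hn t ht (e ▸ h')
    have h3 : b + -c ≠ 0 := fun h => by
      rw [h, add_zero] at e
      obtain ⟨t, ht, h'⟩ := ha _ hc h1
      exact hn t ht (e ▸ h')
    obtain ⟨t, ht, h'⟩ := ha _ hc h1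
    obtain ⟨u, hu, h''⟩ := hb _ (neg_mem hc) h3
    by_cases hc : Commute t u
    · refine ⟨u, ?_⟩
      rw [e, smul_add, B.fix_of_comm ht hu (by rintro rfl; exact hn t ht (e ▸ add_mem h' h'')) hc.symm h',
        B.rf_neg hu h'']
      abel
    · obtain ⟨v, hv, h⟩ := B.cov_odd h2 ht hu hc (AddSubgroup.add_mem_sup h' h'') (e ▸ h0)
      exact absurd (e ▸ h) (hn v hv)
  obtain ⟨c, hc, c0⟩ := B.ne_bot hr.1
  obtain ⟨h, e⟩ := k 0 (zero_mem _)
  have k' : ∀ c ∈ cm V r, c ≠ 0 → r • (a - b) = a - b - (c + c) := fun c hc c0 => by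
    obtain ⟨h', e'⟩ := k _ (neg_mem hc)
    refine (B.rf_eq (h := h' * h⁻¹) hr (add_mem hc hc) (mt (h2 c) c0) ?_).1
    rw [add_zero, add_zero] at e
    rw [mul_smul, inv_smul_eq_iff.2 e.symm, e']; abel
  have := (k' c hc c0).symm.trans (k' _ (neg_mem hc) (neg_ne_zero.2 c0))
  rw [sub_right_inj, ← neg_add, eq_neg_iff_add_eq_zero] at this
  exact c0 (h2 _ (h2 _ this))

end odd

theorem cov [Finite H] {r : H} (hr : Rf V r) (v : V) : ∃ t : H, Rf V t ∧ v ∈ cm V t := by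
  suffices ∃ P : H → Prop, (∀ h, P (h * r * h⁻¹)) ∧ ∀ s t, Rf V s → Rf V t → P s → P t → s ≠ t → ∀ a ∈ cm V s,
      ∀ b ∈ cm V t, a + b ≠ 0 → ∃ u, Rf V u ∧ P u ∧ a + b ∈ cm V u by
    obtain ⟨P, h1, h2⟩ := this
    let X : AddSubgroup V :=
      { carrier := {v | ∃ t, Rf V t ∧ P t ∧ v ∈ cm V t}
        zero_mem' := ⟨_, hr.conj 1, h1 1, zero_mem _⟩
        neg_mem' := fun ⟨t, a, b, c⟩ => ⟨t, a, b, neg_mem c⟩
        add_mem' := fun {a b} ⟨s, a1, a2, a3⟩ ⟨t, b1, b2, b3⟩ => by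
          by_cases e : s = t
          · exact ⟨t, b1, b2, add_mem (e ▸ a3) b3⟩
          by_cases e' : a + b = 0
          · exact ⟨t, b1, b2, e' ▸ zero_mem _⟩
          · exact h2 s t a1 b1 a2 b2 e a a3 b b3 e' }
    obtain ⟨x, hx, x0⟩ := B.ne_bot hr.1
    have : AddSubgroup.closure (Set.range fun h : H => h • x) = ⊤ := (B.irr _ fun h w hw => by
      refine AddSubgroup.closure_induction (p := fun w _ => h • w ∈ _) ?_ (by simp) (fun a b _ _ ha hb => ?_)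
        (fun a _ ha => ?_) hw
      · rintro _ ⟨k, rfl⟩; exact AddSubgroup.subset_closure ⟨h * k, mul_smul _ _ _⟩
      · rw [smul_add]; exact add_mem ha hb
      · rw [smul_neg]; exact neg_mem ha).resolve_left fun e =>
        x0 (AddSubgroup.mem_bot.1 (e ▸ AddSubgroup.subset_closure ⟨1, one_smul _ _⟩))
    obtain ⟨t, a, -, b⟩ : v ∈ X := (AddSubgroup.closure_le X).2 (by
      rintro _ ⟨h, rfl⟩; exact ⟨_, hr.conj h, h1 h, smul_mem_cm h hx⟩) (this.ge (AddSubgroup.mem_top v))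
    exact ⟨t, a, b⟩
  rcases B.two_or_odd with h2 | h2
  · refine ⟨IsConj r, fun h => isConj_iff.2 ⟨h, rfl⟩, fun s t hs ht a b hne x hx y hy h0 => ?_⟩
    obtain ⟨k, rfl⟩ := isConj_iff.1 (a.symm.trans b)
    obtain ⟨u, hu, c, d⟩ := B.cov_two h2 hs ht (B.nc_of_conj h2 hs hne) (AddSubgroup.add_mem_sup hx hy) h0
    exact ⟨u, hu, d.elim (fun d => a.trans (B.isConj_of_nc h2 hu hs d).symm)
      fun d => b.trans (B.isConj_of_nc h2 hu ht d).symm, c⟩
  refine ⟨fun s => ∀ b ∈ cm V s, ∀ c ∈ cm V r, b + c ≠ 0 → ∃ t : H, Rf V t ∧ b + c ∈ cm V t,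
    fun h b hb c hc => B.cov_of_conj h2 hr (add_comm b c ▸ AddSubgroup.add_mem_sup hc hb),
    fun s t hs ht ps pt _ a ha b hb h0 => ?_⟩
  obtain ⟨u, hu, hab⟩ := B.cov_add h2 hr (ps a ha) (pt b hb) h0
  refine ⟨u, hu, fun x hx c hc => ?_, hab⟩
  have k : ∀ s, Rf V s → (∀ b ∈ cm V s, ∀ c ∈ cm V r, b + c ≠ 0 → ∃ t : H, Rf V t ∧ b + c ∈ cm V t) → ∀ a ∈ cm V s,
      u • a = a ∨ (x + c ≠ 0 → ∃ t : H, Rf V t ∧ x + c ∈ cm V t) := fun s hs ps a ha => by
    by_cases e : s = u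
    · exact .inr (ps x (e ▸ hx) c hc)
    by_cases e' : Commute u s
    · exact .inl (B.fix_of_comm hs hu e e' ha)
    · exact .inr (B.cov_add h2 hs (fun d hd => B.cov_odd h2 hu hs e' (AddSubgroup.add_mem_sup hx hd))
        fun d hd => add_comm d c ▸ ps d hd c hc)
  refine (k s hs ps a ha).elim (fun e => (k t ht pt b hb).elim (fun e' => absurd ?_ h0) id) id
  exact eq_zero_of_neg h2 (B.rf_neg hu hab) (by rw [smul_add, e, e'])

end Bin

end CL.BinAff
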