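/-
PERM library: binary affine groups, the dihedral structure and the field.
-/
import Cfsg.Agent.PERM.BinAff

set_option autoImplicit false

namespace CL.BinAff

open MulAction

theorem dvd_card {K X : Type*} [Group K] [MulAction K X] [Finite X] {P : Set X} (hP : ∀ g : K, ∀ x ∈ P, g • x ∈ P)
    {k : ℕ} (h : ∀ x ∈ P, Nat.card (orbit K x) = k) : k ∣ Nat.card P := by
  classical
  have := Fintype.ofFinite X
  rw [Nat.card_eq_card_toFinset, Finset.card_eq_sum_card_image (Quotient.mk (orbitRel K X))]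
  refine Finset.dvd_sum fun ω hω => ?_
  obtain ⟨x, hx, rfl⟩ := Finset.mem_image.1 hω
  rw [← h x (by simpa using hx), Nat.card_eq_card_toFinset]
  refine dvd_of_eq (congrArg _ (Finset.ext fun y => ?_))
  simp only [Set.mem_toFinset, Finset.mem_filter, Quotient.eq, orbitRel_apply] at hx ⊢
  exact ⟨fun h => ⟨by obtain ⟨g, rfl⟩ := h; exact hP g x hx, h⟩, And.right⟩

theorem card_ne_zero {V : Type*} [AddCommGroup V] [Finite V] (W : AddSubgroup V) :
    Nat.card ((W : Set V) \ {0} :) + 1 = Nat.card W := by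
  rw [Nat.card_coe_set_eq, Set.ncard_sdiff_singleton_add_one W.zero_mem]; rfl

theorem arith {q k j : ℕ} (h : ((q + 1) * (k + 1) + 1) * (j + 1) = q ^ 2) : j = 0 := by
  rcases q with _ | q
  · simp at h
  have e : (q + 2) * ((k + 1) * (j + 1)) + j = (q + 2) * q := by linarith
  exact Nat.eq_zero_of_dvd_of_lt ((Nat.dvd_add_right (Dvd.intro _ rfl)).1 (Dvd.intro q e.symm))
    (by nlinarith [Nat.zero_le ((q + 2) * (k * (j + 1)))])

variable {H V : Type*} [Group H] [AddCommGroup V] [DistribMulAction H V] [Finite H] [Finite V]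

namespace Bin

variable (B : Bin H V)
include B

omit [Finite H] in
theorem card_eq_of_ne {s t : H} (hs : Rf V s) (ht : Rf V t) {v : V} (hv : v ∈ cm V t) (h : s • v ≠ v) :
    Nat.card (cm V t) = Nat.card (cm V s) := by
  by_cases e : t = s
  · rw [e]
  · exact B.card_eq_of_nc ht hs fun hc => h (B.fix_of_comm ht hs e hc.symm hv)

theorem card_cm_eq {s t : H} (hs : Rf V s) (ht : Rf V t) : Nat.card (cm V s) = Nat.card (cm V t) := by
  obtain ⟨v, h1, h2⟩ : ∃ v : V, s • v ≠ v ∧ t • v ≠ v := by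
    by_contra! h
    obtain ⟨a, ha⟩ := not_forall.1 (mt (B.faith s) hs.1)
    obtain ⟨b, hb⟩ := not_forall.1 (mt (B.faith t) ht.1)
    have : s • b = b := by_contra fun e => hb (h b e)
    exact hb (by simpa [h a ha] using h (a + b) (by simpa [this] using ha))
  obtain ⟨u, hu, hv⟩ := B.cov hs v
  rw [← B.card_eq_of_ne hs hu hv h1, B.card_eq_of_ne ht hu hv h2]

omit [Finite H] [Finite V] in
theorem fix_symm {s t : H} (hs : Rf V s) (ht : Rf V t) {x a : V} (hx : x ∈ cm V s) (h0 : x ≠ 0) (ha : a ∈ cm V t)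
    (h : t • x = x) : s • a = a := by
  by_cases e : t = s
  · exact B.fix_cm hs h0 hx (e ▸ h) (e ▸ ha)
  · exact B.fix_of_comm ht hs e (B.comm_of_fix hs h0 hx h).symm ha

theorem exists_rf_smul {r : H} (hr : Rf V r) {h : H} {x : V} (hx : h • x ≠ x) : ∃ t : H, Rf V t ∧ t • x = h • x := by
  obtain ⟨t, ht, a⟩ := B.cov hr (x - h • x)
  exact ⟨t, ht, ((B.rf_cases ht a).resolve_left hx).symm⟩

theorem card_orbit {r : H} (hr : Rf V r) {x : V} (h0 : x ≠ 0) : Nat.card (orbit H x) = Nat.card (fx V r) + 1 := by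
  obtain ⟨s, hs, hx⟩ := B.cov hr x
  obtain ⟨v, hv⟩ := not_forall.1 (mt (B.faith s) hs.1)
  have n : ∀ f : fx V s, s • (v + f) ≠ v + f := fun f e => hv (by simpa [mem_fx.1 f.2] using e)
  choose t ht ht' using fun f : fx V s => B.cov hr (v + f)
  have n' : ∀ f, t f • x ≠ x := fun f e => n f (B.fix_symm hs (ht f) hx h0 (ht' f) e)
  have inj : ∀ u, Rf V u → u • x ≠ x → ∀ a ∈ cm V u, s • a = a → a = 0 := fun u hu e a ha e' =>
    by_contra fun a0 => e (B.fix_symm hu hs ha a0 hx e')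
  have e : Nat.card (fx V r) = Nat.card (fx V s) := Nat.eq_of_mul_eq_mul_right (Nat.card_pos (α := cm V s)) (by
    rw [card_cm_mul, ← B.card_cm_eq hr hs, card_cm_mul])
  rw [e, ← Finite.card_option]
  refine (Nat.card_eq_of_bijective (fun o => o.elim ⟨x, mem_orbit_self x⟩ fun f => ⟨t f • x, mem_orbit _ _⟩)
    ⟨fun o o' h => ?_, ?_⟩).symm
  · rcases o with _ | f <;> rcases o' with _ | f' <;> simp only [Option.elim, Subtype.mk.injEq] at h
    · rfl
    · exact absurd h.symm (n' _)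
    · exact absurd h (n' _)
    · have := B.rf_uniq (ht f) (ht f') (sub_ne_zero.2 (n' f).symm) (sub_mem_cm _ _) (h ▸ sub_mem_cm _ _)
      have := inj _ (ht f) (n' f) _ (sub_mem (ht' f) (this ▸ ht' f')) (by simpa using mem_fx.1 (sub_mem f.2 f'.2))
      exact congrArg _ (Subtype.ext (by simpa [sub_eq_zero] using this))
  · rintro ⟨_, h, rfl⟩
    by_cases e : h • x = x
    · exact ⟨none, Subtype.ext e.symm⟩
    obtain ⟨u, hu, eu⟩ := B.exists_rf_smul hr e
    obtain ⟨b, hb⟩ := ((Nat.bijective_iff_injective_and_card (((dl V s).rangeRestrict).comp (cm V u).subtype)).2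
      ⟨(injective_iff_map_eq_zero _).2 fun a h => Subtype.ext (inj u hu (eu ▸ e) a a.2
        (mem_fx.1 (congrArg Subtype.val h))), B.card_cm_eq hu hs⟩).2 ⟨_, v, rfl⟩
    have hf : b.1 - v ∈ fx V s := (map_sub _ _ _).trans (sub_eq_zero.2 (congrArg Subtype.val hb))
    exact ⟨some ⟨_, hf⟩, Subtype.ext (.trans (congrArg (· • x) (B.rf_uniq (ht ⟨_, hf⟩) hu
      (fun e => n ⟨_, hf⟩ (by rw [e, smul_zero])) (ht' _) (by simp))) eu)⟩

variable {r : H} (hr : Rf V r) {x : V} (h0 : x ≠ 0) (hx : r • x = x)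
include hr h0 hx

theorem card_fx : Nat.card (fx V r) = Nat.card (cm V r) := by
  obtain ⟨t, ht, a⟩ := B.cov hr x
  have h1 : Nat.card (cm V r) ≤ Nat.card (fx V r) := B.card_cm_eq ht hr ▸
    AddSubgroup.card_le_of_le fun y hy => mem_fx.2 (B.fix_cm ht h0 a hx hy)
  obtain ⟨k, hk⟩ := dvd_card (K := H) (P := ((⊤ : AddSubgroup V) : Set V) \ {0})
    (fun g y hy => ⟨trivial, (smul_ne_zero_iff_ne g).2 hy.2⟩) fun y hy => B.card_orbit hr hy.2
  have h2 := card_ne_zero (⊤ : AddSubgroup V)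
  rw [hk, AddSubgroup.card_top, ← card_cm_mul (V := V) r] at h2
  have := Nat.le_of_dvd (Nat.succ_pos _) (show Nat.card (fx V r) + 1 ∣ Nat.card (cm V r) + 1 from
    (Nat.dvd_add_right (Dvd.intro k rfl)).1 (Dvd.intro (Nat.card (cm V r)) (by linear_combination -h2)))
  omega

omit hr h0 hx in
theorem fx_eq_cm {s t h : H} (hs : Rf V s) (ht : Rf V t) (hle : fx V h ≤ fx V t) {y : V} (y0 : y ≠ 0)
    (hy : y ∈ cm V s) (e : h • y = y) : fx V t ≤ cm V s ∧ cm V s ≤ fx V h := by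
  have : cm V s ≤ fx V h := fun z hz => mem_fx.2 (B.fix_cm hs y0 hy e hz)
  refine ⟨(AddSubgroup.eq_of_le_of_card_ge (this.trans hle) ?_).ge, this⟩
  rw [B.card_fx ht y0 (mem_fx.1 (hle (mem_fx.2 e))), B.card_cm_eq ht hs]

omit h0 hx in
theorem rf_of_fix {h : H} (h1 : h ≠ 1) {y : V} (y0 : y ≠ 0) (e : h • y = y) : Rf V h := by
  obtain ⟨s, hs, hy⟩ := B.cov hr y
  obtain ⟨t, ht, hle⟩ := exists_rf (V := V) h1
  obtain ⟨a, b⟩ := B.fx_eq_cm hs ht hle y0 hy e
  exact ht.of_le h1 (a.trans b)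

omit h0 hx in
theorem eq_of_fix {t u : H} (ht : Rf V t) (hu : Rf V u) {y : V} (y0 : y ≠ 0) (e : t • y = y) (e' : u • y = y) :
    t = u := by
  by_contra hne
  obtain ⟨s, hs, hy⟩ := B.cov hr y
  have := B.rf_sq (B.rf_of_fix hr (h := t * u) (fun e => hne (by
    rw [← B.rf_inv hu]; exact eq_inv_of_mul_eq_one_left e)) y0 (by rw [mul_smul, e', e]))
  have hc : Commute t u := by
    rw [Commute, SemiconjBy, eq_inv_of_mul_eq_one_left this, mul_inv_rev, B.rf_inv ht, B.rf_inv hu]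
  obtain ⟨a, ha, a0⟩ := B.ne_bot ht.1
  obtain ⟨b, hb, b0⟩ := B.ne_bot hu.1
  exact hne ((B.rf_uniq ht hs a0 ha ((B.fx_eq_cm hs hu le_rfl y0 hy e').1
    (mem_fx.2 (B.fix_of_comm ht hu hne hc.symm ha)))).trans (B.rf_uniq hu hs b0 hb ((B.fx_eq_cm hs ht le_rfl
    y0 hy e).1 (mem_fx.2 (B.fix_of_comm hu ht (Ne.symm hne) hc hb)))).symm)

theorem exists_fix {t : H} (ht : Rf V t) : ∃ y : V, y ≠ 0 ∧ t • y = y := by
  by_contra! h
  have h1 := card_cm_mul (V := V) t
  rw [(AddSubgroup.eq_bot_iff_forall _).2 fun y hy => by_contra fun y0 => h y y0 (mem_fx.1 hy), AddSubgroup.card_bot,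
    one_mul, ← card_cm_mul (V := V) r, B.card_cm_eq ht hr, eq_comm, mul_eq_right₀ Nat.card_pos.ne',
    AddSubgroup.card_eq_one] at h1
  exact h0 (AddSubgroup.mem_bot.1 (h1 ▸ mem_fx.2 hx))

theorem not_rf_mul {t u : H} (ht : Rf V t) (hu : Rf V u) : ¬ Rf V (t * u) := fun h => by
  have : t ≠ u := by rintro rfl; exact h.1 (B.rf_sq ht)
  obtain ⟨y, y0, e⟩ := B.exists_fix hr h0 hx h
  obtain ⟨a, b⟩ := (B.mem_fx_mul ht hu this).1 (mem_fx.2 e)
  exact this (B.eq_of_fix hr ht hu y0 a b)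

theorem rf_mul {c t : H} (hc : ¬ Rf V c) (ht : Rf V t) : Rf V (c * t) := by
  obtain ⟨y, y0, e⟩ := B.exists_fix hr h0 hx ht
  by_cases h1 : c = 1
  · simpa [h1]
  obtain ⟨s, hs, e'⟩ := B.exists_rf_smul hr (h := c) (mt (B.rf_of_fix hr h1 y0) hc)
  have e1 : (s * c) • y = y := by rw [mul_smul, ← e', B.rf_smul hs]
  have := B.eq_of_fix hr (B.rf_of_fix hr (h := s * c) (fun e => hc (by
    rwa [eq_inv_of_mul_eq_one_right e, B.rf_inv hs])) y0 e1) ht y0 e1 e
  rwa [eq_inv_mul_of_mul_eq this, mul_assoc, B.rf_sq ht, mul_one, B.rf_inv hs]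

theorem dihedral : ∃ (C : Subgroup H) (q : ℕ), (∀ c ∈ C, c * r * (c * r) = 1) ∧ (∀ h, h ∈ C ∨ h * r ∈ C) ∧
    (∀ c ∈ C, ∀ y : V, y ≠ 0 → c • y = y → c = 1) ∧ Nat.card C = q + 1 ∧ Nat.card V = q ^ 2 := by
  let C : Subgroup H :=
    { carrier := {c | ¬ Rf V c}
      one_mem' := fun h => h.1 rfl
      mul_mem' := fun {a b} ha hb => by
        have := B.not_rf_mul hr h0 hx (B.rf_mul hr h0 hx ha (B.rf_mul hr h0 hx hb hr)) hr
        rwa [mul_assoc, mul_assoc, B.rf_sq hr, mul_one] at this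
      inv_mem' := fun {a} ha h => ha (by rw [← inv_inv a, B.rf_inv h]; exact h) }
  have h1 : ∀ h, h ∈ C ∨ h * r ∈ C := fun h => (em' (Rf V h)).imp_right fun a => B.not_rf_mul hr h0 hx a hr
  have h2 : ∀ c ∈ C, ∀ y : V, y ≠ 0 → c • y = y → c = 1 := fun c hc y y0 e =>
    by_contra fun h => hc (B.rf_of_fix hr h y0 e)
  refine ⟨C, Nat.card (fx V r), fun c hc => B.rf_sq (B.rf_mul hr h0 hx hc hr), h1, h2, ?_,
    by rw [← card_cm_mul (V := V) r, ← B.card_fx hr h0 hx, sq]⟩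
  rw [← B.card_orbit hr h0]
  refine Nat.card_eq_of_bijective (fun c => ⟨c.1 • x, mem_orbit _ _⟩) ⟨fun c d h => Subtype.ext (inv_mul_eq_one.1
    (h2 _ (mul_mem (inv_mem c.2) d.2) x h0 ?_)), ?_⟩
  · rw [mul_smul, inv_smul_eq_iff]; exact (congrArg Subtype.val h).symm
  · rintro ⟨_, h, rfl⟩
    exact (h1 h).elim (fun a => ⟨⟨h, a⟩, rfl⟩) fun a => ⟨⟨_, a⟩, Subtype.ext (by simp [mul_smul, hx])⟩

theorem exists_field : ∃ (F E : Type) (_ : Field F) (_ : Fintype F) (_ : Field E) (_ : Fintype E) (_ : Algebra F E)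
    (e : V ≃+ E), Module.finrank F E = 2 ∧
      (∀ h : H, ∃ (a : E) (φ : E ≃ₐ[F] E), Algebra.norm F a = 1 ∧ ∀ v, e (h • v) = a * φ (e v)) ∧
      ∀ (a : E) (φ : E ≃ₐ[F] E), Algebra.norm F a = 1 → ∃ h : H, ∀ v, e (h • v) = a * φ (e v) := by
  classical
  obtain ⟨C, q, c1, c2, c3, c4, c5⟩ := B.dihedral hr h0 hx
  have inv : ∀ c ∈ C, r * c * r = c⁻¹ := fun c hc => eq_inv_of_mul_eq_one_right (by simpa [mul_assoc] using c1 c hc)
  have irr : ∀ W : AddSubgroup V, (∀ c ∈ C, ∀ w ∈ W, c • w ∈ W) → W = ⊥ ∨ W = ⊤ := fun W hW => by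
    obtain ⟨k, hk⟩ := dvd_card (K := C) (P := (W : Set V) \ {0}) (k := q + 1)
      (fun g y hy => ⟨hW _ g.2 _ hy.1, (smul_ne_zero_iff_ne g).2 hy.2⟩) fun y hy => by
        rw [← c4, Nat.card_congr (orbitEquivQuotientStabilizer C y), (Subgroup.eq_bot_iff_forall (stabilizer C y)).2
          fun c hc => Subtype.ext (c3 _ c.2 y hy.2 hc), Nat.card_congr QuotientGroup.quotientBot.toEquiv]
    have h1 := card_ne_zero W
    have h2 := W.card_mul_index
    rw [← h1, hk, c5] at h2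
    rcases k with _ | k
    · exact .inl (AddSubgroup.card_eq_one.1 (by rw [← h1, hk, mul_zero]))
    refine .inr (AddSubgroup.index_eq_one.1 ?_)
    obtain ⟨j, hj⟩ := Nat.exists_eq_succ_of_ne_zero (AddSubgroup.index_ne_zero_of_finite (H := W))
    rw [hj] at h2 ⊢
    rw [arith h2]
  let ρ := DistribMulAction.toAddMonoidEnd H V
  let S := Subring.closure (ρ '' C)
  have cc : ∀ c ∈ C, ∀ d ∈ C, c * d = d * c := fun c hc d hd => by
    rw [← inv_inj, ← inv _ (mul_mem hc hd), mul_inv_rev, ← inv c hc, ← inv d hd]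
    simp [mul_assoc, ← mul_assoc r r, B.rf_sq hr]
  have : IsMulCommutative S := Subring.isMulCommutative_closure (by
    rintro _ ⟨c, hc, rfl⟩ _ ⟨d, hd, rfl⟩; rw [← map_mul, cc c hc d hd, map_mul])
  let κ : C →* S := (ρ.comp C.subtype).codRestrict _ fun c => Subring.subset_closure ⟨c, c.2, rfl⟩
  have hS : ∀ φ : S, ∀ y, φ.1 y = 0 → φ = 0 ∨ y = 0 := fun φ y hy => by
    rcases irr (AddMonoidHom.ker φ.1) fun c hc w (hw : φ.1 w = 0) => show φ.1 (c • w) = 0 from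
      (DFunLike.congr_fun (congrArg Subtype.val (mul_comm' φ (κ ⟨c, hc⟩))) w).trans
        ((congrArg (c • ·) hw).trans (smul_zero c)) with h | h
    · exact .inr (AddSubgroup.mem_bot.1 (h ▸ hy))
    · exact .inl (Subtype.ext (AddMonoidHom.ext fun v => h.ge (AddSubgroup.mem_top v)))
  let ev : S →+ V := AddMonoidHom.mk' (fun φ => φ.1 x) fun _ _ => rfl
  have hev : Function.Bijective ev := ⟨(injective_iff_map_eq_zero _).2 fun φ h => (hS φ x h).resolve_right h0,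
    AddMonoidHom.range_eq_top.1 ((irr ev.range (by rintro c hc _ ⟨φ, rfl⟩; exact ⟨κ ⟨c, hc⟩ * φ, rfl⟩)).resolve_left
      fun e => h0 (AddSubgroup.mem_bot.1 (e ▸ ⟨1, rfl⟩)))⟩
  have : Finite S := .of_injective _ hev.1
  have : Nontrivial S := ⟨1, 0, fun e => h0 (congrArg ev e :)⟩
  have : NoZeroDivisors S := ⟨fun {a b} h => (hS a (b.1 x) (congrArg ev h)).imp_right
    fun e => (hS b x e).resolve_right h0⟩
  let _ : CommRing S := IsMulCommutative.instCommRing
  have : IsDomain S := NoZeroDivisors.to_isDomain S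
  have := Fintype.ofFinite S
  let _ := Fintype.fieldOfDomain S
  have cS : Nat.card S = q ^ 2 := (Nat.card_eq_of_bijective _ hev).trans c5
  obtain ⟨p, hp⟩ := CharP.exists S
  obtain ⟨n, pp, hn⟩ := FiniteField.card S p
  obtain ⟨k, -, rfl⟩ := (Nat.dvd_prime_pow pp).1 ((dvd_pow_self q two_ne_zero).trans
    (cS.symm.trans (Nat.card_eq_fintype_card.trans hn)).dvd)
  have : Fact p.Prime := ⟨pp⟩
  have k0 : k ≠ 0 := by rintro rfl; exact (Finite.one_lt_card (α := S)).ne' cS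
  let F := GaloisField p k
  let E := FiniteField.Extension F p 2
  have cF : Nat.card F = p ^ k := GaloisField.card p k k0
  have cE : Nat.card E = (p ^ k) ^ 2 := cF ▸ FiniteField.natCard_extension F p 2
  let _ := Fintype.ofFinite E
  let ι : S ≃+* E := FiniteField.ringEquivOfCardEq (by simp only [← Nat.card_eq_fintype_card, cS, cE])
  let e : V ≃+ E := (AddEquiv.ofBijective ev hev).symm.trans ι.toAddEquiv
  have he : ∀ φ : S, e (φ.1 x) = ι φ := fun φ => congrArg ι ((AddEquiv.ofBijective ev hev).symm_apply_apply φ)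
  have e1 : ∀ (c : C) v, e (c.1 • v) = ι (κ c) * e v := fun c v => by
    obtain ⟨φ, rfl⟩ := hev.2 v
    exact (he (κ c * φ)).trans ((map_mul ι _ _).trans (congrArg _ (he φ).symm))
  have e2 : ∀ c : C, ι (κ c) ^ (p ^ k + 1) = 1 := fun c => by
    rw [← map_pow, ← map_pow, ← c4, pow_card_eq_one', map_one, map_one]
  have e3 : ∀ v, e (r • v) = FiniteField.Extension.frob F p 2 (e v) := fun v => by
    obtain ⟨⟨φ, hφ⟩, rfl⟩ := hev.2 v
    suffices ∃ ψ : S, (∀ y, ψ.1 (r • y) = r • φ y) ∧ ι ψ = FiniteField.Extension.frob F p 2 (ι ⟨φ, hφ⟩) by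
      obtain ⟨ψ, a, b⟩ := this
      exact (congrArg e ((a x).symm.trans (congrArg _ hx))).trans ((he ψ).trans (b.trans (congrArg _ (he _).symm)))
    induction hφ using Subring.closure_induction with
    | mem _ h =>
      obtain ⟨c, hc, rfl⟩ := h
      refine ⟨κ ⟨c, hc⟩⁻¹, fun y => show c⁻¹ • r • y = r • c • y by
        rw [← inv c hc, mul_smul, mul_smul, B.rf_smul hr], ?_⟩
      rw [map_inv, map_inv₀, FiniteField.Extension.frob_apply, cF]
      exact inv_eq_of_mul_eq_one_left ((pow_succ _ _).symm.trans (e2 ⟨c, hc⟩))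
    | zero => exact ⟨0, fun y => (smul_zero r).symm, by rw [show (⟨0, _⟩ : S) = 0 from rfl, map_zero, map_zero]⟩
    | one => exact ⟨1, fun y => rfl, by simp [show (⟨1, _⟩ : S) = 1 from rfl]⟩
    | add a b ha hb h1 h2 =>
      obtain ⟨ψ, a1, a2⟩ := h1
      obtain ⟨χ, b1, b2⟩ := h2
      exact ⟨ψ + χ, fun y => (congrArg₂ _ (a1 y) (b1 y)).trans (smul_add _ _ _).symm, by
        rw [map_add, a2, b2, ← map_add, ← map_add]; rfl⟩
    | neg a ha h1 =>
      obtain ⟨ψ, a1, a2⟩ := h1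
      exact ⟨-ψ, fun y => (congrArg _ (a1 y)).trans (smul_neg _ _).symm, by rw [map_neg, a2, ← map_neg, ← map_neg]; rfl⟩
    | mul a b ha hb h1 h2 =>
      obtain ⟨ψ, a1, a2⟩ := h1
      obtain ⟨χ, b1, b2⟩ := h2
      exact ⟨ψ * χ, fun y => (congrArg _ (b1 y)).trans (a1 _), by rw [map_mul, a2, b2, ← map_mul, ← map_mul]; rfl⟩
  have nm : ∀ a : E, Algebra.norm F a = 1 ↔ a ^ (p ^ k + 1) = 1 := fun a => by
    rw [← (algebraMap F E).injective.eq_iff, FiniteField.algebraMap_norm_eq_pow, map_one, cE, cF, Nat.sq_sub_sq _ 1,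
      Nat.mul_div_cancel _ (Nat.sub_pos_of_lt (Nat.one_lt_pow k0 pp.one_lt))]
  refine ⟨F, E, inferInstance, Fintype.ofFinite F, inferInstance, inferInstance, inferInstance, e,
    FiniteField.finrank_extension F p 2, fun h => ?_, fun a φ ha => ?_⟩
  · rcases c2 h with a | a
    · exact ⟨_, 1, (nm _).2 (e2 ⟨h, a⟩), e1 ⟨h, a⟩⟩
    · exact ⟨_, _, (nm _).2 (e2 ⟨_, a⟩), fun v => by rw [← e3, ← e1, mul_smul, B.rf_smul hr]⟩
  · let κ' : C → rootsOfUnity (p ^ k + 1) E := fun c => rootsOfUnity.mkOfPowEq _ (e2 c)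
    have hi : Function.Injective κ' := fun c d h => Subtype.ext (inv_mul_eq_one.1
      (c3 _ (mul_mem (inv_mem c.2) d.2) x h0 (by
        rw [mul_smul, inv_smul_eq_iff, ← e.injective.eq_iff, e1, e1]
        exact congrArg (· * _) (congrArg (fun u => u.1.1) h).symm)))
    obtain ⟨c, hc⟩ := (hi.bijective_of_nat_card_le (c4 ▸ card_rootsOfUnity _ _)).2
      (rootsOfUnity.mkOfPowEq _ ((nm a).1 ha))
    obtain rfl : ι (κ c) = a := congrArg (fun u => u.1.1) hc
    obtain ⟨i, hi, rfl⟩ := FiniteField.Extension.exists_frob_pow_eq F p 2 φ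
    interval_cases i
    · exact ⟨c, e1 c⟩
    · exact ⟨c * r, fun v => by rw [mul_smul, e1, e3, pow_one]⟩

end Bin

end CL.BinAff
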