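import Mathlib
import Cfsg.Agent.PERM.SimplePow
import Cfsg.Agent.TECH.Conj

/-!
A non-abelian simple group has an element `t ≠ 1` whose centraliser is not maximal among the
subgroups invariant under the automorphisms that fix or invert `t`.
-/

set_option autoImplicit false

namespace CL.CentMax

open Subgroup CL.MSS CL.SPow

variable {T : Type*} [Group T]

/-- A finite group is not the union of the conjugates of the centres of non-abelian Sylow
subgroups. -/
theorem not_forall_center_sylow [Finite T] [Nontrivial T]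
    (h : ∀ u : T, u ≠ 1 → ∃ p : ℕ, p.Prime ∧ ∃ P : Sylow p T, ¬ IsMulCommutative P ∧ u ∈ P ∧
      ∀ x ∈ P, x * u = u * x) : False := by
  classical
  set n := Nat.card T with hn
  have hn1 : 1 < n := Finite.one_lt_card
  let B : ℕ → Set T := fun p => {u | p.Prime ∧ ∃ P : Sylow p T, ¬ IsMulCommutative P ∧ u ∈ P ∧
      ∀ x ∈ P, x * u = u * x}
  have hB : ∀ p, (B p).ncard * p ^ 2 ≤ n := by
    intro p
    rcases (B p).eq_empty_or_nonempty with h0 | ⟨_, hp, P, hP, -⟩
    · simp [h0]
    have := Fact.mk hp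
    let F : (T ⧸ (P : Subgroup T)) × center P → T := fun x => x.1.out * (x.2 : P) * x.1.out⁻¹
    have h1 : B p ⊆ Set.range F := by
      rintro u ⟨-, Q, -, hu, hQ⟩
      obtain ⟨g, rfl⟩ := MulAction.exists_smul_eq T P Q
      obtain ⟨k, hk⟩ := QuotientGroup.mk_out_eq_mul (P : Subgroup T) g
      have hu' : g⁻¹ * u * g ∈ P := by
        have : u ∈ ((g • P : Sylow p T) : Subgroup T) := hu
        rwa [sylow_coe_smul, mem_cj] at this
      have hc : ∀ x ∈ P, x * (g⁻¹ * u * g) = g⁻¹ * u * g * x := by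
        intro x hx
        have := hQ (g * x * g⁻¹) (by
          change _ ∈ ((g • P : Sylow p T) : Subgroup T)
          rw [sylow_coe_smul]; exact conj_mem_cj hx)
        calc x * (g⁻¹ * u * g) = g⁻¹ * (g * x * g⁻¹ * u) * g := by group
          _ = _ := by rw [this]; group
      refine ⟨(g, ⟨⟨_, hu'⟩, mem_center_iff.mpr fun x => Subtype.ext (hc x x.2)⟩), ?_⟩
      change _ * (g⁻¹ * u * g) * _ = u
      rw [hk, mul_assoc g, hc k k.2]
      group
    have h2 : (B p).ncard ≤ (P : Subgroup T).index * Nat.card (center P) := by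
      refine (Set.ncard_le_ncard h1).trans ?_
      rw [← Set.image_univ]
      refine (Set.ncard_image_le).trans ?_
      rw [Set.ncard_univ, Nat.card_prod]
      rfl
    have h3 : p ^ 2 ≤ (center P).index := by
      obtain ⟨k, hk⟩ := IsPGroup.iff_card.mp (P.2.to_quotient (center P))
      change _ ≤ Nat.card _
      rw [hk]
      refine Nat.pow_le_pow_right hp.pos ?_
      by_contra hlt
      apply hP
      have : IsCyclic (P ⧸ center P) := isCyclic_of_card_dvd_prime (p := p) (by
        rw [hk]; simpa using pow_dvd_pow p (show k ≤ 1 by omega))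
      exact isMulCommutative_of_isCyclic_quotient_center_self P
    calc _ ≤ (P : Subgroup T).index * Nat.card (center P) * (center P).index :=
          Nat.mul_le_mul h2 h3
      _ = n := by rw [mul_assoc, card_mul_index, index_mul_card]
  have hcov : (Set.univ : Set T) ⊆ ⋃ p ∈ Finset.Ioc 1 n, B p := by
    have key : ∀ p (u : T), u ≠ 1 → u ∈ B p → p ∈ Finset.Ioc 1 n := by
      rintro p u hu ⟨hp, P, -, huP, -⟩
      have := Fact.mk hp
      refine Finset.mem_Ioc.mpr ⟨hp.one_lt, Nat.le_of_dvd (by omega) ?_⟩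
      rcases P.2.card_eq_or_dvd with h1 | h1
      · exact absurd (mem_bot.mp ((card_eq_one.mp h1) ▸ huP)) hu
      · exact h1.trans (card_subgroup_dvd_card _)
    intro u _
    simp only [Set.mem_iUnion]
    by_cases hu : u = 1
    · obtain ⟨v, hv⟩ := exists_ne (1 : T)
      obtain ⟨p, hp, P, h1, h2, h3⟩ := h v hv
      exact ⟨p, key p v hv ⟨hp, P, h1, h2, h3⟩, hp, P, h1, hu ▸ P.one_mem, by simp [hu]⟩
    · obtain ⟨p, hp⟩ := h u hu
      exact ⟨p, key p u hu hp, hp⟩
  have h1 : n ≤ ∑ p ∈ Finset.Ioc 1 n, (B p).ncard :=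
    (Set.ncard_univ T).symm.le.trans ((Set.ncard_le_ncard hcov).trans (Finset.set_ncard_biUnion_le _ _))
  have h2 : (n : ℝ) ≤ ∑ p ∈ Finset.Ioc 1 n, (n : ℝ) * ((p : ℝ) ^ 2)⁻¹ := by
    refine (Nat.cast_le.mpr h1).trans ?_
    rw [Nat.cast_sum]
    refine Finset.sum_le_sum fun p hp => ?_
    have hp0 : (0 : ℝ) < (p : ℝ) ^ 2 := by
      have := (Finset.mem_Ioc.mp hp).1
      positivity
    rw [← div_eq_mul_inv, le_div_iff₀ hp0]
    exact_mod_cast hB p
  rw [← Finset.mul_sum] at h2
  have h3 := sum_Ioc_inv_sq_le_sub (α := ℝ) one_ne_zero hn1.le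
  have hn0 : (0 : ℝ) < n := by positivity
  have h4 := h2.trans (mul_le_mul_of_nonneg_left h3 hn0.le)
  rw [mul_sub, mul_inv_cancel₀ hn0.ne'] at h4
  simp at h4
  linarith

theorem not_forall_centralizer_max [Finite T] [IsSimpleGroup T] (hT : ¬ IsMulCommutative T)
    (hP : ∀ t : T, t ≠ 1 → ∀ X : Subgroup T, centralizer {t} ≤ X →
      (∀ α : MulAut T, α t = t ∨ α t = t⁻¹ → ∀ x ∈ X, α x ∈ X) → X = centralizer {t} ∨ X = ⊤) :
    False := by
  have hinv : ∀ (α : MulAut T) (t : T), α t = t ∨ α t = t⁻¹ →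
      ∀ x ∈ centralizer ({t} : Set T), α x ∈ centralizer ({t} : Set T) := by
    intro α t h x hx
    rw [mem_centralizer_singleton_iff] at hx ⊢
    have h1 : Commute (α x) (α t) := Commute.map hx α
    rcases h with h | h <;> rw [h] at h1
    · exact h1
    · exact Commute.inv_right_iff.mp h1
  have step1 : ∀ (u : T) (k : ℕ), u ^ k ≠ 1 →
      centralizer ({u ^ k} : Set T) = centralizer ({u} : Set T) := by
    intro u k hk
    have hu : u ≠ 1 := by rintro rfl; simp at hk
    refine (hP u hu _ (fun x hx => ?_) (fun α hα => hinv α _ ?_)).resolve_right fun h => hk ?_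
    · rw [mem_centralizer_singleton_iff] at hx ⊢
      exact Commute.pow_right hx k
    · rw [map_pow]
      exact hα.imp (fun h => by rw [h]) (fun h => by rw [h, inv_pow])
    · exact eq_one_of_forall_comm hT fun s => mem_centralizer_singleton_iff.mp (h ▸ mem_top s)
  have step2 : ∀ u v : T, Commute u v → u ≠ 1 → v ≠ 1 → (orderOf u).Coprime (orderOf v) →
      centralizer ({u} : Set T) = centralizer ({v} : Set T) := by
    have key : ∀ u v : T, Commute u v → u ≠ 1 → (orderOf u).Coprime (orderOf v) →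
        centralizer ({u * v} : Set T) = centralizer ({u} : Set T) := by
      intro u v huv hu hc
      have h1 : u ^ orderOf v ≠ 1 := fun h =>
        hu (orderOf_eq_one_iff.mp (hc.eq_one_of_dvd (orderOf_dvd_of_pow_eq_one h)))
      have h2 : (u * v) ^ orderOf v = u ^ orderOf v := by
        rw [huv.mul_pow, pow_orderOf_eq_one, mul_one]
      rw [← step1 u _ h1, ← h2, step1 _ _ (h2 ▸ h1)]
    intro u v huv hu hv hc
    rw [← key u v huv hu hc, huv.eq, key v u huv.symm hv hc.symm]
  apply not_forall_center_sylow (T := T)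
  intro u₀ hu₀
  obtain ⟨p, hp, hpd⟩ := Nat.exists_prime_and_dvd (mt orderOf_eq_one_iff.mp hu₀)
  have := Fact.mk hp
  set u := u₀ ^ (orderOf u₀ / p) with hu
  have hou : orderOf u = p := orderOf_pow_orderOf_div (orderOf_pos u₀).ne' hpd
  have hu1 : u ≠ 1 := by
    intro h
    rw [h, orderOf_one] at hou
    exact hp.one_lt.ne hou
  have hCu : centralizer ({u} : Set T) = centralizer ({u₀} : Set T) := step1 _ _ hu1
  set C := centralizer ({u} : Set T) with hC
  have huC : u ∈ C := mem_centralizer_singleton_iff.mpr rfl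
  have claimA : ∀ z ∈ C, (∀ k, z ^ p ^ k ≠ 1) → centralizer ({z} : Set T) = C := by
    intro z hz hk
    obtain ⟨k, m, hm, hkm⟩ := Nat.exists_eq_pow_mul_and_not_dvd (orderOf_pos z).ne' p hp.one_lt.ne'
    rw [← step1 z _ (hk k)]
    refine step2 _ _ (Commute.pow_left (mem_centralizer_singleton_iff.mp hz) _) (hk k) hu1 ?_
    rw [hou, orderOf_pow_of_dvd (pow_pos hp.pos k).ne' (hkm ▸ Dvd.intro _ rfl), hkm,
      Nat.mul_div_cancel_left _ (pow_pos hp.pos k)]
    exact ((Nat.Prime.coprime_iff_not_dvd hp).mpr hm).symm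
  have step3 : (∀ z ∈ C, ∃ k, z ^ p ^ k = 1) ∨ ∀ y ∈ C, ∀ z ∈ C, Commute y z := by
    rw [or_iff_not_imp_left]
    intro h
    push Not at h
    obtain ⟨z₀, hz₀, hk₀⟩ := h
    have h0 := claimA z₀ hz₀ hk₀
    intro y hy z hz
    by_cases hk : ∀ k, z ^ p ^ k ≠ 1
    · exact mem_centralizer_singleton_iff.mp ((claimA z hz hk).symm ▸ hy)
    push Not at hk
    obtain ⟨k, hk⟩ := hk
    have h1 : Commute z z₀ := mem_centralizer_singleton_iff.mp (h0.symm ▸ hz)
    have h2 := claimA (z * z₀) (C.mul_mem hz hz₀) (fun l hl => hk₀ (k + l) (by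
      have h3 : (z * z₀) ^ p ^ (k + l) = 1 := by rw [add_comm, pow_add, pow_mul, hl, one_pow]
      rwa [h1.mul_pow, pow_add, pow_mul, hk, one_pow, one_mul, ← pow_add] at h3))
    have h3 : Commute y (z * z₀) := mem_centralizer_singleton_iff.mp (h2.symm ▸ hy)
    have h4 : Commute y z₀ := mem_centralizer_singleton_iff.mp (h0.symm ▸ hy)
    simpa using h3.mul_right h4.inv_right
  let P : Subgroup T :=
    { carrier := {x | x ∈ C ∧ ∃ k, x ^ p ^ k = 1}
      one_mem' := ⟨C.one_mem, 0, by simp⟩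
      inv_mem' := fun ⟨h1, k, hk⟩ => ⟨C.inv_mem h1, k, by rw [inv_pow, hk, inv_one]⟩
      mul_mem' := fun {x y} ⟨h1, k, hk⟩ ⟨h2, l, hl⟩ => ⟨C.mul_mem h1 h2, by
        rcases step3 with h | h
        · exact h _ (C.mul_mem h1 h2)
        · exact ⟨k + l, by
            rw [(h x h1 y h2).mul_pow, pow_add, pow_mul, hk, mul_comm (p ^ k), pow_mul, hl,
              one_pow, one_pow, one_mul]⟩⟩ }
  have hPp : IsPGroup p P := isPGroup_iff_forall_mem.mpr fun x hx => hx.2
  have huP : u ∈ P := ⟨huC, 1, by rw [pow_one, ← hou, pow_orderOf_eq_one]⟩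
  have hPinv : ∀ α : MulAut T, α u = u ∨ α u = u⁻¹ → ∀ x, α x ∈ P ↔ x ∈ P := by
    have key : ∀ α : MulAut T, α u = u ∨ α u = u⁻¹ → ∀ x ∈ P, α x ∈ P := by
      rintro α hα x ⟨h1, k, hk⟩
      exact ⟨hinv α u hα x h1, k, by rw [← map_pow, hk, map_one]⟩
    intro α hα x
    refine ⟨fun h => ?_, key α hα x⟩
    simpa using key α⁻¹ (hα.imp (fun h => by rw [MulAut.inv_def, MulEquiv.symm_apply_eq, h])
      (fun h => by rw [MulAut.inv_def, MulEquiv.symm_apply_eq, map_inv, h, inv_inv])) _ h
  have hPne : ¬ IsPGroup p T := by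
    intro h
    have := h.center_nontrivial
    obtain ⟨z, hz⟩ := exists_ne (1 : center T)
    exact hz (Subtype.ext (eq_one_of_forall_comm hT (mem_center_iff.mp z.2)))
  have hN : normalizer (P : Set T) = C := by
    refine (hP u hu1 _ (fun x hx => ?_) (fun α hα x hx => ?_)).resolve_right fun h => ?_
    · rw [mem_normalizer_iff]
      intro y
      refine (hPinv (MulAut.conj x) (Or.inl ?_) y).symm
      rw [MulAut.conj_apply, mem_centralizer_singleton_iff.mp hx, mul_inv_cancel_right]
    · rw [mem_normalizer_iff] at hx ⊢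
      intro y
      obtain ⟨y, rfl⟩ := α.surjective y
      rw [← map_inv, ← map_mul, ← map_mul]
      exact (hPinv α hα _).trans ((hx y).trans (hPinv α hα _).symm)
    · rcases (normalizer_eq_top_iff.mp h).eq_bot_or_eq_top with h | h
      · exact hu1 (mem_bot.mp (h ▸ huP))
      · exact hPne fun x => (show x ∈ P from h ▸ mem_top x).2
  obtain ⟨S, hS⟩ := hPp.exists_le_sylow
  have hPS : P = S := by
    by_contra hne
    have h1 := lt_inf_normalizer_of_lt S.2 (lt_of_le_of_ne hS hne)
    rw [hN] at h1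
    exact h1.not_ge fun x hx => ⟨hx.2, isPGroup_iff_forall_mem.mp S.2 x hx.1⟩
  have hnab : ¬ ∀ y ∈ C, ∀ z ∈ C, Commute y z := by
    intro h
    have h1 : normalizer (S : Set T) ≤ centralizer (S : Set T) := by
      change normalizer ((S : Subgroup T) : Set T) ≤ centralizer ((S : Subgroup T) : Set T)
      rw [← hPS, hN]
      exact fun y hy z hz => h z hz.1 y hy
    have h2 := MonoidHom.ker_transferSylow_isComplement' S h1
    rcases (inferInstance : (MonoidHom.transferSylow S h1).ker.Normal).eq_bot_or_eq_top with h3 | h3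
    · rw [h3, isComplement'_bot_left, ← hPS] at h2
      exact hPne fun x => (show x ∈ P from h2 ▸ mem_top x).2
    · rw [h3, isComplement'_top_left, ← hPS] at h2
      exact hu1 (mem_bot.mp (h2 ▸ huP))
  have hCP : C ≤ S := fun z hz => hPS ▸ ⟨hz, step3.resolve_right hnab z hz⟩
  have hSC : (S : Subgroup T) ≤ C := fun z hz => (hPS.symm ▸ hz : z ∈ P).1
  refine ⟨p, hp, S, fun h => hnab fun y hy z hz => ?_, hCP ?_, fun x hx => ?_⟩
  · exact congrArg Subtype.val (h.is_comm.comm ⟨y, hCP hy⟩ ⟨z, hCP hz⟩)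
  · rw [hCu]; exact mem_centralizer_singleton_iff.mpr rfl
  · exact mem_centralizer_singleton_iff.mp (hCu ▸ hSC hx)

end CL.CentMax
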