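import Mathlib

/-!
The composition length of a finite group, as the largest length of a subnormal chain.
-/

set_option autoImplicit false

namespace CL.CompLen

open Subgroup ArithmeticFunction

variable {G X : Type*} [Group G] [Group X]

/-- subnormal chains of length `l` from `A` to `B` -/
inductive Ch (A : Subgroup G) : Subgroup G → ℕ → Prop
  | refl : Ch A A 0
  | step {B C : Subgroup G} {l : ℕ} : Ch A B l → B < C → (∀ c ∈ C, ∀ b ∈ B, c * b * c⁻¹ ∈ B) → Ch A C (l + 1)

theorem Ch.le {A B : Subgroup G} {l : ℕ} (h : Ch A B l) : A ≤ B := by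
  induction h with
  | refl => exact le_rfl
  | step _ h _ ih => exact ih.trans h.le

theorem Ch.trans {A B C : Subgroup G} {l m : ℕ} (h : Ch A B l) (h' : Ch B C m) : Ch A C (l + m) := by
  induction h' with
  | refl => exact h
  | step _ h1 h2 ih => exact ih.step h1 h2

theorem Ch.cardFactors_le [Finite G] {A B : Subgroup G} {l : ℕ} (h : Ch A B l) :
    cardFactors (Nat.card A) + l ≤ cardFactors (Nat.card B) := by
  induction h with
  | refl => simp
  | @step B C l _ h1 _ ih =>
    have e : B.relIndex C * Nat.card B = Nat.card C := by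
      rw [relIndex, ← Nat.card_congr (subgroupOfEquivOfLe h1.le).toEquiv, index_mul_card]
    have h2 : B.relIndex C ≠ 1 := fun e => h1.not_ge (relIndex_eq_one.1 e)
    have h3 : B.relIndex C ≠ 0 := fun e' => by
      rw [e', zero_mul] at e; exact Nat.card_pos.ne e
    rw [← e, cardFactors_mul h3 Nat.card_pos.ne']
    have : 0 < cardFactors (B.relIndex C) := cardFactors_pos_iff_one_lt.2 (by omega)
    omega

theorem Ch.map {A B : Subgroup G} {l : ℕ} (h : Ch A B l) (f : G →* X) (hf : Function.Injective f) :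
    Ch (A.map f) (B.map f) l := by
  induction h with
  | refl => exact .refl
  | step _ h1 h2 ih =>
    refine ih.step (lt_of_le_of_ne (map_mono h1.le) fun e => h1.ne (map_injective hf e)) ?_
    rintro _ ⟨c, hc, rfl⟩ _ ⟨b, hb, rfl⟩
    exact ⟨_, h2 c hc b hb, by simp⟩

theorem Ch.comap {A B : Subgroup X} {l : ℕ} (h : Ch A B l) (f : G →* X) (hf : B ≤ f.range) :
    Ch (A.comap f) (B.comap f) l := by
  induction h with
  | refl => exact .refl
  | @step B C l _ h1 h2 ih =>
    refine (ih (h1.le.trans hf)).step (lt_of_le_of_ne (comap_mono h1.le) fun e => h1.ne ?_) ?_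
    · rw [← map_comap_eq_self (h1.le.trans hf), e, map_comap_eq_self hf]
    · intro c hc b hb
      simpa using h2 _ hc _ hb

theorem Ch.step_or {A B C : Subgroup G} {l : ℕ} (h : Ch A B l) (h1 : B ≤ C)
    (h2 : ∀ c ∈ C, ∀ b ∈ B, c * b * c⁻¹ ∈ B) : (B = C ∧ Ch A C l) ∨ Ch A C (l + 1) := by
  rcases h1.eq_or_lt with rfl | h1
  · exact Or.inl ⟨rfl, h⟩
  · exact Or.inr (h.step h1 h2)

theorem Ch.split {B : Subgroup G} {l : ℕ} (h : Ch ⊥ B l) (f : G →* X) :
    ∃ l1 l2, l ≤ l1 + l2 ∧ Ch ⊥ (B ⊓ f.ker) l1 ∧ Ch ⊥ (B.map f) l2 := by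
  induction h with
  | refl => exact ⟨0, 0, le_rfl, by simpa using .refl, by simpa using .refl⟩
  | @step B C l _ h1 h2 ih =>
    obtain ⟨l1, l2, h3, h4, h5⟩ := ih
    have a1 := h4.step_or (C := C ⊓ f.ker) (inf_le_inf_right _ h1.le) fun c hc b hb =>
      ⟨h2 c hc.1 b hb.1, f.normal_ker.conj_mem b hb.2 c⟩
    have a2 := h5.step_or (C := C.map f) (map_mono h1.le) (by
      rintro _ ⟨c, hc, rfl⟩ _ ⟨b, hb, rfl⟩
      exact ⟨_, h2 c hc b hb, by simp⟩)
    rcases a1 with ⟨e1, a1⟩ | a1 <;> rcases a2 with ⟨e2, a2⟩ | a2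
    · refine absurd (fun c hc => ?_) h1.not_ge
      obtain ⟨b, hb, e⟩ : f c ∈ B.map f := e2 ▸ mem_map_of_mem f hc
      have : b⁻¹ * c ∈ B ⊓ f.ker := e1 ▸ ⟨C.mul_mem (C.inv_mem (h1.le hb)) hc, by simp [e]⟩
      simpa using B.mul_mem hb this.1
    · exact ⟨_, _, by omega, a1, a2⟩
    · exact ⟨_, _, by omega, a1, a2⟩
    · exact ⟨_, _, by omega, a1, a2⟩

theorem ch_iff_subtype {B : Subgroup G} {l : ℕ} : Ch ⊥ (⊤ : Subgroup B) l ↔ Ch ⊥ B l := by
  constructor
  · intro h
    simpa [← MonoidHom.range_eq_map] using h.map B.subtype B.subtype_injective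
  · intro h
    simpa using h.comap B.subtype (by simp)

/-- the composition length -/
noncomputable def cl (G : Type*) [Group G] : ℕ := sSup {l | Ch ⊥ (⊤ : Subgroup G) l}

theorem bdd [Finite G] : BddAbove {l | Ch ⊥ (⊤ : Subgroup G) l} :=
  ⟨_, fun _ h => le_add_self.trans (Ch.cardFactors_le h)⟩

theorem Ch.le_cl [Finite G] {l : ℕ} (h : Ch ⊥ (⊤ : Subgroup G) l) : l ≤ cl G := le_csSup bdd h

theorem ch_cl (G : Type*) [Group G] [Finite G] : Ch ⊥ (⊤ : Subgroup G) (cl G) := by
  refine Nat.sSup_mem (s := {l | Ch ⊥ (⊤ : Subgroup G) l}) ?_ bdd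
  rcases (Ch.refl (A := (⊥ : Subgroup G))).step_or (C := ⊤) le_top (by simp) with ⟨-, h⟩ | h
  exacts [⟨_, h⟩, ⟨_, h⟩]

theorem cl_le_cardFactors (G : Type*) [Group G] [Finite G] : cl G ≤ cardFactors (Nat.card G) := by
  simpa using (ch_cl G).cardFactors_le

theorem two_pow_cardFactors_le {n : ℕ} (hn : n ≠ 0) : 2 ^ cardFactors n ≤ n := by
  conv_rhs => rw [← Nat.prod_primeFactorsList hn]
  exact List.pow_card_le_prod _ _ fun p hp => (Nat.prime_of_mem_primeFactorsList hp).two_le

theorem two_pow_cl_le (G : Type*) [Group G] [Finite G] : 2 ^ cl G ≤ Nat.card G :=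
  (Nat.pow_le_pow_right two_pos (cl_le_cardFactors G)).trans (two_pow_cardFactors_le Nat.card_pos.ne')

theorem cl_eq_zero (G : Type*) [Group G] [Subsingleton G] : cl G = 0 := by
  have := cl_le_cardFactors G
  simpa [Nat.card_unique] using this

theorem cl_pos (G : Type*) [Group G] [Finite G] [Nontrivial G] : 1 ≤ cl G :=
  ((Ch.refl (A := (⊥ : Subgroup G))).step (C := ⊤) bot_lt_top (by simp)).le_cl

theorem cl_le_one (G : Type*) [Group G] [Finite G] [IsSimpleGroup G] : cl G ≤ 1 := by
  have h := ch_cl G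
  generalize cl G = l at h
  generalize hT : (⊤ : Subgroup G) = T at h
  cases h with
  | refl => simp
  | @step B C l h1 h2 h3 =>
    subst hT
    have hB : B.Normal := ⟨fun b hb c => h3 c trivial b hb⟩
    rcases hB.eq_bot_or_eq_top with rfl | rfl
    · have := h1.cardFactors_le
      omega
    · exact absurd h2 (lt_irrefl _)

theorem cl_congr [Finite G] (e : G ≃* X) : cl G = cl X := by
  have : Finite X := Finite.of_equiv _ e.toEquiv
  have key : ∀ {G X : Type _} [Group G] [Group X] [Finite G] [Finite X] (e : G ≃* X), cl G ≤ cl X := by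
    intro G X _ _ _ _ e
    have := (ch_cl G).map e.toMonoidHom e.injective
    rw [Subgroup.map_bot, ← MonoidHom.range_eq_map, MonoidHom.range_eq_top.2 e.surjective] at this
    exact this.le_cl
  refine le_antisymm (key e) ?_
  have := (ch_cl X).map e.symm.toMonoidHom e.symm.injective
  rw [Subgroup.map_bot, ← MonoidHom.range_eq_map, MonoidHom.range_eq_top.2 e.symm.surjective] at this
  exact this.le_cl

theorem cl_eq_add [Finite G] (f : G →* X) (hf : Function.Surjective f) : cl G = cl f.ker + cl X := by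
  have : Finite X := Finite.of_surjective f hf
  refine le_antisymm ?_ ?_
  · obtain ⟨l1, l2, h1, h2, h3⟩ := (ch_cl G).split f
    rw [top_inf_eq] at h2
    rw [← MonoidHom.range_eq_map, MonoidHom.range_eq_top.2 hf] at h3
    exact h1.trans (add_le_add (ch_iff_subtype.2 h2).le_cl h3.le_cl)
  · have h1 := ch_iff_subtype.1 (ch_cl f.ker)
    have h2 := (ch_cl X).comap f (by rw [MonoidHom.range_eq_top.2 hf])
    rw [comap_top] at h2
    exact (h1.trans h2).le_cl

theorem cl_pi {m : ℕ} (K : Fin m → Type*) [∀ i, Group (K i)] [∀ i, Finite (K i)] :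
    cl (∀ i, K i) = ∑ i, cl (K i) := by
  induction m with
  | zero => simpa using cl_eq_zero _
  | succ m ih =>
    let f : (∀ i, K i) →* K 0 := Pi.evalMonoidHom K 0
    let e : f.ker ≃* (∀ i : Fin m, K i.succ) :=
      { toFun := fun x i => x.1 i.succ
        invFun := fun y => ⟨Fin.cons 1 y, rfl⟩
        left_inv := fun x => Subtype.ext (funext fun i => Fin.cases (MonoidHom.mem_ker.1 x.2).symm (fun _ => rfl) i)
        right_inv := fun _ => rfl
        map_mul' := fun _ _ => rfl }
    rw [cl_eq_add f (Function.surjective_eval 0), cl_congr e, ih, Fin.sum_univ_succ, add_comm]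

theorem ch_of_fin (l : ℕ) (H : Fin (l + 1) → Subgroup G)
    (hchain : ∀ i : Fin l, H i.castSucc < H i.succ ∧ ((H i.castSucc).subgroupOf (H i.succ)).Normal) :
    Ch (H 0) (H (Fin.last l)) l := by
  induction l with
  | zero => exact .refl
  | succ l ih =>
    refine (ih (fun i => H i.castSucc) fun i => hchain i.castSucc).step (hchain (Fin.last l)).1 fun c hc b hb => ?_
    exact (hchain (Fin.last l)).2.conj_mem ⟨b, (hchain (Fin.last l)).1.le hb⟩ hb ⟨c, hc⟩

end CL.CompLen
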