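import Mathlib
import Cfsg.Agent.PERM.CompLen

/-!
Composition length of permutation groups: the reductions to primitive groups.
-/

set_option autoImplicit false

namespace CL.CompLen

open Subgroup Equiv Function

/-- the bound in degree `n` -/
def P (n : ℕ) : Prop :=
  ∀ (G : Subgroup (Perm (Fin n))) (k : ℕ) (π : Fin n → Fin k), Surjective π →
    (∀ g ∈ G, ∀ x, π (g x) = π x) → 3 * cl G + 4 * k ≤ 4 * n

variable {G Ω ι : Type*} [Group G] [Finite G] [Finite Ω]

theorem cl_eq_ker_add_range {X : Type*} [Group X] (f : G →* X) : cl G = cl f.ker + cl f.range := by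
  rw [cl_eq_add f.rangeRestrict f.rangeRestrict_surjective, MonoidHom.ker_rangeRestrict]

theorem gen (hP : P (Nat.card Ω)) (φ : G →* Perm Ω) (π : Ω → ι) (hπ : Surjective π)
    (hinv : ∀ g x, π (φ g x) = π x) : 3 * cl G + 4 * Nat.card ι ≤ 3 * cl φ.ker + 4 * Nat.card Ω := by
  have : Finite ι := Finite.of_surjective π hπ
  let e := Finite.equivFin Ω
  let u := Finite.equivFin ι
  let ψ : G →* Perm (Fin (Nat.card Ω)) := (Equiv.permCongrHom e).toMonoidHom.comp φ
  have hk : ψ.ker = φ.ker := by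
    ext g
    simp [ψ, MonoidHom.mem_ker]
  have h := hP ψ.range _ (u ∘ π ∘ e.symm) (u.surjective.comp (hπ.comp e.symm.surjective)) (by
    rintro _ ⟨g, rfl⟩ x
    simp [ψ, Equiv.permCongrHom, hinv])
  rw [cl_eq_ker_add_range ψ, hk]
  omega

theorem gen' (hP : P (Nat.card Ω)) (φ : G →* Perm Ω) (hφ : Injective φ) (π : Ω → ι) (hπ : Surjective π)
    (hinv : ∀ g x, π (φ g x) = π x) : 3 * cl G + 4 * Nat.card ι ≤ 4 * Nat.card Ω := by
  have h := gen hP φ π hπ hinv
  rw [(MonoidHom.ker_eq_bot_iff φ).2 hφ, cl_eq_zero (⊥ : Subgroup G)] at h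
  omega

theorem gen1 [Nonempty Ω] (hP : P (Nat.card Ω)) (φ : G →* Perm Ω) :
    3 * cl G + 4 ≤ 3 * cl φ.ker + 4 * Nat.card Ω := by
  simpa using gen hP φ (fun _ => ()) (fun _ => ⟨Classical.arbitrary _, rfl⟩) fun _ _ => rfl

theorem gen1' [Nonempty Ω] (hP : P (Nat.card Ω)) (φ : G →* Perm Ω) (hφ : Injective φ) :
    3 * cl G + 4 ≤ 4 * Nat.card Ω := by
  simpa using gen' hP φ hφ (fun _ => ()) (fun _ => ⟨Classical.arbitrary _, rfl⟩) fun _ _ => rfl

/-- restriction to an invariant subset -/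
def res {G Ω : Type*} [Group G] (φ : G →* Perm Ω) (p : Ω → Prop) (h : ∀ g x, p (φ g x) ↔ p x) :
    G →* Perm {x // p x} where
  toFun g := (φ g).subtypePerm (h g)
  map_one' := by ext; simp
  map_mul' g g' := by ext x; exact DFunLike.congr_fun (φ.map_mul g g') x.1

theorem card_split (p : Ω → Prop) : Nat.card {x // p x} + Nat.card {x // ¬ p x} = Nat.card Ω := by
  classical
  rw [← Nat.card_sum]
  exact Nat.card_congr (Equiv.sumCompl p)

theorem split (IH : ∀ m < Nat.card Ω, P m) (φ : G →* Perm Ω) (hφ : Injective φ) (π : Ω → ι)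
    (hπ : Surjective π) (hinv : ∀ g x, π (φ g x) = π x) [Nontrivial ι] :
    3 * cl G + 4 * Nat.card ι ≤ 4 * Nat.card Ω := by
  have : Finite ι := Finite.of_surjective π hπ
  obtain ⟨i, j, hij⟩ := exists_pair_ne ι
  obtain ⟨a, ha⟩ := hπ i
  obtain ⟨b, hb⟩ := hπ j
  have h1 : Nonempty {x // π x = i} := ⟨⟨a, ha⟩⟩
  have h2 : Nonempty {x // ¬ π x = i} := ⟨⟨b, hb ▸ hij.symm⟩⟩
  have e := card_split fun x => π x = i
  have p1 := Nat.card_pos (α := {x // π x = i})
  have p2 := Nat.card_pos (α := {x // ¬ π x = i})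
  let φ1 := res φ (fun x => π x = i) fun g x => by rw [hinv]
  let φ2 := (res φ (fun x => ¬ π x = i) fun g x => by rw [hinv]).comp φ1.ker.subtype
  have a1 := gen1 (IH _ (by omega)) φ1
  have a2 := gen' (IH _ (by omega)) φ2 ((injective_iff_map_eq_one _).2 fun g hg => Subtype.ext (hφ ?_))
    (fun x => (⟨π x.1, x.2⟩ : {k // ¬ k = i})) (fun k => ?_) fun g x => Subtype.ext (hinv _ _)
  · have e2 := card_split fun k => k = i
    rw [Nat.card_unique] at e2
    omega
  · ext x
    rw [OneMemClass.coe_one, map_one]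
    by_cases hx : π x = i
    · exact congrArg Subtype.val (DFunLike.congr_fun (MonoidHom.mem_ker.1 g.2) ⟨x, hx⟩)
    · exact congrArg Subtype.val (DFunLike.congr_fun hg ⟨x, hx⟩)
  · obtain ⟨x, hx⟩ := hπ k
    exact ⟨⟨x, hx ▸ k.2⟩, Subtype.ext hx⟩

theorem block {Ω' : Type*} (IH : ∀ m < Nat.card Ω, P m) (φ : G →* Perm Ω) (hφ : Injective φ)
    (ψ : G →* Perm Ω') (p : Ω → Ω') (hp : Surjective p) (hp' : ¬ Injective p) [Nontrivial Ω']
    (h : ∀ g x, p (φ g x) = ψ g (p x)) : 3 * cl G + 4 ≤ 4 * Nat.card Ω := by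
  have : Finite Ω' := Finite.of_surjective p hp
  have hlt : Nat.card Ω' < Nat.card Ω := by
    cases nonempty_fintype Ω; cases nonempty_fintype Ω'
    simpa using Fintype.card_lt_of_surjective_not_injective p hp hp'
  have a1 := gen1 (IH _ hlt) ψ
  have a2 := split IH (φ.comp ψ.ker.subtype) (hφ.comp Subtype.val_injective) p hp fun g x => by
    have := MonoidHom.mem_ker.1 g.2
    simp [h, this]
  omega

open MulAction in
theorem reduce [MulAction G Ω] [FaithfulSMul G Ω] (IH : ∀ m < Nat.card Ω, P m)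
    (hprim : Nontrivial Ω → IsPreprimitive G Ω → 3 * cl G + 4 ≤ 4 * Nat.card Ω)
    (π : Ω → ι) (hπ : Surjective π) (hinv : ∀ (g : G) x, π (g • x) = π x) :
    3 * cl G + 4 * Nat.card ι ≤ 4 * Nat.card Ω := by
  have : Finite ι := Finite.of_surjective π hπ
  have hφ : Injective (toPermHom G Ω) := toPerm_injective
  rcases subsingleton_or_nontrivial Ω with h | h
  · have : Subsingleton G := hφ.subsingleton
    have := Nat.card_le_card_of_surjective π hπ
    rw [cl_eq_zero]; omega
  rcases subsingleton_or_nontrivial ι with h' | h'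
  swap
  · exact split IH _ hφ π hπ hinv
  have hι : Nat.card ι ≤ 1 := Finite.card_le_one_iff_subsingleton.2 h'
  suffices 3 * cl G + 4 ≤ 4 * Nat.card Ω by omega
  by_cases ht : IsPretransitive G Ω
  swap
  · have : Nontrivial (orbitRel.Quotient G Ω) := by
      by_contra hc
      have := not_nontrivial_iff_subsingleton.1 hc
      exact ht ⟨fun x y => (Quotient.exact (Subsingleton.elim (⟦y⟧ : orbitRel.Quotient G Ω) ⟦x⟧) :)⟩
    have h1 := split (ι := orbitRel.Quotient G Ω) IH _ hφ (fun x => ⟦x⟧) Quotient.mk_surjective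
      fun g x => Quotient.sound (mem_orbit x g)
    have := Finite.one_lt_card (α := orbitRel.Quotient G Ω)
    omega
  by_cases hp : IsPreprimitive G Ω
  · exact hprim h hp
  obtain ⟨a⟩ : Nonempty Ω := inferInstance
  rw [← isCoatom_stabilizer_iff_preprimitive G a] at hp
  have hne : stabilizer G a ≠ ⊤ := by
    intro e
    obtain ⟨b, hb⟩ := exists_ne a
    obtain ⟨g, rfl⟩ := exists_smul_eq G a b
    exact hb (e ▸ mem_top g : g ∈ stabilizer G a)
  obtain ⟨H, hH, hH'⟩ : ∃ H, stabilizer G a < H ∧ H ≠ ⊤ := by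
    by_contra hc
    push Not at hc
    exact hp ⟨hne, hc⟩
  choose s hs using exists_smul_eq G a
  have key : ∀ g : G, ((s (g • a) : G) : G ⧸ H) = g := fun g =>
    QuotientGroup.eq.2 (hH.le (by rw [mem_stabilizer_iff, mul_smul, inv_smul_eq_iff, hs]))
  have : Nontrivial (G ⧸ H) := QuotientGroup.nontrivial_iff.2 hH'
  refine block IH _ hφ (toPermHom G (G ⧸ H)) (fun x => (s x : G ⧸ H)) (fun q => ?_) (fun hi => ?_) fun g x => ?_
  · obtain ⟨g, rfl⟩ := QuotientGroup.mk_surjective q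
    exact ⟨_, key g⟩
  · obtain ⟨g, hg, hg'⟩ := SetLike.exists_of_lt hH
    refine hg' (hi ?_)
    have := key 1
    rw [one_smul] at this
    simp only [key, this]
    exact QuotientGroup.eq.2 (by simpa using hg)
  · conv_lhs => rw [← hs x]
    simp only [toPermHom_apply, toPerm_apply, ← mul_smul, key]
    rfl

end CL.CompLen
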