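import Mathlib
import Cfsg.Agent.PERM.Derange

/-!
Two-point stabilisers of doubly transitive groups: the average of `n / fix` is at least two.
-/

set_option autoImplicit false

namespace CL.Der2

open Subgroup MulAction Finset

theorem lin_space {Ω : Type*} [Fintype Ω] [DecidableEq Ω] (L : Ω → Ω → Finset Ω) (k : ℕ)
    (h1 : ∀ a b, a ≠ b → a ∈ L a b ∧ b ∈ L a b ∧ (L a b).card = k)
    (h2 : ∀ a b c d, a ≠ b → c ≠ d → c ∈ L a b → d ∈ L a b → L c d = L a b)
    (S : Finset Ω) (hS : ∀ c ∈ S, ∀ d ∈ S, c ≠ d → L c d ⊆ S) {x : Ω} (hx : x ∉ S) :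
    S.card * (k - 1) + 1 ≤ Fintype.card Ω := by
  have hne : ∀ s ∈ S, x ≠ s := fun s hs e => hx (e ▸ hs)
  have h3 : (S.biUnion fun s => (L x s).erase x).card = S.card * (k - 1) := by
    rw [card_biUnion, sum_const_nat fun s hs => by
      rw [card_erase_of_mem (h1 _ _ (hne s hs)).1, (h1 _ _ (hne s hs)).2.2]]
    intro s hs s' hs' hss
    refine disjoint_left.2 fun y hy hy' => hx ?_
    rw [mem_erase] at hy hy'
    have e1 := h2 _ _ _ _ (hne s hs) hy.1.symm (h1 _ _ (hne s hs)).1 hy.2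
    have e2 := h2 _ _ _ _ (hne s' hs') hy.1.symm (h1 _ _ (hne s' hs')).1 hy'.2
    have e3 := h2 _ _ _ _ (hne s hs) hss (h1 _ _ (hne s hs)).2.1 (e1 ▸ e2 ▸ (h1 _ _ (hne s' hs')).2.1)
    exact hS s hs s' hs' hss (e3 ▸ (h1 _ _ (hne s hs)).1)
  have h4 : (S.biUnion fun s => (L x s).erase x) ⊆ univ.erase x := fun y hy => by
    obtain ⟨s, -, hs⟩ := mem_biUnion.1 hy
    simpa using (mem_erase.1 hs).1
  have h5 := card_le_card h4
  have := Fintype.card_pos_iff.2 ⟨x⟩
  rw [card_erase_of_mem (mem_univ x), card_univ] at h5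
  omega

variable {G Ω : Type*} [Group G] [MulAction G Ω]

/-- two-point stabiliser -/
def S2 (G : Type*) [Group G] [MulAction G Ω] (a b : Ω) : Subgroup G := stabilizer G a ⊓ stabilizer G b

/-- three-point stabiliser -/
def S3 (G : Type*) [Group G] [MulAction G Ω] (a b c : Ω) : Subgroup G := S2 G a b ⊓ stabilizer G c

theorem mem_S2 {a b : Ω} {g : G} : g ∈ S2 G a b ↔ g • a = a ∧ g • b = b := Iff.rfl

theorem mem_S3 {a b c : Ω} {g : G} : g ∈ S3 G a b c ↔ (g • a = a ∧ g • b = b) ∧ g • c = c := Iff.rfl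

theorem card_conj {A B : Subgroup G} (g : G) (h : ∀ x, x ∈ A ↔ g * x * g⁻¹ ∈ B) : Nat.card A = Nat.card B :=
  Nat.card_congr ((MulAut.conj g).toEquiv.subtypeEquiv h)

theorem card_S2_smul (g : G) (a b : Ω) : Nat.card (S2 G (g • a) (g • b)) = Nat.card (S2 G a b) :=
  (card_conj g fun x => by simp [mem_S2, mul_smul]).symm

theorem card_S3_smul (g : G) (a b c : Ω) : Nat.card (S3 G (g • a) (g • b) (g • c)) = Nat.card (S3 G a b c) :=
  (card_conj g fun x => by simp [mem_S3, mul_smul]).symm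

/-- double transitivity -/
def Two (G Ω : Type*) [Group G] [MulAction G Ω] : Prop :=
  ∀ a b c d : Ω, a ≠ b → c ≠ d → ∃ g : G, g • a = c ∧ g • b = d

theorem Two.card_S2 (h2 : Two G Ω) {a b c d : Ω} (hab : a ≠ b) (hcd : c ≠ d) :
    Nat.card (S2 G c d) = Nat.card (S2 G a b) := by
  obtain ⟨g, rfl, rfl⟩ := h2 a b c d hab hcd
  exact card_S2_smul g a b

theorem Two.cnt [Fintype Ω] (h2 : Two G Ω) (p : ℕ → Prop) [DecidablePred p] {a b c d : Ω} (hab : a ≠ b)
    (hcd : c ≠ d) : (univ.filter fun x => p (Nat.card (S3 G c d x))).card =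
      (univ.filter fun x => p (Nat.card (S3 G a b x))).card := by
  obtain ⟨g, rfl, rfl⟩ := h2 a b c d hab hcd
  exact (card_equiv (toPerm g) fun x => by simp [card_S3_smul]).symm

theorem S3_le (a b c : Ω) : S3 G a b c ≤ S2 G a b := inf_le_left

theorem S3_dvd (a b c : Ω) : Nat.card (S3 G a b c) ∣ Nat.card (S2 G a b) := card_dvd_of_le inf_le_left

variable [Finite G]

theorem fix_iff {a b c : Ω} : Nat.card (S3 G a b c) = Nat.card (S2 G a b) ↔ ∀ g ∈ S2 G a b, g • c = c :=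
  ⟨fun h g hg => ((eq_of_le_of_card_ge (S3_le a b c) h.ge).ge hg).2, fun h => by rw [S3, inf_eq_left.2 h]⟩

theorem two_mul_le_of_lt {A B : Subgroup G} (h : A < B) : 2 * Nat.card A ≤ Nat.card B := by
  obtain ⟨k, hk⟩ := card_dvd_of_le h.le
  have h0 := Nat.card_pos (α := B)
  have h1 : k ≠ 1 := fun e => h.ne (eq_of_le_of_card_ge h.le (by rw [hk, e, mul_one]))
  have h2 : k ≠ 0 := by rintro rfl; omega
  rw [hk, mul_comm]
  exact Nat.mul_le_mul_left _ (by omega)

theorem conj_mem_of_two {K B : Subgroup G} (h : K ≤ B) (h2 : 2 * Nat.card K = Nat.card B) {g k : G}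
    (hg : g ∈ B) (hk : k ∈ K) : g⁻¹ * k * g ∈ K := by
  have e : K.relIndex B * Nat.card K = Nat.card B := by
    rw [relIndex, ← Nat.card_congr (subgroupOfEquivOfLe h).toEquiv, index_mul_card]
  have : (K.subgroupOf B).index = 2 := Nat.eq_of_mul_eq_mul_right Nat.card_pos (e.trans h2.symm)
  exact (normal_of_index_eq_two this).conj_mem' ⟨k, h hk⟩ hk ⟨g, hg⟩

omit [Finite G] in
theorem card_orbit_mul (a b c : Ω) :
    (orbit (S2 G a b) c).ncard * Nat.card (S3 G a b c) = Nat.card (S2 G a b) := by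
  rw [← index_stabilizer, ← index_mul_card (stabilizer (S2 G a b) c)]
  congr 1
  exact Nat.card_congr (subgroupOfEquivOfLe (inf_le_left : S3 G a b c ≤ S2 G a b)).symm.toEquiv |>.trans
    (congrArg (fun H : Subgroup (S2 G a b) => Nat.card H) (Subgroup.ext fun x => ⟨fun h => h.2, fun h => ⟨x.2, h⟩⟩))

section
variable (h2 : Two G Ω) {m : ℕ} (hm : ∀ a b : Ω, a ≠ b → Nat.card (S2 G a b) = m)
  (h3 : ∀ a b c : Ω, a ≠ b → m ≤ 3 * Nat.card (S3 G a b c))
include hm h3

theorem exists_move {a b c d : Ω} (hab : a ≠ b) (hc : 2 * Nat.card (S3 G a b c) = m)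
    (hd : 2 * Nat.card (S3 G a b d) = m) (hne : S3 G a b c ≠ S3 G a b d) :
    ∃ t ∈ S3 G c d a, t • b ≠ b ∧ t • b ≠ a ∧ ∀ g ∈ S2 G a b, g • t • b = t • b := by
  have h0 := Nat.card_pos (α := S3 G a b c)
  have hca : ∀ c, 2 * Nat.card (S3 G a b c) = m → a ≠ c := by
    rintro _ h rfl
    have := fix_iff.2 fun g (hg : g ∈ S2 G a b) => hg.1
    rw [hm _ _ hab] at this
    have := Nat.card_pos (α := S3 G a b a)
    omega
  have hcd : c ≠ d := by rintro rfl; exact hne rfl
  have hlt : S3 G a b c ⊓ S3 G a b d < S3 G a b c :=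
    lt_of_le_of_ne inf_le_left fun e => hne (eq_of_le_of_card_ge (inf_eq_left.1 e) (by omega))
  obtain ⟨t, ht, htb⟩ : ∃ t ∈ S3 G c d a, t • b ≠ b := by
    by_contra hcon
    push Not at hcon
    have h4 := card_le_of_le (show S3 G c d a ≤ S3 G a b c ⊓ S3 G a b d from fun g hg =>
      ⟨⟨⟨hg.2, hcon g hg⟩, hg.1.1⟩, ⟨hg.2, hcon g hg⟩, hg.1.2⟩)
    have := h3 c d a hcd
    have := two_mul_le_of_lt hlt
    omega
  have key : ∀ c, 2 * Nat.card (S3 G a b c) = m → t • c = c → ∀ g ∈ S3 G a b c, g • t • b = t • b := by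
    intro c hc htc g hg
    have := (mem_S3.1 (conj_mem_of_two (K := S3 G a b c) (B := S2 G a c) (fun g hg => ⟨hg.1.1, hg.2⟩)
      (hc.trans (hm _ _ (hca c hc)).symm) ⟨ht.2, htc⟩ hg)).1.2
    rwa [mul_smul, mul_smul, inv_smul_eq_iff] at this
  refine ⟨t, ht, htb, fun e => hab (smul_left_cancel t (ht.2.trans e.symm)), ?_⟩
  have h5 : S3 G a b c < S3 G a b (t • b) := lt_of_le_of_ne (fun g hg => ⟨hg.1, key c hc ht.1.1 g hg⟩) fun e =>
    hne (eq_of_le_of_card_ge (fun g hg => e ▸ ⟨hg.1, key d hd ht.1.2 g hg⟩) (by omega)).symm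
  have h6 := two_mul_le_of_lt h5
  exact fix_iff.1 (le_antisymm (card_le_of_le inf_le_left) (by rw [hm _ _ hab]; omega))

theorem same_K [Fintype Ω] [DecidableEq Ω] {a b c d : Ω} (hab : a ≠ b)
    (hf : (univ.filter fun x => Nat.card (S3 G a b x) = m).card ≤ 3) (hc : 2 * Nat.card (S3 G a b c) = m)
    (hd : 2 * Nat.card (S3 G a b d) = m) : S3 G a b c = S3 G a b d := by
  by_contra hne
  have e : S2 G b a = S2 G a b := inf_comm _ _
  have e3 : ∀ x, S3 G b a x = S3 G a b x := fun x => by rw [S3, e, S3]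
  obtain ⟨t, ht, t1, t2, t3⟩ := exists_move hm h3 hab hc hd hne
  obtain ⟨u, hu, u1, u2, u3⟩ := exists_move hm h3 hab.symm (e3 c ▸ hc) (e3 d ▸ hd) (by rwa [e3, e3])
  rw [e] at u3
  have hcd : c ≠ d := by rintro rfl; exact hne rfl
  have hut : u • a = t • b := by
    by_contra hcon
    have : ({a, b, t • b, u • a} : Finset Ω) ⊆ univ.filter fun x => Nat.card (S3 G a b x) = m := by
      intro x hx
      rw [mem_filter, ← hm _ _ hab, fix_iff]
      simp only [mem_insert, mem_singleton] at hx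
      rcases hx with rfl | rfl | rfl | rfl
      exacts [⟨mem_univ _, fun g hg => hg.1⟩, ⟨mem_univ _, fun g hg => hg.2⟩, ⟨mem_univ _, t3⟩, ⟨mem_univ _, u3⟩]
    have := (card_le_card this).trans hf
    rw [card_insert_of_notMem (by simp [hab, t2.symm, u1.symm]),
      card_insert_of_notMem (by simp [t1.symm, u2.symm]), card_pair (Ne.symm hcon)] at this
    omega
  have h4 : 3 ≤ (orbit (S2 G c d) a).ncard := by
    have : ({a, b, t • b} : Set Ω) ⊆ orbit (S2 G c d) a := by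
      rintro x (rfl | rfl | rfl)
      · exact mem_orbit_self _
      · exact ⟨⟨t⁻¹ * u, mul_mem (inv_mem ht.1) hu.1⟩, by
          change (t⁻¹ * u) • a = x
          rw [mul_smul, hut, inv_smul_smul]⟩
      · exact ⟨⟨u, hu.1⟩, hut⟩
    refine le_trans (Set.ncard_eq_three.2 ⟨_, _, _, hab, t2.symm, t1.symm, rfl⟩).ge (Set.ncard_le_ncard this)
  have h5 := card_orbit_mul (G := G) c d a
  have h6 : S3 G a b c ⊓ S3 G a b d < S3 G c d a :=
    lt_of_le_of_ne (fun g hg => ⟨⟨hg.1.2, hg.2.2⟩, hg.1.1.1⟩) fun e => t1 (e.symm ▸ ht : t ∈ S3 G a b c ⊓ _).1.1.2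
  have h7 := two_mul_le_of_lt h6
  have h8 : m ≤ 4 * Nat.card (S3 G a b c ⊓ S3 G a b d : Subgroup G) := by
    have e : ∀ K : Subgroup G, K ≤ S2 G a b → K.relIndex (S2 G a b) * Nat.card K = m := fun K h => by
      rw [relIndex, ← Nat.card_congr (subgroupOfEquivOfLe h).toEquiv, index_mul_card, hm _ _ hab]
    have e1 : (S3 G a b c).relIndex (S2 G a b) = 2 :=
      Nat.eq_of_mul_eq_mul_right Nat.card_pos ((e _ inf_le_left).trans hc.symm)
    have e2 : (S3 G a b d).relIndex (S2 G a b) = 2 :=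
      Nat.eq_of_mul_eq_mul_right Nat.card_pos ((e _ inf_le_left).trans hd.symm)
    have e4 := relIndex_inf_le (H := S3 G a b c) (K := S3 G a b d) (L := S2 G a b)
    rw [e1, e2] at e4
    rw [← e (S3 G a b c ⊓ S3 G a b d) (inf_le_left.trans inf_le_left)]
    exact Nat.mul_le_mul_right _ e4
  rw [hm _ _ hcd] at h5
  have := Nat.mul_le_mul_right (Nat.card (S3 G c d a)) h4
  have := Nat.card_pos (α := S3 G c d a)
  omega

end

theorem sufJ {ι : Type*} (s : Finset ι) (π : ι → ℕ) {n m k : ℕ} (hs : s.card + 1 = m) (hm : 2 ≤ m)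
    (hπ : ∀ i ∈ s, 0 < π i) (hsum : ∑ i ∈ s, π i + n = k * m) (h : 2 * m * k ≤ n * m + k) :
    (2 * m : ℚ) ≤ 1 + ∑ i ∈ s, (n : ℚ) / π i := by
  have h1 := sq_sum_div_le_sum_sq_div s (fun _ => (1 : ℚ)) (g := fun i => (π i : ℚ)) fun i hi => by
    exact_mod_cast hπ i hi
  have h2 : (0 : ℚ) < ∑ i ∈ s, (π i : ℚ) :=
    sum_pos (fun i hi => by exact_mod_cast hπ i hi) (card_pos.1 (by omega))
  have h3 : ∑ i ∈ s, (π i : ℚ) + n = k * m := by exact_mod_cast hsum
  have h4 : (s.card : ℚ) + 1 = m := by exact_mod_cast hs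
  have h5 : (2 * m * k : ℚ) ≤ n * m + k := by exact_mod_cast h
  have h6 : ∑ i ∈ s, (n : ℚ) / π i = n * ∑ i ∈ s, (1 : ℚ) ^ 2 / π i := by
    rw [mul_sum]; exact sum_congr rfl fun i _ => by ring
  rw [sum_const, nsmul_eq_mul, mul_one, div_le_iff₀ h2] at h1
  rw [h6]
  refine le_of_mul_le_mul_right ?_ h2
  have h7 := mul_le_mul_of_nonneg_left h1 (Nat.cast_nonneg (α := ℚ) n)
  have h8 := mul_le_mul_of_nonneg_left h5 (Nat.cast_nonneg (α := ℚ) m)
  rw [eq_sub_of_add_eq h4] at h7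
  rw [eq_sub_of_add_eq h3] at h7 ⊢
  nlinarith

theorem sufB {ι : Type*} (s : Finset ι) (π : ι → ℕ) {n m j : ℕ} (hs : s.card + 1 = m) (hm : 2 ≤ m)
    (hπ : ∀ i ∈ s, 0 < π i ∧ π i * j + 1 ≤ n) (h : 3 ≤ j ∨ (j = 2 ∧ n + 1 ≤ 2 * m)) :
    (2 * m : ℚ) ≤ 1 + ∑ i ∈ s, (n : ℚ) / π i := by
  have h4 : (s.card : ℚ) + 1 = m := by exact_mod_cast hs
  have h5 : (2 : ℚ) ≤ m := by exact_mod_cast hm
  rcases h with h | ⟨rfl, h⟩
  · have := card_nsmul_le_sum s (fun i => (n : ℚ) / π i) 3 fun i hi => by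
      rw [le_div_iff₀ (by exact_mod_cast (hπ i hi).1)]
      have := (hπ i hi).2
      have := Nat.mul_le_mul_left (π i) h
      exact_mod_cast (by omega : 3 * π i ≤ n)
    rw [nsmul_eq_mul] at this
    linarith
  · obtain ⟨i, hi⟩ := card_pos.1 (by omega : 0 < s.card)
    have h6 : (3 : ℚ) ≤ n := by have := hπ i hi; exact_mod_cast (by omega : 3 ≤ n)
    have h7 : (n + 1 : ℚ) ≤ 2 * m := by exact_mod_cast h
    have := card_nsmul_le_sum s (fun i => (n : ℚ) / π i) (2 * n / (n - 1)) fun i hi => by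
      rw [div_le_div_iff₀ (by linarith) (by exact_mod_cast (hπ i hi).1)]
      have : (π i * 2 + 1 : ℚ) ≤ n := by exact_mod_cast (hπ i hi).2
      nlinarith
    rw [nsmul_eq_mul, ← mul_div_assoc] at this
    refine le_trans ?_ (add_le_add_right this 1)
    rw [← sub_le_iff_le_add', le_div_iff₀ (by linarith), eq_sub_of_add_eq h4]
    nlinarith

theorem not_84 [Fintype Ω] [FaithfulSMul G Ω] (h2 : Two G Ω) (hn : Fintype.card Ω = 7) {a b : Ω} (hab : a ≠ b) :
    Nat.card (S2 G a b) ≠ 2 := by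
  classical
  intro hm
  have hG : Nat.card G = 84 := by
    have e : orbit G (a, b) = (univ : Finset Ω).offDiag := by
      ext ⟨c, d⟩
      simp only [coe_offDiag, coe_univ, Set.mem_offDiag, Set.mem_univ, true_and]
      constructor
      · rintro ⟨g, hg⟩ rfl
        exact hab (smul_left_cancel g ((congrArg Prod.fst hg).trans (congrArg Prod.snd hg).symm))
      · intro h
        obtain ⟨g, rfl, rfl⟩ := h2 a b c d hab h
        exact ⟨g, rfl⟩
    have e2 : stabilizer G (a, b) = S2 G a b := Subgroup.ext fun g => Prod.ext_iff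
    rw [← index_mul_card (stabilizer G (a, b)), index_stabilizer, e, e2, hm, Set.ncard_coe_finset, offDiag_card,
      card_univ, hn]
  have : Fact (Nat.Prime 7) := ⟨by norm_num⟩
  obtain ⟨P⟩ : Nonempty (Sylow 7 G) := inferInstance
  have hP : Nat.card P = 7 := by
    rw [P.card_eq_multiplicity, hG, show (84 : ℕ) = 7 ^ 1 * 12 by norm_num,
      Nat.factorization_mul (by norm_num) (by norm_num)]
    simp [Nat.factorization_eq_zero_of_not_dvd, this.out.factorization_self]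
  have h1 : Nat.card (Sylow 7 G) = 1 := by
    have e1 := P.card_dvd_index
    have e2 := card_sylow_modEq_one 7 G
    have e3 := index_mul_card (P : Subgroup G)
    rw [hP, hG] at e3
    rw [show (P : Subgroup G).index = 12 by omega] at e1
    have := Nat.le_of_dvd (by norm_num) e1
    generalize Nat.card (Sylow 7 G) = x at *
    interval_cases x <;> simp_all (config := {decide := true})
  have := (Nat.card_eq_one_iff_unique.1 h1).1
  have hN : (P : Subgroup G).Normal := P.normal_of_subsingleton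
  have htr : ∀ c d : Ω, c ≠ d → ∃ y ∈ (P : Subgroup G), y • c = d := by
    intro c d hcd
    have : Nontrivial P := Finite.one_lt_card_iff_nontrivial.1 (by omega)
    obtain ⟨x, hx⟩ := exists_ne (1 : P)
    obtain ⟨e, he⟩ : ∃ e : Ω, e ≠ (x : G) • e := by
      by_contra hc
      push Not at hc
      exact hx (Subtype.ext (FaithfulSMul.eq_of_smul_eq_smul (α := Ω) fun e => by simp [← hc]))
    obtain ⟨g, rfl, rfl⟩ := h2 _ _ c d he hcd
    exact ⟨_, hN.conj_mem _ x.2 g, by simp [mul_smul]⟩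
  have key : ∀ g : G, g • a = a → (∀ y ∈ (P : Subgroup G), g * y = y * g) → g = 1 := fun g hg h =>
    FaithfulSMul.eq_of_smul_eq_smul (α := Ω) fun c => by
      by_cases hc : a = c
      · rw [← hc, hg, one_smul]
      · obtain ⟨y, hy, rfl⟩ := htr a c hc
        rw [← mul_smul, h y hy, mul_smul, hg, one_smul]
  have hc : IsCyclic P := isCyclic_of_prime_card hP
  obtain ⟨y, hy, hya⟩ := htr a b hab
  have : Nontrivial (S2 G a b) := Finite.one_lt_card_iff_nontrivial.1 (by omega)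
  obtain ⟨s, hs⟩ := exists_ne (1 : S2 G a b)
  have hz := mul_mem (inv_mem hy) (hN.conj_mem y hy s)
  have h3 := key _ (by
    rw [mul_smul, mul_smul, mul_smul, (mem_S2.1 (inv_mem s.2)).1, hya, s.2.2, ← hya, inv_smul_smul]) fun w hw =>
      congrArg Subtype.val (hc.isMulCommutative.is_comm.comm ⟨_, hz⟩ ⟨w, hw⟩)
  refine hs (Subtype.ext (key s s.2.1 fun w hw => ?_))
  have hy1 : (⟨y, hy⟩ : P) ≠ 1 := fun e => hab (by rw [← hya, show y = 1 from congrArg Subtype.val e, one_smul])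
  obtain ⟨k, hk⟩ := mem_zpowers_of_prime_card hP hy1 (g' := ⟨w, hw⟩)
  obtain rfl : y ^ k = w := congrArg Subtype.val hk
  refine Commute.zpow_right ?_ k
  rw [inv_mul_eq_one, eq_mul_inv_iff_mul_eq] at h3
  exact h3.symm

theorem m_eq_two [Fintype Ω] [DecidableEq Ω] [FaithfulSMul G Ω] (h2 : Two G Ω) (hn : 7 ≤ Fintype.card Ω) {m : ℕ}
    (hm : ∀ a b : Ω, a ≠ b → Nat.card (S2 G a b) = m) {a b : Ω} (hab : a ≠ b)
    (hf : (univ.filter fun x => Nat.card (S3 G a b x) = m).card ≤ 3)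
    (h3 : (univ.filter fun x => 3 * Nat.card (S3 G a b x) = m).card ≤ 3)
    (h4 : (univ.filter fun x => 4 * Nat.card (S3 G a b x) ≤ m).card = 0) : m = 2 := by
  have hw : ∀ a b c : Ω, a ≠ b → Nat.card (S3 G a b c) = m ∨ 2 * Nat.card (S3 G a b c) = m ∨
      3 * Nat.card (S3 G a b c) = m := by
    intro c d x hcd
    rw [← h2.cnt (fun t => 4 * t ≤ m) hab hcd, card_eq_zero, filter_eq_empty_iff] at h4
    have := h4 (mem_univ x)
    obtain ⟨k, hk⟩ := S3_dvd (G := G) c d x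
    have h0 := Nat.card_pos (α := S2 G c d)
    rw [hm _ _ hcd] at hk h0
    obtain rfl | rfl | rfl | rfl | h : k = 0 ∨ k = 1 ∨ k = 2 ∨ k = 3 ∨ 4 ≤ k := by omega
    iterate 4 omega
    have := Nat.mul_le_mul_left (Nat.card (S3 G c d x)) h
    omega
  have hw3 : ∀ a b c : Ω, a ≠ b → m ≤ 3 * Nat.card (S3 G a b c) := fun a b c h => by
    have := hw a b c h; omega
  let F : Ω → Ω → Finset Ω := fun a b => univ.filter fun x => m ≤ 2 * Nat.card (S3 G a b x)
  have hF : ∀ c d, c ≠ d → (F c d).card = (F a b).card := fun c d h => h2.cnt (fun t => m ≤ 2 * t) hab h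
  have hk : Fintype.card Ω ≤ (F a b).card + 3 := by
    refine le_trans ?_ ((card_union_le _ _).trans (Nat.add_le_add_left h3 _))
    refine card_le_card fun x _ => ?_
    have := hw a b x hab
    simp only [F, mem_union, mem_filter, mem_univ, true_and]
    omega
  have hK : ∀ c d, c ≠ d → ∃ K : Subgroup G, 2 * Nat.card K = m ∧ ∀ x ∈ F c d, ∀ g ∈ K, g • x = x := by
    intro c d hcd
    have hf' := (h2.cnt (fun t => t = m) hab hcd).trans_le hf
    obtain ⟨e, he, he'⟩ := exists_mem_notMem_of_card_lt_card (hf'.trans_lt (show 3 < (F c d).card by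
      rw [hF c d hcd]; omega))
    simp only [F, mem_filter, mem_univ, true_and] at he he'
    have h0 := Nat.card_pos (α := S3 G c d e)
    have h5 : 2 * Nat.card (S3 G c d e) = m := by have := hw c d e hcd; omega
    refine ⟨S3 G c d e, h5, fun x hx g hg => ?_⟩
    simp only [F, mem_filter, mem_univ, true_and] at hx
    rcases hw c d x hcd with h | h | h
    · exact fix_iff.1 (h.trans (hm _ _ hcd).symm) g hg.1
    · exact (same_K hm hw3 hcd hf' h5 h ▸ hg : g ∈ S3 G c d x).2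
    · omega
  by_cases hall : ∀ x, x ∈ F a b
  · obtain ⟨K, h5, h6⟩ := hK a b hab
    rw [show K = ⊥ from eq_bot_iff.2 fun g hg => FaithfulSMul.eq_of_smul_eq_smul (α := Ω) fun x => by
      rw [h6 x (hall x) g hg, one_smul], card_bot] at h5
    exact h5.symm
  push Not at hall
  obtain ⟨x, hx⟩ := hall
  have hL : ∀ a b c d, a ≠ b → c ≠ d → c ∈ F a b → d ∈ F a b → F c d = F a b := by
    intro a' b' c d h h' hc hd
    obtain ⟨K, h5, h6⟩ := hK a' b' h
    refine (eq_of_subset_of_card_le (fun y hy => ?_) (by rw [hF _ _ h, hF _ _ h'])).symm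
    have := card_le_of_le (show K ≤ S3 G c d y from fun g hg => ⟨⟨h6 c hc g hg, h6 d hd g hg⟩, h6 y hy g hg⟩)
    simp only [F, mem_filter, mem_univ, true_and]
    omega
  have := lin_space F _ (fun c d h => ⟨?_, ?_, hF c d h⟩) hL (F a b)
    (fun c hc d hd h => (hL a b c d hab h hc hd).subset) hx
  · obtain ⟨k, hk'⟩ : ∃ k, (F a b).card = k + 4 := ⟨_, (Nat.sub_add_cancel (by omega)).symm⟩
    rw [hk'] at this hk
    simp only [Nat.add_succ_sub_one] at this
    nlinarith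
  all_goals simp only [F, mem_filter, mem_univ, true_and]
  · rw [fix_iff.2 fun g hg => hg.1, hm _ _ h]; omega
  · rw [fix_iff.2 fun g hg => hg.2, hm _ _ h]; omega

end CL.Der2
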