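import Mathlib
import Cfsg.Agent.PERM.Der2

/-!
The proportion of derangements in a doubly transitive group which is not sharply doubly transitive.
-/

set_option autoImplicit false

namespace CL.Der2

open Subgroup MulAction Finset

variable {G Ω : Type*} [Group G] [MulAction G Ω] [Fintype G] [Fintype Ω] [DecidableEq Ω]

/-- the number of fixed points -/
def fx (Ω : Type*) [MulAction G Ω] [Fintype Ω] [DecidableEq Ω] (g : G) : ℕ := (univ.filter fun x : Ω => g • x = x).card

omit [Fintype G] in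
theorem fx_eq (g : G) : Nat.card (fixedBy Ω g) = fx Ω g := by
  rw [fx, ← Fintype.card_subtype, ← Nat.card_eq_fintype_card]; rfl

theorem card_filter_mem (H : Subgroup G) [DecidablePred (· ∈ H)] : (univ.filter (· ∈ H)).card = Nat.card H := by
  rw [Nat.card_eq_fintype_card, Fintype.card_subtype]

open Classical in
theorem local_bound [FaithfulSMul G Ω] (h2 : Two G Ω) (hn : 7 ≤ Fintype.card Ω) {a b : Ω} (hab : a ≠ b)
    (hm2 : 2 ≤ Nat.card (S2 G a b)) :
    (2 * Nat.card (S2 G a b) : ℚ) ≤ ∑ g ∈ univ.filter (· ∈ S2 G a b), (Fintype.card Ω : ℚ) / fx Ω g := by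
  generalize hm' : Nat.card (S2 G a b) = m at hm2 ⊢
  have hm : ∀ c d : Ω, c ≠ d → Nat.card (S2 G c d) = m := fun c d h => (h2.card_S2 hab h).trans hm'
  have h1 : (1 : G) ∈ univ.filter (· ∈ S2 G a b) := by simp
  have hf1 : fx Ω (1 : G) = Fintype.card Ω := by simp [fx]
  rw [← add_sum_erase _ _ h1, hf1, div_self (by positivity)]
  set s := (univ.filter (· ∈ S2 G a b)).erase 1 with hs
  have hsc : s.card + 1 = m := by rw [card_erase_add_one h1, card_filter_mem, hm']
  have hπ : ∀ g ∈ s, 0 < fx Ω g := fun g hg =>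
    card_pos.2 ⟨a, by simpa using (mem_filter.1 (mem_of_mem_erase hg)).2.1⟩
  obtain ⟨k, hk⟩ : ∃ k, ∑ g ∈ univ.filter (· ∈ S2 G a b), fx Ω g = k * m :=
    ⟨_, by simpa only [fx_eq, hm'] using CL.Perm.burnside_sum_subgroup Ω (S2 G a b)⟩
  have hk' : ∑ x, Nat.card (S3 G a b x) = k * m := by
    rw [← hk]
    simp only [fx, card_filter, ← card_filter_mem]
    rw [sum_comm, sum_filter]
    refine sum_congr rfl fun g _ => ?_
    by_cases hg : g ∈ S2 G a b <;> simp [hg, mem_S3, ← mem_S2]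
  rw [← sum_erase_add _ _ h1, hf1] at hk
  let L : Ω → Ω → Finset Ω := fun a b => univ.filter fun x => Nat.card (S3 G a b x) = m
  have hL : ∀ c d, c ≠ d → ∀ x, x ∈ L c d ↔ ∀ g ∈ S2 G c d, g • x = x := fun c d h x => by
    rw [← fix_iff, hm _ _ h]; simp [L]
  have hB : ∀ g ∈ s, 0 < fx Ω g ∧ fx Ω g * ((L a b).card - 1) + 1 ≤ Fintype.card Ω := by
    intro g hg
    obtain ⟨x, hx⟩ : ∃ x : Ω, g • x ≠ x := by
      by_contra hc
      push Not at hc
      exact ne_of_mem_erase hg (FaithfulSMul.eq_of_smul_eq_smul (α := Ω) fun x => by rw [hc, one_smul])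
    refine ⟨hπ g hg, lin_space L _ (fun c d h => ⟨(hL _ _ h _).2 fun g hg => hg.1, (hL _ _ h _).2 fun g hg => hg.2,
      h2.cnt (fun t => t = m) hab h⟩) (fun a' b' c d h h' hc hd => ?_) _ (fun c hc d hd h y hy => ?_) (x := x)
        (by simpa using hx)⟩
    · have : S2 G a' b' = S2 G c d := eq_of_le_of_card_ge
        (fun g hg => ⟨(hL _ _ h _).1 hc g hg, (hL _ _ h _).1 hd g hg⟩) (by rw [hm _ _ h, hm _ _ h'])
      ext y
      rw [hL _ _ h, hL _ _ h', this]
    · simp only [mem_filter, mem_univ, true_and] at hc hd ⊢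
      exact (hL _ _ h _).1 hy g ⟨hc, hd⟩
  have hf2 : 2 ≤ (L a b).card := by
    rw [← card_pair hab]
    refine card_le_card fun x hx => (hL _ _ hab _).2 fun g hg => ?_
    rcases mem_insert.1 hx with rfl | hx
    exacts [hg.1, mem_singleton.1 hx ▸ hg.2]
  by_cases hf : 4 ≤ (L a b).card
  · exact sufB s _ hsc hm2 hB (Or.inl (by omega))
  set A3 := univ.filter fun x => 3 * Nat.card (S3 G a b x) = m with hA3
  set A4 := univ.filter fun x => 4 * Nat.card (S3 G a b x) ≤ m with hA4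
  have hsum : 12 * k + 2 * A3.card + 3 * A4.card ≤ 6 * Fintype.card Ω + 6 * (L a b).card := by
    refine Nat.le_of_mul_le_mul_right ?_ (show 0 < m by omega)
    rw [show Fintype.card Ω = ∑ _x : Ω, 1 by simp]
    simp only [add_mul, mul_assoc, ← hk', hA3, hA4, L, card_filter, sum_mul, mul_sum, ← sum_add_distrib]
    refine sum_le_sum fun x _ => ?_
    obtain ⟨j, hj⟩ := S3_dvd (G := G) a b x
    rw [hm'] at hj
    obtain rfl | rfl | rfl | rfl | h : j = 0 ∨ j = 1 ∨ j = 2 ∨ j = 3 ∨ 4 ≤ j := by omega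
    iterate 4 split_ifs <;> omega
    have := Nat.mul_le_mul_left (Nat.card (S3 G a b x)) h
    split_ifs <;> omega
  have h4 : A4.card = 0 ∨ 4 ≤ A4.card := by
    rcases A4.eq_empty_or_nonempty with h | ⟨x, hx⟩
    · exact Or.inl (card_eq_zero.2 h)
    right
    have hx' := (mem_filter.1 hx).2
    have e := card_orbit_mul (G := G) a b x
    have h5 : 4 ≤ (orbit (S2 G a b) x).ncard := by
      refine Nat.le_of_mul_le_mul_right ?_ (Nat.card_pos (α := S3 G a b x))
      rw [e, hm']; exact hx'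
    refine h5.trans ((Set.ncard_le_ncard ?_).trans (Set.ncard_coe_finset A4).le)
    rintro _ ⟨g, rfl⟩
    have := card_S3_smul (g : G) a b x
    rw [g.2.1, g.2.2] at this
    exact mem_coe.2 (mem_filter.2 ⟨mem_univ _, (congrArg (4 * ·) this).trans_le hx'⟩)
  by_cases hc : 4 ≤ A3.card ∨ 4 ≤ A4.card
  · by_cases hB' : (L a b).card = 3 ∧ Fintype.card Ω + 1 ≤ 2 * m
    · exact sufB s _ hsc hm2 hB (Or.inr ⟨by omega, hB'.2⟩)
    refine sufJ s _ hsc hm2 hπ hk ?_
    by_cases h6 : 2 * k ≤ Fintype.card Ω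
    · nlinarith
    · have h7 : 2 * k = Fintype.card Ω + 1 := by omega
      have h8 : m ≤ k := by omega
      nlinarith
  obtain rfl := m_eq_two h2 hn hm hab (show (L a b).card ≤ 3 by omega) (show A3.card ≤ 3 by omega)
    (show A4.card = 0 by omega)
  have : Fintype.card Ω ≠ 7 := fun e => not_84 h2 e hab hm'
  exact sufJ s _ hsc hm2 hπ hk (by omega)

theorem sum_pairs (F : G → ℚ) [∀ a b : Ω, DecidablePred (· ∈ S2 G a b)] :
    ∑ p ∈ (univ : Finset Ω).offDiag, ∑ g ∈ univ.filter (· ∈ S2 G p.1 p.2), F g =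
      ∑ g, (fx Ω g * fx Ω g - fx Ω g : ℚ) * F g := by
  simp only [sum_filter]
  rw [sum_comm]
  refine sum_congr rfl fun g _ => ?_
  rw [← sum_filter, sum_const, nsmul_eq_mul]
  congr 1
  have : (univ : Finset Ω).offDiag.filter (fun p => g ∈ S2 G p.1 p.2) =
      (univ.filter fun x : Ω => g • x = x).offDiag := by
    ext p; simp [mem_S2]; tauto
  rw [this, offDiag_card, Nat.cast_sub (Nat.le_mul_self _), Nat.cast_mul, fx]

theorem main [FaithfulSMul G Ω] (htr : IsPretransitive G Ω) (hn : 7 ≤ Fintype.card Ω) :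
    ((∀ g : G, g ≠ 1 → fx Ω g ≤ 1) ∧ Fintype.card Ω * (univ.filter fun g : G => fx Ω g = 0).card ≤ Nat.card G) ∨
      2 * Nat.card G ≤ Fintype.card Ω * (univ.filter fun g : G => fx Ω g = 0).card := by
  classical
  have hne : Nonempty Ω := Fintype.card_pos_iff.1 (by omega)
  set n := Fintype.card Ω with hn'
  have h1 : ∑ g : G, fx Ω g = Nat.card G := by
    have := CL.Perm.burnside_sum G Ω
    rw [(CL.Perm.card_orbits_eq_one_iff G Ω).2 htr, one_mul] at this
    simpa only [fx_eq] using this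
  obtain ⟨r, hr, h2⟩ : ∃ r, r = Nat.card (orbitRel.Quotient G (Ω × Ω)) ∧
      ∑ g : G, fx Ω g * fx Ω g = r * Nat.card G :=
    ⟨_, rfl, by simpa only [CL.Perm.card_fixedBy_prod, ← fx_eq] using CL.Perm.burnside_sum G (Ω × Ω)⟩
  have h1z : ∑ g : G, (fx Ω g : ℚ) = Nat.card G := by exact_mod_cast h1
  have h2z : ∑ g : G, (fx Ω g : ℚ) * fx Ω g = r * Nat.card G := by exact_mod_cast h2
  let T : G → ℚ := fun g => (fx Ω g * fx Ω g - fx Ω g : ℚ) * (n / fx Ω g - 1)
  have hT : ∀ g, T g = n * (if fx Ω g = 0 then 1 else 0) - fx Ω g * fx Ω g + (n + 1) * fx Ω g - n := fun g => by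
    simp only [T]
    split_ifs with h
    · simp [h]
    · have : (fx Ω g : ℚ) ≠ 0 := by exact_mod_cast h
      field_simp; ring
  have hTs : ∑ g, T g = n * (univ.filter fun g : G => fx Ω g = 0).card - (r - 1) * Nat.card G := by
    simp only [hT, sum_sub_distrib, sum_add_distrib, ← mul_sum, h1z, h2z, sum_boole, sum_const, card_univ,
      nsmul_eq_mul, Nat.card_eq_fintype_card]
    ring
  have hG : (0 : ℚ) < Nat.card G := by exact_mod_cast Nat.card_pos (α := G)
  obtain ⟨a, b, hab⟩ := Fintype.exists_pair_of_one_lt_card (α := Ω) (by omega)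
  have hne : ∀ c d : Ω, c ≠ d → (⟦(a, a)⟧ : orbitRel.Quotient G (Ω × Ω)) ≠ ⟦(c, d)⟧ := fun c d h e => by
    obtain ⟨g, hg⟩ := Quotient.exact e
    exact h (smul_left_cancel g ((congrArg Prod.fst hg).trans (congrArg Prod.snd hg).symm))
  by_cases hr3 : 3 ≤ r
  · have : 0 ≤ ∑ g, T g := sum_nonneg fun g _ => by
      rcases Nat.eq_zero_or_pos (fx Ω g) with h | h
      · simp [T, h]
      refine mul_nonneg (sub_nonneg.2 (by exact_mod_cast Nat.le_mul_self _)) (sub_nonneg.2 ?_)
      rw [one_le_div (by exact_mod_cast h)]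
      exact_mod_cast card_le_univ _
    have h3 : (3 : ℚ) ≤ r := by exact_mod_cast hr3
    exact Or.inr (by rw [← Nat.cast_le (α := ℚ)]; push_cast; nlinarith)
  have htwo : Two G Ω := by
    intro c d c' d' h h'
    by_contra hc
    refine hr3 (hr ▸ ?_)
    have := Fintype.ofFinite (orbitRel.Quotient G (Ω × Ω))
    rw [Nat.card_eq_fintype_card]
    refine Fintype.two_lt_card_iff.2 ⟨_, _, _, hne c d h, hne c' d' h', fun e => hc ?_⟩
    obtain ⟨g, hg⟩ := Quotient.exact e.symm
    exact ⟨g, congrArg Prod.fst hg, congrArg Prod.snd hg⟩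
  have hr2 : r = 2 := by
    have : Nontrivial (orbitRel.Quotient G (Ω × Ω)) := ⟨_, _, hne a b hab⟩
    have := Finite.one_lt_card (α := orbitRel.Quotient G (Ω × Ω))
    omega
  subst hr2
  by_cases hm : 2 ≤ Nat.card (S2 G a b)
  · have h3 := sum_pairs (Ω := Ω) fun g : G => (n : ℚ) / fx Ω g - 2
    have h4 : 0 ≤ ∑ g : G, (fx Ω g * fx Ω g - fx Ω g : ℚ) * (n / fx Ω g - 2) := by
      rw [← h3]
      refine sum_nonneg fun p hp => ?_
      have hp' := (mem_offDiag.1 hp).2.2
      have := local_bound htwo hn hp' (by rwa [htwo.card_S2 hab hp'])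
      rw [sum_sub_distrib, sum_const, card_filter_mem, nsmul_eq_mul, sub_nonneg, mul_comm]
      convert this
    have h5 : ∑ g : G, (fx Ω g * fx Ω g - fx Ω g : ℚ) * (n / fx Ω g - 2) =
        ∑ g, T g - (∑ g : G, (fx Ω g : ℚ) * fx Ω g - ∑ g : G, (fx Ω g : ℚ)) := by
      simp only [← sum_sub_distrib]
      exact sum_congr rfl fun g _ => by simp only [T]; ring
    rw [h5, hTs, h1z, h2z] at h4
    exact Or.inr (by rw [← Nat.cast_le (α := ℚ)]; push_cast at h4 ⊢; linarith)
  have h3 : ∀ g : G, g ≠ 1 → fx Ω g ≤ 1 := fun g hg => card_le_one.2 fun c hc d hd => by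
    by_contra h
    have : Subsingleton (S2 G c d) := Finite.card_le_one_iff_subsingleton.1 (by rw [htwo.card_S2 hab h]; omega)
    exact hg (congrArg Subtype.val (Subsingleton.elim
      (⟨g, (mem_filter.1 hc).2, (mem_filter.1 hd).2⟩ : S2 G c d) 1))
  refine Or.inl ⟨h3, ?_⟩
  have h4 : ∑ g, T g = 0 := sum_eq_zero fun g _ => by
    by_cases hg : g = 1
    · have : (n : ℚ) ≠ 0 := by positivity
      simp [T, hg, fx, ← hn', this]
    · have := h3 g hg
      simp only [T]
      interval_cases fx Ω g <;> simp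
  rw [← Nat.cast_le (α := ℚ)]; push_cast at hTs ⊢; linarith

end CL.Der2
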