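/-
Fixed points of elementary abelian groups of order `p²` all of whose non-identity elements are fused.
-/
import Cfsg.Agent.PERM.Derange
import Cfsg.Agent.SOLV.PGroupCyclicMax

set_option autoImplicit false

namespace CL.ElemFix

open MulAction Subgroup

variable {G : Type*} [Group G] [Finite G] (Ω : Type*) [MulAction G Ω] [Finite Ω]

/-- number of fixed points -/
noncomputable def fx (g : G) : ℕ := (fixedBy Ω g).ncard

variable {Ω}

omit [Finite G] [Finite Ω] in
theorem fx_conj {x y : G} (h : IsConj x y) : fx Ω x = fx Ω y := by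
  obtain ⟨c, rfl⟩ := isConj_iff.1 h
  rw [fx, fx, ← smul_fixedBy, Set.ncard_smul_set]

omit [Finite Ω] in
theorem fixedBy_eq_of_mem {x y : G} (hp : (orderOf y).Prime) (hx : x ∈ zpowers y) (h1 : x ≠ 1) :
    fixedBy Ω x = fixedBy Ω y := by
  have h2 : zpowers x = zpowers y := by
    refine eq_of_le_of_card_ge (zpowers_le_of_mem hx) ?_
    rw [Nat.card_zpowers, Nat.card_zpowers]
    rcases (Nat.dvd_prime hp).1 (orderOf_dvd_of_mem_zpowers hx) with h | h
    · exact absurd (orderOf_eq_one_iff.1 h) h1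
    · exact h.ge
  ext ω
  exact ⟨fun h => zpowers_le_of_mem (H := stabilizer G ω) h (h2 ▸ mem_zpowers y),
    fun h => zpowers_le_of_mem (H := stabilizer G ω) h hx⟩

/-- two generators of an elementary abelian group of order `p²` whose cyclic subgroups are fused -/
structure Pair (p : ℕ) (a b : G) : Prop where
  hp : p.Prime
  ha : orderOf a = p
  comm : Commute a b
  nmem : b ∉ zpowers a
  conj : ∀ i < p, IsConj a (b * a ^ i)

namespace Pair

variable {p : ℕ} {a b : G} (h : Pair p a b)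
include h

omit [Finite G] in
theorem ord {i : ℕ} (hi : i < p) : orderOf (b * a ^ i) = p := by
  obtain ⟨c, hc⟩ := isConj_iff.1 (h.conj i hi)
  rw [← hc, ← h.ha]
  exact (MulAut.conj c).orderOf_eq a

omit [Finite G] in
theorem hb : orderOf b = p := by simpa using h.ord h.hp.pos

theorem card : Nat.card ↥(zpowers a ⊔ zpowers b) = p ^ 2 :=
  (CL.PCyc.elemAb_zpowers_sup h.hp h.ha h.hb h.comm h.nmem).2

omit [Finite G] in
theorem exists_eq {x : G} (hx : x ∈ zpowers a ⊔ zpowers b) : ∃ i j : ℤ, x = a ^ i * b ^ j := by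
  let Q : Subgroup G :=
    { carrier := {x | ∃ i j : ℤ, x = a ^ i * b ^ j}
      one_mem' := ⟨0, 0, by simp⟩
      mul_mem' := by
        rintro _ _ ⟨i, j, rfl⟩ ⟨k, l, rfl⟩
        exact ⟨i + k, j + l, by rw [zpow_add, zpow_add, (h.comm.zpow_zpow k j).symm.mul_mul_mul_comm]⟩
      inv_mem' := by
        rintro _ ⟨i, j, rfl⟩
        exact ⟨-i, -j, by rw [mul_inv_rev, ← zpow_neg, ← zpow_neg, (h.comm.zpow_zpow _ _).eq]⟩ }
  exact (sup_le (zpowers_le_of_mem (H := Q) ⟨1, 0, by simp⟩) (zpowers_le_of_mem (H := Q) ⟨0, 1, by simp⟩) :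
    _ ≤ Q) hx

omit [Finite G] in
theorem mem_cases {x : G} (hx : x ∈ zpowers a ⊔ zpowers b) :
    x ∈ zpowers a ∨ ∃ k < p, x ∈ zpowers (b * a ^ k) := by
  obtain ⟨i, j, rfl⟩ := h.exists_eq hx
  have := Fact.mk h.hp
  by_cases hj : (j : ZMod p) = 0
  · rw [ZMod.intCast_zmod_eq_zero_iff_dvd, ← h.hb, orderOf_dvd_iff_zpow_eq_one] at hj
    exact .inl ⟨i, by simp [hj]⟩
  · refine .inr ⟨((i : ZMod p) / j).val, ZMod.val_lt _, j, ?_⟩
    have e : a ^ ((((i : ZMod p) / j).val : ℤ) * j) = a ^ i := by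
      rw [zpow_eq_zpow_iff_modEq, h.ha, ← ZMod.intCast_eq_intCast_iff]
      push_cast
      rw [ZMod.natCast_zmod_val, div_mul_cancel₀ _ hj]
    simp only
    rw [(h.comm.symm.pow_right _).mul_zpow, ← zpow_natCast, ← zpow_mul, e, (h.comm.zpow_zpow i j).eq]

omit [Finite Ω] in
theorem fx_eq {x : G} (hx : x ∈ zpowers a ⊔ zpowers b) (h1 : x ≠ 1) : fx Ω x = fx Ω a := by
  rcases h.mem_cases hx with h2 | ⟨k, hk, h2⟩
  · rw [fx, fixedBy_eq_of_mem (h.ha ▸ h.hp) h2 h1, fx]
  · rw [fx, fixedBy_eq_of_mem ((h.ord hk).symm ▸ h.hp) h2 h1, fx_conj (h.conj k hk), fx]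

theorem burnside : p ^ 2 ∣ Nat.card Ω + (p ^ 2 - 1) * fx Ω a := by
  classical
  have := Fintype.ofFinite G
  have h1 := CL.Perm.burnside_sum ↥(zpowers a ⊔ zpowers b) Ω
  rw [h.card, ← Finset.add_sum_erase _ _ (Finset.mem_univ 1), Finset.sum_const_nat (m := fx Ω a)
    (f := fun x : ↥(zpowers a ⊔ zpowers b) => Nat.card (fixedBy Ω x)) fun x hx =>
    h.fx_eq x.2 fun e => (Finset.mem_erase.1 hx).1 (Subtype.ext e), Finset.card_erase_of_mem (Finset.mem_univ _),
    Finset.card_univ, ← Nat.card_eq_fintype_card, h.card, fixedBy_one_eq_univ, Nat.card_univ] at h1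
  exact h1 ▸ dvd_mul_left _ _

theorem modEq : Nat.card Ω ≡ fx Ω a [MOD p ^ 2] := by
  have h1 := h.burnside (Ω := Ω)
  have h2 : 1 ≤ p ^ 2 := Nat.one_le_pow _ _ h.hp.pos
  rw [← Nat.modEq_zero_iff_dvd] at h1
  have h3 := h1.add_right (fx Ω a)
  rw [add_assoc, ← Nat.succ_mul, Nat.succ_eq_add_one, Nat.sub_add_cancel h2, zero_add] at h3
  exact ((Nat.modEq_iff_dvd' (Nat.le_add_right _ _)).2 (by simp)).trans h3

omit [Finite Ω] in
/-- a point fixed by two different cyclic subgroups is fixed by the whole group -/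
theorem le_stabilizer {i j : ℕ} (hi : i < p) (hij : j < i) {ω : Ω} (h1 : (b * a ^ i) • ω = ω)
    (h2 : (b * a ^ j) • ω = ω) : zpowers a ⊔ zpowers b ≤ stabilizer G ω := by
  have h3 : (b * a ^ j)⁻¹ * (b * a ^ i) ∈ stabilizer G ω := mul_mem (inv_mem h2) h1
  have e : (b * a ^ j)⁻¹ * (b * a ^ i) = a ^ (i - j) := by
    rw [pow_sub _ hij.le, ← ((Commute.refl a).pow_pow j i).inv_left.eq]; group
  rw [e] at h3
  have h4 : a ∈ stabilizer G ω := by
    have := fixedBy_eq_of_mem (Ω := Ω) (h.ha ▸ h.hp) (npow_mem_zpowers a (i - j))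
      (pow_ne_one_of_lt_orderOf (by omega) (by rw [h.ha]; omega))
    exact (this.le h3 : ω ∈ fixedBy Ω a)
  exact sup_le (zpowers_le_of_mem h4) (zpowers_le_of_mem ((mul_mem_cancel_right (pow_mem h4 j)).1 h2))

/-- without common fixed points the fixed point sets are disjoint -/
theorem mul_fx_le (h0 : ∀ ω : Ω, ¬ zpowers a ⊔ zpowers b ≤ stabilizer G ω) : p * fx Ω a ≤ Nat.card Ω := by
  classical
  have := Fintype.ofFinite Ω
  have h1 := Finset.card_biUnion (s := Finset.range p) (t := fun i => (fixedBy Ω (b * a ^ i)).toFinset) (by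
    intro i hi j hj hij
    rw [Function.onFun, Finset.disjoint_left]
    intro ω h1 h2
    rw [Set.mem_toFinset] at h1 h2
    rcases lt_or_gt_of_ne hij with k | k
    · exact h0 ω (h.le_stabilizer (Finset.mem_range.1 hj) k h2 h1)
    · exact h0 ω (h.le_stabilizer (Finset.mem_range.1 hi) k h1 h2))
  rw [Finset.sum_const_nat (m := fx Ω a) fun i hi => by
    rw [fx_conj (h.conj i (Finset.mem_range.1 hi)), fx, Set.ncard_eq_toFinset_card'], Finset.card_range] at h1
  rw [← h1, Nat.card_eq_fintype_card]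
  exact Finset.card_le_univ _

/-- few fixed points: all non-identity elements have the same fixed points -/
theorem fixedBy_eq (hf : fx Ω a < p) {x : G} (hx : x ∈ zpowers a ⊔ zpowers b) (h1 : x ≠ 1) :
    fixedBy Ω x = fixedBy Ω a := by
  have key : ∀ ω ∈ fixedBy Ω a, zpowers a ⊔ zpowers b ≤ stabilizer G ω := by
    intro ω hω
    refine sup_le (zpowers_le_of_mem hω) (zpowers_le_of_mem ?_)
    by_contra hb
    have h2 : (Set.Iio p).ncard ≤ fx Ω a := by
      refine Set.ncard_le_ncard_of_injOn (fun i => b ^ i • ω) (fun i _ => ?_) fun i hi j hj e => ?_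
      · rw [mem_fixedBy, smul_smul, (h.comm.pow_right i).eq, mul_smul, hω]
      · by_contra hij
        wlog k : j < i generalizing i j
        · exact this j hj i hi e.symm (Ne.symm hij) (by omega)
        have h3 : b ^ (i - j) ∈ stabilizer G ω := by
          rw [mem_stabilizer_iff, pow_sub _ k.le, ← ((Commute.refl b).pow_pow j i).inv_left.eq, mul_smul,
            inv_smul_eq_iff]
          exact e
        have := fixedBy_eq_of_mem (Ω := Ω) (h.hb ▸ h.hp) (npow_mem_zpowers b (i - j))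
          (pow_ne_one_of_lt_orderOf (by omega) (by rw [h.hb]; have := Set.mem_Iio.1 hi; omega))
        exact hb (this.le h3 : ω ∈ fixedBy Ω b)
    simp at h2
    omega
  exact (Set.eq_of_subset_of_ncard_le (fun ω hω => key ω hω hx) (h.fx_eq hx h1).le).symm

/-- an element normalising the group without fixed points fixes at most one point of a regular orbit -/
theorem subsingleton (hf : fx Ω a < p) (hn : Nat.card Ω = p ^ 2 + fx Ω a) {c : G}
    (hc : ∀ x ∈ zpowers a ⊔ zpowers b, c * x * c⁻¹ ∈ zpowers a ⊔ zpowers b ∧ (c * x * c⁻¹ = x → x = 1)) :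
    (fixedBy Ω c \ fixedBy Ω a).Subsingleton := by
  intro ω hω ω' hω'
  have free : ∀ x ∈ zpowers a ⊔ zpowers b, x • ω = ω → x = 1 := fun x hx e =>
    by_contra fun h1 => hω.2 (h.fixedBy_eq hf hx h1 ▸ e)
  have hsub : orbit ↥(zpowers a ⊔ zpowers b) ω ⊆ (fixedBy Ω a)ᶜ := by
    rintro _ ⟨x, rfl⟩ hx
    refine hω.2 ?_
    obtain ⟨i, j, e⟩ := h.exists_eq x.2
    have h2 : Commute a x := e ▸ ((Commute.refl a).zpow_right i).mul_right (h.comm.zpow_right j)
    have h3 : a • (x : G) • ω = (x : G) • ω := hx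
    rwa [smul_smul, h2.eq, mul_smul, smul_left_cancel_iff] at h3
  have hcard : (orbit ↥(zpowers a ⊔ zpowers b) ω).ncard = p ^ 2 := by
    rw [← index_stabilizer, show stabilizer ↥(zpowers a ⊔ zpowers b) ω = ⊥ from
      eq_bot_iff.2 fun x hx => Subtype.ext (free x x.2 hx), index_bot, h.card]
  have h4 := Set.eq_of_subset_of_ncard_le hsub (by
    have := Set.ncard_add_ncard_compl (fixedBy Ω a)
    rw [hcard]
    rw [fx] at hn
    omega)
  obtain ⟨x, hx⟩ : ω' ∈ orbit ↥(zpowers a ⊔ zpowers b) ω := h4 ▸ hω'.2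
  have hx' : (x : G) • ω = ω' := hx
  have h5 : ((x : G)⁻¹ * (c * x * c⁻¹)) • ω = ω := by
    rw [mul_smul, mul_smul, mul_smul, inv_smul_eq_iff, inv_smul_eq_iff.2 (Eq.symm hω.1), hx', hω'.1]
  have h6 := free _ (mul_mem (inv_mem x.2) (hc x x.2).1) h5
  rw [inv_mul_eq_one] at h6
  rw [← hx', (hc x x.2).2 h6.symm, one_smul]

end Pair

end CL.ElemFix
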