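import Mathlib
import Cfsg.Agent.ODDC.FT

/-! Insoluble irreducible linear groups in which every vector stabiliser is maximal: basics. -/

set_option autoImplicit false

namespace CL.ExPr

open Subgroup MulAction

variable (H V : Type*) [Group H] [AddCommGroup V] [DistribMulAction H V]

/-- faithful, irreducible, insoluble, and stabilisers of non-zero vectors are maximal -/
structure EP : Prop where
  faith : ∀ h : H, (∀ v : V, h • v = v) → h = 1
  irr : ∀ W : AddSubgroup V, (∀ h : H, ∀ w ∈ W, h • w ∈ W) → W = ⊥ ∨ W = ⊤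
  max : ∀ v : V, v ≠ 0 → IsCoatom (stabilizer H v)
  nsol : ¬ Group.IsSolvable H

variable {H V}

/-- `W` is invariant under `K` -/
def Inv (K : Subgroup H) (W : AddSubgroup V) : Prop := ∀ k ∈ K, ∀ w ∈ W, k • w ∈ W

variable (V) in
/-- the vectors fixed by a set -/
def fx (S : Set H) : AddSubgroup V where
  carrier := {w | ∀ k ∈ S, k • w = w}
  zero_mem' k _ := smul_zero k
  add_mem' ha hb k hk := by rw [smul_add, ha k hk, hb k hk]
  neg_mem' ha k hk := by rw [smul_neg, ha k hk]

theorem mem_fx {S : Set H} {w : V} : w ∈ fx V S ↔ ∀ k ∈ S, k • w = w := Iff.rfl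

theorem smul_mem_fx {S : Set H} {w : V} (hw : w ∈ fx V S) {g : H} (h : ∀ k ∈ S, g⁻¹ * k * g ∈ S) :
    g • w ∈ fx V S := fun k hk => by
  rw [← mul_smul, show k * g = g * (g⁻¹ * k * g) by group, mul_smul, hw _ (h k hk)]

theorem exists_invol {G : Type*} [Group G] [Finite G] (h : ¬ Group.IsSolvable G) :
    ∃ t : G, t ≠ 1 ∧ t * t = 1 := by
  have h2 : 2 ∣ Nat.card G := by
    by_contra n
    exact h (CL.PF.Feit_Thompson (Nat.odd_iff.2 (by omega)))
  haveI : Fact (Nat.Prime 2) := ⟨Nat.prime_two⟩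
  obtain ⟨t, ht⟩ := exists_prime_orderOf_dvd_card' 2 h2
  refine ⟨t, fun e => by simp [e] at ht, ?_⟩
  rw [← pow_two, ← ht, pow_orderOf_eq_one]

namespace EP

variable (e : EP H V)
include e

theorem core {K : Subgroup H} (hK : K.Normal) {v : V} (hv : v ≠ 0) (h : K ≤ stabilizer H v) :
    K = ⊥ := by
  rcases e.irr (fx V K) fun g w hw => smul_mem_fx hw fun k hk => hK.conj_mem' k hk g with c | c
  · exact absurd (AddSubgroup.mem_bot.1 (c ▸ (fun k hk => h hk : v ∈ fx V (K : Set H)))) hv
  · exact eq_bot_iff.2 fun k hk => e.faith k fun w => (c ▸ AddSubgroup.mem_top w : w ∈ fx V K) k hk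

theorem norm [Finite H] {X : Subgroup H} (hX : X ≠ ⊥) {v : V} (hv : v ≠ 0) (h1 : X ≤ stabilizer H v)
    (h2 : ∀ g : H, g • v = v → ∀ y ∈ X, g * y * g⁻¹ ∈ X) {s : H} (hs : ∀ y ∈ X, s * y * s⁻¹ ∈ X) :
    s • v = v := by
  by_contra n
  have h3 : stabilizer H v < normalizer (X : Set H) :=
    lt_of_le_of_ne (fun g hg => mem_normalizer_fintype (h2 g hg)) fun c =>
      n (show s ∈ stabilizer H v from c ▸ mem_normalizer_fintype hs)
  exact hX (e.core (normalizer_eq_top_iff.1 ((e.max v hv).2 _ h3)) hv h1)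

theorem dich [Finite H] {K : Subgroup H} {v : V} (hv : v ≠ 0)
    (h2 : ∀ g : H, g • v = v → ∀ y ∈ K, g * y * g⁻¹ ∈ K) :
    K ≤ stabilizer H v ∨ ∀ g : H, ∃ k ∈ K, k • v = g • v := by
  refine or_iff_not_imp_left.2 fun n g => ?_
  have h3 : K ⊔ stabilizer H v = ⊤ := (e.max v hv).2 _ (right_lt_sup.2 n)
  have h4 : g ∈ ((K ⊔ stabilizer H v : Subgroup H) : Set H) := h3 ▸ mem_top g
  rw [coe_mul_of_right_le_normalizer_left _ _ fun g hg => mem_normalizer_fintype (h2 g hg)] at h4
  obtain ⟨k, hk, s, hs, rfl⟩ := h4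
  exact ⟨k, hk, by rw [mul_smul, show s • v = v from hs]⟩

theorem irrN [Finite H] {K : Subgroup H} (hK : K.Normal) (h : K ≠ ⊥) {W : AddSubgroup V}
    (hW : Inv K W) : W = ⊥ ∨ W = ⊤ :=
  e.irr W fun g w hw => by
    by_cases h0 : w = 0
    · rw [h0, smul_zero]; exact W.zero_mem
    · rcases e.dich (K := K) h0 fun g _ y hy => hK.conj_mem y hy g with c | c
      · exact absurd (e.core hK h0 c) h
      · obtain ⟨k, hk, c⟩ := c g
        exact c ▸ hW k hk w hw

theorem stab_ne {v : V} (hv : v ≠ 0) : stabilizer H v ≠ ⊥ := fun c => by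
  have m := e.max v hv
  rw [c] at m
  refine e.nsol (Group.isSolvable_of_comm fun a b => ?_)
  by_cases h : a = 1
  · rw [h, one_mul, mul_one]
  · have : zpowers a = ⊤ := m.2 _ (bot_lt_iff_ne_bot.2 (zpowers_ne_bot.2 h))
    obtain ⟨n, rfl⟩ := (this ▸ mem_top b : b ∈ zpowers a)
    exact (Commute.self_zpow a n).eq

theorem exists_two [Finite H] : ∃ w : V, w ≠ 0 ∧ w + w = 0 := by
  obtain ⟨t, h1, h2⟩ := exists_invol e.nsol
  obtain ⟨v, hv⟩ : ∃ v : V, t • v ≠ v := by
    by_contra n
    exact h1 (e.faith t fun v => by by_contra c; exact n ⟨v, c⟩)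
  have hw : t • v - v ≠ 0 := sub_ne_zero.2 hv
  have h3 : t • (t • v - v) = -(t • v - v) := by
    rw [smul_sub, ← mul_smul, h2, one_smul, neg_sub]
  have h4 := e.norm (e.stab_ne hw) hw le_rfl
    (fun g hg y hy => mul_mem (mul_mem hg hy) (inv_mem hg)) (s := t) fun y hy => by
      rw [mem_stabilizer_iff] at hy ⊢
      rw [inv_eq_of_mul_eq_one_right h2, mul_smul, mul_smul, h3, smul_neg, hy, smul_neg, h3, neg_neg]
  exact ⟨_, hw, by nth_rewrite 1 [← h4]; rw [h3, neg_add_cancel]⟩

theorem two [Finite H] (v : V) : v + v = 0 := by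
  obtain ⟨w, h0, hw⟩ := e.exists_two
  let W : AddSubgroup V :=
    { carrier := {v | v + v = 0}
      zero_mem' := add_zero 0
      add_mem' := fun {a b} (ha : a + a = 0) (hb : b + b = 0) => show a + b + (a + b) = 0 by
        rw [add_add_add_comm, ha, hb, add_zero]
      neg_mem' := fun {a} (ha : a + a = 0) => show -a + -a = 0 by rw [← neg_add, ha, neg_zero] }
  rcases e.irr W fun h v (hv : v + v = 0) => show h • v + h • v = 0 by
    rw [← smul_add, hv, smul_zero] with c | c
  · exact absurd (AddSubgroup.mem_bot.1 (c ▸ (hw : w ∈ W))) h0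
  · exact (c ▸ AddSubgroup.mem_top v : v ∈ W)

theorem nontrivial : Nontrivial V := by
  by_contra n
  rw [not_nontrivial_iff_subsingleton] at n
  exact e.nsol (Group.isSolvable_of_comm fun a b => by
    rw [e.faith a fun v => Subsingleton.elim _ _, one_mul, mul_one])

theorem cyc [Finite H] [Finite V] {K : Subgroup H} (hK : K.Normal) (h : K ≠ ⊥) :
    IsCyclic (centralizer (K : Set H)) := by
  haveI := e.nontrivial
  let ρ : H →* Module.End ℤ V := DistribMulAction.toModuleEnd ℤ V
  let E : Subring (Module.End ℤ V) := Subring.centralizer (ρ '' K)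
  haveI : Finite (Module.End ℤ V) := Finite.of_injective _ DFunLike.coe_injective
  haveI : NoZeroDivisors E := ⟨fun {a b} hab => by
    have i : Inv K (LinearMap.range b.1).toAddSubgroup := by
      rintro k hk _ ⟨w, rfl⟩
      exact ⟨k • w, (LinearMap.congr_fun (b.2 _ ⟨k, hk, rfl⟩) w).symm⟩
    rcases e.irrN hK h i with c | c
    · exact Or.inr (Subtype.ext (LinearMap.ext fun w => AddSubgroup.mem_bot.1
        (c ▸ (⟨w, rfl⟩ : b.1 w ∈ (LinearMap.range b.1).toAddSubgroup))))
    · refine Or.inl (Subtype.ext (LinearMap.ext fun w => ?_))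
      obtain ⟨u, rfl⟩ := (c ▸ AddSubgroup.mem_top w : w ∈ (LinearMap.range b.1).toAddSubgroup)
      exact LinearMap.congr_fun (congrArg Subtype.val hab) u⟩
  haveI : IsDomain E := NoZeroDivisors.to_isDomain E
  letI := (Finite.isDomain_to_isField E).toField
  let f : centralizer (K : Set H) →* E :=
    { toFun := fun c => ⟨ρ c, by
        rintro _ ⟨k, hk, rfl⟩
        rw [← map_mul, ← map_mul, c.2 k hk]⟩
      map_one' := Subtype.ext (map_one ρ)
      map_mul' := fun a b => Subtype.ext (map_mul ρ _ _) }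
  refine isCyclic_of_injective_ringHom f ((injective_iff_map_eq_one f).2 fun c hc => ?_)
  exact Subtype.ext (e.faith c fun v => LinearMap.congr_fun (congrArg Subtype.val hc) v)

theorem cent [Finite H] [Finite V] {K : Subgroup H} (hK : K.Normal) (h : K ≠ ⊥) :
    centralizer (K : Set H) = ⊥ := by
  by_contra n
  set C := centralizer (K : Set H) with hC
  haveI : C.Normal := normal_centralizer
  have c1 : IsCyclic C := e.cyc hK h
  have c2 := e.cyc (K := C) inferInstance n
  let _ := (c1.mulAutMulEquiv _).toMonoidHom.commGroupOfInjective (c1.mulAutMulEquiv _).injective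
  haveI : Group.IsSolvable (MulAut C) := Group.isSolvable_of_comm fun a b => mul_comm a b
  haveI : Group.IsSolvable (centralizer (C : Set H)) :=
    Group.isSolvable_of_comm fun a b => c2.isMulCommutative.is_comm.comm a b
  refine e.nsol (solvable_of_ker_le_range (centralizer (C : Set H)).subtype
    (MulAut.conjNormal (H := C)) fun g hg => ⟨⟨g, fun c hc => ?_⟩, rfl⟩)
  have := congrArg Subtype.val (DFunLike.congr_fun (MonoidHom.mem_ker.1 hg) ⟨c, hc⟩)
  rw [MulAut.conjNormal_apply] at this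
  exact (mul_inv_eq_iff_eq_mul.1 this).symm

end EP

end CL.ExPr
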