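import Mathlib
import Cfsg.Agent.PERM.ExPrA

/-! Insoluble irreducible linear groups in which every vector stabiliser is maximal are almost
simple. -/

set_option autoImplicit false

namespace CL.ExPr

open Subgroup MulAction

variable {H V : Type*} [Group H] [AddCommGroup V] [DistribMulAction H V]

/-- `T` is a minimal normal subgroup of `M` -/
structure MinN (M T : Subgroup H) : Prop where
  le : T ≤ M
  ne : T ≠ ⊥
  nm : ∀ m ∈ M, ∀ y ∈ T, m * y * m⁻¹ ∈ T
  min : ∀ K ≤ T, (∀ m ∈ M, ∀ y ∈ K, m * y * m⁻¹ ∈ K) → K = ⊥ ∨ K = T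

theorem exists_minN [Finite H] {M : Subgroup H} (h : M ≠ ⊥) : ∃ T, MinN M T := by
  obtain ⟨T, hT, m⟩ := (wellFounded_lt (α := Subgroup H)).has_min
    {T | T ≤ M ∧ T ≠ ⊥ ∧ ∀ m ∈ M, ∀ y ∈ T, m * y * m⁻¹ ∈ T}
    ⟨M, le_rfl, h, fun m hm y hy => mul_mem (mul_mem hm hy) (inv_mem hm)⟩
  refine ⟨T, hT.1, hT.2.1, hT.2.2, fun K hK n => or_iff_not_imp_left.2 fun c => ?_⟩
  by_contra c'
  exact m K ⟨hK.trans hT.1, c, n⟩ (lt_of_le_of_ne hK c')

/-- the conjugate `g⁻¹ T g` -/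
def cj (g : H) (T : Subgroup H) : Subgroup H := T.comap (MulAut.conj g).toMonoidHom

theorem mem_cj {g y : H} {T : Subgroup H} : y ∈ cj g T ↔ g * y * g⁻¹ ∈ T := Iff.rfl

theorem cj_cj (g : H) (T : Subgroup H) : cj g (cj g⁻¹ T) = T := by
  ext y
  rw [mem_cj, mem_cj, show g⁻¹ * (g * y * g⁻¹) * g⁻¹⁻¹ = y by group]

theorem cj_bot (g : H) : cj g (⊥ : Subgroup H) = ⊥ := by
  ext y
  rw [mem_cj, mem_bot, mem_bot, conj_eq_one_iff]

theorem MinN.cj {M T : Subgroup H} (hM : M.Normal) (h : MinN M T) (g : H) : MinN M (cj g T) where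
  le y hy := by simpa [mul_assoc] using hM.conj_mem' _ (h.le hy) g
  ne c := h.ne (by rw [← cj_cj g⁻¹ T, inv_inv, c, cj_bot])
  nm m hm y hy := by
    rw [mem_cj] at hy ⊢
    rw [show g * (m * y * m⁻¹) * g⁻¹ = g * m * g⁻¹ * (g * y * g⁻¹) * (g * m * g⁻¹)⁻¹ by group]
    exact h.nm _ (hM.conj_mem m hm g) _ hy
  min K hK n := by
    rcases h.min (ExPr.cj g⁻¹ K) (fun y hy => by simpa [mem_cj, mul_assoc] using hK hy)
      fun m hm y hy => by
        rw [mem_cj] at hy ⊢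
        rw [show g⁻¹ * (m * y * m⁻¹) * g⁻¹⁻¹ = g⁻¹ * m * g * (g⁻¹ * y * g⁻¹⁻¹) * (g⁻¹ * m * g)⁻¹ by group]
        exact n _ (hM.conj_mem' m hm g) _ hy with c | c
    · exact Or.inl (by rw [← cj_cj g K, c, cj_bot])
    · exact Or.inr (by rw [← c, cj_cj])

theorem MinN.comm {M T T' : Subgroup H} (h : MinN M T) (h' : MinN M T') (n : T ≠ T') {a b : H}
    (ha : a ∈ T) (hb : b ∈ T') : a * b = b * a := by
  have i : T ⊓ T' = ⊥ := by
    have k : ∀ m ∈ M, ∀ y ∈ T ⊓ T', m * y * m⁻¹ ∈ T ⊓ T' := fun m hm y hy =>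
      ⟨h.nm m hm y hy.1, h'.nm m hm y hy.2⟩
    rcases h.min _ inf_le_left k with c | c
    · exact c
    · rcases h'.min _ inf_le_right k with d | d
      · exact d
      · exact absurd (c.symm.trans d) n
  have : a * b * a⁻¹ * b⁻¹ ∈ T ⊓ T' := mem_inf.2 ⟨by
    rw [show a * b * a⁻¹ * b⁻¹ = a * (b * a⁻¹ * b⁻¹) by group]
    exact mul_mem ha (h.nm b (h'.le hb) _ (inv_mem ha)),
    mul_mem (h'.nm a (h.le ha) b hb) (inv_mem hb)⟩
  rw [i, mem_bot, mul_inv_eq_one, mul_inv_eq_iff_eq_mul] at this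
  exact this

/-- the elements of `M` that act on each minimal normal `T` as some element of `A T` -/
def PP (M : Subgroup H) (A : Subgroup H → Subgroup H) : Subgroup H where
  carrier := {m | m ∈ M ∧ ∀ T, MinN M T → ∃ a ∈ M, a ∈ A T ∧ ∀ y ∈ T, m * y * m⁻¹ = a * y * a⁻¹}
  one_mem' := ⟨one_mem _, fun T _ => ⟨1, one_mem _, one_mem _, fun _ _ => rfl⟩⟩
  mul_mem' := fun {m m'} h h' => ⟨mul_mem h.1 h'.1, fun T hT => by
    obtain ⟨a, a1, a2, a3⟩ := h.2 T hT
    obtain ⟨b, b1, b2, b3⟩ := h'.2 T hT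
    refine ⟨a * b, mul_mem a1 b1, mul_mem a2 b2, fun y hy => ?_⟩
    rw [show m * m' * y * (m * m')⁻¹ = m * (m' * y * m'⁻¹) * m⁻¹ by group, b3 y hy,
      a3 _ (hT.nm b b1 y hy)]
    group⟩
  inv_mem' := fun {m} h => ⟨inv_mem h.1, fun T hT => by
    obtain ⟨a, a1, a2, a3⟩ := h.2 T hT
    refine ⟨a⁻¹, inv_mem a1, inv_mem a2, fun y hy => ?_⟩
    have := a3 _ (hT.nm _ (inv_mem a1) y hy)
    rw [show a * (a⁻¹ * y * a⁻¹⁻¹) * a⁻¹ = y by group] at this
    nth_rewrite 1 [← this]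
    group⟩

theorem PP_conj {M : Subgroup H} (hM : M.Normal) {A : Subgroup H → Subgroup H} {g : H}
    (hA : ∀ T a, a ∈ A (cj g T) → g * a * g⁻¹ ∈ A T) {m : H} (h : m ∈ PP M A) :
    g * m * g⁻¹ ∈ PP M A := ⟨hM.conj_mem m h.1 g, fun T hT => by
  obtain ⟨a, a1, a2, a3⟩ := h.2 _ (hT.cj hM g)
  refine ⟨g * a * g⁻¹, hM.conj_mem a a1 g, hA T a a2, fun y hy => ?_⟩
  have := a3 (g⁻¹ * y * g) (by rw [mem_cj]; simpa [mul_assoc] using hy)
  rw [show g * m * g⁻¹ * y * (g * m * g⁻¹)⁻¹ = g * (m * (g⁻¹ * y * g) * m⁻¹) * g⁻¹ by group, this]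
  group⟩

/-- an element of `T` that acts on `T` as an element of `A T` -/
theorem mem_PP {M T : Subgroup H} (hT : MinN M T) {A : Subgroup H → Subgroup H} {t a : H}
    (ht : t ∈ T) (a1 : a ∈ M) (a2 : a ∈ A T) (a3 : ∀ y ∈ T, t * y * t⁻¹ = a * y * a⁻¹) :
    t ∈ PP M A := ⟨hT.le ht, fun T' hT' => by
  by_cases c : T = T'
  · exact c ▸ ⟨a, a1, a2, a3⟩
  · exact ⟨1, one_mem _, one_mem _, fun y hy => by rw [hT.comm hT' c ht hy]; group⟩⟩

/-- the standing hypothesis: `M` is a minimal normal subgroup -/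
structure EM (V : Type*) [AddCommGroup V] [DistribMulAction H V] (M : Subgroup H) : Prop
    extends EP H V where
  nM : M.Normal
  ne : M ≠ ⊥
  min : ∀ K : Subgroup H, K.Normal → K ≤ M → K = ⊥ ∨ K = M

namespace EM

variable [Finite H] [Finite V] {M T : Subgroup H} (e : EM V M) (hT : MinN M T)
include e hT

omit [Finite H] [Finite V] in
theorem inn {m : H} (hm : m ∈ M) : ∃ a ∈ T, ∀ y ∈ T, m * y * m⁻¹ = a * y * a⁻¹ := by
  rcases e.min (PP M id) ⟨fun m hm g => PP_conj e.nM (fun _ _ h => h) hm⟩ fun m h => h.1 with c | c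
  · exact absurd (eq_bot_iff.2 fun t ht =>
      c ▸ mem_PP (A := id) hT ht (hT.le ht) ht fun _ _ => rfl) hT.ne
  · obtain ⟨a, -, h⟩ := (c.symm ▸ hm : m ∈ PP M id).2 T hT
    exact ⟨a, h⟩

omit [Finite H] [Finite V] in
theorem simp {K : Subgroup H} (hK : K ≤ T) (n : ∀ m ∈ T, ∀ y ∈ K, m * y * m⁻¹ ∈ K) :
    K = ⊥ ∨ K = T :=
  hT.min K hK fun m hm y hy => by
    obtain ⟨a, ha, h⟩ := e.inn hT hm
    exact h y (hK hy) ▸ n a ha y hy

omit [Finite H] [Finite V] in
theorem simple : IsSimpleGroup T := by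
  haveI := (nontrivial_iff_ne_bot T).2 hT.ne
  refine ⟨fun K hK => ?_⟩
  rcases e.simp hT (map_subtype_le K) (by
    rintro m hm _ ⟨y, hy, rfl⟩
    exact ⟨_, hK.conj_mem y hy ⟨m, hm⟩, rfl⟩) with c | c
  · exact Or.inl (map_subtype_inj.1 (by rw [c, Subgroup.map_bot]))
  · exact Or.inr (map_subtype_inj.1 (by rw [c, ← MonoidHom.range_eq_map, range_subtype]))

theorem ncomm : ¬ ∀ a b : T, a * b = b * a := fun h => hT.ne (eq_bot_iff.2 fun z hz => by
  rw [← e.cent e.nM e.ne]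
  intro m hm
  obtain ⟨a, ha, k⟩ := e.inn hT hm
  have := congrArg Subtype.val (h ⟨a, ha⟩ ⟨z, hz⟩)
  rw [← mul_inv_eq_iff_eq_mul, k z hz, mul_inv_eq_iff_eq_mul]
  exact this)

theorem invol : ∃ t ∈ T, t ≠ 1 ∧ t * t = 1 := by
  haveI := e.simple hT
  obtain ⟨t, h1, h2⟩ := exists_invol (G := T) fun s => e.ncomm hT (IsSimpleGroup.comm_iff_isSolvable.2 s)
  exact ⟨t, t.2, fun c => h1 (Subtype.ext c), congrArg Subtype.val h2⟩

omit [Finite V] in
theorem move {v : V} (hv : v ≠ 0) {t : H} (ht : t ∈ T) (h1 : t ≠ 1) :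
    ∃ g ∈ T, (g * t * g⁻¹) • v ≠ v := by
  by_contra n
  have n' : ∀ g ∈ T, (g * t * g⁻¹) • v = v := fun g hg => by
    by_contra c
    exact n ⟨g, hg, c⟩
  let K : Subgroup H := T ⊓ ⨅ g : T, cj g (stabilizer H v)
  have mK : ∀ y, y ∈ K ↔ y ∈ T ∧ ∀ g : T, (g * y * (g : H)⁻¹) • v = v := fun y => by
    simp only [K, mem_inf, mem_iInf, mem_cj, mem_stabilizer_iff]
  rcases e.simp hT (K := K) inf_le_left fun m hm y hy => (mK _).2
    ⟨hT.nm m (hT.le hm) y hy.1, fun g => by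
      have := ((mK y).1 hy).2 (g * ⟨m, hm⟩)
      rwa [show ((g * ⟨m, hm⟩ : T) : H) * y * ((g * ⟨m, hm⟩ : T) : H)⁻¹ =
        g * (m * y * m⁻¹) * (g : H)⁻¹ by rw [coe_mul]; group] at this⟩ with c | c
  · exact h1 (mem_bot.1 (c ▸ (mK t).2 ⟨ht, fun g => n' g g.2⟩))
  · have k : v ∈ fx V (T : Set H) := fun y (hy : y ∈ T) => by simpa using ((mK y).1 (c.ge hy)).2 1
    rcases e.irrN e.nM e.ne (W := fx V T) fun m hm w hw => smul_mem_fx hw fun y hy => by
      simpa using hT.nm _ (inv_mem hm) y hy with d | d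
    · exact hv (AddSubgroup.mem_bot.1 (d ▸ k))
    · exact hT.ne (eq_bot_iff.2 fun y hy => e.faith y fun w =>
        (d ▸ AddSubgroup.mem_top w : w ∈ fx V T) y hy)

omit hT [Finite V] in
theorem sub {x : V} (hx : x ≠ 0) : PP M (fun _ => stabilizer H x) ≤ stabilizer H x ∨
    ∀ m ∈ M, m ∈ PP M fun _ => stabilizer H x := by
  refine (e.dich hx fun g hg y hy => PP_conj e.nM
    (fun _ a ha => mul_mem (mul_mem hg ha) (inv_mem hg)) hy).imp_right fun h m hm => ?_
  obtain ⟨k, hk, c⟩ := h m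
  have i : k⁻¹ * m ∈ M := mul_mem (inv_mem hk.1) hm
  rw [show m = k * (k⁻¹ * m) by group]
  exact mul_mem hk ⟨i, fun T _ => ⟨_, i, by
    rw [mem_stabilizer_iff, mul_smul, ← c, inv_smul_smul], fun _ _ => rfl⟩⟩

omit [Finite V] in
theorem prod {x : V} (hx : x ≠ 0) {t : H} (ht : t ∈ T) (h1 : t ≠ 1) (h : t • x = x) :
    PP M (fun _ => stabilizer H x) ≤ stabilizer H x := (e.sub hx).resolve_right fun c => by
  obtain ⟨g, hg, n⟩ := e.move hT hx ht h1
  obtain ⟨a, -, a2, a3⟩ := (c g (hT.le hg)).2 T hT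
  exact n (a3 t ht ▸ (mul_mem (mul_mem a2 h) (inv_mem a2) : a * t * a⁻¹ ∈ stabilizer H x))

end EM

/-- the centraliser of `T` in `M` -/
abbrev DD (M T : Subgroup H) : Subgroup H := M ⊓ centralizer (T : Set H)

/-- a minimal non-zero invariant subgroup -/
structure Irr (D : Subgroup H) (U : AddSubgroup V) : Prop where
  ne : U ≠ ⊥
  inv : Inv D U
  min : ∀ U' ≤ U, Inv D U' → U' = ⊥ ∨ U' = U

theorem exists_irr [Finite V] {D : Subgroup H} {W : AddSubgroup V} (h : W ≠ ⊥) (i : Inv D W) :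
    ∃ U ≤ W, Irr D U := by
  obtain ⟨U, hU, m⟩ := (wellFounded_lt (α := AddSubgroup V)).has_min
    {U | U ≤ W ∧ U ≠ ⊥ ∧ Inv D U} ⟨W, le_rfl, h, i⟩
  refine ⟨U, hU.1, hU.2.1, hU.2.2, fun K hK n => or_iff_not_imp_left.2 fun c => ?_⟩
  by_contra c'
  exact m K ⟨hK.trans hU.1, c, n⟩ (lt_of_le_of_ne hK c')

theorem dd_smul {M T : Subgroup H} {d t : H} (hd : d ∈ DD M T) (ht : t ∈ T) (v : V) :
    t • d • v = d • t • v := by rw [← mul_smul, ← mul_smul, hd.2 t ht]

theorem Irr.map {M T : Subgroup H} {U W : AddSubgroup V} (hU : Irr (DD M T) U) (hW : Inv (DD M T) W)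
    {t : H} (ht : t ∈ T) : (∀ b ∈ U, t • b ∈ W → b = 0) ∨ ∀ b ∈ U, t • b ∈ W := by
  rcases hU.min (U ⊓ W.comap (DistribMulAction.toAddMonoidHom V t)) inf_le_left fun d hd w hw =>
    ⟨hU.inv d hd w hw.1, show t • d • w ∈ W from dd_smul hd ht w ▸ hW d hd _ hw.2⟩ with c | c
  · exact Or.inl fun b hb h => AddSubgroup.mem_bot.1 (c.le ⟨hb, h⟩)
  · exact Or.inr fun b hb => (c.ge hb).2

theorem Irr.fix {M T : Subgroup H} {U : AddSubgroup V} (hU : Irr (DD M T) U) {a : H} (ha : a ∈ T)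
    {u : V} (hu : u ∈ U) (h0 : u ≠ 0) (h : a • u = u) : ∀ w ∈ U, a • w = w := by
  rcases hU.min (U ⊓ fx V {a}) inf_le_left fun d hd w hw => ⟨hU.inv d hd w hw.1, by
    rintro _ rfl
    rw [dd_smul hd ha, hw.2 _ rfl]⟩ with c | c
  · exact absurd (AddSubgroup.mem_bot.1 (c.le ⟨hu, by rintro _ rfl; exact h⟩)) h0
  · exact fun w hw => (c.ge hw).2 a rfl

namespace EM

variable [Finite H] [Finite V] {M T T₁ : Subgroup H} (e : EM V M) (hT : MinN M T) (h1 : MinN M T₁)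
  (hn : T₁ ≠ T)
include e hT h1 hn

omit e [Finite H] [Finite V] in
theorem le_dd {t : H} (ht : t ∈ T₁) : t ∈ DD M T :=
  ⟨h1.le ht, fun _ hy => hT.comm h1 hn.symm hy ht⟩

omit hT h1 hn [Finite V] in
theorem eq_of_add {a b : V} (h : a + b = 0) : b = a := by
  rw [← add_right_inj a, h, e.two]

theorem cenU {U : AddSubgroup V} (hU : Irr (DD M T) U) {s : H} (hs : s ∈ T)
    (h : ∀ w ∈ U, s • w ∈ U) : ∀ w ∈ U, s • w = w := by
  obtain ⟨t, t1, t2, t3⟩ := e.invol h1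
  obtain ⟨u, hu, h0, tu⟩ : ∃ u ∈ U, u ≠ 0 ∧ t • u = u := by
    obtain ⟨⟨w, hw⟩, h0⟩ := AddSubgroup.ne_bot_iff_exists_ne_zero.1 hU.ne
    by_cases c : t • w = w
    · exact ⟨w, hw, fun k => h0 (Subtype.ext k), c⟩
    · exact ⟨w + t • w, add_mem hw (hU.inv t (le_dd hT h1 hn t1) w hw), fun k => c (e.eq_of_add k),
        by rw [smul_add, ← mul_smul, t3, one_smul, add_comm]⟩
  have k := e.norm (X := M ⊓ stabilizer H u) (fun c => t2 (mem_bot.1 (c.le ⟨h1.le t1, tu⟩))) h0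
    inf_le_right (fun g hg y hy => ⟨e.nM.conj_mem y hy.1 g,
      (mul_mem (mul_mem hg hy.2) (inv_mem hg) : g * y * g⁻¹ ∈ stabilizer H u)⟩) (s := s⁻¹)
    fun m hm => ⟨e.nM.conj_mem m hm.1 _, by
      obtain ⟨a, ha, k⟩ := e.inn hT hm.1
      have a1 : a • u = u := e.prod h1 h0 t1 t2 tu (mem_PP hT ha hm.1 hm.2 fun y hy => (k y hy).symm)
      have a2 : m * s = a * s * a⁻¹ * m := by rw [← k s hs]; group
      change (s⁻¹ * m * s⁻¹⁻¹) • u = u
      rw [inv_inv, mul_assoc, a2, mul_smul, mul_smul, show m • u = u from hm.2, mul_smul,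
        inv_smul_eq_iff.2 a1.symm, mul_smul, hU.fix ha hu h0 a1 _ (h u hu), inv_smul_smul]⟩
  exact hU.fix hs hu h0 (inv_smul_eq_iff.1 k).symm

theorem span {U : AddSubgroup V} (hU : Irr (DD M T) U) {t : H} (ht : t ∈ T) (t2 : t * t = 1)
    (h : ∀ b ∈ U, t • b ∈ U → b = 0) (v : V) : ∃ a ∈ U, ∃ b ∈ U, a + t • b = v := by
  obtain ⟨⟨u, hu⟩, h0⟩ := AddSubgroup.ne_bot_iff_exists_ne_zero.1 hU.ne
  obtain ⟨r, r1, r2, r3⟩ : ∃ r ∈ T₁, r * r = 1 ∧ r • u ≠ u := by
    obtain ⟨r, r1, r2, r3⟩ := e.invol h1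
    obtain ⟨g, hg, k⟩ := e.move h1 (fun k : u = 0 => h0 (Subtype.ext k)) r1 r2
    exact ⟨_, h1.nm g (h1.le hg) r r1, by
      rw [show g * r * g⁻¹ * (g * r * g⁻¹) = g * (r * r) * g⁻¹ by group, r3]; group, k⟩
  have rD := le_dd hT h1 hn r1
  have ru := hU.inv r rD u hu
  have rr : ∀ w : V, r • r • w = w := fun w => by rw [← mul_smul, r2, one_smul]
  have tt : ∀ w : V, t • t • w = w := fun w => by rw [← mul_smul, t2, one_smul]
  have x1 : (r * t) • (u + t • r • u) = u + t • r • u := by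
    rw [mul_smul, smul_add, tt, smul_add, rr, dd_smul rD ht, add_comm]
  have x2 : r • (u + t • r • u) ≠ u + t • r • u := fun c => r3 (e.eq_of_add (h _ (add_mem hu ru) (by
    rw [smul_add, ← dd_smul rD ht, rr] at c
    have : t • (u + r • u) = u + r • u := by
      refine e.eq_of_add ?_
      rw [smul_add, show u + r • u + (t • u + t • r • u) = r • u + t • u + (u + t • r • u) by abel, c,
        e.two]
    rw [this]
    exact add_mem hu ru)))
  have x0 : u + t • r • u ≠ 0 := fun c => x2 (by rw [c, smul_zero])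
  have sd := (e.sub x0).resolve_left fun c => x2 (c (mem_PP h1 r1 (mul_mem (h1.le r1) (hT.le ht)) x1
    fun y hy => by rw [mul_assoc r t y, hT.comm h1 hn.symm ht hy]; group))
  let Z : AddSubgroup V :=
    { carrier := {v | ∀ m ∈ M, ∃ a ∈ U, ∃ b ∈ U, a + t • b = m • v}
      zero_mem' := fun m _ => ⟨0, zero_mem _, 0, zero_mem _, by simp⟩
      add_mem' := fun {x y} hx hy m hm => by
        obtain ⟨a, ha, b, hb, k⟩ := hx m hm
        obtain ⟨a', ha', b', hb', k'⟩ := hy m hm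
        exact ⟨_, add_mem ha ha', _, add_mem hb hb', by
          rw [smul_add, smul_add, ← k, ← k', add_add_add_comm]⟩
      neg_mem' := fun {x} hx m hm => by
        obtain ⟨a, ha, b, hb, k⟩ := hx m hm
        exact ⟨_, neg_mem ha, _, neg_mem hb, by rw [smul_neg, smul_neg, ← k, neg_add]⟩ }
  rcases e.irrN e.nM e.ne (W := Z) fun k hk w hw m hm =>
    mul_smul m k w ▸ hw _ (mul_mem hm hk) with c | c
  · refine absurd (AddSubgroup.mem_bot.1 (c.le fun m hm => ?_)) x0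
    obtain ⟨a, a1, a2, a3⟩ := (sd _ (inv_mem hm)).2 T hT
    have d : m * a ∈ DD M T := ⟨mul_mem hm a1, fun y hy => by
      rw [show m * a * y = m * (a * y * a⁻¹) * a by group, ← a3 y hy]; group⟩
    exact ⟨_, hU.inv _ d u hu, _, hU.inv _ d _ ru, by
      rw [dd_smul d ht, ← smul_add, mul_smul, show a • (u + t • r • u) = _ from a2]⟩
  · simpa using (c.ge (AddSubgroup.mem_top v)) 1 (one_mem M)

theorem key {W : AddSubgroup V} (hW : Inv (DD M T) W) (hW' : W ≠ ⊤) {s : H} (hs : s ∈ T)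
    (h : ∀ w ∈ W, s • w ∈ W) : ∀ w ∈ W, s • w = w := by
  by_cases c : W = ⊥
  · intro w hw
    rw [AddSubgroup.mem_bot.1 (c.le hw), smul_zero]
  obtain ⟨U, hUW, hU⟩ := exists_irr c hW
  obtain ⟨⟨u, hu⟩, h0⟩ := AddSubgroup.ne_bot_iff_exists_ne_zero.1 hU.ne
  obtain ⟨r, r1, r2, r3⟩ := e.invol hT
  obtain ⟨g, hg, k⟩ := e.move hT (fun k : u = 0 => h0 (Subtype.ext k)) r1 r2
  have ht := hT.nm g (hT.le hg) r r1
  have sp := e.span hT h1 hn hU ht (by
    rw [show g * r * g⁻¹ * (g * r * g⁻¹) = g * (r * r) * g⁻¹ by group, r3]; group)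
    ((hU.map hU.inv ht).resolve_right fun c => k (e.cenU hT h1 hn hU ht c u hu))
  have : U = W := le_antisymm hUW fun w hw => by
    obtain ⟨a, ha, b, hb, rfl⟩ := sp w
    rcases hU.map hW ht with d | d
    · rw [d b hb ((add_mem_cancel_left (hUW ha)).1 hw), smul_zero, add_zero]
      exact ha
    · refine absurd (eq_top_iff.2 fun v _ => ?_) hW'
      obtain ⟨a, ha, b, hb, rfl⟩ := sp v
      exact add_mem (hUW ha) (d b hb)
  exact e.cenU hT h1 hn (this ▸ hU) hs h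

theorem sq {s : H} (hs : s ∈ T) {w : V} (h0 : w ≠ 0) (hw : s • w = w) : s * s = 1 := by
  let f : V →+ V := AddMonoidHom.id V + DistribMulAction.toAddMonoidHom V s
  have hf : ∀ v, f v = v + s • v := fun _ => rfl
  have k := e.key hT h1 hn (W := f.range) (by
      rintro d hd _ ⟨v, rfl⟩
      exact ⟨d • v, by rw [hf, hf, smul_add, dd_smul hd hs]⟩)
    (fun c => h0 ((injective_iff_map_eq_zero f).1 (Finite.injective_iff_surjective.2
      (AddMonoidHom.range_eq_top.1 c)) w (by rw [hf, hw, e.two]))) hs (by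
      rintro _ ⟨v, rfl⟩
      exact ⟨s • v, by rw [hf, hf, smul_add]⟩)
  refine e.faith _ fun v => ?_
  have := k _ ⟨v, rfl⟩
  rw [hf, smul_add, add_comm v, add_right_inj] at this
  rw [mul_smul, this]

theorem false_of_ne : False := by
  haveI := e.simple hT
  haveI : Fact (Nat.Prime 2) := ⟨Nat.prime_two⟩
  haveI := e.nontrivial
  obtain ⟨S⟩ : Nonempty (Sylow 2 T) := inferInstance
  obtain ⟨r, r1, r2, r3⟩ := e.invol hT
  have hS : (S : Subgroup T) ≠ ⊥ := S.ne_bot_of_dvd_card (by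
    have : orderOf (⟨r, r1⟩ : T) = 2 := orderOf_eq_prime (Subtype.ext (by simpa [pow_two] using r3))
      fun c => r2 (congrArg Subtype.val c)
    exact this ▸ orderOf_dvd_natCard _)
  obtain ⟨w, hw, h0⟩ := S.isPGroup'.exists_fixed_point_of_prime_dvd_card_of_fixed_point V (a := 0) (by
    obtain ⟨v, hv⟩ := exists_ne (0 : V)
    have : addOrderOf v = 2 := addOrderOf_eq_prime (by rw [two_nsmul, e.two]) hv
    exact this ▸ addOrderOf_dvd_natCard v) fun g => smul_zero g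
  let B : Set H := T.subtype '' (S : Subgroup T)
  have hB : w ∈ fx V B := by
    rintro _ ⟨y, hy, rfl⟩
    exact hw ⟨y, hy⟩
  have sq : ∀ n ∈ normalizer ((S : Subgroup T) : Set T), n * n = 1 := fun n hn' => Subtype.ext
    (e.sq hT h1 hn n.2 h0.symm (e.key hT h1 hn (W := fx V B)
      (fun d hd w hw => smul_mem_fx hw (by
        rintro _ ⟨y, hy, rfl⟩
        exact ⟨y, hy, by rw [mul_assoc, coe_subtype, hd.2 _ y.2, inv_mul_cancel_left]⟩))
      (fun c => hS (eq_bot_iff.2 fun y hy => Subtype.ext (e.faith _ fun v =>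
        (c.ge (AddSubgroup.mem_top v)) _ ⟨y, hy, rfl⟩))) n.2
      (fun w hw => smul_mem_fx hw (by
        rintro _ ⟨y, hy, rfl⟩
        exact ⟨n⁻¹ * y * n, (mem_normalizer_iff''.1 hn' y).1 hy, rfl⟩)) w hB))
  have cm : ∀ a ∈ normalizer ((S : Subgroup T) : Set T), ∀ b ∈ normalizer ((S : Subgroup T) : Set T),
      a * b = b * a := fun a ha b hb => by
    rw [← inv_eq_of_mul_eq_one_right (sq _ (mul_mem ha hb)), mul_inv_rev,
      inv_eq_of_mul_eq_one_right (sq a ha), inv_eq_of_mul_eq_one_right (sq b hb)]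
  have hP : normalizer ((S : Subgroup T) : Set T) ≤ centralizer ((S : Subgroup T) : Set T) :=
    fun n hn' y hy => cm y (le_normalizer hy) n hn'
  have c := MonoidHom.ker_transferSylow_isComplement' S hP
  rcases (MonoidHom.normal_ker (MonoidHom.transferSylow S hP)).eq_bot_or_eq_top with d | d <;>
    rw [d] at c
  · have t := isComplement'_bot_left.1 c
    exact e.ncomm hT fun a b => cm a (le_normalizer (t.ge (mem_top a))) b (le_normalizer (t.ge (mem_top b)))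
  · exact hS (isComplement'_top_left.1 c)

end EM

theorem EP.almost_simple [Finite H] [Finite V] (e : EP H V) : ∃ T : Subgroup H, T.Normal ∧
    IsSimpleGroup T ∧ ¬ IsMulCommutative T ∧ centralizer (T : Set H) = ⊥ := by
  obtain ⟨v, hv⟩ := e.nontrivial.exists_pair_ne
  have h : (⊤ : Subgroup H) ≠ ⊥ := fun c => e.nsol (Group.isSolvable_of_comm fun a b => by
    rw [mem_bot.1 (c.le (mem_top a)), one_mul, mul_one])
  obtain ⟨M, hM⟩ := exists_minN h
  have m : EM V M := ⟨e, ⟨fun y hy g => hM.nm g (mem_top g) y hy⟩, hM.ne,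
    fun K hK l => hM.min K l fun g _ y hy => hK.conj_mem y hy g⟩
  obtain ⟨T, hT⟩ := exists_minN hM.ne
  have n : T.Normal := ⟨fun y hy g => by
    by_contra c
    exact m.false_of_ne hT (hT.cj m.nM g) fun k => c (k.ge hy)⟩
  exact ⟨T, n, m.simple hT, fun c => m.ncomm hT c.is_comm.comm, e.cent n hT.ne⟩

theorem main {G : Type*} [Group G] [Finite G] {Ω : Type*} [MulAction G Ω] [FaithfulSMul G Ω]
    (hsol : ¬ Group.IsSolvable G) (N : Subgroup G) [N.Normal] (hN : N ≠ ⊥) (hNc : IsMulCommutative N)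
    (hr : ∀ ω : Ω, stabilizer N ω = ⊥) (hprim : IsPreprimitive G Ω) (α : Ω) (hH : stabilizer G α ≠ ⊥)
    (hep : ∀ ω : Ω, IsPreprimitive (stabilizer G α) (orbit (stabilizer G α) ω)) :
    2 ∣ Nat.card Ω ∧ ∃ T : Subgroup (stabilizer G α), T.Normal ∧ IsSimpleGroup T ∧
      ¬ IsMulCommutative T ∧ centralizer (T : Set (stabilizer G α)) = ⊥ := by
  have reg : ∀ n ∈ N, n • α = α → n = 1 := fun n hn h =>
    congrArg Subtype.val (mem_bot.1 ((hr α).le (show (⟨n, hn⟩ : N) ∈ stabilizer N α from h)))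
  have inj : ∀ a ∈ N, ∀ b ∈ N, a • α = b • α → a = b := fun a ha b hb h =>
    (inv_mul_eq_one.1 (reg _ (mul_mem (inv_mem hb) ha) (by rw [mul_smul, h, inv_smul_smul]))).symm
  haveI : Nontrivial Ω := by
    obtain ⟨⟨n, hn⟩, h⟩ := ne_bot_iff_exists_ne_one.1 hN
    exact ⟨_, _, fun c => h (Subtype.ext (reg n hn c))⟩
  have co := IsPreprimitive.isCoatom_stabilizer_of_isPreprimitive G α
  have dec : ∀ K : Subgroup G, K ≤ N → K ≠ ⊥ → (∀ h ∈ stabilizer G α, ∀ y ∈ K, h * y * h⁻¹ ∈ K) →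
      ∀ g : G, ∃ k ∈ K, k • α = g • α := fun K h1 h2 h3 g => by
    have h4 : g ∈ ((K ⊔ stabilizer G α : Subgroup G) : Set G) :=
      (co.2 _ (right_lt_sup.2 fun c => h2 (eq_bot_iff.2 fun y hy => reg y (h1 hy) (c hy)))).ge (mem_top g)
    rw [coe_mul_of_right_le_normalizer_left _ _ fun g hg => mem_normalizer_fintype (h3 g hg)] at h4
    obtain ⟨k, hk, s, hs, rfl⟩ := h4
    exact ⟨k, hk, by rw [mul_smul, show s • α = α from hs]⟩
  have tr := dec N le_rfl hN fun h _ y hy => ‹N.Normal›.conj_mem y hy h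
  have tr' : ∀ ω : Ω, ∃ k ∈ N, k • α = ω := fun ω => by
    obtain ⟨g, rfl⟩ := exists_smul_eq G α ω
    exact tr g
  letI : CommGroup N := { (inferInstance : Group N) with mul_comm := hNc.is_comm.comm }
  letI : DistribMulAction (stabilizer G α) (Additive N) :=
    { smul := fun h v => Additive.ofMul (MulAut.conjNormal (h : G) v.toMul)
      one_smul := fun v => show Additive.ofMul (MulAut.conjNormal (1 : G) v.toMul) = v by simp
      mul_smul := fun a b v => show Additive.ofMul (MulAut.conjNormal ((a : G) * b) v.toMul) = _ by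
        rw [map_mul]; rfl
      smul_zero := fun h => congrArg Additive.ofMul (map_one (MulAut.conjNormal (h : G)))
      smul_add := fun h v w => congrArg Additive.ofMul (map_mul (MulAut.conjNormal (h : G)) _ _) }
  have sm : ∀ (h : stabilizer G α) (v : Additive N),
      ((h • v).toMul : G) = h * v.toMul * (h : G)⁻¹ := fun h v => rfl
  have st : ∀ (h : stabilizer G α) (v : Additive N),
      h • v = v ↔ (h : G) • (v.toMul : G) • α = (v.toMul : G) • α := fun h v => by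
    have : (h : G) • (v.toMul : G) • α = ((h • v).toMul : G) • α := by
      rw [sm, mul_smul, mul_smul, show (h : G)⁻¹ • α = α from (inv_mem h.2 : _ ∈ stabilizer G α)]
    rw [this]
    exact ⟨fun c => by rw [c], fun c => Subtype.ext (inj _ (h • v).toMul.2 _ v.toMul.2 c)⟩
  have faith : ∀ h : stabilizer G α, (∀ v : Additive N, h • v = v) → h = 1 := fun h c =>
    Subtype.ext (eq_of_smul_eq_smul fun ω : Ω => by
      obtain ⟨k, hk, rfl⟩ := tr' ω
      exact ((st h (Additive.ofMul ⟨k, hk⟩)).1 (c _)).trans (one_smul _ _).symm)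
  have irr : ∀ W : AddSubgroup (Additive N), (∀ h : stabilizer G α, ∀ w ∈ W, h • w ∈ W) →
      W = ⊥ ∨ W = ⊤ := fun W hW => or_iff_not_imp_left.2 fun c => eq_top_iff.2 fun v _ => by
    obtain ⟨_, ⟨k, hk, rfl⟩, e⟩ := dec ((AddSubgroup.toSubgroup' W).map N.subtype) (map_subtype_le _)
      (fun d => c (eq_bot_iff.2 fun w hw => Subtype.ext (mem_bot.1 (d.le ⟨w.toMul, hw, rfl⟩))))
      (by
        rintro h hh _ ⟨y, hy, rfl⟩
        exact ⟨_, hW ⟨h, hh⟩ _ hy, rfl⟩) v.toMul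
    obtain rfl : k = v.toMul := Subtype.ext (inj _ k.2 _ v.toMul.2 e)
    exact hk
  have e : EP (stabilizer G α) (Additive N) := ⟨faith, irr, fun v hv => by
    haveI := hep ((v.toMul : G) • α)
    haveI : Nontrivial (orbit (stabilizer G α) ((v.toMul : G) • α)) := by
      by_contra n
      rw [not_nontrivial_iff_subsingleton] at n
      have k : v ∈ fx (Additive N) (Set.univ : Set (stabilizer G α)) := fun h _ => (st h v).2
        (congrArg Subtype.val (n.elim ⟨_, mem_orbit _ h⟩ ⟨_, mem_orbit_self _⟩))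
      rcases irr (fx _ Set.univ) fun h w hw => smul_mem_fx hw fun _ _ => trivial with c | c
      · exact hv (AddSubgroup.mem_bot.1 (c.le k))
      · exact hH (eq_bot_iff.2 fun h hh => congrArg Subtype.val (faith ⟨h, hh⟩ fun w =>
          c.ge (AddSubgroup.mem_top w) _ trivial))
    convert IsPreprimitive.isCoatom_stabilizer_of_isPreprimitive (stabilizer G α)
      (⟨_, mem_orbit_self _⟩ : orbit (stabilizer G α) ((v.toMul : G) • α)) using 1
    ext h
    rw [mem_stabilizer_iff, mem_stabilizer_iff, st, Subtype.ext_iff]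
    rfl, fun s => by
    haveI : Group.IsSolvable (G ⧸ N) := solvable_of_surjective
      (f := (QuotientGroup.mk' N).comp (stabilizer G α).subtype) fun q => by
        obtain ⟨g, rfl⟩ := QuotientGroup.mk_surjective q
        obtain ⟨k, hk, c⟩ := tr g
        refine ⟨⟨k⁻¹ * g, by rw [mem_stabilizer_iff, mul_smul, ← c, inv_smul_smul]⟩, ?_⟩
        change ((k⁻¹ * g : G) : G ⧸ N) = g
        rw [QuotientGroup.mk_mul, (QuotientGroup.eq_one_iff _).2 (inv_mem hk), one_mul]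
    exact hsol (solvable_of_ker_le_range N.subtype (QuotientGroup.mk' N) (by simp))⟩
  refine ⟨?_, e.almost_simple⟩
  obtain ⟨w, h0, hw⟩ := e.exists_two
  haveI : Fact (Nat.Prime 2) := ⟨Nat.prime_two⟩
  rw [← Nat.card_eq_of_bijective (fun v : Additive N => (v.toMul : G) • α)
    ⟨fun a b c => Subtype.ext (inj _ a.toMul.2 _ b.toMul.2 c), fun ω =>
      let ⟨k, hk, c⟩ := tr' ω; ⟨Additive.ofMul ⟨k, hk⟩, c⟩⟩,
    ← addOrderOf_eq_prime (p := 2) (by rw [two_nsmul, hw]) h0]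
  exact addOrderOf_dvd_natCard w

end CL.ExPr
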