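import Mathlib
import Cfsg.Agent.PERM.InvTools
import Cfsg.Agent.SPOR.SharpK

/-!
M. Hall's theorem: a 4-transitive group of degree at least 8 whose four-point stabilisers have odd
order is sharply 4-transitive (so of degree 11).
-/

set_option autoImplicit false

namespace CL.Hall4

open MulAction CL.Sharp4 CL.InvT

theorem exists_notMem {Ω : Type*} [Finite Ω] (s : Finset Ω) (h : s.card < Nat.card Ω) :
    ∃ x, x ∉ s := by
  classical
  cases nonempty_fintype Ω
  by_contra hc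
  push Not at hc
  rw [Finset.eq_univ_of_forall hc, Finset.card_univ, Nat.card_eq_fintype_card] at h
  exact lt_irrefl _ h

/-- 4-transitive with four-point stabilisers of odd order, elementwise. -/
structure O4 (G Ω : Type*) [Group G] [MulAction G Ω] : Prop where
  ex : ∀ {a b c d a' b' c' d' : Ω}, D4 a b c d → D4 a' b' c' d' →
    ∃ g : G, g • a = a' ∧ g • b = b' ∧ g • c = c' ∧ g • d = d'
  odd : ∀ {g : G} {a b c d : Ω}, D4 a b c d → g • a = a → g • b = b → g • c = c → g • d = d →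
    Odd (orderOf g)

variable {G Ω : Type*} [Group G] [MulAction G Ω]

theorem inv_smul_inv {x : G} (hx : x * x = 1) (a : Ω) : x • x • a = a := by
  rw [← mul_smul, hx, one_smul]

theorem comm_smul {x y : G} (h : x * y = y * x) (a : Ω) : x • y • a = y • x • a := by
  rw [← mul_smul, h, mul_smul]

namespace O4

variable (H : O4 G Ω)
include H

theorem fix_cases {x : G} (hx : x * x = 1) (hx1 : x ≠ 1) {p q t e : Ω} (hpq : p ≠ q) (hpt : p ≠ t)
    (hqt : q ≠ t) (hp : x • p = p) (hq : x • q = q) (ht : x • t = t) (he : x • e = e) :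
    e = p ∨ e = q ∨ e = t := by
  by_contra h
  push Not at h
  exact hx1 (eq_one_of_odd hx (H.odd ⟨hpq, hpt, h.1.symm, hqt, h.2.1.symm, h.2.2.symm⟩ hp hq ht he))

theorem lift_swap {a b c d : Ω} (h : D4 a b c d) :
    ∃ s : G, s * s = 1 ∧ s • a = b ∧ s • b = a ∧ s • c = c ∧ s • d = d := by
  obtain ⟨h1, h2, h3, h4, h5, h6⟩ := id h
  obtain ⟨g, g1, g2, g3, g4⟩ := H.ex h (show D4 b a c d from ⟨h1.symm, h4, h5, h2, h3, h6⟩)
  obtain ⟨m, hm, hg⟩ := exists_odd_pow (g := g) (H.odd h (by rw [mul_smul, g1, g2])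
    (by rw [mul_smul, g2, g1]) (by rw [mul_smul, g3, g3]) (by rw [mul_smul, g4, g4]))
  exact ⟨g ^ m, hg, by rw [odd_pow_smul (by rw [g1, g2]) hm, g1],
    by rw [odd_pow_smul (by rw [g2, g1]) hm, g2], by rw [odd_pow_smul (by rw [g3, g3]) hm, g3],
    by rw [odd_pow_smul (by rw [g4, g4]) hm, g4]⟩

theorem comm_lift {a b c d : Ω} (h : D4 a b c d) {z : G} (hz : z * z = 1) (z1 : z • a = b)
    (z3 : z • c = d) :
    ∃ s : G, s * s = 1 ∧ s • a = a ∧ s • b = b ∧ s • c = d ∧ s • d = c ∧ z * s = s * z := by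
  have z2 : z • b = a := by rw [← z1, inv_smul_inv hz]
  have z4 : z • d = c := by rw [← z3, inv_smul_inv hz]
  obtain ⟨s, hs, s1, s2, s3, s4⟩ := H.lift_swap h
  have g1 : (s * z) • a = a := by rw [mul_smul, z1, s2]
  have g2 : (s * z) • b = b := by rw [mul_smul, z2, s1]
  have g3 : (s * z) • c = d := by rw [mul_smul, z3, s4]
  have g4 : (s * z) • d = c := by rw [mul_smul, z4, s3]
  obtain ⟨m, hm, hg⟩ := exists_odd_pow (g := s * z) (H.odd h (by rw [mul_smul, g1, g1])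
    (by rw [mul_smul, g2, g2]) (by rw [mul_smul, g3, g4]) (by rw [mul_smul, g4, g3]))
  refine ⟨(s * z) ^ m, hg, by rw [odd_pow_smul (by rw [g1, g1]) hm, g1],
    by rw [odd_pow_smul (by rw [g2, g2]) hm, g2], by rw [odd_pow_smul (by rw [g3, g4]) hm, g3],
    by rw [odd_pow_smul (by rw [g4, g3]) hm, g4], ?_⟩
  have e1 : z * (s * z) * z⁻¹ = (s * z)⁻¹ := by
    rw [mul_inv_rev, inv_eq_of_mul_eq_one_right hs, inv_eq_of_mul_eq_one_right hz, mul_assoc,
      mul_assoc, hz, mul_one]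
  have e2 : z * (s * z) ^ m * z⁻¹ = (s * z) ^ m := by
    rw [← conj_pow, e1, inv_pow, inv_eq_of_mul_eq_one_right hg]
  rw [← mul_inv_eq_iff_eq_mul, e2]

theorem fix_le {x y : G} (hx : x * x = 1) (hx1 : x ≠ 1) (hxy : x * y = y * x) {p q e : Ω}
    (hpq : p ≠ q) (hp : x • p = p) (hq : x • q = q) (hp' : y • p = p ∨ y • p = q)
    (hq' : y • q = p ∨ y • q = q) (hep : e ≠ p) (heq : e ≠ q)
    (he : x • e = e) : y • e = e := by
  have key : ∀ r, r = p ∨ r = q → y • e ≠ r := by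
    intro r hr h
    have h1 : y • p ≠ r := fun h' => hep (MulAction.injective y (h.trans h'.symm))
    have h2 : y • q ≠ r := fun h' => heq (MulAction.injective y (h.trans h'.symm))
    have h3 : y • p ≠ y • q := fun h' => hpq (MulAction.injective y h')
    rcases hr with rfl | rfl <;> rcases hp' with hp' | hp' <;> rcases hq' with hq' | hq' <;>
      simp_all
  rcases H.fix_cases hx hx1 hpq hep.symm heq.symm hp hq he (e := y • e)
    (by rw [comm_smul hxy, he]) with h | h | h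
  · exact absurd h (key _ (Or.inl rfl))
  · exact absurd h (key _ (Or.inr rfl))
  · exact h

theorem fix_le' {x y : G} (hx : x * x = 1) (hx1 : x ≠ 1) (hxy : x * y = y * x) {p q e : Ω}
    (hpq : p ≠ q) (hp : x • p = p) (hq : x • q = q) (hp' : y • p = p) (hq' : y • q = q)
    (he : x • e = e) : y • e = e := by
  by_cases hep : e = p
  · rwa [hep]
  by_cases heq : e = q
  · rwa [heq]
  exact H.fix_le hx hx1 hxy hpq hp hq (Or.inl hp') (Or.inr hq') hep heq he

variable [FaithfulSMul G Ω] [Finite Ω]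

omit H [Finite Ω] in
theorem exists_moved {x : G} (hx : x ≠ 1) : ∃ e : Ω, x • e ≠ e := by
  by_contra h
  push Not at h
  exact hx (eq_of_smul_eq_smul (α := Ω) fun e => by rw [h, one_smul])

theorem exists_out (hn : 8 ≤ Nat.card Ω) {x : G} (hx : x * x = 1) (hx1 : x ≠ 1) {p q : Ω}
    (hpq : p ≠ q) (hp : x • p = p) (hq : x • q = q) (a b c d : Ω) :
    ∃ e, x • e ≠ e ∧ e ≠ a ∧ e ≠ b ∧ e ≠ c ∧ e ≠ d := by
  classical
  have : ∃ t, ∀ e, x • e = e → e = p ∨ e = q ∨ e = t := by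
    by_cases h : ∃ t, p ≠ t ∧ q ≠ t ∧ x • t = t
    · obtain ⟨t, h1, h2, h3⟩ := h
      exact ⟨t, fun e he => H.fix_cases hx hx1 hpq h1 h2 hp hq h3 he⟩
    · push Not at h
      refine ⟨p, fun e he => ?_⟩
      by_contra hc
      push Not at hc
      exact h e hc.1.symm hc.2.1.symm he
  obtain ⟨t, ht⟩ := this
  obtain ⟨e, he⟩ := exists_notMem ({a, b, c, d, p, q, t} : Finset Ω) (by
    have : ({a, b, c, d, p, q, t} : Finset Ω).card ≤ 7 := by
      refine (Finset.card_insert_le _ _).trans (Nat.succ_le_succ ?_)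
      refine (Finset.card_insert_le _ _).trans (Nat.succ_le_succ ?_)
      exact Finset.card_le_five
    omega)
  simp only [Finset.mem_insert, Finset.mem_singleton, not_or] at he
  refine ⟨e, fun h => ?_, he.1, he.2.1, he.2.2.1, he.2.2.2.1⟩
  rcases ht e h with h | h | h
  exacts [he.2.2.2.2.1 h, he.2.2.2.2.2.1 h, he.2.2.2.2.2.2 h]

omit H [FaithfulSMul G Ω] [Finite Ω] in
theorem d4_orbit {x y : G} (hx : x * x = 1) (hy : y * y = 1) (hxy : x * y = y * x) {e : Ω}
    (h1 : x • e ≠ e) (h2 : y • e ≠ e) (h3 : x • y • e ≠ e) : D4 e (x • e) (y • e) (x • y • e) := by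
  refine ⟨h1.symm, h2.symm, h3.symm, fun h => h3 ?_, fun h => h2 ?_, fun h => h1 ?_⟩
  · rw [← h, inv_smul_inv hx]
  · exact (MulAction.injective x h).symm
  · rw [comm_smul hxy] at h
    exact (MulAction.injective y h).symm

/-- A two-point stabiliser has no four-subgroup. -/
theorem no_four (hn : 8 ≤ Nat.card Ω) {x y : G} (hx : x * x = 1) (hy : y * y = 1) (hx1 : x ≠ 1)
    (hy1 : y ≠ 1) (hxy : x * y = y * x) {p q : Ω} (hpq : p ≠ q) (hp : x • p = p) (hq : x • q = q)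
    (hp' : y • p = p) (hq' : y • q = q) : x = y := by
  by_contra hne
  have hw : x * y * (x * y) = 1 := by
    rw [mul_assoc, ← mul_assoc y, ← hxy, mul_assoc, hy, mul_one, hx]
  have hw1 : x * y ≠ 1 := fun h => hne (by
    rw [← mul_one x, ← hy, ← mul_assoc, h, one_mul])
  have fxy : ∀ e : Ω, x • e = e → y • e = e := fun e he =>
    H.fix_le' hx hx1 hxy hpq hp hq hp' hq' he
  obtain ⟨e, he⟩ := exists_moved (Ω := Ω) hx1
  have he2 : y • e ≠ e := fun h => he (H.fix_le' hy hy1 hxy.symm hpq hp' hq' hp hq h)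
  have he3 : x • y • e ≠ e := fun h => he (H.fix_le' hw hw1 (by rw [mul_assoc, ← hxy]) hpq
    (by rw [mul_smul, hp', hp]) (by rw [mul_smul, hq', hq]) hp hq (by rw [mul_smul, h]))
  have hd := d4_orbit hx hy hxy he he2 he3
  obtain ⟨s, hs, s1, s2, s3, s4, hxs⟩ := H.comm_lift hd hx rfl rfl
  have hs1 : s ≠ 1 := by
    rintro rfl
    exact hd.2.2.2.2.2 (by rw [← s3, one_smul])
  obtain ⟨f, f0, f1, f2, f3, f4⟩ := H.exists_out hn hx hx1 hpq hp hq e (x • e) (y • e) (x • y • e)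
  have hsf : s • f ≠ f := fun h => f0 (H.fix_le hs hs1 hxs.symm he.symm s1 s2 (Or.inr rfl)
    (Or.inl (inv_smul_inv hx e)) f1 f2 h)
  have hv : s * x * (s * x) = 1 := by
    rw [mul_assoc, ← mul_assoc x, hxs, mul_assoc, hx, mul_one, hs]
  have hv1 : s * x ≠ 1 := fun h => he (by
    have : (s * x) • e = e := by rw [h, one_smul]
    rwa [mul_smul, s2] at this)
  have hsxf : s • x • f ≠ f := fun h => f0 (H.fix_le hv hv1 (by rw [mul_assoc, hx, ← mul_assoc, hxs,
      mul_assoc, hx]) hd.2.2.2.2.2 (by rw [mul_smul, s4]) (by rw [mul_smul, inv_smul_inv hx, s3])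
      (Or.inr rfl) (Or.inl (inv_smul_inv hx _)) f3 f4 (by rw [mul_smul, h]))
  have hd' := d4_orbit hs hx hxs.symm hsf f0 hsxf
  obtain ⟨g, g1, g2, g3, g4⟩ := H.ex hd hd'
  have hx' : g * x * g⁻¹ * (g * x * g⁻¹) = 1 := by
    calc g * x * g⁻¹ * (g * x * g⁻¹) = g * (x * x) * g⁻¹ := by group
      _ = 1 := by rw [hx]; group
  have c1 : ∀ (k w : G) (a : Ω), (k * w * k⁻¹) • k • a = k • w • a := fun k w a => by
    rw [mul_smul, mul_smul, inv_smul_smul]
  have k1 : (s * (g * x * g⁻¹)) • f = f := by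
    rw [mul_smul]; nth_rw 1 [← g1]; rw [c1, g2, inv_smul_inv hs]
  have k2 : (s * (g * x * g⁻¹)) • s • f = s • f := by
    rw [mul_smul]; nth_rw 1 [← g2]; rw [c1, inv_smul_inv hx, g1]
  have k3 : (s * (g * x * g⁻¹)) • x • f = x • f := by
    rw [mul_smul]; nth_rw 1 [← g3]; rw [c1, g4, inv_smul_inv hs]
  have k4 : (s * (g * x * g⁻¹)) • s • x • f = s • x • f := by
    rw [mul_smul]; nth_rw 1 [← g4]; rw [c1, inv_smul_inv hx, g3]
  obtain ⟨k, hk⟩ := exists_conj hs hx' (H.odd hd' k1 k2 k3 k4)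
  have pw : ∀ a : Ω, (s * (g * x * g⁻¹)) • a = a → (s * (g * x * g⁻¹)) ^ k • a = a :=
    fun a ha => (stabilizer G a).pow_mem ha k
  set g' := (s * (g * x * g⁻¹)) ^ k * g with hg'
  have e0 : g' * x * g'⁻¹ = s := by rw [← hk, hg']; nth_rw 3 [← hk]; rw [hk]; group
  have e1 : g' • e = f := by rw [hg', mul_smul, g1, pw _ k1]
  have e2 : g' • x • e = s • f := by rw [hg', mul_smul, g2, pw _ k2]
  have e3 : g' • y • e = x • f := by rw [hg', mul_smul, g3, pw _ k3]
  have e4 : g' • x • y • e = s • x • f := by rw [hg', mul_smul, g4, pw _ k4]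
  have fy : ∀ a : Ω, s • a = a → (g' * y * g'⁻¹) • a = a := by
    intro a ha
    rw [← e0, mul_smul, mul_smul, smul_eq_iff_eq_inv_smul] at ha
    rw [mul_smul, mul_smul, fxy _ ha, smul_inv_smul]
  have ho : Odd (orderOf (x * (g' * y * g'⁻¹))) := by
    refine H.odd hd' ?_ ?_ ?_ ?_
    · rw [mul_smul]; nth_rw 1 [← e1]; rw [c1, e3, inv_smul_inv hx]
    · rw [mul_smul]; nth_rw 1 [← e2]; rw [c1, ← comm_smul hxy, e4, comm_smul hxs, inv_smul_inv hx]
    · rw [mul_smul]; nth_rw 1 [← e3]; rw [c1, inv_smul_inv hy, e1]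
    · rw [mul_smul]; nth_rw 1 [← e4]; rw [c1, ← comm_smul hxy, inv_smul_inv hy, e2, comm_smul hxs]
  have := smul_eq_of_odd_of_pair ho (p := e) (q := x • e) (Or.inr (by rw [mul_smul, fy _ s1]))
    (Or.inl (by rw [mul_smul, fy _ s2, inv_smul_inv hx]))
  rw [mul_smul, fy _ s1] at this
  exact he this

theorem ex2 (hn : 4 ≤ Nat.card Ω) {p q a b : Ω} (hpq : p ≠ q) (hap : a ≠ p) (haq : a ≠ q)
    (hbp : b ≠ p) (hbq : b ≠ q) : ∃ g : G, g • p = p ∧ g • q = q ∧ g • a = b := by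
  classical
  obtain ⟨c, hc⟩ := exists_notMem ({p, q, a} : Finset Ω) (Finset.card_le_three.trans_lt hn)
  obtain ⟨d, hd⟩ := exists_notMem ({p, q, b} : Finset Ω) (Finset.card_le_three.trans_lt hn)
  simp only [Finset.mem_insert, Finset.mem_singleton, not_or] at hc hd
  obtain ⟨g, g1, g2, g3, -⟩ := H.ex (show D4 p q a c from
    ⟨hpq, hap.symm, Ne.symm hc.1, haq.symm, Ne.symm hc.2.1, Ne.symm hc.2.2⟩) (show D4 p q b d from
    ⟨hpq, hbp.symm, Ne.symm hd.1, hbq.symm, Ne.symm hd.2.1, Ne.symm hd.2.2⟩)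
  exact ⟨g, g1, g2, g3⟩

/-- The regular abelian normal subgroup of a two-point stabiliser. -/
theorem exists_reg [Finite G] (hn : 8 ≤ Nat.card Ω) {z : G} (hz : z * z = 1) (hz1 : z ≠ 1)
    {p q : Ω} (hpq : p ≠ q) (hp : z • p = p) (hq : z • q = q) :
    ∃ M : Subgroup G, (∀ m ∈ M, m • p = p ∧ m • q = q) ∧
      (∀ g : G, g • p = p → g • q = q → ∀ m ∈ M, g * m * g⁻¹ ∈ M) ∧
      (∀ m ∈ M, Odd (orderOf m)) ∧ (∀ x ∈ M, ∀ y ∈ M, x * y = y * x) ∧
      (∀ a b : Ω, a ≠ p → a ≠ q → b ≠ p → b ≠ q → ∃ m ∈ M, m • a = b) ∧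
      ∀ m ∈ M, ∀ a : Ω, a ≠ p → a ≠ q → m • a = a → m = 1 := by
  classical
  let W : Subgroup G := stabilizer G p ⊓ stabilizer G q
  have moved : ∀ x : G, x ≠ 1 → x • p = p → x • q = q → ∃ a : Ω, D4 p q a (x • a) := by
    intro x hx h1 h2
    obtain ⟨a, ha⟩ := exists_moved (Ω := Ω) hx
    have a1 : p ≠ a := by rintro rfl; exact ha h1
    have a2 : q ≠ a := by rintro rfl; exact ha h2
    exact ⟨a, hpq, a1, fun h => a1 (MulAction.injective x (h1.trans h)), a2,
      fun h => a2 (MulAction.injective x (h2.trans h)), ha.symm⟩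
  rcases central_or_abelian (G := W) (fun x y hx hy hx1 hy1 hxy => Subtype.ext
      (H.no_four hn (congrArg Subtype.val hx) (congrArg Subtype.val hy)
        (fun e => hx1 (Subtype.ext e)) (fun e => hy1 (Subtype.ext e)) (congrArg Subtype.val hxy)
        hpq x.2.1 x.2.2 y.2.1 y.2.2)) (a := ⟨z, hp, hq⟩) (Subtype.ext hz)
      (fun e => hz1 (congrArg Subtype.val e)) with h | ⟨M, hM, hM1, hodd, hcomm⟩
  · exfalso
    obtain ⟨a, ha⟩ := moved z hz1 hp hq
    obtain ⟨b, hb⟩ := exists_notMem ({p, q, a, z • a} : Finset Ω)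
      (Finset.card_le_four.trans_lt (by omega))
    simp only [Finset.mem_insert, Finset.mem_singleton, not_or] at hb
    obtain ⟨g, g1, g2, g3, g4⟩ := H.ex ha (show D4 p q a b from
      ⟨hpq, ha.2.1, Ne.symm hb.1, ha.2.2.2.1, Ne.symm hb.2.1, Ne.symm hb.2.2.1⟩)
    have := comm_smul (congrArg Subtype.val (h ⟨g, g1, g2⟩) : z * g = g * z) a
    rw [g3, g4] at this
    exact hb.2.2.2 this.symm
  · have hnorm : ∀ g : G, g • p = p → g • q = q → ∀ m ∈ M.map W.subtype,
        g * m * g⁻¹ ∈ M.map W.subtype := by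
      rintro g g1 g2 _ ⟨m, hm, rfl⟩
      exact ⟨_, hM.conj_mem m hm ⟨g, g1, g2⟩, rfl⟩
    have hfix : ∀ m ∈ M.map W.subtype, m • p = p ∧ m • q = q := by
      rintro _ ⟨m, -, rfl⟩
      exact m.2
    have hc : ∀ x ∈ M.map W.subtype, ∀ y ∈ M.map W.subtype, x * y = y * x := by
      rintro _ ⟨x, hx, rfl⟩ _ ⟨y, hy, rfl⟩
      exact congrArg Subtype.val (hcomm x hx y hy)
    have htr : ∀ a b : Ω, a ≠ p → a ≠ q → b ≠ p → b ≠ q → ∃ m ∈ M.map W.subtype, m • a = b := by
      intro a b a1 a2 b1 b2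
      by_cases hab : a = b
      · exact ⟨1, one_mem _, by rw [one_smul, hab]⟩
      obtain ⟨⟨m, hm⟩, hm1⟩ := Subgroup.ne_bot_iff_exists_ne_one.1 hM1
      obtain ⟨c, hc⟩ := moved m.1 (fun e => hm1 (Subtype.ext (Subtype.ext e))) m.2.1 m.2.2
      obtain ⟨g, g1, g2, g3, g4⟩ := H.ex hc (show D4 p q a b from
        ⟨hpq, a1.symm, b1.symm, a2.symm, b2.symm, hab⟩)
      refine ⟨_, hnorm g g1 g2 m.1 ⟨m, hm, rfl⟩, ?_⟩
      rw [← g3, mul_smul, mul_smul, inv_smul_smul, g4]
    refine ⟨M.map W.subtype, hfix, hnorm, ?_, hc, htr, ?_⟩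
    · rintro _ ⟨m, hm, rfl⟩
      refine hodd.of_dvd_nat ?_
      rw [Subgroup.coe_subtype, Subgroup.orderOf_coe]
      exact Subgroup.orderOf_dvd_natCard M hm
    · intro m hm a a1 a2 ha
      refine eq_of_smul_eq_smul (α := Ω) fun b => ?_
      rw [one_smul]
      by_cases b1 : b = p
      · rw [b1, (hfix m hm).1]
      by_cases b2 : b = q
      · rw [b2, (hfix m hm).2]
      obtain ⟨k, hk, rfl⟩ := htr a b a1 a2 b1 b2
      rw [comm_smul (hc m hm k hk), ha]

theorem third [Finite G] (hn : 8 ≤ Nat.card Ω) {z : G} (hz : z * z = 1) (hz1 : z ≠ 1)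
    {p q : Ω} (hpq : p ≠ q) (hp : z • p = p) (hq : z • q = q) :
    ∃ t, p ≠ t ∧ q ≠ t ∧ z • t = t := by
  obtain ⟨M, hfix, hnorm, hodd, hc, htr, hreg⟩ := H.exists_reg hn hz hz1 hpq hp hq
  obtain ⟨a, ha⟩ := exists_moved (Ω := Ω) hz1
  have a1 : a ≠ p := by rintro rfl; exact ha hp
  have a2 : a ≠ q := by rintro rfl; exact ha hq
  obtain ⟨m, hm, hma⟩ := htr a (z • a) a1 a2 (fun h => a1 (MulAction.injective z (h.trans hp.symm)))
    (fun h => a2 (MulAction.injective z (h.trans hq.symm)))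
  have zi : z⁻¹ = z := inv_eq_of_mul_eq_one_right hz
  have h1 : (z * m) • a = a := by rw [mul_smul, hma, inv_smul_inv hz]
  have h2 : z * m * (z * m) = 1 := hreg _ (by
    have := M.mul_mem (hnorm z hp hq m hm) hm
    rwa [zi, mul_assoc] at this) a a1 a2 (by rw [mul_smul, h1, h1])
  have h3 : z * (z * m) = m := by rw [← mul_assoc, hz, one_mul]
  obtain ⟨k, hk⟩ := exists_conj hz h2 (by rw [h3]; exact hodd m hm)
  rw [h3] at hk
  have h4 := hfix _ (M.pow_mem hm k)
  refine ⟨m ^ k • a, fun h => a1 (MulAction.injective (m ^ k) (h.symm.trans h4.1.symm)),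
    fun h => a2 (MulAction.injective (m ^ k) (h.symm.trans h4.2.symm)), ?_⟩
  nth_rw 1 [← hk]
  rw [mul_smul, mul_smul, inv_smul_smul, h1]

theorem central [Finite G] (hn : 8 ≤ Nat.card Ω) {z : G} (hz : z * z = 1) (hz1 : z ≠ 1)
    {p q t : Ω} (hpq : p ≠ q) (hpt : p ≠ t) (hqt : q ≠ t) (hp : z • p = p) (hq : z • q = q)
    (ht : z • t = t) {g : G} (gp : g • p = p) (gq : g • q = q) (gt : g • t = t) :
    g * z = z * g := by
  obtain ⟨M, hfix, hnorm, hodd, hc, htr, hreg⟩ := H.exists_reg hn hz hz1 hpq hp hq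
  have zi : z⁻¹ = z := inv_eq_of_mul_eq_one_right hz
  have inv : ∀ m ∈ M, z * m = m⁻¹ * z := by
    intro m hm
    have h1 : z * m * z ∈ M := by
      have := hnorm z hp hq m hm
      rwa [zi] at this
    have h2 : z * (m * (z * m * z)) = m * (z * m * z) * z := by
      calc z * (m * (z * m * z)) = z * m * z * m * z := by group
        _ = m * (z * m * z) * z := by rw [hc m hm _ h1]
    have h3 := M.mul_mem hm h1
    have h4 : m * (z * m * z) = 1 := by
      refine hreg _ h3 t hpt.symm hqt.symm ?_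
      rcases H.fix_cases hz hz1 hpq hpt hqt hp hq ht (e := (m * (z * m * z)) • t)
        (by rw [comm_smul h2, ht]) with h | h | h
      · exact absurd (MulAction.injective _ (h.trans (hfix _ h3).1.symm)) hpt.symm
      · exact absurd (MulAction.injective _ (h.trans (hfix _ h3).2.symm)) hqt.symm
      · exact h
    calc z * m = m⁻¹ * (m * (z * m * z)) * z⁻¹ := by group
      _ = _ := by rw [h4, zi, mul_one]
  refine eq_of_smul_eq_smul (α := Ω) fun b => ?_
  by_cases b1 : b = p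
  · rw [b1, mul_smul, mul_smul, hp, gp, hp]
  by_cases b2 : b = q
  · rw [b2, mul_smul, mul_smul, hq, gq, hq]
  obtain ⟨m, hm, rfl⟩ := htr t b hpt.symm hqt.symm b1 b2
  have gt' : g⁻¹ • t = t := by rw [inv_smul_eq_iff, gt]
  calc (g * z) • m • t = (g * (z * m)) • t := by simp only [mul_smul]
    _ = (g * m⁻¹) • t := by rw [inv m hm]; simp only [mul_smul, ht]
    _ = ((g * m * g⁻¹)⁻¹ * z) • t := by simp only [mul_inv_rev, inv_inv, mul_smul, ht, gt']
    _ = (z * g) • m • t := by rw [← inv _ (hnorm g gp gq m hm)]; simp only [mul_smul, gt']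

/-- **Hall's theorem**, main case. -/
theorem sharp [Finite G] (hn : 8 ≤ Nat.card Ω) : S4 G Ω := by
  refine ⟨H.ex, fun {h p q t a} hd hp hq ht ha => ?_⟩
  obtain ⟨hpq, hpt, hpa, hqt, hqa, hta⟩ := id hd
  have ho := H.odd hd hp hq ht ha
  obtain ⟨z, hz, hz1, zp, zq, zt⟩ : ∃ z : G, z * z = 1 ∧ z ≠ 1 ∧ z • p = p ∧ z • q = q ∧
      z • t = t := by
    obtain ⟨s, hs, s1, -, s3, s4⟩ := H.lift_swap (show D4 t a p q from
      ⟨hta, hpt.symm, hqt.symm, hpa.symm, hqa.symm, hpq⟩)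
    have hs1 : s ≠ 1 := by
      rintro rfl
      exact hta (by rw [← s1, one_smul])
    obtain ⟨u, u1, u2, u3⟩ := H.third hn hs hs1 hpq s3 s4
    obtain ⟨g, g1, g2, g3⟩ := H.ex2 (by omega) hpq u1.symm u2.symm hpt.symm hqt.symm
    refine ⟨g * s * g⁻¹, ?_, by simpa using hs1, ?_, ?_, ?_⟩
    · calc g * s * g⁻¹ * (g * s * g⁻¹) = g * (s * s) * g⁻¹ := by group
        _ = 1 := by rw [hs]; group
    · nth_rw 1 [← g1]; rw [mul_smul, mul_smul, inv_smul_smul, s3, g1]
    · nth_rw 1 [← g2]; rw [mul_smul, mul_smul, inv_smul_smul, s4, g2]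
    · rw [← g3, mul_smul, mul_smul, inv_smul_smul, u3]
  have fz : ∀ e, z • e = e → e = p ∨ e = q ∨ e = t := fun e he =>
    H.fix_cases hz hz1 hpq hpt hqt zp zq zt he
  have hfz : ∀ e, z • e = e → h • e = e := fun e he => by
    rcases fz e he with rfl | rfl | rfl <;> assumption
  have hhz := H.central hn hz hz1 hpq hpt hqt zp zq zt hp hq ht
  have hab : a ≠ z • a := fun e => by
    rcases fz a e.symm with h | h | h
    exacts [hpa h.symm, hqa h.symm, hta h.symm]
  have hb : h • z • a = z • a := by rw [comm_smul hhz, ha]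
  refine eq_of_smul_eq_smul (α := Ω) fun c => ?_
  rw [one_smul]
  by_cases hc : z • c = c
  · exact hfz c hc
  by_cases hca : c = a
  · rw [hca, ha]
  by_cases hcb : c = z • a
  · rw [hcb, hb]
  have hd' : D4 a (z • a) c (z • c) :=
    ⟨hab, Ne.symm hca, fun e => hcb (by rw [e, inv_smul_inv hz]), Ne.symm hcb,
      fun e => hca (MulAction.injective z e).symm, Ne.symm hc⟩
  obtain ⟨s, hs, s1, s2, s3, s4, hzs⟩ := H.comm_lift hd' hz rfl rfl
  have hs1 : s ≠ 1 := by
    rintro rfl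
    exact hc (by rw [← s3, one_smul])
  obtain ⟨u, u1, u2, u3⟩ := H.third hn hs hs1 hab s1 s2
  have zu : z • u = u := H.fix_le hs hs1 hzs.symm hab s1 s2 (Or.inr rfl)
    (Or.inl (inv_smul_inv hz a)) u1.symm u2.symm u3
  have hu := hfz u zu
  have hhs := H.central hn hs hs1 hab u1 u2 s1 s2 u3 ha hb hu
  have hv : s * z * (s * z) = 1 := by
    rw [mul_assoc, ← mul_assoc z, hzs, mul_assoc, hz, mul_one, hs]
  have hv1 : s * z ≠ 1 := fun e => hab (by
    have : (s * z) • a = a := by rw [e, one_smul]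
    rw [mul_smul, s2] at this
    exact this.symm)
  have hhv : s * z * h = h * (s * z) := by
    rw [mul_assoc, ← hhz, ← mul_assoc, ← hhs, mul_assoc]
  have v1 : (s * z) • c = c := by rw [mul_smul, s4]
  have v2 : (s * z) • z • c = z • c := by rw [mul_smul, inv_smul_inv hz, s3]
  have v3 : (s * z) • u = u := by rw [mul_smul, zu, u3]
  have cu : c ≠ u := by rintro rfl; exact hc zu
  have du : z • c ≠ u := fun e => cu (MulAction.injective z (e.trans zu.symm))
  have key : ∀ e, (s * z) • e = e → e ≠ u → h • e = c ∨ h • e = z • c := by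
    intro e he eu
    rcases H.fix_cases hv hv1 (Ne.symm hc) cu du v1 v2 v3 (e := h • e)
      (by rw [comm_smul hhv, he]) with h' | h' | h'
    · exact Or.inl h'
    · exact Or.inr h'
    · exact absurd (MulAction.injective h (h'.trans hu.symm)) eu
  exact smul_eq_of_odd_of_pair ho (key c v1 cu) (key _ v2 du)

end O4

end CL.Hall4
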