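import Mathlib
import Cfsg.Agent.PERM.Hall4

/-!
`k`-transitive groups (`k ≥ 4`) with `k`-point stabilisers of odd order.
-/

set_option autoImplicit false

namespace CL.HallK

open MulAction SubMulAction CL.Sharp4 CL.InvT CL.Hall4 CL.SharpK

variable {G Ω : Type*} [Group G] [MulAction G Ω]

theorem odd_of_inv [Finite G] {g : G} (h : ∀ m : ℕ, g ^ m * g ^ m = 1 → g ^ m = 1) :
    Odd (orderOf g) := by
  by_contra ho
  obtain ⟨m, hm⟩ := Nat.not_odd_iff_even.1 ho
  have h1 := h m (by rw [← pow_add, ← hm, pow_orderOf_eq_one])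
  have h2 := orderOf_pos g
  have := Nat.le_of_dvd (by omega) (orderOf_dvd_of_pow_eq_one h1)
  omega

theorem faithful_fix [FaithfulSMul G Ω] (s : Set Ω) :
    FaithfulSMul (fixingSubgroup G s) (ofFixingSubgroup G s) := by
  refine ⟨fun {g g'} e => Subtype.ext (eq_of_smul_eq_smul (α := Ω) fun a => ?_)⟩
  by_cases ha : a ∈ s
  · rw [(mem_fixingSubgroup_iff G).1 g.2 a ha, (mem_fixingSubgroup_iff G).1 g'.2 a ha]
  · exact congrArg Subtype.val (e ⟨a, ha⟩)

theorem card_fix [Finite Ω] (T : Finset Ω) :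
    Nat.card (ofFixingSubgroup G (T : Set Ω)) + T.card = Nat.card Ω := by
  have h := Set.ncard_add_ncard_compl (T : Set Ω)
  rw [Set.ncard_coe_finset] at h
  rw [← h, add_comm]
  rfl

section four

variable [FaithfulSMul G Ω] [Finite Ω] [Finite G] (H : O4 G Ω)
include H

theorem uniq (hn : 8 ≤ Nat.card Ω) {z w : G} (hz : z * z = 1) (hz1 : z ≠ 1) (hw : w * w = 1)
    (hw1 : w ≠ 1) {p q t : Ω} (hpq : p ≠ q) (hpt : p ≠ t) (hqt : q ≠ t) (hp : z • p = p)
    (hq : z • q = q) (ht : z • t = t) (hp' : w • p = p) (hq' : w • q = q) (ht' : w • t = t) :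
    w = z :=
  H.no_four hn hw hz hw1 hz1 (H.central hn hz hz1 hpq hpt hqt hp hq ht hp' hq' ht') hpq hp' hq'
    hp hq

theorem conj_eq (hn : 8 ≤ Nat.card Ω) {z g : G} (hz : z * z = 1) (hz1 : z ≠ 1)
    {p q t : Ω} (hpq : p ≠ q) (hpt : p ≠ t) (hqt : q ≠ t) (hp : z • p = p)
    (hq : z • q = q) (ht : z • t = t) (hp' : z • g • p = g • p) (hq' : z • g • q = g • q)
    (ht' : z • g • t = g • t) : g * z = z * g := by
  have := uniq H hn hz hz1 (w := g * z * g⁻¹) (by
      calc g * z * g⁻¹ * (g * z * g⁻¹) = g * (z * z) * g⁻¹ := by group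
        _ = 1 := by rw [hz]; group) (by simpa using hz1)
    ((MulAction.injective g).ne hpq) ((MulAction.injective g).ne hpt)
    ((MulAction.injective g).ne hqt) hp' hq' ht'
    (by rw [mul_smul, mul_smul, inv_smul_smul, hp]) (by rw [mul_smul, mul_smul, inv_smul_smul, hq])
    (by rw [mul_smul, mul_smul, inv_smul_smul, ht])
  rwa [mul_inv_eq_iff_eq_mul] at this

theorem petersen (hn : 8 ≤ Nat.card Ω) {z : G} (hz : z * z = 1) (hz1 : z ≠ 1)
    {p q t a : Ω} (hpq : p ≠ q) (hpt : p ≠ t) (hqt : q ≠ t) (hp : z • p = p)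
    (hq : z • q = q) (ht : z • t = t) (ha : z • a ≠ a) :
    ∃ g : G, g • t = a ∧ g • a = t ∧ g • p = p ∧ g • q = q ∧ g • z • a = z • a := by
  have nf : ∀ e, z • e = e → e ≠ a ∧ e ≠ z • a := fun e he =>
    ⟨by rintro rfl; exact ha he, fun h => ha (by
      have := inv_smul_inv hz a
      rw [← h, he] at this
      rw [← h, this])⟩
  obtain ⟨c, c0, c1, c2, -, -⟩ := H.exists_out hn hz hz1 hpq hp hq a (z • a) a a
  have hd' : D4 a (z • a) c (z • c) :=
    ⟨ha.symm, Ne.symm c1, fun e => c2 (by rw [e, inv_smul_inv hz]), Ne.symm c2,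
      fun e => c1 (MulAction.injective z e).symm, Ne.symm c0⟩
  obtain ⟨s, hs, s1, s2, s3, s4, hzs⟩ := H.comm_lift hd' hz rfl rfl
  have hs1 : s ≠ 1 := by
    rintro rfl
    exact c0 (by rw [← s3, one_smul])
  obtain ⟨u, u1, u2, u3⟩ := H.third hn hs hs1 ha.symm s1 s2
  have zu : z • u = u := H.fix_le hs hs1 hzs.symm ha.symm s1 s2 (Or.inr rfl)
    (Or.inl (inv_smul_inv hz a)) u1.symm u2.symm u3
  have hpa := (nf p hp).1
  have hqa := (nf q hq).1
  have hta := (nf t ht).1
  obtain ⟨g, ga, gu, gz⟩ : ∃ g : G, g • a = a ∧ g • u = t ∧ g * z = z * g := by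
    rcases H.fix_cases hz hz1 hpq hpt hqt hp hq ht zu with rfl | rfl | rfl
    · obtain ⟨g, g1, g2, g3, g4⟩ := H.ex (show D4 u q t a from ⟨hpq, hpt, hpa, hqt, hqa, hta⟩)
        (show D4 t q u a from ⟨hqt.symm, hpt.symm, hta, hpq.symm, hqa, hpa⟩)
      exact ⟨g, g4, g1, conj_eq H hn hz hz1 hpq hpt hqt hp hq ht (by rw [g1, ht]) (by rw [g2, hq])
        (by rw [g3, hp])⟩
    · obtain ⟨g, g1, g2, g3, g4⟩ := H.ex (show D4 p u t a from ⟨hpq, hpt, hpa, hqt, hqa, hta⟩)
        (show D4 p t u a from ⟨hpt, hpq, hpa, hqt.symm, hta, hqa⟩)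
      exact ⟨g, g4, g2, conj_eq H hn hz hz1 hpq hpt hqt hp hq ht (by rw [g1, hp]) (by rw [g2, ht])
        (by rw [g3, hq])⟩
    · exact ⟨1, one_smul _ _, one_smul _ _, by rw [one_mul, mul_one]⟩
  have gb : g • z • a = z • a := by rw [comm_smul gz, ga]
  obtain ⟨w, hw, hw1, w1, w2, w3, hzw⟩ : ∃ w : G, w * w = 1 ∧ w ≠ 1 ∧ w • a = a ∧
      w • z • a = z • a ∧ w • t = t ∧ z * w = w * z := by
    refine ⟨g * s * g⁻¹, ?_, by simpa using hs1, ?_, ?_, ?_, ?_⟩
    · calc g * s * g⁻¹ * (g * s * g⁻¹) = g * (s * s) * g⁻¹ := by group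
        _ = 1 := by rw [hs]; group
    · nth_rw 1 [← ga]; rw [mul_smul, mul_smul, inv_smul_smul, s1, ga]
    · nth_rw 1 [← gb]; rw [mul_smul, mul_smul, inv_smul_smul, s2, gb]
    · rw [← gu, mul_smul, mul_smul, inv_smul_smul, u3]
    · calc z * (g * s * g⁻¹) = g * (z * s) * g⁻¹ := by rw [← mul_assoc, ← mul_assoc, ← gz]; group
        _ = g * s * g⁻¹ * (g * z * g⁻¹) := by rw [hzs]; group
        _ = _ := by rw [gz]; group
  have hbt := (nf t ht).2.symm
  have wp : w • p = q := by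
    rcases H.fix_cases hz hz1 hpq hpt hqt hp hq ht (e := w • p)
      (by rw [comm_smul hzw, hp]) with h | h | h
    · rcases H.fix_cases hw hw1 ha.symm hta.symm hbt w1 w2 w3 h with h | h | h
      exacts [absurd h hpa, absurd h (nf p hp).2, absurd h hpt]
    · exact h
    · exact absurd (MulAction.injective w (h.trans w3.symm)) hpt
  obtain ⟨k, k1, k2, k3, k4⟩ := H.ex (show D4 a (z • a) t p from
    ⟨ha.symm, hta.symm, hpa.symm, hbt, (nf p hp).2.symm, hpt.symm⟩) (show D4 t (z • a) a p from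
    ⟨hbt.symm, hta, hpt.symm, ha, (nf p hp).2.symm, hpa.symm⟩)
  have hkw := conj_eq H hn (g := k) hw hw1 ha.symm hta.symm hbt w1 w2 w3 (by rw [k1, w3])
    (by rw [k2, w2]) (by rw [k3, w1])
  exact ⟨k, k3, k1, k4, by rw [← wp, comm_smul hkw, k4], k2⟩

end four

/-- All transpositions of `Δ` are induced. -/
def Ind2 (G : Type*) {Ω : Type*} [Group G] [MulAction G Ω] (Δ : Finset Ω) : Prop :=
  ∀ a ∈ Δ, ∀ b ∈ Δ, a ≠ b →
    ∃ g : G, g • a = b ∧ g • b = a ∧ ∀ x ∈ Δ, x ≠ a → x ≠ b → g • x = x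

/-- All three-cycles of `Δ` are induced. -/
def Ind3 (G : Type*) {Ω : Type*} [Group G] [MulAction G Ω] (Δ : Finset Ω) : Prop :=
  ∀ a ∈ Δ, ∀ b ∈ Δ, ∀ c ∈ Δ, a ≠ b → a ≠ c → b ≠ c →
    ∃ g : G, g • a = b ∧ g • b = c ∧ g • c = a ∧ ∀ x ∈ Δ, x ≠ a → x ≠ b → x ≠ c → g • x = x

theorem Ind2.ind3 {Δ : Finset Ω} (h : Ind2 G Δ) : Ind3 G Δ := by
  intro a ha b hb c hc hab hac hbc
  obtain ⟨g, g1, g2, g3⟩ := h a ha b hb hab
  obtain ⟨k, k1, k2, k3⟩ := h a ha c hc hac
  refine ⟨k * g, ?_, ?_, ?_, fun x hx h1 h2 h3 => ?_⟩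
  · rw [mul_smul, g1, k3 b hb hab.symm hbc]
  · rw [mul_smul, g2, k1]
  · rw [mul_smul, g3 c hc hac.symm hbc.symm, k2]
  · rw [mul_smul, g3 x hx h1 h2, k3 x hx h1 h3]

theorem ind2_of_base {Δ : Finset Ω} {a : Ω} (ha : a ∈ Δ) (h : ∀ b ∈ Δ, a ≠ b →
    ∃ g : G, g • a = b ∧ g • b = a ∧ ∀ x ∈ Δ, x ≠ a → x ≠ b → g • x = x) : Ind2 G Δ := by
  intro b hb c hc hbc
  by_cases hab : a = b
  · subst hab
    exact h c hc hbc
  by_cases hac : a = c
  · subst hac
    obtain ⟨g, g1, g2, g3⟩ := h b hb hab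
    exact ⟨g, g2, g1, fun x hx h1 h2 => g3 x hx h2 h1⟩
  obtain ⟨g, g1, g2, g3⟩ := h b hb hab
  obtain ⟨k, k1, k2, k3⟩ := h c hc hac
  refine ⟨g * k * g, ?_, ?_, fun x hx h1 h2 => ?_⟩
  · rw [mul_smul, mul_smul, g2, k1, g3 c hc (Ne.symm hac) hbc.symm]
  · rw [mul_smul, mul_smul, g3 c hc (Ne.symm hac) hbc.symm, k2, g1]
  · by_cases hx' : x = a
    · rw [hx', mul_smul, mul_smul, g1, k3 b hb (Ne.symm hab) hbc, g2]
    · rw [mul_smul, mul_smul, g3 x hx hx' h1, k3 x hx hx' h2, g3 x hx hx' h1]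

/-- The permutations of `Δ` induced by `G`. -/
def indSub (G : Type*) {Ω : Type*} [Group G] [MulAction G Ω] (Δ : Finset Ω) :
    Subgroup (Equiv.Perm Δ) where
  carrier := {σ | ∃ g : G, ∀ x : Δ, g • (x : Ω) = σ x}
  one_mem' := ⟨1, fun x => one_smul _ _⟩
  mul_mem' := by
    rintro σ τ ⟨g, hg⟩ ⟨k, hk⟩
    exact ⟨g * k, fun x => by rw [mul_smul, hk, hg, Equiv.Perm.mul_apply]⟩
  inv_mem' := by
    rintro σ ⟨g, hg⟩
    exact ⟨g⁻¹, fun x => by rw [inv_smul_eq_iff, hg]; simp⟩

theorem Ind3.alt_le [DecidableEq Ω] {Δ : Finset Ω} (h : Ind3 G Δ) :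
    alternatingGroup Δ ≤ indSub G Δ := by
  rw [← Equiv.Perm.closure_three_cycles_eq_alternating, Subgroup.closure_le]
  intro σ hσ
  obtain ⟨a, ha⟩ := hσ.isCycle.nonempty_support
  have h1 := hσ.support_eq_iff_mem_support.2 ha
  have h2 := hσ.nodup_iff_mem_support.2 ha
  simp only [List.nodup_cons, List.mem_cons, List.not_mem_nil, or_false, not_or] at h2
  have h3 : σ (σ (σ a)) = a := by
    have := pow_orderOf_eq_one σ
    rw [hσ.orderOf] at this
    have := congrArg (fun τ : Equiv.Perm Δ => τ a) this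
    simpa [pow_succ] using this
  obtain ⟨g, g1, g2, g3, g4⟩ := h a a.2 (σ a) (σ a).2 (σ (σ a)) (σ (σ a)).2
    (fun e => h2.1.1 (Subtype.ext e)) (fun e => h2.1.2 (Subtype.ext e))
    (fun e => h2.2.1 (Subtype.ext e))
  refine ⟨g, fun x => ?_⟩
  by_cases hx : x ∈ σ.support
  · rw [h1] at hx
    simp only [Finset.mem_insert, Finset.mem_singleton] at hx
    rcases hx with rfl | rfl | rfl
    · exact g1
    · exact g2
    · rw [g3, h3]
  · have hx' := hx
    rw [h1] at hx'
    simp only [Finset.mem_insert, Finset.mem_singleton, not_or] at hx'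
    rw [g4 x x.2 (fun e => hx'.1 (Subtype.ext e)) (fun e => hx'.2.1 (Subtype.ext e))
      (fun e => hx'.2.2 (Subtype.ext e)), Equiv.Perm.notMem_support.1 hx]

theorem ind3_of_large [Finite Ω] (h : IsMultiplyPretransitive G Ω (Nat.card Ω - 2))
    (Δ : Finset Ω) : Ind3 G Δ := by
  classical
  cases nonempty_fintype Ω
  intro a _ b _ c _ hab hac hbc
  have h' : IsMultiplyPretransitive (toPermHom G Ω).range Ω (Nat.card Ω - 2) := ⟨fun x y => by
    obtain ⟨g, hg⟩ := h.exists_smul_eq x y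
    exact ⟨⟨_, g, rfl⟩, hg⟩⟩
  obtain ⟨g, hg⟩ := IsMultiplyPretransitive.alternatingGroup_le _ _ h'
    (Equiv.Perm.isThreeCycle_swap_mul_swap_same hac hab hbc.symm).mem_alternatingGroup
  have hg' : ∀ x, g • x = Equiv.swap a c (Equiv.swap a b x) := fun x => DFunLike.congr_fun hg x
  refine ⟨g, ?_, ?_, ?_, fun x _ h1 h2 h3 => ?_⟩
  · rw [hg', Equiv.swap_apply_left, Equiv.swap_apply_of_ne_of_ne hab.symm hbc]
  · rw [hg', Equiv.swap_apply_right, Equiv.swap_apply_left]
  · rw [hg', Equiv.swap_apply_of_ne_of_ne hac.symm hbc.symm, Equiv.swap_apply_right]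
  · rw [hg', Equiv.swap_apply_of_ne_of_ne h1 h2, Equiv.swap_apply_of_ne_of_ne h1 h3]

/-- `k`-transitive and no involution fixes `k` points. -/
structure Ok (G Ω : Type*) [Group G] [MulAction G Ω] (k : ℕ) : Prop where
  trans : IsMultiplyPretransitive G Ω k
  inv : ∀ x : G, x * x = 1 → ∀ S : Finset Ω, S.card = k → (∀ s ∈ S, x • s = s) → x = 1

namespace Ok

variable {k : ℕ} (H : Ok G Ω k) [Finite G]
include H

theorem odd {g : G} (S : Finset Ω) (hS : S.card = k) (hg : ∀ s ∈ S, g • s = s) :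
    Odd (orderOf g) :=
  odd_of_inv fun m hm => H.inv _ hm S hS fun s hs => (stabilizer G s).pow_mem (hg s hs) m

theorem o4 (T : Finset Ω) (hT : T.card + 4 = k) :
    O4 (fixingSubgroup G (T : Set Ω)) (ofFixingSubgroup G (T : Set Ω)) where
  ex h h' := by
    have := H.trans
    have h4 := ofFixingSubgroup.isMultiplyPretransitive G (T : Set Ω) (m := 4) (n := k)
      (by rw [Set.ncard_coe_finset, hT])
    obtain ⟨g, hg⟩ := h4.exists_smul_eq h.emb h'.emb
    exact ⟨g, DFunLike.congr_fun hg 0, DFunLike.congr_fun hg 1, DFunLike.congr_fun hg 2,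
      DFunLike.congr_fun hg 3⟩
  odd {g a b c d} h h1 h2 h3 h4 := by
    classical
    rw [← Subgroup.orderOf_coe]
    refine H.odd (T ∪ {a.1, b.1, c.1, d.1}) ?_ ?_
    · rw [Finset.card_union_of_disjoint, ← hT]
      · congr 1
        exact Finset.card_eq_four.2 ⟨_, _, _, _, fun e => h.1 (Subtype.ext e),
          fun e => h.2.1 (Subtype.ext e), fun e => h.2.2.1 (Subtype.ext e),
          fun e => h.2.2.2.1 (Subtype.ext e), fun e => h.2.2.2.2.1 (Subtype.ext e),
          fun e => h.2.2.2.2.2 (Subtype.ext e), rfl⟩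
      · rw [Finset.disjoint_right]
        intro x hx
        simp only [Finset.mem_insert, Finset.mem_singleton] at hx
        rcases hx with rfl | rfl | rfl | rfl
        exacts [a.2, b.2, c.2, d.2]
    · intro s hs
      simp only [Finset.mem_union, Finset.mem_insert, Finset.mem_singleton] at hs
      rcases hs with hs | rfl | rfl | rfl | rfl
      exacts [(mem_fixingSubgroup_iff G).1 g.2 s hs, congrArg Subtype.val h1,
        congrArg Subtype.val h2, congrArg Subtype.val h3, congrArg Subtype.val h4]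

variable [FaithfulSMul G Ω] [Finite Ω]

theorem sharp (hk : 4 ≤ k) (hn : k + 4 ≤ Nat.card Ω) : Sharp G Ω k := by
  classical
  refine ⟨H.trans, fun x => ?_⟩
  rw [eq_bot_iff]
  intro g hg
  have hx : ∀ s ∈ Finset.univ.map x, g • s = s := by
    intro s hs
    obtain ⟨i, -, rfl⟩ := Finset.mem_map.1 hs
    exact DFunLike.congr_fun (mem_stabilizer_iff.1 hg) i
  obtain ⟨T, hT, hT'⟩ := Finset.exists_subset_card_eq (s := Finset.univ.map x) (n := k - 4)
    (by simp)
  obtain ⟨a, b, c, d, h1, h2, h3, h4, h5, h6, e⟩ := Finset.card_eq_four.1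
    (show (Finset.univ.map x \ T).card = 4 by
      rw [Finset.card_sdiff_of_subset hT, hT']; simp; omega)
  have m : ∀ y ∈ ({a, b, c, d} : Finset Ω), y ∉ T ∧ g • y = y := fun y hy => by
    rw [← e, Finset.mem_sdiff] at hy
    exact ⟨hy.2, hx y hy.1⟩
  have := faithful_fix (G := G) (T : Set Ω)
  have hc := card_fix (G := G) T
  have := ((H.o4 T (by omega)).sharp (by omega)).uq
    (g := ⟨g, (mem_fixingSubgroup_iff G).2 fun y hy => hx y (hT hy)⟩)
    (a := ⟨a, (m a (by simp)).1⟩) (b := ⟨b, (m b (by simp)).1⟩) (c := ⟨c, (m c (by simp)).1⟩)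
    (d := ⟨d, (m d (by simp)).1⟩)
    ⟨fun e => h1 (congrArg Subtype.val e), fun e => h2 (congrArg Subtype.val e),
      fun e => h3 (congrArg Subtype.val e), fun e => h4 (congrArg Subtype.val e),
      fun e => h5 (congrArg Subtype.val e), fun e => h6 (congrArg Subtype.val e)⟩
    (Subtype.ext (m a (by simp)).2) (Subtype.ext (m b (by simp)).2)
    (Subtype.ext (m c (by simp)).2) (Subtype.ext (m d (by simp)).2)
  exact congrArg Subtype.val this

omit H [Finite G] [FaithfulSMul G Ω] in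
theorem _root_.CL.HallK.sharp_cases (h : Sharp G Ω k) (hk : 4 ≤ k) (hn : k ≤ Nat.card Ω) :
    Nat.card Ω ≤ k + 2 ∨ (k ≤ 5 ∧ Nat.card Ω = k + 7) := by
  obtain rfl | rfl | h6 : k = 4 ∨ k = 5 ∨ 6 ≤ k := by omega
  · have := h.four hn; omega
  · have := h.five hn; omega
  · obtain ⟨j, rfl⟩ := Nat.exists_eq_add_of_le' h6
    have := Sharp.large j h hn; omega

theorem exists_inv (hk : 4 ≤ k) (hn : k + 4 ≤ Nat.card Ω) :
    ∃ z : G, z * z = 1 ∧ z ≠ 1 ∧ ∃ S : Finset Ω, S.card + 1 = k ∧ ∀ s ∈ S, z • s = s := by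
  classical
  cases nonempty_fintype Ω
  obtain ⟨T, -, hT⟩ := Finset.exists_subset_card_eq (s := (Finset.univ : Finset Ω)) (n := k - 4)
    (by rw [Finset.card_univ, ← Nat.card_eq_fintype_card]; omega)
  have := faithful_fix (G := G) (T : Set Ω)
  have hc := card_fix (G := G) T
  have H4 := H.o4 T (by omega)
  have := Fintype.ofFinite (ofFixingSubgroup G (T : Set Ω))
  obtain ⟨U, -, hU⟩ := Finset.exists_subset_card_eq
    (s := (Finset.univ : Finset (ofFixingSubgroup G (T : Set Ω)))) (n := 4)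
    (by rw [Finset.card_univ, ← Nat.card_eq_fintype_card]; omega)
  obtain ⟨a, b, p, q, h1, h2, h3, h4, h5, h6, -⟩ := Finset.card_eq_four.1 hU
  obtain ⟨z, hz, z1, -, z3, z4⟩ := H4.lift_swap ⟨h1, h2, h3, h4, h5, h6⟩
  have hz1 : z ≠ 1 := by
    rintro rfl
    exact h1 (by rw [← z1, one_smul])
  obtain ⟨t, t1, t2, t3⟩ := H4.third (by omega) hz hz1 h6 z3 z4
  refine ⟨z, congrArg Subtype.val hz, fun e => hz1 (Subtype.ext e), T ∪ {p.1, q.1, t.1}, ?_, ?_⟩
  · rw [Finset.card_union_of_disjoint, Finset.card_eq_three.2 ⟨_, _, _,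
      fun e => h6 (Subtype.ext e), fun e => t1 (Subtype.ext e), fun e => t2 (Subtype.ext e), rfl⟩]
    · omega
    · rw [Finset.disjoint_right]
      intro x hx
      simp only [Finset.mem_insert, Finset.mem_singleton] at hx
      rcases hx with rfl | rfl | rfl
      exacts [p.2, q.2, t.2]
  · intro s hs
    simp only [Finset.mem_union, Finset.mem_insert, Finset.mem_singleton] at hs
    rcases hs with hs | rfl | rfl | rfl
    exacts [(mem_fixingSubgroup_iff G).1 z.2 s hs, congrArg Subtype.val z3,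
      congrArg Subtype.val z4, congrArg Subtype.val t3]

theorem exists_ind2 (hk : 4 ≤ k) (hn : k + 4 ≤ Nat.card Ω) :
    ∃ Δ : Finset Ω, Δ.card = k + 1 ∧ Ind2 G Δ := by
  classical
  obtain ⟨z, hz, hz1, S, hS, hzS⟩ := H.exists_inv hk hn
  obtain ⟨a, ha⟩ := O4.exists_moved (Ω := Ω) hz1
  have haS : a ∉ S := fun h => ha (hzS a h)
  have hbS : z • a ∉ S := fun h => ha (by
    have := hzS _ h
    rw [inv_smul_inv hz] at this
    exact this.symm)
  refine ⟨insert a (insert (z • a) S), ?_, ind2_of_base (Finset.mem_insert_self _ _) ?_⟩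
  · rw [Finset.card_insert_of_notMem (by simp [haS, ha.symm]), Finset.card_insert_of_notMem hbS, hS]
  intro t ht hat
  simp only [Finset.mem_insert] at ht ⊢
  rcases ht with rfl | rfl | ht
  · exact absurd rfl hat
  · refine ⟨z, rfl, inv_smul_inv hz a, fun x hx h1 h2 => ?_⟩
    rcases hx with rfl | rfl | hx
    exacts [absurd rfl h1, absurd rfl h2, hzS x hx]
  obtain ⟨p, hp, q, hq, hpq⟩ := Finset.one_lt_card.1 (show 1 < (S.erase t).card by
    rw [Finset.card_erase_of_mem ht]; omega)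
  rw [Finset.mem_erase] at hp hq
  set T := S \ {p, q, t} with hTdef
  have hT : T.card + 4 = k := by
    rw [hTdef, Finset.card_sdiff_of_subset (by
      intro x hx
      simp only [Finset.mem_insert, Finset.mem_singleton] at hx
      rcases hx with rfl | rfl | rfl
      exacts [hp.2, hq.2, ht]), Finset.card_eq_three.2 ⟨_, _, _, hpq, hp.1, hq.1, rfl⟩]
    omega
  have := faithful_fix (G := G) (T : Set Ω)
  have hc := card_fix (G := G) T
  have hTS : T ⊆ S := Finset.sdiff_subset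
  obtain ⟨g, g1, g2, g3, g4, g5⟩ := petersen (H.o4 T hT) (by omega)
    (z := ⟨z, (mem_fixingSubgroup_iff G).2 fun y hy => hzS y (hTS hy)⟩) (Subtype.ext hz)
    (fun e => hz1 (congrArg Subtype.val e)) (p := ⟨p, show p ∉ T by simp [hTdef]⟩)
    (q := ⟨q, show q ∉ T by simp [hTdef]⟩) (t := ⟨t, show t ∉ T by simp [hTdef]⟩)
    (a := ⟨a, fun h => haS (hTS h)⟩) (fun e => hpq (congrArg Subtype.val e))
    (fun e => hp.1 (congrArg Subtype.val e)) (fun e => hq.1 (congrArg Subtype.val e))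
    (Subtype.ext (hzS p hp.2)) (Subtype.ext (hzS q hq.2)) (Subtype.ext (hzS t ht))
    (fun e => ha (congrArg Subtype.val e))
  refine ⟨g, congrArg Subtype.val g2, congrArg Subtype.val g1, fun x hx h1 h2 => ?_⟩
  rcases hx with rfl | rfl | hx
  · exact absurd rfl h1
  · exact congrArg Subtype.val g5
  by_cases hxp : x = p
  · rw [hxp]; exact congrArg Subtype.val g3
  by_cases hxq : x = q
  · rw [hxq]; exact congrArg Subtype.val g4
  exact (mem_fixingSubgroup_iff G).1 g.2 x (by simp [hTdef, hx, hxp, hxq, h2])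

theorem succ_of_three (hk : 4 ≤ k) (hn : Nat.card Ω = k + 3) :
    IsMultiplyPretransitive G Ω (k + 1) := by
  classical
  cases nonempty_fintype Ω
  refine CL.Perm.isMultiplyPretransitive_of_forall_card_eq
    (by rw [← Nat.card_eq_fintype_card]; omega) fun T hT a ha b hb => ?_
  by_cases hab : a = b
  · exact ⟨1, fun _ _ => one_smul _ _, by rw [one_smul, hab]⟩
  obtain ⟨h, h1, hh⟩ : ∃ h : G, h ≠ 1 ∧ ∀ t ∈ T, h • t = t := by
    by_contra hc
    push Not at hc
    have hs : Sharp G Ω k := by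
      refine ⟨H.trans, fun x => ?_⟩
      rw [eq_bot_iff]
      intro g hg
      by_contra hg1
      let y : Fin k ↪ Ω := (T.equivFinOfCardEq (by omega)).symm.toEmbedding.trans
        (Function.Embedding.subtype _)
      obtain ⟨u, hu⟩ := H.trans.exists_smul_eq x y
      obtain ⟨t, ht, ht'⟩ := hc (u * g * u⁻¹) (by simpa using hg1)
      obtain ⟨i, hi⟩ := (T.equivFinOfCardEq (n := k) (by omega)).symm.surjective ⟨t, ht⟩
      have e1 : u • x i = t := (DFunLike.congr_fun hu i).trans (congrArg Subtype.val hi)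
      have e2 : g • x i = x i := DFunLike.congr_fun (mem_stabilizer_iff.1 hg) i
      exact ht' (by rw [← e1, mul_smul, mul_smul, inv_smul_smul, e2])
    have := sharp_cases hs hk (by omega)
    omega
  have ho := H.odd T (by omega) hh
  obtain ⟨c, hc⟩ := exists_notMem (insert a (insert b T)) (by
    have := Finset.card_insert_le a (insert b T)
    have := Finset.card_insert_le b T
    omega)
  simp only [Finset.mem_insert, not_or] at hc
  have all : ∀ x, x ∉ T → x = a ∨ x = b ∨ x = c := by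
    intro x hx
    have : insert c (insert a (insert b T)) = Finset.univ := by
      apply Finset.eq_univ_of_card
      rw [Finset.card_insert_of_notMem (by simp [hc]), Finset.card_insert_of_notMem (by
        simp [hab, ha]), Finset.card_insert_of_notMem hb, ← Nat.card_eq_fintype_card]
      omega
    have h2 := this ▸ Finset.mem_univ x
    simp only [Finset.mem_insert] at h2
    tauto
  have out : ∀ x, x ∉ T → h • x ∉ T := fun x hx hx' =>
    hx (by rw [← MulAction.injective h (hh _ hx')]; exact hx')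
  rcases all _ (out a ha) with e | e | e
  · exfalso
    have eb : h • b = b ∨ h • b = c := (all _ (out b hb)).resolve_left fun e' =>
      hab (MulAction.injective h (e.trans e'.symm))
    have ec : h • c = b ∨ h • c = c := (all _ (out c hc.2.2)).resolve_left fun e' =>
      hc.1 (MulAction.injective h (e'.trans e.symm))
    refine h1 (eq_of_smul_eq_smul (α := Ω) fun x => ?_)
    rw [one_smul]
    by_cases hx : x ∈ T
    · exact hh x hx
    rcases all x hx with rfl | rfl | rfl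
    exacts [e, smul_eq_of_odd_of_pair ho eb ec, smul_eq_of_odd_of_pair ho ec.symm eb.symm]
  · exact ⟨h, hh, e⟩
  · refine ⟨h * h, fun t ht => by rw [mul_smul, hh t ht, hh t ht], ?_⟩
    rw [mul_smul, e]
    rcases all _ (out c hc.2.2) with e' | e' | e'
    · exact absurd (e.symm.trans (smul_eq_of_odd_of_pair ho (Or.inr e) (Or.inl e'))) hc.1
    · exact e'
    · exact absurd (MulAction.injective h (e'.trans e.symm)) hc.1

theorem large (hk : 4 ≤ k) (hn : k ≤ Nat.card Ω) (hn' : Nat.card Ω ≤ k + 3) :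
    IsMultiplyPretransitive G Ω (Nat.card Ω - 2) := by
  rcases hn'.lt_or_eq with h | h
  · have := H.trans
    exact isMultiplyPretransitive_of_le (n := k) (by omega) hn
  · rw [h]
    exact H.succ_of_three hk h

theorem exists_ind3 (hk : 4 ≤ k) (hn : k + 1 ≤ Nat.card Ω) :
    ∃ Δ : Finset Ω, Δ.card = k + 1 ∧ Ind3 G Δ := by
  classical
  by_cases h : k + 4 ≤ Nat.card Ω
  · obtain ⟨Δ, h1, h2⟩ := H.exists_ind2 hk h
    exact ⟨Δ, h1, h2.ind3⟩
  · cases nonempty_fintype Ω
    obtain ⟨T, -, hT⟩ := Finset.exists_subset_card_eq (s := (Finset.univ : Finset Ω)) (n := k + 1)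
      (by rw [Finset.card_univ, ← Nat.card_eq_fintype_card]; omega)
    exact ⟨T, hT, ind3_of_large (H.large hk (by omega) (by omega)) T⟩

end Ok

theorem eq_alt {α : Type*} [Fintype α] [DecidableEq α] {G : Subgroup (Equiv.Perm α)}
    (h : IsMultiplyPretransitive G α (Nat.card α - 2)) (hne : G ≠ ⊤) : G = alternatingGroup α := by
  have h1 := IsMultiplyPretransitive.alternatingGroup_le _ G h
  refine le_antisymm (fun g hg => ?_) h1
  by_contra hg'
  apply hne
  rw [eq_top_iff]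
  intro σ _
  rw [Equiv.Perm.mem_alternatingGroup] at hg'
  have hg2 := (Int.units_eq_one_or _).resolve_left hg'
  rcases Int.units_eq_one_or (Equiv.Perm.sign σ) with hσ | hσ
  · exact h1 (Equiv.Perm.mem_alternatingGroup.2 hσ)
  · have : σ * g⁻¹ ∈ alternatingGroup α := by
      rw [Equiv.Perm.mem_alternatingGroup, map_mul, map_inv, hσ, hg2]; simp
    simpa using G.mul_mem (h1 this) hg

end CL.HallK
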