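import Mathlib

/-!
Grids: a set written as `I × Λ`, the symmetric group of `I` acting on the first coordinate.
Local analysis of the conjugates of the alternating group of `I` inside a permutation group in
which centralizers of three-cycles normalize it.
-/

set_option autoImplicit false

namespace CL.Grid

open Equiv Equiv.Perm

section Cyc

variable {I : Type*} [Fintype I] [DecidableEq I]

theorem exists_tc_to (S : Finset I) (hS : 3 ≤ S.card) {d d' : I} (hd : d ∈ S) (hd' : d' ∈ S)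
    (hne : d ≠ d') : ∃ s : Perm I, IsThreeCycle s ∧ s d = d' ∧ ∀ c ∉ S, s c = c := by
  obtain ⟨z, hz⟩ : ((S.erase d).erase d').Nonempty := by
    rw [← Finset.card_pos]
    have := Finset.pred_card_le_card_erase (s := S) (a := d)
    have := Finset.pred_card_le_card_erase (s := S.erase d) (a := d')
    omega
  simp only [Finset.mem_erase] at hz
  obtain ⟨h1, h2, h3⟩ := hz
  refine ⟨swap d z * swap d d', isThreeCycle_swap_mul_swap_same h2.symm hne h1, ?_, fun c hc => ?_⟩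
  · rw [Perm.mul_apply, swap_apply_left, swap_apply_of_ne_of_ne hne.symm h1.symm]
  · have e1 : c ≠ d := fun h => hc (h ▸ hd)
    have e2 : c ≠ d' := fun h => hc (h ▸ hd')
    have e3 : c ≠ z := fun h => hc (h ▸ h3)
    rw [Perm.mul_apply, swap_apply_of_ne_of_ne e1 e2, swap_apply_of_ne_of_ne e1 e3]

theorem exists_tc (S : Finset I) (hS : 3 ≤ S.card) {d : I} (hd : d ∈ S) :
    ∃ s : Perm I, IsThreeCycle s ∧ s d ≠ d ∧ ∀ c ∉ S, s c = c := by
  obtain ⟨z, hz⟩ : (S.erase d).Nonempty := by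
    rw [← Finset.card_pos]
    have := Finset.pred_card_le_card_erase (s := S) (a := d)
    omega
  simp only [Finset.mem_erase] at hz
  obtain ⟨s, h1, h2, h3⟩ := exists_tc_to S hS hd hz.2 hz.1.symm
  exact ⟨s, h1, h2 ▸ hz.1, h3⟩

theorem exists_even_to (S : Finset I) (hS : 3 ≤ S.card) {d d' : I} (hd : d ∈ S) (hd' : d' ∈ S) :
    ∃ s : Perm I, sign s = 1 ∧ s d = d' ∧ ∀ c ∉ S, s c = c := by
  by_cases h : d = d'
  · exact ⟨1, map_one _, h, fun _ _ => rfl⟩
  · obtain ⟨s, h1, h2, h3⟩ := exists_tc_to S hS hd hd' h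
    exact ⟨s, h1.sign, h2, h3⟩

theorem card_compl_ge (J : Finset I) {n : ℕ} (h : J.card + n ≤ Fintype.card I) : n ≤ Jᶜ.card := by
  rw [Finset.card_compl]; omega

theorem exists_tc_fix (J : Finset I) (hJ : J.card + 3 ≤ Fintype.card I) {d : I} (hd : d ∉ J) :
    ∃ s : Perm I, IsThreeCycle s ∧ s d ≠ d ∧ ∀ c ∈ J, s c = c := by
  obtain ⟨s, h1, h2, h3⟩ := exists_tc Jᶜ (card_compl_ge J hJ) (Finset.mem_compl.2 hd)
  exact ⟨s, h1, h2, fun c hc => h3 c (by simpa using hc)⟩

theorem exists_even_fix (J : Finset I) (hJ : J.card + 3 ≤ Fintype.card I) {d d' : I} (hd : d ∉ J)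
    (hd' : d' ∉ J) : ∃ s : Perm I, sign s = 1 ∧ s d = d' ∧ ∀ c ∈ J, s c = c := by
  obtain ⟨s, h1, h2, h3⟩ := exists_even_to Jᶜ (card_compl_ge J hJ) (Finset.mem_compl.2 hd)
    (Finset.mem_compl.2 hd')
  exact ⟨s, h1, h2, fun c hc => h3 c (by simpa using hc)⟩

theorem tc_conj {s : Perm I} (hs : IsThreeCycle s) (ρ : Perm I) : IsThreeCycle (ρ * s * ρ⁻¹) := by
  rw [← card_support_eq_three_iff, card_support_conj, hs.card_support]

theorem exists_even_conj (hm : 5 ≤ Fintype.card I) {s s' : Perm I} (hs : IsThreeCycle s)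
    (hs' : IsThreeCycle s') : ∃ ρ : Perm I, sign ρ = 1 ∧ ρ * s * ρ⁻¹ = s' := by
  obtain ⟨ρ, hρ⟩ := isConj_iff.1 (alternatingGroup.isThreeCycle_isConj (σ := ⟨s, hs.mem_alternatingGroup⟩)
    (τ := ⟨s', hs'.mem_alternatingGroup⟩) (by simpa using hm) hs hs')
  exact ⟨ρ, ρ.2, congrArg Subtype.val hρ⟩

theorem tc_of_cube {a : Perm I} (h1 : a ≠ 1) (h3 : a ^ 3 = 1) : 3 ≤ a.support.card := by
  by_contra h
  have h2 := two_le_card_support_of_ne_one h1
  obtain ⟨x, y, hxy, rfl⟩ := card_support_eq_two.1 (show a.support.card = 2 by omega)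
  rw [pow_succ, sq, swap_mul_self, one_mul] at h3
  exact h1 h3

theorem tc_cube {s : Perm I} (hs : IsThreeCycle s) : s ^ 3 = 1 := hs.orderOf ▸ pow_orderOf_eq_one s

/-- The three-cycles moving two given points generate the alternating group. -/
theorem even_mem_of_tc (N : Subgroup (Perm I)) {a b : I} (hab : a ≠ b)
    (h : ∀ s, IsThreeCycle s → s a ≠ a → s b ≠ b → s ∈ N) {σ : Perm I} (hσ : sign σ = 1) :
    σ ∈ N := by
  have key : ∀ (ρ s : Perm I), ρ ∈ N → ρ * s * ρ⁻¹ ∈ N → s ∈ N := fun ρ s h1 h2 => by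
    have := N.mul_mem (N.mul_mem (N.inv_mem h1) h2) h1
    simpa [mul_assoc] using this
  have three : ∀ x, x ≠ a → x ≠ b → 3 ≤ ({a, b, x} : Finset I).card := fun x h1 h2 => by
    rw [Finset.card_eq_three.2 ⟨a, b, x, hab, h1.symm, h2.symm, rfl⟩]
  have mv : ∀ (ρ : Perm I) (x : I), IsThreeCycle ρ → (∀ c ∉ ({a, b, x} : Finset I), ρ c = c) →
      x ≠ a → x ≠ b → ρ a ≠ a ∧ ρ b ≠ b ∧ ρ x ≠ x := by
    intro ρ x h1 h2 hxa hxb
    have hsub : ρ.support ⊆ {a, b, x} := fun c hc => by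
      by_contra hc'; exact mem_support.1 hc (h2 c hc')
    have heq := Finset.eq_of_subset_of_card_le hsub (by
      rw [h1.card_support]; exact Finset.card_le_three)
    exact ⟨mem_support.1 (heq ▸ by simp), mem_support.1 (heq ▸ by simp),
      mem_support.1 (heq ▸ by simp)⟩
  have h1 : ∀ s, IsThreeCycle s → s a ≠ a → s ∈ N := by
    intro s hs ha
    by_cases hb : s b = b
    · have hxb : s a ≠ b := fun e => hab (s.injective (e.trans hb.symm))
      obtain ⟨ρ, r1, r2, r3⟩ := exists_tc_to {a, b, s a} (three _ ha hxb) (d := a) (d' := b)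
        (by simp) (by simp) hab
      obtain ⟨m1, m2, m3⟩ := mv ρ _ r1 r3 ha hxb
      have hx : ρ (s a) = a := by
        by_contra hx
        have : ρ (s a) ∉ ({a, b, s a} : Finset I) := by
          simp only [Finset.mem_insert, Finset.mem_singleton, not_or]
          exact ⟨hx, fun e => ha (ρ.injective (e.trans r2.symm)), m3⟩
        exact m3 (ρ.injective (r3 _ this))
      refine key ρ s (h ρ r1 m1 m2) (h _ (tc_conj hs ρ) ?_ ?_)
      · intro e
        have e1 : ρ⁻¹ a = s a := by rw [Perm.inv_eq_iff_eq, hx]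
        rw [Perm.mul_apply, Perm.mul_apply, e1] at e
        exact ha (s.injective (ρ.injective (e.trans hx.symm)))
      · intro e
        have e1 : ρ⁻¹ b = a := by rw [Perm.inv_eq_iff_eq, r2]
        rw [Perm.mul_apply, Perm.mul_apply, e1] at e
        exact ha (ρ.injective (e.trans r2.symm))
    · exact h s hs ha hb
  have h2 : ∀ s, IsThreeCycle s → s ∈ N := by
    intro s hs
    by_cases ha : s a = a
    · obtain ⟨x, hx⟩ := hs.isCycle.nonempty_support
      rw [mem_support] at hx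
      have hxa : x ≠ a := fun e => hx (e ▸ ha)
      obtain ⟨ρ, r1, r2, -⟩ := exists_tc_to Finset.univ
        (hs.card_support ▸ Finset.card_le_univ _) (Finset.mem_univ x) (Finset.mem_univ a) hxa
      refine key ρ s (h1 ρ r1 fun e => hxa (ρ.injective (r2.trans e.symm)))
        (h1 _ (tc_conj hs ρ) fun e => ?_)
      have e1 : ρ⁻¹ a = x := by rw [Perm.inv_eq_iff_eq, r2]
      rw [Perm.mul_apply, Perm.mul_apply, e1] at e
      exact hx (ρ.injective (e.trans r2.symm))
    · exact h1 s hs ha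
  have : alternatingGroup I ≤ N := by
    rw [← closure_three_cycles_eq_alternating, Subgroup.closure_le]
    exact h2
  exact this hσ

end Cyc

variable {Ω I Λ : Type*}

theorem iap (u : Perm Ω) (x : Ω) : u⁻¹ (u x) = x := u.symm_apply_apply x

theorem api (u : Perm Ω) (x : Ω) : u (u⁻¹ x) = x := u.apply_symm_apply x

/-- Action of the symmetric group on the first coordinate of a grid. -/
def io (e : Ω ≃ I × Λ) : Perm I →* Perm Ω where
  toFun σ := (e.trans (σ.prodCongr (Equiv.refl Λ))).trans e.symm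
  map_one' := by ext x; simp
  map_mul' σ τ := by ext x; simp [Prod.map]

@[simp] theorem e_io (e : Ω ≃ I × Λ) (σ : Perm I) (x : Ω) :
    e (io e σ x) = (σ (e x).1, (e x).2) := by
  simp [io, Prod.map]

theorem gext (e : Ω ≃ I × Λ) {x y : Ω} (h1 : (e x).1 = (e y).1) (h2 : (e x).2 = (e y).2) :
    x = y := e.injective (Prod.ext h1 h2)

theorem io_fix (e : Ω ≃ I × Λ) {σ : Perm I} {x : Ω} : io e σ x = x ↔ σ (e x).1 = (e x).1 :=
  ⟨fun h => by have := congrArg (fun y => (e y).1) h; simpa using this,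
    fun h => gext e (by simpa using h) (by simp)⟩

theorem io_inj [Nonempty Λ] (e : Ω ≃ I × Λ) : Function.Injective (io e) := by
  intro σ τ h
  ext c
  obtain ⟨f⟩ := ‹Nonempty Λ›
  have := congrArg (fun u : Perm Ω => (e (u (e.symm (c, f)))).1) h
  simpa using this

/-- Translate of a grid. -/
def tr (u : Perm Ω) (e : Ω ≃ I × Λ) : Ω ≃ I × Λ := (u⁻¹ : Perm Ω).trans e

@[simp] theorem tr_apply (u : Perm Ω) (e : Ω ≃ I × Λ) (x : Ω) : tr u e x = e (u⁻¹ x) := rfl

theorem tr_tr (u v : Perm Ω) (e : Ω ≃ I × Λ) : tr u (tr v e) = tr (u * v) e := by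
  ext1 x; simp

theorem tr_one (e : Ω ≃ I × Λ) : tr 1 e = e := by ext1 x; simp

theorem io_tr (u : Perm Ω) (e : Ω ≃ I × Λ) (σ : Perm I) : io (tr u e) σ = u * io e σ * u⁻¹ := by
  ext x
  apply (tr u e).injective
  rw [e_io]; simp

variable [Fintype I] [DecidableEq I]

omit [Fintype I] in
theorem card_rows [Fintype Ω] [Fintype Λ] (e : Ω ≃ I × Λ) (J : Finset I) :
    (Finset.univ.filter fun x => (e x).1 ∈ J).card = J.card * Fintype.card Λ := by
  classical
  rw [← Finset.card_univ (α := Λ), ← Finset.card_product]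
  exact Finset.card_bij (fun x _ => e x) (fun x hx => by simpa using hx)
    (fun x _ y _ h => e.injective h) (fun y hy => ⟨e.symm y, by simpa using hy, by simp⟩)

omit [DecidableEq I] in
theorem card_eq [Fintype Ω] [Fintype Λ] (e : Ω ≃ I × Λ) :
    Fintype.card Ω = Fintype.card I * Fintype.card Λ := by
  rw [Fintype.card_congr e, Fintype.card_prod]

theorem card_support_io [Fintype Ω] [DecidableEq Ω] [Fintype Λ] (e : Ω ≃ I × Λ) (σ : Perm I) :
    (io e σ).support.card = σ.support.card * Fintype.card Λ := by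
  rw [← card_rows e]
  congr 1
  ext x
  simp [io_fix]

/-- `u` conjugates the alternating group of the grid into its symmetric group. -/
def Nrm (e : Ω ≃ I × Λ) (u : Perm Ω) : Prop :=
  ∀ σ : Perm I, sign σ = 1 → ∃ τ, u * io e σ * u⁻¹ = io e τ

/-- `u` centralizes the alternating group of the grid. -/
def Cen (e : Ω ≃ I × Λ) (u : Perm Ω) : Prop :=
  ∀ σ : Perm I, sign σ = 1 → Commute u (io e σ)

theorem Cen.nrm {e : Ω ≃ I × Λ} {u : Perm Ω} (h : Cen e u) : Nrm e u := fun σ hσ =>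
  ⟨σ, by rw [(h σ hσ).eq, mul_inv_cancel_right]⟩

theorem Cen.row {e : Ω ≃ I × Λ} (hm : 4 ≤ Fintype.card I) {u : Perm Ω} (h : Cen e u) (x : Ω) :
    (e (u x)).1 = (e x).1 := by
  by_contra hne
  obtain ⟨s, h1, h2, h3⟩ := exists_tc_fix {(e x).1} (by simpa using hm) (d := (e (u x)).1)
    (by simpa using hne)
  have e1 : io e s x = x := (io_fix e).2 (h3 _ (by simp))
  have e2 := congrArg (fun v : Perm Ω => v x) (h s h1.sign).eq
  simp only [Perm.mul_apply, e1] at e2
  exact h2 ((io_fix e).1 e2.symm)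

theorem Nrm.struct [Nonempty Λ] {e : Ω ≃ I × Λ} (hm : 4 ≤ Fintype.card I) {u : Perm Ω}
    (h : Nrm e u) : ∃ a : Perm I, (∀ x, (e (u x)).1 = a (e x).1) ∧
      ∀ σ, sign σ = 1 → u * io e σ * u⁻¹ = io e (a * σ * a⁻¹) := by
  obtain ⟨f⟩ := ‹Nonempty Λ›
  have h1 : ∀ x y, (e (u x)).1 = (e (u y)).1 → (e x).1 = (e y).1 := by
    intro x y hxy
    by_contra hne
    obtain ⟨s, s1, s2, s3⟩ := exists_tc_fix {(e x).1} (by simpa using hm) (d := (e y).1)
      (by simpa using Ne.symm hne)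
    obtain ⟨τ, hτ⟩ := h s s1.sign
    have e1 : io e τ (u x) = u x := by
      rw [← hτ]; simp [(io_fix e).2 (s3 _ (Finset.mem_singleton_self _))]
    have e2 : io e τ (u y) = u y := (io_fix e).2 (hxy ▸ (io_fix e).1 e1)
    rw [← hτ] at e2
    simp only [Perm.mul_apply, iap, EmbeddingLike.apply_eq_iff_eq] at e2
    exact s2 ((io_fix e).1 e2)
  let ψ : I → I := fun j => (e (u⁻¹ (e.symm (j, f)))).1
  have hψ : ∀ x, ψ (e (u x)).1 = (e x).1 := fun x => h1 _ _ (by simp)
  have hs : Function.Surjective ψ := fun c => ⟨_, by rw [hψ (e.symm (c, f))]; simp⟩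
  let b : Perm I := Equiv.ofBijective ψ (Finite.surjective_iff_bijective.1 hs)
  have ha : ∀ x, (e (u x)).1 = b⁻¹ (e x).1 := fun x => by
    rw [eq_comm, Perm.inv_eq_iff_eq]; exact (hψ x).symm
  refine ⟨b⁻¹, ha, fun σ hσ => ?_⟩
  obtain ⟨τ, hτ⟩ := h σ hσ
  rw [hτ]
  congr 1
  ext c
  have := congrArg (fun v : Perm Ω => (e (v (u (e.symm (b c, f))))).1) hτ
  simp only [Perm.mul_apply, iap, ha, e_io, apply_symm_apply] at this
  simp [← this]

theorem Nrm.inv [Nonempty Λ] {e : Ω ≃ I × Λ} (hm : 4 ≤ Fintype.card I) {u : Perm Ω}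
    (h : Nrm e u) : Nrm e u⁻¹ := by
  obtain ⟨a, -, ha⟩ := h.struct hm
  intro σ hσ
  refine ⟨a⁻¹ * σ * a, ?_⟩
  have := ha (a⁻¹ * σ * a) (by simp [hσ])
  rw [show a * (a⁻¹ * σ * a) * a⁻¹ = σ by group] at this
  rw [← this]; group

variable [Fintype Ω] [DecidableEq Ω] [Fintype Λ] [Nonempty Λ]

theorem Nrm.cases {e : Ω ≃ I × Λ} (hm : 4 ≤ Fintype.card I) {u : Perm Ω}
    (h : Nrm e u) (h3 : u ^ 3 = 1) (hs : u.support.card = 3 * Fintype.card Λ) :
    (∃ a, u = io e a) ∨ Cen e u := by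
  obtain ⟨a, h1, h2⟩ := h.struct hm
  obtain ⟨f⟩ := ‹Nonempty Λ›
  by_cases ha : a = 1
  · refine Or.inr fun σ hσ => ?_
    have := h2 σ hσ
    rw [ha, one_mul, inv_one, mul_one, mul_inv_eq_iff_eq_mul] at this
    exact this
  left
  have ha3 : a ^ 3 = 1 := by
    ext c
    have := congrArg (fun v : Perm Ω => (e (v (e.symm (c, f)))).1) h3
    simpa [pow_succ, h1] using this
  have hsub : (Finset.univ.filter fun x => (e x).1 ∈ a.support) ⊆ u.support := fun x hx => by
    simp only [Finset.mem_filter, Finset.mem_univ, true_and, mem_support] at hx ⊢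
    intro e1
    exact hx (by rw [← h1, e1])
  have hge := tc_of_cube ha ha3
  have hc := Finset.card_le_card hsub
  rw [card_rows, hs] at hc
  have hc3 : a.support.card = 3 :=
    le_antisymm (Nat.le_of_mul_le_mul_right hc Fintype.card_pos) hge
  have heq := Finset.eq_of_subset_of_card_le hsub (by rw [card_rows, hs, hc3])
  obtain ⟨c, hc⟩ : a.supportᶜ.Nonempty := by
    rw [← Finset.card_pos, Finset.card_compl]; omega
  refine ⟨a, Equiv.ext fun x => ?_⟩
  obtain ⟨σ, s1, s2, -⟩ := exists_even_to Finset.univ (by rw [Finset.card_univ]; omega)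
    (Finset.mem_univ c) (Finset.mem_univ (e x).1)
  have hx : x = io e σ (e.symm (c, (e x).2)) := gext e (by simp [s2]) (by simp)
  have hy : u (e.symm (c, (e x).2)) = e.symm (c, (e x).2) := by
    rw [← notMem_support, ← heq]; simpa using hc
  have := congrArg (fun v : Perm Ω => v (u (e.symm (c, (e x).2)))) (h2 σ s1)
  simp only [Perm.mul_apply, iap, ← hx] at this
  rw [this, hy]
  have hac : a⁻¹ c = c := by
    rw [Perm.inv_eq_iff_eq]; exact (notMem_support.1 (Finset.mem_compl.1 hc)).symm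
  exact gext e (by rw [e_io, e_io]; simp only [Perm.mul_apply, apply_symm_apply, hac, s2])
    (by rw [e_io, e_io]; simp only [apply_symm_apply])

omit [Nonempty Λ] in
theorem card_fix_le {e : Ω ≃ I × Λ} (hm : 4 ≤ Fintype.card I) {u : Perm Ω}
    (h : ∀ σ, sign σ = 1 → Cen (tr u e) (io e σ)) : u.supportᶜ.card ≤ Fintype.card Λ := by
  rw [← Finset.card_univ]
  refine Finset.card_le_card_of_injOn (fun x => (e x).2) (fun _ _ => by simp) fun x hx y hy hxy => ?_
  have hx' : u⁻¹ x = x := by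
    rw [Perm.inv_eq_iff_eq]; exact (notMem_support.1 (by simpa using hx)).symm
  have hy' : u⁻¹ y = y := by
    rw [Perm.inv_eq_iff_eq]; exact (notMem_support.1 (by simpa using hy)).symm
  obtain ⟨σ, s1, s2, -⟩ := exists_even_to Finset.univ (by rw [Finset.card_univ]; omega)
    (Finset.mem_univ (e x).1) (Finset.mem_univ (e y).1)
  have e1 : io e σ x = y := gext e (by simp [s2]) (by simpa using hxy)
  have := (h σ s1).row hm x
  rw [e1, tr_apply, tr_apply, hx', hy'] at this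
  exact gext e this.symm hxy

/-- Centralizers of three-cycles normalize the alternating group of the grid. -/
structure Good (X : Subgroup (Perm Ω)) (e : Ω ≃ I × Λ) : Prop where
  mem : ∀ σ, sign σ = 1 → io e σ ∈ X
  nrm : ∀ u ∈ X, ∀ s, IsThreeCycle s → Commute u (io e s) → Nrm e u

omit [Fintype Ω] [DecidableEq Ω] [Fintype Λ] [Nonempty Λ] in
theorem Good.tr {X : Subgroup (Perm Ω)} {e : Ω ≃ I × Λ} (h : Good X e) {y : Perm Ω}
    (hy : y ∈ X) : Good X (tr y e) := by
  refine ⟨fun σ hσ => io_tr y e σ ▸ X.mul_mem (X.mul_mem hy (h.mem σ hσ)) (X.inv_mem hy),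
    fun u hu s hs hc σ hσ => ?_⟩
  obtain ⟨τ, hτ⟩ := h.nrm (y⁻¹ * u * y) (X.mul_mem (X.mul_mem (X.inv_mem hy) hu) hy) s hs (by
    have := hc.eq
    rw [io_tr] at this
    show _ = _
    calc y⁻¹ * u * y * io e s = y⁻¹ * (u * (y * io e s * y⁻¹)) * y := by group
      _ = _ := by rw [this]; group) σ hσ
  exact ⟨τ, by rw [io_tr, io_tr, ← hτ]; group⟩

theorem Good.uniq {X : Subgroup (Perm Ω)} {e : Ω ≃ I × Λ} (h : Good X e)
    (hm : 5 ≤ Fintype.card I) {y : Perm Ω} (hy : y ∈ X) {s a : Perm I} (hs : IsThreeCycle s)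
    (ha : io (CL.Grid.tr y e) s = io e a) : Nrm e y := by
  have h1 := congrArg (fun v : Perm Ω => v.support.card) ha
  simp only [card_support_io, hs.card_support] at h1
  have ha3 : IsThreeCycle a :=
    card_support_eq_three_iff.1 (Nat.eq_of_mul_eq_mul_right Fintype.card_pos h1).symm
  obtain ⟨ρ, r1, r2⟩ := exists_even_conj hm hs ha3
  have hn := h.nrm (y * (io e ρ)⁻¹) (X.mul_mem hy (X.inv_mem (h.mem ρ r1))) a ha3 (by
    rw [io_tr] at ha
    have e1 : io e a = io e ρ * io e s * (io e ρ)⁻¹ := by rw [← r2]; simp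
    show _ = _
    calc y * (io e ρ)⁻¹ * io e a = (y * io e s * y⁻¹) * (y * (io e ρ)⁻¹) := by rw [e1]; group
      _ = _ := by rw [ha])
  intro σ hσ
  obtain ⟨τ, hτ⟩ := hn (ρ * σ * ρ⁻¹) (by simp [hσ])
  exact ⟨τ, by rw [← hτ]; simp [mul_assoc]⟩

theorem Good.pair {X : Subgroup (Perm Ω)} (hm : 5 ≤ Fintype.card I) (n : ℕ) :
    ∀ H : Subgroup (Perm Ω), Nat.card H = n → H ≤ X → IsPGroup 3 H → ∀ e : Ω ≃ I × Λ, Good X e →
      ∀ y ∈ X, ∀ s s' : Perm I, IsThreeCycle s → IsThreeCycle s' → io e s ∈ H →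
        io (CL.Grid.tr y e) s' ∈ H →
        Nrm e y ∨ ∀ σ, sign σ = 1 → Cen (CL.Grid.tr y e) (io e σ) := by
  induction n using Nat.strong_induction_on with
  | _ n ih =>
  intro H hn hHX hH e he y hy s s' hs hs' ht ht'
  have hm4 : 4 ≤ Fintype.card I := by omega
  have : Fact (Nat.Prime 3) := ⟨Nat.prime_three⟩
  set t := io e s with htd
  set t' := io (CL.Grid.tr y e) s' with htd'
  have hsupp : t'.support.card = 3 * Fintype.card Λ := by rw [card_support_io, hs'.card_support]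
  by_cases hz : Subgroup.zpowers (⟨t, ht⟩ : H) = ⊤
  · obtain ⟨k, hk⟩ : (⟨t', ht'⟩ : H) ∈ Subgroup.zpowers (⟨t, ht⟩ : H) := hz ▸ Subgroup.mem_top _
    have := congrArg Subtype.val hk
    exact Or.inl (he.uniq hm hy hs' (a := s ^ k) (by rw [map_zpow]; exact this.symm))
  obtain ⟨K, hK, hle⟩ := (eq_top_or_exists_le_coatom _).resolve_left hz
  have : Group.IsNilpotent H := hH.isNilpotent
  have hKn : K.Normal :=
    Subgroup.NormalizerCondition.normal_of_coatom K Group.normalizerCondition_of_isNilpotent hK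
  have hlt : Nat.card (K.map H.subtype) < n := by
    rw [Subgroup.card_map_of_injective H.subtype_injective, ← hn]
    by_contra hge
    exact hK.1 (Subgroup.eq_top_of_le_card K (not_lt.1 hge))
  have htK : (⟨t, ht⟩ : H) ∈ K := hle (Subgroup.mem_zpowers _)
  have hnrm : Nrm e t' := by
    rcases ih _ hlt _ rfl ((Subgroup.map_subtype_le K).trans hHX)
      (hH.to_subgroup K |>.map _) e he t' (hHX ht') s s hs hs ⟨_, htK, rfl⟩
      ⟨_, hKn.conj_mem _ htK ⟨t', ht'⟩, (io_tr t' e s).symm⟩ with h | h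
    · exact h
    · have := card_fix_le hm4 h
      rw [Finset.card_compl, hsupp, card_eq e] at this
      have h5 := Nat.mul_le_mul_right (Fintype.card Λ) hm
      have := Fintype.card_pos (α := Λ)
      omega
  have he' := he.tr hy
  rcases hnrm.cases hm4 (by rw [htd', ← map_pow, tc_cube hs', map_one]) hsupp with ⟨a, ha⟩ | hc
  · exact Or.inl (he.uniq hm hy hs' ha)
  have hN : ∀ σ, sign σ = 1 → Nrm (CL.Grid.tr y e) (io e σ) := fun σ hσ =>
    he'.nrm _ (he.mem σ hσ) s' hs' (hc σ hσ).symm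
  rcases (hN s hs.sign).cases hm4 (by rw [← map_pow, tc_cube hs, map_one])
    (by rw [card_support_io, hs.card_support]) with ⟨a, ha⟩ | hc'
  · left
    have h1 := he'.uniq hm (X.inv_mem hy) hs (a := a) (by rw [tr_tr, inv_mul_cancel, tr_one, ha])
    have h2 : Nrm e y⁻¹ := fun σ hσ => by
      obtain ⟨τ, hτ⟩ := h1 σ hσ
      rw [io_tr, io_tr] at hτ
      exact ⟨τ, by
        calc _ = y⁻¹ * (y⁻¹ * (y * io e σ * y⁻¹) * y⁻¹⁻¹) * y := by group
          _ = _ := by rw [hτ]; group⟩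
    simpa using h2.inv hm4
  right
  let C : Subgroup (Perm I) :=
    { carrier := {σ | Cen (CL.Grid.tr y e) (io e σ)}
      one_mem' := fun τ _ => by simp
      mul_mem' := fun {a b} h1 h2 τ hτ => by
        rw [map_mul]; exact (h1 τ hτ).mul_left (h2 τ hτ)
      inv_mem' := fun {a} h1 τ hτ => by rw [map_inv]; exact (h1 τ hτ).inv_left }
  have : alternatingGroup I ≤ C := by
    rw [← closure_three_cycles_eq_alternating, Subgroup.closure_le]
    intro s'' hs'' τ hτ
    obtain ⟨ρ, r1, rfl⟩ := exists_even_conj hm hs hs''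
    obtain ⟨a, -, ha⟩ := (hN ρ⁻¹ (by simp [r1])).struct hm4
    have e1 := ha τ hτ
    have e2 := (hc' (a * τ * a⁻¹) (by simp [hτ])).eq
    rw [← e1, map_inv, inv_inv] at e2
    show _ = _
    rw [map_mul, map_mul, map_inv]
    calc _ = io e ρ * (io e s * ((io e ρ)⁻¹ * io (CL.Grid.tr y e) τ * io e ρ)) * (io e ρ)⁻¹ := by
          group
      _ = _ := by rw [e2]; group
  exact fun σ hσ => this hσ

omit [DecidableEq Ω] in
theorem conj_into {p : ℕ} [Fact p.Prime] {Y E F : Subgroup (Perm Ω)} (hE : E ≤ Y) (hF : F ≤ Y)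
    (pE : IsPGroup p E) (pF : IsPGroup p F) : ∃ y ∈ Y, ∃ Q : Subgroup (Perm Ω), Q ≤ Y ∧
      IsPGroup p Q ∧ E ≤ Q ∧ ∀ f ∈ F, y * f * y⁻¹ ∈ Q := by
  obtain ⟨P, hP⟩ := (pE.comap_subtype (K := Y)).exists_le_sylow
  obtain ⟨R, hR⟩ := (pF.comap_subtype (K := Y)).exists_le_sylow
  obtain ⟨y, hy⟩ := MulAction.exists_smul_eq Y R P
  refine ⟨y, y.2, (P : Subgroup Y).map Y.subtype, Subgroup.map_subtype_le _, P.2.map _,
    fun x hx => ⟨⟨x, hE hx⟩, hP hx, rfl⟩, fun f hf => ⟨y * ⟨f, hF hf⟩ * y⁻¹, ?_, rfl⟩⟩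
  rw [← hy, SetLike.mem_coe, Sylow.coe_subgroup_smul, Subgroup.mem_pointwise_smul_iff_inv_smul_mem]
  simpa [mul_assoc] using hR (show (⟨f, hF hf⟩ : Y) ∈ _ from hf)

/-- Lines of the grid are carried to lines of a frame of commuting grids. -/
theorem Good.line {X : Subgroup (Perm Ω)} {e : Ω ≃ I × Λ} (he : Good X e)
    (hm : 5 ≤ Fintype.card I) {K : Type*} (w : K → Perm Ω) (hw : ∀ j, w j ∈ X)
    (hc : ∀ j j', j ≠ j' → ∀ σ, sign σ = 1 → Cen (CL.Grid.tr (w j) e) (io (CL.Grid.tr (w j') e) σ))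
    (hsep : ∀ x y, (∀ j, (CL.Grid.tr (w j) e x).1 = (CL.Grid.tr (w j) e y).1) → x = y)
    {u : Perm Ω} (hu : u ∈ X) {a b : Ω} (hab : (e a).2 = (e b).2) :
    ∃ j, (CL.Grid.tr (w j) e (u a)).2 = (CL.Grid.tr (w j) e (u b)).2 := by
  have : Fact (Nat.Prime 3) := ⟨Nat.prime_three⟩
  have hfix : ∀ g : Ω ≃ I × Λ, ∃ s, IsThreeCycle s ∧ io g s (u a) = u a ∧ io g s (u b) = u b := by
    intro g
    have h2 : ({(g (u a)).1, (g (u b)).1} : Finset I).card ≤ 2 := Finset.card_le_two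
    obtain ⟨d, hd⟩ : ({(g (u a)).1, (g (u b)).1} : Finset I)ᶜ.Nonempty := by
      rw [← Finset.card_pos, Finset.card_compl]; omega
    obtain ⟨s, s1, -, s3⟩ := exists_tc_fix _ (by omega) (Finset.mem_compl.1 hd)
    exact ⟨s, s1, (io_fix g).2 (s3 _ (by simp)), (io_fix g).2 (s3 _ (by simp))⟩
  choose s s1 s2 s3 using hfix
  let Y : Subgroup (Perm Ω) :=
    X ⊓ MulAction.stabilizer (Perm Ω) (u a) ⊓ MulAction.stabilizer (Perm Ω) (u b)
  have hY : ∀ v ∈ X, io (CL.Grid.tr v e) (s (CL.Grid.tr v e)) ∈ Y := fun v hv =>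
    ⟨⟨(he.tr hv).mem _ (s1 _).sign, s2 _⟩, s3 _⟩
  have h3 : ∀ g : Ω ≃ I × Λ, io g (s g) ^ 3 = 1 := fun g => by
    rw [← map_pow, tc_cube (s1 g), map_one]
  let S : Set (Perm Ω) := Set.range fun j => io (CL.Grid.tr (w j) e) (s (CL.Grid.tr (w j) e))
  have hS : ∀ x ∈ S, ∀ y ∈ S, Commute x y := by
    rintro _ ⟨j, rfl⟩ _ ⟨j', rfl⟩
    by_cases h : j = j'
    · subst h; exact Commute.refl _
    · exact (hc j j' h _ (s1 _).sign _ (s1 _).sign).symm
  have hS2 : ∀ x ∈ Subgroup.closure S, ∀ y ∈ Subgroup.closure S, Commute x y := by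
    intro x hx y hy
    refine Subgroup.closure_induction₂ (p := fun x y _ _ => Commute x y) (fun x y h1 h2 => hS x h1 y h2)
      (fun _ _ => Commute.one_left _) (fun _ _ => Commute.one_right _)
      (fun _ _ _ _ _ _ => Commute.mul_left) (fun _ _ _ _ _ _ => Commute.mul_right)
      (fun _ _ _ _ => Commute.inv_left) (fun _ _ _ _ => Commute.inv_right) hx hy
  have pE : IsPGroup 3 (Subgroup.closure S) := by
    rintro ⟨x, hx⟩
    refine ⟨1, Subtype.ext ?_⟩
    show x ^ 3 ^ 1 = 1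
    rw [pow_one]
    induction hx using Subgroup.closure_induction with
    | mem x hx => obtain ⟨j, rfl⟩ := hx; exact h3 _
    | one => simp
    | mul x y hx hy h1 h2 => rw [(hS2 x hx y hy).mul_pow, h1, h2, one_mul]
    | inv x _ h => rw [inv_pow, h, inv_one]
  have pF : IsPGroup 3 (Subgroup.zpowers (io (CL.Grid.tr u e) (s (CL.Grid.tr u e)))) := by
    rintro ⟨_, k, rfl⟩
    refine ⟨1, Subtype.ext ?_⟩
    show (_ ^ k) ^ 3 ^ 1 = 1
    rw [pow_one, ← zpow_natCast, ← zpow_mul, mul_comm, zpow_mul, zpow_natCast, h3, one_zpow]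
  obtain ⟨y, hy, Q, hQ, pQ, hEQ, hFQ⟩ := conj_into (Y := Y)
    ((Subgroup.closure_le _).2 (by rintro _ ⟨j, rfl⟩; exact hY _ (hw j)))
    ((Subgroup.zpowers_le).2 (hY u hu)) pE pF
  have hya : y (u a) = u a := hy.1.2
  have hyb : y (u b) = u b := hy.2
  set s' := s (CL.Grid.tr u e)
  have ht : io (CL.Grid.tr (y * u) e) s' ∈ Q := by
    rw [← tr_tr, io_tr]; exact hFQ _ (Subgroup.mem_zpowers _)
  by_contra hne
  have key : ∀ j, Cen (CL.Grid.tr (w j) e) (io (CL.Grid.tr (y * u) e) s') := by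
    intro j
    have e1 : CL.Grid.tr (y * u * (w j)⁻¹) (CL.Grid.tr (w j) e) = CL.Grid.tr (y * u) e := by
      rw [tr_tr, inv_mul_cancel_right]
    rcases Good.pair hm _ Q rfl (hQ.trans (inf_le_left.trans inf_le_left)) pQ _ (he.tr (hw j))
      (y * u * (w j)⁻¹) (X.mul_mem (X.mul_mem hy.1.1 hu) (X.inv_mem (hw j))) _ s' (s1 _) (s1 _)
      (hEQ (Subgroup.subset_closure ⟨j, rfl⟩)) (e1 ▸ ht) with h | h
    · refine absurd ⟨j, ?_⟩ hne
      obtain ⟨σ, r1, r2, -⟩ := exists_even_to Finset.univ (by rw [Finset.card_univ]; omega)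
        (Finset.mem_univ (e a).1) (Finset.mem_univ (e b).1)
      obtain ⟨τ, hτ⟩ := h σ r1
      rw [← io_tr, e1, io_tr] at hτ
      have e2 : io e σ a = b := gext e (by simp [r2]) (by simpa using hab)
      have e3 := congrArg (fun v : Perm Ω => v (y (u a))) hτ
      simp only [Perm.mul_apply, mul_inv_rev, iap, e2, hyb] at e3
      rw [e3, e_io, hya]
    · intro σ hσ
      rw [← e1]
      exact (h σ hσ s' (s1 _).sign).symm
  have : io (CL.Grid.tr (y * u) e) s' = 1 :=
    Equiv.ext fun x => hsep _ _ fun j => (key j).row (by omega) x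
  exact (s1 _).ne_one (io_inj _ (this.trans (map_one _).symm))

end CL.Grid
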