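import Cfsg.Agent.PERM.Grid1
import Cfsg.Agent.PERM.Marggraf
import Cfsg.Agent.S0711

/-!
Rigidity of pointwise stabilizers of unions of rows of a grid inside a primitive group that does
not contain the alternating group.
-/

set_option autoImplicit false

namespace CL.Grid

open Equiv Equiv.Perm MulAction
open scoped commutatorElement

/-- Primitivity in terms of invariant equivalence relations. -/
def RP (G α : Type*) [SMul G α] : Prop :=
  ∀ r : α → α → Prop, Equivalence r → (∀ (g : G) x y, r x y → r (g • x) (g • y)) →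
    (∀ x y, r x y → x = y) ∨ ∀ x y, r x y

theorem RP.prim {G α : Type*} [Group G] [MulAction G α] (h : RP G α) (ht : IsPretransitive G α) :
    IsPreprimitive G α := by
  refine ⟨fun {B} hB => ?_⟩
  by_cases hs : B.Subsingleton
  · exact Or.inl hs
  obtain ⟨a, ha, b, hb, hab⟩ := Set.not_subsingleton_iff.1 hs
  have key : ∀ (g g' : G) x y, g⁻¹ • x ∈ B → g⁻¹ • y ∈ B → g'⁻¹ • y ∈ B → g'⁻¹ • x ∈ B := by
    intro g g' x y h1 h2 h3
    have := isBlock_iff_smul_eq_of_mem.1 hB (g := g'⁻¹ * g) h2 (by simpa [mul_smul] using h3)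
    rw [← this]
    exact ⟨_, h1, by simp [mul_smul]⟩
  rcases h (fun x y => ∃ g : G, g⁻¹ • x ∈ B ∧ g⁻¹ • y ∈ B) ⟨fun x => by
      obtain ⟨g, rfl⟩ := exists_smul_eq G a x
      exact ⟨g, by simpa using ha, by simpa using ha⟩,
    fun ⟨g, h1, h2⟩ => ⟨g, h2, h1⟩, fun ⟨g, h1, h2⟩ ⟨g', h3, h4⟩ => ⟨g', key g g' _ _ h1 h2 h3, h4⟩⟩
    (fun u x y ⟨g, h1, h2⟩ => ⟨u * g, by simpa [mul_smul] using h1, by simpa [mul_smul] using h2⟩)
    with h | h
  · exact absurd (h a b ⟨1, by simpa using ha, by simpa using hb⟩) hab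
  · refine Or.inr (Set.eq_univ_of_forall fun y => ?_)
    obtain ⟨g, h1, h2⟩ := h y a
    simpa using key g 1 _ _ h1 h2 (by simpa using ha)

theorem small_jor {Ω : Type*} [Fintype Ω] [DecidableEq Ω] {X : Subgroup (Perm Ω)}
    (hX : IsPreprimitive X Ω) {Γ : Set Ω} (hJ : CL.Marg.Jor X Γ) (h1 : 1 < Γ.ncard)
    (h2 : Γ.ncard < Γᶜ.ncard) : alternatingGroup Ω ≤ X := by
  obtain ⟨a, ha, a', ha', haa⟩ := (Set.one_lt_ncard (Set.toFinite Γ)).1 h1
  obtain ⟨k, hk, hka⟩ := hJ a ha a' ha'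
  have hn := Set.ncard_add_ncard_compl Γ
  rw [Nat.card_eq_fintype_card] at hn
  refine (Cfsg.Agent.S0711.result X (by omega) (by omega) (CL.Marg.high_trans hX hJ h1 h2) k k.2
    (fun h => haa (by rw [← hka, Subgroup.smul_def, h]; rfl)) ?_).2
  have : (k.1.support : Set Ω).ncard ≤ Γ.ncard := Set.ncard_le_ncard (fun x hx => by
    by_contra hx'
    exact mem_support.1 (Finset.mem_coe.1 hx) (hk x hx')) (Set.toFinite _)
  rw [Set.ncard_coe_finset] at this
  omega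

section Strip

variable {M Γ Λ : Type*} [Group M] [Group Γ]

/-- Values at `f₀` of the elements of `Y` that are trivial at the indices in `J`. -/
def NN (Y : Subgroup M) (φ : Λ → M →* Γ) (f₀ : Λ) (J : Finset Λ) : Subgroup Γ :=
  (Y ⊓ ⨅ f ∈ J, (φ f).ker).map (φ f₀)

theorem mem_NN {Y : Subgroup M} {φ : Λ → M →* Γ} {f₀ : Λ} {J : Finset Λ} {g : Γ} :
    g ∈ NN Y φ f₀ J ↔ ∃ u ∈ Y, (∀ f ∈ J, φ f u = 1) ∧ φ f₀ u = g := by
  simp [NN, Subgroup.mem_iInf, and_assoc]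

/-- Iterated commutators. -/
def itc (D R : Subgroup Γ) : ℕ → Subgroup Γ
  | 0 => D
  | n + 1 => ⁅itc D R n, R⁆

theorem strip [DecidableEq Λ] {Y : Subgroup M} {φ : Λ → M →* Γ} {f₀ : Λ} {D R : Subgroup Γ}
    (hD : D ≤ NN Y φ f₀ ∅) (hR : ∀ f, f ≠ f₀ → R ≤ NN Y φ f₀ {f}) (J : Finset Λ) (hJ : f₀ ∉ J) :
    itc D R J.card ≤ NN Y φ f₀ J := by
  induction J using Finset.induction_on with
  | empty => exact hD
  | insert f J hf ih =>
    rw [Finset.card_insert_of_notMem hf]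
    rw [Finset.mem_insert, not_or] at hJ
    refine (Subgroup.commutator_mono (ih hJ.2) (hR f (Ne.symm hJ.1))).trans
      (Subgroup.commutator_le.2 fun g1 h1 g2 h2 => ?_)
    obtain ⟨u1, a1, b1, rfl⟩ := mem_NN.1 h1
    obtain ⟨u2, a2, b2, rfl⟩ := mem_NN.1 h2
    refine mem_NN.2 ⟨⁅u1, u2⁆, ?_, fun f' hf' => ?_, map_commutatorElement _ _ _⟩
    · exact Y.mul_mem (Y.mul_mem (Y.mul_mem a1 a2) (Y.inv_mem a1)) (Y.inv_mem a2)
    · rw [map_commutatorElement]
      rcases Finset.mem_insert.1 hf' with rfl | h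
      · rw [b2 _ (Finset.mem_singleton_self _), commutatorElement_one_right]
      · rw [b1 _ h, commutatorElement_one_left]

theorem itc_ne_bot {G R : Subgroup Γ} (hR : R ≠ ⊥) (hn : ∀ b ∈ G, ∀ z ∈ R, b * z * b⁻¹ ∈ R)
    (na : ∀ Z : Subgroup Γ, (∀ a ∈ Z, ∀ b ∈ Z, Commute a b) →
      (∀ b ∈ G, ∀ z ∈ Z, b * z * b⁻¹ ∈ Z) → Z = ⊥) (n : ℕ) : itc R R n ≠ ⊥ := by
  have key : ∀ n, itc R R n ≤ R ∧ ∀ b ∈ G, ∀ z ∈ itc R R n, b * z * b⁻¹ ∈ itc R R n := by
    intro n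
    induction n with
    | zero => exact ⟨le_rfl, hn⟩
    | succ n ih =>
      refine ⟨Subgroup.commutator_le.2 fun g1 h1 g2 h2 => R.mul_mem (R.mul_mem (R.mul_mem
        (ih.1 h1) h2) (R.inv_mem (ih.1 h1))) (R.inv_mem h2), fun b hb z hz => ?_⟩
      have : itc R R (n + 1) ≤ (itc R R (n + 1)).comap (MulAut.conj b).toMonoidHom :=
        Subgroup.commutator_le.2 fun g1 h1 g2 h2 => by
          rw [Subgroup.mem_comap, map_commutatorElement]
          exact Subgroup.commutator_mem_commutator (ih.2 b hb _ h1) (hn b hb _ h2)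
      exact this hz
  induction n with
  | zero => exact hR
  | succ n ih =>
    intro h
    refine ih (na _ (fun a ha b hb => ?_) (key n).2)
    rw [← commutatorElement_eq_one_iff_commute, ← Subgroup.mem_bot, ← h]
    exact Subgroup.commutator_mem_commutator ha ((key n).1 hb)

end Strip

variable {Ω I Λ : Type*}

/-- The permutations preserving every line of the grid. -/
def LL (e : Ω ≃ I × Λ) : Subgroup (Perm Ω) where
  carrier := {u | ∀ x, (e (u x)).2 = (e x).2}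
  one_mem' _ := rfl
  mul_mem' {a b} ha hb x := (ha (b x)).trans (hb x)
  inv_mem' {a} ha x := by rw [← ha, api]

theorem LL_pt {e : Ω ≃ I × Λ} {u : Perm Ω} (hu : u ∈ LL e) (c : I) (f : Λ) :
    e.symm ((e (u (e.symm (c, f)))).1, f) = u (e.symm (c, f)) :=
  gext e (by simp) (by rw [hu]; simp)

/-- The permutation induced on a line. -/
def cp (e : Ω ≃ I × Λ) (f : Λ) : LL e →* Perm I where
  toFun u :=
    { toFun := fun c => (e (u.1 (e.symm (c, f)))).1
      invFun := fun c => (e (u.1⁻¹ (e.symm (c, f)))).1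
      left_inv := fun c => by simp only [LL_pt u.2, iap, apply_symm_apply]
      right_inv := fun c => by simp only [LL_pt ((LL e).inv_mem u.2), api, apply_symm_apply] }
  map_one' := by ext c; simp
  map_mul' u v := by ext c; simp [LL_pt v.2]

theorem cp_apply (e : Ω ≃ I × Λ) (f : Λ) (u : LL e) (c : I) :
    cp e f u c = (e (u.1 (e.symm (c, f)))).1 := rfl

theorem e_LL (e : Ω ≃ I × Λ) (u : LL e) (x : Ω) :
    e (u.1 x) = (cp e (e x).2 u (e x).1, (e x).2) :=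
  Prod.ext (by simp [cp_apply]) (u.2 x)

theorem io_LL (e : Ω ≃ I × Λ) (σ : Perm I) : io e σ ∈ LL e := fun x => by simp

theorem cp_io (e : Ω ≃ I × Λ) (σ : Perm I) (f : Λ) : cp e f ⟨io e σ, io_LL e σ⟩ = σ := by
  ext c; simp [cp_apply]

/-- The grid with the coordinates interchanged. -/
def sw (e : Ω ≃ I × Λ) : Ω ≃ Λ × I := e.trans (prodComm I Λ)

@[simp] theorem sw_fst (e : Ω ≃ I × Λ) (x : Ω) : (sw e x).1 = (e x).2 := rfl

@[simp] theorem sw_snd (e : Ω ≃ I × Λ) (x : Ω) : (sw e x).2 = (e x).1 := rfl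

@[simp] theorem sw_symm (e : Ω ≃ I × Λ) (f : Λ) (c : I) :
    (sw e).symm (f, c) = e.symm (c, f) := rfl

@[simp] theorem e_ka (e : Ω ≃ I × Λ) (b : Perm Λ) (x : Ω) :
    e (io (sw e) b x) = ((e x).1, b (e x).2) :=
  Prod.ext (congrArg Prod.snd (e_io (sw e) b x)) (congrArg Prod.fst (e_io (sw e) b x))

theorem ka_pt (e : Ω ≃ I × Λ) (b : Perm Λ) (c : I) (f : Λ) :
    io (sw e) b (e.symm (c, f)) = e.symm (c, b f) := gext e (by simp) (by simp)

theorem io_pt (e : Ω ≃ I × Λ) (σ : Perm I) (c : I) (f : Λ) :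
    io e σ (e.symm (c, f)) = e.symm (σ c, f) := gext e (by simp) (by simp)

theorem io_ka (e : Ω ≃ I × Λ) (σ : Perm I) (b : Perm Λ) : Commute (io e σ) (io (sw e) b) :=
  Equiv.ext fun x => gext e (by simp) (by simp)

variable [Fintype I] [DecidableEq I] [Fintype Ω] [DecidableEq Ω] [Fintype Λ]

omit [Fintype I] [DecidableEq Ω] in
theorem ncard_rows (e : Ω ≃ I × Λ) (J : Finset I) :
    {x | (e x).1 ∈ J}.ncard = J.card * Fintype.card Λ := by
  rw [← card_rows e, ← Set.ncard_coe_finset]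
  congr 1
  ext x; simp

/-- The standing hypotheses. -/
structure Hyp (X : Subgroup (Perm Ω)) (e : Ω ≃ I × Λ) : Prop where
  hm : 5 ≤ Fintype.card I
  hl : 2 ≤ Fintype.card Λ
  mem : ∀ σ, sign σ = 1 → io e σ ∈ X
  rp : RP (X.comap (io (sw e))) Λ
  na : ∀ Z : Subgroup (Perm Λ), (∀ a ∈ Z, ∀ b ∈ Z, Commute a b) →
    (∀ b ∈ X.comap (io (sw e)), ∀ z ∈ Z, b * z * b⁻¹ ∈ Z) → Z = ⊥
  fx : ∀ f f' : Λ, f ≠ f' → ∃ b, io (sw e) b ∈ X ∧ b f = f ∧ b f' ≠ f'
  prim : IsPreprimitive X Ω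
  nalt : ¬ alternatingGroup Ω ≤ X

namespace Hyp

variable {X : Subgroup (Perm Ω)} {e : Ω ≃ I × Λ}

theorem rel (h : Hyp X e) (r : Λ → Λ → Prop) (hr : Equivalence r)
    (hi : ∀ b, io (sw e) b ∈ X → ∀ f f', r f f' → r (b f) (b f')) :
    (∀ x y, r x y → x = y) ∨ ∀ x y, r x y :=
  h.rp r hr fun g x y hxy => hi g.1 g.2 x y hxy

theorem two (h : Hyp X e) : ∃ f f' : Λ, f ≠ f' :=
  Fintype.exists_pair_of_one_lt_card (by have := h.hl; omega)

theorem trans (h : Hyp X e) (f f' : Λ) : ∃ b, io (sw e) b ∈ X ∧ b f = f' := by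
  rcases h.rel (fun f f' => ∃ b, io (sw e) b ∈ X ∧ b f = f')
    ⟨fun f => ⟨1, by simp, rfl⟩, fun ⟨b, h1, h2⟩ => ⟨b⁻¹, by simpa using h1, by rw [← h2, iap]⟩,
      fun ⟨b, h1, h2⟩ ⟨b', h3, h4⟩ => ⟨b' * b, by simpa using X.mul_mem h3 h1, by
        rw [Perm.mul_apply, h2, h4]⟩⟩
    (fun b hb f f' ⟨b', h1, h2⟩ => ⟨b * b' * b⁻¹, by
      simpa using X.mul_mem (X.mul_mem hb h1) (X.inv_mem hb), by simp [h2]⟩) with h1 | h1
  · obtain ⟨g, g', hg⟩ := h.two
    obtain ⟨b, b1, -, b3⟩ := h.fx g g' hg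
    exact absurd (h1 _ _ ⟨b, b1, rfl⟩).symm b3
  · exact h1 f f'

/-- Elements preserving all lines come from the symmetric group of the grid. -/
theorem lines (h : Hyp X e) {u : Perm Ω} (hu : u ∈ X) (hL : u ∈ LL e) : ∃ a, u = io e a := by
  classical
  have hm := h.hm
  have hm' : 5 ≤ Nat.card I := by simpa using hm
  let Y : Subgroup (LL e) := X.subgroupOf (LL e)
  obtain ⟨f₀, -⟩ := h.two
  rcases h.rel (fun f f' => ∀ v ∈ Y, cp e f v = cp e f' v)
    ⟨fun _ _ _ => rfl, fun h1 v hv => (h1 v hv).symm, fun h1 h2 v hv => (h1 v hv).trans (h2 v hv)⟩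
    (fun b hb f f' h1 v hv => by
      have hv' : io (sw e) b⁻¹ * v.1 * io (sw e) b ∈ LL e := fun x => by
        rw [Perm.mul_apply, Perm.mul_apply, e_ka, v.2, e_ka, iap]
      have key : ∀ g, cp e g ⟨_, hv'⟩ = cp e (b g) v := fun g => by
        ext c
        rw [cp_apply, cp_apply, Perm.mul_apply, Perm.mul_apply, e_ka, ka_pt]
      rw [← key, ← key]
      exact h1 _ (X.mul_mem (X.mul_mem (by simpa using hb) hv) hb)) with h1 | h1
  swap
  · refine ⟨cp e f₀ ⟨u, hL⟩, Equiv.ext fun x => e.injective ?_⟩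
    rw [e_io, e_LL e ⟨u, hL⟩, h1 _ f₀ ⟨u, hL⟩ hu]
  exfalso
  obtain ⟨ι, hι, hι'⟩ : ∃ ι : Perm I → LL e, (∀ σ, sign σ = 1 → ι σ ∈ Y) ∧
      ∀ f σ, cp e f (ι σ) = σ := ⟨fun σ => ⟨io e σ, io_LL e σ⟩, h.mem, fun f σ => cp_io e σ f⟩
  have hA : ∀ f, f ≠ f₀ → alternatingGroup I ≤ NN Y (cp e) f₀ {f} := by
    intro f hf
    obtain ⟨v, hv, hne⟩ : ∃ v ∈ Y, cp e f v ≠ cp e f₀ v := by
      by_contra hh
      push Not at hh
      exact hf (h1 _ _ hh)
    obtain ⟨c, hc⟩ : ∃ c, ((cp e f v)⁻¹ * cp e f₀ v) c ≠ c := by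
      by_contra hh
      push Not at hh
      exact hne (inv_mul_eq_one.1 (Equiv.ext hh))
    obtain ⟨ρ, r1, r2, r3⟩ := exists_tc_fix {c} (by simp; omega) (by simpa using hc)
    let w : LL e := v * ι ρ * v⁻¹ * (ι (cp e f v * ρ * (cp e f v)⁻¹))⁻¹
    have hw : w ∈ Y := Y.mul_mem (Y.mul_mem (Y.mul_mem hv (hι _ r1.sign)) (Y.inv_mem hv))
      (Y.inv_mem (hι _ (by simp [r1.sign])))
    have hw1 : cp e f w = 1 := by simp only [w, map_mul, map_inv, hι', mul_inv_cancel]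
    have hw0 : cp e f₀ w = cp e f₀ v * ρ * (cp e f₀ v)⁻¹ * (cp e f v * ρ * (cp e f v)⁻¹)⁻¹ := by
      simp only [w, map_mul, map_inv, hι']
    let N := (NN Y (cp e) f₀ {f}).subgroupOf (alternatingGroup I)
    have hN : N.Normal := ⟨fun n hn g => by
      rw [Subgroup.mem_subgroupOf] at hn ⊢
      obtain ⟨z, z1, z2, z3⟩ := mem_NN.1 hn
      have hg := hι _ (mem_alternatingGroup.1 g.2)
      refine mem_NN.2 ⟨ι g * z * (ι g)⁻¹, Y.mul_mem (Y.mul_mem hg z1) (Y.inv_mem hg),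
        fun f' hf' => by simp [z2 f' hf'], ?_⟩
      simp only [map_mul, map_inv, hι', z3]; rfl⟩
    rcases alternatingGroup.normal_subgroup_eq_bot_or_eq_top hm' (N := N) with hb | hb
    · have : (⟨cp e f₀ w, by simp [hw0, mem_alternatingGroup, r1.sign]⟩ : alternatingGroup I) ∈ N :=
        Subgroup.mem_subgroupOf.2 (mem_NN.2 ⟨w, hw, by simpa using hw1, rfl⟩)
      rw [hb, Subgroup.mem_bot, Subtype.ext_iff] at this
      change cp e f₀ w = 1 at this
      rw [hw0, mul_inv_eq_one] at this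
      have e1 := congrArg (fun s : Perm I => (cp e f v)⁻¹ (s (cp e f₀ v c))) this
      simp only [Perm.mul_apply, iap, r3 c (Finset.mem_singleton_self c)] at e1
      exact absurd e1.symm r2
    · exact Subgroup.subgroupOf_eq_top.1 hb
  have hit : ∀ n, itc (alternatingGroup I) (alternatingGroup I) n = alternatingGroup I := by
    intro n
    induction n with
    | zero => rfl
    | succ n ih => rw [itc, ih, commutator_alternatingGroup_eq_self hm']
  have := strip (D := alternatingGroup I)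
    (fun σ hσ => mem_NN.2 ⟨ι σ, hι σ (mem_alternatingGroup.1 hσ), by simp, hι' _ _⟩)
    hA {f₀}ᶜ (by simp)
  rw [hit] at this
  obtain ⟨c⟩ : Nonempty I := Fintype.card_pos_iff.1 (by omega)
  obtain ⟨s, s1, -⟩ := exists_tc Finset.univ (by simp; omega) (Finset.mem_univ c)
  obtain ⟨z, z1, z2, z3⟩ := mem_NN.1 (this s1.mem_alternatingGroup)
  refine h.nalt (alternatingGroup_le_of_isPreprimitive_of_isThreeCycle_mem h.prim ?_ z1)
  rw [← card_support_eq_three_iff, ← s1.card_support]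
  refine Finset.card_bij (fun x _ => (e x).1) (fun x hx => ?_) (fun x hx y hy hxy => ?_)
    (fun d hd => ⟨e.symm (d, f₀), ?_, by simp⟩)
  all_goals
    have key : ∀ x, z.1 x ≠ x → (e x).2 = f₀ ∧ s (e x).1 ≠ (e x).1 := fun x hx => by
      have h0 : (e x).2 = f₀ := by
        by_contra h0
        exact hx (e.injective (by rw [e_LL, z2 _ (by simpa using h0)]; rfl))
      exact ⟨h0, fun h' => hx (e.injective (by rw [e_LL, h0, z3, h', ← h0]))⟩
  · exact mem_support.2 (key x (mem_support.1 hx)).2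
  · exact gext e hxy ((key x (mem_support.1 hx)).1.trans (key y (mem_support.1 hy)).1.symm)
  · refine mem_support.2 fun h' => mem_support.1 hd ?_
    have := congrArg (fun y => (e y).1) h'
    simpa [← z3, cp_apply] using this

/-- Elements preserving all rows and fixing one of them pointwise are trivial. -/
theorem rows (h : Hyp X e) {u : Perm Ω} (hu : u ∈ X) (hL : u ∈ LL (sw e)) {a : I}
    (ha : ∀ x, (e x).1 = a → u x = x) : u = 1 := by
  classical
  have hm := h.hm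
  have hl := h.hl
  by_contra hu1
  obtain ⟨x₀, hx₀⟩ : ∃ x, u x ≠ x := by
    by_contra hh
    push Not at hh
    exact hu1 (Equiv.ext hh)
  set c := (e x₀).1 with hc
  have hca : a ≠ c := fun h' => hx₀ (ha _ h'.symm)
  let Y : Subgroup (LL (sw e)) := X.subgroupOf (LL (sw e))
  let R := NN Y (cp (sw e)) c {a}
  have hR : R ≠ ⊥ := by
    intro hb
    have : cp (sw e) c ⟨u, hL⟩ ∈ R := mem_NN.2 ⟨_, hu, fun a' ha' => by
      ext f
      rw [Finset.mem_singleton.1 ha', cp_apply, ha _ (by simp)]; simp, rfl⟩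
    rw [hb, Subgroup.mem_bot] at this
    refine hx₀ ((sw e).injective ?_)
    rw [e_LL (sw e) ⟨u, hL⟩, sw_snd, ← hc, this]; rfl
  have hRn : ∀ b ∈ X.comap (io (sw e)), ∀ z ∈ R, b * z * b⁻¹ ∈ R := by
    intro b hb z hz
    obtain ⟨v, v1, v2, rfl⟩ := mem_NN.1 hz
    let k : LL (sw e) := ⟨io (sw e) b, io_LL _ _⟩
    exact mem_NN.2 ⟨k * v * k⁻¹, Y.mul_mem (Y.mul_mem hb v1) (Y.inv_mem hb),
      fun f' hf' => by simp [v2 f' hf'], by simp [k, cp_io]⟩
  have hRa : ∀ a', a' ≠ c → R ≤ NN Y (cp (sw e)) c {a'} := by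
    intro a' ha' z hz
    obtain ⟨v, v1, v2, rfl⟩ := mem_NN.1 hz
    obtain ⟨ρ, r1, r2, r3⟩ := exists_even_fix {c} (by simp; omega) (d := a') (d' := a)
      (by simpa using ha') (by simpa using hca)
    have hv' : io e ρ⁻¹ * v.1 * io e ρ ∈ LL (sw e) := fun x => by
      have := v.2 (io e ρ x)
      rw [sw_snd, sw_snd] at this
      rw [Perm.mul_apply, Perm.mul_apply, sw_snd, sw_snd, e_io, this, e_io, iap]
    have key : ∀ g, cp (sw e) g ⟨_, hv'⟩ = cp (sw e) (ρ g) v := fun g => by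
      ext f
      rw [cp_apply, cp_apply, Perm.mul_apply, Perm.mul_apply, sw_fst, sw_fst, e_io,
        sw_symm, sw_symm, io_pt]
    refine mem_NN.2 ⟨⟨_, hv'⟩, X.mul_mem (X.mul_mem (h.mem _ (by simp [r1])) v1) (h.mem ρ r1),
      fun f' hf' => ?_, by rw [key, r3 c (by simp)]⟩
    rw [Finset.mem_singleton.1 hf', key, r2, v2 a (by simp)]
  have h1 := strip (D := R) (fun z hz => by
    obtain ⟨v, v1, -, rfl⟩ := mem_NN.1 hz
    exact mem_NN.2 ⟨v, v1, by simp, rfl⟩) hRa {c}ᶜ (by simp)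
  obtain ⟨z, hz, hz1⟩ := (Subgroup.bot_or_exists_ne_one _).resolve_left
    (itc_ne_bot hR hRn h.na ({c}ᶜ : Finset I).card)
  obtain ⟨v, v1, v2, rfl⟩ := mem_NN.1 (h1 hz)
  have hv : ∀ x, (e x).1 ≠ c → v.1 x = x := fun x hx => (sw e).injective (by
    rw [e_LL, v2 _ (by simpa using hx)]; rfl)
  rcases h.rel (fun f f' => ∃ w ∈ X, (∀ x, (e x).1 ≠ c → w x = x) ∧
      w (e.symm (c, f)) = e.symm (c, f'))
    ⟨fun f => ⟨1, X.one_mem, fun _ _ => rfl, rfl⟩,
      fun ⟨w, w1, w2, w3⟩ => ⟨w⁻¹, X.inv_mem w1, fun x hx => by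
        rw [Perm.inv_eq_iff_eq, w2 x hx], by rw [← w3, iap]⟩,
      fun ⟨w, w1, w2, w3⟩ ⟨w', w4, w5, w6⟩ => ⟨w' * w, X.mul_mem w4 w1, fun x hx => by
        rw [Perm.mul_apply, w2 x hx, w5 x hx], by rw [Perm.mul_apply, w3, w6]⟩⟩
    (fun b hb f f' ⟨w, w1, w2, w3⟩ => ⟨io (sw e) b * w * (io (sw e) b)⁻¹,
      X.mul_mem (X.mul_mem hb w1) (X.inv_mem hb), fun x hx => by
        rw [Perm.mul_apply, Perm.mul_apply, w2 _ (by rw [← map_inv, e_ka]; exact hx), api],
      by rw [← ka_pt, ← ka_pt, Perm.mul_apply, Perm.mul_apply, iap, w3]⟩) with h2 | h2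
  · refine hz1 (Equiv.ext fun f => (h2 _ _ ⟨v.1, v1, hv, ?_⟩).symm)
    exact (LL_pt v.2 f c).symm
  · have e1 := ncard_rows e {c}
    have e2 := Set.ncard_add_ncard_compl {x | (e x).1 ∈ ({c} : Finset I)}
    rw [Nat.card_eq_fintype_card, card_eq e] at e2
    have := Nat.mul_le_mul_right (Fintype.card Λ) hm
    rw [Finset.card_singleton] at e1
    refine h.nalt (small_jor h.prim (Γ := {x | (e x).1 ∈ ({c} : Finset I)}) ?_ (by omega)
      (by omega))
    intro x hx y hy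
    obtain ⟨w, w1, w2, w3⟩ := h2 (e x).2 (e y).2
    simp only [Finset.mem_singleton, Set.mem_ofPred_eq] at hx hy
    refine ⟨⟨w, w1⟩, fun z hz => w2 z (by simpa using hz), ?_⟩
    rw [← hx, Prod.mk.eta, symm_apply_apply, hx, ← hy, Prod.mk.eta, symm_apply_apply] at w3
    exact w3

/-- Rigidity at a set of rows. -/
def Rig (X : Subgroup (Perm Ω)) (e : Ω ≃ I × Λ) (J : Finset I) : Prop :=
  ∀ u ∈ X, (∀ x, (e x).1 ∈ J → u x = x) → ∃ a, u = io e a

/-- The complement of a set of rows is a Jordan set. -/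
def JJ (X : Subgroup (Perm Ω)) (e : Ω ≃ I × Λ) (J : Finset I) : Prop :=
  ∀ x y, (e x).1 ∉ J → (e y).1 ∉ J → ∃ u ∈ X, (∀ z, (e z).1 ∈ J → u z = z) ∧ u x = y

omit [Fintype I] [DecidableEq I] [Fintype Ω] [DecidableEq Ω] [Fintype Λ] in
theorem out_of_fix {J : Finset I} {u : Perm Ω} (hu : ∀ z, (e z).1 ∈ J → u z = z) {x : Ω}
    (hx : (e x).1 ∉ J) : (e (u x)).1 ∉ J := fun h => hx (by rw [← u.injective (hu _ h)]; exact h)

theorem rig_or_jj (h : Hyp X e) (J : Finset I) (hJ : J.card + 3 ≤ Fintype.card I) :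
    Rig X e J ∨ JJ X e J := by
  obtain ⟨c, hc⟩ : Jᶜ.Nonempty := Finset.card_pos.1 (by have := card_compl_ge J hJ; omega)
  rw [Finset.mem_compl] at hc
  have mv : ∀ x, (e x).1 ∉ J → ∃ u ∈ X, (∀ z, (e z).1 ∈ J → u z = z) ∧
      u (e.symm (c, (e x).2)) = x := fun x hx => by
    obtain ⟨ρ, r1, r2, r3⟩ := exists_even_fix J hJ hc hx
    exact ⟨io e ρ, h.mem ρ r1, fun z hz => (io_fix e).2 (r3 _ hz), by rw [io_pt, r2]; simp⟩
  rcases h.rel (fun f f' => ∃ w ∈ X, (∀ x, (e x).1 ∈ J → w x = x) ∧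
      w (e.symm (c, f)) = e.symm (c, f'))
    ⟨fun f => ⟨1, X.one_mem, fun _ _ => rfl, rfl⟩,
      fun ⟨w, w1, w2, w3⟩ => ⟨w⁻¹, X.inv_mem w1, fun x hx => by
        rw [Perm.inv_eq_iff_eq, w2 x hx], by rw [← w3, iap]⟩,
      fun ⟨w, w1, w2, w3⟩ ⟨w', w4, w5, w6⟩ => ⟨w' * w, X.mul_mem w4 w1, fun x hx => by
        rw [Perm.mul_apply, w2 x hx, w5 x hx], by rw [Perm.mul_apply, w3, w6]⟩⟩
    (fun b hb f f' ⟨w, w1, w2, w3⟩ => ⟨io (sw e) b * w * (io (sw e) b)⁻¹,
      X.mul_mem (X.mul_mem hb w1) (X.inv_mem hb), fun x hx => by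
        rw [Perm.mul_apply, Perm.mul_apply, w2 _ (by rw [← map_inv, e_ka]; exact hx), api],
      by rw [← ka_pt, ← ka_pt, Perm.mul_apply, Perm.mul_apply, iap, w3]⟩) with h2 | h2
  · refine Or.inl fun u hu hf => h.lines hu fun x => ?_
    by_cases hx : (e x).1 ∈ J
    · rw [hf x hx]
    obtain ⟨v, v1, v2, v3⟩ := mv x hx
    obtain ⟨w, w1, w2, w3⟩ := mv (u x) (out_of_fix hf hx)
    refine (h2 _ _ ⟨w⁻¹ * u * v, X.mul_mem (X.mul_mem (X.inv_mem w1) hu) v1, fun z hz => ?_, ?_⟩).symm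
    · rw [Perm.mul_apply, Perm.mul_apply, v2 z hz, hf z hz, Perm.inv_eq_iff_eq, w2 z hz]
    · rw [Perm.mul_apply, Perm.mul_apply, v3, Perm.inv_eq_iff_eq, w3]
  · refine Or.inr fun x y hx hy => ?_
    obtain ⟨v, v1, v2, v3⟩ := mv x hx
    obtain ⟨w, w1, w2, w3⟩ := mv y hy
    obtain ⟨u, u1, u2, u3⟩ := h2 (e x).2 (e y).2
    refine ⟨w * u * v⁻¹, X.mul_mem (X.mul_mem w1 u1) (X.inv_mem v1), fun z hz => ?_, ?_⟩
    · have : v⁻¹ z = z := by rw [Perm.inv_eq_iff_eq, v2 z hz]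
      rw [Perm.mul_apply, Perm.mul_apply, this, u2 z hz, w2 z hz]
    · have : v⁻¹ x = e.symm (c, (e x).2) := by rw [Perm.inv_eq_iff_eq, v3]
      rw [Perm.mul_apply, Perm.mul_apply, this, u3, w3]

theorem jj_move (h : Hyp X e) {J : Finset I} (hJ : J.card + 3 ≤ Fintype.card I) {b b' : I}
    (hb : b ∉ J) (hb' : b' ∉ J) (hj : JJ X e (insert b J)) : JJ X e (insert b' J) := by
  obtain ⟨ρ, r1, r2, r3⟩ := exists_even_fix J hJ hb' hb
  have key : ∀ z, (e (io e ρ z)).1 ∈ insert b J ↔ (e z).1 ∈ insert b' J := fun z => by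
    rw [e_io, Finset.mem_insert, Finset.mem_insert, ← r2, ρ.apply_eq_iff_eq]
    refine or_congr_right ⟨fun h1 => ?_, fun h1 => by rw [r3 _ h1]; exact h1⟩
    rw [← ρ.injective (r3 _ h1)]; exact h1
  intro x y hx hy
  obtain ⟨u, u1, u2, u3⟩ := hj (io e ρ x) (io e ρ y) (by rwa [key]) (by rwa [key])
  refine ⟨(io e ρ)⁻¹ * u * io e ρ, X.mul_mem (X.mul_mem (X.inv_mem (h.mem ρ r1)) u1) (h.mem ρ r1),
    fun z hz => ?_, ?_⟩
  · rw [Perm.mul_apply, Perm.mul_apply, u2 _ ((key z).2 hz), iap]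
  · rw [Perm.mul_apply, Perm.mul_apply, u3, iap]

theorem level (h : Hyp X e) {J : Finset I} (hJ : J.card + 4 ≤ Fintype.card I) (hJ0 : J.Nonempty)
    {b : I} (hb : b ∉ J) :
    Rig X e (insert b J) ∨ IsMultiplyPretransitive X Ω (J.card * Fintype.card Λ + 1) := by
  have hl := h.hl
  refine (h.rig_or_jj (insert b J) (by rw [Finset.card_insert_of_notMem hb]; omega)).imp_right
    fun hj => ?_
  have hj' : ∀ b', b' ∉ J → JJ X e (insert b' J) := fun b' hb' => h.jj_move (by omega) hb hb' hj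
  let s : Set Ω := {x | (e x).1 ∈ J}
  have lift : ∀ {b' : I} {u : Perm Ω} (hu : u ∈ X), (∀ z, (e z).1 ∈ insert b' J → u z = z) →
      (⟨u, hu⟩ : X) ∈ fixingSubgroup X s := fun hu h1 =>
    (mem_fixingSubgroup_iff X).2 fun y hy => h1 y (Finset.mem_insert_of_mem hy)
  have hp : IsPreprimitive (fixingSubgroup X s) (SubMulAction.ofFixingSubgroup X s) := by
    refine RP.prim (fun r hr hi => ?_) ⟨fun x y => ?_⟩
    swap
    · obtain ⟨b', hb'⟩ : (insert (e x).1 (insert (e y).1 J))ᶜ.Nonempty := by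
        rw [← Finset.card_pos, Finset.card_compl]
        have := Finset.card_insert_le (e x).1 (insert (e y).1 J)
        have := Finset.card_insert_le (e y).1 J
        omega
      simp only [Finset.mem_compl, Finset.mem_insert, not_or] at hb'
      obtain ⟨u, u1, u2, u3⟩ := hj' b' hb'.2.2 x y
        (by rw [Finset.mem_insert, not_or]; exact ⟨Ne.symm hb'.1, x.2⟩)
        (by rw [Finset.mem_insert, not_or]; exact ⟨Ne.symm hb'.2.1, y.2⟩)
      exact ⟨⟨_, lift u1 u2⟩, Subtype.ext u3⟩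
    by_contra hh
    rw [not_or] at hh
    obtain ⟨h1, h2⟩ := hh
    push Not at h1
    obtain ⟨x₀, y₀, hr0, hne⟩ := h1
    have step : ∀ x y z : SubMulAction.ofFixingSubgroup X s, r x y → (e x).1 ≠ (e y).1 →
        (e z).1 ≠ (e x).1 → r x z := by
      intro x y z hxy h3 h4
      obtain ⟨u, u1, u2, u3⟩ := hj' (e x).1 x.2 y z
        (by rw [Finset.mem_insert, not_or]; exact ⟨Ne.symm h3, y.2⟩)
        (by rw [Finset.mem_insert, not_or]; exact ⟨h4, z.2⟩)
      have := hi ⟨_, lift u1 u2⟩ x y hxy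
      rwa [show (⟨_, lift u1 u2⟩ : fixingSubgroup X s) • x = x from
        Subtype.ext (u2 _ (Finset.mem_insert_self _ _)),
        show (⟨_, lift u1 u2⟩ : fixingSubgroup X s) • y = z from Subtype.ext u3] at this
    have row : ∀ x y : SubMulAction.ofFixingSubgroup X s, r x y → (e x).1 = (e y).1 := by
      intro x y hxy
      by_contra h3
      have : ∀ z, r x z := fun z => by
        by_cases h4 : (e z).1 = (e x).1
        · exact hr.trans hxy (step y x z (hr.symm hxy) (Ne.symm h3) (h4 ▸ h3))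
        · exact step x y z hxy h3 h4
      exact h2 fun z z' => hr.trans (hr.symm (this z)) (this z')
    have hall : ∀ f f', ∀ u ∈ X, (∀ z, (e z).1 ∈ J → u z = z) → ∀ c ∉ J,
        (e (u (e.symm (c, f)))).1 = (e (u (e.symm (c, f')))).1 := by
      refine (h.rel (fun f f' => ∀ u ∈ X, (∀ z, (e z).1 ∈ J → u z = z) → ∀ c ∉ J,
        (e (u (e.symm (c, f)))).1 = (e (u (e.symm (c, f')))).1)
        ⟨fun _ _ _ _ _ _ => rfl, fun h1 u a1 a2 c hc => (h1 u a1 a2 c hc).symm,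
          fun h1 h3 u a1 a2 c hc => (h1 u a1 a2 c hc).trans (h3 u a1 a2 c hc)⟩
        (fun b' hb' f f' h1 u a1 a2 c hc => ?_)).resolve_left fun h1 => hne ?_
      · have := h1 ((io (sw e) b')⁻¹ * u * io (sw e) b')
          (X.mul_mem (X.mul_mem (X.inv_mem hb') a1) hb') (fun z hz => by
            rw [Perm.mul_apply, Perm.mul_apply, a2 _ (by rw [e_ka]; exact hz), iap]) c hc
        simpa only [← map_inv, Perm.mul_apply, e_ka, ka_pt] using this
      · refine Subtype.ext (gext e (row _ _ hr0) (h1 _ _ fun u a1 a2 c hc => ?_))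
        obtain ⟨ρ, r1, r2, r3⟩ := exists_even_fix J (by omega) x₀.2 hc
        have := row _ _ (hi ⟨⟨u * io e ρ, X.mul_mem a1 (h.mem ρ r1)⟩,
          (mem_fixingSubgroup_iff X).2 fun y hy => by
            show u (io e ρ y) = y
            rw [(io_fix e).2 (r3 _ hy), a2 y hy]⟩ _ _ hr0)
        have e1 : io e ρ x₀ = e.symm (c, (e x₀).2) := gext e (by simp [r2]) (by simp)
        have e2 : io e ρ y₀ = e.symm (c, (e y₀).2) :=
          gext e (by simp [← row _ _ hr0, r2]) (by simp)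
        rw [← e1, ← e2]
        exact this
    have hrow : ∀ u ∈ X, (∀ z, (e z).1 ∈ J → u z = z) → ∀ x y, (e x).1 = (e y).1 →
        (e (u x)).1 = (e (u y)).1 := by
      intro u a1 a2 x y hxy
      by_cases hx : (e x).1 ∈ J
      · rw [a2 x hx, a2 y (hxy ▸ hx), hxy]
      · have := hall (e x).2 (e y).2 u a1 a2 _ hx
        rwa [Prod.mk.eta, symm_apply_apply, hxy, Prod.mk.eta, symm_apply_apply] at this
    obtain ⟨c, hc⟩ : (insert b J)ᶜ.Nonempty := by
      rw [← Finset.card_pos, Finset.card_compl, Finset.card_insert_of_notMem hb]; omega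
    rw [Finset.mem_compl] at hc
    obtain ⟨f, f', hf⟩ := h.two
    obtain ⟨u, u1, u2, u3⟩ := hj (e.symm (c, f)) (e.symm (c, f')) (by simpa using hc)
      (by simpa using hc)
    have u2' : ∀ z, (e z).1 ∈ J → u z = z := fun z hz => u2 z (Finset.mem_insert_of_mem hz)
    obtain ⟨k, k1, k2, k3⟩ := h.fx f f' hf
    obtain ⟨a, ha⟩ := hJ0
    have := h.rows (u := u * io (sw e) k * u⁻¹ * (io (sw e) k)⁻¹)
      (X.mul_mem (X.mul_mem (X.mul_mem u1 k1) (X.inv_mem u1)) (X.inv_mem k1)) (fun x => by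
        rw [sw_snd, sw_snd, Perm.mul_apply, Perm.mul_apply, Perm.mul_apply,
          hrow u u1 u2' _ (u⁻¹ ((io (sw e) k)⁻¹ x)) (by rw [e_ka]), api, ← map_inv, e_ka])
      (a := a) (fun x hx => by
        have e1 : (e ((io (sw e) k)⁻¹ x)).1 ∈ J := by rw [← map_inv, e_ka, hx]; exact ha
        have e2 : u⁻¹ ((io (sw e) k)⁻¹ x) = (io (sw e) k)⁻¹ x := by
          rw [Perm.inv_eq_iff_eq, u2' _ e1]
        rw [Perm.mul_apply, Perm.mul_apply, Perm.mul_apply, e2, api, u2' x (hx ▸ ha)])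
    rw [mul_inv_eq_one, mul_inv_eq_iff_eq_mul] at this
    have e3 := congrArg (fun v : Perm Ω => (e (v (e.symm (c, f)))).2) this
    simp only [Perm.mul_apply, ka_pt, k2, u3, apply_symm_apply] at e3
    exact k3 e3.symm
  have e1 := ncard_rows e J
  have e2 := hJ0.card_pos
  have e3 := Nat.mul_le_mul_right (Fintype.card Λ) hJ
  have e4 : 0 < J.card * Fintype.card Λ := Nat.mul_pos e2 (by omega)
  have := h.prim.isMultiplyPreprimitive (s := s) (n := J.card * Fintype.card Λ - 1)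
    (by rw [e1]; omega) (by rw [Nat.card_eq_fintype_card, card_eq e]; rw [add_mul] at e3; omega) hp
  rw [show J.card * Fintype.card Λ - 1 + 2 = J.card * Fintype.card Λ + 1 by omega] at this
  exact this.isMultiplyPretransitive

end Hyp

end CL.Grid
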