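import Cfsg.Agent.PERM.Grid2

/-!
Centralizers of three-cycles normalize the alternating group of a grid inside a primitive group
that does not contain the alternating group.
-/

set_option autoImplicit false

namespace CL.Grid

open Equiv Equiv.Perm MulAction

variable {Ω I Λ : Type*}

/-- The image of the row `c` under `u` is a union of rows. -/
def HU (e : Ω ≃ I × Λ) (u : Perm Ω) (c : I) : Prop :=
  ∀ x x', (e x).1 = c → (e (u x')).1 = (e (u x)).1 → (e x').1 = c

theorem fix_comm {u t : Perm Ω} (h : Commute u t) (x : Ω) : t (u x) = u x ↔ t x = x := by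
  have := congrArg (fun v : Perm Ω => v x) h.eq
  simp only [Perm.mul_apply] at this
  rw [← this, u.apply_eq_iff_eq]

variable [Fintype I] [DecidableEq I]

variable {X : Subgroup (Perm Ω)} {e : Ω ≃ I × Λ}

omit [Fintype I] [DecidableEq I] in
theorem hu_of {J : Finset I} (hR : Hyp.Rig X e J) {u : Perm Ω} (hu : u ∈ X)
    (hJ : ∀ x, (e (u x)).1 ∈ J ↔ (e x).1 ∈ J) {c : I} (hc : c ∉ J)
    (hρ : ∀ d ∉ J, d ≠ c → ∃ ρ, io e ρ ∈ X ∧ (∀ j ∈ J, ρ j = j) ∧ ρ c = c ∧ ρ d ≠ d) :
    HU e u c := by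
  intro x x' hx hxx
  by_contra hne
  obtain ⟨ρ, r1, r2, r3, r4⟩ := hρ _ (by rw [← hJ, hxx, hJ, hx]; exact hc) hne
  obtain ⟨a, ha⟩ := hR (u * io e ρ * u⁻¹) (X.mul_mem (X.mul_mem hu r1) (X.inv_mem hu))
    fun y hy => by
      rw [Perm.mul_apply, Perm.mul_apply, (io_fix e).2 (r2 _ (by rw [← hJ, api]; exact hy)), api]
  have e1 : io e a (u x) = u x := by
    rw [← ha, Perm.mul_apply, Perm.mul_apply, iap, (io_fix e).2 (by rw [hx, r3])]
  have e2 : io e a (u x') = u x' := (io_fix e).2 (by rw [hxx]; exact (io_fix e).1 e1)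
  rw [← ha, Perm.mul_apply, Perm.mul_apply, iap, u.apply_eq_iff_eq] at e2
  exact r4 ((io_fix e).1 e2)

omit [Fintype I] in
theorem conj_of_hu [Nonempty Λ] {j : ℕ} (hR : ∀ J : Finset I, J.card = j → Hyp.Rig X e J)
    {u : Perm Ω} (hu : u ∈ X) {K : Finset I} (hK : j ≤ K.card) (hH : ∀ c ∈ K, HU e u c)
    {σ : Perm I} (hσ : io e σ ∈ X) (hf : ∀ c ∈ K, σ c = c) : ∃ τ, u * io e σ * u⁻¹ = io e τ := by
  obtain ⟨f⟩ := ‹Nonempty Λ›
  obtain ⟨K', hK', hc⟩ := Finset.exists_subset_card_eq hK
  refine hR (K'.image fun c => (e (u (e.symm (c, f)))).1) ?_ _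
    (X.mul_mem (X.mul_mem hu hσ) (X.inv_mem hu)) fun y hy => ?_
  · rw [Finset.card_image_of_injOn, hc]
    intro c h1 c' _ h3
    simpa using hH c' (hK' ‹_›) (e.symm (c', f)) (e.symm (c, f)) (by simp) h3
  · obtain ⟨c, h1, h2⟩ := Finset.mem_image.1 hy
    have := hH c (hK' h1) (e.symm (c, f)) (u⁻¹ y) (by simp) (by rw [api, h2])
    rw [Perm.mul_apply, Perm.mul_apply, (io_fix e).2 (by rw [this, hf c (hK' h1)]), api]

theorem nrm_of_gen {u : Perm Ω} {a b : I} (hab : a ≠ b)
    (h : ∀ s, IsThreeCycle s → s a ≠ a → s b ≠ b → ∃ τ, u * io e s * u⁻¹ = io e τ) : Nrm e u := by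
  intro σ hσ
  let N : Subgroup (Perm I) := (io e).range.comap ((MulAut.conj u).toMonoidHom.comp (io e))
  obtain ⟨τ, hτ⟩ := even_mem_of_tc N hab (fun s h1 h2 h3 => by
    obtain ⟨τ, hτ⟩ := h s h1 h2 h3
    exact ⟨τ, hτ.symm⟩) hσ
  exact ⟨τ, hτ.symm⟩

theorem supp_pres {u : Perm Ω} {s : Perm I} (h : Commute u (io e s)) (x : Ω) :
    (e (u x)).1 ∈ s.support ↔ (e x).1 ∈ s.support := by
  rw [mem_support, mem_support, ne_eq, ne_eq, ← io_fix, ← io_fix, fix_comm h]

variable [Fintype Ω] [DecidableEq Ω] [Fintype Λ]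

namespace Hyp

theorem rig_all (h : Hyp X e) {j : ℕ} (hj : j + 5 ≤ Fintype.card I)
    (hn : ¬ IsMultiplyPretransitive X Ω ((j + 1) * Fintype.card Λ + 1)) (J : Finset I)
    (hJ : J.card = j + 2) : Rig X e J := by
  obtain ⟨b, hb⟩ : J.Nonempty := Finset.card_pos.1 (by omega)
  have h1 := Finset.card_erase_of_mem hb
  rw [← Finset.insert_erase hb]
  refine (h.level (by omega) (Finset.card_pos.1 (by omega)) (Finset.notMem_erase b J)).resolve_right
    ?_
  rwa [h1, hJ, show j + 2 - 1 = j + 1 by omega]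

theorem rig_three (h : Hyp X e) (h6 : 6 ≤ Fintype.card I) (J : Finset I) (hJ : J.card = 3) :
    Rig X e J := by
  refine h.rig_all (j := 1) h6 (fun ht => h.nalt ?_) J hJ
  have hl := h.hl
  obtain ⟨c⟩ : Nonempty I := Fintype.card_pos_iff.1 (by omega)
  have : Nonempty Λ := Fintype.card_pos_iff.1 (by omega)
  obtain ⟨s, s1, -⟩ := exists_tc Finset.univ (by simp; omega) (Finset.mem_univ c)
  have := Nat.mul_le_mul_right (Fintype.card Λ) h6
  exact (Cfsg.Agent.S0711.result X (by omega) (by rw [card_eq e]; omega) ht _ (h.mem s s1.sign)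
    (fun h1 => s1.ne_one (io_inj e (h1.trans (map_one _).symm)))
    (by rw [card_support_io, s1.card_support]; omega)).2

theorem good_seven (h : Hyp X e) (h7 : 7 ≤ Fintype.card I) : Good X e := by
  have : Nonempty Λ := Fintype.card_pos_iff.1 (by have := h.hl; omega)
  have hR := h.rig_three (by omega)
  refine ⟨h.mem, fun u hu s hs hc => ?_⟩
  have hH : ∀ c ∉ s.support, HU e u c := fun c hcs =>
    hu_of (hR _ hs.card_support) hu (supp_pres hc) hcs fun d h1 h2 => by
      obtain ⟨ρ, r1, r2, r3⟩ := exists_tc_fix (insert c s.support) (by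
        rw [Finset.card_insert_of_notMem hcs, hs.card_support]; omega) (d := d) (by
          rw [Finset.mem_insert, not_or]; exact ⟨h2, h1⟩)
      exact ⟨ρ, h.mem ρ r1.sign, fun j hj => r3 j (Finset.mem_insert_of_mem hj),
        r3 c (Finset.mem_insert_self _ _), r2⟩
  obtain ⟨a, b, ha, hb, hab⟩ := Finset.one_lt_card_iff.1 (show 1 < s.support.card by
    rw [hs.card_support]; omega)
  refine nrm_of_gen hab fun s' h1 h2 h3 => conj_of_hu hR hu (K := (s.support ∪ s'.support)ᶜ) ?_
    (fun c hc => hH c fun h' => Finset.mem_compl.1 hc (Finset.mem_union_left _ h'))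
    (h.mem s' h1.sign) fun c hc => notMem_support.1 fun h' =>
      Finset.mem_compl.1 hc (Finset.mem_union_right _ h')
  have e1 := Finset.card_union_add_card_inter s.support s'.support
  have e2 : 1 < (s.support ∩ s'.support).card := Finset.one_lt_card_iff.2
    ⟨a, b, Finset.mem_inter.2 ⟨ha, mem_support.2 h2⟩, Finset.mem_inter.2 ⟨hb, mem_support.2 h3⟩, hab⟩
  rw [hs.card_support, h1.card_support] at e1
  rw [Finset.card_compl]; omega

theorem good_six (h : Hyp X e) (h6 : Fintype.card I = 6) (hS : ∀ σ, io e σ ∈ X) : Good X e := by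
  have : Nonempty Λ := Fintype.card_pos_iff.1 (by have := h.hl; omega)
  have hR := h.rig_three (by omega)
  refine ⟨h.mem, fun u hu s hs hc => ?_⟩
  have key : ∀ J : Finset I, J.card = 3 → (∀ x, (e (u x)).1 ∈ J ↔ (e x).1 ∈ J) → ∀ c ∉ J,
      HU e u c := fun J hJ hJ' c hcJ =>
    hu_of (hR _ hJ) hu hJ' hcJ fun d h1 h2 => by
      obtain ⟨d', hd'⟩ : (insert d (insert c J))ᶜ.Nonempty := by
        rw [← Finset.card_pos, Finset.card_compl]
        have := Finset.card_insert_le d (insert c J)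
        have := Finset.card_insert_le c J
        omega
      simp only [Finset.mem_compl, Finset.mem_insert, not_or] at hd'
      exact ⟨swap d d', hS _, fun j hj => swap_apply_of_ne_of_ne (fun h' => h1 (h' ▸ hj))
        (fun h' => hd'.2.2 (h' ▸ hj)), swap_apply_of_ne_of_ne h2.symm (Ne.symm hd'.2.1), by
          rw [swap_apply_left]; exact hd'.1⟩
  have hH : ∀ c, HU e u c := fun c => by
    by_cases hcs : c ∈ s.support
    · exact key s.supportᶜ (by rw [Finset.card_compl, hs.card_support, h6])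
        (fun x => by rw [Finset.mem_compl, Finset.mem_compl, supp_pres hc]) c (by simpa using hcs)
    · exact key _ hs.card_support (supp_pres hc) c hcs
  obtain ⟨a, b, hab⟩ := Fintype.exists_pair_of_one_lt_card (α := I) (by omega)
  exact nrm_of_gen hab fun s' h1 _ _ => conj_of_hu hR hu (K := s'.supportᶜ)
    (by rw [Finset.card_compl, h1.card_support, h6]) (fun c _ => hH c) (hS _)
    fun c hc => by simpa using hc

theorem triples (h : Hyp X e) (h5 : Fintype.card I = 5) (hd : 5 ∣ Fintype.card Λ)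
    (hR : ∀ J : Finset I, J.card = 2 → Rig X e J) {s : Perm I} (hs : IsThreeCycle s)
    {w : Perm Ω} (hw : w ∈ X) (hc : Commute w (io e s))
    (ht : ∀ x, (e x).1 ∈ s.support → ∃ k : ℤ, w x = (io e s ^ k) x) : ∃ a, w = io e a := by
  classical
  set t := io e s with htd
  let E : Subgroup (Perm Ω) :=
    { carrier := {w | w ∈ X ∧ Commute w t ∧ ∀ x, (e x).1 ∈ s.support → ∃ k : ℤ, w x = (t ^ k) x}
      one_mem' := ⟨X.one_mem, Commute.one_left _, fun x _ => ⟨0, rfl⟩⟩
      mul_mem' := fun {a b} ⟨a1, a2, a3⟩ ⟨b1, b2, b3⟩ => ⟨X.mul_mem a1 b1, a2.mul_left b2,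
        fun x hx => by
          obtain ⟨k, hk⟩ := a3 x hx
          obtain ⟨l, hl⟩ := b3 x hx
          refine ⟨l + k, ?_⟩
          rw [Perm.mul_apply, hl, ← Perm.mul_apply, (a2.zpow_right l).eq, Perm.mul_apply, hk,
            zpow_add, Perm.mul_apply]⟩
      inv_mem' := fun {a} ⟨a1, a2, a3⟩ => ⟨X.inv_mem a1, a2.inv_left, fun x hx => by
          obtain ⟨k, hk⟩ := a3 x hx
          refine ⟨-k, ?_⟩
          rw [Perm.inv_eq_iff_eq, ← Perm.mul_apply, (a2.zpow_right (-k)).eq, Perm.mul_apply, hk,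
            ← Perm.mul_apply, ← zpow_add, neg_add_cancel]; rfl⟩ }
  have ht3 : t ^ 3 = 1 := by rw [htd, ← map_pow, tc_cube hs, map_one]
  have cube : ∀ v ∈ E, ∃ a : Perm I, v ^ 3 = io e a ∧ a ^ 2 = 1 := by
    rintro v ⟨v1, v2, v3⟩
    have hf : ∀ x, (e x).1 ∈ s.support → (v ^ 3) x = x := fun x hx => by
      obtain ⟨k, hk⟩ := v3 x hx
      have hn : ∀ n : ℕ, (v ^ n) x = ((t ^ k) ^ n) x := fun n => by
        induction n with
        | zero => rfl
        | succ n ih =>
          rw [pow_succ', Perm.mul_apply, ih, ← Perm.mul_apply, ((v2.zpow_right k).pow_right n).eq,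
            Perm.mul_apply, hk, pow_succ, Perm.mul_apply]
      rw [hn, ← zpow_natCast, ← zpow_mul, mul_comm, zpow_mul, zpow_natCast, ht3, one_zpow]; rfl
    obtain ⟨J, hJ, hJc⟩ := Finset.exists_subset_card_eq (show 2 ≤ s.support.card by
      rw [hs.card_support]; omega)
    obtain ⟨a, ha⟩ := hR J hJc _ (X.pow_mem v1 3) fun x hx => hf x (hJ hx)
    refine ⟨a, ha, ?_⟩
    obtain ⟨f, -⟩ := h.two
    have hsub : a.support ⊆ s.supportᶜ := fun c hc => Finset.mem_compl.2 fun h' =>
      mem_support.1 hc (by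
        have := hf (e.symm (c, f)) (by simpa using h')
        rw [ha, io_fix, apply_symm_apply] at this
        exact this)
    have := Finset.card_le_card hsub
    rw [Finset.card_compl, hs.card_support, h5] at this
    by_cases ha1 : a = 1
    · rw [ha1, one_pow]
    · obtain ⟨x, y, -, rfl⟩ := card_support_eq_two.1
        (le_antisymm this (two_le_card_support_of_ne_one ha1))
      rw [sq, swap_mul_self]
  have hEn : ∀ b, io (sw e) b ∈ X → ∀ v ∈ E, io (sw e) b * v * (io (sw e) b)⁻¹ ∈ E := by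
    rintro b hb v ⟨v1, v2, v3⟩
    have hk : Commute (io (sw e) b) t := (io_ka e s b).symm
    refine ⟨X.mul_mem (X.mul_mem hb v1) (X.inv_mem hb), (hk.mul_left v2).mul_left hk.inv_left,
      fun x hx => ?_⟩
    obtain ⟨k, hk'⟩ := v3 ((io (sw e) b)⁻¹ x) (by rw [← map_inv, e_ka]; exact hx)
    exact ⟨k, by rw [Perm.mul_apply, Perm.mul_apply, hk', ← Perm.mul_apply, (hk.zpow_right k).eq,
      Perm.mul_apply, api]⟩
  have disc : ∀ v ∈ E, ∀ x, (e (v x)).1 = (e x).1 → v x = x := by
    intro v hv x hx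
    rcases h.rel (fun f f' => ∃ v ∈ E, v (e.symm ((e x).1, f)) = e.symm ((e x).1, f'))
      ⟨fun f => ⟨1, E.one_mem, rfl⟩, fun ⟨w, w1, w3⟩ => ⟨w⁻¹, E.inv_mem w1, by rw [← w3, iap]⟩,
        fun ⟨w, w1, w3⟩ ⟨w', w4, w6⟩ => ⟨w' * w, E.mul_mem w4 w1, by rw [Perm.mul_apply, w3, w6]⟩⟩
      (fun b hb f f' ⟨w, w1, w3⟩ => ⟨_, hEn b hb w w1,
        by rw [← ka_pt, ← ka_pt, Perm.mul_apply, Perm.mul_apply, iap, w3]⟩) with h2 | h2
    · refine gext e hx (h2 _ _ ⟨v, hv, ?_⟩).symm
      rw [Prod.mk.eta, symm_apply_apply, ← hx, Prod.mk.eta, symm_apply_apply]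
    exfalso
    have hO : orbit E x = {y | (e y).1 ∈ Finset.univ.filter fun c =>
        e.symm (c, (e x).2) ∈ orbit E x} := by
      have key : ∀ y ∈ orbit E x, ∀ b, io (sw e) b ∈ X → io (sw e) b y ∈ orbit E x := by
        rintro _ ⟨v', rfl⟩ b hb
        obtain ⟨w, w1, w2⟩ := h2 (e x).2 (b (e x).2)
        refine ⟨⟨_, hEn b hb v' v'.2⟩ * ⟨w, w1⟩, ?_⟩
        rw [← ka_pt, Prod.mk.eta, symm_apply_apply] at w2
        show (io (sw e) b * v'.1 * (io (sw e) b)⁻¹) (w x) = io (sw e) b (v'.1 x)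
        rw [w2, Perm.mul_apply, Perm.mul_apply, iap]
      ext y
      simp only [Finset.mem_filter, Finset.mem_univ, true_and, Set.mem_ofPred_eq]
      constructor
      · intro hy
        obtain ⟨b, b1, b2⟩ := h.trans (e y).2 (e x).2
        have := key y hy b b1
        rwa [show io (sw e) b y = e.symm ((e y).1, (e x).2) from gext e (by simp) (by simp [b2])]
          at this
      · intro hy
        obtain ⟨b, b1, b2⟩ := h.trans (e x).2 (e y).2
        have := key _ hy b b1
        rwa [ka_pt, b2, Prod.mk.eta, symm_apply_apply] at this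
    have h1 : 5 ∣ Nat.card E := by
      refine dvd_trans ?_ (Subgroup.index_dvd_card (stabilizer E x))
      rw [index_stabilizer, hO, ncard_rows]
      exact hd.mul_left _
    have : Fact (Nat.Prime 5) := ⟨Nat.prime_five⟩
    obtain ⟨g, hg⟩ := exists_prime_orderOf_dvd_card' 5 h1
    obtain ⟨a, a1, a2⟩ := cube g g.2
    have : orderOf g ∣ 6 := orderOf_dvd_of_pow_eq_one (Subtype.ext (by
      show g.1 ^ (3 * 2) = 1
      rw [pow_mul, a1, ← map_pow, a2, map_one]))
    rw [hg] at this
    omega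
  have hwE : w ∈ E := ⟨hw, hc, ht⟩
  have hF : s.supportᶜ.card = 2 := by rw [Finset.card_compl, hs.card_support, h5]
  obtain ⟨a, ha⟩ := hR _ hF _ (X.pow_mem hw 2) fun x hx => by
    have h1 : (e (w x)).1 ∈ s.supportᶜ := by rwa [Finset.mem_compl, supp_pres hc, ← Finset.mem_compl]
    have h2 : (e (w (w x))).1 ∈ s.supportᶜ := by
      rwa [Finset.mem_compl, supp_pres hc, ← Finset.mem_compl]
    by_cases h3 : (e (w x)).1 = (e x).1
    · rw [sq, Perm.mul_apply, disc w hwE x h3, disc w hwE x h3]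
    refine disc _ (E.pow_mem hwE 2) x ?_
    rw [sq, Perm.mul_apply]
    by_contra h4
    have h5 : (e (w (w x))).1 ≠ (e (w x)).1 := fun h5 =>
      h3 (by rw [w.injective (disc w hwE _ h5)])
    have := Finset.card_le_card (show ({(e x).1, (e (w x)).1, (e (w (w x))).1} : Finset I) ⊆ _ from
      fun c hc => by
        simp only [Finset.mem_insert, Finset.mem_singleton] at hc
        rcases hc with rfl | rfl | rfl <;> assumption)
    rw [Finset.card_eq_three.2 ⟨_, _, _, Ne.symm h3, Ne.symm h4, Ne.symm h5, rfl⟩, hF] at this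
    omega
  obtain ⟨a', ha', -⟩ := cube w hwE
  exact ⟨a' * a⁻¹, by rw [map_mul, map_inv, ← ha', ← ha]; group⟩

theorem good_five (h : Hyp X e) (h5 : Fintype.card I = 5) (hd : 5 ∣ Fintype.card Λ)
    (hn : ¬ IsMultiplyPretransitive X Ω (Fintype.card Λ + 1)) : Good X e := by
  have : Nonempty Λ := Fintype.card_pos_iff.1 (by have := h.hl; omega)
  have hR := h.rig_all (j := 0) (by omega) (by simpa using hn)
  refine ⟨h.mem, fun u hu s hs hc => ?_⟩
  obtain ⟨a, b, hab, hF⟩ := Finset.card_eq_two.1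
    (show s.supportᶜ.card = 2 by rw [Finset.card_compl, hs.card_support, h5])
  have hs3 := tc_cube hs
  have hH : ∀ l ∈ s.support, HU e u l := by
    intro l hl
    have hl1 : s l ≠ l := mem_support.1 hl
    have hl2 : s (s l) ≠ s l := fun h' => hl1 (s.injective h')
    have hl3 : s (s (s l)) = l := by simpa [pow_succ] using congrArg (fun v : Perm I => v l) hs3
    have hl4 : s (s l) ≠ l := fun h' => hl1 (by rw [h'] at hl3; exact hl3)
    have hsupp : s.support = {l, s l, s (s l)} := (hs.support_eq_iff_mem_support.2 hl)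
    have hcases : ∀ c, c = l ∨ c = s l ∨ c = s (s l) ∨ c = a ∨ c = b := fun c => by
      by_cases hc : c ∈ s.support
      · rw [hsupp] at hc; simp only [Finset.mem_insert, Finset.mem_singleton] at hc; tauto
      · rw [← Finset.mem_compl, hF] at hc
        simp only [Finset.mem_insert, Finset.mem_singleton] at hc; tauto
    have ha : s a = a := notMem_support.1 (Finset.mem_compl.1 (by rw [hF]; simp))
    have hb : s b = b := notMem_support.1 (Finset.mem_compl.1 (by rw [hF]; simp))
    have n1 : l ≠ a := fun h' => hl1 (h' ▸ ha)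
    have n2 : l ≠ b := fun h' => hl1 (h' ▸ hb)
    have n3 : s l ≠ a := fun h' => n1 (s.injective (h'.trans ha.symm))
    have n4 : s l ≠ b := fun h' => n2 (s.injective (h'.trans hb.symm))
    have n5 : s (s l) ≠ a := fun h' => n3 (s.injective (h'.trans ha.symm))
    have n6 : s (s l) ≠ b := fun h' => n4 (s.injective (h'.trans hb.symm))
    let ζ := swap (s l) (s (s l)) * swap a b
    have z1 : ζ l = l := by
      rw [Perm.mul_apply, swap_apply_of_ne_of_ne n1 n2, swap_apply_of_ne_of_ne hl1.symm hl4.symm]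
    have z2 : ζ (s l) = s (s l) := by
      rw [Perm.mul_apply, swap_apply_of_ne_of_ne n3 n4, swap_apply_left]
    have z3 : ζ (s (s l)) = s l := by
      rw [Perm.mul_apply, swap_apply_of_ne_of_ne n5 n6, swap_apply_right]
    have z4 : ζ a = b := by
      rw [Perm.mul_apply, swap_apply_left, swap_apply_of_ne_of_ne n4.symm n6.symm]
    have z5 : ζ b = a := by
      rw [Perm.mul_apply, swap_apply_right, swap_apply_of_ne_of_ne n3.symm n5.symm]
    have hζ : sign ζ = 1 := by simp [ζ, sign_swap hl2.symm, sign_swap hab]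
    clear_value ζ
    have hinv : s * ζ * s = ζ := Equiv.ext fun c => by
      rcases hcases c with rfl | rfl | rfl | rfl | rfl <;>
        simp only [Perm.mul_apply, z1, z2, z3, z4, z5, hl3, ha, hb]
    have hfix : ∀ c, ζ c = c → c = l := fun c hc => by
      rcases hcases c with rfl | rfl | rfl | rfl | rfl
      · rfl
      · exact absurd (z2.symm.trans hc) hl2
      · exact absurd (z3.symm.trans hc) hl2.symm
      · exact absurd (z4.symm.trans hc) hab.symm
      · exact absurd (z5.symm.trans hc) hab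
    have horb : ∀ x, (e x).1 ∈ s.support → ∃ k : ℤ, io e ζ x = (io e s ^ k) x := fun x hx => by
      obtain ⟨k, hk⟩ : SameCycle s (e x).1 (ζ (e x).1) := hs.isCycle.sameCycle (mem_support.1 hx) (by
        rw [hsupp] at hx
        simp only [Finset.mem_insert, Finset.mem_singleton] at hx
        rcases hx with h' | h' | h' <;> rw [h']
        · rwa [z1]
        · rw [z2, hl3]; exact hl4.symm
        · rwa [z3])
      exact ⟨k, by rw [← map_zpow]; exact gext e (by rw [e_io, e_io, hk]) (by rw [e_io, e_io])⟩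
    have hi : io e s * io e ζ * io e s = io e ζ := by rw [← map_mul, ← map_mul, hinv]
    obtain ⟨a', ha'⟩ := h.triples h5 hd hR hs (w := (io e ζ)⁻¹ * (u * io e ζ * u⁻¹))
      (X.mul_mem (X.inv_mem (h.mem ζ hζ)) (X.mul_mem (X.mul_mem hu (h.mem ζ hζ)) (X.inv_mem hu)))
      (by
        have e1 : u * io e s * u⁻¹ = io e s := by rw [hc.eq, mul_inv_cancel_right]
        have e2 : io e s * (u * io e ζ * u⁻¹) * io e s = u * io e ζ * u⁻¹ := by
          conv_lhs => rw [← e1]
          conv_rhs => rw [← hi]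
          group
        show _ = _
        calc _ = (io e s * io e ζ)⁻¹ * (io e s * (u * io e ζ * u⁻¹) * io e s) := by group
          _ = io e s * (io e s * io e ζ * io e s)⁻¹ * (u * io e ζ * u⁻¹) := by rw [e2]; group
          _ = _ := by rw [hi, mul_assoc])
      (fun x hx => by
        obtain ⟨k, hk⟩ := horb (u⁻¹ x) (by rw [← supp_pres hc, api]; exact hx)
        have e1 : (u * io e ζ * u⁻¹) x = (io e s ^ k) x := by
          rw [Perm.mul_apply, Perm.mul_apply, hk, ← Perm.mul_apply, (hc.zpow_right k).eq,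
            Perm.mul_apply, api]
        have hy : (e ((io e ζ)⁻¹ ((io e s ^ k) x))).1 ∈ s.support := by
          rw [← map_zpow, ← map_inv, e_io, e_io]
          refine mem_support.2 fun h' => mem_support.1 (zpow_apply_mem_support.2 hx) (?_ :
            s ((s ^ k) (e x).1) = _)
          have := congrArg (fun v : Perm I => v (ζ⁻¹ ((s ^ k) (e x).1))) hinv
          simpa only [Perm.mul_apply, h', api] using this
        obtain ⟨k', hk'⟩ := horb _ hy
        rw [api] at hk'
        refine ⟨-k' + k, ?_⟩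
        rw [Perm.mul_apply, e1, zpow_add, Perm.mul_apply, zpow_neg, eq_comm, Perm.inv_eq_iff_eq]
        exact hk')
    have hz : u * io e ζ * u⁻¹ = io e (ζ * a') := by rw [map_mul, ← ha']; group
    intro x x' hx hxx
    have e1 : io e (ζ * a') (u x) = u x := by
      rw [← hz, Perm.mul_apply, Perm.mul_apply, iap, (io_fix e).2 (by rw [hx, z1])]
    have e2 : io e (ζ * a') (u x') = u x' := (io_fix e).2 (by rw [hxx]; exact (io_fix e).1 e1)
    rw [← hz, Perm.mul_apply, Perm.mul_apply, iap, u.apply_eq_iff_eq] at e2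
    exact hfix _ ((io_fix e).1 e2)
  refine nrm_of_gen hab fun s' h1 h2 h3 => conj_of_hu hR hu (K := s'.supportᶜ)
    (by rw [Finset.card_compl, h1.card_support, h5]) (fun c hc => hH c ?_) (h.mem s' h1.sign)
    fun c hc => by simpa using hc
  by_contra h'
  rw [← Finset.mem_compl, hF, Finset.mem_insert, Finset.mem_singleton] at h'
  rw [Finset.mem_compl, notMem_support] at hc
  rcases h' with rfl | rfl
  exacts [h2 hc, h3 hc]

end Hyp

end CL.Grid
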