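import Cfsg.Agent.PERM.Grid3
import Cfsg.Agent.S4220

/-!
Overgroups of the product action wreath product `A_m ≀ S_k`: they lie in `S_m ≀ S_k` or contain
the alternating group.
-/

set_option autoImplicit false

namespace CL.Grid

open Equiv Equiv.Perm MulAction Function

section NonAff

variable {I Λ Λ' : Type*} [Fintype I] [DecidableEq I] [Fintype Λ] [Fintype Λ'] [Nonempty Λ']

theorem nonaff {G : Subgroup (Perm Λ)} (hG : RP G Λ) (e : Λ ≃ I × Λ') {s : Perm I}
    (hs : io e s ∈ G) {c : I} (hc : s c = c) (hd : ¬ s.supportᶜ.card ∣ Fintype.card I)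
    (Z : Subgroup (Perm Λ)) (hZ : ∀ a ∈ Z, ∀ b ∈ Z, Commute a b)
    (hn : ∀ b ∈ G, ∀ z ∈ Z, b * z * b⁻¹ ∈ Z) : Z = ⊥ := by
  by_contra hb
  obtain ⟨z₀, hz₀, hz1⟩ := (Subgroup.bot_or_exists_ne_one Z).resolve_left hb
  have ht : ∀ x y, ∃ z ∈ Z, z x = y := by
    refine (hG (fun x y => ∃ z ∈ Z, z x = y) ⟨fun x => ⟨1, Z.one_mem, rfl⟩,
      fun ⟨z, h1, h2⟩ => ⟨z⁻¹, Z.inv_mem h1, by rw [← h2, iap]⟩,
      fun ⟨z, h1, h2⟩ ⟨z', h3, h4⟩ => ⟨z' * z, Z.mul_mem h3 h1, by rw [Perm.mul_apply, h2, h4]⟩⟩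
      (fun g x y ⟨z, h1, h2⟩ => ⟨_, hn g g.2 z h1, by
        show g.1 (z (g.1⁻¹ (g.1 x))) = g.1 y
        rw [iap, h2]⟩)).resolve_left fun h => hz1 (Equiv.ext fun x => (h _ _ ⟨z₀, hz₀, rfl⟩).symm)
  obtain ⟨f⟩ := ‹Nonempty Λ'›
  set x₀ := e.symm (c, f)
  have hx₀ : io e s x₀ = x₀ := (io_fix e).2 (by simpa [x₀] using hc)
  have hreg : ∀ z ∈ Z, ∀ z' ∈ Z, z x₀ = z' x₀ → z = z' := fun z h1 z' h2 h3 =>
    Equiv.ext fun y => by
      obtain ⟨w, w1, rfl⟩ := ht x₀ y
      rw [← Perm.mul_apply, (hZ z h1 w w1).eq, ← Perm.mul_apply, (hZ z' h2 w w1).eq,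
        Perm.mul_apply, Perm.mul_apply, h3]
  have h1 : Nat.card Z = Nat.card Λ := Nat.card_congr (Equiv.ofBijective (fun z => z.1 x₀)
    ⟨fun z z' h => Subtype.ext (hreg _ z.2 _ z'.2 h), fun y => by
      obtain ⟨z, h1, h2⟩ := ht x₀ y; exact ⟨⟨z, h1⟩, h2⟩⟩)
  have h2 : Nat.card (Z ⊓ Subgroup.centralizer {io e s} : Subgroup (Perm Λ)) =
      Nat.card {x | (e x).1 ∈ s.supportᶜ} := by
    refine Nat.card_congr (Equiv.ofBijective (fun z => ⟨z.1 x₀, ?_⟩)
      ⟨fun z z' h => Subtype.ext (hreg _ z.2.1 _ z'.2.1 (congrArg Subtype.val h)), fun y => ?_⟩)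
    · have := (Subgroup.mem_centralizer_singleton_iff.1 z.2.2)
      simp only [Set.mem_ofPred_eq, Finset.mem_compl, Perm.notMem_support]
      rw [← io_fix, fix_comm this, hx₀]
    · obtain ⟨z, h1, h2⟩ := ht x₀ y
      have hy : io e s y = y := (io_fix e).2 (by simpa using y.2)
      have := hreg _ (hn _ hs z h1) z h1 (by
        have : (io e s)⁻¹ x₀ = x₀ := by rw [Perm.inv_eq_iff_eq, hx₀]
        rw [Perm.mul_apply, Perm.mul_apply, this, h2, hy])
      exact ⟨⟨z, h1, Subgroup.mem_centralizer_singleton_iff.2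
        (mul_inv_eq_iff_eq_mul.1 this).symm⟩, Subtype.ext h2⟩
  have h3 := Subgroup.card_dvd_of_le (inf_le_left : Z ⊓ Subgroup.centralizer {io e s} ≤ Z)
  rw [h1, h2, Nat.card_coe_set_eq, ncard_rows, Nat.card_eq_fintype_card, card_eq e] at h3
  exact hd (Nat.dvd_of_mul_dvd_mul_right Fintype.card_pos h3)

end NonAff

theorem miller_arith (n : ℕ) : ∃ q p r, p.Prime ∧ 5 ^ (n + 2) = q * p + r ∧ 1 ≤ q ∧ q < p ∧
    q < r ∧ 2 < r ∧ r ≤ 5 ^ (n + 1) := by
  rcases n with _ | _ | n
  · exact ⟨4, 5, 5, by norm_num, by norm_num, by norm_num, by norm_num, by norm_num, by norm_num,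
      by norm_num⟩
  · exact ⟨8, 13, 21, by norm_num, by norm_num, by norm_num, by norm_num, by norm_num,
      by norm_num, by norm_num⟩
  set h := 5 ^ (n + 1 + 1 + 1) with hh
  have e1 : 5 ^ (n + 1 + 1 + 2) = 5 * h := by rw [hh]; ring
  have e2 : 125 ≤ h := by
    rw [hh, pow_succ, pow_succ, pow_succ]; have := Nat.one_le_pow n 5 (by norm_num); omega
  rw [e1]
  set N := Nat.sqrt (5 * h)
  have a1 : N * N ≤ 5 * h := Nat.sqrt_le _
  have a2 : 5 * h < (N + 1) * (N + 1) := Nat.lt_succ_sqrt _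
  have a3 : 25 ≤ N := Nat.le_sqrt.2 (by omega)
  obtain ⟨p, hp, p1, p2⟩ := Nat.exists_prime_lt_and_le_two_mul N (by omega)
  have a4 : 25 * N ≤ 5 * h := (Nat.mul_le_mul_right N a3).trans a1
  have b1 := Nat.div_add_mod (5 * h) p
  have b2 := Nat.mod_lt (5 * h) hp.pos
  have b3 : 2 ≤ 5 * h / p := (Nat.le_div_iff_mul_le hp.pos).2 (by omega)
  have b4 : 5 * h / p < p := (Nat.div_lt_iff_lt_mul hp.pos).2 (by nlinarith)
  obtain ⟨q, hq⟩ : ∃ q, 5 * h / p = q + 1 := ⟨_, (Nat.sub_add_cancel (by omega)).symm⟩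
  rw [hq] at b1 b3 b4
  exact ⟨q, p, p + 5 * h % p, hp, by nlinarith, by omega, by omega, by omega, by omega, by omega⟩

variable {K I : Type*}

/-- Elements of the wreath product in product action. -/
def wr (π : Perm K) (τ : K → Perm I) : Perm (K → I) where
  toFun f i := τ i (f (π.symm i))
  invFun g j := (τ (π j))⁻¹ (g (π j))
  left_inv f := by ext j; simp
  right_inv g := by ext i; simp

@[simp] theorem wr_apply (π : Perm K) (τ : K → Perm I) (f : K → I) (i : K) :
    wr π τ f i = τ i (f (π.symm i)) := rfl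

theorem wr_inv_apply (π : Perm K) (τ : K → Perm I) (g : K → I) (j : K) :
    (wr π τ)⁻¹ g j = (τ (π j))⁻¹ (g (π j)) := rfl

@[simp] theorem wr_symm_apply (π : Perm K) (τ : K → Perm I) (g : K → I) (j : K) :
    (wr π τ).symm g j = (τ (π j))⁻¹ (g (π j)) := rfl

@[simp] theorem one_symm_apply (j : K) : (1 : Perm K).symm j = j := rfl

/-- The wreath product in product action. -/
def WW (K I : Type*) : Subgroup (Perm (K → I)) where
  carrier := {σ | ∃ (π : Perm K) (τ : K → Perm I), ∀ f i, σ f i = τ i (f (π.symm i))}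
  one_mem' := ⟨1, 1, fun _ _ => rfl⟩
  mul_mem' := by
    rintro σ σ' ⟨π, τ, h⟩ ⟨π', τ', h'⟩
    exact ⟨π * π', fun i => τ i * τ' (π.symm i), fun f i => by
      rw [Perm.mul_apply, h, h']; rfl⟩
  inv_mem' := by
    rintro σ ⟨π, τ, h⟩
    refine ⟨π⁻¹, fun j => (τ (π j))⁻¹, fun f j => ?_⟩
    have := h (σ⁻¹ f) (π j)
    rw [api, symm_apply_apply] at this
    rw [eq_comm, Perm.inv_eq_iff_eq]
    exact this

theorem wr_mem (π : Perm K) (τ : K → Perm I) : wr π τ ∈ WW K I := ⟨π, τ, fun _ _ => rfl⟩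

/-- Two functions agree outside the index `j`. -/
def Adj (j : K) (f g : K → I) : Prop := ∀ i, i ≠ j → f i = g i

variable [Fintype K] [DecidableEq K] [DecidableEq I]

theorem hd_update (f o : K → I) (i : K) (a : I) :
    hammingDist f (update o i a) + (if f i = o i then 0 else 1) =
      hammingDist f o + if f i = a then 0 else 1 := by
  simp only [hammingDist, Finset.card_filter]
  rw [← Finset.add_sum_erase _ _ (Finset.mem_univ i), ← Finset.add_sum_erase _ _ (Finset.mem_univ i),
    Finset.sum_congr rfl (g := fun j => if f j ≠ o j then 1 else 0) fun j hj => by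
      rw [update_of_ne (Finset.ne_of_mem_erase hj)], update_self]
  by_cases h1 : f i = o i <;> by_cases h2 : f i = a <;> simp [h1, h2] <;> omega

omit [Fintype K] [DecidableEq I] in
theorem Adj.eq {j : K} {f g : K → I} (h : Adj j f g) : g = update f j (g j) := by
  ext i
  by_cases hi : i = j
  · rw [hi, update_self]
  · rw [update_of_ne hi, h i hi]

omit [Fintype K] [DecidableEq I] in
theorem adj_update (j : K) (f : K → I) (a : I) : Adj j f (update f j a) := fun _ hi =>
  (update_of_ne hi _ _).symm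

theorem hd_le {σ : Perm (K → I)} (h : ∀ i f g, Adj i f g → ∃ j, Adj j (σ f) (σ g)) (f g : K → I) :
    hammingDist (σ f) (σ g) ≤ hammingDist f g := by
  induction hn : hammingDist f g generalizing g with
  | zero => rw [hammingDist_eq_zero.1 hn, hammingDist_self]
  | succ n ih =>
    obtain ⟨i, hi⟩ : ∃ i, f i ≠ g i := by
      by_contra hh
      push Not at hh
      rw [funext hh, hammingDist_self] at hn
      omega
    have h1 := hd_update f g i (f i)
    rw [if_neg hi, if_pos rfl] at h1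
    obtain ⟨j, hj⟩ := h i _ _ (adj_update i g (f i))
    have h2 := hd_update (σ f) (σ g) j (σ (update g i (f i)) j)
    rw [← hj.eq] at h2
    have := ih (update g i (f i)) (by omega)
    split_ifs at h2 <;> omega

theorem mem_WW_of_adj [Fintype I] (hm : 2 ≤ Fintype.card I) {σ : Perm (K → I)}
    (h : ∀ i f g, Adj i f g → ∃ j, Adj j (σ f) (σ g))
    (h' : ∀ i f g, Adj i f g → ∃ j, Adj j (σ⁻¹ f) (σ⁻¹ g)) : σ ∈ WW K I := by
  have hd : ∀ f g, hammingDist (σ f) (σ g) = hammingDist f g := fun f g =>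
    le_antisymm (hd_le h f g) (by simpa only [iap] using hd_le h' (σ f) (σ g))
  obtain ⟨c, c', hc⟩ := Fintype.exists_pair_of_one_lt_card (α := I) (by omega)
  let o : K → I := fun _ => c
  choose π hπ using fun i => h i o (update o i c') (adj_update i o c')
  have hne : ∀ i, σ (update o i c') (π i) ≠ σ o (π i) := fun i h1 => by
    have := (hπ i).eq
    rw [h1, update_eq_self, σ.apply_eq_iff_eq] at this
    exact hc (by simpa [o] using (congrFun this i).symm)
  have hπ' : ∀ i a, Adj (π i) (σ o) (σ (update o i a)) := fun i a => by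
    obtain ⟨j, hj⟩ := h i _ _ (adj_update i o a)
    by_cases hji : j = π i
    · exact hji ▸ hj
    obtain ⟨l, hl⟩ := h i (update o i c') (update o i a) fun i' hi' => by
      rw [update_of_ne hi', update_of_ne hi']
    intro i' hi'
    by_cases hij : i' = j
    · have : l = π i := by
        by_contra hl'
        exact hne i ((hl _ (Ne.symm hl')).trans (hj _ (Ne.symm hji)).symm)
      rw [hπ i i' hi', hl i' (this ▸ hi')]
    · exact hj i' hij
  have key : ∀ f i, σ f (π i) = σ (update o i (f i)) (π i) := fun f i => by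
    by_cases hf : f i = c
    · have h1 := hd_update f o i c'
      have h2 := hd_update (σ f) (σ o) (π i) (σ (update o i c') (π i))
      rw [← (hπ i).eq, hd, hd] at h2
      rw [if_pos hf, if_neg (hf ▸ hc)] at h1
      rw [hf, update_eq_self]
      split_ifs at h2 <;> first | assumption | omega
    · have h1 := hd_update f o i (f i)
      have h2 := hd_update (σ f) (σ o) (π i) (σ (update o i (f i)) (π i))
      rw [← (hπ' i _).eq, hd, hd] at h2
      rw [if_neg hf, if_pos rfl] at h1
      split_ifs at h2 <;> first | assumption | omega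
  have hinj : Injective π := fun i i' hi => by
    by_contra hii
    have := key (update o i c') i'
    rw [update_of_ne (Ne.symm hii), update_eq_self, ← hi] at this
    exact hne i this
  let π' : Perm K := Equiv.ofBijective π (Finite.injective_iff_bijective.1 hinj)
  have hτ : ∀ i, Injective fun a => σ (update o i a) (π i) := fun i a b hab => by
    have := (hπ' i a).eq
    rw [show σ (update o i a) (π i) = σ (update o i b) (π i) from hab, ← (hπ' i b).eq,
      σ.apply_eq_iff_eq] at this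
    simpa using congrFun this i
  refine ⟨π', fun j => Equiv.ofBijective _ (Finite.injective_iff_bijective.1 (hτ (π'.symm j))),
    fun f j => ?_⟩
  obtain ⟨i, rfl⟩ := π'.surjective j
  rw [symm_apply_apply]
  show _ = σ (update o (π'.symm (π' i)) (f i)) (π (π'.symm (π' i)))
  rw [symm_apply_apply]
  exact key f i

variable [Fintype I]

/-- The group contains the even base group and enough elements permuting the coordinates. -/
structure HX (X : Subgroup (Perm (K → I))) : Prop where
  base : ∀ τ : K → Perm I, (∀ i, sign (τ i) = 1) → wr 1 τ ∈ X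
  top : ∀ j j', ∃ τ : K → Perm I, (∀ i, i ≠ j → i ≠ j' → τ i = 1) ∧ wr (swap j j') τ ∈ X
  six : Fintype.card I = 6 → ∀ τ : K → Perm I, wr 1 τ ∈ X

omit [Fintype K] in
theorem HX.single {X : Subgroup (Perm (K → I))} (h : HX X) (i : K) {s : Perm I} (hs : sign s = 1) :
    ∃ b ∈ X, ∀ f, b f = update f i (s (f i)) :=
  ⟨_, h.base (update 1 i s) fun j => by
    by_cases hj : j = i
    · rw [hj, update_self, hs]
    · rw [update_of_ne hj]; simp, fun f => funext fun j => by
    by_cases hj : j = i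
    · subst hj; simp
    · simp [update_of_ne hj]⟩

theorem HX.rp {X : Subgroup (Perm (K → I))} (h : HX X) (hm : 4 ≤ Fintype.card I) :
    RP X (K → I) := by
  intro r hr hi
  have hi' : ∀ b ∈ X, ∀ f g, r f g → r (b f) (b g) := fun b hb => hi ⟨b, hb⟩
  rw [or_iff_not_imp_left]
  intro hh
  push Not at hh
  obtain ⟨f, g, hfg, hne⟩ := hh
  obtain ⟨i, hi0⟩ := Function.ne_iff.1 hne
  obtain ⟨s, s1, s2, s3⟩ := exists_tc_fix {f i} (by simpa using hm) (d := g i)
    (by simpa using hi0.symm)
  obtain ⟨b, b1, b2⟩ := h.single i s1.sign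
  have h1 : r g (update g i (s (g i))) := by
    have := hi' b b1 f g hfg
    rw [b2, b2, s3 _ (by simp), update_eq_self] at this
    exact hr.trans (hr.symm hfg) this
  have h2 : ∀ x c, r x (update x i c) := fun x c => by
    by_cases hc : c = x i
    · rw [hc, update_eq_self]; exact hr.refl _
    choose τ t1 t2 t3 using fun j => exists_even_to Finset.univ (by simp; omega)
      (Finset.mem_univ (g j)) (Finset.mem_univ (x j))
    obtain ⟨ρ, r1, r2, r3⟩ := exists_even_fix {x i} (by simpa using hm) (d := τ i (s (g i)))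
      (d' := c) (by simpa [← t2 i] using s2) (by simpa using hc)
    obtain ⟨k, k1, k2⟩ := h.single i r1
    have := hi' k k1 _ _ (hi' _ (h.base τ t1) _ _ h1)
    have e1 : wr 1 τ g = x := funext fun j => t2 j
    have e2 : wr 1 τ (update g i (s (g i))) = update x i (τ i (s (g i))) := funext fun j => by
      by_cases hj : j = i
      · subst hj; simp
      · simp [update_of_ne hj, t2]
    rwa [e1, e2, k2, k2, r3 _ (by simp), update_eq_self, update_self, update_idem, r2] at this
  have h3 : ∀ j x c, r x (update x j c) := fun j x c => by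
    obtain ⟨τ, -, hτ⟩ := h.top i j
    have := hi' _ hτ _ _ (h2 ((wr (swap i j) τ)⁻¹ x) ((τ j)⁻¹ c))
    rw [api] at this
    convert this using 1
    ext l
    by_cases hl : l = j
    · subst hl; simp
    · have : swap i j l ≠ i := fun h' => hl (by simpa using congrArg (swap i j) h')
      simp [update_of_ne hl, update_of_ne this]
  intro x y
  have : ∀ S : Finset K, r x (S.piecewise y x) := fun S => by
    induction S using Finset.induction_on with
    | empty => simpa using hr.refl x
    | insert j S _ ih => rw [Finset.piecewise_insert]; exact hr.trans ih (h3 _ _ _)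
  simpa using this Finset.univ

omit [Fintype K] in
theorem HX.fx {X : Subgroup (Perm (K → I))} (h : HX X) (hm : 4 ≤ Fintype.card I) (f g : K → I)
    (hne : f ≠ g) : ∃ b ∈ X, b f = f ∧ b g ≠ g := by
  obtain ⟨i, hi0⟩ := Function.ne_iff.1 hne
  obtain ⟨s, s1, s2, s3⟩ := exists_tc_fix {f i} (by simpa using hm) (d := g i)
    (by simpa using hi0.symm)
  obtain ⟨b, b1, b2⟩ := h.single i s1.sign
  exact ⟨b, b1, by rw [b2, s3 _ (by simp), update_eq_self], fun h' => s2 (by
    simpa [b2] using congrFun h' i)⟩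

theorem HX.prim {X : Subgroup (Perm (K → I))} (h : HX X) (hm : 4 ≤ Fintype.card I) :
    IsPreprimitive X (K → I) :=
  (h.rp hm).prim ⟨fun f g => by
    choose τ t1 t2 t3 using fun j => exists_even_to Finset.univ (by simp; omega)
      (Finset.mem_univ (f j)) (Finset.mem_univ (g j))
    exact ⟨⟨_, h.base τ t1⟩, funext fun j => t2 j⟩⟩

/-- The grid given by the first coordinate. -/
def e0 (n : ℕ) (I : Type*) : (Fin (n + 1) → I) ≃ I × (Fin n → I) where
  toFun f := (f 0, fun j => f j.succ)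
  invFun p := Fin.cons p.1 p.2
  left_inv f := Fin.cons_self_tail f
  right_inv _ := rfl

omit [DecidableEq I] [Fintype I] in
theorem io_e0 (n : ℕ) (σ : Perm I) : io (e0 n I) σ = wr 1 (Fin.cons σ 1) :=
  Equiv.ext fun f => (e0 n I).injective (by rw [e_io]; rfl)

theorem HX.tail {n : ℕ} {X : Subgroup (Perm (Fin (n + 1) → I))} (h : HX X) :
    HX (X.comap (io (sw (e0 n I)))) := by
  have key : ∀ τ : Fin n → Perm I, io (sw (e0 n I)) (wr 1 τ) = wr 1 (Fin.cons 1 τ) := fun τ =>
    Equiv.ext fun f => (e0 n I).injective (by rw [e_ka]; rfl)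
  refine ⟨fun τ hτ => ?_, fun j j' => ?_, fun h6 τ => ?_⟩
  · rw [Subgroup.mem_comap, key]
    exact h.base _ fun i => Fin.cases (map_one _) hτ i
  · obtain ⟨τ, t1, t2⟩ := h.top j.succ j'.succ
    refine ⟨fun i => τ i.succ, fun i h1 h2 => t1 _ (by simpa using h1) (by simpa using h2), ?_⟩
    rw [Subgroup.mem_comap]
    convert t2 using 1
    refine Equiv.ext fun f => (e0 n I).injective ?_
    rw [e_ka]
    refine Prod.ext ?_ (funext fun i => ?_)
    · show f 0 = τ 0 (f (swap j.succ j'.succ 0))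
      rw [t1 0 (Fin.succ_ne_zero j).symm (Fin.succ_ne_zero j').symm,
        swap_apply_of_ne_of_ne (Fin.succ_ne_zero j).symm (Fin.succ_ne_zero j').symm]
      rfl
    · show τ i.succ (f (swap j j' i).succ) = τ i.succ (f (swap j.succ j'.succ i.succ))
      rw [(Fin.succ_injective n).swap_apply]
  · rw [Subgroup.mem_comap, key]; exact h.six h6 _

theorem HX.io_mem {n : ℕ} {X : Subgroup (Perm (Fin (n + 1) → I))} (h : HX X) (σ : Perm I)
    (hσ : sign σ = 1) : io (e0 n I) σ ∈ X := by
  rw [io_e0]; exact h.base _ fun i => Fin.cases hσ (fun _ => map_one _) i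

theorem HX.na {n : ℕ} {X : Subgroup (Perm (Fin (n + 1) → I))} (h : HX X)
    (hm : 5 ≤ Fintype.card I) (Z : Subgroup (Perm (Fin (n + 1) → I)))
    (hZ : ∀ a ∈ Z, ∀ b ∈ Z, Commute a b) (hn : ∀ b ∈ X, ∀ z ∈ Z, b * z * b⁻¹ ∈ Z) : Z = ⊥ := by
  obtain ⟨c⟩ : Nonempty I := Fintype.card_pos_iff.1 (by omega)
  have : Nonempty I := ⟨c⟩
  obtain ⟨d, hd⟩ : ({c} : Finset I)ᶜ.Nonempty := by
    rw [← Finset.card_pos, Finset.card_compl, Finset.card_singleton]; omega
  by_cases h6 : Fintype.card I = 6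
  · obtain ⟨d', hd'⟩ : ({c, d} : Finset I)ᶜ.Nonempty := by
      have : ({c, d} : Finset I).card ≤ 2 := Finset.card_le_two
      rw [← Finset.card_pos, Finset.card_compl]; omega
    simp only [Finset.mem_compl, Finset.mem_insert, Finset.mem_singleton, not_or] at hd hd'
    refine nonaff (h.rp (by omega)) (e0 n I) (s := swap d d') (by rw [io_e0]; exact h.six h6 _)
      (swap_apply_of_ne_of_ne (Ne.symm hd) (Ne.symm hd'.1)) ?_ Z hZ hn
    rw [Finset.card_compl, card_support_swap (Ne.symm hd'.2), h6]; norm_num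
  · obtain ⟨s, s1, -, s3⟩ := exists_tc_fix {c} (by simp; omega) (Finset.mem_compl.1 hd)
    refine nonaff (h.rp (by omega)) (e0 n I) (h.io_mem s s1.sign) (s3 c (by simp)) ?_ Z hZ hn
    rw [Finset.card_compl, s1.card_support]
    intro hdv
    have := (Nat.dvd_sub_iff_right (Nat.sub_le _ 3) hdv).2 dvd_rfl
    rw [show Fintype.card I - (Fintype.card I - 3) = 3 by omega] at this
    rcases (Nat.dvd_prime Nat.prime_three).1 this with h' | h' <;> omega

theorem HX.good {n : ℕ} {X : Subgroup (Perm (Fin (n + 2) → I))} (h : HX X)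
    (hm : 5 ≤ Fintype.card I) (hA : ¬ alternatingGroup _ ≤ X) : Good X (e0 (n + 1) I) := by
  have hc : Fintype.card (Fin (n + 1) → I) = Fintype.card I ^ (n + 1) := by simp
  have hH : Hyp X (e0 (n + 1) I) :=
    ⟨hm, by rw [hc, pow_succ]; nlinarith [Nat.one_le_pow n _ (show 0 < Fintype.card I by omega)],
      h.io_mem, h.tail.rp (by omega), h.tail.na hm, h.tail.fx (by omega), h.prim (by omega), hA⟩
  rcases (show Fintype.card I = 5 ∨ Fintype.card I = 6 ∨ 7 ≤ Fintype.card I by omega) with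
    h5 | h6 | h7
  · refine hH.good_five h5 (by rw [hc, h5]; exact dvd_pow_self _ (by omega)) fun ht => hA ?_
    obtain ⟨q, p, r, a1, a2, a3, a4, a5, a6, a7⟩ := miller_arith n
    have hc2 : Fintype.card (Fin (n + 2) → I) = 5 ^ (n + 2) := by simp [h5]
    rw [hc, h5] at ht
    refine Cfsg.Agent.S4220.result X a1 (hc2.trans a2) a3 a4 a5 (by omega)
      (isMultiplyPretransitive_of_le (n := 5 ^ (n + 1) + 1) (by omega) ?_)
    rw [Nat.card_eq_fintype_card, hc2, pow_succ 5 (n + 1)]
    omega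
  · exact hH.good_six h6 fun σ => by rw [io_e0]; exact h.six h6 _
  · exact hH.good_seven h7

/-- Overgroups of the product action. -/
theorem HX.main {n : ℕ} {X : Subgroup (Perm (Fin (n + 2) → I))} (h : HX X)
    (hm : 5 ≤ Fintype.card I) : X ≤ WW _ _ ∨ alternatingGroup _ ≤ X := by
  rw [or_iff_not_imp_right]
  intro hA
  have : Nonempty I := Fintype.card_pos_iff.1 (by omega)
  choose τ t1 t2 using fun j => h.top 0 j
  have row : ∀ j f, (tr (wr (swap 0 j) (τ j)) (e0 (n + 1) I) f).1 = (τ j j)⁻¹ (f j) := fun j f => by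
    show (wr (swap 0 j) (τ j))⁻¹ f 0 = _
    rw [wr_inv_apply, swap_apply_left]
  have col : ∀ j f g, (tr (wr (swap 0 j) (τ j)) (e0 (n + 1) I) f).2 =
      (tr (wr (swap 0 j) (τ j)) (e0 (n + 1) I) g).2 ↔ Adj j f g := fun j f g => by
    constructor
    · intro h1 i hi
      obtain ⟨l, hl⟩ := Fin.exists_succ_eq.2 (show swap 0 j i ≠ 0 from fun h' =>
        hi (by simpa using congrArg (swap 0 j) h'))
      have : (wr (swap 0 j) (τ j))⁻¹ f l.succ = (wr (swap 0 j) (τ j))⁻¹ g l.succ := congrFun h1 l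
      simpa [wr_inv_apply, hl] using this
    · intro h1
      ext l
      show (wr (swap 0 j) (τ j))⁻¹ f l.succ = (wr (swap 0 j) (τ j))⁻¹ g l.succ
      rw [wr_inv_apply, wr_inv_apply, h1 _ fun h' => Fin.succ_ne_zero l (by
        simpa using congrArg (swap 0 j) h')]
  have hio : ∀ j σ f, io (tr (wr (swap 0 j) (τ j)) (e0 (n + 1) I)) σ f =
      update f j (τ j j (σ ((τ j j)⁻¹ (f j)))) := fun j σ f =>
    gext _ (by rw [e_io, row, row, update_self, iap]) (by
      rw [e_io]; exact (col j _ _).2 (adj_update _ _ _))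
  have key : ∀ u ∈ X, ∀ i f g, Adj i f g → ∃ j, Adj j (u f) (u g) := by
    intro u hu i f g hfg
    obtain ⟨j, hj⟩ := (h.good hm hA).line hm (fun j => wr (swap 0 j) (τ j)) t2
      (fun j j' hj σ _ σ' _ => Equiv.ext fun x => by
        rw [Perm.mul_apply, Perm.mul_apply, hio, hio, hio, hio, update_of_ne hj,
          update_of_ne hj.symm, update_comm hj])
      (fun x y hxy => funext fun j => by
        have := hxy j
        rwa [row, row, Equiv.apply_eq_iff_eq] at this)
      (X.mul_mem hu (t2 i)) ((col i f g).2 hfg)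
    rw [Perm.mul_apply, Perm.mul_apply, api, api, col] at hj
    exact ⟨j, hj⟩
  exact fun u hu => mem_WW_of_adj (by omega) (key u hu) (key _ (X.inv_mem hu))

end CL.Grid
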