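import Mathlib
import Cfsg.Agent.SPOR.HK.Fr

/-! S3340: algebra and finite checks on the codes of `2 × 2` matrices over `𝔽₄`. -/

set_option autoImplicit false
set_option maxRecDepth 100000

namespace CL.HK.X

open CL.K

theorem en_lt (X i : ℕ) : en X i < 4 := Nat.lt_succ_of_le Nat.and_le_right

theorem en_mx : ∀ p < 4, ∀ q < 4, ∀ r < 4, ∀ s < 4, en (mx p q r s) 0 = p ∧ en (mx p q r s) 1 = q ∧
    en (mx p q r s) 2 = r ∧ en (mx p q r s) 3 = s := by decide +kernel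

theorem fm_ring : ∀ a < 4, ∀ b < 4, ∀ c < 4, fm (fm a b) c = fm a (fm b c) ∧
    fm (a ^^^ b) c = fm a c ^^^ fm b c ∧ fm a (b ^^^ c) = fm a b ^^^ fm a c := by decide +kernel

theorem mm_eq (A B : ℕ) : mm A B =
    mx (fm (en A 0) (en B 0) ^^^ fm (en A 1) (en B 2)) (fm (en A 0) (en B 1) ^^^ fm (en A 1) (en B 3))
      (fm (en A 2) (en B 0) ^^^ fm (en A 3) (en B 2)) (fm (en A 2) (en B 1) ^^^ fm (en A 3) (en B 3)) := by
  rw [mm, force_eq, force_eq]; rfl

theorem en_mm (A B : ℕ) : en (mm A B) 0 = fm (en A 0) (en B 0) ^^^ fm (en A 1) (en B 2) ∧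
    en (mm A B) 1 = fm (en A 0) (en B 1) ^^^ fm (en A 1) (en B 3) ∧
    en (mm A B) 2 = fm (en A 2) (en B 0) ^^^ fm (en A 3) (en B 2) ∧
    en (mm A B) 3 = fm (en A 2) (en B 1) ^^^ fm (en A 3) (en B 3) := by
  have x : ∀ a b c d, fm a b ^^^ fm c d < 4 := fun a b c d => Nat.xor_lt_two_pow (fm_lt a b) (fm_lt c d)
  exact mm_eq A B ▸ en_mx _ (x _ _ _ _) _ (x _ _ _ _) _ (x _ _ _ _) _ (x _ _ _ _)

theorem mm_assoc (A B C : ℕ) : mm (mm A B) C = mm A (mm B C) := by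
  have k := en_mm
  have l : ∀ a b c d (Z i : ℕ), fm (fm a b ^^^ fm c d) (en Z i) = fm (fm a b) (en Z i) ^^^ fm (fm c d) (en Z i) :=
    fun a b c d Z i => (fm_ring _ (fm_lt a b) _ (fm_lt c d) _ (en_lt Z i)).2.1
  have r : ∀ a b c d (Z i : ℕ), fm (en Z i) (fm a b ^^^ fm c d) = fm (en Z i) (fm a b) ^^^ fm (en Z i) (fm c d) :=
    fun a b c d Z i => (fm_ring _ (en_lt Z i) _ (fm_lt a b) _ (fm_lt c d)).2.2
  have s : ∀ X i Y j Z k : ℕ, fm (fm (en X i) (en Y j)) (en Z k) = fm (en X i) (fm (en Y j) (en Z k)) :=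
    fun X i Y j Z k => (fm_ring _ (en_lt X i) _ (en_lt Y j) _ (en_lt Z k)).1
  rw [mm_eq (mm A B), mm_eq A (mm B C), (k A B).1, (k A B).2.1, (k A B).2.2.1, (k A B).2.2.2, (k B C).1,
    (k B C).2.1, (k B C).2.2.1, (k B C).2.2.2]
  simp only [l, r, s]
  congr 1 <;> ac_rfl

theorem en_xor (X Y i : ℕ) : en (X ^^^ Y) i = en X i ^^^ en Y i := by
  show ((X ^^^ Y) >>> _) &&& 3 = ((X >>> _) &&& 3) ^^^ ((Y >>> _) &&& 3)
  rw [Nat.shiftRight_xor_distrib, Nat.and_xor_distrib_right]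

theorem mx_en {X : ℕ} (hX : X < 256) : mx (en X 0) (en X 1) (en X 2) (en X 3) = X :=
  Nat.eq_of_beq_eq_true (all256 (P := fun X => Nat.beq (mx (en X 0) (en X 1) (en X 2) (en X 3)) X)
    (by decide +kernel) hX)

theorem mm_xor (A X Y : ℕ) : mm A (X ^^^ Y) = mm A X ^^^ mm A Y := by
  have r : ∀ i j, fm (en A i) (en X j ^^^ en Y j) = fm (en A i) (en X j) ^^^ fm (en A i) (en Y j) :=
    fun i j => (fm_ring _ (en_lt A i) _ (en_lt X j) _ (en_lt Y j)).2.2
  rw [← mx_en (xor_lt (mm_lt A X) (mm_lt A Y)), mm_eq A (X ^^^ Y)]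
  simp only [en_xor, r, (en_mm A _).1, (en_mm A _).2.1, (en_mm A _).2.2.1, (en_mm A _).2.2.2]
  congr 1 <;> ac_rfl

/-- the adjugate matrix -/
noncomputable def adj (A : ℕ) : ℕ := force A fun A => mx (en A 3) (en A 1) (en A 2) (en A 0)

theorem one_mm {X : ℕ} (hX : X < 256) : mm 65 X = X ∧ mm X 65 = X := by
  have := all256 (P := fun X => Nat.beq (mm 65 X) X && Nat.beq (mm X 65) X) (by decide +kernel) hX
  simpa only [Bool.and_eq_true, Nat.beq_eq] using this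

theorem adj_spec {a : ℕ} (ha : SL a) : SL (adj a) ∧ mm (adj a) a = 65 ∧ mm a (adj a) = 65 := by
  have := all256 (P := fun a => !Nat.beq (det a) 1 || (Nat.blt (adj a) 256 && Nat.beq (det (adj a)) 1 &&
    Nat.beq (mm (adj a) a) 65 && Nat.beq (mm a (adj a)) 65)) (by decide +kernel) ha.1
  simp only [ha.2, Nat.beq_refl, Bool.not_true, Bool.false_or, Bool.and_eq_true, Nat.beq_eq,
    Nat.blt_eq] at this
  exact ⟨this.1.1, this.1.2, this.2⟩

theorem adj_l {a X : ℕ} (ha : SL a) (hX : X < 256) : mm (adj a) (mm a X) = X := by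
  rw [← mm_assoc, (adj_spec ha).2.1, (one_mm hX).1]

theorem adj_r {a X : ℕ} (ha : SL a) (hX : X < 256) : mm a (mm (adj a) X) = X := by
  rw [← mm_assoc, (adj_spec ha).2.2, (one_mm hX).1]

theorem sl_mm {a b : ℕ} (ha : SL a) (hb : SL b) : SL (mm a b) := ⟨mm_lt _ _, (det_mm ha hb.1).1.trans hb.2⟩

theorem sl_of {a : ℕ} (h : (Nat.blt a 256 && Nat.beq (det a) 1) = true) : SL a := by
  simpa only [SL, Bool.and_eq_true, Nat.beq_eq, Nat.blt_eq] using h

theorem fe0 (X : ℕ) : fe 0 X = X := rfl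

theorem fe1_mm {X Y : ℕ} (hX : X < 256) (hY : Y < 256) : fe 1 (mm X Y) = mm (fe 1 Y) (fe 1 X) :=
  Nat.eq_of_beq_eq_true (all2 (P := fun X Y => Nat.beq (fe 1 (mm X Y)) (mm (fe 1 Y) (fe 1 X)))
    (by decide +kernel) hX hY)

theorem fe1_fe1 {X : ℕ} (hX : X < 256) : fe 1 (fe 1 X) = X :=
  Nat.eq_of_beq_eq_true (all256 (P := fun X => Nat.beq (fe 1 (fe 1 X)) X) (by decide +kernel) hX)

theorem sl_fe {a : ℕ} (ha : SL a) : SL (fe 1 a) :=
  ⟨fe_lt (by norm_num) ha.1, (det_fe (by norm_num) ha.1).2.2.2 ha.2⟩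

theorem act_one {X : ℕ} (hX : X < 256) : act 65 65 0 X = X := by
  rw [act, fe0, (one_mm hX).2, (one_mm hX).1]

theorem act_adj {c d X : ℕ} (hc : SL c) (hd : SL d) (hX : X < 256) :
    act (adj c) (adj d) 0 (act c d 0 X) = X := by
  simp only [act, fe0, mm_assoc]
  rw [(adj_spec hd).2.2, (one_mm hX).2, adj_l hc hX]

theorem act_act (c d a b e X : ℕ) : act c d 0 (act a b e X) = act (mm c a) (mm b d) e X := by
  simp only [act, fe0, mm_assoc]

/-- pure pairs of codes -/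
def Pu (X Y : ℕ) : Prop := det X = 1 ∧ det Y = 1 ∧ det (X ^^^ Y) = 1

theorem pu_to {X Y : ℕ} (hX : X < 256) (hY : Y < 256) (h : Pu X Y) :
    ∃ c d, SL c ∧ SL d ∧ act c d 0 X = 20 ∧ act c d 0 Y = 44 := by
  have := all2 (P := fun X Y => !(Nat.beq (det X) 1 && Nat.beq (det Y) 1 && Nat.beq (det (Nat.xor X Y)) 1) ||
    force (mm (adj X) Y) fun g => anyLt (fun d => force d fun d => Nat.beq (det d) 1 &&
      Nat.beq (mm 20 (mm (adj d) (mm g d))) 44 &&
      force (mm 20 (mm (adj d) (adj X))) fun c => Nat.beq (det c) 1 && Nat.beq (act c d 0 X) 20 &&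
        Nat.beq (act c d 0 Y) 44) 256) (by decide +kernel) hX hY
  have h3 : det (Nat.xor X Y) = 1 := h.2.2
  simp only [h.1, h.2.1, h3, Nat.beq_refl, Bool.and_self, Bool.not_true, Bool.false_or, force_eq, anyLt_iff,
    Bool.and_eq_true, Nat.beq_eq] at this
  obtain ⟨d, hd, ⟨h1, -⟩, ⟨h2, h4⟩, h5⟩ := this
  exact ⟨_, d, ⟨mm_lt _ _, h2⟩, ⟨hd, h1⟩, h4, h5⟩

theorem bf2 : ∀ s s' : Bool, ∃ Z < 256, bf Z 20 = s ∧ bf Z 44 = s' := by decide +kernel

theorem det_cases {X : ℕ} (hX : X < 256) (h : q X = false) : X = 0 ∨ rk X = true ∨ det X = 1 := by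
  have := all256 (P := fun X => q X || Nat.beq X 0 || rk X || Nat.beq (det X) 1) (by decide +kernel) hX
  simpa only [h, Bool.false_or, Bool.or_eq_true, Nat.beq_eq, or_assoc] using this

theorem q_det {X : ℕ} (h : det X = 1) : q X = false := by rw [q, h]; rfl

theorem ne0 {X : ℕ} (h : det X = 1) : X ≠ 0 := by rintro rfl; revert h; decide +kernel

theorem q_to {X : ℕ} (hX : X < 256) (h : q X = true) : ∃ a, SL a ∧ (mm a X = 130 ∨ mm a X = 195) := by
  have := all256 (P := fun X => !q X || anyLt (fun a => force a fun a => Nat.beq (det a) 1 &&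
    (Nat.beq (mm a X) 130 || Nat.beq (mm a X) 195)) 256) (by decide +kernel) hX
  simp only [h, Bool.not_true, Bool.false_or, force_eq, anyLt_iff, Bool.and_eq_true, Bool.or_eq_true,
    Nat.beq_eq] at this
  obtain ⟨a, h1, h2, h3⟩ := this
  exact ⟨a, ⟨h1, h2⟩, h3⟩

theorem invol {c : ℕ} (hc : SL c) (h : mm c c = 65) : c = 65 ∨ ∃ k, SL k ∧ mm k c = mm 20 k := by
  have := all256 (P := fun c => !(Nat.beq (det c) 1 && Nat.beq (mm c c) 65) || Nat.beq c 65 ||
    anyLt (fun k => force k fun k => Nat.beq (det k) 1 && Nat.beq (mm k c) (mm 20 k)) 256)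
    (by decide +kernel) hc.1
  simp only [hc.2, h, Nat.beq_refl, Bool.and_self, Bool.not_true, Bool.false_or, force_eq, anyLt_iff,
    Bool.and_eq_true, Bool.or_eq_true, Nat.beq_eq] at this
  exact this.imp_right fun ⟨k, h1, h2, h3⟩ => ⟨k, ⟨h1, h2⟩, h3⟩

theorem sq_tri {a b e : ℕ} (ha : SL a) (hb : SL b) (he : e < 2)
    (h : ∀ X < 256, act a b e (act a b e X) = X) :
    (e = 0 ∧ mm a a = 65 ∧ mm b b = 65) ∨ (e = 1 ∧ mm (fe 1 a) b = 65) := by
  have := allT_spec (n := 2) (P := fun a b e =>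
    !([1, 4, 16, 64].all fun X => Nat.beq (act a b e (act a b e X)) X) ||
      (Nat.beq e 0 && Nat.beq (mm a a) 65 && Nat.beq (mm b b) 65) ||
      (Nat.beq e 1 && Nat.beq (mm (fe 1 a) b) 65)) (by decide +kernel) ha hb he
  have h1 : ([1, 4, 16, 64].all fun X => Nat.beq (act a b e (act a b e X)) X) = true := by
    simp only [List.all_cons, List.all_nil, h 1 (by norm_num), h 4 (by norm_num), h 16 (by norm_num),
      h 64 (by norm_num), Nat.beq_refl, Bool.and_self]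
  simpa only [h1, Bool.not_true, Bool.false_or, Bool.or_eq_true, Bool.and_eq_true, Nat.beq_eq,
    and_assoc] using this

/-- involutions of `Γ₀` -/
theorem inv_tri {a b e : ℕ} (ha : SL a) (hb : SL b) (he : e < 2)
    (h : ∀ X < 256, act a b e (act a b e X) = X) : (∀ X < 256, act a b e X = X) ∨
      ∃ c d f, SL c ∧ SL d ∧ f < 2 ∧ ((∀ X < 256, act c d f (act a b e X) = mm 20 (act c d f X)) ∨
        (∀ X < 256, act c d f (act a b e X) = act 20 20 0 (act c d f X)) ∨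
        ∀ X < 256, act c d f (act a b e X) = fe 1 (act c d f X)) := by
  have s1 : SL 65 := sl_of (by decide +kernel)
  rcases sq_tri ha hb he h with ⟨rfl, h1, h2⟩ | ⟨rfl, h1⟩
  · rcases invol ha h1 with rfl | ⟨k, hk, e1⟩
    · rcases invol (sl_fe hb) (by rw [← fe1_mm hb.1 hb.1, h2]; decide +kernel) with e2 | ⟨l, hl, e2⟩
      · obtain rfl : b = 65 := by rw [← fe1_fe1 hb.1, e2]; decide +kernel
        exact .inl fun X hX => act_one hX
      · refine .inr ⟨l, 65, 1, hl, s1, by norm_num, .inl fun X hX => ?_⟩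
        simp only [act, fe0]
        rw [(one_mm (mm_lt _ _)).1, fe1_mm hX hb.1, (one_mm (mm_lt _ _)).2, ← mm_assoc, e2, mm_assoc,
          (one_mm (fe_lt (by norm_num) hX)).2]
    rcases invol hb h2 with rfl | ⟨l, hl, e2⟩
    · refine .inr ⟨k, 65, 0, hk, s1, by norm_num, .inl fun X hX => ?_⟩
      simp only [act, fe0]
      rw [(one_mm hX).2, (one_mm (mm_lt _ _)).2, ← mm_assoc, e1, mm_assoc]
    · refine .inr ⟨k, adj l, 0, hk, (adj_spec hl).1, by norm_num, .inr (.inl fun X hX => ?_)⟩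
      have e3 : mm b (adj l) = mm (adj l) 20 := by
        rw [← adj_l hl (mm_lt b (adj l)), ← mm_assoc l, e2, mm_assoc, (adj_spec hl).2.2]
        rfl
      simp only [act, fe0, mm_assoc]
      rw [e3, ← mm_assoc k a, e1, mm_assoc]
  · refine .inr ⟨adj a, 65, 0, (adj_spec ha).1, s1, by norm_num, .inr (.inr fun X hX => ?_)⟩
    simp only [act, fe0]
    rw [(one_mm (mm_lt _ _)).2, adj_l ha (mm_lt _ _), (one_mm hX).2, fe1_mm (adj_spec ha).1.1 hX]
    congr 1
    rw [← (one_mm hb.1).1, show 65 = fe 1 65 by decide +kernel, ← (adj_spec ha).2.2,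
      fe1_mm ha.1 (adj_spec ha).1.1, mm_assoc, h1, (one_mm (sl_fe (adj_spec ha).1).1).2]

theorem fix_im {X : ℕ} (hX : X < 256) : (mm 20 X = X → ∃ Z < 256, Z ^^^ mm 20 Z = X) ∧
    (act 20 20 0 X = X → ∃ Z < 256, Z ^^^ act 20 20 0 Z = X) ∧ (fe 1 X = X → ∃ Z < 256, Z ^^^ fe 1 Z = X) := by
  have := all256 (P := fun X =>
    (!Nat.beq (mm 20 X) X || anyLt (fun Z => force Z fun Z => Nat.beq (Nat.xor Z (mm 20 Z)) X) 256) &&
    (!Nat.beq (act 20 20 0 X) X || anyLt (fun Z => force Z fun Z => Nat.beq (Nat.xor Z (act 20 20 0 Z)) X) 256) &&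
    (!Nat.beq (fe 1 X) X || anyLt (fun Z => force Z fun Z => Nat.beq (Nat.xor Z (fe 1 Z)) X) 256))
    (by decide +kernel) hX
  simp only [Bool.and_eq_true, Bool.or_eq_true, force_eq, anyLt_iff, Nat.beq_eq] at this
  refine ⟨fun e => this.1.1.resolve_left ?_, fun e => this.1.2.resolve_left ?_, fun e => this.2.resolve_left ?_⟩ <;>
    simp [e]

theorem mm20_ne {X : ℕ} (hX : SL X) : mm 20 X ≠ X := fun e => by
  have := congrArg (mm · (adj X)) e
  simp only [mm_assoc, (adj_spec hX).2.2] at this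
  revert this; decide +kernel

theorem no_w0 {n J V : ℕ} (hn : n < 256) (hJ : J < 256) (hV : V < 256)
    (h2 : rk n = true) (h3 : rk (n ^^^ 65) = true) (h4 : q J = true) (h5 : rk (n ^^^ J) = true)
    (h6 : rk (n ^^^ (J ^^^ 65)) = true) (h7 : det V = 1) (h8 : rk (65 ^^^ V) = true) (h9 : rk (n ^^^ V) = true)
    (h10 : rk (n ^^^ (J ^^^ V)) = true) : False := by
  have := all256 (P := fun n => !(rk n && rk (Nat.xor n 65)) || allLt (fun J => force J fun J =>
      !(q J && rk (Nat.xor n J) && rk (Nat.xor n (Nat.xor J 65))) || allLt (fun V => force V fun V =>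
        !(Nat.beq (det V) 1 && rk (Nat.xor 65 V) && rk (Nat.xor n V) && rk (Nat.xor n (Nat.xor J V)))) 256)
          256) (by decide +kernel) hn
  simp only [Nat.xor_eq, h2, h3, Bool.and_self, Bool.not_true, Bool.false_or, allLt_iff, force_eq] at this
  have := this J hJ
  simp only [h4, h5, h6, Bool.and_self, Bool.not_true, Bool.false_or, allLt_iff] at this
  have := this V hV
  simp [h7, h8, h9, h10] at this

theorem no_w {U n J V : ℕ} (hU : U < 256) (hn : n < 256) (hJ : J < 256) (hV : V < 256) (h1 : det U = 1)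
    (h2 : rk n = true) (h3 : rk (n ^^^ U) = true) (h4 : q J = true) (h5 : rk (n ^^^ J) = true)
    (h6 : rk (n ^^^ (J ^^^ U)) = true) (h7 : det V = 1) (h8 : rk (U ^^^ V) = true) (h9 : rk (n ^^^ V) = true)
    (h10 : rk (n ^^^ (J ^^^ V)) = true) : False := by
  obtain ⟨a, b, -⟩ := adj_spec ⟨hU, h1⟩
  have r : ∀ {X}, X < 256 → rk X = true → rk (mm (adj U) X) = true := fun hX e => by
    rw [rk_iff] at e ⊢
    exact ⟨fun e' => e.1 ((det_mm a hX).2.2.1.1 e'), (det_mm a hX).1.trans e.2⟩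
  refine no_w0 (mm_lt (adj U) n) (mm_lt (adj U) J) (mm_lt (adj U) V) (r hn h2) ?_ ?_ ?_ ?_
    ((det_mm a hV).1.trans h7) ?_ ?_ ?_
  · rw [← b, ← mm_xor]; exact r (xor_lt hn hU) h3
  · rw [q, (det_mm a hJ).1]; exact h4
  · rw [← mm_xor]; exact r (xor_lt hn hJ) h5
  · rw [← b, ← mm_xor, ← mm_xor]; exact r (xor_lt hn (xor_lt hJ hU)) h6
  · rw [← b, ← mm_xor]; exact r (xor_lt hU hV) h8
  · rw [← mm_xor]; exact r (xor_lt hn hV) h9
  · rw [← mm_xor, ← mm_xor]; exact r (xor_lt hn (xor_lt hJ hV)) h10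

theorem ncomm {a : ℕ} (ha : SL a) (h : a ≠ 65) : ∃ k, SL k ∧ mm (mm k (mm a (adj k))) (adj a) ≠ 65 := by
  have := all256 (P := fun a => !Nat.beq (det a) 1 || Nat.beq a 65 ||
    anyLt (fun k => force k fun k => Nat.beq (det k) 1 && !Nat.beq (mm (mm k (mm a (adj k))) (adj a)) 65) 256)
    (by decide +kernel) ha.1
  simp only [ha.2, h, Nat.beq_refl, Bool.not_true, Bool.false_or, force_eq, anyLt_iff,
    Bool.and_eq_true, Bool.or_eq_true, Nat.beq_eq, false_or, Bool.not_eq_true'] at this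
  obtain ⟨k, h1, h2, h3⟩ := this
  exact ⟨k, ⟨h1, h2⟩, Nat.ne_of_beq_eq_false h3⟩

theorem to_inv {a : ℕ} (ha : SL a) (h : a ≠ 65) : ∃ k l c, SL k ∧ SL l ∧
    mm a (mm (mm k (mm a (adj k))) (mm l (mm a (adj l)))) = c ∧ mm c c = 65 ∧ c ≠ 65 := by
  have := all256 (P := fun a => !Nat.beq (det a) 1 || Nat.beq a 65 ||
    anyLt (fun k => force k fun k => Nat.beq (det k) 1 && force (mm k (mm a (adj k))) fun a' =>
      anyLt (fun l => force l fun l => Nat.beq (det l) 1 &&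
        force (mm a (mm a' (mm l (mm a (adj l))))) fun c => Nat.beq (mm c c) 65 && !Nat.beq c 65) 256) 256)
    (by decide +kernel) ha.1
  simp only [ha.2, h, Nat.beq_refl, Bool.not_true, Bool.false_or, force_eq, anyLt_iff,
    Bool.and_eq_true, Bool.or_eq_true, Nat.beq_eq, false_or, Bool.not_eq_true'] at this
  obtain ⟨k, h1, h2, l, h3, h4, h5, h6⟩ := this
  exact ⟨k, l, _, ⟨h1, h2⟩, ⟨h3, h4⟩, rfl, h5, Nat.ne_of_beq_eq_false h6⟩

end CL.HK.X
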