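import Mathlib
import Cfsg.Agent.PERM.JordanCycle

/-!
The stabilizer `W f` of a uniform partition (fibres of `f : Ω → Fin b`, all of size `a`), i.e. the
imprimitive wreath product `S_a ≀ S_b`, and overgroups of it and of its even part.
-/

set_option autoImplicit false

namespace CL.Imprim

open Equiv Equiv.Perm MulAction

variable {Ω : Type*} {ι : Type*}

/-- The stabilizer of the partition into fibres of `f`. -/
def W (f : Ω → ι) : Subgroup (Perm Ω) where
  carrier := {g | ∀ x y : Ω, f x = f y ↔ f (g x) = f (g y)}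
  one_mem' := fun _ _ => Iff.rfl
  mul_mem' := fun {g h} hg hh x y => (hh x y).trans (hg _ _)
  inv_mem' := fun {g} hg x y => by
    have := hg (g⁻¹ x) (g⁻¹ y)
    simpa using this.symm

theorem closure_eq (f : Ω → ι) :
    Subgroup.closure {g : Perm Ω | ∀ x y : Ω, f x = f y ↔ f (g x) = f (g y)} = W f :=
  Subgroup.closure_eq (W f)

theorem mem_W_of_fix {f : Ω → ι} {g : Perm Ω} (h : ∀ x, f (g x) = f x) : g ∈ W f :=
  fun x y => by rw [h, h]

theorem swap_mem_W [DecidableEq Ω] {f : Ω → ι} {p q : Ω} (h : f p = f q) : swap p q ∈ W f :=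
  mem_W_of_fix fun x => by
    rw [swap_apply_def]
    split_ifs with h1 h2
    · rw [h1, h]
    · rw [h2, h]
    · rfl

theorem exists_perm_pair {α : Type*} [DecidableEq α] {a b a' b' : α} (h : a = b ↔ a' = b') :
    ∃ π : Perm α, π a = a' ∧ π b = b' := by
  refine ⟨swap (swap a a' b) b' * swap a a', ?_, by simp⟩
  rw [Perm.mul_apply, swap_apply_left]
  by_cases hab : a = b
  · subst hab
    rw [← h.1 rfl, swap_apply_left, swap_self]; rfl
  · refine swap_apply_of_ne_of_ne (fun e => hab ?_) fun e => hab (h.2 e)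
    apply (swap a a').injective
    rw [swap_apply_left, ← e]

theorem exists_coords [Finite Ω] {a : ℕ} (f : Ω → ι) (hf : ∀ i, Nat.card {x : Ω // f x = i} = a) :
    ∃ e : Ω ≃ ι × Fin a, ∀ x, (e x).1 = f x :=
  ⟨(sigmaFiberEquiv f).symm.trans
    (sigmaEquivProdOfEquiv fun i => Finite.equivFinOfCardEq (hf i)), fun _ => rfl⟩

theorem exists_notMem_pair [Finite Ω] [DecidableEq Ω] [DecidableEq ι] {a : ℕ} {f : Ω → ι}
    (hf : ∀ i, Nat.card {x : Ω // f x = i} = a) (i : ι) (s : Finset Ω)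
    (hs : (s.filter (f · = i) : Set Ω).ncard + 2 ≤ a) :
    ∃ p q, p ≠ q ∧ f p = i ∧ f q = i ∧ p ∉ s ∧ q ∉ s := by
  classical
  have h1 : ({x | f x = i} : Set Ω).ncard = a := hf i
  have h2 : 1 < ({x | f x = i} \ (s.filter (f · = i) : Set Ω)).ncard := by
    rw [Set.ncard_sdiff (fun x hx => by simpa using (Finset.mem_filter.1 hx).2)]
    omega
  obtain ⟨p, hp, q, hq, hpq⟩ := (Set.one_lt_ncard (Set.toFinite _)).1 h2
  refine ⟨p, q, hpq, hp.1, hq.1, fun h => hp.2 ?_, fun h => hq.2 ?_⟩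
  · exact Finset.mem_coe.2 (Finset.mem_filter.2 ⟨h, hp.1⟩)
  · exact Finset.mem_coe.2 (Finset.mem_filter.2 ⟨h, hq.1⟩)

/-- `W f` has rank three. -/
theorem exists_mem_W [Finite Ω] {a : ℕ} {f : Ω → ι} (hf : ∀ i, Nat.card {x : Ω // f x = i} = a)
    {x y x' y' : Ω} (h1 : x = y ↔ x' = y') (h2 : f x = f y ↔ f x' = f y') :
    ∃ w ∈ W f, w x = x' ∧ w y = y' := by
  classical
  obtain ⟨e, he⟩ := exists_coords f hf
  obtain ⟨π, hπ1, hπ2⟩ := exists_perm_pair h2
  have key : ∀ τ : ι → Perm (Fin a), τ (f x) (e x).2 = (e x').2 → τ (f y) (e y).2 = (e y').2 →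
      ∃ w ∈ W f, w x = x' ∧ w y = y' := by
    intro τ t1 t2
    refine ⟨e.symm.permCongr (prodShear π τ), fun u v => ?_, ?_, ?_⟩
    · simp only [permCongr_apply, symm_symm, ← he, apply_symm_apply, prodShear_apply,
        EmbeddingLike.apply_eq_iff_eq]
    · rw [permCongr_apply, symm_symm, symm_apply_eq, prodShear_apply]
      simp only [he, hπ1, t1]
      rw [← he]
    · rw [permCongr_apply, symm_symm, symm_apply_eq, prodShear_apply]
      simp only [he, hπ2, t2]
      rw [← he]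
  by_cases hxy : f x = f y
  · have h3 : (e x).2 = (e y).2 ↔ (e x').2 = (e y').2 := by
      rw [← e.apply_eq_iff_eq, ← e.apply_eq_iff_eq (x := x'), Prod.ext_iff, Prod.ext_iff,
        he, he, he, he] at h1
      exact ⟨fun h => (h1.1 ⟨hxy, h⟩).2, fun h => (h1.2 ⟨h2.1 hxy, h⟩).2⟩
    obtain ⟨τ, t1, t2⟩ := exists_perm_pair h3
    exact key (fun _ => τ) t1 t2
  · refine key (fun i => if i = f x then swap (e x).2 (e x').2 else swap (e y).2 (e y').2) ?_ ?_
    · simp
    · simp [Ne.symm hxy]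

variable [Fintype Ω] [DecidableEq Ω]

theorem exists_even_of_pair {f : Ω → ι} {w : Perm Ω} (hw : w ∈ W f) {x y p q : Ω} (hpq : p ≠ q)
    (hf : f p = f q) (h1 : p ≠ x) (h2 : q ≠ x) (h3 : p ≠ y) (h4 : q ≠ y) :
    ∃ w' ∈ W f ⊓ alternatingGroup Ω, w' x = w x ∧ w' y = w y := by
  by_cases h : w ∈ alternatingGroup Ω
  · exact ⟨w, ⟨hw, h⟩, rfl, rfl⟩
  · refine ⟨w * swap p q, ⟨mul_mem hw (swap_mem_W hf), ?_⟩, ?_, ?_⟩
    · rw [mem_alternatingGroup] at h
      change sign _ = 1
      rw [map_mul, Int.units_ne_iff_eq_neg.1 h, sign_swap hpq]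
      simp
    · rw [Perm.mul_apply, swap_apply_of_ne_of_ne h1.symm h2.symm]
    · rw [Perm.mul_apply, swap_apply_of_ne_of_ne h3.symm h4.symm]

theorem exists_mem_Weven {a b : ℕ} {f : Ω → Fin b} (hf : ∀ i, Nat.card {x : Ω // f x = i} = a)
    (ha : 2 ≤ a) (hb : 2 ≤ b) {x y x' y' : Ω} (hab : 3 ≤ a ∨ 3 ≤ b ∨ f x = f y)
    (h1 : x = y ↔ x' = y') (h2 : f x = f y ↔ f x' = f y') :
    ∃ w ∈ W f ⊓ alternatingGroup Ω, w x = x' ∧ w y = y' := by
  obtain ⟨w, hw, e1, e2⟩ := exists_mem_W hf h1 h2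
  have : ∃ p q, p ≠ q ∧ f p = f q ∧ p ∉ ({x, y} : Finset Ω) ∧ q ∉ ({x, y} : Finset Ω) := by
    have key : ∀ i, ((({x, y} : Finset Ω).filter (f · = i) : Finset Ω) : Set Ω).ncard + 2 ≤ a →
        ∃ p q, p ≠ q ∧ f p = f q ∧ p ∉ ({x, y} : Finset Ω) ∧ q ∉ ({x, y} : Finset Ω) := by
      intro i hi
      obtain ⟨p, q, a1, a2, a3, a4, a5⟩ := exists_notMem_pair hf i {x, y} hi
      exact ⟨p, q, a1, a2.trans a3.symm, a4, a5⟩
    have key2 : ∀ i, i ≠ f x → i ≠ f y →
        ∃ p q, p ≠ q ∧ f p = f q ∧ p ∉ ({x, y} : Finset Ω) ∧ q ∉ ({x, y} : Finset Ω) := by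
      intro i i1 i2
      apply key i
      rw [Finset.filter_eq_empty_iff.2 (by simp [i1.symm, i2.symm])]
      simpa using ha
    by_cases hxy : f x = f y
    · obtain ⟨i, hi⟩ := Fintype.exists_ne_of_one_lt_card (α := Fin b) (by simp; omega) (f x)
      exact key2 i hi (hxy ▸ hi)
    · rcases hab with h | h | h
      · apply key (f x)
        have : ({x, y} : Finset Ω).filter (f · = f x) = {x} := by
          ext z
          simp only [Finset.mem_filter, Finset.mem_insert, Finset.mem_singleton]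
          constructor
          · rintro ⟨rfl | rfl, h⟩
            · rfl
            · exact absurd h.symm hxy
          · rintro rfl
            exact ⟨Or.inl rfl, rfl⟩
        rw [this]
        simp only [Finset.coe_singleton, Set.ncard_singleton]
        omega
      · obtain ⟨i, -, hi⟩ := Finset.exists_mem_notMem_of_card_lt_card
          (s := ({f x, f y} : Finset (Fin b))) (t := Finset.univ)
          (lt_of_le_of_lt Finset.card_le_two (by simp; omega))
        simp only [Finset.mem_insert, Finset.mem_singleton, not_or] at hi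
        exact key2 i hi.1 hi.2
      · exact absurd h hxy
  obtain ⟨p, q, a1, a2, a3, a4⟩ := this
  simp only [Finset.mem_insert, Finset.mem_singleton, not_or] at a3 a4
  obtain ⟨w', hw', b1, b2⟩ := exists_even_of_pair hw a1 a2 a3.1 a4.1 a3.2 a4.2
  exact ⟨w', hw', b1.trans e1, b2.trans e2⟩

omit [Fintype Ω] [DecidableEq Ω] in
theorem exists_break {f : Ω → ι} {K : Subgroup (Perm Ω)} (h : ¬ K ≤ W f) :
    ∃ g ∈ K, ∃ p q, f p = f q ∧ f (g p) ≠ f (g q) := by
  obtain ⟨g, hg, hW⟩ := SetLike.not_le_iff_exists.1 h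
  by_contra hc
  push Not at hc
  refine hW fun x y => ⟨hc g hg x y, fun h => ?_⟩
  simpa using hc g⁻¹ (inv_mem hg) _ _ h

omit [Fintype Ω] [DecidableEq Ω] in
/-- An overgroup of a rank three subgroup of `W f` that is not inside `W f` is primitive. -/
theorem isPreprimitive {f : Ω → ι} {K : Subgroup (Perm Ω)}
    (hT : ∀ x y x' y' : Ω, (x = y ↔ x' = y') → (f x = f y ↔ f x' = f y') →
      ∃ w ∈ K, w x = x' ∧ w y = y') (h : ¬ K ≤ W f) : IsPreprimitive K Ω := by
  obtain ⟨g, hg, p, q, hpq, hg2⟩ := exists_break h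
  have : IsPretransitive K Ω := ⟨fun x y => by
    obtain ⟨w, hw, e, -⟩ := hT x x y y (by simp) (by simp)
    exact ⟨⟨w, hw⟩, e⟩⟩
  refine ⟨fun {B} hB => ?_⟩
  by_cases hs : B.Subsingleton
  · exact Or.inl hs
  right
  obtain ⟨x, hx, y, hy, hxy⟩ := Set.not_subsingleton_iff.1 hs
  have key : ∀ {u v u' v' : Ω}, u ∈ B → v ∈ B → u' ∈ B → ∀ w ∈ K, w u = u' → w v = v' →
      v' ∈ B := by
    intro u v u' v' hu hv hu' w hw e1 e2
    have := hB.smul_eq_of_mem (g := (⟨w, hw⟩ : K)) hu (by change w u ∈ B; rwa [e1])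
    rw [← this]
    exact ⟨v, hv, e2⟩
  have main : ∀ u v, u ∈ B → v ∈ B → f u ≠ f v → B = Set.univ := by
    intro u v hu hv huv
    have h1 : ∀ u v, u ∈ B → v ∈ B → f u ≠ f v → ∀ z, f u ≠ f z → z ∈ B := by
      intro u v hu hv huv z hz
      obtain ⟨w, hw, e1, e2⟩ := hT u v u z
        ⟨fun e => absurd (congrArg f e) huv, fun e => absurd (congrArg f e) hz⟩
        ⟨fun e => absurd e huv, fun e => absurd e hz⟩
      exact key hu hv hu w hw e1 e2
    refine Set.eq_univ_of_forall fun z => ?_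
    by_cases hz : f u = f z
    · exact h1 v u hv hu huv.symm z (hz ▸ huv.symm)
    · exact h1 u v hu hv huv z hz
  by_cases hf : f x = f y
  · have hpq' : p ≠ q := fun e => hg2 (by rw [e])
    obtain ⟨w, hw, e1, e2⟩ := hT x y p q ⟨fun e => absurd e hxy, fun e => absurd e hpq'⟩
      ⟨fun _ => hpq, fun _ => hf⟩
    obtain ⟨z, hz⟩ : ∃ z, f x ≠ f z := by
      by_contra hc
      push Not at hc
      exact hg2 ((hc _).symm.trans (hc _))
    obtain ⟨w', hw', e3, e4⟩ := hT (g p) (g q) x z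
      ⟨fun e => absurd (congrArg f e) hg2, fun e => absurd (congrArg f e) hz⟩
      ⟨fun e => absurd e hg2, fun e => absurd e hz⟩
    refine main x z hx (key hx hy hx (w' * g * w) (mul_mem (mul_mem hw' hg) hw) ?_ ?_) hz
    · rw [Perm.mul_apply, Perm.mul_apply, e1, e3]
    · rw [Perm.mul_apply, Perm.mul_apply, e2, e4]
  · exact main x y hx hy hf

theorem exists_partner {b : ℕ} {f : Ω → Fin b} (hf : ∀ i, Nat.card {x : Ω // f x = i} = 2) :
    ∃ m : Ω → Ω, (∀ x, m x ≠ x) ∧ (∀ x, f (m x) = f x) ∧ ∀ x y, f y = f x → y = x ∨ y = m x := by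
  have : ∀ x, ∃ y, y ≠ x ∧ f y = f x ∧ ∀ z, f z = f x → z = x ∨ z = y := by
    intro x
    have h1 : ({z | f z = f x} : Set Ω).ncard = 2 := hf (f x)
    obtain ⟨p, q, hpq, h2⟩ := Set.ncard_eq_two.1 h1
    have h3 : ∀ z, f z = f x ↔ z = p ∨ z = q := fun z => Set.ext_iff.1 h2 z
    rcases (h3 x).1 rfl with rfl | rfl
    · exact ⟨q, hpq.symm, (h3 q).2 (Or.inr rfl), fun z hz => (h3 z).1 hz⟩
    · exact ⟨p, hpq, (h3 p).2 (Or.inl rfl), fun z hz => ((h3 z).1 hz).symm⟩
  choose m h1 h2 h3 using this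
  exact ⟨m, h1, h2, h3⟩

/-- All double transpositions on four points lie in `K`. -/
def Good (K : Subgroup (Perm Ω)) (p q r s : Ω) : Prop :=
  swap p q * swap r s ∈ K ∧ swap p r * swap q s ∈ K ∧ swap p s * swap q r ∈ K

omit [Fintype Ω] in
theorem Good.conj {K : Subgroup (Perm Ω)} {p q r s : Ω} (h : Good K p q r s) {g : Perm Ω}
    (hg : g ∈ K) : Good K (g p) (g q) (g r) (g s) := by
  have key : ∀ a b c d : Ω, swap a b * swap c d ∈ K →
      swap (g a) (g b) * swap (g c) (g d) ∈ K := by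
    intro a b c d h
    rw [swap_apply_apply, swap_apply_apply]
    have := mul_mem (mul_mem hg h) (inv_mem hg)
    convert this using 1
    group
  exact ⟨key _ _ _ _ h.1, key _ _ _ _ h.2.1, key _ _ _ _ h.2.2⟩

theorem swap_mul_swap_mem_alt {a b c d : Ω} (h1 : a ≠ b) (h2 : c ≠ d) :
    swap a b * swap c d ∈ alternatingGroup Ω := by
  rw [mem_alternatingGroup, map_mul, sign_swap h1, sign_swap h2]
  simp

omit [Fintype Ω] in
theorem swap_mul_swap_mem_W {f : Ω → ι} {m : Ω → Ω} (h1 : ∀ x, m x ≠ x)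
    (h2 : ∀ x, f (m x) = f x) (h3 : ∀ x y, f y = f x → y = x ∨ y = m x) {x y : Ω}
    (hxy : f x ≠ f y) : swap x y * swap (m x) (m y) ∈ W f := by
  classical
  have key : ∀ u, f ((swap x y * swap (m x) (m y)) u) = swap (f x) (f y) (f u) := by
    intro u
    have a1 : m x ≠ y := fun e => hxy (by rw [← e, h2])
    have a2 : m y ≠ x := fun e => hxy (by rw [← e, h2])
    have a3 : x ≠ y := fun e => hxy (by rw [e])
    rw [Perm.mul_apply]
    by_cases hx : f u = f x
    · rw [hx, swap_apply_left]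
      rcases h3 _ _ hx with rfl | rfl
      · rw [swap_apply_of_ne_of_ne (h1 _).symm a2.symm, swap_apply_left]
      · rw [swap_apply_left, swap_apply_of_ne_of_ne a2 (h1 _), h2]
    by_cases hy : f u = f y
    · rw [hy, swap_apply_right]
      rcases h3 _ _ hy with rfl | rfl
      · rw [swap_apply_of_ne_of_ne a1.symm (h1 _).symm, swap_apply_right]
      · rw [swap_apply_right, swap_apply_of_ne_of_ne (h1 _) a1, h2]
    · rw [swap_apply_of_ne_of_ne hx hy,
        swap_apply_of_ne_of_ne (x := u) (fun e => hx (by rw [e, h2])) (fun e => hy (by rw [e, h2])),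
        swap_apply_of_ne_of_ne (fun e => hx (by rw [e])) (fun e => hy (by rw [e]))]
  intro u v
  rw [key, key, EmbeddingLike.apply_eq_iff_eq]

theorem exists_isThreeCycle_two {b : ℕ} {f : Ω → Fin b}
    (hf : ∀ i, Nat.card {x : Ω // f x = i} = 2) (hb : 3 ≤ b) (hb4 : b ≠ 4)
    {K : Subgroup (Perm Ω)} (hK : W f ⊓ alternatingGroup Ω ≤ K) (h : ¬ K ≤ W f) :
    ∃ c ∈ K, IsThreeCycle c := by
  obtain ⟨m, h1, h2, h3⟩ := exists_partner hf
  have hmm : ∀ x, m (m x) = x := fun x =>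
    ((h3 (m x) x (h2 x).symm).resolve_left (h1 x).symm).symm
  have good : ∀ x y, f x ≠ f y → Good K x (m x) y (m y) := by
    intro x y hxy
    have a1 : m x ≠ y := fun e => hxy (by rw [← e, h2])
    have a2 : m y ≠ x := fun e => hxy (by rw [← e, h2])
    have a3 : x ≠ y := fun e => hxy (by rw [e])
    have a4 : m x ≠ m y := fun e => hxy (by rw [← h2, e, h2])
    refine ⟨hK ⟨mul_mem (swap_mem_W (h2 x).symm) (swap_mem_W (h2 y).symm),
      swap_mul_swap_mem_alt (h1 x).symm (h1 y).symm⟩,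
      hK ⟨swap_mul_swap_mem_W h1 h2 h3 hxy, swap_mul_swap_mem_alt a3 a4⟩, hK ⟨?_,
      swap_mul_swap_mem_alt a2.symm a1⟩⟩
    have := swap_mul_swap_mem_W h1 h2 h3 (x := x) (y := m y) (by rwa [h2])
    rwa [hmm] at this
  obtain ⟨g, hg, p, q, hpq, hg2⟩ := exists_break h
  obtain rfl : q = m p := (h3 p q hpq.symm).resolve_left fun e => hg2 (by rw [e])
  obtain ⟨i, -, hi⟩ := Finset.exists_mem_notMem_of_card_lt_card
    (s := ({f p, f (g⁻¹ (m (g p)))} : Finset (Fin b))) (t := Finset.univ)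
    (lt_of_le_of_lt Finset.card_le_two (by simp; omega))
  simp only [Finset.mem_insert, Finset.mem_singleton, not_or] at hi
  have hsurj : ∀ i, ∃ r, f r = i := fun i => by
    have : Nonempty {x : Ω // f x = i} := (Nat.card_pos_iff.1 (by rw [hf]; norm_num)).1
    obtain ⟨r, hr⟩ := this
    exact ⟨r, hr⟩
  obtain ⟨r, rfl⟩ := hsurj i
  have hT := (good p r (Ne.symm hi.1)).conj hg
  have n1 : m (g p) ≠ g (m p) := fun e => hg2 (by rw [← e, h2])
  have n2 : m (g p) ≠ g r := fun e => hi.2 (by rw [e]; simp)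
  have n3 : m (g p) ≠ g (m r) := fun e => hi.2 (by rw [e, ← h2 r]; simp)
  have d1 : g p ≠ g (m p) := g.injective.ne (h1 p).symm
  have d2 : g p ≠ g r := g.injective.ne fun e => hi.1 (by rw [e])
  have d3 : g p ≠ g (m r) := g.injective.ne fun e => hi.1 (by rw [e, h2])
  have d4 : g (m p) ≠ g r := g.injective.ne fun e => hi.1 (by rw [← e, h2])
  have d5 : g (m p) ≠ g (m r) := g.injective.ne fun e => hi.1 (by rw [← h2, ← e, h2])
  have d6 : g r ≠ g (m r) := g.injective.ne (h1 r).symm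
  generalize g p = u at *
  generalize g (m p) = v at *
  generalize g r = s at *
  generalize g (m r) = t at *
  have f2 : f u ≠ f s := fun e => by
    rcases h3 _ _ e.symm with e | e
    · exact d2 e.symm
    · exact n2 e.symm
  have f3 : f u ≠ f t := fun e => by
    rcases h3 _ _ e.symm with e | e
    · exact d3 e.symm
    · exact n3 e.symm
  have caseA : ∀ c d z, c ≠ d → f c = f d → f u ≠ f c → z ≠ u → z ≠ m u →
      swap u z * swap c d ∈ K → ∃ c ∈ K, IsThreeCycle c := by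
    intro c d z hcd e hu hz hz' hm
    obtain rfl : d = m c := (h3 _ _ e.symm).resolve_left hcd.symm
    refine ⟨swap u (m u) * swap u z, ?_,
      isThreeCycle_swap_mul_swap_same (h1 u).symm hz.symm hz'.symm⟩
    have := mul_mem (good u c hu).1 (inv_mem hm)
    convert this using 1
    rw [mul_inv_rev, swap_inv, swap_inv, mul_assoc, swap_mul_self_mul]
  by_cases e1 : f v = f s
  · exact caseA v s t d4 e1 hg2 d3.symm n3.symm hT.2.2
  by_cases e2 : f v = f t
  · exact caseA v t s d5 e2 hg2 d2.symm n2.symm hT.2.1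
  by_cases e3 : f s = f t
  · exact caseA s t v d6 e3 f2 d1.symm n1.symm hT.1
  have hc4 : ({f u, f v, f s, f t} : Finset (Fin b)).card = 4 := by
    rw [Finset.card_insert_of_notMem (by simp [hg2, f2, f3]),
      Finset.card_insert_of_notMem (by simp [e1, e2]), Finset.card_pair e3]
  have hb4' : 4 ≤ b := by simpa [hc4] using Finset.card_le_univ ({f u, f v, f s, f t} : Finset _)
  obtain ⟨j, -, hj⟩ := Finset.exists_mem_notMem_of_card_lt_card
    (s := ({f u, f v, f s, f t} : Finset (Fin b))) (t := Finset.univ)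
    (by rw [hc4]; simp; omega)
  simp only [Finset.mem_insert, Finset.mem_singleton, not_or] at hj
  obtain ⟨w, rfl⟩ := hsurj j
  have hw : ∀ z, f w ≠ f z → w ≠ z ∧ m w ≠ z := fun z hz =>
    ⟨fun e => hz (by rw [e]), fun e => hz (by rw [← e, h2])⟩
  have k1 := (good u w (Ne.symm hj.1)).1
  refine ⟨_, mul_mem (mul_mem (mul_mem k1 hT.1) (inv_mem k1)) (inv_mem hT.1),
    CL.Perm.isThreeCycle_commutator_of_inter_eq (a := u) ?_ ?_ ?_⟩
  · rw [Perm.mul_apply, swap_apply_of_ne_of_ne (hw u hj.1).1.symm (hw u hj.1).2.symm,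
      swap_apply_left]
    exact h1 u
  · rw [Perm.mul_apply, swap_apply_of_ne_of_ne d2 d3, swap_apply_left]
    exact d1.symm
  · intro x hx
    by_cases hxv : x = v ∨ x = s ∨ x = t
    · left
      have b1 : f w ≠ f x := by rcases hxv with rfl | rfl | rfl <;> tauto
      have b2 : m u ≠ x := by rcases hxv with rfl | rfl | rfl <;> assumption
      rw [Perm.mul_apply, swap_apply_of_ne_of_ne (hw x b1).1.symm (hw x b1).2.symm,
        swap_apply_of_ne_of_ne hx b2.symm]
    · right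
      push Not at hxv
      rw [Perm.mul_apply, swap_apply_of_ne_of_ne hxv.2.1 hxv.2.2,
        swap_apply_of_ne_of_ne hx hxv.1]

theorem card_eq {a b : ℕ} {f : Ω → Fin b} (hf : ∀ i, Nat.card {x : Ω // f x = i} = a) :
    Fintype.card Ω = a * b := by
  obtain ⟨e, -⟩ := exists_coords f hf
  rw [Fintype.card_congr e]
  simp [mul_comm]

/-- An even permutation not preserving the partition. -/
theorem not_alternatingGroup_le {a b : ℕ} {f : Ω → Fin b}
    (hf : ∀ i, Nat.card {x : Ω // f x = i} = a) (ha : 2 ≤ a) (hb : 2 ≤ b) :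
    ¬ alternatingGroup Ω ≤ W f := by
  intro h
  obtain ⟨x, x', a1, a2, a3, -⟩ := exists_notMem_pair hf ⟨0, by omega⟩ ∅ (by simpa using ha)
  obtain ⟨y, z, b1, b2, b3, -⟩ := exists_notMem_pair hf ⟨1, by omega⟩ ∅ (by simpa using ha)
  have ne : ∀ u v, f u = ⟨0, by omega⟩ → f v = ⟨1, by omega⟩ → u ≠ v := by
    rintro u v h1 h2 rfl
    simpa using h1.symm.trans h2
  have := (h (swap_mul_swap_mem_alt b1 (ne _ _ a3 b2)) x x').1 (a2.trans a3.symm)
  rw [Perm.mul_apply, Perm.mul_apply, swap_apply_left, swap_apply_left,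
    swap_apply_of_ne_of_ne a1 (ne _ _ a2 b2),
    swap_apply_of_ne_of_ne (ne _ _ a2 b2) (ne _ _ a2 b3), a2, b3] at this
  simp at this

/-- Overgroups of the even part of `W f`. -/
theorem alternatingGroup_le {a b : ℕ} {f : Ω → Fin b}
    (hf : ∀ i, Nat.card {x : Ω // f x = i} = a) (ha : 2 ≤ a) (hb : 2 ≤ b)
    (hab : 3 ≤ a ∨ (3 ≤ b ∧ b ≠ 4)) {K : Subgroup (Perm Ω)}
    (hK : W f ⊓ alternatingGroup Ω ≤ K) (h : ¬ K ≤ W f) : alternatingGroup Ω ≤ K := by
  have hp : IsPreprimitive K Ω := isPreprimitive (fun x y x' y' h1 h2 => by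
    obtain ⟨w, hw, e⟩ := exists_mem_Weven hf ha hb (by tauto) h1 h2
    exact ⟨w, hK hw, e⟩) h
  have : ∃ c ∈ K, IsThreeCycle c := by
    by_cases h3 : 3 ≤ a
    · obtain ⟨x, x', a1, a2, a3, -⟩ := exists_notMem_pair hf ⟨0, by omega⟩ ∅ (by simpa using ha)
      obtain ⟨y, z, b1, b2, b3, b4, b5⟩ := exists_notMem_pair hf ⟨0, by omega⟩ {x} (by
        rw [Finset.filter_true_of_mem (by simpa using a2)]
        simp only [Finset.coe_singleton, Set.ncard_singleton]
        omega)
      simp only [Finset.mem_singleton] at b4 b5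
      exact ⟨_, hK ⟨mul_mem (swap_mem_W (a2.trans b2.symm)) (swap_mem_W (a2.trans b3.symm)),
        swap_mul_swap_mem_alt (Ne.symm b4) (Ne.symm b5)⟩,
        isThreeCycle_swap_mul_swap_same (Ne.symm b4) (Ne.symm b5) b1⟩
    · obtain rfl : a = 2 := by omega
      exact exists_isThreeCycle_two hf (by omega) (by omega) hK h
  obtain ⟨c, hc, h3⟩ := this
  exact alternatingGroup_le_of_isPreprimitive_of_isThreeCycle_mem hp h3 hc

end CL.Imprim
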