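import Mathlib

/-!
Symmetric designs and their automorphisms.
-/

set_option autoImplicit false

namespace CL.SymDes

open Finset MulAction
open scoped Classical

/-- the indicator of a proposition -/
noncomputable def ind (P : Prop) : ℤ := if P then 1 else 0

theorem ind_pos {P : Prop} (h : P) : ind P = 1 := if_pos h

theorem ind_neg {P : Prop} (h : ¬ P) : ind P = 0 := if_neg h

theorem ind_nonneg (P : Prop) : 0 ≤ ind P := by unfold ind; split_ifs <;> simp

theorem ind_le_one (P : Prop) : ind P ≤ 1 := by unfold ind; split_ifs <;> simp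

theorem ind_and (P Q : Prop) : ind (P ∧ Q) = ind P * ind Q := by
  by_cases P <;> by_cases Q <;> simp [ind, *]

theorem ind_mul_self (P : Prop) : ind P * ind P = ind P := by rw [← ind_and, and_self]

theorem ind_mono {P Q : Prop} (h : P → Q) : ind P ≤ ind Q := by
  by_cases hP : P
  · rw [ind_pos hP, ind_pos (h hP)]
  · rw [ind_neg hP]; exact ind_nonneg Q

theorem iff_of_ind_eq {P Q : Prop} (h : ind P = ind Q) : P ↔ Q := by
  by_cases P <;> by_cases Q <;> simp_all [ind]

theorem sum_ind_eq {α : Type*} [Fintype α] (a : α) (f : α → ℤ) : ∑ x, ind (x = a) * f x = f a := by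
  simp [ind]

theorem sum_ind_eq' {α : Type*} [Fintype α] (a : α) : ∑ x, ind (x = a) = 1 := by
  simp [ind]

theorem sum_ind_card {α : Type*} [Fintype α] (P : α → Prop) :
    ∑ x, ind (P x) = Nat.card {x // P x} := by
  simp [ind, Fintype.card_subtype]

theorem imp_of_sum_ind_eq {α : Type*} [Fintype α] {P Q : α → Prop} (h : ∀ x, P x → Q x)
    (e : ∑ x, ind (P x) = ∑ x, ind (Q x)) (x : α) : Q x → P x :=
  (iff_of_ind_eq ((sum_eq_sum_iff_of_le fun x _ => ind_mono (h x)).1 e x (mem_univ x))).2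

theorem exists_of_sum_ind_ne {α : Type*} [Fintype α] {P Q : α → Prop}
    (e : ∑ x, ind (Q x) < ∑ x, ind (P x)) : ∃ x, P x ∧ ¬ Q x := by
  by_contra h
  push Not at h
  exact e.not_ge (sum_le_sum fun x _ => ind_mono (h x))

theorem two_le_sum_ind {α : Type*} [Fintype α] {P : α → Prop} {a b : α} (h : a ≠ b) (ha : P a)
    (hb : P b) : 2 ≤ ∑ x, ind (P x) := by
  have := sum_le_sum_of_subset_of_nonneg (subset_univ {a, b}) fun x _ _ => ind_nonneg (P x)
  rwa [sum_pair h, ind_pos ha, ind_pos hb] at this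

/-- A symmetric design. -/
structure Des (Ω Y : Type*) [Fintype Ω] [Fintype Y] where
  /-- incidence -/
  I : Ω → Y → Prop
  /-- block size -/
  k : ℤ
  /-- number of blocks through two points -/
  l : ℤ
  hk : ∀ C, ∑ x, ind (I x C) = k
  hr : ∀ x, ∑ C, ind (I x C) = k
  hl : ∀ {x y}, x ≠ y → ∑ C, ind (I x C ∧ I y C) = l
  card : Fintype.card Y = Fintype.card Ω
  lt : l < k

namespace Des

variable {Ω Y : Type*} [Fintype Ω] [Fintype Y] (D : Des Ω Y)

theorem hl' (x y : Ω) : ∑ C, ind (D.I x C ∧ D.I y C) = D.l + (D.k - D.l) * ind (y = x) := by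
  by_cases h : y = x
  · simp [h, D.hr, ind_pos]
  · rw [D.hl (Ne.symm h), ind_neg h, mul_zero, add_zero]

theorem rel (x : Ω) : D.l * (Fintype.card Ω - 1) = D.k * (D.k - 1) := by
  have h : ∑ y, ∑ C, ind (D.I x C ∧ D.I y C) = D.k * D.k := by
    rw [sum_comm]
    simp only [ind_and, ← mul_sum, D.hk, ← sum_mul, D.hr]
  simp only [hl', sum_add_distrib, ← mul_sum, sum_ind_eq', sum_const, card_univ,
    nsmul_eq_mul] at h
  linear_combination h

/-- Two blocks meet in `l` points. -/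
theorem hm {B C : Y} (h : B ≠ C) : ∑ x, ind (D.I x B ∧ D.I x C) = D.l := by
  obtain ⟨x0⟩ : Nonempty Ω := Fintype.card_pos_iff.1 (D.card ▸ Fintype.card_pos_iff.2 ⟨B⟩)
  have h1 : ∑ E, ∑ x, ind (D.I x B ∧ D.I x E) = D.k * D.k := by
    rw [sum_comm]
    simp only [ind_and, ← mul_sum, D.hr, ← sum_mul, D.hk]
  have h2 : ∑ E, (∑ x, ind (D.I x B ∧ D.I x E)) ^ 2 = D.l * D.k * D.k + (D.k - D.l) * D.k := by
    calc _ = ∑ x, ∑ y, ind (D.I x B) * ind (D.I y B) * ∑ E, ind (D.I x E ∧ D.I y E) := by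
          simp only [sq, sum_mul_sum]
          simp only [mul_sum, ind_and]
          rw [sum_comm]
          refine sum_congr rfl fun x _ => ?_
          rw [sum_comm]
          exact sum_congr rfl fun y _ => sum_congr rfl fun E _ => by ring
      _ = ∑ x, ind (D.I x B) * (D.l * D.k + (D.k - D.l)) := by
          refine sum_congr rfl fun x _ => ?_
          have := sum_ind_eq x fun y => ind (D.I x B) * ind (D.I y B) * (D.k - D.l)
          rw [ind_mul_self] at this
          rw [mul_add, ← this, ← D.hk B, mul_sum, mul_sum, ← sum_add_distrib]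
          exact sum_congr rfl fun y _ => by rw [hl', D.hk]; ring
      _ = _ := by rw [← sum_mul, D.hk]; ring
  have h3 : ∑ E, (∑ x, ind (D.I x B ∧ D.I x E) - D.l) ^ 2 = (D.k - D.l) ^ 2 := by
    simp only [sub_sq, sum_add_distrib, sum_sub_distrib, h2, ← sum_mul, ← mul_sum, h1, sum_const,
      card_univ, nsmul_eq_mul, D.card]
    linear_combination D.l * D.rel x0
  have h4 := sum_le_sum_of_subset_of_nonneg (subset_univ {B, C})
    fun E _ _ => sq_nonneg (∑ x, ind (D.I x B ∧ D.I x E) - D.l)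
  rw [sum_pair h, h3] at h4
  simp only [and_self, D.hk] at h4
  nlinarith [sq_nonneg (∑ x, ind (D.I x B ∧ D.I x C) - D.l)]

theorem hm' (B C : Y) : ∑ x, ind (D.I x B ∧ D.I x C) = D.l + (D.k - D.l) * ind (C = B) := by
  by_cases h : C = B
  · simp [h, D.hk, ind_pos]
  · rw [D.hm (Ne.symm h), ind_neg h, mul_zero, add_zero]

theorem eq_of_subset {B C : Y} (h : ∀ x, D.I x B → D.I x C) : B = C := by
  by_contra hne
  have := D.hm hne
  rw [sum_congr rfl fun x _ => by rw [and_iff_left_of_imp (h x)], D.hk] at this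
  exact D.lt.ne' this

theorem blk_eq {x y x' y' : Ω} (h : x ≠ y) (h' : x' ≠ y')
    (e : ∀ C, D.I x C ∧ D.I y C → D.I x' C ∧ D.I y' C) (C : Y) :
    D.I x' C ∧ D.I y' C → D.I x C ∧ D.I y C :=
  imp_of_sum_ind_eq e (by rw [D.hl h, D.hl h']) C

theorem pts_eq {B C B' C' : Y} (h : B ≠ C) (h' : B' ≠ C')
    (e : ∀ x, D.I x B ∧ D.I x C → D.I x B' ∧ D.I x C') (x : Ω) :
    D.I x B' ∧ D.I x C' → D.I x B ∧ D.I x C :=
  imp_of_sum_ind_eq e (by rw [D.hm h, D.hm h']) x

variable {G : Type*} [Group G] [MulAction G Ω] [MulAction G Y]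
  (hI : ∀ (g : G) x C, D.I (g • x) (g • C) ↔ D.I x C)
include hI

/-- An automorphism fixes as many points as blocks. -/
theorem fix_eq (g : G) : ∑ C : Y, ind (g • C = C) = ∑ x : Ω, ind (g • x = x) := by
  have h : ∑ x, ∑ C, ind (D.I x C ∧ D.I (g⁻¹ • x) C) = ∑ C, ∑ x, ind (D.I x C ∧ D.I x (g • C)) := by
    rw [sum_comm]
    refine sum_congr rfl fun C _ => sum_congr rfl fun x _ => ?_
    rw [← hI g (g⁻¹ • x), smul_inv_smul]
  simp only [hl', hm', sum_add_distrib, ← mul_sum, sum_const, card_univ, D.card, inv_smul_eq_iff,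
    add_right_inj, eq_comm (b := g • (_ : Ω))] at h
  exact (mul_left_cancel₀ (sub_pos.2 D.lt).ne' h).symm

theorem smul_eq_of_fix {g : G} {B : Y} (h : ∀ x, D.I x B → g • x = x) : g • B = B :=
  (D.eq_of_subset fun x hx => by rw [← h x hx]; exact (hI g x B).2 hx).symm

theorem inter_smul {g : G} {B C : Y} (h : ∀ x, D.I x B → g • x = x) (hC : g • C ≠ C) (x : Ω) :
    D.I x C ∧ D.I x (g • C) → D.I x C ∧ D.I x B :=
  D.pts_eq (by rintro rfl; exact hC (D.smul_eq_of_fix hI h)) hC.symm (fun x hx =>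
    ⟨hx.1, by rw [← h x hx.2]; exact (hI g x C).2 hx.1⟩) x

/-- An automorphism fixing a block pointwise and two further points is trivial. -/
theorem fix_of_two (h2 : 2 ≤ D.k) {g : G} {B : Y} (h : ∀ x, D.I x B → g • x = x) {y y' : Ω}
    (hyy : y ≠ y') (hy : ¬ D.I y B) (hy' : ¬ D.I y' B) (e : g • y = y) (e' : g • y' = y') (x : Ω) :
    g • x = x := by
  by_contra hx
  have h1 : ∀ y C, ¬ D.I y B → g • y = y → D.I y C → g • C = C := fun y C hy e hC => by
    by_contra hne
    exact hy (D.inter_smul hI h hne y ⟨hC, by rw [← e]; exact (hI g y C).2 hC⟩).2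
  have h3 : ∀ x y C, g • x ≠ x → ¬ D.I y B → g • y = y → g • C = C → D.I x C → D.I y C := by
    intro x y C hx hy e hC hxC
    refine (D.blk_eq (x := x) (y := y) (by rintro rfl; exact hx e) hx.symm (fun E hE => ⟨hE.1, ?_⟩) C
      ⟨hxC, by rw [← hC]; exact (hI g x C).2 hxC⟩).2
    rw [← h1 y E hy e hE.2]
    exact (hI g x E).2 hE.1
  have hn : (2 : ℤ) ≤ Fintype.card Ω - D.k := by
    have := two_le_sum_ind (P := fun x => ¬ D.I x B) hyy hy hy'
    rw [← D.hk B, ← card_univ, card_eq_sum_ones, Nat.cast_sum, ← sum_sub_distrib]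
    refine this.trans (le_of_eq (sum_congr rfl fun x _ => ?_))
    by_cases hx : D.I x B <;> simp [ind, hx]
  have hrel := D.rel x
  have hl0 : 0 < D.l := by nlinarith
  obtain ⟨E, ⟨hxE, hyE⟩, -⟩ := exists_of_sum_ind_ne (P := fun C => D.I x C ∧ D.I y C)
    (Q := fun _ => False) (by rw [D.hl (by rintro rfl; exact hx e)]; simpa [ind] using hl0)
  have hE := h1 y E hy e hyE
  have h4 : ∀ z, ¬ D.I z B → D.I z E := by
    intro z hz
    by_cases ez : g • z = z
    · exact h3 x z E hx hz ez hE hxE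
    · exact (D.blk_eq (x := z) (y := y) (by rintro rfl; exact ez e) hyy (fun C hC => ⟨hC.2,
        h3 z y' C ez hy' e' (h1 y C hy e hC.2) hC.1⟩) E ⟨hyE, h3 x y' E hx hy' e' hE hxE⟩).1
  have h5 : (Fintype.card Ω : ℤ) + D.l = D.k + D.k := by
    rw [← D.hm (B := B) (C := E) (by rintro rfl; exact hy hyE), ← card_univ, card_eq_sum_ones,
      Nat.cast_sum, ← sum_add_distrib]
    nth_rewrite 2 [← D.hk E]
    rw [← D.hk B, ← sum_add_distrib]
    refine sum_congr rfl fun z _ => ?_
    by_cases hz : D.I z B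
    · simp [ind, hz]
    · simp [ind, hz, h4 z hz]
  nlinarith

/-- If `g` fixes exactly the points of `B`, whether it fixes a block depends only on the trace of
the block on `B`. -/
theorem fix_of_trace {g : G} {B : Y} (h : ∀ x, D.I x B ↔ g • x = x) {C C' : Y} (hC : C ≠ B)
    (hC' : C' ≠ B) (e : ∀ x, D.I x B → (D.I x C ↔ D.I x C')) (hf : g • C = C) : g • C' = C' := by
  obtain ⟨x0⟩ : Nonempty Ω := Fintype.card_pos_iff.1 (D.card ▸ Fintype.card_pos_iff.2 ⟨B⟩)
  have hB := D.smul_eq_of_fix hI fun x => (h x).1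
  have h1 : ∑ C : Y, ind (g • C = C) = D.k := by simp only [D.fix_eq hI, ← h, D.hk]
  let a : Ω → ℤ := fun x => ∑ E, ind (g • E = E) * ind (D.I x E)
  have h2 : ∀ C, ∑ x, ind (D.I x C) * a x = D.l * D.k + (D.k - D.l) * ind (g • C = C) := by
    intro C
    simp only [a, mul_sum]
    rw [sum_comm, ← h1, ← sum_ind_eq C fun E => ind (g • E = E), mul_sum, mul_sum,
      ← sum_add_distrib]
    refine sum_congr rfl fun E _ => ?_
    calc _ = ind (g • E = E) * ∑ x, ind (D.I x C ∧ D.I x E) := by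
          rw [mul_sum]
          exact sum_congr rfl fun x _ => by rw [ind_and]; ring
      _ = _ := by rw [hm', h1]; ring
  have h3 : ∑ x, a x = D.k * D.k := by
    rw [sum_comm]
    simp only [← mul_sum, D.hk, ← sum_mul, h1]
  have h4 : ∀ x, 0 ≤ (1 - ind (D.I x B)) * (D.l - a x) := by
    intro x
    by_cases hx : D.I x B
    · simp [ind_pos hx]
    rw [ind_neg hx, sub_zero, one_mul, sub_nonneg, ← D.hl (x := x) (y := g • x)
      fun e => hx ((h x).2 e.symm)]
    refine sum_le_sum fun E _ => ?_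
    rw [← ind_and]
    exact ind_mono fun hE => ⟨hE.2, by rw [← hE.1]; exact (hI g x E).2 hE.2⟩
  have h5 : ∑ x, (1 - ind (D.I x B)) * (D.l - a x) = 0 := by
    simp only [sub_mul, mul_sub, sum_sub_distrib, one_mul, h2, h3, ← sum_mul, D.hk, sum_const,
      card_univ, nsmul_eq_mul, ind_pos hB]
    linear_combination D.rel x0
  have h6 : ∀ C, C ≠ B → ∑ x, ind (D.I x B ∧ D.I x C) * a x + (D.k - D.l) * D.l =
      D.l * D.k + (D.k - D.l) * ind (g • C = C) := by
    intro C hC
    rw [← h2]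
    nth_rewrite 1 [← D.hm hC.symm]
    rw [← D.hk C, ← sum_sub_distrib, sum_mul, ← sum_add_distrib]
    refine sum_congr rfl fun x _ => ?_
    have := (sum_eq_zero_iff_of_nonneg fun x _ => h4 x).1 h5 x (mem_univ x)
    rw [ind_and]
    linear_combination ind (D.I x C) * this
  have h7 := h6 C hC
  rw [sum_congr rfl fun x _ => by rw [and_congr_right (e x)], h6 C' hC', add_right_inj] at h7
  exact (iff_of_ind_eq (mul_left_cancel₀ (sub_pos.2 D.lt).ne' h7)).2 hf

end Des

theorem burnside_sq (G Z : Type*) [Group G] [Fintype G] [Fintype Z] [MulAction G Z] :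
    ∑ g : G, (∑ z : Z, ind (g • z = z)) ^ 2 =
      (Nat.card (orbitRel.Quotient G (Z × Z)) * Fintype.card G : ℕ) := by
  have := Fintype.ofFinite (orbitRel.Quotient G (Z × Z))
  rw [Nat.card_eq_fintype_card, ← sum_card_fixedBy_eq_card_orbits_mul_card_group, Nat.cast_sum]
  refine sum_congr rfl fun g _ => ?_
  rw [← Nat.card_eq_fintype_card, sq, sum_mul_sum, ← Fintype.sum_prod_type']
  refine Eq.trans ?_ (sum_ind_card fun z : Z × Z => g • z = z)
  exact sum_congr rfl fun z _ => by rw [← ind_and, Prod.ext_iff]; rfl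

/-- Two actions with the same permutation character are simultaneously doubly transitive. -/
theorem two_of_fix_eq {G Ω Y : Type*} [Group G] [Finite G] [Fintype Ω] [Fintype Y] [MulAction G Ω]
    [MulAction G Y] (h : ∀ g : G, ∑ C : Y, ind (g • C = C) = ∑ x : Ω, ind (g • x = x))
    (two : ∀ {a b c d : Ω}, a ≠ b → c ≠ d → ∃ g : G, g • a = c ∧ g • b = d) {a b : Ω} (hab : a ≠ b)
    {A B C D : Y} (h1 : A ≠ B) (h2 : C ≠ D) : ∃ g : G, g • A = C ∧ g • B = D := by
  have := Fintype.ofFinite G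
  have e := burnside_sq G Y
  simp only [h, burnside_sq, Nat.cast_inj, mul_left_inj' Fintype.card_ne_zero] at e
  have h3 : Nat.card (orbitRel.Quotient G (Ω × Ω)) ≤ 2 := by
    refine (Nat.card_le_card_of_surjective (α := Fin 2)
      ![Quotient.mk _ (a, a), Quotient.mk _ (a, b)] ?_).trans (by simp)
    rintro ⟨x, y⟩
    by_cases hxy : x = y
    · obtain ⟨g, hg⟩ : ∃ g : G, g • x = a := by
        by_cases hx : x = a
        · exact ⟨1, by rw [one_smul, hx]⟩
        · obtain ⟨g, hg, -⟩ := two hx hab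
          exact ⟨g, hg⟩
      exact ⟨0, Quotient.sound ⟨g, Prod.ext hg (hxy ▸ hg)⟩⟩
    · obtain ⟨g, hg, hg'⟩ := two hxy hab
      exact ⟨1, Quotient.sound ⟨g, Prod.ext hg hg'⟩⟩
  by_contra hc
  have h4 : ∀ {A B C : Y}, A ≠ B → (Quotient.mk _ (C, C) : orbitRel.Quotient G (Y × Y)) ≠
      Quotient.mk _ (A, B) := fun hAB e => by
    obtain ⟨g, hg⟩ := Quotient.exact e
    exact hAB (MulAction.injective g ((congrArg Prod.fst hg).trans (congrArg Prod.snd hg).symm))
  have h5 : (Quotient.mk _ (C, D) : orbitRel.Quotient G (Y × Y)) ≠ Quotient.mk _ (A, B) := fun e => by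
    obtain ⟨g, hg⟩ := Quotient.exact e
    exact hc ⟨g, congrArg Prod.fst hg, congrArg Prod.snd hg⟩
  have := Fintype.ofFinite (orbitRel.Quotient G (Y × Y))
  have h6 := Fintype.two_lt_card_iff.2 ⟨_, _, _, h4 (C := A) h2, h4 h1, h5⟩
  rw [← Nat.card_eq_fintype_card] at h6
  exact (e ▸ h3).not_gt h6

end CL.SymDes
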