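import Mathlib
import Cfsg.Agent.PERM.SymDes
import Cfsg.Agent.PERM.ONan4
import Cfsg.Agent.SOLV.FrobeniusNil

/-!
Ito's theorem on doubly transitive symmetric designs with a block stabiliser acting unfaithfully
on the block.
-/

set_option autoImplicit false

namespace CL.SymDes

open Finset MulAction Subgroup CL.MSS Cfsg
open scoped Classical commutatorElement Pointwise

namespace Des

variable {Ω Y : Type*} [Fintype Ω] [Fintype Y] (D : Des Ω Y)
  {G : Type*} [Group G] [MulAction G Ω] [MulAction G Y]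

variable (G) in
/-- the pointwise stabiliser of a block -/
def K (B : Y) : Subgroup G := fixingSubgroup G {x | D.I x B}

omit [MulAction G Y] in
theorem mem_K {B : Y} {g : G} : g ∈ D.K G B ↔ ∀ x, D.I x B → g • x = x :=
  mem_fixingSubgroup_iff G

variable (hI : ∀ (g : G) x C, D.I (g • x) (g • C) ↔ D.I x C)
include hI

theorem conj_mem_K (h : G) {B : Y} {g : G} (hg : g ∈ D.K G B) : h * g * h⁻¹ ∈ D.K G (h • B) :=
  D.mem_K.2 fun x hx => by
    rw [mul_smul, mul_smul, D.mem_K.1 hg _ (by rwa [← hI h, smul_inv_smul]), smul_inv_smul]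

theorem conj_mem_K' {h : G} {B : Y} {g : G} (hg : g ∈ D.K G B) (hh : h • B = B) :
    h * g * h⁻¹ ∈ D.K G B := by simpa [hh] using D.conj_mem_K hI h hg

theorem K_smul {B : Y} {g : G} (hg : g ∈ D.K G B) : g • B = B :=
  D.smul_eq_of_fix hI (D.mem_K.1 hg)

variable [Finite G] [FaithfulSMul G Ω]

theorem fittingOf_ne_bot_of_fix (h2 : 2 ≤ D.k) {B : Y} {y : Ω} (hy : ¬ D.I y B) {g : G}
    (hg : g ∈ D.K G B) (hg1 : g ≠ 1) (hgy : g • y = y) {h : G} (hB : h • B = B) (hh : h • y ≠ y) :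
    fittingOf (D.K G B) ≠ ⊥ := by
  have key : ∀ a ∈ D.K G B, ∀ t : G, t • B = B → t • y ≠ y → a • y = y → a • t • y = t • y →
      a = 1 := fun a ha t ht hty e e' =>
    eq_of_smul_eq_smul (α := Ω) fun x => by
      rw [one_smul]
      exact D.fix_of_two hI h2 (D.mem_K.1 ha) hty.symm hy (by rwa [← ht, hI]) e e' x
  have hF : Cfsg.IsFrobeniusComplement ((stabilizer G y).subgroupOf (D.K G B)) := by
    refine ⟨fun e => hg1 ?_, fun e => hg1 ?_, fun t ht => eq_bot_iff.2 fun a ⟨h1, h3⟩ => ?_⟩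
    · exact congrArg Subtype.val (mem_bot.1 (e.le (show (⟨g, hg⟩ : D.K G B) ∈ _ from hgy)))
    · refine key g hg h hB hh hgy ?_
      have : (h⁻¹ * g * h⁻¹⁻¹) • y = y := e.ge (mem_top (⟨_, D.conj_mem_K' hI hg (h := h⁻¹)
        (by rw [inv_smul_eq_iff, hB])⟩ : D.K G B))
      rwa [inv_inv, mul_smul, mul_smul, inv_smul_eq_iff] at this
    · obtain ⟨b, hb, rfl⟩ := (mem_smul_pointwise_iff_exists _ _ _).1 h3
      refine mem_bot.2 (Subtype.ext (key _ (Subtype.prop _) t (D.K_smul hI t.2) ht h1 ?_))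
      change ((t : G) * b * (t : G)⁻¹) • (t : G) • y = _
      rw [mul_smul, mul_smul, inv_smul_smul, show (b : G) • y = y from hb]
  obtain ⟨N, -, hN, -, hN1, -, hnil⟩ := CL.Frob.exists_nilpotent_kernel hF
  intro e
  rw [fittingOf_def, map_eq_bot_iff_of_injective _ (subtype_injective _)] at e
  exact hN1 (le_bot_iff.1 (e ▸ le_fittingSubgroup hnil))

omit [Finite G] in
theorem fittingOf_ne_bot_of_semiregular (h2 : 2 ≤ D.k)
    (two : ∀ {A B C E : Y}, A ≠ B → C ≠ E → ∃ g : G, g • A = C ∧ g • B = E)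
    (hs : ∀ B, ∀ g ∈ D.K G B, g ≠ 1 → ∀ x, g • x = x → D.I x B) {B : Y} {g0 : G}
    (hg0 : g0 ∈ D.K G B) (hg1 : g0 ≠ 1) : fittingOf (D.K G B) ≠ ⊥ := by
  have tr : ∀ {B C C' : Y} {g : G}, g ∈ D.K G B → C ≠ B → C' ≠ B →
      (∀ x, D.I x B → (D.I x C ↔ D.I x C')) → g • C = C → g • C' = C' := by
    intro B C C' g hg hC hC' e hf
    by_cases h1 : g = 1
    · rw [h1, one_smul]
    exact D.fix_of_trace hI (fun x => ⟨D.mem_K.1 hg x, hs B g hg h1 x⟩) hC hC' e hf
  have ti : ∀ {B C : Y} {g : G}, B ≠ C → g ∈ D.K G B → g ∈ D.K G C → g = 1 := by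
    intro B C g h h1 h3
    by_contra h4
    exact h (D.eq_of_subset fun x hx => hs C g h3 h4 x (D.mem_K.1 h1 x hx))
  have cm : ∀ {B C : Y} {u v : G}, B ≠ C → u ∈ D.K G B → v ∈ D.K G C → u • C = C → v • B = B →
      u * v = v * u := by
    intro B C u v h hu hv e e'
    refine commutatorElement_eq_one_iff_mul_comm.1 (ti h ?_ (mul_mem (D.conj_mem_K' hI hv e)
      (inv_mem hv)))
    rw [← commutatorElement_inv]
    exact inv_mem (mul_mem (D.conj_mem_K' hI hu e') (inv_mem hu))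
  have h1 : ∑ C : Y, ind (g0 • C = C) = D.k := by
    rw [D.fix_eq hI, ← D.hk B]
    exact sum_congr rfl fun x _ => by rw [propext ⟨hs B g0 hg0 hg1 x, D.mem_K.1 hg0 x⟩]
  obtain ⟨C, hC, hCB⟩ := exists_of_sum_ind_ne (P := fun C => g0 • C = C) (Q := fun C => C = B)
    (by rw [h1, sum_ind_eq']; omega)
  obtain ⟨E, -, hE⟩ := exists_of_sum_ind_ne (P := fun _ : Y => True) (Q := fun C => g0 • C = C) (by
    obtain ⟨x, hx⟩ : ∃ x : Ω, g0 • x ≠ x := by
      by_contra h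
      push Not at h
      exact hg1 (eq_of_smul_eq_smul (α := Ω) fun x => by rw [h, one_smul])
    rw [D.fix_eq hI]
    refine (sum_lt_sum (g := fun _ => ind True) (fun x _ => ind_mono fun _ => trivial)
      ⟨x, mem_univ x, by simp [ind, hx]⟩).trans_eq (by simp [D.card]))
  have hEB : E ≠ B := by rintro rfl; exact hE (D.K_smul hI hg0)
  obtain ⟨h, hhB, hhE⟩ := two hEB.symm (Ne.symm hCB)
  obtain ⟨g, hg, hgC⟩ : ∃ g ∈ D.K G B, g • C ≠ C := ⟨_, D.conj_mem_K' hI hg0 hhB, by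
    rwa [← hhE, mul_smul, inv_smul_smul, mul_smul, Ne, smul_left_cancel_iff]⟩
  obtain ⟨t, ht1, ht2⟩ := two hCB (Ne.symm hCB)
  obtain ⟨u, hu, hu1, huB⟩ : ∃ u ∈ D.K G C, u ≠ 1 ∧ u • B = B := ⟨_, ht2 ▸ D.conj_mem_K hI t hg0,
    by simpa using hg1, by rw [← ht1, mul_smul, inv_smul_smul, mul_smul, hC]⟩
  have hmv : ∀ h ∈ D.K G B, h • C ≠ B ∧ ∀ x, D.I x B → (D.I x C ↔ D.I x (h • C)) := fun h hh =>
    ⟨fun e => hCB (MulAction.injective h (e.trans (D.K_smul hI hh).symm)), fun x hx => by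
      rw [← hI h x C, D.mem_K.1 hh x hx]⟩
  let U := D.K G B ⊓ stabilizer G C
  have hU : D.K G B ≤ normalizer (U : Set G) := le_normalizer_of_cj_le fun h hh =>
    cj_le_iff_forall.2 fun v hv => ⟨D.conj_mem_K' hI hv.1 (D.K_smul hI hh),
      tr (D.conj_mem_K' hI hv.1 (D.K_smul hI hh)) (hmv h hh).1 hCB
        (fun x hx => ((hmv h hh).2 x hx).symm) (by
          rw [mul_smul, inv_smul_smul, mul_smul, show v • C = C from hv.2])⟩
  have hu' := D.conj_mem_K hI g hu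
  have hu'B : (g * u * g⁻¹) • B = B := by
    rw [mul_smul, mul_smul, D.K_smul hI (inv_mem hg), huB, D.K_smul hI hg]
  have hz : ⁅g, u⁆ ∈ U ⊓ centralizer (U : Set G) := by
    refine mem_inf.2 ⟨mem_inf.2 ⟨?_, ?_⟩, fun v hv => ?_⟩
    · rw [← commutatorElement_inv]
      exact inv_mem (mul_mem (D.conj_mem_K' hI hg huB) (inv_mem hg))
    · refine (stabilizer G C).mul_mem (tr hu' (hmv g hg).1.symm hgC.symm (fun x hx => ?_) hu'B)
        ((stabilizer G C).inv_mem (D.K_smul hI hu))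
      exact ⟨fun h => ((hmv g hg).2 x h).2 hx,
        fun h => (D.inter_smul hI (D.mem_K.1 hg) hgC x ⟨h, hx⟩).2⟩
    · have e1 := cm hCB (inv_mem hu) hv.1 (by rw [inv_smul_eq_iff, huB]) hv.2
      have e2 := cm (hmv g hg).1 hu' hv.1 hu'B (tr hv.1 hCB (hmv g hg).1 (hmv g hg).2 hv.2)
      rw [commutatorElement_def, ← mul_assoc v, ← e2, mul_assoc _ v, ← e1, ← mul_assoc]
  intro e
  have h3 := le_fittingOf (N := U ⊓ centralizer (U : Set G)) (inf_le_left.trans inf_le_left)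
    (le_normalizer_inf hU (le_normalizer_centralizer hU))
    (CL.Comp.isNilpotent_of_le_centralizer (CL.Comp.inf_centralizer_le_centralizer U)) hz
  rw [e, mem_bot, commutatorElement_def, mul_inv_eq_one] at h3
  exact hu1 (ti hgC (h3 ▸ hu') hu)

/-- Ito's theorem for a symmetric design. -/
theorem ito (two : ∀ {a b c d : Ω}, a ≠ b → c ≠ d → ∃ g : G, g • a = c ∧ g • b = d)
    (h2 : 2 ≤ D.k) (hm : ∀ (B : Y) (y : Ω), ∃ h : G, h • B = B ∧ h • y ≠ y) {B : Y} {g : G}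
    (hg : g ∈ D.K G B) (hg1 : g ≠ 1) :
    ∃ (F : Type) (_ : Field F) (_ : Fintype F) (n : ℕ), 3 ≤ n ∧
      Nat.card Ω = (Fintype.card F ^ n - 1) / (Fintype.card F - 1) ∧ ∃ L : Subgroup G, L.Normal ∧
      Nonempty (L ≃* Matrix.ProjectiveSpecialLinearGroup (Fin n) F) ∧
      centralizer (L : Set G) = ⊥ := by
  obtain ⟨a, ha⟩ : ∃ x : Ω, g • x ≠ x := by
    by_contra h
    push Not at h
    exact hg1 (eq_of_smul_eq_smul (α := Ω) fun x => by rw [h, one_smul])
  have two' : ∀ {A B C E : Y}, A ≠ B → C ≠ E → ∃ g : G, g • A = C ∧ g • B = E :=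
    two_of_fix_eq (D.fix_eq hI) two ha
  have : FaithfulSMul G Y := faithfulSMul_iff.2 fun t ht => faithfulSMul_iff.1 ‹_› t fun x =>
    imp_of_sum_ind_eq (P := fun x => t • x = x) (Q := fun _ => True) (fun _ _ => trivial)
      (by rw [← D.fix_eq hI]; simp [ht, D.card]) x trivial
  obtain ⟨B, hB⟩ : ∃ B, fittingOf (D.K G B) ≠ ⊥ := by
    by_cases hs : ∀ B, ∀ g ∈ D.K G B, g ≠ 1 → ∀ x, g • x = x → D.I x B
    · exact ⟨B, D.fittingOf_ne_bot_of_semiregular hI h2 two' hs hg hg1⟩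
    push Not at hs
    obtain ⟨B, g, hg, hg1, y, hgy, hy⟩ := hs
    obtain ⟨h, hB, hh⟩ := hm B y
    exact ⟨B, D.fittingOf_ne_bot_of_fix hI h2 hy hg hg1 hgy hB hh⟩
  have hN : ∀ t : G, t • B = B → t ∈ normalizer (fittingOf (D.K G B) : Set G) := fun t ht =>
    normalizer_le_normalizer_fittingOf _ (mem_normalizer_of_cj_le
      (cj_le_iff_forall.2 fun _ h => D.conj_mem_K' hI h ht))
  rw [Nat.card_eq_fintype_card, ← D.card, ← Nat.card_eq_fintype_card]
  refine CL.ONan.onan two' B (fittingOf (D.K G B) ⊓ centralizer (fittingOf (D.K G B) : Set G))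
    (fun n hn => D.K_smul hI (fittingOf_le _ hn.1)) (fun t ht n hn => ?_)
    (fun a ha b hb => hb.2 a ha.1) ?_
  · exact conj_mem_of_normalizes (le_normalizer_inf le_rfl
      (normalizer_le_normalizer_centralizer _)) (hN t ht) hn
  · obtain ⟨⟨n, hn⟩, hn1⟩ := ne_bot_iff_exists_ne_one.1 (inf_centralizer_ne_bot_of_isNilpotent
      (isNilpotent_fittingOf (D.K G B)) le_rfl le_normalizer hB)
    obtain ⟨C, hC, hCB⟩ := exists_of_sum_ind_ne (P := fun C => n • C = C) (Q := fun C => C = B) (by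
      rw [D.fix_eq hI, sum_ind_eq']
      refine lt_of_lt_of_le (by omega) ((D.hk B).ge.trans (sum_le_sum fun x _ => ind_mono ?_))
      exact D.mem_K.1 (fittingOf_le _ hn.1) x)
    exact ⟨n, hn, fun e => hn1 (Subtype.ext e), C, hCB, hC⟩

end Des

/-- Ito's theorem. -/
theorem ito {G Ω : Type*} [Group G] [Finite G] [MulAction G Ω] [FaithfulSMul G Ω] [Finite Ω]
    (two : ∀ {a b c d : Ω}, a ≠ b → c ≠ d → ∃ g : G, g • a = c ∧ g • b = d) (H : Subgroup G)
    (hidx : H.index = Nat.card Ω) {a b : Ω} (hb : b ∉ orbit H a) (hfix : ∀ a : Ω, ∃ h : H, h • a ≠ a)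
    {g : G} (hg1 : g ≠ 1) (hg : ∀ b ∈ orbit H a, g • b = b) :
    ∃ (F : Type) (_ : Field F) (_ : Fintype F) (n : ℕ), 3 ≤ n ∧
      Nat.card Ω = (Fintype.card F ^ n - 1) / (Fintype.card F - 1) ∧ ∃ L : Subgroup G, L.Normal ∧
      Nonempty (L ≃* Matrix.ProjectiveSpecialLinearGroup (Fin n) F) ∧
      centralizer (L : Set G) = ⊥ := by
  have := Fintype.ofFinite Ω
  have := Fintype.ofFinite (G ⧸ H)
  let I : Ω → G ⧸ H → Prop := fun x q => ∃ t : G, (t : G ⧸ H) = q ∧ t⁻¹ • x ∈ orbit H a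
  have hI : ∀ (g : G) x C, I (g • x) (g • C) ↔ I x C := by
    suffices ∀ (g : G) x C, I x C → I (g • x) (g • C) from fun g x C =>
      ⟨fun h => by simpa using this g⁻¹ _ _ h, this g x C⟩
    rintro g x _ ⟨t, rfl, ht⟩
    exact ⟨g * t, rfl, by simpa [mul_smul] using ht⟩
  have hI1 : ∀ x, I x ((1 : G) : G ⧸ H) ↔ x ∈ orbit H a := by
    refine fun x => ⟨?_, fun h => ⟨1, rfl, by simpa using h⟩⟩
    rintro ⟨t, ht, k, hk⟩
    have ht' : t ∈ H := by simpa using QuotientGroup.eq.1 ht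
    exact ⟨⟨t, ht'⟩ * k, by
      change (t * k : G) • a = x
      rw [mul_smul, show (k : G) • a = t⁻¹ • x from hk, smul_inv_smul]⟩
  have hab : a ≠ b := by rintro rfl; exact hb (mem_orbit_self a)
  have tr : ∀ x, ∃ t : G, t • a = x := by
    intro x
    by_cases h : x = a
    · exact ⟨1, by rw [h, one_smul]⟩
    · obtain ⟨t, ht, -⟩ := two hab h
      exact ⟨t, ht⟩
  have hcard : Fintype.card (G ⧸ H) = Fintype.card Ω := by
    rw [← Nat.card_eq_fintype_card, ← Nat.card_eq_fintype_card, ← hidx, index]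
  have hk : ∀ C, ∑ x, ind (I x C) = ∑ x, ind (I x ((1 : G) : G ⧸ H)) := by
    intro C
    obtain ⟨t, rfl⟩ := exists_smul_eq G ((1 : G) : G ⧸ H) C
    rw [← Equiv.sum_comp (toPerm t)]
    simp only [toPerm_apply, hI]
  have hr : ∀ x, ∑ C, ind (I x C) = ∑ C, ind (I a C) := by
    intro x
    obtain ⟨t, rfl⟩ := tr x
    rw [← Equiv.sum_comp (toPerm t)]
    simp only [toPerm_apply, hI]
  have hrk : ∑ C, ind (I a C) = ∑ x, ind (I x ((1 : G) : G ⧸ H)) := by
    have h1 : ∑ x, ∑ C, ind (I x C) = ∑ C, ∑ x, ind (I x C) := sum_comm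
    rw [sum_congr rfl fun x _ => hr x, sum_congr rfl fun C _ => hk C, sum_const, sum_const,
      card_univ, card_univ, hcard, nsmul_eq_mul, nsmul_eq_mul] at h1
    exact mul_left_cancel₀ (Nat.cast_ne_zero.2 (Fintype.card_pos_iff.2 ⟨a⟩).ne') h1
  let D : Des Ω (G ⧸ H) :=
    { I := I
      k := ∑ x, ind (I x ((1 : G) : G ⧸ H))
      l := ∑ C, ind (I a C ∧ I b C)
      hk := hk
      hr := fun x => (hr x).trans hrk
      hl := fun h => by
        obtain ⟨t, rfl, rfl⟩ := two hab h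
        rw [← Equiv.sum_comp (toPerm t)]
        simp only [toPerm_apply, hI]
      card := hcard
      lt := by
        rw [← hrk]
        refine sum_lt_sum (fun C _ => ind_mono And.left) ⟨((1 : G) : G ⧸ H), mem_univ _, ?_⟩
        simp [ind, hI1, hb] }
  refine D.ito hI two ?_ (fun B y => ?_) (B := ((1 : G) : G ⧸ H))
    (D.mem_K.2 fun x hx => hg x ((hI1 x).1 hx)) hg1
  · obtain ⟨h, hh⟩ := hfix a
    exact two_le_sum_ind hh ((hI1 _).2 (mem_orbit a h)) ((hI1 _).2 (mem_orbit_self a))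
  · obtain ⟨t, rfl⟩ := QuotientGroup.mk_surjective B
    obtain ⟨h, hh⟩ := hfix (t⁻¹ • y)
    refine ⟨t * h * t⁻¹, QuotientGroup.eq.2 (by simp), fun e => hh ?_⟩
    rwa [mul_smul, mul_smul, ← eq_inv_smul_iff] at e

end CL.SymDes
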