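import Mathlib
import Cfsg.Agent.FGS.ClassSize
import Cfsg.Agent.CHAR.IndTI
import Cfsg.Agent.CHAR.IndMap
import Cfsg.Agent.CHAR.FrobGroup
import Cfsg.Agent.CHAR.Burnside

/-!
# Characters whose restriction to a self-centralizing abelian subgroup is regular
-/

set_option autoImplicit false

namespace CL.Ito

open Subgroup Cfsg CL.CS CL.Char

variable {G : Type*} [Group G] [Finite G]

theorem mem_normalizer_of_cen {B : Subgroup G} (hB : ∀ v ∈ B, v ≠ 1 → 𝐂[v] = B) {g t : G}
    (ht : t ∈ B) (ht1 : t ≠ 1) (h : g * t * g⁻¹ ∈ B) : g ∈ normalizer (B : Set G) :=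
  mem_normalizer_fintype fun v hv => by
    rw [SetLike.mem_coe, ← hB _ h (by simpa using ht1), cen_conj, hB t ht ht1]
    exact ⟨v, hv, rfl⟩

theorem nat_add_eq_zero {a b : ℂ} (ha : ∃ n : ℕ, a = n) (hb : ∃ n : ℕ, b = n) (h : a + b = 0) :
    a = 0 ∧ b = 0 := by
  obtain ⟨m, rfl⟩ := ha
  obtain ⟨n, rfl⟩ := hb
  have : m + n = 0 := by exact_mod_cast h
  simp [show m = 0 by omega, show n = 0 by omega]

theorem nat_add_eq_one {a b : ℂ} (ha : ∃ n : ℕ, a = n) (hb : ∃ n : ℕ, b = n) (h : a + b = 1) :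
    a = 0 ∧ b = 1 ∨ a = 1 ∧ b = 0 := by
  obtain ⟨m, rfl⟩ := ha
  obtain ⟨n, rfl⟩ := hb
  have : m + n = 1 := by exact_mod_cast h
  rcases (by omega : m = 0 ∧ n = 1 ∨ m = 1 ∧ n = 0) with ⟨rfl, rfl⟩ | ⟨rfl, rfl⟩ <;> simp

theorem degree_of_regular {B : Subgroup G} (hB : ∀ v ∈ B, v ≠ 1 → 𝐂[v] = B) {π χ : G → ℂ}
    [Fintype G] (hπ : IsCharacter G π) (hπ1 : π 1 = Nat.card B) (hπ0 : ∀ v ∈ B, v ≠ 1 → π v = 0)
    (h1 : classInner π (fun _ => 1) ≠ 0) (hχ : IsIrrCharacter G χ) (hχ1 : χ ≠ fun _ => 1)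
    (h2 : classInner π χ ≠ 0) :
    χ 1 + 1 = Nat.card B ∨ χ 1 = B.relIndex (normalizer (B : Set G)) := by
  classical
  set N := normalizer (B : Set G)
  set K := B.subgroupOf N
  have hcomm : ∀ a b : K, a * b = b * a := fun a b => by
    by_cases ha : ((a : N) : G) = 1
    · rw [show a = 1 from Subtype.ext (Subtype.ext ha), one_mul, mul_one]
    · exact Subtype.ext (Subtype.ext (mem_cen'.1 ((hB _ a.2 ha).ge b.2)))
  let r : (G → ℂ) → K → ℂ := fun f k => f k
  have hr : ∀ {f}, IsCharacter G f → IsCharacter K (r f) := fun hf => (hf.res N).res K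
  have hn : ∀ {f φ}, IsCharacter G f → IsIrrCharacter K φ → ∃ n : ℕ, classInner (r f) φ = n :=
    fun hf hφ => (hr hf).exists_nat_inner hφ.isCharacter
  have hsub : ∀ f g φ, classInner (r (f - g)) φ = classInner (r f) φ - classInner (r g) φ :=
    fun f g φ => classInner_sub_left (r f) (r g) φ
  have hreg : ∀ φ, IsIrrCharacter K φ → classInner (r π) φ = 1 := fun φ hφ => by
    rw [classInner_def, Finset.sum_eq_single 1]
    · rw [hφ.one_eq_one_of_comm hcomm, map_one, mul_one, show r π 1 = π 1 from rfl, hπ1,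
        Nat.card_congr (subgroupOfEquivOfLe le_normalizer).toEquiv, inv_mul_cancel₀ (card_ne_zero B)]
    · intro k _ hk
      rw [show r π k = 0 from hπ0 _ k.2 fun e => hk (Subtype.ext (Subtype.ext e)), zero_mul]
    · simp
  have hirr : ∀ φ, IsIrrCharacter K φ → (φ ≠ fun _ => 1) → IsIrrCharacter N (indFun K φ) :=
    fun φ hφ h0 => frob_ind_irr (fpf_of_centralizer_le (K := K) fun k hk hk1 g hg =>
      (hB (k : G) hk fun e => hk1 (Subtype.ext e)).le
        (mem_cen.2 ((mem_cen.1 hg).map N.subtype))) hφ h0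
  have hρ : IsCharacter G (π - (fun _ => 1) - χ) := (hπ.sub_irr isIrrCharacter_one h1).sub_irr hχ (by
    rwa [classInner_sub_left, isIrrCharacter_one.inner_of_ne hχ hχ1.symm, sub_zero])
  set ρ := π - (fun _ => 1) - χ with hρdef
  by_cases hρ0 : ρ = 0
  · left
    have := congrFun hρ0 1
    simp only [hρdef, Pi.sub_apply, hπ1, Pi.zero_apply] at this
    linear_combination -this
  right
  obtain ⟨χ', hχ', h3⟩ := hρ.exists_irr_inner_ne_zero hρ0
  have hσ := hρ.sub_irr hχ' h3
  have hsum : ∀ φ, IsIrrCharacter K φ → classInner (r χ) φ + (classInner (r χ') φ +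
      classInner (r (ρ - χ')) φ) = 1 - classInner (fun _ => 1) φ := fun φ hφ => by
    rw [hsub, hρdef, hsub, hsub, hreg φ hφ]; ring
  have hn2 : ∀ φ, IsIrrCharacter K φ →
      ∃ n : ℕ, classInner (r χ') φ + classInner (r (ρ - χ')) φ = n := fun φ hφ => by
    obtain ⟨a, ha⟩ := hn hχ'.isCharacter hφ
    obtain ⟨b, hb⟩ := hn hσ hφ
    exact ⟨a + b, by rw [ha, hb, Nat.cast_add]⟩
  have h4 := nat_add_eq_zero (hn hχ.isCharacter isIrrCharacter_one) (hn2 _ isIrrCharacter_one)
    (by rw [hsum _ isIrrCharacter_one, isIrrCharacter_one.inner_self, sub_self])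
  have h5 : ∀ φ, IsIrrCharacter K φ → (φ ≠ fun _ => 1) → _ := fun φ hφ h0 =>
    nat_add_eq_one (hn hχ.isCharacter hφ) (hn2 _ hφ)
      (by rw [hsum _ hφ, isIrrCharacter_one.inner_of_ne hφ h0.symm, sub_zero])
  have hex : ∀ {f}, IsIrrCharacter G f → ∃ φ, IsIrrCharacter K φ ∧ classInner (r f) φ ≠ 0 :=
    fun hf => (hr hf.isCharacter).exists_irr_inner_ne_zero fun e => by
      obtain ⟨n, h0, e'⟩ := hf.exists_pos_degree
      exact h0.ne' (Nat.cast_eq_zero.1 (e'.symm.trans (congrFun e 1)))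
  obtain ⟨ψ, hψ, hψ1⟩ := hex hχ'
  have hψ0 : ψ ≠ fun _ => 1 := by
    rintro rfl
    exact hψ1 (nat_add_eq_zero (hn hχ'.isCharacter hψ) (hn hσ hψ) h4.2).1
  obtain ⟨h6, h7⟩ : classInner (r χ) ψ = 0 ∧ classInner (r χ') ψ = 1 := by
    rcases h5 ψ hψ hψ0 with e | e
    · exact ⟨e.1, ((nat_add_eq_one (hn hχ'.isCharacter hψ) (hn hσ hψ) e.2).resolve_left
        fun e => hψ1 e.1).1⟩
    · exact (hψ1 (nat_add_eq_zero (hn hχ'.isCharacter hψ) (hn hσ hψ) e.2).1).elim
  have hne : χ ≠ χ' := by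
    rintro rfl
    exact zero_ne_one (h6.symm.trans h7)
  have hfr : ∀ {f : G → ℂ} φ, IsClassFunction G f →
      classInner (fun n : N => f n) (indFun K φ) = classInner (r f) φ := fun φ hf =>
    classInner_indFun_right K (hf.res N) φ
  have hsupp : ∀ φ (x : N), (x : G) ∉ (B : Set G) → (indFun K φ - indFun K ψ) x = 0 :=
    fun φ x hx => by
      rw [Pi.sub_apply, indFun_eq_zero_of_normal K φ hx, indFun_eq_zero_of_normal K ψ hx, sub_zero]
  have hiso : ∀ φ φ', IsIrrCharacter K φ → classInner (indFun N (indFun K φ - indFun K ψ))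
      (indFun N (indFun K φ' - indFun K ψ)) =
      classInner (indFun K φ - indFun K ψ) (indFun K φ' - indFun K ψ) := fun φ φ' hφ =>
    classInner_indFun_indFun_of_ti N B
      (fun g hg t ht h0 => by_contra fun ht1 => hg (mem_normalizer_of_cen hB ht ht1 h0))
      ((indFun_isClassFunction _ _).sub (indFun_isClassFunction _ _)) (hsupp φ) (hsupp φ') (by
        rw [Pi.sub_apply, indFun_one, indFun_one, hφ.one_eq_one_of_comm hcomm,
          hψ.one_eq_one_of_comm hcomm, sub_self])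
  have hL : ∀ φ, IsIrrCharacter K φ → classInner (r χ) φ ≠ 0 → IsIrrCharacter N (indFun K φ) ∧
      classInner (r χ) φ = 1 ∧ classInner (indFun K φ) (indFun K ψ) = 0 ∧
      classInner (indFun K ψ) (indFun K φ) = 0 ∧ indFun N (indFun K φ - indFun K ψ) = χ - χ' := by
    intro φ hφ h0
    have h8 : φ ≠ fun _ => 1 := by
      rintro rfl
      exact h0 h4.1
    obtain ⟨h9, h10⟩ := (h5 φ hφ h8).resolve_left fun e => h0 e.1
    have h11 := (nat_add_eq_zero (hn hχ'.isCharacter hφ) (hn hσ hφ) h10).1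
    have h12 : indFun K φ ≠ indFun K ψ := fun e => h0 (by
      rw [← hfr φ hχ.isClassFunction, e, hfr ψ hχ.isClassFunction, h6])
    have h13 := (hirr φ hφ h8).inner_of_ne (hirr ψ hψ hψ0) h12
    have h14 := (hirr ψ hψ hψ0).inner_of_ne (hirr φ hφ h8) h12.symm
    refine ⟨hirr φ hφ h8, h9, h13, h14, ?_⟩
    have h15 := hiso φ φ hφ
    rw [classInner_sub_left, classInner_sub_right, classInner_sub_right, h13, h14,
      (hirr φ hφ h8).inner_self, (hirr ψ hψ hψ0).inner_self] at h15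
    set u := indFun N (indFun K φ - indFun K ψ) with hu
    have h16 : ∀ {f}, IsClassFunction G f →
        classInner f u = classInner (r f) φ - classInner (r f) ψ := fun hf => by
      rw [hu, classInner_indFun_right N hf, classInner_sub_right, hfr φ hf, hfr ψ hf]
    have h17 := h16 hχ.isClassFunction
    have h18 := h16 hχ'.isClassFunction
    rw [h9, h6] at h17
    rw [h11, h7] at h18
    rw [← sub_eq_zero, ← classInner_self_eq_zero]
    simp only [classInner_sub_left, classInner_sub_right]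
    rw [← classInner_conj_symm χ u, ← classInner_conj_symm χ' u, h15, h17, h18, hχ.inner_self,
      hχ'.inner_self, hχ.inner_of_ne hχ' hne, hχ'.inner_of_ne hχ hne.symm]
    simp
  obtain ⟨φ₀, hφ₀, h8⟩ := hex hχ
  obtain ⟨h9, h10, h11, h12, h13⟩ := hL φ₀ hφ₀ h8
  have hD := (hχ.isCharacter.res N).sub_irr h9 (by rwa [hfr φ₀ hχ.isClassFunction])
  have h14 := (hD.res K).isClassFunction.eq_zero_of_inner fun φ hφ => by
    rw [← classInner_indFun_right K hD.isClassFunction]
    have h15 := hfr φ hχ.isClassFunction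
    by_cases h0 : classInner (r χ) φ = 0
    · exact (nat_add_eq_zero (hD.exists_nat_inner hφ.isCharacter.ind)
        (h9.isCharacter.exists_nat_inner hφ.isCharacter.ind)
        (by rw [classInner_sub_left, h15, h0]; ring)).1
    obtain ⟨-, h16, h17, h18, h19⟩ := hL φ hφ h0
    have h20 := hiso φ₀ φ hφ₀
    rw [h13, h19] at h20
    simp only [classInner_sub_left, classInner_sub_right] at h20
    rw [hχ.inner_self, hχ'.inner_self, hχ.inner_of_ne hχ' hne, hχ'.inner_of_ne hχ hne.symm, h11, h18,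
      (hirr ψ hψ hψ0).inner_self] at h20
    rw [classInner_sub_left, h15, h16]
    linear_combination h20
  have h15 := congrFun h14 1
  simp only [Pi.sub_apply, OneMemClass.coe_one, Pi.zero_apply, indFun_one,
    hφ₀.one_eq_one_of_comm hcomm, mul_one, sub_eq_zero] at h15
  exact h15

/-- A centralizer complemented by a self-centralizing abelian Hall subgroup. -/
theorem eq_of_commute_conj [IsSimpleGroup G] (hG : ¬ IsMulCommutative G) {B : Subgroup G}
    (hB : ∀ v ∈ B, v ≠ 1 → 𝐂[v] = B) (hco : (Nat.card B).Coprime B.index) {x : G} (hx1 : x ≠ 1)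
    (hx : (𝐂[x]).index = Nat.card B) (hc : ∀ v ∈ B, v ≠ 1 → ∀ g : G, g⁻¹ * v * g ∉ 𝐂[x])
    {y : G} (hy1 : y ≠ 1) (hy : (𝐂[y]).index = Nat.card B) {g h : G} (hg : g⁻¹ * y * g ∈ 𝐂[x])
    (hh : h⁻¹ * y * h ∈ 𝐂[x]) : g⁻¹ * h ∈ 𝐂[x] := by
  classical
  have := Fintype.ofFinite G
  set π := indFun 𝐂[x] fun _ => (1 : ℂ) with hπ
  have h1 : IsCharacter G π := isCharacter_one.ind
  have h2 : classInner π (fun _ => 1) = 1 := by
    rw [hπ, classInner_indFun_left _ _ (isClassFunction_const 1)]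
    exact isIrrCharacter_one.inner_self
  have h3 : π y = 1 := by
    rw [h1.isClassFunction.apply_eq_sum y,
      Finset.sum_eq_single (⟨fun _ => 1, isIrrCharacter_one⟩ : IrrCharacter G)]
    · exact (mul_one _).trans h2
    · rintro ⟨χ, hχ⟩ - hne
      have hχ1 : χ ≠ fun _ => 1 := fun e => hne (Subtype.ext e)
      refine mul_eq_zero.2 (or_iff_not_imp_left.2 fun h0 => ?_)
      refine (hχ.eq_zero_or_norm_eq y ?_).resolve_right fun e => ?_
      · rw [hy]
        rcases degree_of_regular hB h1 (by rw [hπ, indFun_one, hx, mul_one])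
          (fun v hv hv1 => indFun_eq_zero_of_not_conj _ _ _ (hc v hv hv1)) (h2.trans_ne one_ne_zero) hχ hχ1
          h0 with e | e <;> rw [hχ.apply_one_eq_charDegree] at e
        · rw [← (by exact_mod_cast e : charDegree χ + 1 = Nat.card B)]
          simp
        · rw [(by exact_mod_cast e : charDegree χ = B.relIndex (normalizer (B : Set G)))]
          exact (hco.coprime_dvd_right (relIndex_dvd_index_of_le le_normalizer)).symm
      · have h4 := hχ.mem_charCenter.2 e
        rw [hχ.charCenter_eq_center (hχ.charKer_eq_bot_of_simple hχ1)] at h4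
        exact hG ⟨⟨mul_comm_of_simple_of_mem_center hy1 h4⟩⟩
    · simp
  have h4 := card_mul_indFun_one 𝐂[x] y
  rw [← hπ, h3, mul_one, Nat.cast_inj] at h4
  let f : 𝐂[x] → {u : G // u⁻¹ * y * u ∈ 𝐂[x]} := fun c => ⟨g * c, by
    simpa [mul_assoc] using mul_mem (mul_mem (inv_mem c.2) hg) c.2⟩
  obtain ⟨c, hc⟩ := ((Nat.bijective_iff_injective_and_card f).2
    ⟨fun a b e => Subtype.ext (mul_left_cancel (congrArg Subtype.val e)), h4⟩).2 ⟨h, hh⟩
  rw [← show g * c = h from congrArg Subtype.val hc]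
  simp

end CL.Ito
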