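/- The affine model `P0` is a maximal parabolic subgroup of `PSL(4,3)`. -/
import Mathlib
import Cfsg.Agent.PERM.L43M
import Cfsg.Agent.PERM.L3H.LocA
import Cfsg.Agent.SPOR.FiK3
import Cfsg.Prelude.Def_Amalgam

set_option autoImplicit false

namespace CL.L43

open scoped MatrixGroups
open Matrix Subgroup

namespace LP

/-- the `4 × 4` matrix -/
def m4 (p : Af) : Matrix (Fin 4) (Fin 4) F :=
  !![p.a, p.b, p.c, p.u; p.d, p.e, p.f, p.v; p.g, p.h, p.i, p.w; 0, 0, 0, 1]

theorem det_m4 (p : Af) : (m4 p).det = p.det := by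
  rw [Af.det_eq, det_succ_row _ 3]
  simp [Fin.sum_univ_four, m4, det_fin_three, Fin.succAbove]
  ring

theorem m4_mul (p q : Af) : m4 (p.mul q) = m4 p * m4 q := by
  ext i j
  fin_cases i <;> fin_cases j <;> simp [m4, Af.mul, dot_eq, Matrix.mul_apply, Fin.sum_univ_four]

/-- the embedding in `SL(4,3)` -/
def emb : P0 →* SL(4, F) := MonoidHom.mk' (fun p => ⟨m4 p.1, (det_m4 _).trans p.2⟩)
  fun _ _ => Subtype.ext (m4_mul _ _)

theorem emb_val (p : P0) : (emb p).1 = m4 p.1 := rfl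

theorem emb_inj : Function.Injective emb := fun p q h => by
  have a := fun i j => congrFun (congrFun (congrArg Subtype.val h) i) j
  exact P0.eq_iff.2 ⟨a 0 0, a 0 1, a 0 2, a 0 3, a 1 0, a 1 1, a 1 2, a 1 3,
    a 2 0, a 2 1, a 2 2, a 2 3⟩

theorem mem_range {g : SL(4, F)} (h : ![0, 0, 0, 1] ᵥ* g.1 = ![0, 0, 0, 1]) : g ∈ emb.range := by
  have a : ∀ j, g.1 3 j = (![0, 0, 0, 1] : Fin 4 → F) j := fun j => by
    rw [← h]; simp [vecMul, dotProduct, Fin.sum_univ_four]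
  have e : m4 ⟨g.1 0 0, g.1 0 1, g.1 0 2, g.1 0 3, g.1 1 0, g.1 1 1, g.1 1 2, g.1 1 3,
      g.1 2 0, g.1 2 1, g.1 2 2, g.1 2 3⟩ = g.1 := by
    ext i j
    fin_cases i <;> fin_cases j <;> simp [m4, a]
  exact ⟨⟨_, by rw [← det_m4, e, g.2]⟩, Subtype.ext e⟩

theorem exists_row (r : Fin 4 → F) (h : ![r 0, r 1, r 2] ≠ 0) :
    ∃ p : P0, r ᵥ* (emb p).1 = ![0, 0, 1, 0] := by
  have := Fact.mk Nat.prime_three
  obtain ⟨v, hv, h0⟩ := CL.L3H.Lc.exists_perp ![r 0, r 1, r 2]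
  obtain ⟨m, -, hm⟩ := CL.L3H.Lc.exists_flag hv h (by rwa [dotProduct_comm])
  have h1 : ![r 0, r 1, r 2] ᵥ* m.1 = ![0, 0, 1] := by
    rw [← hm]; simpa using CL.L3H.Lc.vecMul_inv m⁻¹ ![0, 0, 1]
  obtain ⟨p, h2, h3⟩ := exists_lin_vec m fun i => -r 3 * m.1 i 2
  subst h2
  have a := congrFun h1 0
  have b := congrFun h1 1
  have c := congrFun h1 2
  have d := congrFun h3 0
  have e := congrFun h3 1
  have f := congrFun h3 2
  rw [CL.L3H.Lc.vm3] at a b c
  simp [lin_val, Af.mat, vec] at a b c d e f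
  refine ⟨p, ?_⟩
  change r ᵥ* m4 p.1 = _
  ext j
  fin_cases j <;> simp [vecMul, dotProduct, Fin.sum_univ_four, m4, a, b, c, d, e, f]
  linear_combination (-r 3) * c

/-- the map to `PSL(4,3)` -/
def psi : P0 →* ProjectiveSpecialLinearGroup (Fin 4) F := (QuotientGroup.mk' _).comp emb

theorem psi_inj : Function.Injective psi := by
  rw [injective_iff_map_eq_one]
  intro p hp
  obtain ⟨r, -, h⟩ := Matrix.SpecialLinearGroup.mem_center_iff.1
    ((QuotientGroup.eq_one_iff (emb p)).1 hp)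
  have a : r = 1 := by simpa [emb_val, m4] using congrFun (congrFun h 3) 3
  exact emb_inj (Subtype.ext (by rw [← h, a]; simp))

theorem mem_psi {g : SL(4, F)} :
    (g : ProjectiveSpecialLinearGroup (Fin 4) F) ∈ psi.range ↔ ![g.1 3 0, g.1 3 1, g.1 3 2] = 0 := by
  constructor
  · rintro ⟨p, hp⟩
    obtain ⟨r, -, h⟩ := Matrix.SpecialLinearGroup.mem_center_iff.1 (QuotientGroup.eq.1 hp)
    have : g.1 = (emb p).1 * scalar _ r := by
      rw [h]; exact congrArg Subtype.val (mul_inv_cancel_left (emb p) g).symm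
    rw [this, scalar_apply]
    ext j
    fin_cases j <;> simp [emb_val, m4]
  · intro h
    have a := congrFun h 0
    have b := congrFun h 1
    have c := congrFun h 2
    simp only [cons_val_zero, cons_val_one, cons_val, Pi.zero_apply] at a b c
    have hd := g.2
    rw [det_succ_row _ 3] at hd
    simp only [Fin.sum_univ_four, a, b, c, mul_zero, zero_mul, zero_add] at hd
    have h1 : g.1 3 3 ≠ 0 := fun e => by simp [e] at hd
    have h2 : g.1 3 3 * g.1 3 3 = 1 := (by decide : ∀ x : F, x ≠ 0 → x * x = 1) _ h1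
    let s : SL(4, F) := ⟨scalar _ (g.1 3 3), by
      rw [scalar_apply, det_diagonal, Fin.prod_univ_four, h2, one_mul, h2]⟩
    have hs : s ∈ center SL(4, F) := Matrix.SpecialLinearGroup.mem_center_iff.2
      ⟨g.1 3 3, by rw [Fintype.card_fin]; exact (by decide : ∀ x : F, x ≠ 0 → x ^ 4 = 1) _ h1, rfl⟩
    obtain ⟨p, hp⟩ := mem_range (g := g * s) (by
      change _ ᵥ* (g.1 * scalar _ _) = _
      rw [scalar_apply]
      ext j
      fin_cases j <;> simp [vecMul, dotProduct, Fin.sum_univ_four, a, b, c, h2])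
    exact ⟨p, QuotientGroup.eq.2 (by rw [hp]; simpa using hs)⟩

theorem fix_of_eq {n R : Type} [Fintype n] [DecidableEq n] [CommRing R]
    {a b : Matrix.SpecialLinearGroup n R} {v : n → R} (h : v ᵥ* a.1 = v ᵥ* b.1) :
    v ᵥ* (a * b⁻¹).1 = v := by
  change _ ᵥ* (a.1 * (b⁻¹).1) = _
  rw [← vecMul_vecMul, h, vecMul_vecMul,
    show b.1 * (b⁻¹).1 = 1 from congrArg Subtype.val (mul_inv_cancel b), vecMul_one]

theorem coatom : IsCoatom psi.range := by
  have row : ∀ g : SL(4, F), (g : ProjectiveSpecialLinearGroup (Fin 4) F) ∉ psi.range →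
      ∃ p : P0, ![0, 0, 0, 1] ᵥ* (g * emb p).1 = ![0, 0, 1, 0] := fun g hg => by
    obtain ⟨p, hp⟩ := exists_row (g.1 3) fun e => hg (mem_psi.2 e)
    refine ⟨p, ?_⟩
    change _ ᵥ* (g.1 * (emb p).1) = _
    rw [← vecMul_vecMul, ← hp]
    congr 1
    ext j; simp [vecMul, dotProduct, Fin.sum_univ_four]
  refine ⟨fun h => ?_, fun K hK => eq_top_iff.2 fun y _ => ?_⟩
  · have := (mem_psi (g := ⟨transvection 3 0 1, det_transvection_of_ne _ _ (by decide) _⟩)).1
      (h.ge (mem_top _))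
    simpa [transvection] using congrFun this 0
  · obtain ⟨x, hx, hx'⟩ := SetLike.exists_of_lt hK
    obtain ⟨g, rfl⟩ := QuotientGroup.mk_surjective x
    obtain ⟨k, rfl⟩ := QuotientGroup.mk_surjective y
    by_cases hk : (k : ProjectiveSpecialLinearGroup (Fin 4) F) ∈ psi.range
    · exact hK.le hk
    obtain ⟨p, hp⟩ := row g hx'
    obtain ⟨q, hq⟩ := row k hk
    obtain ⟨s, hs⟩ := mem_range (fix_of_eq (hq.trans hp.symm))
    have : k = emb s * g * emb p * (emb q)⁻¹ := by rw [hs]; group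
    rw [this]
    exact mul_mem (mul_mem (mul_mem (hK.le ⟨s, rfl⟩) hx) (hK.le ⟨p, rfl⟩)) (inv_mem (hK.le ⟨q, rfl⟩))

theorem lin_surj : Function.Surjective lin := fun B => (exists_lin_vec B 0).imp fun _ h => h.1

theorem card_ker : Nat.card lin.ker = 27 := by
  rw [Nat.card_eq_of_bijective (fun p : lin.ker => vec p.1) ⟨fun p q h => Subtype.ext
    (ext_lin_vec (p.2.trans q.2.symm) h), fun v => (exists_lin_vec 1 v).elim fun p h =>
      ⟨⟨p, h.1⟩, h.2⟩⟩]
  simp

theorem pCore_eq : Cfsg.pCore 3 P0 = lin.ker := by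
  refine le_antisymm ?_ (CL.le_pCore (IsPGroup.of_card (n := 3) card_ker))
  rw [← Subgroup.map_eq_bot_iff, ← le_bot_iff, ← CL.FiM.pCore_sl33]
  exact CL.map_pCore_le lin_surj

end LP

open LP in
theorem exists_coatom : ∃ P : Subgroup (Matrix.ProjectiveSpecialLinearGroup (Fin 4) (ZMod 3)),
    IsCoatom P ∧ Nat.card (Cfsg.pCore 3 P) = 27 ∧
    Nonempty (P ⧸ Cfsg.pCore 3 P ≃* Matrix.SpecialLinearGroup (Fin 3) (ZMod 3)) ∧
    Nonempty (P0 ≃* P) := by
  let e := MonoidHom.ofInjective psi_inj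
  have h := CL.map_pCore_equiv (p := 3) e
  rw [pCore_eq] at h
  refine ⟨psi.range, coatom, ?_, ⟨?_⟩, ⟨e⟩⟩
  · rw [← h, card_map_of_injective (f := (e : P0 →* psi.range)) e.injective, card_ker]
  · exact (QuotientGroup.congr _ _ e h).symm.trans
      (QuotientGroup.quotientKerEquivOfSurjective lin lin_surj)

end CL.L43
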