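import Mathlib
import Cfsg.Agent.TECH.GC.WrD
import Cfsg.Agent.SOLV.Basic
import Cfsg.Agent.FGS.NavRizo
import Cfsg.Agent.PERM.OddNine

/-!
Groups in which the centraliser of each element of order `3` is `3 × 3` or `3 × A₄`: the four-groups
`V s`, the Sylow `3`-subgroup and the `3'`-subgroups it normalises.
-/

set_option autoImplicit false
set_option linter.unusedSectionVars false

namespace CL.ON3

open Subgroup Cfsg CL.MSS CL.AB CL.GC

variable {G : Type*} [Group G]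

/-- the involutions centralising `s` -/
def V (s : G) : Subgroup G := closure {v | v * s = s * v ∧ v * v = 1}

/-- the structure of the centraliser of an element of order `3` -/
structure Loc (s : G) : Prop where
  mul : ∀ x y : G, x * s = s * x → y * s = s * y → x * x = 1 → y * y = 1 → x * y = y * x
  six : ∀ x : G, x * s = s * x → x ^ 3 * x ^ 3 = 1
  free : ∀ t v : G, t * s = s * t → t ^ 3 = 1 → t ∉ zpowers s → v * s = s * v → v * v = 1 →
    t * v = v * t → v = 1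
  card : (Nat.card (V s) = 1 ∧ Nat.card (centralizer ({s} : Set G)) = 9) ∨
    (Nat.card (V s) = 4 ∧ Nat.card (centralizer ({s} : Set G)) = 36)

theorem mem_V' {s : G}
    (h : ∀ x y : G, x * s = s * x → y * s = s * y → x * x = 1 → y * y = 1 → x * y = y * x) {v : G} :
    v ∈ V s ↔ v * s = s * v ∧ v * v = 1 := by
  refine ⟨fun hv => ?_, fun hv => subset_closure hv⟩
  induction hv using closure_induction with
  | mem x hx => exact hx
  | one => simp
  | mul x y _ _ hx hy =>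
    refine ⟨by rw [mul_assoc, hy.1, ← mul_assoc, hx.1, mul_assoc], ?_⟩
    rw [mul_assoc, ← mul_assoc y, ← h x y hx.1 hy.1 hx.2 hy.2, mul_assoc, hy.2, mul_one, hx.2]
  | inv x _ hx => rw [inv_eq_of_mul_eq_one_right hx.2]; exact hx

abbrev Z3 := Multiplicative (ZMod 3)

theorem loc_of_equiv {K : Type} [Group K] {s : G} (hs : orderOf s = 3)
    (e : centralizer ({s} : Set G) ≃* Z3 × K)
    (k1 : ∀ x y : K, x * x = 1 → y * y = 1 → x * y = y * x) (k2 : ∀ x : K, x ^ 3 * x ^ 3 = 1)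
    (k3 : ∀ t v z : K, t ^ 3 = 1 → v * v = 1 → t * v = v * t → (∀ y, y * z = z * y) →
      v = 1 ∨ (t = 1 ∧ z = 1))
    (k4 : (Nat.card {x : Z3 × K // x * x = 1} = 1 ∧ Nat.card K = 3) ∨
      (Nat.card {x : Z3 × K // x * x = 1} = 4 ∧ Nat.card K = 12)) : Loc s := by
  have m : ∀ {x : G}, x * s = s * x → x ∈ centralizer ({s} : Set G) :=
    mem_centralizer_singleton_iff.2
  have inj : ∀ {x y : centralizer ({s} : Set G)}, e x = e y → (x : G) = y := fun h =>
    congrArg Subtype.val (e.injective h)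
  have sq : ∀ {x : G} (h : x ∈ centralizer ({s} : Set G)), x * x = 1 ↔ e ⟨x, h⟩ * e ⟨x, h⟩ = 1 :=
    fun h => by rw [← map_mul, map_eq_one_iff _ e.injective, Subtype.ext_iff]; rfl
  have z1 : ∀ i : Z3, i * i = 1 → i = 1 := by decide
  have z2 : ∀ i : Z3, i ^ 3 * i ^ 3 = 1 := by decide
  have z3 : ∀ i k : Z3, k ≠ 1 → i = 1 ∨ i = k ∨ i = k * k := by decide
  have mul : ∀ x y : G, x * s = s * x → y * s = s * y → x * x = 1 → y * y = 1 → x * y = y * x :=
    fun x y hx hy h1 h2 => inj (x := ⟨x, m hx⟩ * ⟨y, m hy⟩) (y := ⟨y, m hy⟩ * ⟨x, m hx⟩) (by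
      rw [map_mul, map_mul]
      exact Prod.ext (mul_comm _ _) (k1 _ _ (congrArg Prod.snd ((sq _).1 h1))
        (congrArg Prod.snd ((sq _).1 h2))))
  refine ⟨mul, fun x hx => inj (x := ⟨x, m hx⟩ ^ 3 * ⟨x, m hx⟩ ^ 3) (y := 1) (by
    rw [map_mul, map_pow, map_one]; exact Prod.ext (z2 _) (k2 _)), fun t v ht t3 hn hv v2 h => ?_, ?_⟩
  · have a : e ⟨t, m ht⟩ ^ 3 = 1 := by rw [← map_pow, ← map_one e]; exact congrArg e (Subtype.ext t3)
    have b : e ⟨t, m ht⟩ * e ⟨v, m hv⟩ = e ⟨v, m hv⟩ * e ⟨t, m ht⟩ := by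
      rw [← map_mul, ← map_mul]; exact congrArg e (Subtype.ext h)
    have c := (sq (m hv)).1 v2
    rcases k3 _ _ (e ⟨s, m rfl⟩).2 (congrArg Prod.snd a) (congrArg Prod.snd c) (congrArg Prod.snd b)
      (fun y => by
        obtain ⟨u, hu⟩ := e.surjective (1, y)
        have : e u * e ⟨s, m rfl⟩ = e ⟨s, m rfl⟩ * e u := by
          rw [← map_mul, ← map_mul]
          exact congrArg e (Subtype.ext (mem_centralizer_singleton_iff.1 u.2))
        rw [hu] at this; exact congrArg Prod.snd this) with h1 | ⟨h1, h2⟩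
    · exact inj (x := ⟨v, m hv⟩) (y := 1) (by
        rw [map_one]; exact Prod.ext (z1 _ (congrArg Prod.fst c)) h1)
    · refine (hn ?_).elim
      have n : (e ⟨s, m rfl⟩).1 ≠ 1 := fun h3 => by
        have : s = 1 := inj (x := ⟨s, m rfl⟩) (y := 1) (by rw [map_one]; exact Prod.ext h3 h2)
        rw [this, orderOf_one] at hs; omega
      rcases z3 (e ⟨t, m ht⟩).1 _ n with h3 | h3 | h3
      · rw [show t = 1 from inj (x := ⟨t, m ht⟩) (y := 1) (by rw [map_one]; exact Prod.ext h3 h1)]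
        exact one_mem _
      · rw [show t = s from inj (x := ⟨t, m ht⟩) (y := ⟨s, m rfl⟩) (Prod.ext h3 (h1.trans h2.symm))]
        exact mem_zpowers _
      · rw [show t = s * s from inj (x := ⟨t, m ht⟩) (y := ⟨s, m rfl⟩ * ⟨s, m rfl⟩) (by
          rw [map_mul]; exact Prod.ext h3 (by rw [Prod.snd_mul, h1, h2, mul_one]))]
        exact mul_mem (mem_zpowers _) (mem_zpowers _)
  · have a : Nat.card (V s) = Nat.card {x : Z3 × K // x * x = 1} := Nat.card_congr
      { toFun := fun v => ⟨e ⟨v, m ((mem_V' mul).1 v.2).1⟩, (sq _).1 ((mem_V' mul).1 v.2).2⟩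
        invFun := fun x => ⟨e.symm x, (mem_V' mul).2 ⟨mem_centralizer_singleton_iff.1 (e.symm x).2,
          (sq (e.symm x).2).2 (by simpa using x.2)⟩⟩
        left_inv := fun v => by simp
        right_inv := fun x => by simp }
    have b : Nat.card (centralizer ({s} : Set G)) = 3 * Nat.card K := by
      rw [Nat.card_congr e.toEquiv]; simp
    omega

theorem loc_of_hyp {s : G} (hs : orderOf s = 3)
    (h : Nonempty (centralizer ({s} : Set G) ≃* Z3 × Z3) ∨
      Nonempty (centralizer ({s} : Set G) ≃* Z3 × alternatingGroup (Fin 4))) : Loc s := by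
  rcases h with ⟨⟨e⟩⟩ | ⟨⟨e⟩⟩
  · exact loc_of_equiv hs e (by decide) (by decide) (fun t v z _ h _ _ => Or.inl
      ((by decide : ∀ v : Z3, v * v = 1 → v = 1) v h))
      (Or.inl ⟨by rw [Nat.card_eq_fintype_card]; decide, by simp⟩)
  · have a : ∀ t v : alternatingGroup (Fin 4), t ^ 3 = 1 → v * v = 1 → t * v = v * t →
      v = 1 ∨ t = 1 := by decide +kernel
    have b : ∀ z : alternatingGroup (Fin 4), (∀ y, y * z = z * y) → z = 1 := by decide +kernel
    exact loc_of_equiv hs e (by decide +kernel) (by decide +kernel)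
      (fun t v z h1 h2 h3 h4 => (a t v h1 h2 h3).imp_right fun c => ⟨c, b z h4⟩)
      (Or.inr ⟨by rw [Nat.card_eq_fintype_card]; decide +kernel,
        by rw [Nat.card_eq_fintype_card]; decide +kernel⟩)

theorem cj_V (g s : G) : g •ᶜ V s = V (g * s * g⁻¹) := by
  have a : ∀ g s : G, g •ᶜ V s ≤ V (g * s * g⁻¹) := fun g s => by
    rw [V, cj_closure]
    refine closure_mono ?_
    rintro _ ⟨v, ⟨h1, h2⟩, rfl⟩
    exact ⟨by simp only [conj_mul, h1], by simp only [conj_mul, h2]; simp⟩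
  refine le_antisymm (a g s) (le_cj_iff.2 ((a _ _).trans (by simp [mul_assoc])))

theorem V_anti {s t : G} (h : t ∈ zpowers s) : V s ≤ V t := closure_mono fun v hv =>
  ⟨by obtain ⟨k, rfl⟩ := h; exact (Commute.zpow_right hv.1 k).eq, hv.2⟩

theorem zp3 {s t : G} (hs : s ^ 3 = 1) (h : t ∈ zpowers s) : t = 1 ∨ t = s ∨ t = s⁻¹ := by
  obtain ⟨k, rfl⟩ := h
  have e : s ^ k = s ^ (k % 3) := by
    conv_lhs => rw [← Int.mul_ediv_add_emod k 3, zpow_add, zpow_mul, zpow_ofNat, hs, one_zpow, one_mul]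
  have : k % 3 = 0 ∨ k % 3 = 1 ∨ k % 3 = 2 := by omega
  rcases this with h | h | h <;> simp only [e, h, zpow_zero, zpow_one, true_or, or_true]
  exact .inr (.inr (by rw [eq_inv_iff_mul_eq_one, zpow_ofNat, ← pow_succ, hs]))

theorem zp_symm {s t : G} (hs : s ^ 3 = 1) (h : t ∈ zpowers s) (h1 : t ≠ 1) : s ∈ zpowers t := by
  rcases zp3 hs h with e | e | e
  exacts [(h1 e).elim, e ▸ mem_zpowers _, e ▸ inv_mem_iff.1 (mem_zpowers _)]

theorem V_congr {s t : G} (hs : s ^ 3 = 1) (h : t ∈ zpowers s) (h1 : t ≠ 1) : V t = V s :=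
  le_antisymm (V_anti (zp_symm hs h h1)) (V_anti h)

theorem mem_of_cube {H : Subgroup G} {x : G} {k : ℕ} (h : x ^ 2 ^ k = 1) (h3 : x ^ 3 ∈ H) : x ∈ H := by
  have := (mem_zpowers_pow_iff (g := x) (k := 3)).2
    ((Nat.Coprime.pow_right k (by norm_num : Nat.Coprime 3 2)).coprime_dvd_right
      (orderOf_dvd_of_pow_eq_one h))
  exact zpowers_le.2 h3 this

namespace Loc

variable {s : G} (L : Loc s)
include L

theorem mem_V {v : G} : v ∈ V s ↔ v * s = s * v ∧ v * v = 1 := mem_V' L.mul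

theorem ea : IsElementaryAbelian 2 (V s) := ea_of_sq fun _ h => (L.mem_V.1 h).2

theorem pg : IsPGroup 2 (V s) := ea_pgroup L.ea

theorem cube_mem {x : G} (h : x * s = s * x) : x ^ 3 ∈ V s :=
  L.mem_V.2 ⟨(Commute.pow_left h 3).eq, L.six x h⟩

theorem mem_of_two {x : G} {k : ℕ} (h : x * s = s * x) (h2 : x ^ 2 ^ k = 1) : x ∈ V s :=
  mem_of_cube h2 (L.cube_mem h)

theorem V_le : V s ≤ centralizer {s} := fun _ h => mem_centralizer_singleton_iff.2 (L.mem_V.1 h).1

theorem card4 (h : V s ≠ ⊥) : Nat.card (V s) = 4 :=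
  (L.card.resolve_left fun c => h (card_eq_one.1 c.1)).1

variable [Finite G]

theorem inf_cent {X : Subgroup G} (h : ¬ 3 ∣ Nat.card X) : X ⊓ centralizer {s} = X ⊓ V s := by
  refine le_antisymm (fun x hx => ⟨hx.1, ?_⟩) (inf_le_inf_left _ L.V_le)
  refine zpowers_le.2 (L.cube_mem (mem_centralizer_singleton_iff.1 hx.2))
    ((mem_zpowers_pow_iff (g := x) (k := 3)).2 ((Nat.prime_three.coprime_iff_not_dvd).2 fun c => ?_))
  exact h (c.trans (orderOf_dvd_natCard _ hx.1))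

end Loc

/-- the hypothesis -/
def LH (G : Type*) [Group G] : Prop := ∀ s : G, orderOf s = 3 → Loc s

instance fact3 : Fact (Nat.Prime 3) := ⟨Nat.prime_three⟩

variable [Finite G]

theorem LH.card_dvd (H : LH G) {R : Subgroup G} (hR : IsPGroup 3 R) : Nat.card R ∣ 9 := by
  by_cases h : R = ⊥
  · simp [h]
  obtain ⟨⟨s, hs⟩, o⟩ := exists_prime_orderOf_dvd_card' (G := (R ⊓ centralizer (R : Set G) : Subgroup G))
    3 (dvd_card_of_isPGroup_le (hR.to_le inf_le_left) (inf_centralizer_ne_bot hR hR le_normalizer h)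
      le_rfl)
  rw [← orderOf_coe] at o
  have a : Nat.card R ∣ 36 := (card_dvd_of_le (fun x hx => mem_centralizer_singleton_iff.2
    (hs.2 x hx) : R ≤ centralizer {s})).trans (by rcases (H s o).card with c | c <;> simp [c.2])
  obtain ⟨k, hk⟩ := hR.exists_card_eq
  rw [hk] at a ⊢
  exact (Nat.Coprime.pow_left k (by norm_num : Nat.Coprime 3 4)).dvd_of_dvd_mul_left a

/-- A Sylow `3`-subgroup with an inverting involution and generators of its four cyclic subgroups -/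
structure Fr (P : Subgroup G) (w : G) (s : Fin 4 → G) : Prop where
  H : LH G
  card : Nat.card P = 9
  cube : ∀ x ∈ P, x ^ 3 = 1
  comm : ∀ x ∈ P, ∀ y ∈ P, x * y = y * x
  ww : w * w = 1
  inv : ∀ x ∈ P, w * x * w⁻¹ = x⁻¹
  mem : ∀ i, s i ∈ P
  ne : ∀ i, s i ≠ 1
  inj : ∀ i j, s i ∈ zpowers (s j) → i = j
  cov : ∀ x ∈ P, ∃ i, x ∈ zpowers (s i)
  ord : ∀ X : Subgroup G, P ≤ normalizer (X : Set G) → ¬ 3 ∣ Nat.card X →
    Nat.card X = ∏ i, Nat.card (X ⊓ V (s i) : Subgroup G)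

theorem LH.mem_of_norm (H : LH G) {P : Subgroup G} (hP : Nat.card P = 9) {n : G} (h3 : n ^ 3 = 1)
    (hn : n ∈ normalizer (P : Set G)) : n ∈ P := by
  have p : IsPGroup 3 P := IsPGroup.of_card (n := 2) hP
  have := H.card_dvd (isPGroup_sup_of_normalizes (isPGroup_zpowers (k := 1) (by rwa [pow_one])) p
    (zpowers_le.2 hn))
  exact (eq_of_le_of_card_ge le_sup_right (hP ▸ Nat.le_of_dvd (by norm_num) this)).ge
    (mem_sup_left (mem_zpowers n))

theorem LH.semi (H : LH G) {P : Subgroup G} (hP : Nat.card P = 9) (cube : ∀ x ∈ P, x ^ 3 = 1)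
    (comm : ∀ x ∈ P, ∀ y ∈ P, x * y = y * x) {n t : G} (hn : n ∈ normalizer (P : Set G))
    (ht : t ∈ P) (h1 : t ≠ 1) (h : n * t = t * n) : n ∈ P := by
  have L := H t (orderOf_eq_prime (cube t ht) h1)
  obtain ⟨u, hu, u1, u2, u3⟩ := Odd.exists_not_mem_three hP t
  have v := L.mem_V.1 (L.cube_mem h)
  refine H.mem_of_norm hP (L.free u _ (comm u hu t ht) (cube u hu)
    (fun c => by rcases zp3 (cube t ht) c with e | e | e <;> contradiction) v.1 v.2 ?_) hn
  have a : u * n ^ 3 * u⁻¹ * (n ^ 3)⁻¹ ∈ V t := mul_mem (by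
    have := conj_mem_cj (g := u) (L.cube_mem h)
    rwa [cj_V, comm u hu t ht, mul_inv_cancel_right] at this) (inv_mem (L.cube_mem h))
  have b : u * n ^ 3 * u⁻¹ * (n ^ 3)⁻¹ ∈ P := by
    rw [mul_assoc, mul_assoc, ← mul_assoc (n ^ 3)]
    exact mul_mem hu ((mem_normalizer_iff.1 (pow_mem hn 3) _).1 (inv_mem hu))
  have c := cube _ b
  rw [pow_succ, pow_two, ea_sq L.ea a, one_mul, mul_inv_eq_one, mul_inv_eq_iff_eq_mul] at c
  exact c

theorem LH.fr (H : LH G) {P : Subgroup G} (hP : Nat.card P = 9) (cube : ∀ x ∈ P, x ^ 3 = 1)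
    (comm : ∀ x ∈ P, ∀ y ∈ P, x * y = y * x) {w a b : G} (ww : w * w = 1)
    (inv : ∀ x ∈ P, w * x * w⁻¹ = x⁻¹) (ha : a ∈ P) (hb : b ∈ P) (a1 : a ≠ 1) (b1 : b ≠ 1)
    (b2 : b ≠ a) (b3 : b ≠ a⁻¹) : Fr P w ![a, b, a * b, a⁻¹ * b] := by
  classical
  have hi := Odd.co2_inj (cube a ha) (cube b hb) (comm a ha b hb) a1 b1 b2 b3
  have ad := Odd.co2_add (cube a ha) (cube b hb) (comm a ha b hb)
  let c : Fin 4 → Odd.V2 := ![(1, 0), (0, 1), (1, 1), (2, 1)]
  have h0 : Odd.co2 a b 0 = 1 := by simp [Odd.co2]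
  have hn : ∀ x, Odd.co2 a b (-x) = (Odd.co2 a b x)⁻¹ := fun x =>
    eq_inv_of_mul_eq_one_left (by rw [← ad, neg_add_cancel, h0])
  have hc : ∀ i, ![a, b, a * b, a⁻¹ * b] i = Odd.co2 a b (c i) := fun i => by
    have v2 : (2 : ZMod 3).val = 2 := rfl
    fin_cases i <;> simp [c, Odd.co2, ZMod.val_one, v2, pow_two, Odd.inv_eq_sq_of_cube (cube a ha)]
  have hm : ∀ x, Odd.co2 a b x ∈ P := fun x => mul_mem (pow_mem ha _) (pow_mem hb _)
  have hz : ∀ x y, Odd.co2 a b x ∈ zpowers (Odd.co2 a b y) ↔ x = 0 ∨ x = y ∨ x = -y := fun x y =>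
    ⟨fun h => (zp3 (cube _ (hm y)) h).imp (fun e => hi (e.trans h0.symm))
      (Or.imp (fun e => hi e) fun e => hi (e.trans (hn y).symm)), by
      rintro (rfl | rfl | rfl)
      exacts [h0 ▸ one_mem _, mem_zpowers _, hn y ▸ inv_mem (mem_zpowers _)]⟩
  have n1 : ∀ i, Odd.co2 a b (c i) ≠ 1 := fun i e =>
    (by decide : ∀ i, c i ≠ 0) i (hi (e.trans h0.symm))
  refine ⟨H, hP, cube, comm, ww, inv, fun i => hc i ▸ hm _, fun i => hc i ▸ n1 i, fun i j h => ?_,
    fun x hx => ?_, fun X hX h3 => ?_⟩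
  · rw [hc, hc, hz] at h
    exact (by decide : ∀ i j, c i = 0 ∨ c i = c j ∨ c i = -c j → i = j) i j h
  · obtain ⟨y, rfl⟩ := Odd.co2_surj hP ha hb hi hx
    simp only [hc, hz]
    exact (by decide : ∀ y, ∃ i, y = 0 ∨ y = c i ∨ y = -c i) y
  have := Fintype.ofFinite P
  have e := FGS.NavRizo.order_formula Nat.prime_three P X (IsPGroup.of_card (n := 2) hP) hX h3
  let f : Odd.V2 ≃ P := Equiv.ofBijective (fun x => ⟨Odd.co2 a b x, hm x⟩)
    ⟨fun x y h => hi (congrArg Subtype.val h), fun x =>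
      (Odd.co2_surj hP ha hb hi x.2).imp fun y h => Subtype.ext h⟩
  have e1 : X ⊓ centralizer (P : Set G) = ⊥ := eq_bot_iff.2 fun x hx => by
    have : x ∈ P := H.semi hP cube comm (centralizer_le_normalizer _ hx.2) ha a1 (hx.2 a ha).symm
    by_contra c
    exact h3 (orderOf_eq_prime (cube x this) c ▸ orderOf_dvd_natCard _ hx.1)
  have e0 : X ⊓ centralizer {1} = X :=
    inf_eq_left.2 fun x _ => mem_centralizer_singleton_iff.2 (by simp)
  have e2 : ∀ x : P, X ⊓ centralizer {(x : G) ^ 3} = X := fun x => by rw [cube x x.2, e0]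
  have e3 : ∀ i, X ⊓ centralizer {Odd.co2 a b (c i)} = X ⊓ V (Odd.co2 a b (c i)) := fun i =>
    (H _ (orderOf_eq_prime (cube _ (hm _)) (n1 i))).inf_cent h3
  have e4 : ∀ i, X ⊓ centralizer {Odd.co2 a b (-c i)} = X ⊓ V (Odd.co2 a b (c i)) := fun i => by
    rw [← e3, hn, ← centralizer_zpowers, zpowers_inv, centralizer_zpowers]
  have e5 : (Finset.univ : Finset Odd.V2) = {0, c 0, c 1, c 2, c 3, -c 0, -c 1, -c 2, -c 3} := by decide
  rw [← f.prod_comp, e5] at e
  simp only [e1, e2, card_bot, one_pow, mul_one, Finset.prod_const, Finset.card_univ,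
    ← Nat.card_eq_fintype_card, hP] at e
  rw [Finset.prod_insert (by decide), Finset.prod_insert (by decide), Finset.prod_insert (by decide),
    Finset.prod_insert (by decide), Finset.prod_insert (by decide), Finset.prod_insert (by decide),
    Finset.prod_insert (by decide), Finset.prod_insert (by decide), Finset.prod_singleton] at e
  have hf : ∀ x, (f x : G) = Odd.co2 a b x := fun _ => rfl
  simp only [hf, e3, e4, h0, e0] at e
  simp only [hc, Fin.prod_univ_four]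
  have p : 0 < Nat.card X := Nat.card_pos
  refine Nat.pow_left_injective (n := 6) (by norm_num) (Nat.eq_of_mul_eq_mul_left (pow_pos p 3) ?_)
  simp only
  rw [← pow_add, ← e]; ring

end CL.ON3
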