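import Mathlib
import Cfsg.Agent.PERM.ON3A
import Cfsg.Agent.TECH.MiscSyl
import Cfsg.Agent.SIG.PBase
import Cfsg.Agent.ODD.PLength1
import Cfsg.Agent.BLK.SmithTyrer

/-!
The `2`-subgroups normalised by the Sylow `3`-subgroup, and the centralisers of the four-groups.
-/

set_option autoImplicit false
set_option linter.unusedSectionVars false

namespace CL.ON3

open Subgroup Cfsg CL.MSS CL.AB CL.GC CL.PComp

variable {G : Type*} [Group G] [Finite G]

theorem burn {p : ℕ} [Fact p.Prime] {R H : Subgroup G} (h : SylIn p R H)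
    (hn : ∀ g ∈ H, g ∈ normalizer (R : Set G) → g ∈ centralizer (R : Set G)) :
    Nat.card H = Nat.card (opOf p H) * Nat.card R := by
  have := (Misc.burnside_pPrimeCore h.toSylow fun g hg x hx => Subtype.ext (hn g g.2
    (mem_normalizer_fintype fun y hy => (mem_normalizer_iff.1 hg ⟨y, h.le hy⟩).1 hy) x hx)).card_mul_card
  rw [← this, opOf_def, card_map_of_injective H.subtype_injective, h.coe_toSylow,
    Nat.card_congr (subgroupOfEquivOfLe h.le).toEquiv]

theorem mem_of_relIndex {K H : Subgroup G} (hn : H ≤ normalizer (K : Set G)) {x : G} (hx : x ∈ H)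
    (h : (orderOf x).Coprime (K.relIndex H)) : x ∈ K := by
  have := normal_subgroupOf_of_le_normalizer hn
  exact CL.mem_of_coprime_index (N := K.subgroupOf H) (g := ⟨x, hx⟩) (by rwa [← orderOf_coe])

theorem not3_of_pg {X : Subgroup G} (h : IsPGroup 2 X) : ¬ 3 ∣ Nat.card X := by
  obtain ⟨k, hk⟩ := h.exists_card_eq
  exact fun c => absurd (Nat.prime_three.dvd_of_dvd_pow (hk ▸ c)) (by norm_num)

theorem conj_conj' {n a : G} (h : n * n = 1) : n * (n * a * n⁻¹) * n⁻¹ = a := by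
  rw [← mul_assoc, ← mul_assoc, h, mul_assoc, ← mul_inv_rev, h]; simp

/-- the largest `2`-subgroup centralising `V s` -/
def FF (s : G) : Subgroup G := opOf 3 (centralizer (V s : Set G))

theorem cj_FF (g s : G) : g •ᶜ FF s = FF (g * s * g⁻¹) := by
  rw [FF, ← opOf_map_of_injective _ _ (MulAut.conj g).injective, cj_centralizer, cj_V, FF]

theorem FF_le (s : G) : FF s ≤ centralizer (V s : Set G) := opOf_le _ _

theorem nFF (s : G) : normalizer (V s : Set G) ≤ normalizer (FF s : Set G) :=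
  (normalizer_le_normalizer_centralizer _).trans (normalizer_le_normalizer_opOf _ _)

namespace Fr

variable {P : Subgroup G} {w : G} {s : Fin 4 → G} (F : Fr P w s)
include F

theorem o3 (i : Fin 4) : orderOf (s i) = 3 := orderOf_eq_prime (F.cube _ (F.mem i)) (F.ne i)

theorem L (i : Fin 4) : Loc (s i) := F.H _ (F.o3 i)

theorem perm (σ : Equiv.Perm (Fin 4)) : Fr P w (s ∘ σ) :=
  { F with
    mem := fun i => F.mem (σ i), ne := fun i => F.ne (σ i)
    inj := fun i j h => σ.injective (F.inj _ _ h)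
    cov := fun x hx => let ⟨i, h⟩ := F.cov x hx; ⟨σ.symm i, by simpa using h⟩
    ord := fun X h1 h2 => (F.ord X h1 h2).trans
      (Equiv.prod_comp σ fun i => Nat.card (X ⊓ V (s i) : Subgroup G)).symm }

theorem wN : w ∈ normalizer (P : Set G) :=
  mem_normalizer_fintype fun x hx => F.inv x hx ▸ inv_mem hx

theorem wi : w⁻¹ = w := inv_eq_of_mul_eq_one_right F.ww

theorem semi {n : G} (hn : n ∈ normalizer (P : Set G)) (i : Fin 4) (h : n * s i = s i * n) : n ∈ P :=
  F.H.semi F.card F.cube F.comm hn (F.mem i) (F.ne i) h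

theorem p3 : IsPGroup 3 P := IsPGroup.of_card (n := 2) F.card

theorem syl {H : Subgroup G} (h : P ≤ H) : SylIn 3 P H :=
  ⟨h, F.p3, fun _ hQ h1 _ => (eq_of_le_of_card_ge h1
    (F.card ▸ Nat.le_of_dvd (by norm_num) (F.H.card_dvd hQ))).symm⟩

theorem exV {n : G} (hn : n ∈ normalizer (P : Set G)) (i : Fin 4) :
    ∃ j, n * s i * n⁻¹ ∈ zpowers (s j) ∧ n •ᶜ V (s i) = V (s j) ∧ n •ᶜ FF (s i) = FF (s j) := by
  obtain ⟨j, h⟩ := F.cov _ ((mem_normalizer_iff.1 hn _).1 (F.mem i))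
  have := V_congr (F.cube _ (F.mem j)) h (by simpa using F.ne i)
  exact ⟨j, h, by rw [cj_V, this], by rw [cj_FF, FF, this, FF]⟩

/-- an element of `N(P)` fixing one of the four subgroups lies in `P⟨w⟩` -/
theorem fixN {n : G} (hn : n ∈ normalizer (P : Set G)) {i : Fin 4} (h : n * s i * n⁻¹ ∈ zpowers (s i)) :
    n ∈ P ∨ n * w ∈ P := by
  rcases zp3 (F.cube _ (F.mem i)) h with e | e | e
  · exact (F.ne i (by simpa using e)).elim
  · exact .inl (F.semi hn i (mul_inv_eq_iff_eq_mul.1 e))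
  · refine .inr (F.semi (mul_mem hn F.wN) i (mul_inv_eq_iff_eq_mul.1 ?_))
    rw [mul_inv_rev, ← mul_assoc, mul_assoc n, mul_assoc n, F.inv _ (F.mem i), ← conj_inv, e, inv_inv]

theorem nV (i : Fin 4) : P ≤ normalizer (V (s i) : Set G) := fun x hx => by
  rw [mem_normalizer_iff_cj, cj_V, F.comm x hx _ (F.mem i), mul_inv_cancel_right]

theorem wV (i : Fin 4) : w ∈ normalizer (V (s i) : Set G) := by
  rw [mem_normalizer_iff_cj, cj_V, F.inv _ (F.mem i)]
  exact V_congr (F.cube _ (F.mem i)) (inv_mem (mem_zpowers _)) (inv_ne_one.2 (F.ne i))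

theorem nF (i : Fin 4) : P ≤ normalizer (FF (s i) : Set G) := (F.nV i).trans (nFF _)

theorem wF (i : Fin 4) : w ∈ normalizer (FF (s i) : Set G) := nFF _ (F.wV i)

theorem ea (i : Fin 4) : IsElementaryAbelian 2 (V (s i)) := (F.L i).ea

theorem sq {i : Fin 4} {v : G} (h : v ∈ V (s i)) : v * v = 1 := ea_sq (F.ea i) h

theorem free {i j : Fin 4} (h : i ≠ j) {v : G} (hv : v ∈ V (s i)) (e : s j * v = v * s j) : v = 1 :=
  (F.L i).free _ v (F.comm _ (F.mem j) _ (F.mem i)) (F.cube _ (F.mem j))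
    (fun c => h (F.inj _ _ c).symm) ((F.L i).mem_V.1 hv).1 ((F.L i).mem_V.1 hv).2 e

theorem disj {i j : Fin 4} (h : i ≠ j) : V (s i) ⊓ V (s j) = ⊥ :=
  eq_bot_iff.2 fun _ hv => F.free h hv.1 ((F.L j).mem_V.1 hv.2).1.symm

theorem irr {X : Subgroup G} (hX : P ≤ normalizer (X : Set G)) (i : Fin 4) :
    X ⊓ V (s i) = ⊥ ∨ V (s i) ≤ X := by
  obtain ⟨j, hj⟩ := exists_ne i
  have a := fix_mod (p := 3) (F.cube _ (F.mem j)) (le_normalizer_inf hX (F.nV i) (F.mem j))
  rw [show X ⊓ V (s i) ⊓ centralizer {s j} = ⊥ from eq_bot_iff.2 fun v hv =>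
    F.free hj.symm hv.1.2 (mem_centralizer_singleton_iff.1 hv.2).symm, card_bot] at a
  refine or_iff_not_imp_left.2 fun h => ?_
  have c := (F.L i).card4 fun e => h (by rw [e, inf_bot_eq])
  have d := Nat.le_of_dvd (by omega) (card_dvd_of_le (inf_le_right : X ⊓ V (s i) ≤ _))
  have e := card_eq_one.not.2 h
  refine (eq_of_le_of_card_ge inf_le_right ?_).ge.trans inf_le_left
  unfold Nat.ModEq at a
  omega

theorem card_inf {X : Subgroup G} (hX : P ≤ normalizer (X : Set G)) (i : Fin 4) :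
    Nat.card (X ⊓ V (s i) : Subgroup G) = 1 ∨ Nat.card (X ⊓ V (s i) : Subgroup G) = 4 ∧
      V (s i) ≤ X ∧ V (s i) ≠ ⊥ := by
  rcases F.irr hX i with h | h
  · rw [h]; exact .inl card_bot
  · rw [inf_eq_right.2 h]
    exact or_iff_not_imp_left.2 fun c =>
      ⟨(F.L i).card4 (card_eq_one.not.1 c), h, card_eq_one.not.1 c⟩

theorem pg {X : Subgroup G} (hX : P ≤ normalizer (X : Set G)) (h3 : ¬ 3 ∣ Nat.card X) :
    IsPGroup 2 X := by
  have : Nat.card X ∣ 2 ^ 8 := by
    rw [F.ord X hX h3, show 2 ^ 8 = ∏ _i : Fin 4, 4 by simp]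
    exact Finset.prod_dvd_prod_of_dvd _ _ fun i _ => by
      rcases F.card_inf hX i with h | ⟨h, -⟩ <;> rw [h]; norm_num
  obtain ⟨k, -, hk⟩ := (Nat.dvd_prime_pow Nat.prime_two).1 this
  exact IsPGroup.of_card hk

theorem gen {X Y : Subgroup G} (hX : P ≤ normalizer (X : Set G)) (h3 : ¬ 3 ∣ Nat.card X)
    (hY : P ≤ normalizer (Y : Set G)) (h : ∀ i, V (s i) ≠ ⊥ → V (s i) ≤ X → V (s i) ≤ Y) : X ≤ Y := by
  refine inf_eq_left.1 (eq_of_le_of_card_ge inf_le_left (le_of_eq ?_))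
  rw [F.ord X hX h3, F.ord _ (le_normalizer_inf hX hY)
    fun c => h3 (c.trans (card_dvd_of_le inf_le_left))]
  refine Finset.prod_congr rfl fun i _ => congrArg (fun Z : Subgroup G => Nat.card Z) ?_
  refine le_antisymm ?_ (inf_le_inf_right _ inf_le_left)
  rcases F.card_inf hX i with e | e
  · exact (card_eq_one.1 e).le.trans bot_le
  · exact le_inf (le_inf inf_le_left (inf_le_right.trans (h i e.2.2 e.2.1))) inf_le_right

theorem not3 {X : Subgroup G} (hX : P ≤ normalizer (X : Set G)) (h : ∀ i, s i ∉ X) :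
    ¬ 3 ∣ Nat.card X := by
  refine not_dvd_card_of_sylIn_bot ?_
  have := (F.syl (le_sup_left : P ≤ P ⊔ X)).inf_normal_of_le (sup_le hX le_normalizer) le_sup_right
  rwa [show P ⊓ X = ⊥ from eq_bot_iff.2 fun x hx => by
    obtain ⟨i, hi⟩ := F.cov x hx.1
    by_contra c
    exact h i (zpowers_le.2 hx.2 (zp_symm (F.cube _ (F.mem i)) hi c))] at this

theorem le_of_w {C : Subgroup G} (hC : P ≤ normalizer (C : Set G)) {t : G} (ht : t ∈ P)
    (h : w * t ∈ C) : P ≤ C := fun x hx => by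
  have := mul_mem ((mem_normalizer_iff.1 (hC hx) _).1 h) (inv_mem h)
  rw [mul_inv_rev, show x * (w * t) * x⁻¹ * (t⁻¹ * w⁻¹) = x * (w * (t * x⁻¹ * t⁻¹) * w⁻¹) by group,
    F.comm t ht _ (inv_mem hx), mul_inv_cancel_right, F.inv _ (inv_mem hx), inv_inv] at this
  have e := mul_mem this this
  rwa [show x * x * (x * x) = x ^ 3 * x by simp only [pow_succ, pow_zero, one_mul, mul_assoc], F.cube x hx, one_mul] at e

theorem wnc {i : Fin 4} (h : V (s i) ≠ ⊥) : w ∉ centralizer (V (s i) : Set G) := fun c => by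
  obtain ⟨j, hj⟩ := exists_ne i
  have := F.le_of_w (le_normalizer_centralizer (F.nV i)) (one_mem _) (by rwa [mul_one]) (F.mem j)
  exact h (eq_bot_iff.2 fun v hv => F.free hj.symm hv (this v hv).symm)

theorem cardC {i : Fin 4} (h : V (s i) ≠ ⊥) :
    Nat.card (centralizer (V (s i) : Set G)) = Nat.card (FF (s i)) * 3 := by
  have m : s i ∈ centralizer (V (s i) : Set G) := fun v hv => ((F.L i).mem_V.1 hv).1
  have c : Nat.card (zpowers (s i)) = 3 := by rw [Nat.card_zpowers, F.o3]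
  rw [← c]
  refine burn ⟨zpowers_le.2 m, IsPGroup.of_card (n := 1) c, fun Q hQ h1 h2 => le_antisymm
    (fun t ht => by_contra fun hn => h (eq_bot_iff.2 fun v hv => ?_)) h1⟩ fun n hn hN => ?_
  · have d := F.H.card_dvd hQ
    have e : t * s i = s i * t := by
      have d3 := card_dvd_of_le h1
      have d4 : Nat.card Q ≠ 3 := fun e => hn ((eq_of_le_of_card_ge h1 (by omega)).ge ht)
      have : Nat.card Q = 3 ^ 2 := by
        have := Nat.le_of_dvd (by norm_num) d
        obtain ⟨k, hk⟩ := d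
        rw [c] at d3
        interval_cases Nat.card Q <;> omega
      exact congrArg Subtype.val ((IsPGroup.isMulCommutative_of_card_eq_prime_sq this).is_comm.comm
        ⟨t, ht⟩ ⟨s i, h1 (mem_zpowers _)⟩)
    have e3 : t ^ 3 = 1 := by
      have a := pow_card_eq_one' (x := (⟨t, ht⟩ : Q))
      have b := (F.L i).six t e
      have : t ^ 9 = 1 := by
        obtain ⟨k, hk⟩ := d
        rw [hk, pow_mul, show t ^ Nat.card Q = 1 from congrArg Subtype.val a, one_pow]
      rwa [show t ^ 9 = t ^ 3 * t ^ 3 * t ^ 3 by group, b, one_mul] at this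
    exact (F.L i).free t v e e3 hn ((F.L i).mem_V.1 hv).1 (F.sq hv) (h2 ht v hv).symm
  · rw [centralizer_zpowers, mem_centralizer_singleton_iff]
    rcases zp3 (F.cube _ (F.mem i)) ((mem_normalizer_iff.1 hN _).1 (mem_zpowers _)) with e | e | e
    · exact (F.ne i (by simpa using e)).elim
    · exact mul_inv_eq_iff_eq_mul.1 e
    refine (F.wnc h fun v hv => ?_).elim
    have a : w * n * s i = s i * (w * n) := mul_inv_eq_iff_eq_mul.1 (by
      rw [mul_inv_rev, ← mul_assoc, mul_assoc w, mul_assoc w, e, ← conj_inv, F.inv _ (F.mem i), inv_inv])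
    have b : ∀ v ∈ V (s i), w * n * v * (w * n)⁻¹ = w * v * w⁻¹ := fun v hv => by
      rw [mul_assoc w, ← hn v hv]; group
    have b1 := (mem_normalizer_iff.1 (F.wV i) v).1 hv
    have d := (ea_comm (F.ea i) ((F.L i).cube_mem a) hv).eq
    rw [← mul_inv_eq_iff_eq_mul, show (w * n) ^ 3 * v * ((w * n) ^ 3)⁻¹ =
      w * n * (w * n * (w * n * v * (w * n)⁻¹) * (w * n)⁻¹) * (w * n)⁻¹ by
        rw [pow_succ, pow_two]; group, b v hv, b _ b1, conj_conj' F.ww, b v hv] at d
    exact (mul_inv_eq_iff_eq_mul.1 d).symm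

theorem pgF (i : Fin 4) : IsPGroup 2 (FF (s i)) :=
  F.pg (F.nF i) (Nat.prime_three.coprime_iff_not_dvd.1 (opOf_coprime 3 _).symm)

theorem mem_FF {i : Fin 4} (h : V (s i) ≠ ⊥) {x : G} {k : ℕ} (h2 : x ^ 2 ^ k = 1)
    (hx : x ∈ centralizer (V (s i) : Set G)) : x ∈ FF (s i) := by
  refine mem_of_relIndex (le_normalizer_opOf 3 _) hx ?_
  have := (card_mul_relIndex_of_le (FF_le (s i))).trans (F.cardC h)
  rw [show (opOf 3 (centralizer (V (s i) : Set G))).relIndex _ = 3 from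
    Nat.eq_of_mul_eq_mul_left Nat.card_pos this]
  exact (Nat.Coprime.pow_left k (by norm_num)).coprime_dvd_left (orderOf_dvd_of_pow_eq_one h2)

theorem le_FF {i : Fin 4} (h : V (s i) ≠ ⊥) {X : Subgroup G} (h2 : IsPGroup 2 X)
    (hx : X ≤ centralizer (V (s i) : Set G)) : X ≤ FF (s i) := fun x m =>
  let ⟨_, hk⟩ := isPGroup_iff_forall_mem.1 h2 x m
  F.mem_FF h hk (hx m)

theorem V_le_FF {i j : Fin 4} (h : V (s i) ≠ ⊥) (hx : V (s j) ≤ centralizer (V (s i) : Set G)) :
    V (s j) ≤ FF (s i) := F.le_FF h (F.L j).pg hx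

theorem exZ {X : Subgroup G} (hX : P ≤ normalizer (X : Set G)) (h2 : IsPGroup 2 X) (h : X ≠ ⊥) :
    ∃ l, V (s l) ≠ ⊥ ∧ V (s l) ≤ X ∧ X ≤ FF (s l) := by
  by_contra! c
  refine inf_centralizer_ne_bot h2 h2 le_normalizer h (eq_bot_iff.2 (F.gen
    (le_normalizer_inf hX (le_normalizer_centralizer hX)) (not3_of_pg (h2.to_le inf_le_left))
    le_normalizer_of_normal fun i h1 h3 => (c i h1 (h3.trans inf_le_left) (F.le_FF h1 h2
      (le_centralizer_symm (h3.trans inf_le_right)))).elim))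

/-- Smith-Tyrer -/
theorem st {H : Subgroup G} (hP : P ≤ H) (hw : w ∈ H)
    (hn : ∀ n ∈ H, n ∈ normalizer (P : Set G) → n ∈ P ∨ n * w ∈ P) {h : G} (hh : h ∈ H) :
    ∃ k ∈ opOf 3 H, ∃ y ∈ normalizer (P : Set G), h = k * y := by
  have S := F.syl hP
  have wP : w ∉ P := fun c => F.ne 0 (by
    have := F.inv _ (F.mem 0)
    rw [F.comm w c _ (F.mem 0), mul_inv_cancel_right, eq_inv_iff_mul_eq_one] at this
    have e := F.cube _ (F.mem 0)
    rwa [pow_succ, pow_two, this, one_mul] at e)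
  have cP : ∀ x : H, x ∈ centralizer ((S.toSylow : Subgroup H) : Set H) ↔ (x : G) ∈ P := fun x =>
    ⟨fun c => F.semi (centralizer_le_normalizer _ fun y hy => congrArg Subtype.val (c ⟨y, hP hy⟩ hy)) 0
      (congrArg Subtype.val (c ⟨_, hP (F.mem 0)⟩ (F.mem 0))).symm,
      fun c y hy => Subtype.ext (F.comm _ hy _ c)⟩
  have nP : ∀ x : H, x ∈ normalizer ((S.toSylow : Subgroup H) : Set H) → (x : G) ∈ normalizer (P : Set G) :=
    fun x c => mem_normalizer_fintype fun y hy => (mem_normalizer_iff.1 c ⟨y, hP hy⟩).1 hy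
  have pl := ST.smith_tyrer (P := S.toSylow) (by norm_num)
    ⟨⟨fun x y => Subtype.ext (Subtype.ext (F.comm _ x.2 _ y.2))⟩⟩
    (fun c => by
      obtain ⟨g, hg⟩ := c.exists_ofOrder_eq_natCard
      rw [show Nat.card (S.toSylow : Subgroup H) = 9 from
        (Nat.card_congr (subgroupOfEquivOfLe hP).toEquiv).trans F.card, ← orderOf_coe,
        ← orderOf_coe] at hg
      have : orderOf ((g : H) : G) ∣ 3 := orderOf_dvd_of_pow_eq_one (F.cube _ g.2)
      rw [hg] at this; omega)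
    (index_eq_two_iff.2 ⟨⟨⟨w, hw⟩, mem_normalizer_fintype fun y hy =>
      (mem_normalizer_iff.1 F.wN (y : G)).1 hy⟩, fun ⟨g, hg⟩ => by
      simp only [mem_subgroupOf, cP, Xor]
      rcases hn g g.2 (nP g hg) with c | c
      · exact .inr ⟨c, fun d => wP ((mul_mem_cancel_left c).1 d)⟩
      · exact .inl ⟨c, fun d => wP ((mul_mem_cancel_left d).1 c)⟩⟩)
    (by
      have hle : P ≤ oU[3] H := F.le_of_w (hP.trans (oU_normal H)) (one_mem _) (by
        rw [mul_one]
        exact mem_oU hw (Nat.Coprime.coprime_dvd_left (orderOf_dvd_of_pow_eq_one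
          ((pow_two w).trans F.ww)) (by norm_num)))
      obtain ⟨n, hn⟩ := IsPGroup.iff_card.1 (CL.isPGroup_quotient_pResidual (p := 3) (G := H))
      rw [← index_eq_card] at hn
      cases n with
      | zero => exact index_eq_one.1 hn
      | succ n =>
        refine (S.toSylow.not_dvd_index ((hn ▸ dvd_pow_self 3 n.succ_ne_zero).trans
          (index_dvd_of_le fun x hx => ?_))).elim
        obtain ⟨y, hy, e⟩ := hle hx
        exact Subtype.ext e ▸ hy)
  have nn := (BG.plength1_iff_sup_sylow_normal S.toSylow).1 pl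
  have n2 : H ≤ normalizer ((opOf 3 H ⊔ P : Subgroup G) : Set G) := by
    rw [opOf_def, ← S.map_toSylow, ← Subgroup.map_sup]
    exact (normal_subgroupOf_iff_le_normalizer (map_subtype_le _)).1 (by
      rwa [subgroupOf, comap_map_eq_self_of_injective H.subtype_injective])
  obtain ⟨n, hn, y, hy, rfl⟩ := (F.syl le_sup_right).frattini (n2 hh)
  obtain ⟨k, hk, t, ht, rfl⟩ := (mem_sup_of_normalizes_left (hP.trans (le_normalizer_opOf 3 H))).1 hn
  exact ⟨k, hk, _, mul_mem (le_normalizer ht) hy, mul_assoc _ _ _⟩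

end Fr

end CL.ON3
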