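import Mathlib
import Cfsg.Agent.PERM.ON3B
import Cfsg.Agent.ODDC.PF6Grp

/-!
The normaliser of the Sylow `3`-subgroup; groups in which the centralisers have order `9`.
-/

set_option autoImplicit false
set_option linter.unusedSectionVars false

namespace CL.ON3

open Subgroup Cfsg CL.MSS CL.AB CL.GC CL.PComp

variable {G : Type*} [Group G] [Finite G]

theorem LH.three (H : LH G) {P : Subgroup G} (hP : Nat.card P = 9) :
    (∀ x ∈ P, x ^ 3 = 1) ∧ ∀ x ∈ P, ∀ y ∈ P, x * y = y * x := by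
  refine ⟨fun x hx => by_contra fun c => c ?_, fun x hx y hy => congrArg Subtype.val
    ((IsPGroup.isMulCommutative_of_card_eq_prime_sq (p := 3) hP).is_comm.comm ⟨x, hx⟩ ⟨y, hy⟩)⟩
  have a : x ^ 9 = 1 := hP ▸ congrArg Subtype.val (pow_card_eq_one' (x := (⟨x, hx⟩ : P)))
  have b := (H (x ^ 3) (orderOf_eq_prime (by rwa [← pow_mul]) c)).six x (Commute.pow_right rfl 3)
  rwa [show x ^ 9 = x ^ 3 * x ^ 3 * x ^ 3 by group, b, one_mul] at a

theorem LH.exP (H : LH G) (h : ∃ s : G, orderOf s = 3) : ∃ P : Subgroup G, Nat.card P = 9 :=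
  let ⟨s, hs⟩ := h
  Sylow.exists_subgroup_card_pow_prime 3 (n := 2) (Dvd.dvd.trans
    (by rcases (H s hs).card with c | c <;> simp [c.2]) (card_subgroup_dvd_card (centralizer {s})))

section

variable (H : LH G) {P : Subgroup G} (hP : Nat.card P = 9)
include H hP

theorem LH.rel8 {K : Subgroup G} (h : K ≤ normalizer (P : Set G)) : P.relIndex K ∣ 8 := by
  have := PF6.relIndex_dvd_card_pred (K := P) h fun b hb b1 x hx =>
    ⟨H.semi hP (H.three hP).1 (H.three hP).2 (h hx) hb b1, fun c => (H.three hP).2 x c b hb⟩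
  rwa [hP] at this

theorem LH.card72 : Nat.card (normalizer (P : Set G)) ∣ 72 := by
  rw [← card_mul_relIndex_of_le (le_normalizer : P ≤ _), hP]
  exact Nat.mul_dvd_mul_left 9 (H.rel8 hP le_rfl)

theorem LH.eq_one {v : G} {k : ℕ} (hv : v ∈ P) (h : v ^ 2 ^ k = 1) : v = 1 :=
  mem_bot.1 (mem_of_cube h (mem_bot.2 ((H.three hP).1 v hv)))

theorem LH.invol {v : G} (hv : v ∈ normalizer (P : Set G)) (h2 : v * v = 1) (h1 : v ≠ 1) {x : G}
    (hx : x ∈ P) : v * x * v⁻¹ = x⁻¹ := by
  have a := (mem_normalizer_iff.1 hv x).1 hx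
  refine eq_inv_of_mul_eq_one_left (by_contra fun c => h1 (H.eq_one hP (k := 1) (H.semi hP
    (H.three hP).1 (H.three hP).2 hv (mul_mem a hx) c (mul_inv_eq_iff_eq_mul.1 ?_))
    (by rwa [pow_one, pow_two])))
  rw [← conj_mul, conj_conj' h2, (H.three hP).2 x hx _ a]

theorem LH.four {K : Subgroup G} (hK : P ≤ K) (h1 : opOf 3 K = ⊥) (h2 : ¬ K ≤ normalizer (P : Set G)) :
    36 ∣ Nat.card (K ⊓ normalizer (P : Set G) : Subgroup G) := by
  have T := H.three hP
  have c := card_mul_relIndex_of_le (le_inf hK le_normalizer : P ≤ K ⊓ normalizer (P : Set G))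
  have d := H.rel8 hP (inf_le_right : K ⊓ normalizer (P : Set G) ≤ _)
  obtain ⟨a, ha, a1, -⟩ := Odd.exists_not_mem_three hP 1
  obtain ⟨b, hb, b1, b2, b3⟩ := Odd.exists_not_mem_three hP a
  have n1 : P.relIndex (K ⊓ normalizer (P : Set G)) ≠ 1 := fun e => by
    have := burn (p := 3) (R := P) (H := K) ⟨hK, IsPGroup.of_card (n := 2) hP, fun _ hQ h1 _ =>
      (eq_of_le_of_card_ge h1 (hP ▸ Nat.le_of_dvd (by norm_num) (H.card_dvd hQ))).symm⟩
      fun g hg hn x hx => T.2 x hx g (relIndex_eq_one.1 e ⟨hg, hn⟩)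
    rw [h1, card_bot, one_mul] at this
    exact h2 ((eq_of_le_of_card_ge hK this.le).ge.trans le_normalizer)
  have n2 : P.relIndex (K ⊓ normalizer (P : Set G)) ≠ 2 := fun e => by
    rw [e] at c
    obtain ⟨⟨w, hw⟩, o⟩ := exists_prime_orderOf_dvd_card' (G := (K ⊓ normalizer (P : Set G) : Subgroup G))
      2 (by omega)
    rw [← orderOf_coe] at o
    have w2 : w * w = 1 := by rw [← pow_two, ← o, pow_orderOf_eq_one]
    have w1 : w ≠ 1 := fun e => by simp [e] at o
    have F := H.fr hP T.1 T.2 w2 (fun x hx => H.invol hP hw.2 w2 w1 hx) ha hb a1 b1 b2 b3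
    refine h2 fun g hg => ?_
    obtain ⟨k, hk, y, hy, rfl⟩ := F.st hK hw.1 (fun n hn hN => or_iff_not_imp_left.2 fun m =>
      mul_mem_of_card (le_inf hK le_normalizer) (by omega) ⟨hn, hN⟩ hw m fun m => w1
        (H.eq_one hP (k := 1) m (by rwa [pow_one, pow_two]))) hg
    rwa [(mem_bot.1 (h1 ▸ hk) : k = 1), one_mul]
  have := Nat.le_of_dvd (by norm_num) d
  rw [← c, hP]
  obtain ⟨k, hk⟩ := d
  interval_cases P.relIndex (K ⊓ normalizer (P : Set G)) <;> omega

end

/-- the permutation induced by an element of order `4` -/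
def sg : Fin 4 → Fin 4 := ![1, 0, 3, 2]

/-- a frame with an element of order `4` -/
structure FE (P : Subgroup G) (w e : G) (s : Fin 4 → G) : Prop extends Fr P w s where
  eN : e ∈ normalizer (P : Set G)
  ee : e * e = w
  es : ∀ i, e * s i * e⁻¹ ∈ zpowers (s (sg i))

theorem LH.fe (H : LH G) {P : Subgroup G} (hP : Nat.card P = 9)
    (h : 4 ∣ Nat.card (normalizer (P : Set G))) : ∃ w e s, FE P w e s := by
  have T := H.three hP
  obtain ⟨E, hE⟩ := Sylow.exists_subgroup_card_pow_prime 2 (n := 2) h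
  obtain ⟨a, ha, a1, -⟩ := Odd.exists_not_mem_three hP 1
  have ni : a ≠ a⁻¹ := fun c => a1 (H.eq_one hP (k := 1) ha (by
    rwa [pow_one, pow_two, ← eq_inv_iff_mul_eq_one]))
  obtain ⟨⟨e, eN⟩, he, e2⟩ : ∃ e ∈ E, (e : G) * e ≠ 1 := by
    by_contra! c
    have : Nat.card E ≤ Nat.card Bool := by
      classical
      refine Nat.card_le_card_of_injective (fun x : E => decide (x = 1)) fun x y e => ?_
      by_cases hx : x = 1
      · simpa [hx, eq_comm] using e
      have hy : y ≠ 1 := by simpa [hx] using e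
      by_contra n
      have i : ∀ z : E, z ≠ 1 → ∀ t ∈ P, ((z : normalizer (P : Set G)) : G) * t * (z : G)⁻¹ = t⁻¹ :=
        fun z hz t ht => H.invol hP z.1.2 (c _ z.2) (fun e => hz (Subtype.ext (Subtype.ext e))) ht
      have := i (x⁻¹ * y) (fun e => n (inv_mul_eq_one.1 e)) a ha
      rw [coe_mul, coe_mul, mul_inv_rev, ← mul_assoc, mul_assoc _ _ a, mul_assoc _ (_ * a), i y hy a ha,
        i x⁻¹ (inv_ne_one.2 hx) _ (inv_mem ha), inv_inv] at this
      exact ni this
    simp [hE] at this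
  have e4 : e * e * (e * e) = 1 := by
    have := congrArg (fun x : E => ((x : normalizer (P : Set G)) : G))
      (pow_card_eq_one' (x := (⟨_, he⟩ : E)))
    simpa [hE, pow_succ, mul_assoc] using this
  have iw := fun x hx => H.invol hP (mul_mem eN eN) e4 e2 (x := x) hx
  have hb := (mem_normalizer_iff.1 eN a).1 ha
  have e5 : e * (e * a * e⁻¹) * e⁻¹ = a⁻¹ := by rw [← iw a ha]; group
  refine ⟨_, e, _, H.fr hP T.1 T.2 e4 iw ha hb a1 (by simpa using a1)
    (fun c => ni (by rw [← e5, c, c])) (fun c => ni (by rw [← e5, c, ← conj_inv, c, inv_inv])),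
    eN, rfl, fun i => ?_⟩
  fin_cases i
  · exact mem_zpowers _
  · exact e5 ▸ inv_mem (mem_zpowers a)
  · change e * (a * _) * e⁻¹ ∈ zpowers (a⁻¹ * _)
    rw [← conj_mul, e5, T.2 _ hb _ (inv_mem ha)]; exact mem_zpowers _
  · change e * (a⁻¹ * _) * e⁻¹ ∈ zpowers (a * _)
    rw [← conj_mul, e5, ← conj_inv, ← mul_inv_rev]; exact inv_mem (mem_zpowers _)

theorem LH.exists_fe [IsSimpleGroup G] (H : LH G) (hG : ¬ IsMulCommutative G)
    (h : ∃ s : G, orderOf s = 3) : ∃ (P : Subgroup G) (w e : G) (s : Fin 4 → G), FE P w e s := by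
  obtain ⟨P, hP⟩ := H.exP h
  have d := card_subgroup_dvd_card P
  refine ⟨P, H.fe hP (Dvd.dvd.trans (by norm_num) (top_inf_eq (normalizer (P : Set G)) ▸
    H.four hP le_top ?_ fun c => ?_))⟩
  · refine ((normalizer_eq_top_iff.1 (top_le_iff.1 (le_normalizer_opOf 3 ⊤))).eq_bot_or_eq_top).resolve_right
      fun e => ?_
    have := opOf_coprime 3 (⊤ : Subgroup G)
    rw [e, card_top] at this
    exact Nat.prime_three.coprime_iff_not_dvd.1 this.symm (Dvd.dvd.trans (by simp [hP]) d)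
  · rcases (normalizer_eq_top_iff.1 (top_le_iff.1 c)).eq_bot_or_eq_top with e | e
    · simp [e] at hP
    · exact hG ⟨⟨fun x y => (H.three hP).2 x (e ▸ mem_top x) y (e ▸ mem_top y)⟩⟩

namespace FE

variable {P : Subgroup G} {w e : G} {s : Fin 4 → G} (E : FE P w e s)
include E

theorem eV (i : Fin 4) : e •ᶜ V (s i) = V (s (sg i)) := by
  rw [cj_V]; exact V_congr (E.cube _ (E.mem _)) (E.es i) (by simpa using E.ne i)

theorem eF (i : Fin 4) : e •ᶜ FF (s i) = FF (s (sg i)) := by
  rw [cj_FF, FF, ← cj_V, E.eV, FF]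

theorem perm (τ : Equiv.Perm (Fin 4)) (h : ∀ i, τ (sg i) = sg (τ i)) : FE P w e (s ∘ τ) :=
  ⟨E.toFr.perm τ, E.eN, E.ee, fun i => by simpa [h] using E.es (τ i)⟩

theorem nz {i : Fin 4} (h : V (s i) ≠ ⊥) : V (s (sg i)) ≠ ⊥ := by rwa [← E.eV, Ne, cj_eq_bot_iff]

theorem adj {i j : Fin 4} (h : V (s i) ≤ FF (s j)) : V (s (sg i)) ≤ FF (s (sg j)) := by
  rw [← E.eV, ← E.eF]; exact cj_mono e h

end FE

/-- all centralisers of elements of order `3` are elementary of order `9` -/
def Nine (G : Type*) [Group G] : Prop := ∀ s : G, orderOf s = 3 →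
  Nat.card (centralizer ({s} : Set G)) = 9 ∧ ∀ x : G, x * s = s * x → x ^ 3 = 1

theorem Nine.V_eq (h : Nine G) {s : G} (hs : orderOf s = 3) : V s = ⊥ :=
  (closure_eq_bot_iff).2 fun v hv => by
    have := (h s hs).2 v hv.1
    rwa [pow_succ, pow_two, hv.2, one_mul] at this

theorem Nine.lh (h : Nine G) : LH G := fun s hs => by
  have a : ∀ v : G, v * s = s * v → v * v = 1 → v = 1 := fun v h1 h2 =>
    mem_bot.1 (h.V_eq hs ▸ subset_closure ⟨h1, h2⟩)
  exact ⟨fun x y hx _ h1 _ => by simp [a x hx h1], fun x hx => by simp [(h s hs).2 x hx],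
    fun _ v _ _ _ h1 h2 _ => a v h1 h2, .inl ⟨by rw [h.V_eq hs, card_bot], (h s hs).1⟩⟩

theorem Fr.conj3 {P : Subgroup G} {w : G} {s : Fin 4 → G} (F : Fr P w s) {K : Subgroup G} (hK : P ≤ K)
    {t : G} (ht : t ∈ K) (o : orderOf t = 3) : ∃ g ∈ K, ∃ i, g * t * g⁻¹ ∈ zpowers (s i) ∧
      g •ᶜ V t = V (s i) := by
  obtain ⟨g, hg, h⟩ := (F.syl hK).exists_conj_le (MSS.isPGroup_zpowers (k := 1) (x := t)
    (by rw [pow_one, ← o, pow_orderOf_eq_one])) (zpowers_le.2 ht)
  obtain ⟨i, hi⟩ := F.cov _ (h (conj_mem_cj (mem_zpowers t)))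
  exact ⟨g, hg, i, hi, (cj_V g t).trans (V_congr (F.cube _ (F.mem i)) hi fun e => by
    rw [conj_eq_one_iff.1 e, orderOf_one] at o; omega)⟩

theorem Fr.nine {P : Subgroup G} {w : G} {s : Fin 4 → G} (F : Fr P w s) (h : ∀ i, V (s i) = ⊥) :
    Nine G := fun t ht => by
  obtain ⟨g, -, i, -, e⟩ := F.conj3 le_top (mem_top t) ht
  rw [h, cj_eq_bot_iff] at e
  refine ⟨((F.H t ht).card.resolve_right fun c => by simp [e] at c).2, fun x hx =>
    mem_bot.1 (e ▸ (F.H t ht).cube_mem hx)⟩

/-- A group with centralisers of order `9` and a non-normal Sylow `3`-subgroup. -/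
theorem Nine.exists_simple (h : Nine G) {P : Subgroup G} {w : G} {s : Fin 4 → G} (F : Fr P w s)
    (hn : ¬ P.Normal) : ∃ S : Subgroup G, S.Normal ∧ P ≤ S ∧ IsSimpleGroup S ∧ ¬ IsMulCommutative S ∧
      Nat.card G ∣ Nat.card S * 2 := by
  have hS : P ≤ normalClosure (P : Set G) := le_normalClosure
  have nS : (normalClosure (P : Set G)).Normal := inferInstance
  have min : ∀ K : Subgroup G, (∀ g : G, g •ᶜ P ≤ K) → normalClosure (P : Set G) ≤ K := fun K hK =>
    (closure_le _).2 fun x hx => by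
      obtain ⟨a, ha, c, rfl⟩ : ∃ a ∈ P, ∃ c, c * a * c⁻¹ = x := by
        simpa [Group.mem_conjugatesOfSet_iff, isConj_iff] using hx
      exact hK c (conj_mem_cj ha)
  generalize normalClosure (P : Set G) = S at *
  have bot : ∀ X : Subgroup G, P ≤ normalizer (X : Set G) → ¬ 3 ∣ Nat.card X → X = ⊥ :=
    fun X h1 h2 => eq_bot_iff.2 (F.gen h1 h2 le_normalizer_of_normal fun i c => (c (h.V_eq (F.o3 i))).elim)
  have botO : ∀ X : Subgroup G, P ≤ normalizer (X : Set G) → opOf 3 X = ⊥ := fun X h1 =>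
    bot _ (h1.trans (normalizer_le_normalizer_opOf 3 X))
      (Nat.prime_three.coprime_iff_not_dvd.1 (opOf_coprime 3 _).symm)
  have nn : ¬ S ≤ normalizer (P : Set G) := fun c => hn (normal_of_cj fun g => cj_eq_of_le
    ((F.syl hS).le_of_normalizes (isPGroup_cj g F.p3)
      (cj_le_of_mem_normalizer hS (le_normalizer_of_normal (mem_top g)))
      ((cj_le_of_mem_normalizer hS (le_normalizer_of_normal (mem_top g))).trans c)))
  have cP : ∀ i, centralizer {s i} = P := fun i => (eq_of_le_of_card_ge (fun x hx =>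
    mem_centralizer_singleton_iff.2 (F.comm x hx _ (F.mem i))) ((h _ (F.o3 i)).1.trans F.card.symm).le).symm
  have key : ∀ K ≤ S, S ≤ normalizer (K : Set G) → K ≠ ⊥ → P ≤ K := fun K h1 h2 h3 => by
    obtain ⟨i, hi⟩ : ∃ i, s i ∈ K := by
      by_contra! c
      exact h3 (bot K (hS.trans h2) (F.not3 (hS.trans h2) c))
    have s1 := (F.syl hS).inf_normal_of_le h2 h1
    by_cases c : ∀ g ∈ K, g ∈ normalizer ((P ⊓ K : Subgroup G) : Set G) →
      g ∈ centralizer ((P ⊓ K : Subgroup G) : Set G)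
    · have := burn s1 c
      rw [botO K (hS.trans h2), card_bot, one_mul] at this
      have e : K ≤ P := (eq_of_le_of_card_ge inf_le_right this.le).ge.trans inf_le_left
      refine (nn fun g hg => mem_normalizer_of_cj_le ?_).elim
      rw [← cP i, cj_centralizer_singleton, cP i]
      obtain ⟨j, hj⟩ := F.cov _ (e ((mem_normalizer_iff.1 (h2 hg) _).1 hi))
      rw [← centralizer_zpowers, ← cP j, ← centralizer_zpowers]
      exact centralizer_anti (zpowers_le.2 (zp_symm (F.cube _ (F.mem j)) hj (by simpa using F.ne i)))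
    · push Not at c
      obtain ⟨g, hg, gN, gC⟩ := c
      by_contra hPK
      have z : P ⊓ K ≤ zpowers (s i) := fun x hx => by
        obtain ⟨j, hj⟩ := F.cov x hx.1
        by_contra c
        have x1 : x ≠ 1 := fun e => c (e ▸ one_mem _)
        have d1 := card_dvd_of_le (inf_le_left : P ⊓ K ≤ P)
        have d0 : zpowers (s i) ≤ P ⊓ K := zpowers_le.2 ⟨F.mem i, hi⟩
        have d2 := card_le_of_le d0
        have d3 : Nat.card (P ⊓ K : Subgroup G) ≠ Nat.card (zpowers (s i)) := fun e =>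
          c ((eq_of_le_of_card_ge d0 e.le).ge hx)
        have d4 : Nat.card (P ⊓ K : Subgroup G) ≠ Nat.card P := fun e =>
          hPK ((eq_of_le_of_card_ge inf_le_left e.ge).ge.trans inf_le_right)
        rw [Nat.card_zpowers, F.o3, F.card] at *
        have := Nat.le_of_dvd (by norm_num) d1
        interval_cases Nat.card (P ⊓ K : Subgroup G) <;> omega
      have m := z ((mem_normalizer_iff.1 gN _).1 ⟨F.mem i, hi⟩)
      have gP : g ∈ normalizer (P : Set G) := by
        rw [← cP i, ← centralizer_zpowers]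
        exact normalizer_le_normalizer_centralizer _ (mem_normalizer_of_cj_le (by
          rw [cj_zpowers]; exact zpowers_le.2 m))
      rcases F.fixN gP m with c | c
      · exact gC fun x hx => F.comm x hx.1 g c
      · refine hPK (F.le_of_w (hS.trans h2) (inv_mem c) ?_)
        rw [mul_inv_rev, ← mul_assoc, mul_inv_cancel, one_mul]; exact inv_mem hg
  have nt : Nontrivial S := ⟨⟨⟨_, hS (F.mem 0)⟩, 1, fun e => F.ne 0 (congrArg Subtype.val e)⟩⟩
  refine ⟨S, nS, hS, ⟨fun K hK => or_iff_not_imp_left.2 fun c => ?_⟩, fun c => nn fun g hg =>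
    centralizer_le_normalizer _ fun x hx => congrArg Subtype.val (c.is_comm.comm ⟨x, hS hx⟩ ⟨g, hg⟩), ?_⟩
  · have n : S ≤ normalizer ((K.map S.subtype : Subgroup G) : Set G) :=
      (normal_subgroupOf_iff_le_normalizer (map_subtype_le _)).1 (by
        rwa [subgroupOf, comap_map_eq_self_of_injective S.subtype_injective])
    have a := key _ (map_subtype_le K) n (by rwa [Ne, map_eq_bot_iff_of_injective _ S.subtype_injective])
    have b := min (K.map S.subtype) fun g => by
      obtain ⟨x, hx, e⟩ := (F.syl hS).exists_le_conj (isPGroup_cj g F.p3)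
        (cj_le_of_mem_normalizer hS (le_normalizer_of_normal (mem_top g)))
      exact e.trans (cj_le_of_mem_normalizer a (n hx))
    exact eq_top_iff.2 fun x _ => by
      obtain ⟨y, hy, e⟩ := b x.2
      exact Subtype.ext e ▸ hy
  · have a := F.H.four F.card hS (botO S le_normalizer_of_normal) nn
    have b := F.H.card72 F.card
    have c := CL.card_sup_mul_card_inf_of_le_normalizer
      (le_normalizer_of_normal : normalizer (P : Set G) ≤ normalizer (S : Set G))
    have d := (F.syl hS).frattini_sup (le_top : S ≤ ⊤) le_normalizer_of_normal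
    rw [top_inf_eq, sup_comm] at d
    rw [d, card_top, inf_comm] at c
    obtain ⟨k, hk⟩ := a
    obtain ⟨m, hm⟩ := b
    refine ⟨k * m, Nat.eq_of_mul_eq_mul_left (by norm_num : 0 < 36) ?_⟩
    rw [hk] at c
    calc _ = 72 * Nat.card S := by ring
      _ = _ := by rw [hm, mul_right_comm, ← c]; ring

end CL.ON3
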