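import Mathlib
import Cfsg.Prelude.Def_Classical
import Cfsg.Agent.KSG.GLnOrders3
import Cfsg.Agent.CLAS.UniOrd
import Cfsg.Agent.CLAS.UniGen
import Cfsg.Agent.CLAS.SLBasic
import Cfsg.Agent.S0243

/-!
Classical groups of dimension at most three in which `9` is the exact power of `3` in the order
and every element of order divisible by `3` has order `3` or `6`.
-/

set_option autoImplicit false

namespace CL.ON3

open Module

/-- `9` divides the order exactly; `3`-singular elements have order `3` or `6` -/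
def Num (G : Type*) [Group G] : Prop :=
  9 ∣ Nat.card G ∧ ¬ 27 ∣ Nat.card G ∧ ∀ g : G, 3 ∣ orderOf g → orderOf g = 3 ∨ orderOf g = 6

theorem Num.not_nine {G : Type*} [Group G] (h : Num G) (g : G) : ¬ 9 ∣ orderOf g := by
  intro h9
  rcases h.2.2 g (dvd_trans (by norm_num) h9) with h' | h' <;> rw [h'] at h9 <;> omega

theorem n3_norm_pair {F : Type*} [Field F] {l : F} (hl : l ≠ 0) :
    Algebra.norm F ((l, l⁻¹) : F × F) = 1 := by
  rw [CL.GLn.norm_prod_mk, Algebra.norm_self, MonoidHom.id_apply, MonoidHom.id_apply,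
    mul_inv_cancel₀ hl]

theorem n3_card_pow {F : Type*} [Field F] [Fintype F] (h3 : 3 ∣ Fintype.card F) :
    ∃ k, Fintype.card F = 3 ^ k := by
  obtain ⟨p, hchar⟩ := CharP.exists F
  obtain ⟨n, hp, hn⟩ := FiniteField.card F p
  rw [hn] at h3
  have := (Nat.prime_dvd_prime_iff_eq Nat.prime_three hp).1 (Nat.prime_three.dvd_of_dvd_pow h3)
  subst this
  exact ⟨n, hn⟩

/-- Order `q(q²-1)/(2,q-1)` (`CL.SL.gcd_mul_card_PSL_two`).  If `3 ∣ q` then the `3`-part is `q`.
Otherwise `9 ∣ q-1` or `9 ∣ q+1`, and a torus element (`CL.GLn.exists_singer_psl` for `q+1`,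
`CL.GLn.exists_psl_orderOf_of_lt` or `diag(l,l⁻¹)` for `q-1`) has order divisible by `9`. -/
theorem num_psl2 {F : Type*} [Field F] [Fintype F]
    (h : Num (Matrix.ProjectiveSpecialLinearGroup (Fin 2) F)) : Fintype.card F = 9 := by
  have hc := CL.SL.gcd_mul_card_PSL_two (F := F)
  rw [Nat.card_eq_fintype_card (α := F)] at hc
  have hq : 2 ≤ Fintype.card F := Fintype.one_lt_card
  set q := Fintype.card F with hqd
  set N := Nat.card (Matrix.ProjectiveSpecialLinearGroup (Fin 2) F)
  have hg : Nat.Coprime 27 (Nat.gcd 2 (q - 1)) :=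
    Nat.Coprime.coprime_dvd_right (Nat.gcd_dvd_left _ _) (by norm_num)
  have h9 : 9 ∣ q * (q ^ 2 - 1) := hc ▸ Dvd.dvd.mul_left h.1 _
  have h27 : ¬ 27 ∣ q * (q ^ 2 - 1) := fun h' => h.2.1 (hg.dvd_of_dvd_mul_left (hc ▸ h'))
  have hsq : q ^ 2 - 1 = (q + 1) * (q - 1) := by
    have := Nat.sq_sub_sq q 1
    simpa using this
  by_cases h3 : 3 ∣ q
  · obtain ⟨k, hk⟩ := n3_card_pow h3
    rw [← hqd] at hk
    have hco : Nat.Coprime 9 (q ^ 2 - 1) := by
      have : Nat.Coprime 3 (q ^ 2 - 1) := by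
        rw [Nat.Prime.coprime_iff_not_dvd Nat.prime_three]
        intro h'
        have h1 : 3 ∣ q ^ 2 := h3.trans (dvd_pow_self q two_ne_zero)
        have h2 : 1 ≤ q ^ 2 := Nat.one_le_pow _ _ (by omega)
        omega
      simpa using Nat.Coprime.pow_left 2 this
    have h9q : 9 ∣ q := hco.dvd_of_dvd_mul_right h9
    have h27q : ¬ 27 ∣ q := fun h' => h27 (h'.mul_right _)
    rw [hk] at h9q h27q ⊢
    have h1 : 2 ≤ k := (Nat.pow_dvd_pow_iff_le_right (by norm_num : 1 < 3)).1 (by simpa using h9q)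
    have h2 : ¬ 3 ≤ k := fun h' => h27q (pow_dvd_pow 3 h')
    have : k = 2 := by omega
    subst this; norm_num
  · exfalso
    have hco : Nat.Coprime 9 q := by
      simpa using Nat.Coprime.pow_left 2 ((Nat.Prime.coprime_iff_not_dvd Nat.prime_three).2 h3)
    have h9' : 9 ∣ (q + 1) * (q - 1) := hsq ▸ hco.dvd_of_dvd_mul_left h9
    by_cases h31 : 3 ∣ q + 1
    · have hco' : Nat.Coprime 9 (q - 1) := by
        simpa using Nat.Coprime.pow_left 2
          ((Nat.Prime.coprime_iff_not_dvd Nat.prime_three).2 (show ¬ 3 ∣ q - 1 by omega))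
      have h91 : 9 ∣ q + 1 := hco'.dvd_of_dvd_mul_right h9'
      obtain ⟨y, hy⟩ := CL.GLn.exists_singer_psl (F := F) (n := 2) two_ne_zero
      have := (hy _).1 (pow_orderOf_eq_one y)
      rw [← hqd, hsq, Nat.mul_div_cancel _ (by omega)] at this
      exact h.not_nine y (hco'.dvd_of_dvd_mul_left (h91.trans this))
    · have hco' : Nat.Coprime 9 (q + 1) := by
        simpa using Nat.Coprime.pow_left 2 ((Nat.Prime.coprime_iff_not_dvd Nat.prime_three).2 h31)
      have h91 : 9 ∣ q - 1 := hco'.dvd_of_dvd_mul_left h9'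
      obtain ⟨l, hl0, hl⟩ := CL.GLn.exists_orderOf_eq_of_dvd_card_sub_one (F := F) h91
      obtain ⟨y, hy⟩ := CL.GLn.exists_psl_of_algebra (F := F) (n := Fin 2) (R := F × F)
        (by simp) (l, l⁻¹) (n3_norm_pair hl0)
      obtain ⟨c, hc'⟩ := (hy _).1 (pow_orderOf_eq_one y)
      simp only [Prod.pow_mk, Prod.algebraMap_apply, Prod.mk.injEq, Algebra.algebraMap_self,
        RingHom.id_apply] at hc'
      have h2 : l ^ (2 * orderOf y) = 1 := by
        rw [two_mul, pow_add]
        nth_rewrite 1 [hc'.1, ← hc'.2]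
        rw [inv_pow, inv_mul_cancel₀ (pow_ne_zero _ hl0)]
      have h3' := orderOf_dvd_of_pow_eq_one h2
      rw [hl] at h3'
      exact h.not_nine y ((by norm_num : Nat.Coprime 9 2).dvd_of_dvd_mul_left h3')

/-- Order by `S0243`: `3 ∣ q` gives `27 ∣ q³`.  `q ≡ 1 (3)`: `diag(l,1,l⁻¹)` has order `q-1`.
`q ≡ 2 (3)`: an element of order `q²-1`, so `q = 2`, but `9 ∤ 168`. -/
theorem num_psl3 {F : Type*} [Field F] [Fintype F]
    (h : Num (Matrix.ProjectiveSpecialLinearGroup (Fin 3) F)) :
    Fintype.card F = 4 ∨ Fintype.card F = 7 := by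
  have hc := Cfsg.Agent.S0243.result (F := F) rfl 3 (by norm_num)
  have hq : 2 ≤ Fintype.card F := Fintype.one_lt_card
  set q := Fintype.card F with hqd
  set N := Nat.card (Matrix.ProjectiveSpecialLinearGroup (Fin 3) F)
  simp only [Fin.prod_univ_three, Fin.val_zero, Fin.val_one, Fin.val_two, pow_zero, pow_one] at hc
  by_cases h3 : 3 ∣ q
  · exfalso
    have hco : Nat.Coprime 3 (q - 1) :=
      (Nat.Prime.coprime_iff_not_dvd Nat.prime_three).2 (by omega)
    rw [hco, one_mul] at hc
    have hco' : Nat.Coprime 27 (q - 1) := by simpa using Nat.Coprime.pow_left 3 hco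
    refine h.2.1 (hco'.dvd_of_dvd_mul_left (hc ▸ ?_))
    have h1 : 3 ∣ q ^ 3 - q := Nat.dvd_sub (h3.trans (dvd_pow_self q three_ne_zero)) h3
    have h9 : 9 ∣ q ^ 2 := by simpa using pow_dvd_pow_of_dvd h3 2
    have h2 : 9 ∣ q ^ 3 - q ^ 2 := Nat.dvd_sub (h9.trans (pow_dvd_pow q (by norm_num))) h9
    rw [mul_assoc]
    exact Dvd.dvd.mul_left (by simpa using mul_dvd_mul h1 h2) _
  · by_cases h31 : 3 ∣ q - 1
    · obtain ⟨l, hl0, hl⟩ := CL.GLn.exists_orderOf_eq_of_dvd_card_sub_one (F := F) dvd_rfl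
      obtain ⟨y, hy⟩ := CL.GLn.exists_psl_orderOf_of_lt (F := F) (n := Fin 3) (R := F × F)
        (by simp) (l, l⁻¹) (n3_norm_pair hl0)
      have hinv : orderOf l⁻¹ = orderOf l := by
        refine orderOf_eq_orderOf_iff.2 fun k => ?_
        rw [inv_pow, inv_eq_one]
      rw [Prod.orderOf_mk, hinv, Nat.lcm_self, hl, ← hqd] at hy
      rcases h.2.2 y (hy ▸ h31) with h' | h' <;> omega
    · exfalso
      obtain ⟨p, hchar⟩ := CharP.exists F
      have := Fact.mk (CharP.char_is_prime F p)
      have hsq : q ^ 2 - 1 = (q + 1) * (q - 1) := by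
        have := Nat.sq_sub_sq q 1
        simpa using this
      obtain ⟨x, hx⟩ := CL.GLn.exists_extension_orderOf (F := F) p 2 (m := q + 1)
        (by rw [← hqd, hsq]; exact dvd_mul_right _ _)
      obtain ⟨y, hy⟩ := CL.GLn.exists_psl_orderOf_of_lt (F := F) (n := Fin 3)
        (by simp only [FiniteField.finrank_extension, Fintype.card_fin]; norm_num) x (by
          apply (algebraMap F (FiniteField.Extension F p 2)).injective
          rw [FiniteField.algebraMap_norm_eq_pow, CL.GLn.natCard_extension',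
            Nat.card_eq_fintype_card, ← hqd, hsq, Nat.mul_div_cancel _ (by omega),
            ← hx, pow_orderOf_eq_one, map_one])
      rw [hx] at hy
      have h9 := h.1
      rcases h.2.2 y (hy ▸ (by omega)) with h' | h'
      · have : q = 2 := by omega
        rw [this] at hc
        norm_num at hc
        omega
      · have : q = 5 := by omega
        rw [this] at hc
        norm_num at hc
        omega

/-- Order by `CL.Uni.card_PSU`: `3 ∣ q` gives `27 ∣ q³`.  `CL.UniED.exists_psu_torus_pred` gives an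
element of order `(q²-1)/(3,q+1)`; `q ≡ 2 (3)`: `diag(l,1,l⁻¹)`, `l^(q+1)=1`, has order `q+1`. -/
theorem num_psu3 {F : Type*} [Field F] [Fintype F] {q : ℕ} (hq : Fintype.card F = q ^ 2)
    (h : Num (Cfsg.PSU 3 F q)) : q = 2 ∨ q = 5 := by
  have hq2 := CL.SqField.two_le hq
  by_cases h3 : 3 ∣ q
  · exfalso
    have hc := CL.Uni.card_PSU hq (n := 3) (by norm_num)
    have hco : Nat.Coprime 3 (q + 1) :=
      (Nat.Prime.coprime_iff_not_dvd Nat.prime_three).2 (by omega)
    rw [hco, one_mul] at hc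
    have hco' : Nat.Coprime 27 (q + 1) := by simpa using Nat.Coprime.pow_left 3 hco
    refine h.2.1 (hco'.dvd_of_dvd_mul_left (hc ▸ ?_))
    exact Dvd.dvd.mul_right (by simpa using pow_dvd_pow_of_dvd h3 3) _
  · by_cases h31 : 3 ∣ q + 1
    · obtain ⟨p, hchar⟩ := CharP.exists F
      have := Fact.mk (CharP.char_is_prime F p)
      have hsq : q ^ 2 - 1 = (q + 1) * (q - 1) := by
        have := Nat.sq_sub_sq q 1
        simpa using this
      obtain ⟨a, ha0, ha⟩ := CL.GLn.exists_orderOf_eq_of_dvd_card_sub_one (F := F) (m := q + 1)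
        (by rw [hq, hsq]; exact dvd_mul_right _ _)
      have ha1 : a ^ (q + 1) = 1 := ha ▸ pow_orderOf_eq_one a
      obtain ⟨B, h1, h2, h3⟩ := CL.UniED.exists_jordan hq p ha1 one_pos
      obtain ⟨B', h1', h2', h3'⟩ := CL.UniED.exists_jordan hq p (a := a⁻¹)
        (by rw [inv_pow, ha1, inv_one]) one_pos
      obtain ⟨B'', h1'', h2'', h3''⟩ := CL.UniED.exists_jordan hq p (one_pow (q + 1)) one_pos
      obtain ⟨y, hy⟩ := ((h1.prodMap h1').prodMap h1'').exists_psu hq (n := 3) (by norm_num)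
        (by simp) (by
          rw [LinearMap.det_prodMap, LinearMap.det_prodMap, h2, h2', h2'', pow_one, pow_one,
            pow_one, mul_inv_cancel₀ ha0, one_mul])
      have hy' : orderOf y = q + 1 := by
        rw [← ha]
        refine orderOf_eq_orderOf_iff.2 fun k => ?_
        simp only [hy, CL.UniED.prodMap_pow_eq_algebraMap_iff, h3, h3', h3'', Nat.clog_one_right,
          pow_zero, one_dvd, and_true, one_pow, exists_eq_right', inv_pow, inv_eq_one, and_self]
      rcases h.2.2 y (hy' ▸ h31) with h' | h' <;> omega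
    · obtain ⟨y, hy⟩ := CL.UniED.exists_psu_torus_pred hq (n := 2) (by norm_num)
      have hco : Nat.Coprime 3 (q + 1) := (Nat.Prime.coprime_iff_not_dvd Nat.prime_three).2 h31
      rw [show Nat.gcd (2 + 1) (q + 1) = 1 from hco, Nat.div_one,
        CL.UniED.NN_even (by omega) even_two] at hy
      have hsq : q ^ 2 - 1 = (q + 1) * (q - 1) := by
        have := Nat.sq_sub_sq q 1
        simpa using this
      have h1 : 4 ≤ q ^ 2 := by nlinarith
      rcases h.2.2 y (by rw [hy, hsq]; exact Dvd.dvd.mul_left (by omega) _) with h' | h'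
      · left; nlinarith [show q ^ 2 = 4 by omega]
      · exfalso
        have h7 : q ^ 2 = 7 := by omega
        have : q < 3 := by nlinarith
        have : q = 2 := by omega
        subst this; norm_num at h7

end CL.ON3
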