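import Mathlib
import Cfsg.Agent.PERM.Ito

/-!
Finite projective planes with a collineation group: centres, axes, homologies and elations.
-/

set_option autoImplicit false

namespace CL.SymDes

open Finset MulAction Subgroup CL.MSS
open scoped Classical commutatorElement

theorem sum_ind_subtype {α : Type*} [Fintype α] (A : α → Prop) (P : α → Prop) :
    ∑ x : {x // A x}, ind (P x) = ∑ x, ind (A x ∧ P x) := by
  rw [sum_ind_card, sum_ind_card]
  exact congrArg _ (Nat.card_congr (Equiv.subtypeSubtypeEquivSubtypeInter A P))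

/-- Counting fixed points of a `p`-group on an invariant set. -/
theorem dvd_sub_fix {G α : Type*} [Group G] [MulAction G α] [Fintype α] {p : ℕ} [Fact p.Prime]
    {H : Subgroup G} (hH : IsPGroup p H) (P : α → Prop) (hP : ∀ h ∈ H, ∀ x, P x → P (h • x)) :
    (p : ℤ) ∣ ∑ x, ind (P x) - ∑ x, ind (P x ∧ ∀ h ∈ H, h • x = x) := by
  let S : SubMulAction H α := ⟨{x | P x}, fun h x hx => hP h h.2 x hx⟩
  have h := hH.card_modEq_card_fixedPoints S
  rw [sum_ind_card, sum_ind_card]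
  have e : Nat.card (fixedPoints H S) = Nat.card {x // P x ∧ ∀ h ∈ H, h • x = x} :=
    Nat.card_congr ⟨fun x => ⟨x.1.1, x.1.2, fun h hh => congrArg Subtype.val (x.2 ⟨h, hh⟩)⟩,
      fun x => ⟨⟨x.1, x.2.1⟩, fun h => Subtype.ext (x.2.2 h h.2)⟩, fun _ => rfl, fun _ => rfl⟩
  rw [← e]
  exact h.symm.dvd

/-- A finite projective plane with a faithful collineation group. -/
structure Pl (G Ω Y : Type*) [Group G] [Fintype Ω] [Fintype Y] [MulAction G Ω] [MulAction G Y]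
    extends Des Ω Y where
  l1 : l = 1
  k3 : 3 ≤ k
  hI : ∀ (g : G) x C, I (g • x) (g • C) ↔ I x C
  faith : ∀ g : G, (∀ x : Ω, g • x = x) → g = 1

namespace Pl

variable {G Ω Y : Type*} [Group G] [Fintype Ω] [Fintype Y] [MulAction G Ω] [MulAction G Y]
  (π : Pl G Ω Y)

/-- the dual plane -/
def dual : Pl G Y Ω where
  I C x := π.I x C
  k := π.k
  l := π.l
  hk := π.hr
  hr := π.hk
  hl := π.hm
  card := π.card.symm
  lt := π.lt
  l1 := π.l1
  k3 := π.k3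
  hI g C x := π.hI g x C
  faith g h := π.faith g fun x => imp_of_sum_ind_eq (P := fun x => g • x = x) (Q := fun _ => True)
    (fun _ _ => trivial) (by rw [← π.fix_eq π.hI]; simp [h, π.card]) x trivial

theorem card_eq (x : Ω) : (Fintype.card Ω : ℤ) = π.k * (π.k - 1) + 1 := by
  have := π.rel x
  rw [π.l1] at this
  linear_combination this

theorem smul_I (g : G) {x : Ω} {C : Y} (h : π.I x C) : π.I (g • x) (g • C) := (π.hI g x C).2 h

theorem exists_join {x y : Ω} (h : x ≠ y) : ∃ C, π.I x C ∧ π.I y C := by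
  obtain ⟨C, hC, -⟩ := exists_of_sum_ind_ne (P := fun C => π.I x C ∧ π.I y C) (Q := fun _ => False)
    (by rw [π.hl h, π.l1]; simp [ind])
  exact ⟨C, hC⟩

theorem exists_meet {B C : Y} (h : B ≠ C) : ∃ x, π.I x B ∧ π.I x C := π.dual.exists_join h

theorem join_eq {x y : Ω} {B C : Y} (h : x ≠ y) (h1 : π.I x B) (h2 : π.I y B) (h3 : π.I x C)
    (h4 : π.I y C) : B = C := by
  by_contra hne
  have := two_le_sum_ind (P := fun x => π.I x B ∧ π.I x C) h ⟨h1, h3⟩ ⟨h2, h4⟩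
  rw [π.hm hne, π.l1] at this
  omega

theorem meet_eq {x y : Ω} {B C : Y} (h : B ≠ C) (h1 : π.I x B) (h2 : π.I x C) (h3 : π.I y B)
    (h4 : π.I y C) : x = y := π.dual.join_eq h h1 h2 h3 h4

theorem fix_line {g : G} {x y : Ω} {C : Y} (h : x ≠ y) (hx : g • x = x) (hy : g • y = y)
    (h1 : π.I x C) (h2 : π.I y C) : g • C = C :=
  π.join_eq h (hx ▸ π.smul_I g h1) (hy ▸ π.smul_I g h2) h1 h2

theorem fix_pt {g : G} {x : Ω} {B C : Y} (h : B ≠ C) (hB : g • B = B) (hC : g • C = C)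
    (h1 : π.I x B) (h2 : π.I x C) : g • x = x := π.dual.fix_line h hB hC h1 h2

theorem exists_pt (C : Y) (x y : Ω) : ∃ z, π.I z C ∧ z ≠ x ∧ z ≠ y := by
  obtain ⟨z, h1, h2⟩ := exists_of_sum_ind_ne (P := fun z => π.I z C) (Q := fun z => z = x ∨ z = y)
    (by
      rw [π.hk]
      refine lt_of_le_of_lt (sum_le_sum (g := fun z => ind (z = x) + ind (z = y)) fun z _ => ?_) ?_
      · by_cases h1 : z = x
        · rw [ind_pos h1, ind_pos (Or.inl h1)]
          linarith [ind_nonneg (z = y)]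
        · simp [ind, h1]
      · rw [sum_add_distrib, sum_ind_eq', sum_ind_eq']
        linarith [π.k3])
  exact ⟨z, h1, not_or.1 h2⟩

theorem exists_line (x : Ω) (B C : Y) : ∃ E, π.I x E ∧ E ≠ B ∧ E ≠ C := π.dual.exists_pt x B C

/-- the collineations with axis `a` -/
def Ax (a : Y) : Subgroup G := π.toDes.K G a

/-- the collineations with centre `c` -/
def Cen (c : Ω) : Subgroup G := π.dual.Ax c

variable {π}

theorem mem_Ax {a : Y} {g : G} : g ∈ π.Ax a ↔ ∀ x, π.I x a → g • x = x := π.toDes.mem_K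

theorem mem_Cen {c : Ω} {g : G} : g ∈ π.Cen c ↔ ∀ C, π.I c C → g • C = C := mem_Ax

theorem Ax_pt {a : Y} {g : G} (h : g ∈ π.Ax a) {x : Ω} (hx : π.I x a) : g • x = x :=
  mem_Ax.1 h x hx

theorem Cen_line {c : Ω} {g : G} (h : g ∈ π.Cen c) {C : Y} (hC : π.I c C) : g • C = C :=
  mem_Cen.1 h C hC

theorem Ax_smul {a : Y} {g : G} (h : g ∈ π.Ax a) : g • a = a := π.toDes.K_smul π.hI h

theorem Cen_smul {c : Ω} {g : G} (h : g ∈ π.Cen c) : g • c = c := Ax_smul (π := π.dual) h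

theorem conj_Ax (t : G) {a : Y} {g : G} (h : g ∈ π.Ax a) : t * g * t⁻¹ ∈ π.Ax (t • a) :=
  π.toDes.conj_mem_K π.hI t h

theorem conj_Cen (t : G) {c : Ω} {g : G} (h : g ∈ π.Cen c) : t * g * t⁻¹ ∈ π.Cen (t • c) :=
  conj_Ax (π := π.dual) t h

theorem conj_Ax' {t : G} {a : Y} {g : G} (h : g ∈ π.Ax a) (ht : t • a = a) :
    t * g * t⁻¹ ∈ π.Ax a := by simpa [ht] using conj_Ax t h

theorem conj_Cen' {t : G} {c : Ω} {g : G} (h : g ∈ π.Cen c) (ht : t • c = c) :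
    t * g * t⁻¹ ∈ π.Cen c := conj_Ax' (π := π.dual) h ht

theorem eq_one_of_Ax {a b : Y} {g : G} (hab : a ≠ b) (ha : g ∈ π.Ax a) (hb : g ∈ π.Ax b) :
    g = 1 := by
  obtain ⟨c, hca, hcb⟩ := π.exists_meet hab
  obtain ⟨y, hy, hyc, -⟩ := π.exists_pt b c c
  obtain ⟨y', hy', hyc', hyy⟩ := π.exists_pt b c y
  exact π.faith g (π.toDes.fix_of_two π.hI (by linarith [π.k3]) (mem_Ax.1 ha) hyy
    (fun h => hyc' (π.meet_eq hab h hy' hca hcb)) (fun h => hyc (π.meet_eq hab h hy hca hcb))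
    (Ax_pt hb hy') (Ax_pt hb hy))

theorem eq_one_of_Cen {c d : Ω} {g : G} (h : c ≠ d) (hc : g ∈ π.Cen c) (hd : g ∈ π.Cen d) :
    g = 1 := eq_one_of_Ax (π := π.dual) h hc hd

theorem Ax_eq {a b : Y} {g : G} (h : g ≠ 1) (ha : g ∈ π.Ax a) (hb : g ∈ π.Ax b) : a = b :=
  by_contra fun e => h (eq_one_of_Ax e ha hb)

theorem Cen_eq {c d : Ω} {g : G} (h : g ≠ 1) (hc : g ∈ π.Cen c) (hd : g ∈ π.Cen d) : c = d :=
  Ax_eq (π := π.dual) h hc hd

theorem Cen_of_fix {a : Y} {g : G} (ha : g ∈ π.Ax a) {y : Ω} (hy : ¬ π.I y a) (e : g • y = y) :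
    g ∈ π.Cen y := mem_Cen.2 fun C hC => by
  obtain ⟨z, h1, h2⟩ := π.exists_meet (B := C) (C := a) (by rintro rfl; exact hy hC)
  exact π.fix_line (by rintro rfl; exact hy h2) e (Ax_pt ha h2) hC h1

theorem pt_of_fix {a : Y} {c : Ω} {g : G} (h : g ≠ 1) (hc : g ∈ π.Cen c) (ha : g ∈ π.Ax a) {y : Ω}
    (e : g • y = y) : y = c ∨ π.I y a :=
  or_iff_not_imp_right.2 fun hy => Cen_eq h (Cen_of_fix ha hy e) hc

theorem line_of_fix {a : Y} {c : Ω} {g : G} (h : g ≠ 1) (hc : g ∈ π.Cen c) (ha : g ∈ π.Ax a)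
    {C : Y} (e : g • C = C) : C = a ∨ π.I c C := pt_of_fix (π := π.dual) h ha hc e

theorem exists_Cen {a : Y} {g : G} (ha : g ∈ π.Ax a) : ∃ c, g ∈ π.Cen c := by
  by_contra hc
  have h1 : ∀ y, g • y = y ↔ π.I y a := fun y =>
    ⟨fun e => by_contra fun hy => hc ⟨y, Cen_of_fix ha hy e⟩, Ax_pt ha⟩
  have h2 : ∑ C : Y, ind (g • C = C) = π.k := by simp only [π.fix_eq π.hI, h1, π.hk]
  obtain ⟨B, hB, hBa⟩ := exists_of_sum_ind_ne (P := fun C => g • C = C) (Q := fun C => C = a)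
    (by rw [h2, sum_ind_eq']; linarith [π.k3])
  obtain ⟨c, hcB, hca⟩ := π.exists_meet hBa
  refine hc ⟨c, mem_Cen.2 (imp_of_sum_ind_eq (fun C hC => ?_) (h2.trans (π.hr c).symm))⟩
  by_contra hcC
  obtain ⟨y, h3, h4⟩ := π.exists_meet (B := B) (C := C) (by rintro rfl; exact hcC hcB)
  have := (h1 y).1 (π.fix_pt (by rintro rfl; exact hcC hcB) hB hC h3 h4)
  exact hcC (π.meet_eq hBa h3 this hcB hca ▸ h4)

theorem exists_Ax {c : Ω} {g : G} (hc : g ∈ π.Cen c) : ∃ a, g ∈ π.Ax a :=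
  exists_Cen (π := π.dual) hc

variable (π)

/-- `g` is an involutory homology with centre `c` and axis `a`. -/
structure Hom (g : G) (c : Ω) (a : Y) : Prop where
  ne : g ≠ 1
  sq : g * g = 1
  cen : g ∈ π.Cen c
  ax : g ∈ π.Ax a
  nI : ¬ π.I c a

/-- `g` is a non-trivial elation with centre `c` and axis `a`. -/
structure El (g : G) (c : Ω) (a : Y) : Prop where
  ne : g ≠ 1
  cen : g ∈ π.Cen c
  ax : g ∈ π.Ax a
  I : π.I c a

variable {π}

theorem Hom.dual {g : G} {c : Ω} {a : Y} (h : π.Hom g c a) : π.dual.Hom g a c :=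
  ⟨h.ne, h.sq, h.ax, h.cen, h.nI⟩

theorem El.dual {g : G} {c : Ω} {a : Y} (h : π.El g c a) : π.dual.El g a c :=
  ⟨h.ne, h.ax, h.cen, h.I⟩

theorem Hom.conj (t : G) {g : G} {c : Ω} {a : Y} (h : π.Hom g c a) :
    π.Hom (t * g * t⁻¹) (t • c) (t • a) :=
  ⟨by simpa using h.ne, by rw [conj_mul, h.sq]; simp, conj_Cen t h.cen, conj_Ax t h.ax,
    by rw [π.hI]; exact h.nI⟩

theorem El.conj (t : G) {g : G} {c : Ω} {a : Y} (h : π.El g c a) :
    π.El (t * g * t⁻¹) (t • c) (t • a) :=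
  ⟨by simpa using h.ne, conj_Cen t h.cen, conj_Ax t h.ax, π.smul_I t h.I⟩

theorem Hom.smul_smul {g : G} {c : Ω} {a : Y} (h : π.Hom g c a) (x : Ω) : g • g • x = x := by
  rw [← mul_smul, h.sq, one_smul]

theorem Hom.inv_eq {g : G} {c : Ω} {a : Y} (h : π.Hom g c a) : g⁻¹ = g :=
  inv_eq_of_mul_eq_one_right h.sq

/-- Ostrom's lemma on commuting homologies. -/
theorem Hom.ostrom {σ τ : G} {A B : Ω} {a b l : Y} (h1 : π.Hom σ A a) (h2 : π.Hom τ B b)
    (hA : π.I A b) (hB : π.I B a) (hAl : π.I A l) (hBl : π.I B l) : ∃ C, π.Hom (σ * τ) C l := by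
  have hAB : A ≠ B := by rintro rfl; exact h1.nI hB
  have hab : a ≠ b := by rintro rfl; exact h1.nI hA
  obtain ⟨C, hCa, hCb⟩ := π.exists_meet hab
  have hc : σ * τ = τ * σ := by
    refine commutatorElement_eq_one_iff_mul_comm.1 (eq_one_of_Ax hab ?_
      (mul_mem (conj_Ax' h2.ax (Cen_line h1.cen hA)) (inv_mem h2.ax)))
    rw [← commutatorElement_inv]
    exact inv_mem (mul_mem (conj_Ax' h1.ax (Cen_line h2.cen hB)) (inv_mem h1.ax))
  have hsq : σ * τ * (σ * τ) = 1 := by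
    rw [← mul_assoc, mul_assoc σ, ← hc, ← mul_assoc, h1.sq, one_mul, h2.sq]
  have hCl : ¬ π.I C l := fun h => h1.nI (π.join_eq (x := C) (y := B)
    (by rintro rfl; exact h2.nI hCb) h hBl hCa hB ▸ hAl)
  have hC : (σ * τ) • C = C := by rw [mul_smul, Ax_pt h2.ax hCb, Ax_pt h1.ax hCa]
  have hl : (σ * τ) • l = l := by rw [mul_smul, Cen_line h2.cen hBl, Cen_line h1.cen hAl]
  have h3 : ∀ N, (σ * τ) • N = N → ¬ π.I C N → N = l := by
    intro N hN hCN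
    have hNa : N ≠ a := by rintro rfl; exact hCN hCa
    have hNb : N ≠ b := by rintro rfl; exact hCN hCb
    obtain ⟨u, hu, hua⟩ := π.exists_meet hNa
    obtain ⟨v, hv, hvb⟩ := π.exists_meet hNb
    have e1 := π.fix_pt hNa hN (by rw [mul_smul, Cen_line h2.cen hB, Ax_smul h1.ax]) hu hua
    have e2 := π.fix_pt hNb hN (by rw [mul_smul, Ax_smul h2.ax, Cen_line h1.cen hA]) hv hvb
    rw [hc, mul_smul, Ax_pt h1.ax hua] at e1
    rw [mul_smul, Ax_pt h2.ax hvb] at e2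
    obtain rfl := (pt_of_fix h2.ne h2.cen h2.ax e1).resolve_right
      fun h => hCN (π.meet_eq hab hua h hCa hCb ▸ hu)
    obtain rfl := (pt_of_fix h1.ne h1.cen h1.ax e2).resolve_right
      fun h => hCN (π.meet_eq hab h hvb hCa hCb ▸ hv)
    exact π.join_eq hAB hv hu hAl hBl
  have h4 : σ * τ ∈ π.Ax l := mem_Ax.2 fun y hy => by
    have hCy : C ≠ y := by rintro rfl; exact hCl hy
    obtain ⟨M, hCM, hyM⟩ := π.exists_join hCy
    have hMl : M ≠ l := by rintro rfl; exact hCl hCM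
    obtain ⟨x, hx, hxC, hxy⟩ := π.exists_pt M C y
    refine π.fix_pt hMl ?_ hl hyM hy
    by_cases e : (σ * τ) • x = x
    · exact π.fix_line hxC e hC hx hCM
    obtain ⟨N, hN1, hN2⟩ := π.exists_join (Ne.symm e)
    have hN : (σ * τ) • N = N := π.join_eq (Ne.symm e) (by
      simpa only [← mul_smul, hsq, one_smul] using π.smul_I (σ * τ) hN2) (π.smul_I _ hN1) hN1 hN2
    rwa [π.join_eq hxC hx hCM hN1 (by_contra fun h =>
      hxy (π.meet_eq hMl hx (h3 N hN h ▸ hN1) hyM hy))]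
  refine ⟨C, fun e => h1.ne (eq_one_of_Cen hAB h1.cen ?_), hsq, Cen_of_fix h4 hCl hC, h4, hCl⟩
  rw [eq_inv_of_mul_eq_one_left e]
  exact inv_mem h2.cen

/-- If any two points are fixed by an involutory homology, every line is an axis. -/
theorem exists_Hom_axis
    (h : ∀ x y : Ω, x ≠ y → ∃ g c a, π.Hom g c a ∧ g • x = x ∧ g • y = y) (l : Y) :
    ∃ g c, π.Hom g c l := by
  by_contra hc
  have h1 : ∀ x y, x ≠ y → π.I x l → π.I y l →
      (∃ g a, π.Hom g x a ∧ π.I y a) ∨ ∃ g a, π.Hom g y a ∧ π.I x a := by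
    intro x y hxy hx hy
    obtain ⟨g, c, a, hg, e1, e2⟩ := h x y hxy
    rcases pt_of_fix hg.ne hg.cen hg.ax e1 with rfl | h2 <;>
      rcases pt_of_fix hg.ne hg.cen hg.ax e2 with rfl | h3
    · exact absurd rfl hxy
    · exact Or.inl ⟨g, a, hg, h3⟩
    · exact Or.inr ⟨g, a, hg, h2⟩
    · exact absurd ⟨g, c, π.join_eq hxy h2 h3 hx hy ▸ hg⟩ hc
  obtain ⟨x, y, hx, hy, g, a, hg, hya⟩ : ∃ x y, π.I x l ∧ π.I y l ∧ ∃ g a, π.Hom g x a ∧ π.I y a := by
    obtain ⟨x0⟩ : Nonempty Ω := Fintype.card_pos_iff.1 (π.card ▸ Fintype.card_pos_iff.2 ⟨l⟩)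
    obtain ⟨x, hx, -⟩ := π.exists_pt l x0 x0
    obtain ⟨y, hy, hyx, -⟩ := π.exists_pt l x x
    exact (h1 y x hyx hy hx).elim (fun h => ⟨y, x, hy, hx, h⟩) fun h => ⟨x, y, hx, hy, h⟩
  obtain ⟨z, hz, hzx, hzy⟩ := π.exists_pt l x y
  have hgz : g • z ≠ z := fun e => (pt_of_fix hg.ne hg.cen hg.ax e).elim hzx fun h =>
    hzy (π.meet_eq (B := a) (C := l) (by rintro rfl; exact hg.nI hx) h hz hya hy)
  have hgl : π.I (g • z) l := Cen_line hg.cen hx ▸ π.smul_I g hz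
  rcases h1 _ _ hgz hgl hz with ⟨t, b, ht, hb⟩ | ⟨t, b, ht, hb⟩
  · have := ht.conj g
    rw [hg.smul_smul] at this
    exact hc ⟨_, ht.ostrom this (π.smul_I g hb) hb hgl hz⟩
  · exact hc ⟨_, ht.ostrom (ht.conj g) (by simpa [hg.smul_smul] using π.smul_I g hb) hb hz hgl⟩

/-- The product of two homologies with the same axis is an elation. -/
theorem Hom.el {g h : G} {P Q : Ω} {a N : Y} (h1 : π.Hom g P a) (h2 : π.Hom h Q a) (hPQ : P ≠ Q)
    (hP : π.I P N) (hQ : π.I Q N) : ∃ c, π.El (g * h) c a ∧ π.I c N := by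
  have ha := mul_mem h1.ax h2.ax
  have hne : g * h ≠ 1 := fun e => h1.ne (eq_one_of_Cen hPQ h1.cen (by
    rw [eq_inv_of_mul_eq_one_left e]; exact inv_mem h2.cen))
  obtain ⟨c, hc⟩ := exists_Cen ha
  refine ⟨c, ⟨hne, hc, ha, by_contra fun hca => hPQ ?_⟩, (line_of_fix hne hc ha (by
    rw [mul_smul, Cen_line h2.cen hQ, Cen_line h1.cen hP])).resolve_left
      (by rintro rfl; exact h1.nI hP)⟩
  have e1 : g • c = c := Cen_eq hne (by
    have := inv_mem (conj_Cen g hc)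
    rwa [← mul_assoc, h1.sq, one_mul, mul_inv_rev, inv_inv, h2.inv_eq] at this) hc
  have e2 : h • c = c := Cen_eq hne (by
    have := inv_mem (conj_Cen h hc)
    rwa [mul_assoc, mul_inv_cancel_right, mul_inv_rev, h1.inv_eq, h2.inv_eq] at this) hc
  rw [← (pt_of_fix h1.ne h1.cen h1.ax e1).resolve_right hca,
    (pt_of_fix h2.ne h2.cen h2.ax e2).resolve_right hca]

variable (π) in
/-- the elations with centre `c` -/
def EC (c : Ω) : Subgroup G where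
  carrier := {g | g ∈ π.Cen c ∧ ∃ a, π.I c a ∧ g ∈ π.Ax a}
  one_mem' := by
    obtain ⟨a0⟩ : Nonempty Y := Fintype.card_pos_iff.1 (π.card ▸ Fintype.card_pos_iff.2 ⟨c⟩)
    obtain ⟨a, ha, -⟩ := π.exists_line c a0 a0
    exact ⟨one_mem _, a, ha, one_mem _⟩
  inv_mem' := fun ⟨h, a, ha, h'⟩ => ⟨inv_mem h, a, ha, inv_mem h'⟩
  mul_mem' := by
    rintro g h ⟨hg, b, hb, hgb⟩ ⟨hh, b', hb', hhb⟩
    refine ⟨mul_mem hg hh, ?_⟩
    by_cases hg1 : g = 1
    · exact ⟨b', hb', by rwa [hg1, one_mul]⟩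
    by_cases e : b = b'
    · exact ⟨b, hb, mul_mem hgb (e ▸ hhb)⟩
    obtain ⟨a, ha⟩ := exists_Ax (mul_mem hg hh)
    refine ⟨a, by_contra fun hca => ?_, ha⟩
    obtain ⟨y, h1, h2⟩ := π.exists_meet (B := a) (C := b') (by rintro rfl; exact hca hb')
    have := Ax_pt ha h1
    rw [mul_smul, Ax_pt hhb h2] at this
    exact hca ((pt_of_fix hg1 hg hgb this).elim id (fun h => π.meet_eq e h h2 hb hb') ▸ h1)

theorem El.mem_EC {g : G} {c : Ω} {a : Y} (h : π.El g c a) : g ∈ π.EC c := ⟨h.cen, a, h.I, h.ax⟩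

theorem conj_EC (t : G) {c : Ω} {g : G} (h : g ∈ π.EC c) : t * g * t⁻¹ ∈ π.EC (t • c) :=
  let ⟨h1, a, h2, h3⟩ := h
  ⟨conj_Cen t h1, t • a, π.smul_I t h2, conj_Ax t h3⟩

theorem EC_comm {c : Ω} {a b : Y} {e e' : G} (h1 : π.El e c a) (h2 : π.El e' c b) (hab : a ≠ b)
    {g h : G} (hg : g ∈ π.EC c) (hh : h ∈ π.EC c) : g * h = h * g := by
  have key : ∀ {g h : G} {a b : Y}, a ≠ b → g ∈ π.Cen c → h ∈ π.Cen c → π.I c a → π.I c b →
      g ∈ π.Ax a → h ∈ π.Ax b → g * h = h * g := by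
    intro g h a b hab hg hh ha hb hga hhb
    refine commutatorElement_eq_one_iff_mul_comm.1 (eq_one_of_Ax hab ?_
      (mul_mem (conj_Ax' hhb (Cen_line hg hb)) (inv_mem hhb)))
    rw [← commutatorElement_inv]
    exact inv_mem (mul_mem (conj_Ax' hga (Cen_line hh ha)) (inv_mem hga))
  obtain ⟨hg, d, hd, hgd⟩ := hg
  obtain ⟨hh', d', hd', hhd⟩ := id hh
  by_cases e1 : d = d'
  swap
  · exact key e1 hg hh' hd hd' hgd hhd
  subst e1
  obtain ⟨k, f, hk, hf⟩ : ∃ k f, π.El k c f ∧ d ≠ f := by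
    by_cases e1 : d = a
    · exact ⟨e', b, h2, e1 ▸ hab⟩
    · exact ⟨e, a, h1, e1⟩
  obtain ⟨h3, u, hu, h4⟩ := mul_mem hh hk.mem_EC
  have e1 := key hf hg hk.cen hd hk.I hgd hk.ax
  have e2 := key (b := u) (by
    rintro rfl
    exact hk.ne (eq_one_of_Ax hf ((mul_mem_cancel_left hhd).1 h4) hk.ax)) hg h3 hd hu hgd h4
  rw [mul_assoc, ← e1, ← mul_assoc, ← mul_assoc] at e2
  exact mul_right_cancel e2

theorem EC_pow [Finite G] {c : Ω} {a b : Y} {e e' : G} (h1 : π.El e c a) (h2 : π.El e' c b)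
    (hab : a ≠ b) : ∃ p : ℕ, p.Prime ∧ ∀ g ∈ π.EC c, g ^ p = 1 := by
  have key : ∀ {p : ℕ} {g h : G} {a b : Y}, π.El g c a → g ^ p = 1 → h ∈ π.Cen c → π.I c b →
      h ∈ π.Ax b → a ≠ b → h ^ p = 1 := by
    intro p g h a b hg hp hh hb hhb hab
    have hh' : h ∈ π.EC c := ⟨hh, b, hb, hhb⟩
    obtain ⟨-, u, -, h4⟩ := mul_mem hg.mem_EC hh'
    refine eq_one_of_Ax (a := u) (b := b) ?_ ?_ (pow_mem hhb p)
    · rintro rfl
      exact hg.ne (eq_one_of_Ax hab hg.ax ((mul_mem_cancel_right hhb).1 h4))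
    · have := pow_mem h4 p
      rwa [Commute.mul_pow (EC_comm h1 h2 ‹_› hg.mem_EC hh'), hp, one_mul] at this
  obtain ⟨p, hp, hd⟩ := Nat.exists_prime_and_dvd (mt orderOf_eq_one_iff.1 h1.ne)
  have h3 : π.El (e ^ (orderOf e / p)) c a := ⟨pow_ne_one_of_lt_orderOf
    (Nat.div_pos (Nat.le_of_dvd (orderOf_pos e) hd) hp.pos).ne'
    (Nat.div_lt_self (orderOf_pos e) hp.one_lt), pow_mem h1.cen _, pow_mem h1.ax _, h1.I⟩
  have h4 : (e ^ (orderOf e / p)) ^ p = 1 := by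
    rw [← pow_mul, Nat.div_mul_cancel hd, pow_orderOf_eq_one]
  refine ⟨p, hp, fun g ⟨hg, d, hd, hgd⟩ => ?_⟩
  by_cases e1 : a = d
  · exact key h2 (key h3 h4 h2.cen h2.I h2.ax hab) hg hd hgd (e1 ▸ hab.symm)
  · exact key h3 h4 hg hd hgd e1

end Pl

end CL.SymDes
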