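import Mathlib
import Cfsg.Agent.PERM.Plane1

/-!
A finite projective plane of odd order with many involutory homologies has prime power order.
-/

set_option autoImplicit false

namespace CL.SymDes

open Finset MulAction Subgroup CL.MSS
open scoped Classical commutatorElement

namespace Pl

variable {G Ω Y : Type*} [Group G] [Fintype Ω] [Fintype Y] [MulAction G Ω] [MulAction G Y]
  {π : Pl G Ω Y}

theorem dvd_sub_fix_two {α : Type*} [Fintype α] [MulAction G α] {g : G} (hg : g * g = 1)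
    (P : α → Prop) (hP : ∀ x, P x → P (g • x)) :
    (2 : ℤ) ∣ ∑ x, ind (P x) - ∑ x, ind (P x ∧ g • x = x) := by
  have h := dvd_sub_fix (p := 2) (H := zpowers g) (isPGroup_zpowers (k := 1) (by rw [pow_one, sq, hg]))
    P (by
      rintro _ ⟨n, rfl⟩ x hx
      rcases Int.even_or_odd' n with ⟨m, rfl | rfl⟩
      · simpa [zpow_mul, zpow_ofNat, sq, hg] using hx
      · simpa [zpow_add, zpow_mul, zpow_ofNat, sq, hg] using hP x hx)
  have e : ∀ x : α, (∀ h ∈ zpowers g, h • x = x) ↔ g • x = x := fun x =>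
    ⟨fun e => e g (mem_zpowers g), fun e k hk => zpowers_le.2 (show g ∈ stabilizer G x from e) hk⟩
  simpa only [e, Nat.cast_ofNat] using h

theorem sum_line_sub (l : Y) {x : Ω} (hx : π.I x l) : ∑ y, ind (π.I y l ∧ y ≠ x) = π.k - 1 := by
  rw [← π.hk l, ← sum_ind_eq' x, ← sum_sub_distrib]
  refine sum_congr rfl fun y _ => ?_
  by_cases h : y = x <;> simp [ind, h, hx]

theorem El.even {e : G} {c : Ω} {b : Y} (h : π.El e c b) (h2 : e * e = 1) : 2 ∣ π.k - 1 := by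
  obtain ⟨l, hl, hlb, -⟩ := π.exists_line c b b
  have := dvd_sub_fix_two h2 (fun y => π.I y l ∧ y ≠ c) fun y hy =>
    ⟨Cen_line h.cen hl ▸ π.smul_I e hy.1, fun e' => hy.2 (MulAction.injective e
      (e'.trans (Cen_smul h.cen).symm))⟩
  rwa [sum_line_sub l hl, sum_eq_zero fun y _ => ind_neg fun hy => hy.1.2
    ((pt_of_fix h.ne h.cen h.ax hy.2).elim id fun h' => π.meet_eq hlb hy.1.1 h' hl h.I),
    sub_zero] at this

theorem Hom.odd {g : G} {c : Ω} {a : Y} (h : π.Hom g c a) : 2 ∣ π.k := by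
  obtain ⟨l, hl, -⟩ := π.exists_line c a a
  have hla : l ≠ a := by rintro rfl; exact h.nI hl
  obtain ⟨z, hz, hza⟩ := π.exists_meet hla
  have := dvd_sub_fix_two h.sq (fun y => π.I y l ∧ y ≠ c) fun y hy =>
    ⟨Cen_line h.cen hl ▸ π.smul_I g hy.1, fun e' => hy.2 (MulAction.injective g
      (e'.trans (Cen_smul h.cen).symm))⟩
  rw [sum_line_sub l hl, sum_congr rfl (g := fun y => ind (y = z)) fun y _ => congrArg ind (propext
    ⟨fun hy => π.meet_eq hla hy.1.1 ((pt_of_fix h.ne h.cen h.ax hy.2).resolve_left hy.1.2) hz hza,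
      by rintro rfl; exact ⟨⟨hz, by rintro rfl; exact h.nI hza⟩, Ax_pt h.ax hza⟩⟩),
    sum_ind_eq'] at this
  omega

theorem pow_of_two_axes [Finite G] (hall : ∀ l, ∃ g c, π.Hom g c l) {Q : Ω} {a0 b0 : Y} {e e' : G}
    (h1 : π.El e Q a0) (h2 : π.El e' Q b0) (hab : a0 ≠ b0) :
    ∃ p j : ℕ, p.Prime ∧ π.k - 1 = p ^ j := by
  have := Fintype.ofFinite G
  obtain ⟨p, hp, hpow⟩ := EC_pow h1 h2 hab
  have := Fact.mk hp
  have hc : ∀ {g h : G}, g ∈ π.EC Q → h ∈ π.EC Q → g * h = h * g := EC_comm h1 h2 hab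
  have hsq : ∀ g ∈ π.EC Q, g * g = 1 → g = 1 := by
    rintro g ⟨hg, a, ha, hga⟩ h
    by_contra h3
    obtain ⟨t, c, ht⟩ := hall a
    have := El.even ⟨h3, hg, hga, ha⟩ h
    have := ht.odd
    omega
  have hdec : ∀ a, π.I Q a → ∃ b, π.I Q b ∧ ∀ g ∈ π.EC Q, ∃ u ∈ π.EC Q ⊓ π.Ax a,
      ∃ v ∈ π.EC Q ⊓ π.Ax b, u * v = g := by
    intro a ha
    obtain ⟨t, P, ht⟩ := hall a
    have hPQ : P ≠ Q := by rintro rfl; exact ht.nI ha
    obtain ⟨b, hPb, hQb⟩ := π.exists_join hPQ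
    have htE : ∀ g ∈ π.EC Q, t * g * t⁻¹ ∈ π.EC Q := fun g hg => by
      simpa [Ax_pt ht.ax ha] using conj_EC t hg
    refine ⟨b, hQb, fun g hg => ?_⟩
    obtain ⟨f, hf, rfl⟩ : ∃ f ∈ π.EC Q, f * f = g := by
      have : Function.Injective fun f : π.EC Q => f * f := fun f f' e => by
        have e' : (f : G) * f = f' * f' := congrArg Subtype.val e
        refine Subtype.ext (mul_inv_eq_one.1 (hsq _ (mul_mem f.2 (inv_mem f'.2)) ?_))
        rw [mul_assoc, ← mul_assoc (f' : G)⁻¹, hc (inv_mem f'.2) f.2, ← mul_assoc, ← mul_assoc, e']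
        group
      obtain ⟨f, hf⟩ := Finite.surjective_of_injective this ⟨g, hg⟩
      exact ⟨f, f.2, congrArg Subtype.val hf⟩
    have hf' := htE f hf
    have htt : t * (t * f * t⁻¹) * t⁻¹ = f := by
      rw [ht.inv_eq, ← mul_assoc, ← mul_assoc, ht.sq, one_mul, mul_assoc, ht.sq, mul_one]
    refine ⟨_, mem_inf.2 ⟨mul_mem hf (inv_mem hf'), ?_⟩, _, mem_inf.2 ⟨mul_mem hf hf', ?_⟩, by
      rw [hc hf hf']; group⟩
    · have hu := mul_mem hf (inv_mem hf')
      have hi : t * (f * (t * f * t⁻¹)⁻¹) * t⁻¹ = (f * (t * f * t⁻¹)⁻¹)⁻¹ := by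
        rw [← conj_mul, ← conj_inv (a := t * f * t⁻¹), htt]
        group
      generalize f * (t * f * t⁻¹)⁻¹ = u at hu hi
      obtain ⟨h3, d, hd, h4⟩ := id hu
      by_cases hu1 : u = 1
      · exact hu1 ▸ one_mem _
      have h5 : t • d = d := Ax_eq hu1 (by simpa [hi] using conj_Ax t h4) h4
      rcases line_of_fix ht.ne ht.cen ht.ax h5 with rfl | h6
      · exact h4
      have h7 : u * u = (u * t * u⁻¹) * t⁻¹ := by
        rw [mul_assoc, mul_assoc, ← mul_assoc t, conj_inv.symm.trans (congrArg _ hi), inv_inv]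
      refine absurd (hsq u hu (eq_one_of_Cen hPQ ?_ (mul_mem h3 h3))) hu1
      rw [h7]
      exact mul_mem (conj_Cen' ht.cen (Ax_pt h4 h6)) (inv_mem ht.cen)
    · have hu := mul_mem hf hf'
      have hi : t * (f * (t * f * t⁻¹)) * t⁻¹ = f * (t * f * t⁻¹) := by
        rw [← conj_mul, htt, hc hf hf']
      generalize f * (t * f * t⁻¹) = u at hu hi
      obtain ⟨h3, d, hd, h4⟩ := hu
      by_cases hu1 : u = 1
      · exact hu1 ▸ one_mem _
      have h5 : u • P = P := Cen_eq ht.ne (by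
        have := conj_Cen u ht.cen
        rwa [← mul_inv_eq_iff_eq_mul.1 hi, mul_inv_cancel_right] at this) ht.cen
      exact π.join_eq hPQ ((pt_of_fix hu1 h3 h4 h5).resolve_left hPQ) hd hPb hQb ▸ h4
  let h : Y → ℕ := fun a => Nat.card (π.EC Q ⊓ π.Ax a : Subgroup G)
  have i1 : ∀ a, π.I Q a → ∃ b, π.I Q b ∧ Nat.card (π.EC Q) ≤ h a * h b := by
    intro a ha
    obtain ⟨b, hb, hs⟩ := hdec a ha
    refine ⟨b, hb, (Nat.card_le_card_of_surjective (fun x : (π.EC Q ⊓ π.Ax a : Subgroup G) ×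
      (π.EC Q ⊓ π.Ax b : Subgroup G) => (⟨x.1 * x.2, mul_mem x.1.2.1 x.2.2.1⟩ : π.EC Q))
      fun g => ?_).trans_eq (Nat.card_prod _ _)⟩
    obtain ⟨u, hu, v, hv, e⟩ := hs g g.2
    exact ⟨(⟨u, hu⟩, ⟨v, hv⟩), Subtype.ext e⟩
  have i2 : ∀ a b, a ≠ b → h a * h b ≤ Nat.card (π.EC Q) := by
    intro a b hab
    refine (Nat.card_prod _ _).ge.trans (Nat.card_le_card_of_injective
      (fun x : (π.EC Q ⊓ π.Ax a : Subgroup G) × (π.EC Q ⊓ π.Ax b : Subgroup G) =>
        (⟨x.1 * x.2, mul_mem x.1.2.1 x.2.2.1⟩ : π.EC Q)) fun x y e => ?_)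
    have e' : (x.1 : G) * x.2 = y.1 * y.2 := congrArg Subtype.val e
    have e1 : (y.1 : G)⁻¹ * x.1 = y.2 * (x.2 : G)⁻¹ := by
      rw [inv_mul_eq_iff_eq_mul, ← mul_assoc, ← e', mul_inv_cancel_right]
    have e2 := eq_one_of_Ax hab (mul_mem (inv_mem y.1.2.2) x.1.2.2)
      (e1 ▸ mul_mem y.2.2.2 (inv_mem x.2.2.2))
    exact Prod.ext (Subtype.ext (inv_mul_eq_one.1 e2).symm)
      (Subtype.ext (mul_inv_eq_one.1 (e1 ▸ e2)).symm)
  have i3 : (Nat.card (π.EC Q) : ℤ) - 1 = ∑ a, ind (π.I Q a) * (h a - 1) := by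
    have e1 : ∀ H : Subgroup G, (Nat.card H : ℤ) - 1 = ∑ g, ind (g ∈ H ∧ g ≠ 1) := fun H => by
      rw [← sum_ind_card (· ∈ H), ← sum_ind_eq' (1 : G), ← sum_sub_distrib]
      refine sum_congr rfl fun g _ => ?_
      by_cases hg : g = 1 <;> simp [ind, hg]
    simp only [h, e1, mul_sum, ← ind_and]
    rw [sum_comm]
    refine sum_congr rfl fun g _ => ?_
    by_cases hg : g ∈ π.EC Q ∧ g ≠ 1
    · obtain ⟨⟨h3, d, hd, h4⟩, hg1⟩ := id hg
      rw [ind_pos hg, ← sum_ind_eq' d]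
      exact sum_congr rfl fun a _ => congrArg ind (propext ⟨by
        rintro rfl; exact ⟨hd, ⟨hg.1, h4⟩, hg1⟩, fun ha => Ax_eq hg1 ha.2.1.2 h4⟩)
    · rw [ind_neg hg, sum_eq_zero fun a _ => ind_neg fun ha => hg ⟨ha.2.1.1, ha.2.2⟩]
  obtain ⟨m, hm, hmax⟩ := exists_max_image (univ.filter (π.I Q)) h ⟨a0, by simpa using h1.I⟩
  simp only [mem_filter, mem_univ, true_and] at hm hmax
  have i4 : ∀ a, π.I Q a → a ≠ m → h a * h m = Nat.card (π.EC Q) := fun a ha ham => by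
    obtain ⟨b, hb, e⟩ := i1 a ha
    exact le_antisymm (i2 a m ham) (e.trans (Nat.mul_le_mul_left _ (hmax b hb)))
  obtain ⟨a1, f, hf, ha1⟩ : ∃ a1 f, π.El f Q a1 ∧ a1 ≠ m := by
    by_cases e1 : a0 = m
    · exact ⟨b0, e', h2, e1 ▸ hab.symm⟩
    · exact ⟨a0, e, h1, e1⟩
  have i5 : 1 < h a1 := (one_lt_card_iff_ne_bot _).2 fun e =>
    hf.ne (mem_bot.1 (e.le ⟨hf.mem_EC, hf.ax⟩))
  have i6 : ∀ a, π.I Q a → a ≠ m → h a = h a1 := fun a ha ham =>
    Nat.eq_of_mul_eq_mul_right Nat.card_pos ((i4 a ha ham).trans (i4 a1 hf.I ha1).symm)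
  have i7 : ∑ a, ind (π.I Q a) * ((h a : ℤ) - 1) = π.k * (h a1 - 1) + (h m - h a1) := by
    rw [← π.hr Q, ← sum_ind_eq m fun _ => (h m : ℤ) - h a1, sum_mul, ← sum_add_distrib]
    refine sum_congr rfl fun a _ => ?_
    by_cases ham : a = m
    · simp [ham, ind_pos hm, ind_pos]
    by_cases ha : π.I Q a
    · simp [ind_neg ham, i6 a ha ham]
    · simp [ind_neg ham, ind_neg ha]
  obtain ⟨j, hj⟩ := IsPGroup.iff_card.1 (show IsPGroup p (π.EC Q ⊓ π.Ax m : Subgroup G) from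
    fun g => ⟨1, Subtype.ext (by simpa using hpow g g.2.1)⟩)
  refine ⟨p, j, hp, ?_⟩
  rw [← Nat.cast_pow, ← hj]
  rw [i7, ← i4 a1 hf.I ha1, Nat.cast_mul] at i3
  refine mul_left_cancel₀ (a := (h a1 : ℤ) - 1) (by omega) ?_
  linear_combination -i3

theorem unique_center (hc : ∀ x, ∃ g a, π.Hom g x a)
    (u1 : ∀ {e e' c a b}, π.El e c a → π.El e' c b → a = b)
    (u2 : ∀ {e e' c d a}, π.El e c a → π.El e' d a → c = d) {g h : G} {P Q : Ω} {a : Y}
    (h1 : π.Hom g P a) (h2 : π.Hom h Q a) : P = Q := by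
  by_contra hPQ
  obtain ⟨N, hP, hQ⟩ := π.exists_join hPQ
  obtain ⟨c, he, hcN⟩ := h1.el h2 hPQ hP hQ
  have key : ∀ x, π.I x a → x ≠ c → ∃ t, π.Hom t x N := by
    intro x hx hxc
    obtain ⟨t, b, ht⟩ := hc x
    have h3 : ∀ {t' b'}, π.Hom t' x b' → b' = b := by
      intro t' b' ht'
      by_contra hb
      obtain ⟨z, hz, hz'⟩ := π.exists_meet hb
      obtain ⟨d, hd, -⟩ := ht'.dual.el ht.dual hb hz hz'
      have hd' : π.El (t' * t) x d := hd.dual
      have h4 := he.conj (t' * t)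
      rw [Cen_line hd'.cen hx] at h4
      exact hxc (u2 hd' (π.join_eq hxc hd'.I ((pt_of_fix hd'.ne hd'.cen hd'.ax
        (u2 h4 he)).resolve_left (Ne.symm hxc)) hx he.I ▸ he))
    have h4 : ∀ {g P}, π.Hom g P a → π.I P b := fun {g P} hg => by
      have := ht.conj g
      rw [Ax_pt hg.ax hx] at this
      exact (line_of_fix hg.ne hg.cen hg.ax (h3 this)).resolve_left (by rintro rfl; exact ht.nI hx)
    exact ⟨t, π.join_eq hPQ (h4 h1) (h4 h2) hP hQ ▸ ht⟩
  obtain ⟨x, hx, hxc, -⟩ := π.exists_pt a c c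
  obtain ⟨y, hy, hyc, hyx⟩ := π.exists_pt a c x
  obtain ⟨t, ht⟩ := key x hx hxc
  obtain ⟨s, hs⟩ := key y hy hyc
  obtain ⟨d, hd, hda⟩ := hs.el ht hyx hy hx
  have hNa : N ≠ a := by rintro rfl; exact h1.nI hP
  exact hNa (u1 (π.meet_eq hNa hd.I hda hcN he.I ▸ hd) he)

theorem no_polarity (x0 : Ω) (ax : Ω → Y) (h0 : ∀ x, ¬ π.I x (ax x))
    (hs : ∀ x y, π.I y (ax x) → π.I x (ax y)) : False := by
  obtain ⟨p, hp, hd⟩ := Int.exists_prime_and_dvd (n := π.k - 1) (by have := π.k3; omega)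
  have := Fact.mk (Int.prime_iff_natAbs_prime.1 hp)
  have hk : ((π.k : ℤ) : ZMod p.natAbs) = 1 := by
    have := (ZMod.intCast_zmod_eq_zero_iff_dvd (π.k - 1) p.natAbs).2 (by simpa using hd)
    push_cast at this
    linear_combination this
  let A : Matrix Ω Ω (ZMod p.natAbs) := fun x y => ind (π.I y (ax x))
  let J : Matrix Ω Ω (ZMod p.natAbs) := fun _ _ => 1
  have h1 : A * A = J := by
    ext x y
    have := congrArg (Int.cast : ℤ → ZMod p.natAbs) (π.hm' (ax x) (ax y))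
    simp only [ind_and, π.l1] at this
    push_cast at this
    rw [hk, sub_self, zero_mul, add_zero] at this
    rw [Matrix.mul_apply, ← show _ = J x y from this]
    exact sum_congr rfl fun z _ => by simp only [A, propext ⟨hs z y, hs y z⟩]
  have h2 : J * A = J := by
    ext x y
    have := congrArg (Int.cast : ℤ → ZMod p.natAbs) (π.hk (ax y))
    push_cast at this
    rw [Matrix.mul_apply, ← show _ = J x y from this.trans hk]
    exact sum_congr rfl fun z _ => by simp only [A, J, one_mul, propext ⟨hs z y, hs y z⟩]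
  have h3 : ∀ n, A ^ (n + 2) = J := fun n => by
    induction n with
    | zero => rw [zero_add, sq, h1]
    | succ n ih => rw [add_right_comm, pow_succ, ih, h2]
  have h4 := ZMod.trace_pow_card A
  obtain ⟨n, hn⟩ := Nat.exists_eq_add_of_le' this.out.two_le
  have h5 : A.trace = 0 := sum_eq_zero fun x _ => by simp [A, Matrix.diag, ind_neg (h0 x)]
  have h6 := congrArg (Int.cast : ℤ → ZMod p.natAbs) (π.card_eq x0)
  push_cast at h6
  rw [h5, zero_pow this.out.ne_zero, (congrArg (A ^ ·) hn).trans (h3 n)] at h4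
  simp [Matrix.trace, Matrix.diag, J, h6, hk] at h4

/-- A plane in which any two points and any two lines are fixed by an involutory homology has
prime power order. -/
theorem core [Finite G] (x0 : Ω)
    (hp : ∀ x y : Ω, x ≠ y → ∃ g c a, π.Hom g c a ∧ g • x = x ∧ g • y = y)
    (hl : ∀ x y : Y, x ≠ y → ∃ g c a, π.Hom g c a ∧ g • x = x ∧ g • y = y) :
    ∃ p j : ℕ, p.Prime ∧ π.k - 1 = p ^ j := by
  have h1 := exists_Hom_axis hp
  have h2 := exists_Hom_axis (π := π.dual) fun x y h =>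
    let ⟨g, c, a, h3, h4⟩ := hl x y h
    ⟨g, a, c, h3.dual, h4⟩
  by_contra hc
  have u1 : ∀ {e e' c a b}, π.El e c a → π.El e' c b → a = b := fun h h' =>
    by_contra fun hab => hc (pow_of_two_axes h1 h h' hab)
  have u2 : ∀ {e e' c d a}, π.El e c a → π.El e' d a → c = d := fun h h' =>
    by_contra fun hab => hc (pow_of_two_axes (π := π.dual) h2 h.dual h'.dual hab)
  choose g ax hg using h2
  have h3 : ∀ {t x a}, π.Hom t x a → a = ax x := fun ht => unique_center (π := π.dual)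
    (fun l => let ⟨g, c, h⟩ := h1 l; ⟨g, c, h.dual⟩) (fun h h' => u2 h.dual h'.dual)
    (fun h h' => u1 h.dual h'.dual) ht.dual (hg _)
  refine π.no_polarity x0 ax (fun x => (hg x).dual.nI) fun x y h => ?_
  have hx : π.Hom (g x) x (ax x) := (hg x).dual
  have hy : π.Hom (g y) y (ax y) := (hg y).dual
  have := hy.conj (g x)
  rw [Ax_pt hx.ax h] at this
  exact (line_of_fix hx.ne hx.cen hx.ax (h3 this)).resolve_left fun e => hy.nI (e ▸ h)

end Pl

end CL.SymDes
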