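import Mathlib
import Cfsg.Agent.PERM.Plane2
import Cfsg.Agent.TECH.SylIn

/-!
Baer involutions, subplanes, and the order of a plane with a doubly transitive collineation group.
-/

set_option autoImplicit false

namespace CL.SymDes

open Finset MulAction Subgroup CL.MSS
open scoped Classical commutatorElement

namespace Des

variable {Ω Y : Type*} [Fintype Ω] [Fintype Y] (D : Des Ω Y)

/-- the automorphism group of a design -/
def Aut : Subgroup (Equiv.Perm Ω × Equiv.Perm Y) where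
  carrier := {g | ∀ x C, D.I (g.1 x) (g.2 C) ↔ D.I x C}
  one_mem' := fun _ _ => Iff.rfl
  mul_mem' := fun {g h} hg hh x C => (hg _ _).trans (hh x C)
  inv_mem' := fun {g} hg x C => by simpa using (hg (g.1⁻¹ x) (g.2⁻¹ C)).symm

instance instMulActionAutPt : MulAction D.Aut Ω where
  smul g x := g.1.1 x
  one_smul _ := rfl
  mul_smul _ _ _ := rfl

instance instMulActionAutBlk : MulAction D.Aut Y where
  smul g x := g.1.2 x
  one_smul _ := rfl
  mul_smul _ _ _ := rfl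

/-- the plane with its full collineation group -/
def pl (l1 : D.l = 1) (k3 : 3 ≤ D.k) : Pl D.Aut Ω Y where
  toDes := D
  l1 := l1
  k3 := k3
  hI g := g.2
  faith _ h := Subtype.ext (Prod.ext (Equiv.ext h) (Equiv.ext fun _ =>
    D.smul_eq_of_fix (G := D.Aut) (fun g => g.2) fun x _ => h x))

end Des

namespace Pl

variable {G Ω Y : Type*} [Group G] [Fintype Ω] [Fintype Y] [MulAction G Ω] [MulAction G Y]
  (π : Pl G Ω Y)

/-- `(A, B)` is a subplane with `r` points on each line. -/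
structure Sub (A : Ω → Prop) (B : Y → Prop) (r : ℤ) : Prop where
  hk : ∀ C, B C → ∑ x, ind (A x ∧ π.I x C) = r
  hr : ∀ x, A x → ∑ C, ind (B C ∧ π.I x C) = r
  join : ∀ {x y C}, A x → A y → x ≠ y → π.I x C → π.I y C → B C
  card : ∑ C, ind (B C) = ∑ x, ind (A x)
  r3 : 3 ≤ r
  ne : ∃ x, A x

variable {π}

namespace Sub

variable {A : Ω → Prop} {B : Y → Prop} {r : ℤ} (h : π.Sub A B r)

/-- the subplane as a design -/
noncomputable def des : Des {x // A x} {C // B C} where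
  I x C := π.I x C
  k := r
  l := 1
  hk C := (sum_ind_subtype A (π.I · C)).trans (h.hk C C.2)
  hr x := (sum_ind_subtype B (π.I x)).trans (h.hr x x.2)
  hl {x y} hxy := by
    have hxy' : (x : Ω) ≠ y := fun e => hxy (Subtype.ext e)
    rw [sum_ind_subtype B fun C => π.I x C ∧ π.I y C, ← π.l1, ← π.hl hxy']
    exact sum_congr rfl fun C _ => by
      rw [and_iff_right_of_imp fun hC => h.join x.2 y.2 hxy' hC.1 hC.2]
  card := by
    have := h.card
    rwa [sum_ind_card, sum_ind_card, Nat.cast_inj, Nat.card_eq_fintype_card,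
      Nat.card_eq_fintype_card] at this
  lt := by linarith [h.r3]

/-- the subplane with its collineation group -/
noncomputable def pl : Pl h.des.Aut {x // A x} {C // B C} := h.des.pl rfl h.r3

theorem trans {P : Ω → Prop} {Q : Y → Prop} {s : ℤ}
    (h' : h.pl.Sub (fun x => P x) (fun C => Q C) s) :
    π.Sub (fun x => A x ∧ P x) (fun C => B C ∧ Q C) s where
  hk C hC := by
    simp only [and_assoc]
    exact (sum_ind_subtype A fun x => P x ∧ π.I x C).symm.trans (h'.hk ⟨C, hC.1⟩ hC.2)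
  hr x hx := by
    simp only [and_assoc]
    exact (sum_ind_subtype B fun C => Q C ∧ π.I x C).symm.trans (h'.hr ⟨x, hx.1⟩ hx.2)
  join {x y C} hx hy hxy h1 h2 := ⟨h.join hx.1 hy.1 hxy h1 h2, h'.join (x := ⟨x, hx.1⟩)
    (y := ⟨y, hy.1⟩) (C := ⟨C, h.join hx.1 hy.1 hxy h1 h2⟩) hx.2 hy.2
      (fun e => hxy (congrArg Subtype.val e)) h1 h2⟩
  card := by rw [← sum_ind_subtype, ← sum_ind_subtype]; exact h'.card
  r3 := h'.r3
  ne := let ⟨x, hx⟩ := h'.ne; ⟨x, x.2, hx⟩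

/-- restriction of a collineation to an invariant subplane -/
def res (t : G) (hA : ∀ x, A (t • x) ↔ A x) (hB : ∀ C, B (t • C) ↔ B C) : h.des.Aut :=
  ⟨((toPerm t).subtypePerm hA, (toPerm t).subtypePerm hB), fun x C => π.hI t x C⟩

include h in
theorem exists_two : ∃ x y, x ≠ y ∧ A x ∧ A y := by
  obtain ⟨x, hx⟩ := h.ne
  obtain ⟨C⟩ : Nonempty {C // B C} :=
    Fintype.card_pos_iff.1 (h.des.card ▸ Fintype.card_pos_iff.2 ⟨⟨x, hx⟩⟩)
  obtain ⟨y, -, hy, -⟩ := h.pl.exists_pt C ⟨x, hx⟩ ⟨x, hx⟩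
  exact ⟨y, x, fun e => hy (Subtype.ext e), y.2, hx⟩

end Sub

theorem baer_aux {g : G} (hg : g * g = 1) {x : Ω} (hc : g ∉ π.Cen x) (hx : g • x = x) :
    ∑ C, ind (g • C = C ∧ π.I x C) = ∑ C : Y, ind (g • C = C) - (π.k - 1) := by
  obtain ⟨L, hxL, hL⟩ : ∃ L, π.I x L ∧ g • L ≠ L := by simpa [mem_Cen] using hc
  have h1 : ∑ C : Y, ind (g • C = C) = ∑ y, ind (π.I y L) * ∑ C, ind (g • C = C ∧ π.I y C) := by
    simp only [mul_sum]
    rw [sum_comm]
    refine sum_congr rfl fun C _ => ?_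
    by_cases hC : g • C = C
    · simp only [hC, true_and, ← ind_and, ind_pos]
      rw [π.hm (by rintro rfl; exact hL hC), π.l1]
    · simp [hC, ind]
  rw [h1, ← sum_line_sub L hxL, ← sum_sub_distrib,
    ← sum_ind_eq x fun _ => ∑ C, ind (g • C = C ∧ π.I x C)]
  refine sum_congr rfl fun y _ => ?_
  by_cases hy : y = x
  · simp [hy, ind_pos hxL, ind_pos, ind_neg]
  by_cases hyL : π.I y L
  swap
  · simp [ind, hy, hyL]
  have hgy : y ≠ g • y := fun e => hL (π.fix_line hy e.symm hx hyL hxL)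
  have : ∑ C, ind (g • C = C ∧ π.I y C) = 1 := by
    rw [← π.l1, ← π.hl hgy]
    exact sum_congr rfl fun C _ => congrArg ind (propext ⟨fun h => ⟨h.2, h.1 ▸ π.smul_I g h.2⟩,
      fun h => ⟨π.join_eq hgy (by simpa only [← mul_smul, hg, one_smul] using π.smul_I g h.2)
        (π.smul_I g h.1) h.1 h.2, h.1⟩⟩)
  rw [this]
  simp [ind, hy, hyL]

/-- Baer's theorem on involutions. -/
theorem baer {g : G} (hg : g * g = 1) (ha : ∀ a, g ∉ π.Ax a) (x0 : Ω) :
    ∃ r, π.Sub (fun x => g • x = x) (fun C => g • C = C) r ∧ (r - 1) ^ 2 = π.k - 1 := by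
  have hc : ∀ c, g ∉ π.Cen c := fun c h => let ⟨a, h'⟩ := exists_Ax h; ha a h'
  have h1 : ∀ x, g • x = x → ∑ C, ind (g • C = C ∧ π.I x C) = ∑ C : Y, ind (g • C = C) - (π.k - 1) :=
    fun x => baer_aux hg (hc x)
  have h2 : ∀ C, g • C = C → ∑ x, ind (g • x = x ∧ π.I x C) = ∑ C : Y, ind (g • C = C) - (π.k - 1) :=
    fun C hC => (baer_aux (π := π.dual) hg (ha C) hC).trans (by rw [π.fix_eq π.hI]; rfl)
  obtain ⟨x, hx⟩ : ∃ x : Ω, g • x = x := by
    by_cases h : g • x0 = x0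
    · exact ⟨x0, h⟩
    obtain ⟨C, h3, h4⟩ := π.exists_join (Ne.symm h)
    have hC : g • C = C := π.join_eq (Ne.symm h) (by
      simpa only [← mul_smul, hg, one_smul] using π.smul_I g h4) (π.smul_I g h3) h3 h4
    obtain ⟨x, hx, -⟩ := exists_of_sum_ind_ne (P := fun x : Ω => g • x = x) (Q := fun _ => False) (by
      rw [← π.fix_eq π.hI]
      exact sum_lt_sum (fun C _ => ind_mono False.elim) ⟨C, mem_univ C, by simp [ind, hC]⟩
        |>.trans_le' (by simp [ind]))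
    exact ⟨x, hx⟩
  generalize hr : ∑ C : Y, ind (g • C = C) - (π.k - 1) = r at h1 h2
  have h3 : r * r = ∑ y : Ω, ind (g • y = y) + (r - 1) := by
    calc r * r = ∑ C, ind (g • C = C ∧ π.I x C) * ∑ y, ind (g • y = y ∧ π.I y C) := by
          rw [← h1 x hx, sum_mul]
          refine sum_congr rfl fun C _ => ?_
          by_cases hC : g • C = C
          · rw [h2 C hC, h1 x hx]
          · simp [ind, hC]
      _ = _ := by
          simp only [mul_sum]
          rw [sum_comm, ← sum_ind_eq x fun _ => r - 1, ← sum_add_distrib]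
          refine sum_congr rfl fun y _ => ?_
          by_cases hy : y = x
          · subst hy
            simp only [← ind_and, hx, true_and, and_assoc, and_self, h1 y hx, ind_pos]
            ring
          by_cases hgy : g • y = y
          swap
          · simp [ind, hgy, hy]
          rw [ind_pos hgy, ind_neg hy, zero_mul, add_zero, ← π.l1, ← π.hl (Ne.symm hy)]
          refine sum_congr rfl fun C _ => ?_
          rw [← ind_and]
          exact congrArg ind (propext ⟨fun h => ⟨h.1.2, h.2.2⟩, fun h =>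
            ⟨⟨π.fix_line hy hgy hx h.2 h.1, h.1⟩, hgy, h.2⟩⟩)
  have h4 : (r - 1) ^ 2 = π.k - 1 := by
    rw [← π.fix_eq π.hI] at h3
    linear_combination h3 + hr
  have h5 : 0 ≤ r := h1 x hx ▸ sum_nonneg fun _ _ => ind_nonneg _
  exact ⟨r, ⟨h2, h1, fun hx hy hxy => π.fix_line hxy hx hy, π.fix_eq π.hI g, by
    have := π.k3
    by_contra h
    have : r = 0 ∨ r = 1 ∨ r = 2 := by omega
    rcases this with rfl | rfl | rfl <;> omega, x, hx⟩, h4⟩

theorem exists_two_fix (π : Pl G Ω Y) {g : G} (hg : g * g = 1) (x0 : Ω) :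
    ∃ x y : Ω, x ≠ y ∧ g • x = x ∧ g • y = y := by
  by_cases h : ∃ a, g ∈ π.Ax a
  · obtain ⟨a, ha⟩ := h
    obtain ⟨x, hx, -⟩ := π.exists_pt a x0 x0
    obtain ⟨y, hy, hyx, -⟩ := π.exists_pt a x x
    exact ⟨y, x, hyx, Ax_pt ha hy, Ax_pt ha hx⟩
  · obtain ⟨r, hr, -⟩ := baer hg (not_exists.1 h) x0
    exact hr.exists_two

end Pl

theorem exists_sq_mem {G : Type*} [Group G] {S : Subgroup G} (n : ℕ) {x : G} (hx : x ∉ S)
    (h : x ^ 2 ^ n ∈ S) : ∃ t ∈ zpowers x, t ∉ S ∧ t * t ∈ S := by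
  induction n with
  | zero => exact absurd (by simpa using h) hx
  | succ n ih =>
    by_cases h' : x ^ 2 ^ n ∈ S
    · exact ih h'
    · exact ⟨_, pow_mem (mem_zpowers x) _, h', by rwa [← pow_add, ← two_mul, ← pow_succ'] ⟩

theorem fix_sup_zpowers {G Z : Type*} [Group G] [MulAction G Z] {S : Subgroup G} {t : G} {z : Z} :
    (∀ s ∈ S ⊔ zpowers t, s • z = z) ↔ (∀ s ∈ S, s • z = z) ∧ t • z = z := by
  change S ⊔ zpowers t ≤ stabilizer G z ↔ _
  rw [sup_le_iff, zpowers_le]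
  rfl

theorem exists_step {G Z : Type*} [Group G] [Finite G] [MulAction G Z]
    (two : ∀ {a b c d : Z}, a ≠ b → c ≠ d → ∃ g : G, g • a = c ∧ g • b = d) {S : Subgroup G}
    (hS : IsPGroup 2 S) (hf : ∀ t ∈ normalizer (S : Set G), t * t ∈ S → ∃ u v : Z, u ≠ v ∧
      (∀ s ∈ S, s • u = u) ∧ (∀ s ∈ S, s • v = v) ∧ t • u = u ∧ t • v = v) {P Q : Z} (h : P ≠ Q)
    (hP : ∀ s ∈ S, s • P = P) (hQ : ∀ s ∈ S, s • Q = Q) :
    ∃ t ∈ normalizer (S : Set G), t ∉ S ∧ t * t ∈ S ∧ t • P = P ∧ t • Q = Q := by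
  obtain ⟨T, hT, hST⟩ := exists_sylIn_ge (H := stabilizer G P ⊓ stabilizer G Q) hS
    fun s hs => ⟨hP s hs, hQ s hs⟩
  rcases hST.lt_or_eq with hlt | rfl
  · obtain ⟨x, hx, hxS⟩ := SetLike.exists_of_lt (lt_inf_normalizer_of_lt hT.pgroup hlt)
    obtain ⟨n, hn⟩ := isPGroup_iff_forall_mem.1 hT.pgroup x hx.1
    obtain ⟨t, ht, h1, h2⟩ := exists_sq_mem n hxS (hn ▸ one_mem S)
    have := zpowers_le.2 hx ht
    exact ⟨t, this.2, h1, h2, hT.le this.1⟩
  exfalso
  obtain ⟨g, h1, h2⟩ := two h h.symm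
  obtain ⟨n, hn, y, hy, rfl⟩ := hT.frattini (x := g) (mem_normalizer_of_cj_le
    (cj_le_iff_forall.2 fun k hk => ⟨by
      change (g * k * g⁻¹) • P = P
      rw [mul_smul, mul_smul, inv_smul_eq_iff.2 h2.symm, show k • Q = Q from hk.2, h2], by
      change (g * k * g⁻¹) • Q = Q
      rw [mul_smul, mul_smul, inv_smul_eq_iff.2 h1.symm, show k • P = P from hk.1, h1]⟩))
  rw [mul_smul, ← eq_inv_smul_iff, show n⁻¹ • Q = Q from (inv_mem hn).2] at h1
  rw [mul_smul, ← eq_inv_smul_iff, show n⁻¹ • P = P from (inv_mem hn).1] at h2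
  have hyy : y * y ∈ stabilizer G P ⊓ stabilizer G Q :=
    ⟨by change (y * y) • P = P; rw [mul_smul, h1, h2], by change (y * y) • Q = Q; rw [mul_smul, h2, h1]⟩
  obtain ⟨a, m, ⟨j, rfl⟩, e⟩ := Nat.exists_eq_two_pow_mul_odd (orderOf_pos y).ne'
  have h3 : (y ^ (2 * j + 1)) ^ 2 ^ a = 1 := by rw [← pow_mul, mul_comm, ← e, pow_orderOf_eq_one]
  have h4 : y ^ (2 * j + 1) • P = Q := by
    rw [pow_succ', pow_mul, sq, mul_smul, show (y * y) ^ j • P = P from (pow_mem hyy j).1, h1]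
  have h5 := pow_mem hy (2 * j + 1)
  have h6 : y ^ (2 * j + 1) * y ^ (2 * j + 1) ∈ S := hT.le_of_normalizes
    ((isPGroup_zpowers h3).to_le (zpowers_le.2 (mul_mem (mem_zpowers _) (mem_zpowers _))))
    (zpowers_le.2 (by rw [← (Commute.refl y).mul_pow]; exact pow_mem hyy _))
    (zpowers_le.2 (mul_mem h5 h5)) (mem_zpowers _)
  obtain ⟨u, v, huv, hu, hv, hu', hv'⟩ := hf _ h5 h6
  obtain ⟨k, rfl, rfl⟩ := two huv h
  have h7 := hT.card_le (isPGroup_cj k (isPGroup_sup_of_normalizes' hS (isPGroup_zpowers h3)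
    (zpowers_le.2 h5))) (cj_le_iff_forall.2 fun s hs => ⟨by
      change (k * s * k⁻¹) • k • u = k • u
      rw [mul_smul, inv_smul_smul, mul_smul, fix_sup_zpowers.2 ⟨hu, hu'⟩ s hs], by
      change (k * s * k⁻¹) • k • v = k • v
      rw [mul_smul, inv_smul_smul, mul_smul, fix_sup_zpowers.2 ⟨hv, hv'⟩ s hs]⟩)
  rw [card_cj] at h7
  exact h ((hP _ ((eq_of_le_of_card_ge le_sup_left h7).ge
    (mem_sup_right (mem_zpowers _)))).symm.trans h4)

namespace Pl

variable {G Ω Y : Type*} [Group G] [Fintype Ω] [Fintype Y] [MulAction G Ω] [MulAction G Y]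
  {π : Pl G Ω Y}

theorem fix_smul_iff {Z : Type*} [MulAction G Z] {S : Subgroup G} {t : G}
    (ht : t ∈ normalizer (S : Set G)) (z : Z) : (∀ s ∈ S, s • t • z = t • z) ↔ ∀ s ∈ S, s • z = z := by
  suffices ∀ t ∈ normalizer (S : Set G), ∀ z : Z, (∀ s ∈ S, s • z = z) → ∀ s ∈ S, s • t • z = t • z from
    ⟨fun h => by simpa using this _ (inv_mem ht) _ h, this t ht z⟩
  intro t ht z h s hs
  have := h _ (conj_mem_of_normalizes' le_rfl ht hs)
  rwa [mul_smul, mul_smul, inv_smul_eq_iff] at this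

/-- A plane of odd order with a doubly transitive collineation group has prime power order. -/
theorem pow_of_odd [Finite G] (x0 : Ω) (hk : 2 ∣ π.k)
    (two : ∀ {a b c d : Ω}, a ≠ b → c ≠ d → ∃ g : G, g • a = c ∧ g • b = d)
    (two' : ∀ {a b c d : Y}, a ≠ b → c ≠ d → ∃ g : G, g • a = c ∧ g • b = d) :
    ∃ p j : ℕ, p.Prime ∧ π.k - 1 = p ^ j := by
  obtain ⟨S, ⟨hS, r, n, h, hn⟩, hmax⟩ := Set.Finite.exists_maximal (s := {S : Subgroup G |
    IsPGroup 2 S ∧ ∃ r, ∃ n : ℕ, π.Sub (fun x => ∀ s ∈ S, s • x = x) (fun C => ∀ s ∈ S, s • C = C) r ∧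
      π.k - 1 = (r - 1) ^ 2 ^ n}) (Set.toFinite _) ⟨⊥, IsPGroup.of_bot, π.k, 0,
        ⟨fun C _ => by simpa using π.hk C, fun x _ => by simpa using π.hr x, by simp,
          by simp [π.card], π.k3, x0, by simp⟩, by simp⟩
  have hr : ¬ 2 ∣ r - 1 := fun h2 => by
    have := h2.trans (dvd_pow_self (r - 1) (pow_ne_zero n two_ne_zero))
    omega
  obtain ⟨x1, hx1⟩ := h.ne
  obtain ⟨C1⟩ : Nonempty {C : Y // ∀ s ∈ S, s • C = C} :=
    Fintype.card_pos_iff.1 (h.des.card ▸ Fintype.card_pos_iff.2 ⟨⟨x1, hx1⟩⟩)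
  let ρ : ∀ t ∈ normalizer (S : Set G), h.des.Aut := fun t ht =>
    h.res t (fix_smul_iff ht) (fix_smul_iff ht)
  have hρ : ∀ t ht, t * t ∈ S → ρ t ht * ρ t ht = 1 := fun t ht h2 =>
    h.pl.faith _ fun x => Subtype.ext ((mul_smul t t x.1).symm.trans (x.2 _ h2))
  have key : ∀ t ht, t ∉ S → t * t ∈ S → ∃ c a, h.pl.Hom (ρ t ht) c a := by
    intro t ht h1 h2
    have h3 : IsPGroup 2 (S ⊔ zpowers t : Subgroup G) := by
      obtain ⟨m, hm⟩ := isPGroup_iff_forall_mem.1 hS _ h2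
      exact isPGroup_sup_of_normalizes' hS (isPGroup_zpowers (k := m + 1) (by
        rw [pow_succ', pow_mul, sq, hm])) (zpowers_le.2 ht)
    have h4 : ∀ r' (n' : ℕ), π.Sub (fun x => (∀ s ∈ S, s • x = x) ∧ t • x = x)
        (fun C => (∀ s ∈ S, s • C = C) ∧ t • C = C) r' → π.k - 1 ≠ (r' - 1) ^ 2 ^ n' :=
      fun r' n' h' e => h1 (hmax (y := S ⊔ zpowers t) ⟨h3, r', n', by
        simpa only [fix_sup_zpowers] using h', e⟩ le_sup_left (mem_sup_right (mem_zpowers t)))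
    have h5 : ρ t ht ≠ 1 := fun e => h4 r n (by
      have e1 : ∀ x : Ω, (∀ s ∈ S, s • x = x) → t • x = x := fun x hx =>
        congrArg Subtype.val (show ρ t ht • (⟨x, hx⟩ : {x : Ω // ∀ s ∈ S, s • x = x}) = ⟨x, hx⟩ by
          rw [e, one_smul])
      have e2 : ∀ x : Y, (∀ s ∈ S, s • x = x) → t • x = x := fun x hx =>
        congrArg Subtype.val (show ρ t ht • (⟨x, hx⟩ : {x : Y // ∀ s ∈ S, s • x = x}) = ⟨x, hx⟩ by
          rw [e, one_smul])
      simpa only [and_iff_left_of_imp (e1 _), and_iff_left_of_imp (e2 _)] using h) hn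
    by_cases h6 : ∃ a, ρ t ht ∈ h.pl.Ax a
    · obtain ⟨a, ha⟩ := h6
      obtain ⟨c, hc⟩ := exists_Cen ha
      exact ⟨c, a, h5, hρ t ht h2, hc, ha, fun hI => hr (El.even ⟨h5, hc, ha, hI⟩ (hρ t ht h2))⟩
    · obtain ⟨r', h', e⟩ := baer (hρ t ht h2) (not_exists.1 h6) ⟨x1, hx1⟩
      refine absurd ?_ (h4 r' (n + 1) (h.trans (by simp only [Subtype.ext_iff] at h'; exact h')))
      rw [pow_succ', pow_mul, e]
      exact hn
  obtain ⟨p, j, hp, e⟩ := core (π := h.pl) ⟨x1, hx1⟩ (fun x y hxy => by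
    obtain ⟨t, ht, h1, h2, h3, h4⟩ := exists_step two hS (fun t ht h2 => by
      obtain ⟨u, v, huv, hu, hv⟩ := h.pl.exists_two_fix (hρ t ht h2) ⟨x1, hx1⟩
      exact ⟨u, v, fun e => huv (Subtype.ext e), u.2, v.2, congrArg Subtype.val hu,
        congrArg Subtype.val hv⟩) (fun e => hxy (Subtype.ext e)) x.2 y.2
    obtain ⟨c, a, hc⟩ := key t ht h1 h2
    exact ⟨_, c, a, hc, Subtype.ext h3, Subtype.ext h4⟩) (fun x y hxy => by
    obtain ⟨t, ht, h1, h2, h3, h4⟩ := exists_step two' hS (fun t ht h2 => by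
      obtain ⟨u, v, huv, hu, hv⟩ := h.pl.dual.exists_two_fix (hρ t ht h2) C1
      exact ⟨u, v, fun e => huv (Subtype.ext e), u.2, v.2, congrArg Subtype.val hu,
        congrArg Subtype.val hv⟩) (fun e => hxy (Subtype.ext e)) x.2 y.2
    obtain ⟨c, a, hc⟩ := key t ht h1 h2
    exact ⟨_, c, a, hc, Subtype.ext h3, Subtype.ext h4⟩)
  exact ⟨p, j * 2 ^ n, hp, by rw [hn, pow_mul, ← e]; rfl⟩

end Pl

end CL.SymDes
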