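import Mathlib
import Cfsg.Agent.PERM.Plane3

/-!
Ovals in projective planes of odd order and the involutions preserving them.
-/

set_option autoImplicit false

namespace CL.SymDes

open Finset MulAction Subgroup
open scoped Classical

namespace Pl

variable {G Ω Y : Type*} [Group G] [Fintype Ω] [Fintype Y] [MulAction G Ω] [MulAction G Y]

/-- an oval in a plane of odd order -/
structure Oval (π : Pl G Ω Y) (O : Ω → Prop) : Prop where
  card : ∑ x, ind (O x) = π.k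
  arc : ∀ {C x y z}, O x → O y → O z → π.I x C → π.I y C → π.I z C → x = y ∨ x = z ∨ y = z
  even : 2 ∣ π.k

/-- `C` is the chord through `x` and `y` (the tangent if `x = y`) -/
def Ch (π : Pl G Ω Y) (O : Ω → Prop) (x y : Ω) (C : Y) : Prop :=
  π.I x C ∧ π.I y C ∧ ∀ z, O z → π.I z C → z = x ∨ z = y

variable {π : Pl G Ω Y} {O : Ω → Prop}

theorem Ch.symm {x y : Ω} {C : Y} (h : π.Ch O x y C) : π.Ch O y x C :=
  ⟨h.2.1, h.1, fun z hz hC => (h.2.2 z hz hC).symm⟩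

theorem Ch.uniq {x y y' : Ω} {C : Y} (h : π.Ch O x y C) (h' : π.Ch O x y' C) (hy : O y)
    (hy' : O y') : y = y' := by
  rcases h.2.2 y' hy' h'.2.1 with rfl | rfl
  · exact (h'.2.2 y hy h.2.1).elim id id
  · rfl

theorem Ch.smul {g : G} (hg : ∀ x, O (g • x) ↔ O x) {x y : Ω} {C : Y} (h : π.Ch O x y C) :
    π.Ch O (g • x) (g • y) (g • C) :=
  ⟨π.smul_I g h.1, π.smul_I g h.2.1, fun z hz hC => by
    obtain ⟨z, rfl⟩ : ∃ w, g • w = z := ⟨g⁻¹ • z, smul_inv_smul g z⟩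
    exact (h.2.2 z ((hg z).1 hz) ((π.hI g z C).1 hC)).imp (congrArg _) (congrArg _)⟩

namespace Oval

variable (h : π.Oval O)
include h

theorem k4 : 4 ≤ π.k := by have := π.k3; have := h.even; omega

theorem exists_ne (a b c : Ω) : ∃ y, O y ∧ y ≠ a ∧ y ≠ b ∧ y ≠ c := by
  obtain ⟨y, hy, h1⟩ := exists_of_sum_ind_ne (P := O) (Q := fun y => y = a ∨ y = b ∨ y = c) (by
    have h1 : ∑ y, ind (y = a ∨ y = b ∨ y = c) ≤ ∑ y, (ind (y = a) + ind (y = b) + ind (y = c)) :=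
      sum_le_sum fun y _ => by unfold ind; split_ifs <;> simp_all
    simp only [sum_add_distrib, sum_ind_eq'] at h1
    have := h.card; have := h.k4; omega)
  exact ⟨y, hy, by simpa [not_or] using h1⟩

theorem ch_of_ne {x y : Ω} {C : Y} (hx : O x) (hy : O y) (hxy : x ≠ y) (h1 : π.I x C)
    (h2 : π.I y C) : π.Ch O x y C :=
  ⟨h1, h2, fun _ hz h3 => ((h.arc hx hy hz h1 h2 h3).resolve_left hxy).imp Eq.symm Eq.symm⟩

theorem exists_other {x : Ω} {C : Y} (hx : O x) (h1 : π.I x C) : ∃ y, O y ∧ π.Ch O x y C := by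
  by_cases e : ∃ y, O y ∧ π.I y C ∧ x ≠ y
  · obtain ⟨y, hy, h2, e⟩ := e
    exact ⟨y, hy, h.ch_of_ne hx hy e h1 h2⟩
  · push Not at e
    exact ⟨x, hx, h1, h1, fun z hz h2 => Or.inl (e z hz h2).symm⟩

theorem sum_other {x : Ω} (hx : O x) (C : Y) :
    ∑ y, ind (O y ∧ π.Ch O x y C) = ind (π.I x C) := by
  by_cases h1 : π.I x C
  · obtain ⟨y, hy, h2⟩ := h.exists_other hx h1
    rw [ind_pos h1, ← sum_ind_eq' y]
    exact sum_congr rfl fun z _ => congrArg ind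
      (propext ⟨fun e => e.2.uniq h2 e.1 hy, by rintro rfl; exact ⟨hy, h2⟩⟩)
  · rw [ind_neg h1]
    exact sum_eq_zero fun y _ => ind_neg fun e => h1 e.2.1

theorem sum_ch {x y : Ω} (hx : O x) (hy : O y) : ∑ C, ind (π.Ch O x y C) = 1 := by
  have h1 : ∀ y, O y → y ≠ x → ∑ C, ind (π.Ch O x y C) = 1 := fun y hy e => by
    rw [← π.l1, ← π.hl e.symm]
    exact sum_congr rfl fun C _ => congrArg ind
      (propext ⟨fun e => ⟨e.1, e.2.1⟩, fun e' => h.ch_of_ne hx hy e.symm e'.1 e'.2⟩)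
  by_cases e : y = x
  swap
  · exact h1 y hy e
  subst e
  have h2 := π.hr y
  simp only [← h.sum_other hx] at h2
  rw [sum_comm, ← h.card] at h2
  have h3 : ∑ z, ind (z = y) * (∑ C, ind (π.Ch O y y C) - 1) =
      ∑ z, (∑ C, ind (O z ∧ π.Ch O y z C) - ind (O z)) := sum_congr rfl fun z _ => by
    by_cases e : z = y
    · simp [e, hx, ind_pos]
    by_cases hz : O z
    · simp [e, hz, ind_pos, ind_neg, h1 z hz e]
    · simp [e, hz, ind_neg]
  rw [sum_ind_eq, sum_sub_distrib] at h3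
  omega

theorem exists_ch {x y : Ω} (hx : O x) (hy : O y) : ∃ C, π.Ch O x y C := by
  obtain ⟨C, hC, -⟩ := exists_of_sum_ind_ne (P := π.Ch O x y) (Q := fun _ => False)
    (by rw [h.sum_ch hx hy]; simp [ind])
  exact ⟨C, hC⟩

theorem ch_eq {x y : Ω} (hx : O x) (hy : O y) {B C : Y} (hB : π.Ch O x y B) (hC : π.Ch O x y C) :
    B = C := by
  by_contra e
  have := two_le_sum_ind (P := π.Ch O x y) e hB hC
  rw [h.sum_ch hx hy] at this
  omega

theorem fix_ch {g : G} (hg : ∀ x, O (g • x) ↔ O x) {x y : Ω} (hx : O x) (hy : O y) {C : Y}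
    (hC : π.Ch O x y C) : g • C = C ↔ (g • x = x ∧ g • y = y) ∨ (g • x = y ∧ g • y = x) := by
  constructor
  · intro e
    have h1 := hC.2.2 _ ((hg x).2 hx) (e ▸ π.smul_I g hC.1)
    have h2 := hC.2.2 _ ((hg y).2 hy) (e ▸ π.smul_I g hC.2.1)
    have h3 := MulAction.injective g (a₁ := x) (a₂ := y)
    grind
  · have h1 := hC.smul hg
    rintro (⟨e1, e2⟩ | ⟨e1, e2⟩) <;> rw [e1, e2] at h1
    · exact h.ch_eq hx hy h1 hC
    · exact h.ch_eq hx hy h1.symm hC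

theorem sum_lines (B : Y → Prop) {x : Ω} (hx : O x) :
    ∑ C, ind (B C ∧ π.I x C) = ∑ y, ind (O y ∧ ∃ C, B C ∧ π.Ch O x y C) := by
  simp only [ind_and, ← h.sum_other hx, mul_sum]
  rw [sum_comm]
  refine sum_congr rfl fun y _ => ?_
  by_cases hy : O y
  · obtain ⟨C, hC⟩ := h.exists_ch hx hy
    have : (∃ C, B C ∧ π.Ch O x y C) ↔ B C :=
      ⟨fun ⟨C', h1, h2⟩ => h.ch_eq hx hy h2 hC ▸ h1, fun e => ⟨C, e, hC⟩⟩
    rw [this, ind_pos hy, one_mul, ← sum_ind_eq C fun C => ind (B C)]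
    refine sum_congr rfl fun C' _ => ?_
    rw [one_mul, mul_comm]
    exact congrArg (ind · * _) (propext ⟨fun e => h.ch_eq hx hy e hC, by rintro rfl; exact hC⟩)
  · simp [ind_neg hy]

theorem count (B : Y → Prop) : 2 * ∑ C, ind (B C) = 2 * ∑ C, ind (B C ∧ ∀ z, O z → ¬ π.I z C) +
    ∑ x, ind (O x) * ∑ C, ind (B C ∧ π.I x C) + ∑ x, ind (O x ∧ ∃ C, B C ∧ π.Ch O x x C) := by
  have h1 : ∀ x, ind (O x ∧ ∃ C, B C ∧ π.Ch O x x C) = ∑ C, ind (B C) * ind (O x ∧ π.Ch O x x C) :=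
    fun x => by
      by_cases hx : O x
      · obtain ⟨C, hC⟩ := h.exists_ch hx hx
        have : (∃ C, B C ∧ π.Ch O x x C) ↔ B C :=
          ⟨fun ⟨C', h1, h2⟩ => h.ch_eq hx hx h2 hC ▸ h1, fun e => ⟨C, e, hC⟩⟩
        simp only [this, hx, true_and]
        rw [← sum_ind_eq C fun C => ind (B C)]
        refine sum_congr rfl fun C' _ => ?_
        rw [mul_comm]
        exact congrArg (_ * ind ·) (propext ⟨by rintro rfl; exact hC, fun e => h.ch_eq hx hx e hC⟩)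
      · simp [hx, ind_neg]
  simp only [h1, mul_sum]
  rw [sum_comm, sum_comm (f := fun x C => ind (B C) * ind (O x ∧ π.Ch O x x C)),
    ← sum_add_distrib, ← sum_add_distrib]
  refine sum_congr rfl fun C _ => ?_
  by_cases hB : B C
  swap
  · simp [hB, ind_neg]
  simp only [hB, true_and, ind_pos, one_mul, ← ind_and]
  by_cases e : ∀ z, O z → ¬ π.I z C
  · rw [ind_pos e, sum_eq_zero fun x _ => ind_neg fun e' => e x e'.1 e'.2,
      sum_eq_zero fun x _ => ind_neg fun e' => e x e'.1 e'.2.1]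
    rfl
  rw [ind_neg e]
  push Not at e
  obtain ⟨x, hx, h2⟩ := e
  obtain ⟨y, hy, h3⟩ := h.exists_other hx h2
  have h4 : ∀ z, ind (O z ∧ π.I z C) + ind (O z ∧ π.Ch O z z C) = ind (z = x) + ind (z = y) :=
    fun z => by
      have h5 : O z ∧ π.I z C ↔ z = x ∨ z = y :=
        ⟨fun e => h3.2.2 z e.1 e.2, by rintro (rfl | rfl); exacts [⟨hx, h2⟩, ⟨hy, h3.2.1⟩]⟩
      have h6 : O z ∧ π.Ch O z z C ↔ z = x ∧ z = y :=
        ⟨fun e => ⟨((e.2.2.2 x hx h2).elim id id).symm, ((e.2.2.2 y hy h3.2.1).elim id id).symm⟩,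
          by rintro ⟨rfl, rfl⟩; exact ⟨hx, h3⟩⟩
      rw [h5, h6]
      unfold ind
      split_ifs <;> simp_all
  have h5 := sum_congr rfl fun z (_ : z ∈ univ) => h4 z
  simp only [sum_add_distrib, sum_ind_eq'] at h5
  omega

end Oval

end Pl

end CL.SymDes
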