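import Mathlib
import Cfsg.Agent.PERM.Oval1

/-!
Homologies and Baer involutions preserving an oval.
-/

set_option autoImplicit false

namespace CL.SymDes

open Finset MulAction Subgroup
open scoped Classical

namespace Pl

variable {G Ω Y : Type*} [Group G] [Fintype Ω] [Fintype Y] [MulAction G Ω] [MulAction G Y]
  {π : Pl G Ω Y} {O : Ω → Prop}

theorem smul_smul_of_sq {Z : Type*} [MulAction G Z] {g : G} (hg : g * g = 1) (x : Z) :
    g • g • x = x := by rw [← mul_smul, hg, one_smul]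

namespace Oval

variable (h : π.Oval O)
include h

theorem nonempty : ∃ x, O x := by
  obtain ⟨x, hx, -⟩ := exists_of_sum_ind_ne (P := O) (Q := fun _ => False)
    (by have := h.k4; simp only [ind_neg not_false, sum_const_zero, h.card]; omega)
  exact ⟨x, hx⟩

theorem hom_of_ax {g : G} {a : Y} (h1 : g ≠ 1) (h2 : g * g = 1) (ha : g ∈ π.Ax a) :
    ∃ c, π.Hom g c a := by
  obtain ⟨c, hc⟩ := exists_Cen ha
  refine ⟨c, h1, h2, hc, ha, fun e => ?_⟩
  have := El.even ⟨h1, hc, ha, e⟩ h2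
  have := h.even
  omega

theorem eq_one_of_fix {g : G} {c : Ω} (hc : g ∈ π.Cen c) (e : ∀ x, O x → x ≠ c → g • x = x) :
    g = 1 := by
  by_contra h1
  obtain ⟨a, ha⟩ := exists_Ax hc
  obtain ⟨x, hx, hxc, -⟩ := h.exists_ne c c c
  obtain ⟨y, hy, hyc, hyx, -⟩ := h.exists_ne c x x
  obtain ⟨z, hz, hzc, hzx, hzy⟩ := h.exists_ne c x y
  have := h.arc hx hy hz ((pt_of_fix h1 hc ha (e x hx hxc)).resolve_left hxc)
    ((pt_of_fix h1 hc ha (e y hy hyc)).resolve_left hyc)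
    ((pt_of_fix h1 hc ha (e z hz hzc)).resolve_left hzc)
  grind

theorem cen_not_mem {g : G} (hg : ∀ x, O (g • x) ↔ O x) {c : Ω} (h1 : g ≠ 1) (hc : g ∈ π.Cen c) :
    ¬ O c := fun hO => h1 (h.eq_one_of_fix hc fun x hx hxc => by
  obtain ⟨C, hC⟩ := h.exists_ch hx hO
  have := (h.fix_ch hg hx hO hC).1 (Cen_line hc hC.2.1)
  have := Cen_smul hc
  grind)

theorem sq_eq_one {g : G} (hg : ∀ x, O (g • x) ↔ O x) {c : Ω} (hc : g ∈ π.Cen c) : g * g = 1 :=
  h.eq_one_of_fix (mul_mem hc hc) fun x hx hxc => by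
    obtain ⟨C, h1, h2⟩ := π.exists_join hxc
    obtain ⟨y, hy, h3⟩ := h.exists_other hx h1
    have := (h.fix_ch hg hx hy h3).1 (Cen_line hc h2)
    rw [mul_smul]
    grind

variable {g t : G} {c d : Ω} {a b : Y}

theorem ch_join (hg : ∀ x, O (g • x) ↔ O x) (H : π.Hom g c a) {x : Ω} (hx : O x) {C : Y}
    (h1 : π.I c C) (h2 : π.I x C) : π.Ch O x (g • x) C := by
  obtain ⟨y, hy, h3⟩ := h.exists_other hx h2
  rcases (h.fix_ch hg hx hy h3).1 (Cen_line H.cen h1) with e | e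
  · by_cases e' : x = y
    · subst e'
      rwa [e.1]
    have h4 := h.cen_not_mem hg H.ne H.cen
    have h5 : ∀ z, O z → g • z = z → π.I z a := fun z hz e =>
      (pt_of_fix H.ne H.cen H.ax e).resolve_left (by rintro rfl; exact h4 hz)
    exact (H.nI (π.join_eq e' h2 h3.2.1 (h5 x hx e.1) (h5 y hy e.2) ▸ h1)).elim
  · rwa [e.1]

theorem cen_ch (hg : ∀ x, O (g • x) ↔ O x) (H : π.Hom g c a) {x : Ω} (hx : O x) {C : Y}
    (h1 : π.Ch O x (g • x) C) : π.I c C := by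
  obtain ⟨C', h2, h3⟩ := π.exists_join (x := c) (y := x)
    (by rintro rfl; exact h.cen_not_mem hg H.ne H.cen hx)
  exact h.ch_eq hx ((hg x).2 hx) (h.ch_join hg H hx h2 h3) h1 ▸ h2

theorem same_cen (hg : ∀ x, O (g • x) ↔ O x) (ht : ∀ x, O (t • x) ↔ O x) (H : π.Hom g c a)
    (K : π.Hom t c b) : g = t := by
  rw [← K.inv_eq, ← mul_eq_one_iff_eq_inv', h.eq_one_of_fix (mul_mem K.cen H.cen)]
  intro x hx hxc
  obtain ⟨C, h1, h2⟩ := π.exists_join hxc
  rw [mul_smul, (h.ch_join hg H hx h2 h1).uniq (h.ch_join ht K hx h2 h1) ((hg x).2 hx)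
    ((ht x).2 hx), K.smul_smul]

theorem agree (hg : ∀ x, O (g • x) ↔ O x) (ht : ∀ x, O (t • x) ↔ O x) (H : π.Hom g c a)
    (K : π.Hom t d b) (e : g ≠ t) {x y : Ω} (hx : O x) (hy : O y) (ex : g • x = t • x)
    (ey : g • y = t • y) : y = x ∨ y = g • x := by
  obtain ⟨B, hB⟩ := h.exists_ch hx ((hg x).2 hx)
  obtain ⟨C, hC⟩ := h.exists_ch hy ((hg y).2 hy)
  have h1 : c ≠ d := by rintro rfl; exact e (h.same_cen hg ht H K)
  obtain rfl := π.join_eq h1 (h.cen_ch hg H hx hB) (h.cen_ch ht K hx (ex ▸ hB))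
    (h.cen_ch hg H hy hC) (h.cen_ch ht K hy (ey ▸ hC))
  exact hB.2.2 y hy hC.1

theorem cen_mem_ax (hg : ∀ x, O (g • x) ↔ O x) (ht : ∀ x, O (t • x) ↔ O x) (H : π.Hom g c a)
    (K : π.Hom t d b) (e : g ≠ t) (hc : g * t = t * g) : π.I c b := by
  have h1 := H.conj t
  rw [← hc, mul_inv_cancel_right] at h1
  exact (pt_of_fix K.ne K.cen K.ax (Cen_eq H.ne h1.cen H.cen)).resolve_left
    (by rintro rfl; exact e (h.same_cen hg ht H K))

theorem hom_mul (hg : ∀ x, O (g • x) ↔ O x) (ht : ∀ x, O (t • x) ↔ O x) (H : π.Hom g c a)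
    (K : π.Hom t d b) (e : g ≠ t) (hc : g * t = t * g) : ∃ c' a', π.Hom (g * t) c' a' := by
  obtain ⟨l, h1, h2⟩ := π.exists_join (x := c) (y := d)
    (by rintro rfl; exact e (h.same_cen hg ht H K))
  obtain ⟨C, hC⟩ := H.ostrom K (h.cen_mem_ax hg ht H K e hc)
    (h.cen_mem_ax ht hg K H e.symm hc.symm) h1 h2
  exact ⟨C, l, hC⟩

theorem fix_iff (hg : ∀ x, O (g • x) ↔ O x) (H : π.Hom g c a) {x : Ω} (hx : O x) :
    g • x = x ↔ π.I x a :=
  ⟨fun e => (pt_of_fix H.ne H.cen H.ax e).resolve_left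
    (by rintro rfl; exact h.cen_not_mem hg H.ne H.cen hx), Ax_pt H.ax⟩

theorem line_cases (a : Y) : (∀ x, O x → ¬ π.I x a) ∨ ∃ x y, O x ∧ O y ∧ π.Ch O x y a := by
  by_cases e : ∃ x, O x ∧ π.I x a
  · obtain ⟨x, hx, h1⟩ := e
    obtain ⟨y, hy, h2⟩ := h.exists_other hx h1
    exact Or.inr ⟨x, y, hx, hy, h2⟩
  · exact Or.inl fun x hx h1 => e ⟨x, hx, h1⟩

theorem sum_line_le (a : Y) : ∑ x, ind (O x ∧ π.I x a) ≤ 2 := by
  rcases h.line_cases a with e | ⟨x, y, -, -, e⟩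
  · rw [sum_eq_zero fun x _ => ind_neg fun e' => e x e'.1 e'.2]; norm_num
  · have : ∑ z, ind (O z ∧ π.I z a) ≤ ∑ z, (ind (z = x) + ind (z = y)) := sum_le_sum fun z _ => by
      have := e.2.2 z
      unfold ind; split_ifs <;> simp_all
    simpa only [sum_add_distrib, sum_ind_eq', one_add_one_eq_two] using this

theorem fix_le (hg : ∀ x, O (g • x) ↔ O x) (H : π.Hom g c a) :
    ∑ x, ind (O x ∧ g • x = x) ≤ 2 :=
  (sum_le_sum fun _ _ => ind_mono fun e => ⟨e.1, (h.fix_iff hg H e.1).1 e.2⟩).trans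
    (h.sum_line_le a)

theorem fix_two (hg : ∀ x, O (g • x) ↔ O x) (H : π.Hom g c a)
    (h2 : 2 ≤ ∑ x, ind (O x ∧ g • x = x)) :
    ∃ x y, O x ∧ O y ∧ x ≠ y ∧ ∀ z, O z → (g • z = z ↔ z = x ∨ z = y) := by
  obtain ⟨x, hx, -⟩ := exists_of_sum_ind_ne (P := fun x => O x ∧ g • x = x) (Q := fun _ => False)
    (by simp only [ind_neg not_false, sum_const_zero]; omega)
  obtain ⟨y, hy, e⟩ := exists_of_sum_ind_ne (P := fun x => O x ∧ g • x = x) (Q := fun y => y = x)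
    (by rw [sum_ind_eq']; omega)
  have h3 := h.ch_of_ne hx.1 hy.1 (Ne.symm e) ((h.fix_iff hg H hx.1).1 hx.2)
    ((h.fix_iff hg H hy.1).1 hy.2)
  exact ⟨x, y, hx.1, hy.1, Ne.symm e, fun z hz => ⟨fun e => h3.2.2 z hz ((h.fix_iff hg H hz).1 e),
    by rintro (rfl | rfl); exacts [hx.2, hy.2]⟩⟩

theorem exists_ext (hg : ∀ x, O (g • x) ↔ O x) (H : π.Hom g c a) :
    ∃ C, π.I c C ∧ ∀ z, O z → ¬ π.I z C := by
  by_contra e
  push Not at e
  have h0 := h.cen_not_mem hg H.ne H.cen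
  have h1 : ∑ C, ind (π.I c C) = ∑ C, ∑ x, ind (O x ∧ π.I x C ∧ π.I c C) := by
    rw [π.hr, ← h.card, sum_comm]
    refine sum_congr rfl fun x _ => ?_
    by_cases hx : O x
    · simp only [hx, true_and, ind_pos]
      rw [π.hl (by rintro rfl; exact h0 hx), π.l1]
    · simp [hx, ind_neg]
  obtain ⟨x, hx, hgx⟩ : ∃ x, O x ∧ g • x ≠ x := by
    by_contra e'
    push Not at e'
    exact H.ne (h.eq_one_of_fix H.cen fun x hx _ => e' x hx)
  obtain ⟨C, h2, h3⟩ := π.exists_join (x := c) (y := x) (by rintro rfl; exact h0 hx)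
  refine (sum_lt_sum (fun C _ => ?_) ⟨C, mem_univ C, ?_⟩).ne h1
  · by_cases hC : π.I c C
    · obtain ⟨z, hz, h4⟩ := e C hC
      exact (ind_mono fun _ => ⟨hz, h4, hC⟩).trans (single_le_sum
        (f := fun x => ind (O x ∧ π.I x C ∧ π.I c C)) (fun _ _ => ind_nonneg _) (mem_univ z))
    · rw [ind_neg hC]; exact sum_nonneg fun _ _ => ind_nonneg _
  · have := two_le_sum_ind (P := fun x => O x ∧ π.I x C ∧ π.I c C) hgx
      ⟨(hg x).2 hx, (h.ch_join hg H hx h2 h3).2.1, h2⟩ ⟨hx, h3, h2⟩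
    rw [ind_pos h2]; omega

omit h in
theorem hom_lines (H : π.Hom g c a) : ∑ C : Y, ind (g • C = C) ≤ π.k + 1 := by
  rw [← π.hr c, ← sum_ind_eq' a, ← sum_add_distrib]
  refine sum_le_sum fun C _ => ?_
  have := line_of_fix H.ne H.cen H.ax (C := C)
  unfold ind; split_ifs <;> simp_all

variable {r : ℤ}

theorem lines_fix (hg : ∀ x, O (g • x) ↔ O x) {x : Ω} (hx : O x) (e : g • x = x) :
    ∑ C, ind (g • C = C ∧ π.I x C) = ∑ y, ind (O y ∧ g • y = y) := by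
  rw [h.sum_lines _ hx]
  refine sum_congr rfl fun y _ => congrArg ind (propext (and_congr_right fun hy => ?_))
  obtain ⟨C, hC⟩ := h.exists_ch hx hy
  refine ⟨fun ⟨C, h1, h2⟩ => ?_, fun e' => ⟨C, (h.fix_ch hg hx hy hC).2 (Or.inl ⟨e, e'⟩), hC⟩⟩
  have := (h.fix_ch hg hx hy h2).1 h1
  grind

theorem lines_move (hg : ∀ x, O (g • x) ↔ O x) (h2 : g * g = 1) {x : Ω} (hx : O x)
    (e : g • x ≠ x) : ∑ C, ind (g • C = C ∧ π.I x C) = 1 := by
  rw [h.sum_lines _ hx, ← sum_ind_eq' (g • x)]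
  refine sum_congr rfl fun y _ => congrArg ind (propext ⟨fun ⟨hy, C, h1, h2⟩ => ?_, ?_⟩)
  · have := (h.fix_ch hg hx hy h2).1 h1
    grind
  · rintro rfl
    obtain ⟨C, hC⟩ := h.exists_ch hx ((hg x).2 hx)
    exact ⟨(hg x).2 hx, C, (h.fix_ch hg hx ((hg x).2 hx) hC).2
      (Or.inr ⟨rfl, smul_smul_of_sq h2 x⟩), hC⟩

theorem baer_fix (hg : ∀ x, O (g • x) ↔ O x)
    (S : π.Sub (fun x => g • x = x) (fun C => g • C = C) r) {x : Ω} (hx : O x) (e : g • x = x) :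
    ∑ y, ind (O y ∧ g • y = y) = r := (h.lines_fix hg hx e).symm.trans (S.hr x e)

omit h in
theorem sub_lines {A : Ω → Prop} {B : Y → Prop} (S : π.Sub A B r) :
    ∑ C, ind (B C) = r * (r - 1) + 1 := by
  obtain ⟨x, hx⟩ := S.ne
  rw [S.card, sum_ind_card, Nat.card_eq_fintype_card]
  exact S.pl.card_eq ⟨x, hx⟩

theorem tan_fix (B : Y → Prop) (A : Ω → Prop) (e : ∀ x C, O x → π.Ch O x x C → (B C ↔ A x)) :
    ∑ x, ind (O x ∧ ∃ C, B C ∧ π.Ch O x x C) = ∑ x, ind (O x ∧ A x) :=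
  sum_congr rfl fun x _ => congrArg ind (propext (and_congr_right fun hx =>
    ⟨fun ⟨C, h1, h2⟩ => (e x C hx h2).1 h1, fun h1 =>
      let ⟨C, hC⟩ := h.exists_ch hx hx; ⟨C, (e x C hx hC).2 h1, hC⟩⟩))

/-- Every line of the Baer subplane meets the oval. -/
theorem baer_meet (hg : ∀ x, O (g • x) ↔ O x) (h2 : g * g = 1)
    (S : π.Sub (fun x => g • x = x) (fun C => g • C = C) r) (hr : (r - 1) ^ 2 = π.k - 1) {x : Ω}
    (hx : O x) (e : g • x = x) {C : Y} (hC : g • C = C) : ∃ z, O z ∧ π.I z C := by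
  by_contra h0
  push Not at h0
  have h1 := h.count fun C => g • C = C
  have h3 := h.baer_fix hg S hx e
  rw [sub_lines S, h.tan_fix _ (fun x => g • x = x)
    (fun x C hx hC => by simpa using h.fix_ch hg hx hx hC), h3] at h1
  have h4 : ∑ x, ind (O x) * ∑ C, ind (g • C = C ∧ π.I x C) =
      ∑ x, (ind (O x) + (r - 1) * ind (O x ∧ g • x = x)) := sum_congr rfl fun y _ => by
    by_cases hy : O y
    · by_cases e : g • y = y
      · rw [h.lines_fix hg hy e, h3]; simp [hy, e, ind_pos]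
      · rw [h.lines_move hg h2 hy e]; simp [hy, e, ind_pos, ind_neg]
    · simp [hy, ind_neg]
  rw [h4, sum_add_distrib, ← mul_sum, h3, h.card] at h1
  have h5 := single_le_sum (f := fun C => ind (g • C = C ∧ ∀ z, O z → ¬ π.I z C))
    (fun _ _ => ind_nonneg _) (mem_univ C)
  rw [ind_pos ⟨hC, h0⟩] at h5
  nlinarith

theorem sub_oval (hg : ∀ x, O (g • x) ↔ O x)
    (S : π.Sub (fun x => g • x = x) (fun C => g • C = C) r) (hr : (r - 1) ^ 2 = π.k - 1) {x : Ω}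
    (hx : O x) (e : g • x = x) : S.pl.Oval fun x => O x where
  card := (sum_ind_subtype (fun x => g • x = x) O).trans (by
    simp only [and_comm (b := O _)]; exact h.baer_fix hg S hx e)
  arc h1 h2 h3 h4 h5 h6 := by simpa only [Subtype.ext_iff] using h.arc h1 h2 h3 h4 h5 h6
  even := by
    obtain ⟨s, hs⟩ := h.even
    change 2 ∣ r
    rcases Int.even_or_odd' r with ⟨u, rfl | rfl⟩
    · simp
    · exfalso
      have : 4 * (u * u) = 2 * s - 1 := by rw [← hs, ← hr]; ring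
      omega

theorem exists_move (hr : (r - 1) ^ 2 = π.k - 1) (h3 : 3 ≤ r)
    (e : ∑ y, ind (O y ∧ g • y = y) = r) : ∃ y, O y ∧ g • y ≠ y := by
  obtain ⟨y, hy, h1⟩ := exists_of_sum_ind_ne (P := O) (Q := fun y => O y ∧ g • y = y)
    (by rw [e, h.card]; nlinarith)
  exact ⟨y, hy, fun e => h1 ⟨hy, e⟩⟩

theorem invol_cases (hg : ∀ x, O (g • x) ↔ O x) (h1 : g ≠ 1) (h2 : g * g = 1) :
    (∑ C : Y, ind (g • C = C) ≤ π.k + 1 ∧ ∑ y, ind (O y ∧ g • y = y) ≤ 2) ∨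
      ∃ s : ℤ, 3 ≤ s ∧ (s - 1) ^ 2 = π.k - 1 ∧ ∑ C : Y, ind (g • C = C) = s * (s - 1) + 1 ∧
        (∑ y, ind (O y ∧ g • y = y) = 0 ∨ ∑ y, ind (O y ∧ g • y = y) = s) := by
  by_cases ha : ∃ a, g ∈ π.Ax a
  · obtain ⟨a, ha⟩ := ha
    obtain ⟨c, H⟩ := h.hom_of_ax h1 h2 ha
    exact Or.inl ⟨hom_lines H, h.fix_le hg H⟩
  push Not at ha
  obtain ⟨x, hx⟩ := h.nonempty
  obtain ⟨s, S, hs⟩ := baer h2 ha x
  refine Or.inr ⟨s, S.r3, hs, sub_lines S, ?_⟩
  by_cases e : ∃ x, O x ∧ g • x = x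
  · obtain ⟨x, hx, e⟩ := e
    exact Or.inr (h.baer_fix hg S hx e)
  · exact Or.inl (sum_eq_zero fun y _ => ind_neg fun e' => e ⟨y, e'⟩)

omit h in
theorem comm_fix {Z : Type*} [MulAction G Z] (hc : g * t = t * g) (x : Z) :
    g • t • x = t • x ↔ g • x = x := by
  rw [← mul_smul, hc, mul_smul, smul_left_cancel_iff]

/-- A four-group preserving an oval contains a homology. -/
theorem four (hg : ∀ x, O (g • x) ↔ O x) (ht : ∀ x, O (t • x) ↔ O x) (g2 : g * g = 1)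
    (t2 : t * t = 1) (hc : g * t = t * g) (ga : ∀ a, g ∉ π.Ax a) (ta : ∀ a, t ∉ π.Ax a)
    (ua : ∀ a, g * t ∉ π.Ax a) (gx : ∃ x, O x ∧ g • x = x) (tx : ∃ x, O x ∧ t • x = x)
    (ux : ∃ x, O x ∧ (g * t) • x = x) : False := by
  have hu : ∀ x, O ((g * t) • x) ↔ O x := fun x => by rw [mul_smul, hg, ht]
  have u2 : g * t * (g * t) = 1 := by
    rw [mul_assoc, ← mul_assoc t, ← hc, mul_assoc, t2, mul_one, g2]
  obtain ⟨x, hx, ex⟩ := gx
  obtain ⟨y, hy, ey⟩ := tx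
  obtain ⟨z, hz, ez⟩ := ux
  obtain ⟨r, S, hr⟩ := baer g2 ga x
  obtain ⟨r', S', hr'⟩ := baer t2 ta x
  obtain ⟨r'', S'', hr''⟩ := baer u2 ua x
  have r3 := S.r3
  obtain rfl : r = r' := by have := S'.r3; nlinarith
  obtain rfl : r = r'' := by have := S''.r3; nlinarith
  have f1 := h.baer_fix hg S hx ex
  have f2 := h.baer_fix ht S' hy ey
  have f3 := h.baer_fix hu S'' hz ez
  have hO := h.sub_oval hg S hr hx ex
  have g1 := smul_smul_of_sq (Z := Ω) g2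
  have t1 := smul_smul_of_sq (Z := Ω) t2
  have c1 : ∀ x : Ω, g • t • x = t • g • x := fun x => by rw [← mul_smul, hc, mul_smul]
  simp only [mul_smul] at f3
  obtain ⟨t', ht'⟩ : ∃ t', t' = S.res t (comm_fix hc) (comm_fix hc) := ⟨_, rfl⟩
  have p1 : ∀ x : {x : Ω // g • x = x}, t' • x = x ↔ t • x.1 = x := fun x => by
    rw [ht', Subtype.ext_iff]; rfl
  have p2 : ∀ x : {x : Y // g • x = x}, t' • x = x ↔ t • x.1 = x := fun x => by
    rw [ht', Subtype.ext_iff]; rfl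
  by_cases e : t' = 1
  · obtain ⟨w, hw, ew⟩ := h.exists_move hr r3 f1
    obtain ⟨C, hC⟩ := h.exists_ch hw ((hg w).2 hw)
    have h1 := (h.fix_ch hg hw ((hg w).2 hw) hC).2 (Or.inr ⟨rfl, g1 w⟩)
    have h2 := (h.fix_ch ht hw ((hg w).2 hw) hC).1 ((p2 ⟨C, h1⟩).1 (by rw [e, one_smul]))
    have h3 : ∀ x : Ω, g • x = x → t • x = x := fun x hx => (p1 ⟨x, hx⟩).1 (by rw [e, one_smul])
    rcases h2 with h2 | h2
    · exact ew (imp_of_sum_ind_eq (fun x hx => ⟨hx.1, h3 x hx.2⟩) (f1.trans f2.symm) w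
        ⟨hw, h2.1⟩).2
    · exact ew (imp_of_sum_ind_eq (fun x hx => ⟨hx.1, by rw [h3 x hx.2, hx.2]⟩)
        (f1.trans f3.symm) w ⟨hw, by rw [h2.1, g1]⟩).2
  have h1 := hO.invol_cases (g := t') (fun x => by rw [ht']; exact ht x) e (by
    rw [ht']
    exact Subtype.ext (Prod.ext (Equiv.ext fun x => Subtype.ext (t1 x))
      (Equiv.ext fun x => Subtype.ext (smul_smul_of_sq t2 x.1))))
  simp only [p1, p2] at h1
  rw [sum_ind_subtype (fun x : Y => g • x = x) fun C => t • C = C,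
    sum_ind_subtype (fun x : Ω => g • x = x) fun x => O x ∧ t • x = x] at h1
  have h2 := h.count fun C => g • C = C ∧ t • C = C
  rw [h.tan_fix _ (fun x => g • x = x ∧ t • x = x) (fun x C hx hC => by
    simp [h.fix_ch hg hx hx hC, h.fix_ch ht hx hx hC])] at h2
  simp only [and_left_comm (b := O _)] at h1
  generalize hf : ∑ x, ind (O x ∧ g • x = x ∧ t • x = x) = f at h1 h2
  have h3 : ∑ x, ((f - 3) * ind (O x ∧ g • x = x ∧ t • x = x) + ind (O x ∧ g • x = x) +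
      ind (O x ∧ t • x = x) + ind (O x ∧ g • t • x = x)) ≤
      ∑ x, ind (O x) * ∑ C, ind ((g • C = C ∧ t • C = C) ∧ π.I x C) := sum_le_sum fun x _ => by
    by_cases hx : O x
    swap
    · simp [hx, ind_neg]
    have k : ∀ y, O y → ((g • x = x ∧ g • y = y) ∨ (g • x = y ∧ g • y = x)) →
        ((t • x = x ∧ t • y = y) ∨ (t • x = y ∧ t • y = x)) →
        O y ∧ ∃ C, (g • C = C ∧ t • C = C) ∧ π.Ch O x y C := fun y hy a b =>
      let ⟨C, hC⟩ := h.exists_ch hx hy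
      ⟨hy, C, ⟨(h.fix_ch hg hx hy hC).2 a, (h.fix_ch ht hx hy hC).2 b⟩, hC⟩
    have k1 : ∀ y, (O y ∧ ∃ C, (g • C = C ∧ t • C = C) ∧ π.Ch O x y C) →
        1 ≤ ∑ y, ind (O y ∧ ∃ C, (g • C = C ∧ t • C = C) ∧ π.Ch O x y C) := fun y hy =>
      (ind_pos hy).ge.trans (single_le_sum (f := fun y =>
        ind (O y ∧ ∃ C, (g • C = C ∧ t • C = C) ∧ π.Ch O x y C)) (fun _ _ => ind_nonneg _)
        (mem_univ y))
    rw [h.sum_lines _ hx, ind_pos hx, one_mul]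
    by_cases a : g • x = x <;> by_cases b : t • x = x
    · have := sum_le_sum (s := univ) fun y _ => ind_mono (P := O y ∧ g • y = y ∧ t • y = y)
        fun e => k y e.1 (Or.inl ⟨a, e.2.1⟩) (Or.inl ⟨b, e.2.2⟩)
      simp only [hx, a, b, and_self, ind_pos]
      omega
    · have := k1 _ (k _ ((ht x).2 hx) (Or.inl ⟨a, by rw [c1, a]⟩) (Or.inr ⟨rfl, t1 x⟩))
      have c : g • t • x ≠ x := by rwa [c1, a]
      simpa [hx, a, b, c, ind_pos, ind_neg] using this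
    · have := k1 _ (k _ ((hg x).2 hx) (Or.inr ⟨rfl, g1 x⟩) (Or.inl ⟨b, by rw [← c1, b]⟩))
      simpa [hx, a, b, ind_pos, ind_neg] using this
    · by_cases c : g • t • x = x
      · have c' : t • x = g • x := by rw [← g1 (t • x), c]
        have := k1 _ (k _ ((hg x).2 hx) (Or.inr ⟨rfl, g1 x⟩) (Or.inr ⟨c', by rw [← c', t1]⟩))
        simpa [hx, a, b, c, ind_pos, ind_neg] using this
      · simpa [hx, a, b, c, ind_neg] using sum_nonneg fun _ _ => ind_nonneg _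
  simp only [sum_add_distrib, ← mul_sum] at h3
  rw [hf, f1, f2, f3] at h3
  have h4 : 0 ≤ ∑ C, ind ((g • C = C ∧ t • C = C) ∧ ∀ z, O z → ¬ π.I z C) :=
    sum_nonneg fun _ _ => ind_nonneg _
  have h5 : 0 ≤ f := hf ▸ sum_nonneg fun _ _ => ind_nonneg _
  have h6 : 4 ≤ r := hO.k4
  change (_ ≤ r + 1 ∧ _) ∨ ∃ s : ℤ, _ ∧ _ = r - 1 ∧ _ at h1
  rcases h1 with ⟨h7, h8⟩ | ⟨s, h7, h8, h9, rfl | rfl⟩
  · interval_cases f <;> omega
  · nlinarith
  · nlinarith

theorem res_not_ax (ht : ∀ x, O (t • x) ↔ O x) (e : t * t = g) (g2 : g * g = 1)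
    (S : π.Sub (fun x => g • x = x) (fun C => g • C = C) r) (hr : (r - 1) ^ 2 = π.k - 1) {x : Ω}
    (hx : O x) (ex : g • x = x) (hA hB) (a) : S.res t hA hB ∉ S.pl.Ax a := fun ha => by
  have hg : ∀ x, O (g • x) ↔ O x := fun x => by rw [← e, mul_smul, ht, ht]
  have k : ∀ C, g • C = C → t • C = C → ∃ z, O z ∧ g • z = z ∧ π.I z C := fun C h1 h2 => by
    obtain ⟨z, hz, h3⟩ := h.baer_meet hg g2 S hr hx ex h1
    obtain ⟨y, hy, h4⟩ := h.exists_other hz h3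
    have := (h.fix_ch ht hz hy h4).1 h2
    exact ⟨z, hz, by rw [← e, mul_smul]; grind, h3⟩
  have hO := h.sub_oval hg S hr hx ex
  by_cases e1 : S.res t hA hB = 1
  · obtain ⟨w, hw, ew⟩ := h.exists_move hr S.r3 (h.baer_fix hg S hx ex)
    obtain ⟨C, hC⟩ := h.exists_ch hw ((hg w).2 hw)
    have h1 := (h.fix_ch hg hw ((hg w).2 hw) hC).2 (Or.inr ⟨rfl, smul_smul_of_sq g2 w⟩)
    obtain ⟨z, hz, h2, h3⟩ := k C h1 (congrArg Subtype.val (show S.res t hA hB • (⟨C, h1⟩ :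
      {C : Y // g • C = C}) = ⟨C, h1⟩ by rw [e1, one_smul]))
    rcases hC.2.2 z hz h3 with rfl | rfl
    · exact ew h2
    · exact ew (smul_left_cancel g h2)
  obtain ⟨c, H⟩ := hO.hom_of_ax e1 (Subtype.ext (Prod.ext
    (Equiv.ext fun x => Subtype.ext (show t • t • x.1 = x.1 by rw [← mul_smul, e, x.2]))
    (Equiv.ext fun x => Subtype.ext (show t • t • x.1 = x.1 by rw [← mul_smul, e, x.2])))) ha
  obtain ⟨C, h1, h2⟩ := hO.exists_ext (fun x => ht x) H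
  obtain ⟨z, hz, h3, h4⟩ := k C C.2 (congrArg Subtype.val (Cen_line H.cen h1))
  exact h2 ⟨z, h3⟩ hz h4

/-- No quaternion group with a Baer involution fixes a point of the oval. -/
theorem quat {s : G} (hs : ∀ x, O (s • x) ↔ O x) (ht : ∀ x, O (t • x) ↔ O x) (es : s * s = g)
    (et : t * t = g) (eu : s * t * (s * t) = g) (g2 : g * g = 1) (ga : ∀ a, g ∉ π.Ax a) {x : Ω}
    (hx : O x) (sx : s • x = x) (tx : t • x = x) : False := by
  have ex : g • x = x := by rw [← es, mul_smul, sx, sx]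
  have hg : ∀ x, O (g • x) ↔ O x := fun x => by rw [← es, mul_smul, hs, hs]
  obtain ⟨r, S, hr⟩ := baer g2 ga x
  have cs : g * s = s * g := by rw [← es, mul_assoc]
  have ct : g * t = t * g := by rw [← et, mul_assoc]
  have cu : g * (s * t) = s * t * g := by rw [← mul_assoc, cs, mul_assoc, ct, mul_assoc]
  have c : s * t = t * s * g := by
    have h1 : s * (t * s * g) * t = s * (s * t) * t := by
      rw [mul_assoc, mul_assoc, ct, ← mul_assoc, ← mul_assoc, ← mul_assoc, mul_assoc (s * t) s, eu,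
        g2, ← mul_assoc s s, mul_assoc _ t, es, et, g2]
    exact (mul_left_cancel (mul_right_cancel h1)).symm
  have hu : ∀ x, O ((s * t) • x) ↔ O x := fun x => by rw [mul_smul, hs, ht]
  refine (h.sub_oval hg S hr hx ex).four (g := S.res s (comm_fix cs) (comm_fix cs))
    (t := S.res t (comm_fix ct) (comm_fix ct)) (fun x => hs x) (fun x => ht x) ?_ ?_ ?_
    (h.res_not_ax hs es g2 S hr hx ex _ _) (h.res_not_ax ht et g2 S hr hx ex _ _) (fun a ha => ?_)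
    ⟨⟨x, ex⟩, hx, Subtype.ext sx⟩ ⟨⟨x, ex⟩, hx, Subtype.ext tx⟩
    ⟨⟨x, ex⟩, hx, Subtype.ext (show s • t • x = x by rw [tx, sx])⟩
  · exact Subtype.ext (Prod.ext
      (Equiv.ext fun x => Subtype.ext (show s • s • x.1 = x.1 by rw [← mul_smul, es, x.2]))
      (Equiv.ext fun x => Subtype.ext (show s • s • x.1 = x.1 by rw [← mul_smul, es, x.2])))
  · exact Subtype.ext (Prod.ext
      (Equiv.ext fun x => Subtype.ext (show t • t • x.1 = x.1 by rw [← mul_smul, et, x.2]))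
      (Equiv.ext fun x => Subtype.ext (show t • t • x.1 = x.1 by rw [← mul_smul, et, x.2])))
  · exact Subtype.ext (Prod.ext
      (Equiv.ext fun x => Subtype.ext (show s • t • x.1 = t • s • x.1 by
        rw [← mul_smul, c, mul_smul, x.2, mul_smul]))
      (Equiv.ext fun x => Subtype.ext (show s • t • x.1 = t • s • x.1 by
        rw [← mul_smul, c, mul_smul, x.2, mul_smul])))
  · exact h.res_not_ax hu eu g2 S hr hx ex (comm_fix cu) (comm_fix cu) a (mem_Ax.2 fun y hy =>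
      Subtype.ext ((mul_smul s t y.1).trans (congrArg Subtype.val (Ax_pt ha hy))))

end Oval

end Pl

end CL.SymDes
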