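import Mathlib
import Cfsg.Agent.PERM.Oval2

/-!
Configurations of homologies which cannot preserve an oval.
-/

set_option autoImplicit false

namespace CL.SymDes

open Finset MulAction Subgroup
open scoped Classical

theorem dvd_of_orbits {G Z : Type*} [Group G] [MulAction G Z] [Fintype Z] {d : ℕ} (P : Z → Prop)
    (hP : ∀ (g : G) x, P x → P (g • x)) (h : ∀ x, P x → d ∣ (stabilizer G x).index) :
    (d : ℤ) ∣ ∑ x, ind (P x) := by
  rw [← sum_fiberwise univ (Quotient.mk (orbitRel G Z))]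
  refine dvd_sum fun ω _ => ?_
  induction ω using Quotient.inductionOn with | h x => ?_
  have h1 : ∀ y, (Quotient.mk (orbitRel G Z) y = Quotient.mk _ x) ↔ y ∈ orbit G x := fun y =>
    Quotient.eq.trans orbitRel_apply
  by_cases hx : P x
  · rw [sum_filter]
    have : ∑ y, (if Quotient.mk (orbitRel G Z) y = Quotient.mk _ x then ind (P y) else 0) =
        ∑ y, ind (y ∈ orbit G x) := sum_congr rfl fun y _ => by
      simp only [h1]
      split_ifs with e
      · obtain ⟨g, rfl⟩ := e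
        rw [ind_pos (hP g x hx), ind_pos (mem_orbit x g)]
      · rw [ind_neg e]
    rw [this, sum_ind_card, Int.natCast_dvd_natCast]
    have := h x hx
    rwa [index_stabilizer, ← Nat.card_coe_set_eq] at this
  · rw [sum_eq_zero fun y hy => ind_neg fun e => hx ?_]
    · exact dvd_zero _
    obtain ⟨g, rfl⟩ := (h1 y).1 (mem_filter.1 hy).2
    simpa using hP g⁻¹ _ e

theorem card_dvd_of_free {G Z : Type*} [Group G] [MulAction G Z] [Fintype Z] (H : Subgroup G)
    (P : Z → Prop) (hP : ∀ g ∈ H, ∀ x, P x → P (g • x))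
    (h : ∀ g ∈ H, ∀ x, P x → g • x = x → g = 1) : (Nat.card H : ℤ) ∣ ∑ x, ind (P x) :=
  dvd_of_orbits (G := H) P (fun g => hP g g.2) fun x hx => by
    rw [(eq_bot_iff.2 fun g hg => Subtype.ext (h g g.2 x hx hg) : stabilizer H x = ⊥), index_bot]

theorem zpowers_inv {G Z : Type*} [Group G] [Finite G] [MulAction G Z] {t : G} {P : Z → Prop}
    (hP : ∀ x, P x → P (t • x)) : ∀ g ∈ zpowers t, ∀ x, P x → P (g • x) := by
  intro g hg
  obtain ⟨n, rfl⟩ := mem_powers_iff_mem_zpowers.2 hg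
  induction n with
  | zero => simp
  | succ n ih => exact fun x hx => by simpa only [pow_succ, mul_smul] using ih (by simp) _ (hP x hx)

theorem four_dvd {G Z : Type*} [Group G] [Finite G] [MulAction G Z] [Fintype Z] {t : G}
    (h4 : t * t * (t * t) = 1) (P : Z → Prop) (hP : ∀ x, P x → P (t • x))
    (h : ∀ x, P x → t • t • x ≠ x) : (4 : ℤ) ∣ ∑ x, ind (P x) := by
  by_cases e : ∃ x, P x
  swap
  · rw [sum_eq_zero fun x _ => ind_neg fun hx => e ⟨x, hx⟩]; exact dvd_zero _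
  obtain ⟨x, hx⟩ := e
  have h1 : orderOf t = 2 ^ (1 + 1) := orderOf_eq_prime_pow
    (fun e => h x hx (by rw [← mul_smul, ← sq, show t ^ 2 = 1 from e, one_smul]))
    (by rw [← h4, ← sq, ← sq, ← pow_mul]; rfl)
  have h2 := card_dvd_of_free (zpowers t) P (zpowers_inv hP) fun g hg y hy e => by
    obtain ⟨n, hn, rfl⟩ := mem_image.1 (mem_zpowers_iff_mem_range_orderOf.1 hg)
    have h3 := h y hy
    rw [mem_range, h1] at hn
    have h5 : ∀ y : Z, t • t • t • t • y = y := fun y => by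
      simp only [← mul_smul, ← mul_assoc]; rw [mul_assoc (t * t), h4, one_smul]
    interval_cases n
    · exact pow_zero t
    · exact (h3 (by rw [pow_one] at e; rw [e, e])).elim
    · exact (h3 (by rwa [sq, mul_smul] at e)).elim
    · simp only [pow_succ, pow_zero, one_mul, mul_smul] at e
      have h6 : t • y = y := by conv_lhs => rw [← e, h5]
      exact (h3 (by rw [h6, h6])).elim
  rwa [Nat.card_zpowers, h1] at h2

theorem prime_dvd_sub {G Z : Type*} [Group G] [Finite G] [MulAction G Z] [Fintype Z] {t : G} {r : ℕ}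
    (hr : r.Prime) (ht : t ^ r = 1) (P : Z → Prop) (hP : ∀ x, P x → P (t • x)) :
    (r : ℤ) ∣ ∑ x, ind (P x) - ∑ x, ind (P x ∧ t • x = x) := by
  have : Fact r.Prime := ⟨hr⟩
  have h1 := dvd_sub_fix (p := r) (H := zpowers t) (IsPGroup.of_card_dvd_pow (n := 1) (by
    rw [Nat.card_zpowers, pow_one]; exact orderOf_dvd_of_pow_eq_one ht)) P (zpowers_inv hP)
  have h2 : ∀ x : Z, (∀ h ∈ zpowers t, h • x = x) ↔ t • x = x := fun x =>
    ⟨fun h => h t (mem_zpowers t), fun h g hg =>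
      zpowers_inv (P := fun y => y = x) (by rintro _ rfl; exact h) g hg x rfl⟩
  simpa only [h2] using h1

theorem four_dvd_of_perfect {G Z : Type*} [Group G] [MulAction G Z] [Fintype Z]
    (hG : commutator G = ⊤) {g : G} (hg : g * g = 1) :
    (4 : ℤ) ∣ Fintype.card Z - ∑ x : Z, ind (g • x = x) := by
  have h1 : Equiv.Perm.sign (toPermHom G Z g) = 1 :=
    Abelianization.commutator_subset_ker (Equiv.Perm.sign.comp (toPermHom G Z)) (hG ▸ mem_top g)
  have h2 : toPermHom G Z g ^ 2 = 1 := by rw [← map_pow, sq, hg, map_one]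
  rw [Equiv.Perm.sign_of_pow_two_eq_one h2, neg_one_pow_eq_one_iff_even (by decide)] at h1
  have h3 := Equiv.Perm.two_dvd_card_support h2
  have h4 : ∑ x : Z, ind (g • x = x) = Fintype.card (Function.fixedPoints (toPermHom G Z g)) := by
    rw [sum_ind_card, Nat.card_eq_fintype_card]; rfl
  have h5 := Equiv.Perm.card_fixedPoints (toPermHom G Z g)
  rw [Equiv.Perm.sum_cycleType] at h5
  have h6 := card_le_univ (toPermHom G Z g).support
  obtain ⟨u, hu⟩ := h1
  omega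

namespace Pl

variable {G Ω Y : Type*} [Group G] [Fintype Ω] [Fintype Y] [MulAction G Ω] [MulAction G Y]
  {π : Pl G Ω Y} {O : Ω → Prop}

theorem sum_line_two {l : Y} {P : Ω → Prop} {x y : Ω} (e : x ≠ y)
    (h : ∀ z, π.I z l ∧ P z ↔ z = x ∨ z = y) : ∑ z, ind (π.I z l ∧ P z) = 2 := by
  have : ∀ z, ind (π.I z l ∧ P z) = ind (z = x) + ind (z = y) := fun z => by
    rw [h]; unfold ind; split_ifs <;> simp_all
  simp only [this, sum_add_distrib, sum_ind_eq', one_add_one_eq_two]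

namespace Oval

variable (h : π.Oval O) (hO : ∀ (g : G) x, O (g • x) ↔ O x)
include h hO

theorem same_ax {g t : G} {c d : Ω} {a : Y} (H : π.Hom g c a) (K : π.Hom t d a) : g = t := by
  by_contra e
  obtain ⟨u, hu⟩ := exists_Cen (mul_mem H.ax K.ax)
  have h1 := h.sq_eq_one (hO _) hu
  refine H.nI (h.cen_mem_ax (hO g) (hO t) H K e ?_)
  rw [mul_eq_one_iff_eq_inv.1 h1, mul_inv_rev, H.inv_eq, K.inv_eq]

theorem k22 {a a' z z' : G} {A A' Z Z' : Ω} {α α' ζ ζ' : Y} (H : π.Hom a A α) (H' : π.Hom a' A' α')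
    (K : π.Hom z Z ζ) (K' : π.Hom z' Z' ζ') (e : a ≠ a') (e' : z ≠ z') (e1 : a ≠ z) (e2 : a ≠ z')
    (e3 : a' ≠ z) (e4 : a' ≠ z') (c1 : a * z = z * a) (c2 : a * z' = z' * a)
    (c3 : a' * z = z * a') (c4 : a' * z' = z' * a') : False := by
  obtain rfl := π.meet_eq (B := ζ) (C := ζ') (by rintro rfl; exact e' (h.same_ax hO K K'))
    (h.cen_mem_ax (hO _) (hO _) H K e1 c1) (h.cen_mem_ax (hO _) (hO _) H K' e2 c2)
    (h.cen_mem_ax (hO _) (hO _) H' K e3 c3) (h.cen_mem_ax (hO _) (hO _) H' K' e4 c4)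
  exact e (h.same_cen (hO _) (hO _) H H')

variable (ev : ∀ g : G, g * g = 1 → 4 ∣ π.k - ∑ x, ind (O x ∧ g • x = x))
include ev

theorem fix_two' (hk : 4 ∣ π.k - 2) {g : G} {c : Ω} {a : Y} (H : π.Hom g c a) :
    ∃ x y, O x ∧ O y ∧ x ≠ y ∧ ∀ z, O z → (g • z = z ↔ z = x ∨ z = y) := by
  have h1 := ev g H.sq
  have h2 : 0 ≤ ∑ x, ind (O x ∧ g • x = x) := sum_nonneg fun _ _ => ind_nonneg _
  exact h.fix_two (hO g) H (by omega)

theorem no_root [Finite G] {a b t : G} {A B : Ω} {α β : Y} (H : π.Hom a A α) (K : π.Hom b B β)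
    (e : a ≠ b) (ht : t * t = a) (c : b * t = t * b) : False := by
  have c1 : a * b = b * a := by rw [← ht, mul_assoc, ← c, ← mul_assoc, ← c, mul_assoc]
  have c2 : a * t = t * a := by rw [← ht, mul_assoc]
  have h1 := h.cen_mem_ax (hO _) (hO _) H K e c1
  have h2 : t • β = β := Ax_eq K.ne (by simpa only [← c, mul_inv_cancel_right] using (K.conj t).ax) K.ax
  have h3 : β ≠ α := by rintro rfl; exact H.nI h1
  obtain ⟨R, h4, h5⟩ := π.exists_meet h3
  have h6 := four_dvd (t := t) (by rw [ht, H.sq]) (fun x => π.I x β ∧ ¬ a • x = x)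
    (fun x hx => ⟨h2 ▸ π.smul_I t hx.1, by rw [comm_fix c2]; exact hx.2⟩)
    fun x hx => by rw [← mul_smul, ht]; exact hx.2
  have h7 : ∑ z, ind (π.I z β ∧ a • z = z) = 2 := sum_line_two (x := A) (y := R)
    (by rintro rfl; exact H.nI h5) fun z => ⟨fun hz => (pt_of_fix H.ne H.cen H.ax hz.2).imp_right
      fun h6 => π.meet_eq h3 hz.1 h6 h4 h5, by
        rintro (rfl | rfl); exacts [⟨h1, Cen_smul H.cen⟩, ⟨h4, Ax_pt H.ax h5⟩]⟩
  have h8 : ∑ z, ind (π.I z β ∧ ¬ a • z = z) + ∑ z, ind (π.I z β ∧ a • z = z) = π.k := by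
    rw [← π.hk β, ← sum_add_distrib]
    exact sum_congr rfl fun z _ => by unfold ind; split_ifs <;> simp_all
  obtain ⟨x, y, hx, hy, hxy, h9⟩ := h.fix_two' hO ev (by omega) K
  have k1 := (h9 x hx).2 (Or.inl rfl)
  have k2 := (h9 y hy).2 (Or.inr rfl)
  have k3 := (h9 _ ((hO t x).2 hx)).1 ((comm_fix c x).2 k1)
  have k4 := (h9 _ ((hO t y).2 hy)).1 ((comm_fix c y).2 k2)
  have k5 := MulAction.injective t (a₁ := x) (a₂ := y)
  have k6 : a • x = x := by rw [← ht, mul_smul]; grind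
  have k7 : a • y = y := by rw [← ht, mul_smul]; grind
  have := h.agree (hO _) (hO _) H K e hx hy (k6.trans k1.symm) (k7.trans k2.symm)
  grind

theorem no_odd_aux [Finite G] {a b c t : G} {A B C U : Ω} {α β γ L : Y} (Ha : π.Hom a A α)
    (Hb : π.Hom b B β) (Hc : π.Hom c C γ) (ab : a ≠ b) (ac : a ≠ c) (bc : b ≠ c)
    (cab : a * b = b * a) (cac : a * c = c * a) (cbc : b * c = c * b) {r : ℕ} (hr : r.Prime)
    (r2 : r ≠ 2) (ht : t ^ r = 1) (ta : a * t = t * a) (tb : b * t = t * b) (tc : c * t = t * c)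
    (hL : ∀ x : Ω, t • x = x → π.I x L ∨ x = U) (hA : ¬ π.I A L) : False := by
  have k : ∀ {a A α}, π.Hom a A α → a * t = t * a → t • A = A ∧ t • α = α := fun H e => by
    have := H.conj t
    rw [← e, mul_inv_cancel_right] at this
    exact ⟨Cen_eq H.ne this.cen H.cen, Ax_eq H.ne this.ax H.ax⟩
  obtain rfl := (hL A (k Ha ta).1).resolve_left hA
  have AB : A ≠ B := by rintro rfl; exact ab (h.same_cen (hO _) (hO _) Ha Hb)
  have AC : A ≠ C := by rintro rfl; exact ac (h.same_cen (hO _) (hO _) Ha Hc)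
  have BC : B ≠ C := by rintro rfl; exact bc (h.same_cen (hO _) (hO _) Hb Hc)
  have h1 := (hL B (k Hb tb).1).resolve_right AB.symm
  obtain rfl : L = α := π.join_eq BC h1 ((hL C (k Hc tc).1).resolve_right AC.symm)
    (h.cen_mem_ax (hO _) (hO _) Hb Ha ab.symm cab.symm)
    (h.cen_mem_ax (hO _) (hO _) Hc Ha ac.symm cac.symm)
  have h2 := h.cen_mem_ax (hO _) (hO _) Ha Hc ac cac
  have h3 := h.cen_mem_ax (hO _) (hO _) Hb Hc bc cbc
  have h4 := prime_dvd_sub hr ht (fun x => π.I x γ) fun x hx => (k Hc tc).2 ▸ π.smul_I t hx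
  rw [π.hk, sum_line_two AB fun z => ⟨fun hz => (hL z hz.2).symm.imp_right fun h5 =>
    π.meet_eq (by rintro rfl; exact hA h2) hz.1 h5 h3 h1, by
      rintro (rfl | rfl); exacts [⟨h2, (k Ha ta).1⟩, ⟨h3, (k Hb tb).1⟩]⟩] at h4
  have h5 := prime_dvd_sub hr ht O fun x => (hO t x).2
  rw [h.card] at h5
  have h6 : ∀ x, O x → t • x = x → a • x = x := fun x hx e => Ax_pt Ha.ax
    ((hL x e).resolve_right (by rintro rfl; exact h.cen_not_mem (hO _) Ha.ne Ha.cen hx))
  have h7 : ∑ x, ind (O x ∧ t • x = x) ≤ ∑ x, ind (O x ∧ a • x = x) :=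
    sum_le_sum fun x _ => ind_mono fun e => ⟨e.1, h6 x e.1 e.2⟩
  have h8 : ∑ x, ind (O x ∧ t • x = x) ≠ 0 := fun e => by
    rw [e, sub_zero] at h5
    have : (r : ℤ) ∣ (2 : ℕ) := by simpa using dvd_sub h5 h4
    exact r2 ((Nat.prime_dvd_prime_iff_eq hr Nat.prime_two).1 (Int.natCast_dvd_natCast.1 this))
  have h9 : 0 ≤ ∑ x, ind (O x ∧ t • x = x) := sum_nonneg fun _ _ => ind_nonneg _
  have := h.fix_le (hO _) Ha
  have := ev a Ha.sq
  have := h.even
  obtain ⟨x, y, hx, hy, hxy, k0⟩ := h.fix_two' hO ev (by omega) Hb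
  have k1 := (k0 x hx).2 (Or.inl rfl)
  have k2 := (k0 y hy).2 (Or.inr rfl)
  have k3 := (k0 _ ((hO t x).2 hx)).1 ((comm_fix tb x).2 k1)
  have k4 := (k0 _ ((hO t y).2 hy)).1 ((comm_fix tb y).2 k2)
  have k5 := MulAction.injective t (a₁ := x) (a₂ := y)
  have k6 : ∀ x : Ω, t • t • x = x → t • x = x := fun x e => by
    obtain ⟨n, hn⟩ := hr.odd_of_ne_two r2
    have : (t * t) ^ n ∈ stabilizer G x := pow_mem (by rwa [mem_stabilizer_iff, mul_smul]) n
    conv_lhs => rw [← mem_stabilizer_iff.1 this, ← mul_smul, ← sq, ← pow_mul, ← pow_succ', ← hn, ht,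
      one_smul]
  have k7 := h6 x hx (k6 x (by grind))
  have k8 := h6 y hy (k6 y (by grind))
  have := h.agree (hO _) (hO _) Ha Hb ab hx hy (k7.trans k1.symm) (k8.trans k2.symm)
  grind

theorem no_odd [Finite G] {a b c u v : G} {A B C U V : Ω} {α β γ μ ν : Y} (Ha : π.Hom a A α)
    (Hb : π.Hom b B β) (Hc : π.Hom c C γ) (ab : a ≠ b) (ac : a ≠ c) (bc : b ≠ c)
    (cab : a * b = b * a) (cac : a * c = c * a) (cbc : b * c = c * b) (Hu : π.Hom u U μ)
    (Hv : π.Hom v V ν) (uv : u ≠ v) {r : ℕ} (hr : r.Prime) (r2 : r ≠ 2) (ht : (u * v) ^ r = 1)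
    (ta : a * (u * v) = u * v * a) (tb : b * (u * v) = u * v * b) (tc : c * (u * v) = u * v * c) :
    False := by
  have UV : U ≠ V := by rintro rfl; exact uv (h.same_cen (hO _) (hO _) Hu Hv)
  have μν : μ ≠ ν := by rintro rfl; exact uv (h.same_ax hO Hu Hv)
  obtain ⟨L, h1, h2⟩ := π.exists_join UV
  obtain ⟨W, h3, h4⟩ := π.exists_meet μν
  have hL : ∀ x : Ω, (u * v) • x = x → π.I x L ∨ x = W := fun x e => by
    have e' : u • x = v • x := by conv_lhs => rw [← e, mul_smul, Hu.smul_smul]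
    by_cases e1 : u • x = x
    · rcases pt_of_fix Hu.ne Hu.cen Hu.ax e1 with rfl | k1
      · exact Or.inl h1
      rcases pt_of_fix Hv.ne Hv.cen Hv.ax (e' ▸ e1) with rfl | k2
      · exact Or.inl h2
      exact Or.inr (π.meet_eq μν k1 k2 h3 h4)
    · obtain ⟨M, k1, k2⟩ := π.exists_join (x := x) (y := U)
        (by rintro rfl; exact e1 (Cen_smul Hu.cen))
      obtain ⟨N, k3, k4⟩ := π.exists_join (x := x) (y := V)
        (by rintro rfl; exact e1 (e' ▸ Cen_smul Hv.cen))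
      obtain rfl : M = N := π.join_eq e1 (Cen_line Hu.cen k2 ▸ π.smul_I u k1) k1
        (e' ▸ Cen_line Hv.cen k4 ▸ π.smul_I v k3) k3
      exact Or.inl (π.join_eq UV k2 k4 h1 h2 ▸ k1)
  by_cases hA : π.I A L
  swap
  · exact h.no_odd_aux hO ev Ha Hb Hc ab ac bc cab cac cbc hr r2 ht ta tb tc hL hA
  by_cases hB : π.I B L
  swap
  · exact h.no_odd_aux hO ev Hb Ha Hc ab.symm bc ac cab.symm cbc cac hr r2 ht tb ta tc hL hB
  refine h.no_odd_aux hO ev Hc Ha Hb ac.symm bc.symm ab cac.symm cbc.symm cab hr r2 ht tc ta tb hL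
    fun hC => Hc.nI ?_
  exact π.join_eq (x := A) (y := B) (by rintro rfl; exact ab (h.same_cen (hO _) (hO _) Ha Hb)) hA hB
    (h.cen_mem_ax (hO _) (hO _) Ha Hc ac cac) (h.cen_mem_ax (hO _) (hO _) Hb Hc bc cbc) ▸ hC

end Oval

end Pl

end CL.SymDes
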