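import Mathlib
import Cfsg.Agent.PERM.Oval3

/-!
Two-groups acting on an oval: the homologies generate a dihedral group.
-/

set_option autoImplicit false
set_option linter.unusedSectionVars false

namespace CL.OvalG

open Finset MulAction Subgroup CL.SymDes
open scoped Classical

variable {Γ Ω : Type*} [Group Γ] [Finite Γ] [MulAction Γ Ω] [Fintype Ω]

theorem exists_invol (hp : IsPGroup 2 Γ) {g : Γ} (hg : g ≠ 1) :
    ∃ t ∈ zpowers g, t ≠ 1 ∧ t * t = 1 := by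
  obtain ⟨n, hn⟩ := hp g
  simpa using exists_sq_mem (S := ⊥) n (by simpa using hg) (by simpa using hn)

theorem exists_pair (hp : IsPGroup 2 Γ) (hc : (4 : ℤ) ∣ Fintype.card Ω - 2) :
    ∃ P Q : Ω, P ≠ Q ∧ ∀ g : Γ, (g • P = P ∧ g • Q = Q) ∨ (g • P = Q ∧ g • Q = P) := by
  have h0 : ∑ _ : Ω, ind True = Fintype.card Ω := by simp [ind]
  obtain ⟨x, hx⟩ : ∃ x : Ω, ¬ 4 ∣ (stabilizer Γ x).index := by
    by_contra h
    push Not at h
    have := dvd_of_orbits (G := Γ) (d := 4) (fun _ : Ω => True) (fun _ _ _ => trivial)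
      fun x _ => h x
    omega
  obtain ⟨n, hn⟩ := hp.index (stabilizer Γ x)
  rcases n with _ | _ | n
  · have h1 : ∀ g : Γ, g • x = x := fun g => (index_eq_one.1 hn).ge (mem_top g)
    obtain ⟨y, hy, h2⟩ : ∃ y : Ω, y ≠ x ∧ ¬ 2 ∣ (stabilizer Γ y).index := by
      by_contra h
      push Not at h
      have h2 := dvd_of_orbits (G := Γ) (d := 2) (fun y : Ω => y ≠ x)
        (fun g y hy e => hy (smul_left_cancel g (e.trans (h1 g).symm))) h
      have h3 : ∑ y, (ind (y ≠ x) + ind (y = x)) = ∑ _ : Ω, ind True :=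
        sum_congr rfl fun y _ => by unfold ind; split_ifs <;> simp_all
      rw [sum_add_distrib, sum_ind_eq'] at h3
      omega
    obtain ⟨_ | n, hn⟩ := hp.index (stabilizer Γ y)
    · exact ⟨x, y, hy.symm, fun g => Or.inl ⟨h1 g, (index_eq_one.1 hn).ge (mem_top g)⟩⟩
    · exact (h2 (hn ▸ dvd_pow_self 2 n.succ_ne_zero)).elim
  · obtain ⟨t, ht⟩ : ∃ t : Γ, t ∉ stabilizer Γ x := by
      by_contra h
      push Not at h
      rw [(eq_top_iff' _).2 h, index_top] at hn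
      omega
    have k : ∀ a b : Γ, a * b ∈ stabilizer Γ x ↔ (a ∈ stabilizer Γ x ↔ b ∈ stabilizer Γ x) :=
      fun a b => mul_mem_iff_of_index_two hn
    refine ⟨x, t • x, fun e => ht e.symm, fun g => ?_⟩
    by_cases hg : g ∈ stabilizer Γ x
    · refine Or.inl ⟨hg, ?_⟩
      have : t⁻¹ * (g * t) ∈ stabilizer Γ x := by simp only [k, inv_mem_iff, ht, hg]; simp
      rwa [mem_stabilizer_iff, mul_smul, inv_smul_eq_iff, mul_smul] at this
    · have h1 : t⁻¹ * g ∈ stabilizer Γ x := by simp only [k, inv_mem_iff, ht, hg]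
      have h2 : g * t ∈ stabilizer Γ x := by simp only [k, ht, hg]
      rw [mem_stabilizer_iff, mul_smul] at h1 h2
      exact Or.inr ⟨inv_smul_eq_iff.1 h1, h2⟩
  · exact (hx (hn ▸ ⟨2 ^ n, by ring⟩)).elim

/-- The properties of homologies (`D`) and Baer involutions acting on an oval. -/
structure Ab (Ω : Type*) [MulAction Γ Ω] [Fintype Ω] (D : Γ → Prop) (m : ℤ) : Prop where
  p2 : IsPGroup 2 Γ
  ne : ∀ {a}, D a → a ≠ 1
  sq : ∀ {a}, D a → a * a = 1
  conj : ∀ {a} g, D a → D (g * a * g⁻¹)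
  two : ∀ {a}, D a → ∃ x y : Ω, x ≠ y ∧ ∀ z, a • z = z ↔ z = x ∨ z = y
  agree : ∀ {a b} {x y : Ω}, D a → D b → a ≠ b → a • x = b • x → a • y = b • y → y = x ∨ y = a • x
  mul : ∀ {a b}, D a → D b → a ≠ b → a * b = b * a → D (a * b)
  fix : ∀ {g : Γ}, g ≠ 1 → g * g = 1 → ¬ D g → ∑ x : Ω, ind (g • x = x) = m
  m4 : 4 ∣ m - 2
  bb : ∀ {s t : Γ}, s ≠ 1 → s * s = 1 → ¬ D s → t ≠ 1 → t * t = 1 → ¬ D t → s ≠ t →
    s * t = t * s → D (s * t)
  cyc : ∀ (H : Subgroup Γ) (x : Ω), (∀ g ∈ H, g • x = x) → (∀ g ∈ H, ¬ D g) → IsCyclic H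
  card : (4 : ℤ) ∣ Fintype.card Ω - 2

/-- an invariant pair of points and the homology fixing them -/
structure Pr (D : Γ → Prop) (P Q : Ω) (z : Γ) : Prop where
  ne : P ≠ Q
  pair : ∀ g : Γ, (g • P = P ∧ g • Q = Q) ∨ (g • P = Q ∧ g • Q = P)
  dz : D z
  zP : z • P = P

/-- a dihedral group generated by homologies -/
structure Good (D : Γ → Prop) (P Q : Ω) (z a x : Γ) : Prop where
  aP : a • P = Q
  xP : x • P = P
  z : z ∈ zpowers x
  d : ∀ t ∈ zpowers x, D (a * t)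

variable {D : Γ → Prop} {m : ℤ} {P Q : Ω} {z a x : Γ}

theorem fix_of_mem {x t : Γ} {P : Ω} (h : x • P = P) (ht : t ∈ zpowers x) : t • P = P :=
  zpowers_le.2 (mem_stabilizer_iff.2 h) ht

theorem Ab.dih (h : Ab Ω D m) {a b : Γ} (ha : D a) (hb : D b) :
    ∀ t ∈ zpowers (a * b), D (a * t) := by
  have h1 : ∀ n : ℕ, D (a * (a * b) ^ n) ∧ D (a * (a * b) ^ (n + 1)) := fun n => by
    induction n with
    | zero => simp [← mul_assoc, h.sq ha, ha, hb]
    | succ n ih =>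
      refine ⟨ih.2, ?_⟩
      convert h.conj (a * b)⁻¹ ih.1 using 1
      rw [inv_inv, mul_inv_rev, ← mul_assoc _ a ((a * b) ^ n), inv_mul_cancel_right, pow_succ,
        pow_succ', inv_eq_of_mul_eq_one_right (h.sq hb)]
      simp only [← mul_assoc, h.sq ha, one_mul]
  intro t ht
  obtain ⟨n, rfl⟩ := mem_powers_iff_mem_zpowers.2 ht
  exact (h1 n).1

theorem Ab.uniq (h : Ab Ω D m) (hPQ : P ≠ Q) {a b : Γ} (ha : D a) (hb : D b) (h1 : a • P = P)
    (h2 : a • Q = Q) (h3 : b • P = P) (h4 : b • Q = Q) : a = b := by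
  by_contra e
  have := h.agree ha hb e (h1.trans h3.symm) (h2.trans h4.symm)
  grind

theorem Ab.exists_root (h : Ab Ω D m) {a b : Γ} (ha : D a) (hb : D b) (e : a ≠ b) :
    ∃ u ∈ zpowers (a * b), D u := by
  obtain ⟨u, hu, h1, h2⟩ := exists_invol h.p2 (g := a * b) fun e' =>
    e (by rw [eq_inv_of_mul_eq_one_left e', inv_eq_of_mul_eq_one_right (h.sq hb)])
  have h3 := h.dih ha hb u hu
  have h4 : a * u = u * a := by
    rw [eq_inv_of_mul_eq_one_left (h.sq h3), mul_inv_rev, inv_eq_of_mul_eq_one_right h2,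
      inv_eq_of_mul_eq_one_right (h.sq ha)]
  have := h.mul ha h3 (by simpa using h1) (by rw [mul_assoc, ← h4])
  rw [← mul_assoc, h.sq ha, one_mul] at this
  exact ⟨u, hu, this⟩

namespace Pr

variable (h : Ab Ω D m) (p : Pr D P Q z)
include p

theorem fixQ {g : Γ} (e : g • P = P) : g • Q = Q := by
  have := p.pair g; have := p.ne; grind

theorem swap {g : Γ} (e : g • P ≠ P) : g • P = Q := by have := p.pair g; grind

theorem swapQ {g : Γ} (e : g • P = Q) : g • Q = P := by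
  have := p.pair g; have := p.ne; grind

theorem sqP (g : Γ) : (g * g) • P = P := by have := p.pair g; rw [mul_smul]; grind

theorem conjP {s : Γ} (e : s • P = P) (g : Γ) : (g * s * g⁻¹) • P = P := by
  have := p.fixQ e
  rw [mul_smul, mul_smul, smul_eq_iff_eq_inv_smul]
  rcases p.pair g⁻¹ with e | e <;> rw [e.1] <;> assumption

include h

theorem eq_z {b : Γ} (hb : D b) (e : b • P = P) : b = z :=
  h.uniq p.ne hb p.dz e (p.fixQ e) p.zP (p.fixQ p.zP)

theorem comm (g : Γ) : g * z = z * g :=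
  mul_inv_eq_iff_eq_mul.1 (p.eq_z h (h.conj g p.dz) (p.conjP p.zP g))

theorem zfix {Y : Ω} (e : z • Y = Y) : Y = P ∨ Y = Q := by
  obtain ⟨x, y, -, h1⟩ := h.two p.dz
  have := (h1 P).1 p.zP
  have := (h1 Q).1 (p.fixQ p.zP)
  have := (h1 Y).1 e
  have := p.ne
  grind

theorem root {c g : Γ} (hc : D c) (e : c • P = Q) (hg : c * g = g * c) : g * g ≠ z := fun e' => by
  obtain ⟨x, y, hxy, h1⟩ := h.two hc
  have k1 := (h1 x).2 (Or.inl rfl)
  have k3 := (h1 _).1 ((Pl.Oval.comm_fix hg x).2 k1)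
  have k4 := (h1 _).1 ((Pl.Oval.comm_fix hg y).2 ((h1 y).2 (Or.inr rfl)))
  have k5 := MulAction.injective g (a₁ := x) (a₂ := y)
  have k6 := p.zfix h (Y := x) (by rw [← e', mul_smul]; grind)
  have := p.swapQ e
  have := p.ne
  grind

theorem good {a b : Γ} (ha : D a) (hb : D b) (e : a ≠ b) (h1 : a • P = Q) (h2 : b • P = Q) :
    Good D P Q z a (a * b) := by
  have h3 : (a * b) • P = P := by rw [mul_smul, h2, p.swapQ h1]
  obtain ⟨u, hu, h4⟩ := h.exists_root ha hb e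
  exact ⟨h1, h3, p.eq_z h h4 (fix_of_mem h3 hu) ▸ hu, h.dih ha hb⟩

end Pr

theorem Ab.exists_good (h : Ab Ω D m) {a b : Γ} (ha : D a) (hb : D b) (e : a ≠ b) :
    ∃ (P Q : Ω) (z a x : Γ), Pr D P Q z ∧ Good D P Q z a x := by
  obtain ⟨P, Q, h1, h2⟩ := exists_pair h.p2 h.card
  have k : ∀ {a b}, D a → D b → a ≠ b → b • P = P →
      ∃ (P Q : Ω) (z a x : Γ), Pr D P Q z ∧ Good D P Q z a x := fun {a b} ha hb e h3 => by
    have p : Pr D P Q b := ⟨h1, h2, hb, h3⟩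
    have h4 := p.swap fun e' => e (p.eq_z h ha e')
    exact ⟨P, Q, b, a, _, p, p.good h ha (h.mul ha hb e (p.comm h a)) (by simpa using (h.ne hb))
      h4 (by rw [mul_smul, h3, h4])⟩
  by_cases h3 : b • P = P
  · exact k ha hb e h3
  by_cases h4 : a • P = P
  · exact k hb ha e.symm h4
  obtain ⟨u, hu, h5⟩ := h.exists_root ha hb e
  have h6 : (a * b) • P = P := by
    have := h2 a; have := h2 b; rw [mul_smul]; grind
  exact k ha h5 (by rintro rfl; exact h4 (fix_of_mem h6 hu)) (fix_of_mem h6 hu)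

namespace Good

variable (h : Ab Ω D m) (p : Pr D P Q z) (f : Good D P Q z a x)
include h f

theorem da : D a := by simpa using f.d 1 (one_mem _)

theorem aa : a * a = 1 := h.sq (f.da h)

theorem ainv : a⁻¹ = a := inv_eq_of_mul_eq_one_right (f.aa h)

theorem inv {t : Γ} (ht : t ∈ zpowers x) : a * t * a = t⁻¹ :=
  eq_inv_of_mul_eq_one_left (by simpa only [mul_assoc] using h.sq (f.d t ht))

theorem mul_a {t : Γ} (ht : t ∈ zpowers x) : t * a = a * t⁻¹ := by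
  rw [← f.inv h ht, ← mul_assoc, ← mul_assoc, f.aa h, one_mul]

/-- the dihedral group -/
def T : Subgroup Γ where
  carrier := {g | g ∈ zpowers x ∨ ∃ t ∈ zpowers x, g = a * t}
  one_mem' := Or.inl (one_mem _)
  mul_mem' := by
    rintro g g' (hg | ⟨t, ht, rfl⟩) (hg' | ⟨t', ht', rfl⟩)
    · exact Or.inl (mul_mem hg hg')
    · exact Or.inr ⟨g⁻¹ * t', mul_mem (inv_mem hg) ht', by
        rw [← mul_assoc, f.mul_a h hg, mul_assoc]⟩
    · exact Or.inr ⟨t * g', mul_mem ht hg', mul_assoc _ _ _⟩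
    · exact Or.inl (by rw [← mul_assoc, f.inv h ht]; exact mul_mem (inv_mem ht) ht')
  inv_mem' := by
    rintro g (hg | ⟨t, ht, rfl⟩)
    · exact Or.inl (inv_mem hg)
    · exact Or.inr ⟨t, ht, inv_eq_of_mul_eq_one_right (h.sq (f.d t ht))⟩

theorem mem_T {g : Γ} : g ∈ f.T h ↔ g ∈ zpowers x ∨ ∃ t ∈ zpowers x, g = a * t := Iff.rfl

theorem a_mem : a ∈ f.T h := Or.inr ⟨1, one_mem _, (mul_one a).symm⟩

include p

theorem refP {t : Γ} (ht : t ∈ zpowers x) : (a * t) • P = Q := by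
  rw [mul_smul, fix_of_mem f.xP ht, f.aP]

theorem mem_of_fix {g : Γ} (hg : g ∈ f.T h) (e : g • P = P) : g ∈ zpowers x :=
  hg.elim id fun ⟨t, ht, e'⟩ => (p.ne (by rw [← f.refP h p ht, ← e', e])).elim

theorem ord : ∃ k : ℕ, orderOf x = 2 ^ (k + 1) ∧ z = x ^ (2 ^ k : ℤ) := by
  obtain ⟨n, hn⟩ := IsPGroup.iff_orderOf.1 h.p2 x
  obtain ⟨j, hj⟩ := mem_zpowers_iff.1 f.z
  have h1 := h.ne p.dz
  have h2 := h.sq p.dz
  rw [← hj, ← zpow_add, ← orderOf_dvd_iff_zpow_eq_one, hn] at h2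
  rw [← hj, Ne, ← orderOf_dvd_iff_zpow_eq_one, hn] at h1
  rcases n with _ | k
  · simp at h1
  refine ⟨k, hn, ?_⟩
  rw [← hj, zpow_eq_zpow_iff_modEq, hn]
  push_cast at h1 h2 ⊢
  obtain ⟨u, hu⟩ := h2
  obtain rfl : j = 2 ^ k * u := by rw [pow_succ] at hu; linarith
  rcases Int.even_or_odd' u with ⟨v, rfl | rfl⟩
  · exact (h1 ⟨v, by ring⟩).elim
  · exact (Int.modEq_iff_dvd.2 ⟨-v, by ring⟩)

theorem eq_z {t : Γ} (ht : t ∈ zpowers x) (h2 : t * t = 1) : t = 1 ∨ t = z := by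
  by_cases e : t = 1
  · exact Or.inl e
  have h3 : a * (a * t) = a * t * a := by
    rw [f.inv h ht, ← mul_assoc, f.aa h, one_mul, inv_eq_of_mul_eq_one_right h2]
  have := h.mul (f.da h) (f.d t ht) (by simpa using e) h3
  rw [← mul_assoc, f.aa h, one_mul] at this
  exact Or.inr (p.eq_z h this (fix_of_mem f.xP ht))

theorem odd {g : Γ} {e : ℤ} (he : g * x * g⁻¹ = x ^ e) : Odd e := by
  obtain ⟨k, hk, hz⟩ := f.ord h p
  by_contra h1
  obtain ⟨u, rfl⟩ := Int.not_odd_iff_even.1 h1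
  have h2 : g * z * g⁻¹ = 1 := by
    rw [hz, ← conj_zpow, he, ← zpow_mul, ← orderOf_dvd_iff_zpow_eq_one, hk]
    exact ⟨u, by push_cast; ring⟩
  exact h.ne (h.conj g p.dz) h2

theorem mem_odd {i : ℤ} (hi : Odd i) : x ∈ zpowers (x ^ i) := by
  obtain ⟨k, hk, -⟩ := f.ord h p
  rw [mem_zpowers_zpow_iff, hk]
  exact Int.isCoprime_iff_gcd_eq_one.1 (by
    push_cast; exact (Int.isCoprime_two_right.2 hi).pow_right)

/-- An element acting on the cyclic subgroup as a power congruent to `3` modulo `4` together with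
the reflection centralises an element of order four. -/
theorem exists_four (hk : ¬ orderOf x ∣ 2) :
    ∃ w ∈ zpowers x, w * w = z ∧ ∀ (g : Γ) (e : ℤ), g * x * g⁻¹ = x ^ e →
      (4 ∣ e - 1 → g * w = w * g) ∧ (4 ∣ e + 1 → a * g * w = w * (a * g)) := by
  obtain ⟨_ | k, h1, h2⟩ := f.ord h p
  · exact (hk (by rw [h1]; rfl)).elim
  refine ⟨x ^ (2 ^ k : ℤ), zpow_mem_zpowers _ _, by rw [h2, ← zpow_add]; congr 1; ring,
    fun g e he => ⟨fun ⟨u, hu⟩ => ?_, fun ⟨u, hu⟩ => ?_⟩⟩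
  · rw [← mul_inv_eq_iff_eq_mul, ← conj_zpow, he, ← zpow_mul, zpow_eq_zpow_iff_modEq, h1]
    exact Int.modEq_iff_dvd.2 ⟨-u, by push_cast; linear_combination (-2 ^ k) * hu⟩
  · rw [← mul_inv_eq_iff_eq_mul, mul_inv_rev, f.ainv h, ← mul_assoc, mul_assoc a, mul_assoc a,
      ← conj_zpow, he, ← zpow_mul, f.inv h (zpow_mem_zpowers _ _), ← zpow_neg,
      zpow_eq_zpow_iff_modEq, h1]
    exact Int.modEq_iff_dvd.2 ⟨u, by push_cast; linear_combination (2 ^ k) * hu⟩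

theorem step {c : Γ} (hc : D c) (cP : c • P = Q) (hn : ∀ t ∈ zpowers x, c ≠ a * t)
    (h1 : ∀ t ∈ zpowers x, ∃ t' ∈ zpowers x, c * (a * t) * c⁻¹ = a * t') :
    ∃ y, Good D P Q z a y ∧ orderOf x < orderOf y := by
  obtain ⟨_, ⟨i, rfl⟩, hi⟩ := h1 1 (one_mem _)
  obtain ⟨t, ht, h2⟩ := h1 x (mem_zpowers x)
  simp only [mul_one] at hi
  have cc := inv_eq_of_mul_eq_one_right (h.sq hc)
  obtain ⟨e, he⟩ : ∃ e : ℤ, c * x * c⁻¹ = x ^ e := by
    have : c * x * c⁻¹ = (x ^ i)⁻¹ * t := by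
      rw [← f.inv h (zpow_mem_zpowers x i), ← hi, mul_assoc _ a, ← h2]
      simp [mul_assoc, ← mul_assoc a a, f.aa h]
    exact (mem_zpowers_iff.1 (this ▸ mul_mem (inv_mem (zpow_mem_zpowers x i)) ht)).imp
      fun _ => Eq.symm
  rcases Int.even_or_odd' i with ⟨j, rfl | rfl⟩
  · exfalso
    obtain ⟨s, hs⟩ : ∃ s : ℤ, (orderOf x : ℤ) ∣ 2 * j + e * s - s := by
      by_cases hk : orderOf x ∣ 2
      · exact ⟨0, by simpa using (Int.natCast_dvd_natCast.2 hk).mul_right j⟩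
      obtain ⟨w, -, hw, h3⟩ := f.exists_four h p hk
      obtain ⟨u, rfl⟩ := f.odd h p he
      have h4 : Odd u := Int.not_even_iff_odd.1 fun ⟨v, hv⟩ =>
        p.root h hc cP ((h3 c _ he).1 ⟨v, by rw [hv]; ring⟩) hw
      obtain ⟨k, hk, -⟩ := f.ord h p
      obtain ⟨α, β, h5⟩ := (Int.isCoprime_two_right.2 h4).pow_right (n := k + 1)
      exact ⟨-j * α, 2 * j * β, by rw [hk]; push_cast; linear_combination (-2 * j) * h5⟩
    have h3 : c * (a * x ^ s) * c⁻¹ = a * x ^ s := by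
      rw [← conj_mul, hi, ← conj_zpow, he, ← zpow_mul, mul_assoc, ← zpow_add,
        zpow_eq_zpow_iff_modEq.2 (Int.modEq_iff_dvd.2 hs).symm]
    have h4 := f.d _ (zpow_mem_zpowers x s)
    have h5 := p.eq_z h (h.mul hc h4 (hn _ (zpow_mem_zpowers x s)) (mul_inv_eq_iff_eq_mul.1 h3))
      (by rw [mul_smul, f.refP h p (zpow_mem_zpowers x s), p.swapQ cP])
    refine hn (x ^ s * z) (mul_mem (zpow_mem_zpowers x s) f.z) ?_
    rw [← mul_assoc, p.comm h, ← h5, mul_assoc, h.sq h4, mul_one]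
  · have h3 : a * c * (a * c) = x ^ (2 * j + 1) := by
      rw [cc] at hi
      rw [mul_assoc, ← mul_assoc c, hi, ← mul_assoc, f.aa h, one_mul]
    have h4 : zpowers x < zpowers (a * c) := by
      refine lt_of_le_of_ne (zpowers_le.2 (zpowers_le.2 ?_ (f.mem_odd h p ⟨j, rfl⟩))) fun e => ?_
      · exact h3 ▸ mul_mem (mem_zpowers _) (mem_zpowers _)
      · exact hn _ (e ▸ mem_zpowers (a * c)) (by rw [← mul_assoc, f.aa h, one_mul])
    refine ⟨a * c, p.good h (f.da h) hc (by simpa using (hn 1 (one_mem _)).symm) f.aP cP, ?_⟩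
    simpa only [Nat.card_zpowers] using card_lt_of_lt h4

end Good

theorem Ab.exists_max (h : Ab Ω D m) {a b : Γ} (ha : D a) (hb : D b) (e : a ≠ b) :
    ∃ (P Q : Ω) (z a x : Γ), Pr D P Q z ∧ Good D P Q z a x ∧
      ∀ c, D c → c = z ∨ ∃ t ∈ zpowers x, c = a * t := by
  obtain ⟨P, Q, z, a, x₀, p, f₀⟩ := h.exists_good ha hb e
  obtain ⟨x, f, hx⟩ := Set.exists_max_image {x | Good D P Q z a x} orderOf (Set.toFinite _) ⟨x₀, f₀⟩
  replace f : Good D P Q z a x := f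
  refine ⟨P, Q, z, a, x, p, f, fun c hc => or_iff_not_imp_left.2 fun hcz => by_contra fun hn => ?_⟩
  obtain ⟨N, ⟨hN, hN'⟩, hmax⟩ := Set.Finite.exists_maximal (s := {N : Subgroup Γ | f.T h ≤ N ∧
      ∀ c ∈ N, D c → c • P = Q → ∃ t ∈ zpowers x, c = a * t}) (Set.toFinite _)
    ⟨f.T h, le_rfl, fun c hc _ e => hc.resolve_left fun e' =>
      p.ne ((fix_of_mem f.xP e').symm.trans e)⟩
  have := h.p2.isNilpotent
  have h1 : N < normalizer (N : Set Γ) := normalizerCondition_of_isNilpotent N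
    (lt_top_iff_ne_top.2 (by
      rintro rfl
      exact hn (hN' c (mem_top c) hc (p.swap fun e => hcz (p.eq_z h hc e)))))
  obtain ⟨d, hd, h2, h3, h4⟩ : ∃ d ∈ normalizer (N : Set Γ), D d ∧ d • P = Q ∧
      ∀ t ∈ zpowers x, d ≠ a * t := by
    by_contra h2
    push Not at h2
    exact h1.not_ge (hmax ⟨hN.trans h1.le, h2⟩ h1.le)
  obtain ⟨y, h5, h6⟩ := f.step h p h2 h3 h4 fun t ht => hN' _
    ((mem_normalizer_iff.1 hd _).1 (hN (Or.inr ⟨t, ht, rfl⟩))) (h.conj d (f.d t ht))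
    (p.swap fun e => by
      have := p.conjP e d⁻¹
      simp only [mul_assoc, inv_mul_cancel_left, inv_inv, inv_mul_cancel, mul_one] at this
      exact p.ne (this.symm.trans (f.refP h p ht)))
  exact h6.not_ge (hx y h5)

end CL.OvalG
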