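import Mathlib
import Cfsg.Agent.PERM.Oval4

/-!
Two-groups acting on an oval: a cyclic quotient separating the Baer involutions.
-/

set_option autoImplicit false
set_option linter.unusedSectionVars false

namespace CL.OvalG

open Finset MulAction Subgroup CL.SymDes
open scoped Classical

variable {Γ Ω : Type*} [Group Γ] [Finite Γ] [MulAction Γ Ω] [Fintype Ω]

/-- there is a cyclic quotient whose kernel contains no involution outside `D` -/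
def Res (D : Γ → Prop) : Prop :=
  ∃ (N : Subgroup Γ) (_ : N.Normal), IsCyclic (Γ ⧸ N) ∧ ∀ s ∈ N, s ≠ 1 → s * s = 1 → D s

theorem res_of {D : Γ → Prop} (N H : Subgroup Γ) [N.Normal] [IsCyclic H]
    (h : ∀ y, ∃ q ∈ N, ∃ u ∈ H, y = q * u) (hN : ∀ s ∈ N, s ≠ 1 → s * s = 1 → D s) : Res D :=
  ⟨N, ‹_›, isCyclic_of_surjective ((QuotientGroup.mk' N).comp H.subtype) fun y => by
    obtain ⟨y, rfl⟩ := QuotientGroup.mk_surjective y
    obtain ⟨q, hq, u, hu, rfl⟩ := h y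
    exact ⟨⟨u, hu⟩, by simp [(QuotientGroup.eq_one_iff q).2 hq]⟩, hN⟩

theorem cyc_invol {C : Type*} [Group C] [Finite C] [IsCyclic C] {s t : C} (s1 : s ≠ 1)
    (s2 : s * s = 1) (t1 : t ≠ 1) (t2 : t * t = 1) : s = t := by
  by_contra e
  have := Fintype.ofFinite C
  have h1 := IsCyclic.card_pow_eq_one_le (α := C) (n := 2) two_pos
  have h2 : ({1, s, t} : Finset C) ⊆ univ.filter fun a => a ^ 2 = 1 := by
    intro a ha
    simp only [mem_insert, mem_singleton] at ha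
    rcases ha with rfl | rfl | rfl <;> simp [sq, *]
  have h3 := card_le_card h2
  rw [card_eq_three.2 ⟨1, s, t, s1.symm, t1.symm, e, rfl⟩] at h3
  omega

theorem zcomm {x s t : Γ} (hs : s ∈ zpowers x) (ht : t ∈ zpowers x) : s * t = t * s := by
  obtain ⟨i, rfl⟩ := mem_zpowers_iff.1 hs
  obtain ⟨j, rfl⟩ := mem_zpowers_iff.1 ht
  exact zpow_mul_comm x i j

/-- the full frame -/
structure Fr (D : Γ → Prop) (m : ℤ) (P Q X : Ω) (z a x : Γ) : Prop where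
  h : Ab Ω D m
  p : Pr D P Q z
  f : Good D P Q z a x
  all : ∀ c, D c → c = z ∨ ∃ t ∈ zpowers x, c = a * t
  aX : a • X = X

namespace Fr

variable {D : Γ → Prop} {m : ℤ} {P Q X : Ω} {z a x : Γ} (F : Fr D m P Q X z a x)
include F

theorem aa : a * a = 1 := F.f.aa F.h

theorem zz : z * z = 1 := F.h.sq F.p.dz

theorem comm (g : Γ) : g * z = z * g := F.p.comm F.h g

theorem conj_ref (g : Γ) {t : Γ} (ht : t ∈ zpowers x) :
    ∃ t' ∈ zpowers x, g * (a * t) * g⁻¹ = a * t' :=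
  (F.all _ (F.h.conj g (F.f.d t ht))).resolve_left fun e => by
    rw [mul_inv_eq_iff_eq_mul, ← F.comm, mul_left_cancel_iff] at e
    exact F.p.ne (by rw [← F.f.refP F.h F.p ht, e, F.p.zP])

theorem conj_a (g : Γ) : ∃ t ∈ zpowers x, g * a * g⁻¹ = a * t := by
  simpa using F.conj_ref g (one_mem _)

theorem normal0 : (zpowers x).Normal := ⟨fun t ht g => by
  obtain ⟨u, hu, h1⟩ := F.conj_a g
  obtain ⟨v, hv, h2⟩ := F.conj_ref g ht
  have : g * t * g⁻¹ = u⁻¹ * v := by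
    rw [← F.f.inv F.h hu, ← h1, mul_assoc _ a, ← h2]
    simp [mul_assoc, ← mul_assoc a a, F.aa]
  exact this ▸ mul_mem (inv_mem hu) hv⟩

theorem conj_x (g : Γ) : ∃ e : ℤ, g * x * g⁻¹ = x ^ e :=
  (mem_zpowers_iff.1 (F.normal0.conj_mem x (mem_zpowers x) g)).imp fun _ => Eq.symm

/-- the dihedral group -/
abbrev T : Subgroup Γ := F.f.T F.h

instance normalT : F.T.Normal := ⟨by
  rintro s (hs | ⟨t, ht, rfl⟩) g
  · exact Or.inl (F.normal0.conj_mem s hs g)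
  · exact Or.inr (F.conj_ref g ht)⟩

theorem d_mem {c : Γ} (hc : D c) : c ∈ F.T :=
  (F.all c hc).elim (fun e => Or.inl (e ▸ F.f.z)) Or.inr

theorem d_of_mem : ∀ s ∈ F.T, s ≠ 1 → s * s = 1 → D s := by
  rintro s (hs | ⟨t, ht, rfl⟩) h1 h2
  · exact ((F.f.eq_z F.h F.p hs h2).resolve_left h1) ▸ F.p.dz
  · exact F.f.d t ht

theorem semi {t : Γ} (ht : t ∈ zpowers x) {Y : Ω} (e : t • Y = Y) (h1 : Y ≠ P) (h2 : Y ≠ Q) :
    t = 1 := by
  by_contra h3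
  have := F.h.agree (x := P) (y := Y) (F.f.da F.h) (F.f.d t ht) (by simpa using h3)
    (by rw [mul_smul, fix_of_mem F.f.xP ht]) (by rw [mul_smul, e])
  rw [F.f.aP] at this
  tauto

theorem XP : X ≠ P := fun e => F.p.ne (by rw [← F.f.aP, ← e, F.aX])

theorem XQ : X ≠ Q := fun e => F.p.ne (by rw [← F.p.swapQ F.f.aP, ← e, F.aX])

theorem zX : z • X ≠ X := fun e => (F.p.zfix F.h e).elim F.XP F.XQ

theorem afix {Y : Ω} (e : a • Y = Y) : Y = X ∨ Y = z • X := by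
  obtain ⟨u, v, -, h1⟩ := F.h.two (F.f.da F.h)
  have := (h1 X).1 F.aX
  have := (h1 _).1 ((Pl.Oval.comm_fix (F.comm a) X).2 F.aX)
  have := (h1 Y).1 e
  have := F.zX
  grind

/-- the planar part of the centraliser of `a` -/
def K (_ : Fr D m P Q X z a x) : Subgroup Γ := centralizer {a} ⊓ stabilizer Γ P ⊓ stabilizer Γ X

theorem mem_K {g : Γ} : g ∈ F.K ↔ (g * a = a * g ∧ g • P = P) ∧ g • X = X := by
  simp [K, mem_centralizer_singleton_iff]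

theorem K_not {g : Γ} (hg : g ∈ F.K) : ¬ D g := fun e =>
  F.zX (F.p.eq_z F.h e (F.mem_K.1 hg).1.2 ▸ (F.mem_K.1 hg).2)

instance cycK : IsCyclic F.K := F.h.cyc _ X (fun _ hg => (F.mem_K.1 hg).2) fun _ => F.K_not

theorem K_invol {s t : Γ} (hs : s ∈ F.K) (ht : t ∈ F.K) (s1 : s ≠ 1) (s2 : s * s = 1)
    (t2 : t * t = 1) : t = 1 ∨ t = s :=
  or_iff_not_imp_left.2 fun t1 => congrArg Subtype.val (cyc_invol (C := F.K) (s := ⟨t, ht⟩)
    (t := ⟨s, hs⟩) (by simpa using t1) (Subtype.ext t2) (by simpa using s1) (Subtype.ext s2))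

theorem K_comm {s t : Γ} (hs : s ∈ F.K) (ht : t ∈ F.K) : s * t = t * s :=
  congrArg Subtype.val (IsCyclic.isMulCommutative.is_comm.comm (⟨s, hs⟩ : F.K) ⟨t, ht⟩)

theorem sq_mem {g : Γ} (hg : g * a = a * g) : g * g ∈ F.K := by
  refine F.mem_K.2 ⟨⟨by rw [mul_assoc, hg, ← mul_assoc, hg, mul_assoc], F.p.sqP g⟩, ?_⟩
  rw [mul_smul]
  rcases F.afix ((Pl.Oval.comm_fix hg.symm X).2 F.aX) with e | e
  · rw [e, e]
  · rw [e, ← mul_smul, F.comm, mul_smul, e, ← mul_smul, F.zz, one_smul]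

theorem cent_dec {g : Γ} (hg : g * a = a * g) : ∃ t ∈ F.T, ∃ u ∈ F.K, g = t * u := by
  have k : ∀ g : Γ, g * a = a * g → g • P = P → ∃ t ∈ F.T, ∃ u ∈ F.K, g = t * u := fun g hg e => by
    rcases F.afix ((Pl.Oval.comm_fix hg.symm X).2 F.aX) with e' | e'
    · exact ⟨1, one_mem _, g, F.mem_K.2 ⟨⟨hg, e⟩, e'⟩, (one_mul g).symm⟩
    · exact ⟨z, Or.inl F.f.z, z * g, F.mem_K.2 ⟨⟨by rw [mul_assoc, hg, ← mul_assoc, ← F.comm,
        mul_assoc], by rw [mul_smul, e, F.p.zP]⟩, by rw [mul_smul, e', ← mul_smul, F.zz, one_smul]⟩,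
        by rw [← mul_assoc, F.zz, one_mul]⟩
  by_cases e : g • P = P
  · exact k g hg e
  obtain ⟨t, ht, u, hu, h1⟩ := k (a * g) (by rw [mul_assoc, hg])
    (by rw [mul_smul, F.p.swap e, F.p.swapQ F.f.aP])
  exact ⟨a * t, mul_mem (F.f.a_mem F.h) ht, u, hu, by rw [mul_assoc, ← h1, ← mul_assoc, F.aa, one_mul]⟩

/-- the elements preserving the two classes of reflections -/
def S : Subgroup Γ where
  carrier := {g | ∃ t ∈ zpowers x, g * a * g⁻¹ = a * (t * t)}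
  one_mem' := ⟨1, one_mem _, by simp⟩
  mul_mem' := by
    rintro g g' ⟨t, ht, h1⟩ ⟨t', ht', h2⟩
    have h3 := F.normal0.conj_mem t' ht' g
    refine ⟨t * (g * t' * g⁻¹), mul_mem ht h3, ?_⟩
    have h4 : t * (g * t' * g⁻¹) = g * t' * g⁻¹ * t := zcomm ht h3
    rw [mul_inv_rev, ← mul_assoc, mul_assoc g, mul_assoc g, h2, ← conj_mul, h1, ← conj_mul,
      mul_assoc a, mul_assoc t, mul_assoc t, ← mul_assoc t (g * t' * g⁻¹), h4, mul_assoc _ t, ← h4]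
  inv_mem' := by
    rintro g ⟨t, ht, h1⟩
    refine ⟨g⁻¹ * t⁻¹ * g⁻¹⁻¹, F.normal0.conj_mem _ (inv_mem ht) _, ?_⟩
    have : a = g⁻¹ * (a * (t * t)) * g := by rw [← h1]; simp [mul_assoc]
    conv_rhs => rw [this]
    simp [mul_assoc]

theorem T_le : F.T ≤ F.S := by
  have h0 : ∀ t ∈ zpowers x, t ∈ F.S := fun t ht =>
    ⟨t⁻¹, inv_mem ht, by rw [F.f.mul_a F.h ht, mul_assoc]⟩
  rintro s (hs | ⟨t, ht, rfl⟩)
  · exact h0 s hs
  · exact mul_mem ⟨1, one_mem _, by simp⟩ (h0 t ht)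

theorem cent_mem {g : Γ} (hg : g * a = a * g) : g ∈ F.S := ⟨1, one_mem _, by simp [hg]⟩

theorem K_le : F.K ≤ F.S := fun _ hg => F.cent_mem (F.mem_K.1 hg).1.1

theorem dec {g : Γ} (hg : g ∈ F.S) : ∃ t ∈ F.T, ∃ u ∈ F.K, g = t * u := by
  obtain ⟨t, ht, h1⟩ := hg
  obtain ⟨s, hs, u, hu, h2⟩ := F.cent_dec (g := t * g) (by
    rw [← mul_inv_eq_iff_eq_mul, mul_inv_rev, ← mul_assoc, mul_assoc t, mul_assoc t, h1, ← mul_assoc,
      F.f.mul_a F.h ht]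
    simp [mul_assoc])
  exact ⟨t⁻¹ * s, mul_mem (Or.inl (inv_mem ht)) hs, u, hu, by rw [mul_assoc, ← h2, inv_mul_cancel_left]⟩

theorem odd_of {g : Γ} (hg : g ∉ F.S) : ∃ i : ℤ, Odd i ∧ g * a * g⁻¹ = a * x ^ i := by
  obtain ⟨_, ⟨i, rfl⟩, h1⟩ := F.conj_a g
  refine ⟨i, Int.not_even_iff_odd.1 ?_, h1⟩
  rintro ⟨j, rfl⟩
  exact hg ⟨x ^ j, zpow_mem_zpowers x j, by rw [h1, ← zpow_add]⟩

theorem mul_mem_S {g g' : Γ} (hg : g ∉ F.S) (hg' : g' ∉ F.S) : g * g' ∈ F.S := by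
  obtain ⟨i, hi, h1⟩ := F.odd_of hg
  obtain ⟨j, hj, h2⟩ := F.odd_of hg'
  obtain ⟨e, he⟩ := F.conj_x g
  obtain ⟨u, hu⟩ := hi.add_odd ((F.f.odd F.h F.p he).mul hj)
  refine ⟨x ^ u, zpow_mem_zpowers x u, ?_⟩
  rw [mul_inv_rev, ← mul_assoc, mul_assoc g, mul_assoc g, h2, ← conj_mul, h1, ← conj_zpow, he,
    ← zpow_mul, mul_assoc, ← zpow_add, hu, zpow_add]

theorem not_left {g s : Γ} (hg : g ∉ F.S) (hs : s ∈ F.S) : s * g ∉ F.S :=
  fun e => hg ((mul_mem_cancel_left hs).1 e)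

theorem not_right {g s : Γ} (hg : g ∉ F.S) (hs : s ∈ F.S) : g * s ∉ F.S :=
  fun e => hg ((mul_mem_cancel_right hs).1 e)

theorem conj_mem_S {s : Γ} (hs : s ∈ F.S) (g : Γ) : g * s * g⁻¹ ∈ F.S := by
  by_cases hg : g ∈ F.S
  · exact mul_mem (mul_mem hg hs) (inv_mem hg)
  · exact F.mul_mem_S (F.not_right hg hs) (mt inv_mem_iff.1 hg)

theorem dec_odd {y : Γ} (hy : y ∉ F.S) (g : Γ) : g ∈ F.S ∨ ∃ s ∈ F.S, g = s * y :=
  or_iff_not_imp_left.2 fun hg => ⟨g * y⁻¹, F.mul_mem_S hg (mt inv_mem_iff.1 hy), by simp⟩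

theorem conj_refl {y : Γ} (hy : y ∉ F.S) {t : Γ} (ht : t ∈ zpowers x) :
    ∃ g : Γ, a * t = g * a * g⁻¹ := by
  obtain ⟨i, ⟨u, rfl⟩, h1⟩ := F.odd_of hy
  obtain ⟨j, rfl⟩ := mem_zpowers_iff.1 ht
  have k : ∀ v w : ℤ, x ^ v * (a * x ^ w) * (x ^ v)⁻¹ = a * x ^ (w - 2 * v) := fun v w => by
    rw [← mul_assoc, F.f.mul_a F.h (zpow_mem_zpowers x v), ← zpow_neg, mul_assoc, mul_assoc,
      ← zpow_add, ← zpow_add]
    congr 2; ring
  rcases Int.even_or_odd' j with ⟨v, rfl | rfl⟩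
  · exact ⟨x ^ (-v), by simpa using (k (-v) 0).symm⟩
  · refine ⟨x ^ (u - v) * y, ?_⟩
    rw [mul_inv_rev, ← mul_assoc, mul_assoc _ y, mul_assoc _ (y * a), h1, k]
    congr 2; ring

section sigma

variable {σ : Γ} (hσ : σ ∈ F.K) (σ1 : σ ≠ 1) (σ2 : σ * σ = 1)
include hσ σ1 σ2

theorem σa : σ * a = a * σ := (F.mem_K.1 hσ).1.1

theorem not_d_mul {c : Γ} (hc : D c) (e : c * σ = σ * c) :
    c * σ ≠ 1 ∧ c * σ * (c * σ) = 1 ∧ ¬ D (c * σ) := by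
  have h1 := F.h.sq hc
  refine ⟨fun e' => F.K_not hσ ?_, by rw [mul_assoc, ← mul_assoc σ, ← e, mul_assoc, σ2, mul_one, h1],
    fun e' => F.K_not hσ ?_⟩
  · rwa [eq_inv_of_mul_eq_one_right e', inv_eq_of_mul_eq_one_right h1]
  · have := F.h.mul hc e' (by simpa using σ1) (by rw [mul_assoc, e])
    rwa [← mul_assoc, h1, one_mul] at this

theorem sigma_conj {y : Γ} (hy : y ∉ F.S) :
    σ * x = x * σ ∧ (y * σ * y⁻¹ = σ ∨ y * σ * y⁻¹ = z * σ) := by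
  obtain ⟨i, hi, h1⟩ := F.odd_of hy
  obtain ⟨t, ht, u, hu, h2⟩ := F.dec (F.conj_mem_S (F.K_le hσ) y)
  have h3 : t ∈ zpowers x := F.f.mem_of_fix F.h F.p ht (by
    have := F.p.conjP (F.mem_K.1 hσ).1.2 y
    rwa [h2, mul_smul, (F.mem_K.1 hu).1.2] at this)
  have h4 : t * u * (t * u) = 1 := by rw [← h2, conj_mul, σ2]; simp
  have h5 : u * u = (t * (u * t * u⁻¹))⁻¹ := by
    refine eq_inv_of_mul_eq_one_right ?_
    rw [← h4]; simp [mul_assoc]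
  have h6 : u * u = 1 := F.semi (h5 ▸ inv_mem (mul_mem h3 (F.normal0.conj_mem t h3 u)))
    (F.mem_K.1 (mul_mem hu hu)).2 F.XP F.XQ
  obtain rfl | rfl := F.K_invol hσ hu σ1 σ2 h6
  · rw [mul_one] at h2 h4
    have h7 := F.h.conj y⁻¹ (F.d_of_mem t ht (by rintro rfl; exact σ1 (by simpa using h2)) h4)
    rw [← h2] at h7
    exact (F.K_not hσ (by simpa [mul_assoc] using h7)).elim
  obtain ⟨s, rfl⟩ := mem_zpowers_iff.1 h3
  obtain ⟨e, he⟩ := F.conj_x u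
  have k1 : (orderOf x : ℤ) ∣ s + e * s := by
    rw [h6, ← conj_zpow, he, ← zpow_mul, ← zpow_add, eq_comm, inv_eq_one] at h5
    exact orderOf_dvd_iff_zpow_eq_one.2 h5
  have k2 : (orderOf x : ℤ) ∣ i - (-s + e * i + -s) := by
    have h7 : x ^ s * u * (a * x ^ i) * (x ^ s * u)⁻¹ = a * x ^ i := by
      rw [← h2, ← h1, conj_mul, F.σa hσ σ1 σ2]; simp [mul_assoc]
    have h8 : u * (a * x ^ i) * u⁻¹ = a * x ^ (e * i) := by
      rw [← conj_mul, ← conj_zpow, he, ← zpow_mul, F.σa hσ σ1 σ2, mul_inv_cancel_right]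
    rw [mul_inv_rev, ← mul_assoc, mul_assoc _ u, mul_assoc _ (u * _), h8, ← mul_assoc, F.f.mul_a F.h h3, ← zpow_neg,
      mul_assoc, mul_assoc, mul_left_cancel_iff, ← mul_assoc, ← zpow_add, ← zpow_add] at h7
    exact Int.modEq_iff_dvd.1 (zpow_eq_zpow_iff_modEq.1 h7)
  obtain ⟨k, hk, -⟩ := F.f.ord F.h F.p
  have k0 : ∀ v : ℤ, Odd v → IsCoprime (orderOf x : ℤ) v := fun v hv => by
    rw [hk]; push_cast; exact (Int.isCoprime_two_left.2 hv).pow_left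
  obtain ⟨v, rfl⟩ := F.f.odd F.h F.p he
  have k3 : (orderOf x : ℤ) ∣ 2 * s := by
    by_cases h7 : orderOf x ∣ 2
    · exact (Int.natCast_dvd_natCast.2 h7).mul_right s
    obtain ⟨w, hw, h8, h9⟩ := F.f.exists_four F.h F.p h7
    rcases Int.even_or_odd' v with ⟨r, rfl | rfl⟩
    · exact (k0 (2 * r + 1) ⟨r, rfl⟩).dvd_of_dvd_mul_left (k1.trans (dvd_of_eq (by ring)))
    obtain ⟨b1, b2, b3⟩ := F.not_d_mul hσ σ1 σ2 (F.f.da F.h) (F.σa hσ σ1 σ2).symm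
    have c := (h9 u _ he).2 ⟨r + 1, by ring⟩
    have c1 := four_dvd (t := w) (by rw [h8, F.zz]) (fun Y : Ω => (a * u) • Y = Y)
      (fun Y => (Pl.Oval.comm_fix c Y).2) fun Y hY e => by
        have c2 : (a * u) • P = Q := by rw [mul_smul, (F.mem_K.1 hσ).1.2, F.f.aP]
        have := F.p.swapQ c2
        have := F.p.ne
        rw [← mul_smul, h8] at e
        rcases F.p.zfix F.h e with rfl | rfl <;> simp_all
    have := F.h.fix b1 b2 b3
    have := F.h.m4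
    omega
  have k4 : (orderOf x : ℤ) ∣ 1 - (2 * v + 1) :=
    (k0 i hi).dvd_of_dvd_mul_left (by convert dvd_sub k2 k3 using 1; ring)
  refine ⟨by rw [← mul_inv_eq_iff_eq_mul, he, zpow_eq_zpow_iff_modEq.2 (Int.modEq_iff_dvd.2 k4),
    zpow_one], ?_⟩
  rw [h2]
  exact (F.f.eq_z F.h F.p h3 (by
    rw [← zpow_add, ← two_mul, ← orderOf_dvd_iff_zpow_eq_one]; exact k3)).imp
    (fun e => by rw [e, one_mul]) fun e => by rw [e]

end sigma

end Fr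

end CL.OvalG
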