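import Mathlib
import Cfsg.Agent.PERM.Oval5

/-!
Two-groups acting on an oval: the end of the analysis.
-/

set_option autoImplicit false
set_option linter.unusedSectionVars false

namespace CL.OvalG

open Finset MulAction Subgroup CL.SymDes
open scoped Classical

variable {Γ Ω : Type*} [Group Γ] [Finite Γ] [MulAction Γ Ω] [Fintype Ω]

theorem two_card_dvd (hp : IsPGroup 2 Γ) {T H : Subgroup Γ} [T.Normal] (h1 : T ⊓ H = ⊥)
    (h2 : H ⊔ T ≠ ⊤) : 2 * Nat.card T ∣ H.index := by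
  have h3 := relIndex_mul_index (le_sup_right : T ≤ H ⊔ T)
  rw [relIndex_sup_right, ← inf_relIndex_right, h1, relIndex_bot_left] at h3
  have h4 := T.card_mul_index
  rw [← h3, ← H.card_mul_index, mul_left_comm, mul_right_inj' Nat.card_pos.ne'] at h4
  obtain ⟨_ | n, hn⟩ := hp.index (H ⊔ T)
  · exact (h2 (index_eq_one.1 hn)).elim
  · exact ⟨2 ^ n, by rw [← h4, hn]; ring⟩

theorem act_mul {g h x : Γ} {e f : ℤ} (he : g * x * g⁻¹ = x ^ e) (hf : h * x * h⁻¹ = x ^ f) :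
    g * h * x * (g * h)⁻¹ = x ^ (e * f) := by
  rw [mul_inv_rev, ← mul_assoc, mul_assoc g, mul_assoc g, hf, ← conj_zpow, he, ← zpow_mul]

/-- the elements centralising or inverting `x` -/
def Pm (x : Γ) : Subgroup Γ where
  carrier := {g | g * x * g⁻¹ = x ∨ g * x * g⁻¹ = x⁻¹}
  one_mem' := Or.inl (by simp)
  mul_mem' := by
    intro g h hg hh
    have k : g * h * x * (g * h)⁻¹ = g * (h * x * h⁻¹) * g⁻¹ := by simp [mul_assoc]
    rcases hg with e | e <;> rcases hh with e' | e' <;> simp only [Set.mem_setOf_eq, k, e']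
    · exact Or.inl e
    · exact Or.inr (by rw [← conj_inv, e])
    · exact Or.inr e
    · exact Or.inl (by rw [← conj_inv, e, inv_inv])
  inv_mem' := by
    rintro g (e | e)
    · exact Or.inl (by conv_lhs => rw [← e]; simp [mul_assoc])
    · exact Or.inr (by conv_lhs => rw [← inv_inv x, ← e]; simp [mul_assoc])

namespace Fr

variable {D : Γ → Prop} {m : ℤ} {P Q X : Ω} {z a x : Γ} (F : Fr D m P Q X z a x)
include F

theorem res_two {y : Γ} (hy : y ∉ F.S) (y2 : y * y ∈ F.T) (hn : ∀ u ∈ F.K, u * y * u⁻¹ * y⁻¹ ∈ F.T)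
    (hi : ∀ t ∈ F.T, t * y * (t * y) ≠ 1) : Res D := by
  have hT := F.normalT
  have hc : ∀ g, g * y * g⁻¹ * y⁻¹ ∈ F.T := fun g => by
    have k : ∀ g ∈ F.S, g * y * g⁻¹ * y⁻¹ ∈ F.T := fun g hg => by
      obtain ⟨t, ht, u, hu, rfl⟩ := F.dec hg
      convert mul_mem (mul_mem ht (hn u hu)) (hT.conj_mem _ (inv_mem ht) y) using 1
      simp [mul_assoc]
    rcases F.dec_odd hy g with hg | ⟨s, hs, rfl⟩
    · exact k g hg
    · simpa [mul_assoc] using k s hs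
  let N : Subgroup Γ :=
    { carrier := {g | g ∈ F.T ∨ g * y⁻¹ ∈ F.T}
      one_mem' := Or.inl (one_mem _)
      mul_mem' := by
        rintro g g' (h | h) (h' | h')
        · exact Or.inl (mul_mem h h')
        · exact Or.inr (by simpa [mul_assoc] using mul_mem h h')
        · exact Or.inr (by simpa [mul_assoc] using mul_mem h (hT.conj_mem _ h' y))
        · exact Or.inl (by simpa [mul_assoc] using mul_mem (mul_mem h (hT.conj_mem _ h' y)) y2)
      inv_mem' := by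
        rintro g (h | h)
        · exact Or.inl (inv_mem h)
        · exact Or.inr (by
            simpa [mul_assoc] using mul_mem (hT.conj_mem _ (inv_mem h) y⁻¹) (inv_mem y2)) }
  have : N.Normal := ⟨by
    rintro n (h | h) g
    · exact Or.inl (hT.conj_mem _ h g)
    · exact Or.inr (by simpa [mul_assoc] using mul_mem (hT.conj_mem _ h g) (hc g))⟩
  refine res_of N F.K (fun g => ?_) ?_
  · rcases F.dec_odd hy g with hg | ⟨s, hs, rfl⟩
    · obtain ⟨t, ht, u, hu, rfl⟩ := F.dec hg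
      exact ⟨t, Or.inl ht, u, hu, rfl⟩
    · obtain ⟨t, ht, u, hu, rfl⟩ := F.dec hs
      exact ⟨t * (u * y * u⁻¹), Or.inr (by simpa [mul_assoc] using mul_mem ht (hn u hu)), u, hu,
        by simp [mul_assoc]⟩
  · rintro s (h | h) s1 s2
    · exact F.d_of_mem s h s1 s2
    · exact (hi _ h (by simpa using s2)).elim

theorem T_le_Pm : F.T ≤ Pm x := by
  have h0 : ∀ t ∈ zpowers x, t ∈ Pm x := fun t ht =>
    Or.inl (by rw [zcomm ht (mem_zpowers x), mul_inv_cancel_right])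
  rintro s (hs | ⟨t, ht, rfl⟩)
  · exact h0 s hs
  · exact mul_mem (Or.inr (by rw [F.f.ainv F.h, F.f.inv F.h (mem_zpowers x)])) (h0 t ht)

theorem cop {v : ℤ} (hv : Odd v) : IsCoprime (orderOf x : ℤ) v := by
  obtain ⟨k, hk, -⟩ := F.f.ord F.h F.p
  rw [hk]; push_cast; exact (Int.isCoprime_two_left.2 hv).pow_left

theorem pow_cases {j : ℤ} (hj : (orderOf x : ℤ) ∣ 2 * j) : x ^ j = 1 ∨ x ^ j = z :=
  F.f.eq_z F.h F.p (zpow_mem_zpowers x j) (by
    rwa [← zpow_add, ← two_mul, ← orderOf_dvd_iff_zpow_eq_one])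

theorem act_cases {g : Γ} (hg : g * g ∈ Pm x) (h : g ∉ Pm x) :
    g * x * g⁻¹ = x * z ∨ g * x * g⁻¹ = x⁻¹ * z := by
  obtain ⟨e, he⟩ := F.conj_x g
  obtain ⟨v, rfl⟩ := F.f.odd F.h F.p he
  have h1 : (orderOf x : ℤ) ∣ 4 * v * (v + 1) := by
    rcases hg with e | e <;> rw [act_mul he he] at e
    · rw [← mul_inv_eq_one, ← zpow_sub_one, ← orderOf_dvd_iff_zpow_eq_one] at e
      exact e.trans (dvd_of_eq (by ring))
    · rw [← mul_eq_one_iff_eq_inv, ← zpow_add_one, ← orderOf_dvd_iff_zpow_eq_one] at e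
      exact ((F.cop (v := 2 * (v * v + v) + 1) ⟨_, rfl⟩).dvd_of_dvd_mul_left (z := 2)
        (e.trans (dvd_of_eq (by ring)))).trans ⟨2 * v * (v + 1), by ring⟩
  rcases Int.even_or_odd v with hv | hv
  · have h2 := F.pow_cases (j := 2 * v) ((F.cop hv.add_one).dvd_of_dvd_mul_right
      (h1.trans (dvd_of_eq (by ring))))
    rw [add_comm, zpow_add, zpow_one] at he
    exact Or.inl (by rw [he, h2.resolve_left fun e => h (Or.inl (by rw [he, e, mul_one]))])
  · have h2 := F.pow_cases (j := 2 * (v + 1)) ((F.cop hv).dvd_of_dvd_mul_right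
      (h1.trans (dvd_of_eq (by ring))))
    rw [show 2 * v + 1 = -1 + 2 * (v + 1) by ring, zpow_add, zpow_neg_one] at he
    exact Or.inr (by rw [he, h2.resolve_left fun e => h (Or.inr (by rw [he, e, mul_one]))])

section sigma

variable {σ : Γ} (hσ : σ ∈ F.K) (σ1 : σ ≠ 1) (σ2 : σ * σ = 1)
include hσ σ1 σ2

theorem caseA {y : Γ} (hy : y ∉ F.S) (hc : ∀ g, g * σ = σ * g) : Res D := by
  have hT := F.normalT
  by_contra hR
  let Free : Ω → Prop := fun Y => ∀ t ∈ F.T, t • Y = Y → t = 1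
  let NF : Ω → Prop := fun Y => ∃ t ∈ zpowers x, (a * t) • Y = Y
  have k1 : ∀ c : Γ, (∀ g, g * c = c * g) →
      ((2 * Nat.card F.T : ℕ) : ℤ) ∣ ∑ Y : Ω, ind (Free Y ∧ c • Y = Y) := fun c hc =>
    dvd_of_orbits (G := Γ) _ (fun g Y h => ⟨fun t ht e => by
      exact conj_eq_one_iff.1 (h.1 _ (hT.conj_mem t ht g⁻¹) (by simp [mul_smul, e])),
      (Pl.Oval.comm_fix (hc g).symm Y).2 h.2⟩) fun Y h => two_card_dvd F.h.p2
        (eq_bot_iff.2 fun t ht => h.1 t ht.1 ht.2) fun e => hR (by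
          have := F.h.cyc (stabilizer Γ Y) Y (fun _ h => h) fun g hg hd =>
            F.h.ne hd (h.1 g (F.d_mem hd) hg)
          refine res_of F.T (stabilizer Γ Y) (fun g => ?_) F.d_of_mem
          have h1 : g ∈ F.T ⊔ stabilizer Γ Y := by rw [sup_comm, e]; trivial
          obtain ⟨t, ht, u, hu, rfl⟩ := (mem_sup_of_normal_left).1 h1
          exact ⟨t, ht, u, hu, rfl⟩)
  have σP := (F.mem_K.1 hσ).1.2
  have σQ := F.p.fixQ σP
  have zP := F.p.zP
  have zQ := F.p.fixQ zP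
  have k2 : ∀ Y, NF Y → σ • Y = Y ∧ Y ≠ P ∧ Y ≠ Q ∧ ¬ Free Y := by
    rintro Y ⟨t, ht, e⟩
    have h1 := F.f.refP F.h F.p ht
    have h2 := F.p.swapQ h1
    have h3 := F.p.ne
    refine ⟨?_, by rintro rfl; simp_all, by rintro rfl; simp_all, fun h =>
      F.h.ne (F.f.d t ht) (h _ (Or.inr ⟨t, ht, rfl⟩) e)⟩
    obtain ⟨g, hg⟩ := F.conj_refl hy ht
    rw [hg, mul_smul, mul_smul, smul_eq_iff_eq_inv_smul] at e
    rw [← Pl.Oval.comm_fix (hc g⁻¹).symm]
    rcases F.afix e with e | e <;> rw [e]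
    · exact (F.mem_K.1 hσ).2
    · exact (Pl.Oval.comm_fix (F.comm σ) X).2 (F.mem_K.1 hσ).2
  have k3 : ∀ Y, ¬ Free Y → NF Y ∨ Y = P ∨ Y = Q := fun Y h => by
    by_contra h'
    push Not at h'
    exact h fun t ht e => ht.elim (fun ht => F.semi ht e h'.2.1 h'.2.2)
      fun ⟨u, hu, e'⟩ => (h'.1 ⟨u, hu, e' ▸ e⟩).elim
  have k4 : ∀ Y, Y = P ∨ Y = Q → ¬ Free Y := fun Y h h' =>
    F.h.ne F.p.dz (h' z (Or.inl F.f.z) (by rcases h with rfl | rfl <;> assumption))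
  have k5 : ∑ Y : Ω, ind (σ • Y = Y) =
      ∑ Y : Ω, (ind (Free Y ∧ σ • Y = Y) + ind (Y = P ∨ Y = Q) + ind (NF Y)) :=
    sum_congr rfl fun Y _ => by
      have := k2 Y; have := k3 Y; have := k4 Y
      unfold ind; split_ifs <;> grind
  have k6 : ∑ Y : Ω, ind ((z * σ) • Y = Y) =
      ∑ Y : Ω, (ind (Free Y ∧ (z * σ) • Y = Y) + ind (Y = P ∨ Y = Q)) :=
    sum_congr rfl fun Y _ => by
      have := k2 Y; have := k3 Y; have := k4 Y; have := F.p.zfix F.h (Y := Y)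
      rw [mul_smul]
      unfold ind; split_ifs <;> grind
  obtain ⟨b1, b2, b3⟩ := F.not_d_mul hσ σ1 σ2 F.p.dz (hc z)
  rw [F.h.fix σ1 σ2 (F.K_not hσ), sum_add_distrib, sum_add_distrib] at k5
  rw [F.h.fix b1 b2 b3, sum_add_distrib] at k6
  have k7 : ((2 * Nat.card F.T : ℕ) : ℤ) ∣ ∑ Y : Ω, ind (NF Y) := by
    have := dvd_sub (k1 (z * σ) fun g => by rw [← mul_assoc, F.comm, mul_assoc, hc, mul_assoc])
      (k1 σ hc)
    exact this.trans (dvd_of_eq (by omega))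
  have k8 : 0 < ∑ Y : Ω, ind (NF Y) :=
    sum_pos' (fun _ _ => ind_nonneg _) ⟨X, mem_univ _, by
      rw [ind, if_pos ⟨1, one_mem _, by rw [mul_one, F.aX]⟩]; exact one_pos⟩
  have := Fintype.ofFinite F.T
  have k9 : ∑ Y : Ω, ind (NF Y) < ∑ _ : F.T, 2 := by
    calc _ ≤ ∑ Y : Ω, ∑ t : F.T, ind (D t ∧ (t : Γ) • Y = Y) := sum_le_sum fun Y _ => ?_
      _ = ∑ t : F.T, ∑ Y : Ω, ind (D t ∧ (t : Γ) • Y = Y) := sum_comm
      _ < _ := sum_lt_sum (fun t _ => ?_) ⟨1, mem_univ _, by simp [ind, mt F.h.ne]⟩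
    · by_cases h : NF Y
      · obtain ⟨t, ht, e⟩ := h
        refine le_trans ?_ (single_le_sum (f := fun t : F.T => ind (D t ∧ (t : Γ) • Y = Y))
          (fun _ _ => ind_nonneg _) (mem_univ ⟨a * t, Or.inr ⟨t, ht, rfl⟩⟩))
        simp only [ind, F.f.d t ht, e]
        split_ifs <;> simp_all
      · rw [ind, if_neg h]
        exact sum_nonneg fun _ _ => ind_nonneg _
    · by_cases h : D t
      · obtain ⟨u, v, -, h1⟩ := F.h.two h
        calc _ ≤ ∑ Y : Ω, (ind (Y = u) + ind (Y = v)) := sum_le_sum fun Y _ => by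
              have := h1 Y
              unfold ind; split_ifs <;> simp_all
          _ = _ := by rw [sum_add_distrib, sum_ind_eq', sum_ind_eq']; rfl
      · simp [ind, h]
  rw [sum_const, card_univ, ← Nat.card_eq_fintype_card] at k9
  have := Int.le_of_dvd k8 k7
  simp at k9 this
  omega

variable (hx : σ * x = x * σ) (hB : ∀ y, y ∉ F.S → y * σ * y⁻¹ = z * σ) {y : Γ} (hy : y ∉ F.S)
include hx hB hy

theorem cent_sq {g : Γ} (h1 : g * a = a * g) (h2 : g * x = x * g) : g * g = 1 := by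
  by_contra h
  obtain ⟨_, ⟨j, rfl⟩, h3, h4⟩ := exists_invol F.h.p2 h
  have h5 := (F.K_invol hσ (zpow_mem (F.sq_mem h1) j) σ1 σ2 h4).resolve_left h3
  rw [(Commute.refl g).mul_zpow] at h5
  obtain ⟨t, ht, h6⟩ := F.conj_a y⁻¹
  obtain ⟨i, rfl⟩ := mem_zpowers_iff.1 ht
  have h7 : Commute (g ^ j) (a * x ^ i) :=
    ((Commute.mul_right h1 (Commute.zpow_right h2 i))).zpow_left j
  have h8 := F.sq_mem (g := y * g ^ j * y⁻¹) (by
    rw [← h6] at h7
    have := congrArg (fun u => y * u * y⁻¹) h7.eq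
    simpa [mul_assoc] using this)
  rw [conj_mul, h5, hB y hy] at h8
  exact F.K_not ((mul_mem_cancel_right hσ).1 h8) F.p.dz

theorem K_pm {u : Γ} (hu : u ∈ F.K) (h : u ∈ Pm x) : u = 1 ∨ u = σ := by
  have h1 := (F.mem_K.1 hu).1.1
  refine F.K_invol hσ hu σ1 σ2 ?_
  rcases h with h | h
  · exact F.cent_sq hσ σ1 σ2 hx hB hy h1 (mul_inv_eq_iff_eq_mul.1 h)
  · have := F.cent_sq hσ σ1 σ2 hx hB hy (g := a * u) (by rw [mul_assoc, h1]) (by
      rw [mul_assoc, mul_inv_eq_iff_eq_mul.1 h, ← mul_assoc, ← F.f.mul_a F.h (mem_zpowers x),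
        mul_assoc])
    rwa [mul_assoc, ← mul_assoc u, h1, ← mul_assoc, ← mul_assoc, F.aa, one_mul] at this

theorem S_pm {g : Γ} (hg : g ∈ F.S) (h : g ∈ Pm x) : g ∈ F.T ∨ ∃ t ∈ F.T, g = t * σ := by
  obtain ⟨t, ht, u, hu, rfl⟩ := F.dec hg
  rcases F.K_pm hσ σ1 σ2 hx hB hy hu ((mul_mem_cancel_left (F.T_le_Pm ht)).1 h) with rfl | rfl
  · exact Or.inl (by simpa using ht)
  · exact Or.inr ⟨t, ht, rfl⟩

theorem caseB1 (h1 : y * x = x * y) {i : ℤ} (hi : Odd i) (h2 : y * a * y⁻¹ = a * x ^ i)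
    (h3 : y * y * x ^ i = z) : Res D := by
  have hT := F.normalT
  have c : ∀ t ∈ zpowers x, y * t = t * y := fun t ht => by
    obtain ⟨j, rfl⟩ := mem_zpowers_iff.1 ht
    exact (Commute.zpow_right h1 j).eq
  have h4 : y * y = z * x ^ (-i) := by rw [← h3, zpow_neg, mul_inv_cancel_right]
  have σa := F.σa hσ σ1 σ2
  have k : ∀ t ∈ F.T, t * y * (t * y) ≠ 1 := by
    rintro _ (ht | ⟨t, ht, rfl⟩) e
    · obtain ⟨j, rfl⟩ := mem_zpowers_iff.1 ht
      obtain ⟨k, hk, hz⟩ := F.f.ord F.h F.p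
      rw [mul_assoc, ← mul_assoc y, c _ ht, mul_assoc, h4, hz, ← zpow_add, ← zpow_add, ← zpow_add,
        ← orderOf_dvd_iff_zpow_eq_one, hk] at e
      obtain ⟨v, rfl⟩ := hi
      rcases k with _ | k
      · have h5 : x ^ (2 * v + 1) = z := by
          rw [hz, zpow_eq_zpow_iff_modEq, hk]
          exact Int.modEq_iff_dvd.2 ⟨-v, by simp⟩
        obtain ⟨b1, b2, b3⟩ := F.not_d_mul hσ σ1 σ2 (F.f.da F.h) σa.symm
        have h6 := mul_mem (F.T_le (F.f.a_mem F.h)) (F.K_le hσ)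
        refine F.not_right hy h6 (F.T_le (F.d_mem (F.h.bb (by rintro rfl; exact hy (one_mem _))
          (by rw [h5] at h3; simpa using h3) (fun e => hy (F.T_le (F.d_mem e))) b1 b2 b3
          (by rintro rfl; exact hy h6) ?_)))
        rw [← mul_inv_eq_iff_eq_mul, ← conj_mul, h2, hB y hy, h5, mul_assoc, ← mul_assoc z, F.zz,
          one_mul]
      · obtain ⟨w, hw⟩ := e
        push_cast at hw
        have : j + (j + (2 ^ k * 2 + -(2 * v + 1))) = 2 * (2 ^ (k + 1) * w) := by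
          linear_combination hw
        omega
    · have h5 : a * t * y * (a * t * y) = a * t * a * (x ^ i * t * (y * y)) := by
        rw [mul_assoc (a * t) y, ← mul_assoc y, ← mul_assoc y, mul_inv_eq_iff_eq_mul.1 h2,
          mul_assoc _ y t, c t ht]
        simp only [mul_assoc]
      rw [h5, F.f.inv F.h ht, ← zcomm ht (zpow_mem_zpowers x i), mul_assoc, inv_mul_cancel_left,
        ← mul_assoc, ← c _ (zpow_mem_zpowers x i), mul_assoc, ← c _ (zpow_mem_zpowers x i),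
        ← mul_assoc, h3] at e
      exact F.h.ne F.p.dz e
  refine F.res_two hy (Or.inl (h4 ▸ mul_mem F.f.z (zpow_mem_zpowers x _))) (fun u hu => ?_) k
  have h5 : u * y * u⁻¹ ∉ F.S := fun e => hy (by simpa [mul_assoc] using F.conj_mem_S e u⁻¹)
  have h6 : y ∈ Pm x := Or.inl (by rw [h1, mul_inv_cancel_right])
  have h7 : u * y * u⁻¹ ∈ Pm x := Or.inl (by
    have := congrArg (fun v => u * v * y⁻¹ * u⁻¹) (c _ (F.normal0.conj_mem x (mem_zpowers x) u⁻¹))
    simpa [mul_assoc] using this)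
  refine (F.S_pm hσ σ1 σ2 hx hB hy (F.mul_mem_S h5 (mt inv_mem_iff.1 hy))
    (mul_mem h7 (inv_mem h6))).resolve_right ?_
  rintro ⟨t, ht, e⟩
  refine k (u⁻¹ * (a * t⁻¹) * u⁻¹⁻¹) (hT.conj_mem _ (mul_mem (F.f.a_mem F.h) (inv_mem ht)) _) ?_
  have h8 : u⁻¹ * (a * t⁻¹) * u⁻¹⁻¹ * y = u⁻¹ * (a * σ * y) * u⁻¹⁻¹ := by
    rw [eq_inv_mul_iff_mul_eq.2 e.symm]; simp [mul_assoc]
  rw [h8, conj_mul, conj_eq_one_iff]
  calc _ = a * σ * (y * a * y⁻¹) * (y * σ * y⁻¹) * (y * y) := by simp [mul_assoc]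
    _ = a * σ * a * (x ^ i * (z * σ) * (z * x ^ (-i))) := by
      rw [h2, hB y hy, h4]; simp only [mul_assoc]
    _ = 1 := by
      rw [mul_assoc a, σa, ← mul_assoc a, F.aa, one_mul, mul_assoc (x ^ i), mul_assoc z,
        ← mul_assoc σ z, F.comm, mul_assoc z, ← mul_assoc z, F.zz, one_mul, ← mul_assoc (x ^ i),
        ← (Commute.zpow_right hx i).eq, mul_assoc, ← zpow_add, add_neg_cancel, zpow_zero, mul_one,
        σ2]

theorem caseB1' (h : y ∈ Pm x) : Res D := by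
  wlog h1 : y * x = x * y generalizing y
  · refine this (F.not_left hy (F.T_le (F.f.a_mem F.h)))
      (mul_mem (F.T_le_Pm (F.f.a_mem F.h)) h) ?_
    rw [mul_assoc, mul_inv_eq_iff_eq_mul.1 (h.resolve_left fun e => h1 (mul_inv_eq_iff_eq_mul.1 e)),
      ← mul_assoc, ← F.f.mul_a F.h (mem_zpowers x), mul_assoc]
  have c : ∀ t ∈ zpowers x, y * t = t * y := fun t ht => by
    obtain ⟨j, rfl⟩ := mem_zpowers_iff.1 ht
    exact (Commute.zpow_right h1 j).eq
  have h2 : y * y ∈ zpowers x := by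
    rcases F.S_pm hσ σ1 σ2 hx hB hy (F.mul_mem_S hy hy) (mul_mem h h) with e | ⟨t, ht, e⟩
    · exact F.f.mem_of_fix F.h F.p e (F.p.sqP y)
    have h3 : t ∈ zpowers x := F.f.mem_of_fix F.h F.p ht (by
      have := F.p.sqP y
      rwa [e, mul_smul, (F.mem_K.1 hσ).1.2] at this)
    have h4 := hB y hy
    rw [eq_inv_mul_iff_mul_eq.2 e.symm, ← mul_assoc, c _ (inv_mem h3)] at h4
    exact (F.h.ne F.p.dz (by simpa [mul_assoc] using h4.symm)).elim
  obtain ⟨i, hi, h3⟩ := F.odd_of hy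
  have h4 := zpow_mem_zpowers x i
  have h5 : y * y * x ^ i * (y * y * x ^ i) = 1 := by
    have h6 : y * y * a * (y * y)⁻¹ = a * (x ^ i * x ^ i) := by
      rw [mul_inv_rev, ← mul_assoc, mul_assoc y, mul_assoc y, h3, ← conj_mul, h3, c _ h4,
        mul_inv_cancel_right, mul_assoc]
    rw [F.f.mul_a F.h h2, mul_assoc, mul_left_cancel_iff] at h6
    generalize y * y = w at h2 h6
    rw [mul_assoc, ← mul_assoc (x ^ i), ← zcomm h2 h4, mul_assoc, ← h6]
    simp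
  rcases F.f.eq_z F.h F.p (mul_mem h2 h4) h5 with e | e
  · refine F.caseB1 hσ σ1 σ2 hx hB (F.not_left hy (F.K_le hσ))
      (by rw [mul_assoc, h1, ← mul_assoc, hx, mul_assoc]) hi ?_ ?_
    · rw [mul_inv_rev, ← mul_assoc, mul_assoc σ, mul_assoc σ, h3, ← mul_assoc, F.σa hσ σ1 σ2,
        mul_assoc a, (Commute.zpow_right hx i).eq, mul_assoc, mul_inv_cancel_right]
    · calc _ = σ * (y * σ * y⁻¹) * (y * y * x ^ i) := by simp [mul_assoc]
        _ = z := by rw [e, hB y hy, mul_one, ← mul_assoc, F.comm, mul_assoc, σ2, mul_one]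
  · exact F.caseB1 hσ σ1 σ2 hx hB hy h1 hi h3 e

theorem caseB : Res D := by
  have hT := F.normalT
  by_cases h0 : ∃ y, y ∉ F.S ∧ y ∈ Pm x
  · obtain ⟨y, h1, h2⟩ := h0
    exact F.caseB1' hσ σ1 σ2 hx hB h1 h2
  push Not at h0
  obtain ⟨⟨κ, hκ⟩, h1⟩ := IsCyclic.exists_generator (α := F.K)
  replace h1 : ∀ u ∈ F.K, ∃ j : ℤ, u = κ ^ j := fun u hu =>
    (mem_zpowers_iff.1 (h1 ⟨u, hu⟩)).imp fun _ e => (congrArg Subtype.val e).symm
  obtain ⟨t, ht, u, hu, h2⟩ := F.dec (F.mul_mem_S hy hy)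
  obtain ⟨r, rfl⟩ := h1 u hu
  rcases Int.even_or_odd' r with ⟨s, rfl | rfl⟩
  swap
  · have h3 : κ ∈ F.T ⊔ zpowers y := by
      refine (zpowers_le (H := F.T ⊔ zpowers y)).2 ?_ (?_ : κ ∈ zpowers (κ ^ (2 * s + 1)))
      · rw [eq_inv_mul_iff_mul_eq.2 h2.symm]
        exact mul_mem (mem_sup_left (inv_mem ht))
          (mem_sup_right (mul_mem (mem_zpowers y) (mem_zpowers y)))
      · obtain ⟨n, hn⟩ := IsPGroup.iff_orderOf.1 F.h.p2 κ
        rw [mem_zpowers_zpow_iff, hn]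
        exact Int.isCoprime_iff_gcd_eq_one.1 (by
          push_cast; exact (Int.isCoprime_two_right.2 ⟨s, rfl⟩).pow_right)
    have h4 : F.S ≤ F.T ⊔ zpowers y := fun g hg => by
      obtain ⟨t, ht, u, hu, rfl⟩ := F.dec hg
      obtain ⟨j, rfl⟩ := h1 u hu
      exact mul_mem (mem_sup_left ht) (zpow_mem h3 j)
    refine res_of F.T (zpowers y) (fun g => ?_) F.d_of_mem
    have h5 : g ∈ F.T ⊔ zpowers y := by
      rcases F.dec_odd hy g with hg | ⟨s, hs, rfl⟩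
      · exact h4 hg
      · exact mul_mem (h4 hs) (mem_sup_right (mem_zpowers y))
    obtain ⟨t, ht, u, hu, rfl⟩ := (mem_sup_of_normal_left).1 h5
    exact ⟨t, ht, u, hu, rfl⟩
  have h3 := F.not_right hy (F.K_le (zpow_mem hκ (-s)))
  have h4 := F.act_cases (g := y * κ ^ (-s)) (by
    obtain ⟨e, he⟩ := F.conj_x y
    obtain ⟨f, hf⟩ := F.conj_x (κ ^ (-s))
    have h4 := F.T_le_Pm ht
    rw [show t = y * y * (κ ^ (-s) * κ ^ (-s)) by
      rw [h2, mul_assoc, ← zpow_add, ← zpow_add]; simp [two_mul]] at h4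
    change _ ∨ _ at h4 ⊢
    rw [act_mul (act_mul he he) (act_mul hf hf)] at h4
    rwa [act_mul (act_mul he hf) (act_mul he hf), mul_mul_mul_comm]) (h0 _ h3)
  have h5 : ∀ u ∈ F.K, u = 1 ∨ u = σ := by
    by_contra h5
    obtain ⟨u, hu, h6, h7⟩ : ∃ u ∈ F.K, u * u = σ ∧ u ∉ Pm x := by
      push Not at h5
      obtain ⟨u, hu, h5⟩ := h5
      obtain ⟨_, ⟨j, rfl⟩, h6, h7⟩ := exists_invol F.h.p2 (g := u * u) fun e => by
        have := F.K_invol hσ hu σ1 σ2 e; tauto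
      have h8 := (F.K_invol hσ (zpow_mem (mul_mem hu hu) j) σ1 σ2 h7).resolve_left h6
      rw [(Commute.refl u).mul_zpow] at h8
      refine ⟨u ^ j, zpow_mem hu j, h8, fun e => σ1 ?_⟩
      rcases F.K_pm hσ σ1 σ2 hx hB hy (zpow_mem hu j) e with e | e <;> rw [← h8, e]
      · exact one_mul 1
      · exact σ2
    refine h0 _ (F.not_right h3 (F.K_le hu)) ?_
    generalize y * κ ^ (-s) = w at h4
    have zi := inv_eq_of_mul_eq_one_right F.zz
    have k : w * u * x * (w * u)⁻¹ = w * (u * x * u⁻¹) * w⁻¹ := by simp [mul_assoc]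
    have k1 : w * z * w⁻¹ = z := by rw [F.comm, mul_inv_cancel_right]
    change _ ∨ _
    rcases F.act_cases (g := u) (h6 ▸ Or.inl (by rw [hx, mul_inv_cancel_right])) h7 with e | e <;>
      rcases h4 with e' | e' <;> rw [k, e, ← conj_mul, k1]
    · exact Or.inl (by rw [e', mul_assoc, F.zz, mul_one])
    · exact Or.inr (by rw [e', mul_assoc, F.zz, mul_one])
    · exact Or.inr (by rw [← conj_inv, e', mul_inv_rev, zi, ← F.comm, mul_assoc, F.zz, mul_one])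
    · exact Or.inl (by
        rw [← conj_inv, e', mul_inv_rev, zi, ← F.comm, mul_assoc, F.zz, mul_one, inv_inv])
  refine F.res_two hy ?_ (fun u hu => ?_) fun t ht e => ?_
  · rw [h2, two_mul, zpow_add]
    rcases h5 _ (zpow_mem hκ s) with e | e <;> simp [e, σ2, ht]
  · rcases h5 u hu with rfl | rfl
    · simp
    · rw [inv_eq_of_mul_eq_one_right σ2, mul_assoc, mul_assoc, ← mul_assoc y, hB y hy, ← mul_assoc,
        F.comm, mul_assoc, σ2, mul_one]
      exact Or.inl F.f.z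
  have h6 := F.not_left hy (F.T_le ht)
  generalize t * y = g at e h6
  obtain ⟨i, ⟨v, rfl⟩, h7⟩ := F.odd_of h6
  obtain ⟨k, hk, hz⟩ := F.f.ord F.h F.p
  have h8 : x ^ (2 * v + 1) * (g * x * g⁻¹) ^ (2 * v + 1) = 1 := by
    have : g * g * a * (g * g)⁻¹ = a * (x ^ (2 * v + 1) * (g * x * g⁻¹) ^ (2 * v + 1)) := by
      rw [mul_inv_rev, ← mul_assoc, mul_assoc g, mul_assoc g, h7, ← conj_mul, h7, conj_zpow,
        mul_assoc]
    rw [e] at this
    simpa using this.symm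
  have h9 : z ^ (2 * v + 1) = z := by rw [zpow_add_one, zpow_mul, zpow_two, F.zz]; simp
  rcases F.act_cases (g := g) (e ▸ one_mem _) (h0 g h6) with e' | e'
  · rw [e', Commute.mul_zpow (F.comm x), h9, ← mul_assoc, ← zpow_add, mul_eq_one_iff_eq_inv,
      inv_eq_of_mul_eq_one_right F.zz] at h8
    have h10 : (orderOf x : ℤ) ∣ 4 := (F.cop (v := 2 * v + 1) ⟨v, rfl⟩).dvd_of_dvd_mul_left (by
      rw [orderOf_dvd_iff_zpow_eq_one, ← F.zz, ← h8, ← zpow_add]; congr 1; ring)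
    refine h0 g h6 (Or.inr ?_)
    rw [e', ← h8, ← mul_eq_one_iff_eq_inv, ← zpow_one_add, ← zpow_add_one,
      ← orderOf_dvd_iff_zpow_eq_one]
    exact h10.trans ⟨v + 1, by ring⟩
  · rw [e', Commute.mul_zpow (F.comm x⁻¹), h9, inv_zpow, mul_inv_cancel_left] at h8
    exact F.h.ne F.p.dz h8

end sigma

theorem res : Res D := by
  have hT := F.normalT
  by_cases h0 : ∀ g, g ∈ F.S
  · exact res_of F.T F.K (fun g => F.dec (h0 g)) F.d_of_mem
  obtain ⟨y, hy⟩ := not_forall.1 h0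
  by_cases h1 : ∀ u ∈ F.K, u = 1
  · refine res_of F.T (zpowers y) (fun g => ?_) F.d_of_mem
    rcases F.dec_odd hy g with hg | ⟨s, hg, rfl⟩ <;> obtain ⟨t, ht, u, hu, rfl⟩ := F.dec hg <;>
      rw [h1 u hu]
    · exact ⟨t, ht, 1, one_mem _, rfl⟩
    · exact ⟨t, ht, y, mem_zpowers y, by rw [mul_one]⟩
  push Not at h1
  obtain ⟨u, hu, h1⟩ := h1
  obtain ⟨σ, hσ, σ1, σ2⟩ := exists_invol F.h.p2 h1
  replace hσ : σ ∈ F.K := zpowers_le.2 hu hσ
  have hx := (F.sigma_conj hσ σ1 σ2 hy).1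
  by_cases hB : ∀ y, y ∉ F.S → y * σ * y⁻¹ = z * σ
  · exact F.caseB hσ σ1 σ2 hx hB hy
  push Not at hB
  obtain ⟨y, hy, hB⟩ := hB
  have h2 := mul_inv_eq_iff_eq_mul.1 ((F.sigma_conj hσ σ1 σ2 hy).2.resolve_right hB)
  have h3 : ∀ g ∈ F.S, Commute g σ := fun g hg => by
    obtain ⟨t, ht, u, hu, rfl⟩ := F.dec hg
    refine Commute.mul_left ?_ (F.K_comm hu hσ)
    have h3 : ∀ t ∈ zpowers x, Commute t σ := by
      rintro _ ⟨j, rfl⟩
      exact Commute.zpow_left hx.symm j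
    rcases ht with ht | ⟨t, ht, rfl⟩
    · exact h3 t ht
    · exact Commute.mul_left (F.σa hσ σ1 σ2).symm (h3 t ht)
  refine F.caseA hσ σ1 σ2 hy fun g => ?_
  rcases F.dec_odd hy g with hg | ⟨s, hs, rfl⟩
  · exact h3 g hg
  · exact Commute.mul_left (h3 s hs) h2

end Fr

theorem Ab.res {D : Γ → Prop} {m : ℤ} (h : Ab Ω D m) {a b : Γ} (ha : D a) (hb : D b) (e : a ≠ b) :
    Res D := by
  obtain ⟨P, Q, z, a, x, p, f, h1⟩ := h.exists_max ha hb e
  obtain ⟨X, Y, -, h2⟩ := h.two (f.da h)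
  exact Fr.res ⟨h, p, f, h1, (h2 X).2 (Or.inl rfl)⟩

end CL.OvalG
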