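import Mathlib
import Cfsg.Agent.SPOR.Ord11c
import Cfsg.Agent.SPOR.M12b

/-!
Configurations of involutions in `A₇`, `L₃(q)`, `U₃(q)`, `M₁₁` which cannot consist of homologies
of an oval.
-/

set_option autoImplicit false

namespace CL.OvalG

open Subgroup Cfsg

/-- two pairs of involutions centralising each other, independent modulo `N` -/
structure K22 {H : Type*} [Group H] (N : H → Prop) (a a' z z' : H) : Prop where
  sq : a * a = 1 ∧ a' * a' = 1 ∧ z * z = 1 ∧ z' * z' = 1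
  ne : ¬ N a ∧ ¬ N a' ∧ ¬ N z ∧ ¬ N z'
  ne2 : ¬ N (a * a') ∧ ¬ N (z * z') ∧ ¬ N (a * z) ∧ ¬ N (a * z') ∧ ¬ N (a' * z) ∧ ¬ N (a' * z')
  comm : a * z = z * a ∧ a * z' = z' * a ∧ a' * z = z * a' ∧ a' * z' = z' * a'

/-- a four-group centralised by an inverted element of odd prime order -/
structure KOdd {H : Type*} [Group H] (N : H → Prop) (a b u v : H) (r : ℕ) : Prop where
  sq : a * a = 1 ∧ b * b = 1 ∧ u * u = 1 ∧ v * v = 1
  ne : ¬ N a ∧ ¬ N b ∧ ¬ N u ∧ ¬ N v ∧ ¬ N (a * b) ∧ ¬ N (u * v)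
  comm : a * b = b * a ∧ a * (u * v) = u * v * a ∧ b * (u * v) = u * v * b
  pr : r.Prime ∧ r ≠ 2 ∧ (u * v) ^ r = 1

/-- one of the two configurations occurs -/
def Bad (H : Type*) [Group H] (N : H → Prop) : Prop :=
  (∃ a a' z z', K22 N a a' z z') ∨ ∃ a b u v r, KOdd N a b u v r

theorem Bad.map {H G : Type*} [Group H] [Group G] {N : H → Prop} (h : Bad H N) (f : H →* G)
    (hf : ∀ g, f g = 1 → N g) : Bad G (· = 1) := by
  have k : ∀ {g}, ¬ N g → ¬ f g = 1 := mt (hf _)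
  rcases h with ⟨a, a', z, z', h1, h2, h3, h4⟩ | ⟨a, b, u, v, r, h1, h2, h3, h4⟩
  · refine Or.inl ⟨f a, f a', f z, f z', ?_, ⟨k h2.1, k h2.2.1, k h2.2.2.1, k h2.2.2.2⟩, ?_, ?_⟩ <;>
      simp only [← map_mul]
    · simp [h1]
    · exact ⟨k h3.1, k h3.2.1, k h3.2.2.1, k h3.2.2.2.1, k h3.2.2.2.2.1, k h3.2.2.2.2.2⟩
    · simp [h4]
  · refine Or.inr ⟨f a, f b, f u, f v, r, ?_, ?_, ?_, ?_⟩ <;> simp only [← map_mul, ← map_pow]
    · simp [h1]
    · exact ⟨k h2.1, k h2.2.1, k h2.2.2.1, k h2.2.2.2.1, k h2.2.2.2.2.1, k h2.2.2.2.2.2⟩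
    · simp [h3]
    · simp [h4]

theorem bad_A7 : Bad (alternatingGroup (Fin 7)) (· = 1) :=
  Or.inr ⟨⟨Equiv.swap 0 1 * Equiv.swap 2 3, Equiv.Perm.mem_alternatingGroup.2 (by decide)⟩,
    ⟨Equiv.swap 0 2 * Equiv.swap 1 3, Equiv.Perm.mem_alternatingGroup.2 (by decide)⟩,
    ⟨Equiv.swap 0 1 * Equiv.swap 4 5, Equiv.Perm.mem_alternatingGroup.2 (by decide)⟩,
    ⟨Equiv.swap 0 1 * Equiv.swap 5 6, Equiv.Perm.mem_alternatingGroup.2 (by decide)⟩, 3,
    by decide, by decide, by decide, Nat.prime_three, by decide, by decide⟩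

open CL.Golay CL.M12 in
theorem bad_M11 : Bad Spor.M11 (· = 1) := by
  have h := in_fix_of_lall (n := D0) (B := [(0, 12)]) (lv := [(0, [984814124769027251138997644368843264,
    984817008955239316910482038318174624, 944576703234065857180591671912828960,
    983556734225721270408659688667254880])]) (by decide +kernel) _ (List.mem_singleton_self _)
  simp only [List.forall_mem_cons] at h
  obtain ⟨⟨a, ha, ra⟩, ⟨a', ha', ra'⟩, ⟨z, hz, rz⟩, ⟨z', hz', rz'⟩, -⟩ := h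
  rw [M11_eq]
  have k : ∀ {g : Equiv.Perm GolayPt} {P : ℕ}, R g P → comp24 P one24 ≠ one24 → g ≠ 1 :=
    fun h e => by simpa using mt (h.comp24_eq_one_iff R.one).2 e
  refine Or.inl ⟨⟨a, ha⟩, ⟨a', ha'⟩, ⟨z, hz⟩, ⟨z', hz'⟩, ?_, ?_, ?_, ?_⟩ <;>
    simp only [Subtype.ext_iff, coe_mul, coe_one]
  · rw [← R.comp24_eq_one_iff ra ra, ← R.comp24_eq_one_iff ra' ra', ← R.comp24_eq_one_iff rz rz,
      ← R.comp24_eq_one_iff rz' rz']
    decide +kernel
  · exact ⟨k ra (by decide +kernel), k ra' (by decide +kernel), k rz (by decide +kernel),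
      k rz' (by decide +kernel)⟩
  · rw [← R.comp24_eq_one_iff ra ra', ← R.comp24_eq_one_iff rz rz', ← R.comp24_eq_one_iff ra rz,
      ← R.comp24_eq_one_iff ra rz', ← R.comp24_eq_one_iff ra' rz, ← R.comp24_eq_one_iff ra' rz']
    decide +kernel
  · rw [← R.comp24_eq_iff ra rz rz ra, ← R.comp24_eq_iff ra rz' rz' ra,
      ← R.comp24_eq_iff ra' rz rz ra', ← R.comp24_eq_iff ra' rz' rz' ra']
    decide +kernel

variable {F : Type*} [Field F]

/-- some of the equations satisfied by scalar matrices -/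
def Sc (g : Matrix (Fin 3) (Fin 3) F) : Prop :=
  g 0 0 = g 1 1 ∧ g 0 0 = g 2 2 ∧ g 0 1 = 0 ∧ g 0 2 = 0

theorem sl_iff {g h : Matrix.SpecialLinearGroup (Fin 3) F} : g = h ↔ g.1 = h.1 := Subtype.ext_iff

/-- an element of the unitary group -/
def mkSU {q : ℕ} (M : Matrix (Fin 3) (Fin 3) F) (hd : M.det = 1)
    (h : ∀ u v, hermForm 3 F q (M.mulVec u) (M.mulVec v) = hermForm 3 F q u v) : SU 3 F q :=
  ⟨⟨M, hd⟩, h⟩

theorem mkSU_val {q : ℕ} (M : Matrix (Fin 3) (Fin 3) F) (hd h) : (mkSU (q := q) M hd h).1.1 = M := rfl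

/-- an element of the special linear group -/
def mkSL (M : Matrix (Fin 3) (Fin 3) F) (hd : M.det = 1) : Matrix.SpecialLinearGroup (Fin 3) F :=
  ⟨M, hd⟩

theorem mkSL_val (M : Matrix (Fin 3) (Fin 3) F) (hd) : (mkSL M hd).1 = M := rfl

theorem bad_SL (h2 : (2 : F) ≠ 0) :
    Bad (Matrix.SpecialLinearGroup (Fin 3) F) fun g => Sc g.1 := by
  have h1 : (-1 : F) ≠ 1 := fun e => h2 (by linear_combination -e)
  refine Or.inl ⟨mkSL !![-1, 0, 0; 0, -1, 0; 0, 0, 1] (by simp [Matrix.det_fin_three]),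
    mkSL !![-1, 0, 2; 0, -1, 0; 0, 0, 1] (by simp [Matrix.det_fin_three]),
    mkSL !![-1, 0, 0; 0, 1, 0; 0, 0, -1] (by simp [Matrix.det_fin_three]),
    mkSL !![-1, 2, 0; 0, 1, 0; 0, 0, -1] (by simp [Matrix.det_fin_three]), ?_, ?_, ?_, ?_⟩ <;>
  simp [sl_iff, mkSL_val, Sc, Matrix.one_fin_three, h1, h1.symm, h2]

theorem bad_PSL (h2 : (2 : F) ≠ 0) :
    Bad (Matrix.ProjectiveSpecialLinearGroup (Fin 3) F) (· = 1) :=
  (bad_SL h2).map (QuotientGroup.mk' _) fun g hg => by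
    obtain ⟨r, -, hr⟩ := Matrix.SpecialLinearGroup.mem_center_iff.1 ((QuotientGroup.eq_one_iff g).1 hg)
    simp [Sc, ← hr]

theorem bad_PSU [Fintype F] {q : ℕ} (hF : Fintype.card F = q ^ 2) (hq : q % 4 = 1) :
    Bad (PSU 3 F q) (· = 1) := by
  have h0 : Odd q := Nat.odd_iff.2 (by omega)
  have h2 : (2 : F) ≠ 0 := Ring.two_ne_zero fun e => by
    have := (FiniteField.even_card_iff_char_two).1 e
    rw [hF, Nat.odd_iff.1 h0.pow] at this
    omega
  have h1 : (-1 : F) ≠ 1 := fun e => h2 (by linear_combination -e)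
  obtain ⟨r, hr, h3⟩ := Nat.exists_prime_and_dvd (n := (q + 1) / 2) (fun e => by
    have := Fintype.one_lt_card (α := F)
    rw [hF, show q = 1 by omega] at this
    omega)
  have r2 : r ≠ 2 := by rintro rfl; omega
  replace h3 : r ∣ q + 1 := h3.trans ⟨2, by omega⟩
  have := Fact.mk hr
  classical
  obtain ⟨s, hs⟩ := exists_prime_orderOf_dvd_card (G := Fˣ) r (by
    rw [Fintype.card_units, hF]
    exact h3.trans ⟨q - 1, by simpa using Nat.sq_sub_sq q 1⟩)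
  have s1 : (s : F) ≠ 1 := fun e => hr.ne_one (by rw [← hs, Units.val_eq_one.1 e, orderOf_one])
  have s2 : (s : F) ^ r = 1 := by rw [← Units.val_pow_eq_pow_val, ← hs, pow_orderOf_eq_one]; rfl
  have s3 : (s : F) ^ q = (s : F)⁻¹ := by
    obtain ⟨c, hc⟩ := h3
    exact eq_inv_of_mul_eq_one_left (by rw [← pow_succ, hc, pow_mul, s2, one_pow])
  have s0 := s.ne_zero
  generalize (s : F) = t at s0 s1 s2 s3
  let a : SU 3 F q := mkSU !![-1, 0, 0; 0, -1, 0; 0, 0, 1] (by simp [Matrix.det_fin_three]) fun u v => by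
    simp [hermForm, Fin.sum_univ_three, Matrix.mulVec, dotProduct, h0.neg_pow]
  let b : SU 3 F q := mkSU !![-1, 0, 0; 0, 1, 0; 0, 0, -1] (by simp [Matrix.det_fin_three]) fun u v => by
    simp [hermForm, Fin.sum_univ_three, Matrix.mulVec, dotProduct, h0.neg_pow]
  let c : SU 3 F q := mkSU !![0, 1, 0; 0, 0, 1; 1, 0, 0] (by simp [Matrix.det_fin_three]) fun u v => by
    simp [hermForm, Fin.sum_univ_three, Matrix.mulVec, dotProduct]; ring
  let u : SU 3 F q := mkSU !![0, 1, 0; 1, 0, 0; 0, 0, -1] (by simp [Matrix.det_fin_three]) fun u v => by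
    simp [hermForm, Fin.sum_univ_three, Matrix.mulVec, dotProduct, h0.neg_pow]; ring
  let v : SU 3 F q := mkSU !![0, t⁻¹, 0; t, 0, 0; 0, 0, -1] (by simp [Matrix.det_fin_three, s0]) fun u v => by
      simp [hermForm, Fin.sum_univ_three, Matrix.mulVec, dotProduct, h0.neg_pow, mul_pow,
        s3]
      field_simp
      ring
  refine Bad.map (N := fun g : SU 3 F q => g.1.1 0 0 = g.1.1 1 1 ∧ g.1.1 0 0 = g.1.1 2 2 ∧ g.1.1 0 1 = 0)
    (Or.inr ⟨a, b, u, v, r, ?_, ?_, ?_, hr, r2, ?_⟩) (QuotientGroup.mk' _) fun g hg => ?_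
  · simp [a, b, u, v, mkSU_val, Subtype.ext_iff, sl_iff, Matrix.one_fin_three, s0]
  · simp [a, b, u, v, mkSU_val, h1, h1.symm, s0, s1]
  · simp [a, b, u, v, mkSU_val, Subtype.ext_iff, sl_iff]
  · have : (u * v).1.1 = Matrix.diagonal ![t, t⁻¹, 1] := by
      ext i j; fin_cases i <;> fin_cases j <;> simp [u, v, mkSU_val]
    refine Subtype.ext (Subtype.ext ?_)
    rw [coe_pow, Matrix.SpecialLinearGroup.coe_pow, this, Matrix.diagonal_pow]
    ext i j; fin_cases i <;> fin_cases j <;> simp [s2]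
  · have h4 := mem_center_iff.1 ((QuotientGroup.eq_one_iff g).1 hg)
    have h5 := fun i j => congrArg (fun x : SU 3 F q => x.1.1 i j) (h4 c)
    have h6 := congrArg (fun x : SU 3 F q => x.1.1 0 1) (h4 b)
    have h7 := h5 0 1
    have h8 := h5 2 0
    simp [b, c, mkSU_val, Matrix.mul_apply, Fin.sum_univ_three] at h6 h7 h8
    exact ⟨h7.symm, h8, (mul_eq_zero.1 (by linear_combination -h6)).resolve_left h2⟩

end CL.OvalG
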