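import Mathlib
import Cfsg.Agent.CHEV.PSUnit
import Cfsg.Agent.CLAS.U3Rank1
import Cfsg.Agent.CLAS.U3Aut

/-!
Recognition of `PGU(3, q)`, `q` even, in the rank-one set-up with `V = W` abelian of order `q + 1`.
-/

set_option autoImplicit false
open Cfsg MulAction

namespace CL.PS

open Module CL.Witt CL.SqField CL.Uni CL.U3

variable {G Ω : Type*} [Group G] [MulAction G Ω] {a : Ω} {t : G} {Q : Subgroup G}

theorem recog_of_model_GU [Finite G] [FaithfulSMul G Ω] (hS : IsRankOneSetup G Ω a t Q) {E : Type*}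
    [Field E] [Fintype E] [CharP E 2] {q : ℕ} (hE : Fintype.card E = q ^ 2) (θ : Q ≃* S hE)
    (hθ : ∀ x : Q, x ≠ 1 → ∃ y : Q, t • (x : G) • t • a = (y : G) • t • a ∧
      (θ y).a * (θ x).b = (θ x).a ∧ (θ y).b * (θ x).b = 1)
    (hV : ∀ v (hv : v ∈ Vg a t), ∃ c : Eˣ, (c : E) ^ q * c = 1 ∧
      ∀ x : Q, θ ⟨_, conj_mem_Q hS hv.1.1 x.2⟩ = S.tor c (θ x))
    (hV' : ∀ c : Eˣ, (c : E) ^ q * c = 1 → ∃ v, ∃ hv : v ∈ Vg a t,
      ∀ x : Q, θ ⟨_, conj_mem_Q hS hv.1.1 x.2⟩ = S.tor c (θ x)) :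
    Nonempty (G ≃* GU 3 E q ⧸ Subgroup.center (GU 3 E q)) := by
  classical
  let f := std hE (Fin 3)
  have hf : f.Nondeg := std_nondeg hE (Fin 3)
  have h3 : finrank E (Fin 3 → E) = 3 := by simp
  obtain ⟨u, hu0, hu⟩ := exists_isotropic (sig_ne_id hE) hf (by simp)
  obtain ⟨w, z, hw, huw, huz, hwz, hz⟩ := exists_triple hf h3.ge hu hu0
  have hwu : f.B w u = 1 := by rw [f.symm, huw, map_one, HT_ε, mul_one]
  have huu := f.B_self_eq_zero hu
  have hww := f.B_self_eq_zero hw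
  have hzu := f.B_eq_zero_symm huz
  have hzw := f.B_eq_zero_symm hwz
  have hzz : f.B z z = 1 := by rw [← f.herm_q, hz]
  have h2 : ∀ v : Fin 3 → E, v + v = 0 := fun v => by rw [← two_smul E, CharTwo.two_eq_zero, zero_smul]
  let e : S hE →* _ := emb hu huz hz
  have hew : ∀ x : S hE, e x w = w + x.a • z + x.b • u := fun x => by
    rw [emb_apply_apply, huw, hzw, one_mul, mul_zero, zero_add, mul_one, sub_eq_add_neg, ← neg_smul,
      CharTwo.neg_eq]
  have heu : ∀ x : S hE, e x u = u := fun x => by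
    rw [emb_apply_apply, huu, hzu]; simp
  have heSO : ∀ x, e x ∈ f.SO := fun x => Form.U_le_SO _ u (emb_mem_U hu huz hz x)
  have hok : f.EichOK (u + w) 0 1 := ⟨by rw [f.q_add, hu, hw, huw, HT_π]; simp [CharTwo.add_self_eq_zero],
    f.B_zero_right _, by rw [HT_π, f.q_zero]; simp [CharTwo.add_self_eq_zero]⟩
  let s := f.ei (u + w) 0 1
  have hs : ∀ v, s v = v + (f.B u v + f.B w v) • (u + w) := fun v => by
    rw [hok.ei_apply, f.B_zero_left, f.B_add_left, HT_ε, sub_eq_add_neg, ← neg_smul, CharTwo.neg_eq]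
    simp
  have hsu : s u = w := by rw [hs, huu, hwu, zero_add, one_smul, ← add_assoc, h2, zero_add]
  have hsw : s w = u := by rw [hs, huw, hww, add_zero, one_smul, add_comm, add_assoc, h2, add_zero]
  have hsz : s z = z := by rw [hs, huz, hwz]; simp
  have hsSO : s ∈ f.SO := f.ei_mem_SO _ _ _
  obtain ⟨vec, va, vb⟩ : ∃ vec : Ω → Fin 3 → E, vec a = u ∧ ∀ x : Q, vec ((x : G) • t • a) = e (θ x) w := by
    refine ⟨fun p => if h : p = a then u else
      e (θ ⟨(exists_Q_smul_b hS h).choose, (exists_Q_smul_b hS h).choose_spec.1⟩) w, dif_pos rfl,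
      fun x => ?_⟩
    have h := smul_ne_a (smul_a_of_mem_Q hS x.2) (t_smul_ne hS)
    simp only [dif_neg h]
    congr 3
    exact Subtype.ext (Q_smul_inj hS (exists_Q_smul_b hS h).choose_spec.1 x.2 (t_smul_ne hS)
      (exists_Q_smul_b hS h).choose_spec.2)
  have hcases : ∀ p : Ω, p = a ∨ ∃ x : Q, p = (x : G) • t • a := fun p => by
    by_cases h : p = a
    · exact Or.inl h
    · obtain ⟨x, hx, e⟩ := exists_Q_smul_b hS h
      exact Or.inr ⟨⟨x, hx⟩, e.symm⟩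
  have b1 : ∀ x : S hE, f.B u (e x w) = 1 := fun x => by
    simp only [hew, f.B_add_right, f.B_smul_right, huw, huz, huu]; simp
  have b2 : ∀ x : S hE, f.B z (e x w) = x.a := fun x => by
    simp only [hew, f.B_add_right, f.B_smul_right, hzw, hzz, hzu]; simp
  have b3 : ∀ x : S hE, f.B w (e x w) = x.b := fun x => by
    simp only [hew, f.B_add_right, f.B_smul_right, hww, hwz, hwu]; simp
  have vne : ∀ p, vec p ≠ 0 := fun p h => by
    rcases hcases p with rfl | ⟨x, rfl⟩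
    · exact hu0 (va.symm.trans h)
    · have := b1 (θ x)
      rw [← vb, h, f.B_zero_right] at this
      exact zero_ne_one this
  have vinj : ∀ (p p' : Ω) (c : E), vec p = c • vec p' → p = p' := fun p p' c h => by
    rcases hcases p with rfl | ⟨x, rfl⟩ <;> rcases hcases p' with rfl | ⟨y, rfl⟩
    · rfl
    · have := congrArg (f.B u) h
      rw [va, vb, huu, f.B_smul_right, b1, mul_one] at this
      rw [← this, zero_smul] at h
      exact absurd h (vne _)
    · have := congrArg (f.B u) h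
      rw [va, vb, b1, f.B_smul_right, huu, mul_zero] at this
      exact absurd this one_ne_zero
    · rw [vb, vb] at h
      have h1 := congrArg (f.B u) h
      rw [b1, f.B_smul_right, b1, mul_one] at h1
      rw [← h1, one_smul] at h
      have : θ x = θ y := S.ext (by rw [← b2, h, b2]) (by rw [← b3, h, b3])
      rw [θ.injective this]
  let R : ((Fin 3 → E) ≃ₗ[E] (Fin 3 → E)) → G → Prop :=
    fun m g => ∀ p, ∃ c : E, m (vec p) = c • vec (g • p)
  have Rne : ∀ (m : (Fin 3 → E) ≃ₗ[E] (Fin 3 → E)) p (c : E) v, m (vec p) = c • v → c ≠ 0 := by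
    rintro m p c v h rfl
    rw [zero_smul, m.map_eq_zero_iff] at h
    exact vne p h
  have Rone : R 1 1 := fun p => ⟨1, by simp⟩
  have Rmul : ∀ m m' g g', R m g → R m' g' → R (m * m') (g * g') := fun m m' g g' h h' p => by
    obtain ⟨c', hc'⟩ := h' p
    obtain ⟨c, hc⟩ := h (g' • p)
    exact ⟨c' * c, by rw [LinearEquiv.mul_apply, hc', map_smul, hc, smul_smul, mul_smul g]⟩
  have Rinv : ∀ m g, R m g → R m⁻¹ g⁻¹ := fun m g h p => by
    obtain ⟨c, hc⟩ := h (g⁻¹ • p)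
    refine ⟨c⁻¹, m.injective ?_⟩
    rw [map_smul, hc, smul_inv_smul, smul_smul, inv_mul_cancel₀ (Rne _ _ _ _ hc), one_smul]
    exact m.apply_symm_apply _
  have RQ : ∀ x : Q, R (e (θ x)) x := fun x p => by
    refine ⟨1, ?_⟩
    rcases hcases p with rfl | ⟨y, rfl⟩
    · rw [smul_a_of_mem_Q hS x.2, va, heu, one_smul]
    · rw [smul_smul (x : G), ← Subgroup.coe_mul, vb, vb, map_mul, map_mul, one_smul]; rfl
  have vb1 : vec (t • a) = w := by
    have := vb 1
    rwa [map_one, map_one, Subgroup.coe_one, one_smul] at this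
  have Rt : R s t := fun p => by
    rcases hcases p with rfl | ⟨x, rfl⟩
    · exact ⟨1, by rw [va, hsu, vb1, one_smul]⟩
    by_cases hx : x = 1
    · exact ⟨1, by rw [hx, Subgroup.coe_one, one_smul, vb1, t_smul_t_smul hS, va, hsw, one_smul]⟩
    obtain ⟨y, e1, e2, e3⟩ := hθ x hx
    refine ⟨(θ x).b, ?_⟩
    rw [e1, vb, vb, hew, hew, map_add, map_add, map_smul, map_smul, hsu, hsw, hsz, smul_add, smul_add,
      smul_smul, smul_smul, mul_comm _ (θ y).a, mul_comm _ (θ y).b, e2, e3, one_smul]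
    abel
  have RV : ∀ c : Eˣ, (c : E) ^ q * c = 1 → ∃ d ∈ f.O,
      LinearMap.det (d : (Fin 3 → E) →ₗ[E] (Fin 3 → E)) = c ∧
      ∀ v (hv : v ∈ Vg a t), (∀ x : Q, θ ⟨_, conj_mem_Q hS hv.1.1 x.2⟩ = S.tor c (θ x)) → R d v :=
    fun c hc => by
    obtain ⟨d, hd, d1, d2, d3⟩ := exists_quasiRefl (f := f) hzz (d := c) hc
    refine ⟨d, hd, d3, fun v hv h p => ⟨1, ?_⟩⟩
    rcases hcases p with rfl | ⟨x, rfl⟩
    · rw [show v • p = p from hv.1.1, va, d2 u hzu, one_smul]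
    · have := conj_emb hu huz hz hd (c := 1) (d := c) (by rw [d2 u hzu]; simp) d1 (θ x)
      rw [one_pow, one_mul, ← h, mul_inv_eq_iff_eq_mul] at this
      rw [D_smul_b hv.1, vb ⟨_, conj_mem_Q hS hv.1.1 x.2⟩, vb, one_smul, ← LinearEquiv.mul_apply, this,
        LinearEquiv.mul_apply, d2 w hzw]
  let M : Subgroup ((Fin 3 → E) ≃ₗ[E] (Fin 3 → E)) :=
    { carrier := {m | ∃ g, R m g}
      one_mem' := ⟨1, Rone⟩
      mul_mem' := fun ⟨g, h⟩ ⟨g', h'⟩ => ⟨_, Rmul _ _ _ _ h h'⟩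
      inv_mem' := fun ⟨g, h⟩ => ⟨_, Rinv _ _ h⟩ }
  let M' : Subgroup G :=
    { carrier := {g | ∃ m ∈ f.O, R m g}
      one_mem' := ⟨1, one_mem _, Rone⟩
      mul_mem' := fun ⟨g, hg, h⟩ ⟨g', hg', h'⟩ => ⟨_, mul_mem hg hg', Rmul _ _ _ _ h h'⟩
      inv_mem' := fun ⟨g, hg, h⟩ => ⟨_, inv_mem hg, Rinv _ _ h⟩ }
  have hM1 : Lg t Q ≤ M' :=
    Lg_le (fun x hx => ⟨_, f.SO_le_O (heSO _), RQ ⟨x, hx⟩⟩) ⟨s, f.SO_le_O hsSO, Rt⟩
  have hM2 : ∀ g, g • a = a → g ∈ M' := fun g hg => by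
    obtain ⟨x, hx, d, d1, d2, rfl⟩ := exists_Q_mul_D hS hg
    obtain ⟨k, hk, v, hv, rfl⟩ := exists_K_mul_V hS (d := d) ⟨d1, d2⟩
    obtain ⟨c, hc, h⟩ := hV v hv
    obtain ⟨m, hm, -, h'⟩ := RV c hc
    exact mul_mem (hM1 (mem_Lg_of_mem_Q hx)) (mul_mem (hM1 (K_mem_Lg hS hk)) ⟨m, hm, h' v hv h⟩)
  have hM' : ∀ g, g ∈ M' := fun g => by
    rcases hcases (g • a) with h | ⟨x, h⟩
    · exact hM2 g h
    · have := hM2 (((x : G) * t)⁻¹ * g) (by rw [mul_smul, h, ← mul_smul (x : G), inv_smul_smul])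
      rwa [M'.mul_mem_cancel_left (inv_mem (hM1 (mul_mem (mem_Lg_of_mem_Q x.2) t_mem_Lg)))] at this
  have hMu : f.U u ≤ M := by
    rw [← range_emb hf h3 hu hw huw huz hwz hz]
    rintro _ ⟨x, rfl⟩
    obtain ⟨x, rfl⟩ := θ.surjective x
    exact ⟨x, RQ x⟩
  have hsM : s ∈ M := ⟨t, Rt⟩
  have hMw : f.U w ≤ M := fun x hx => by
    have := hMu (hsw ▸ Form.conj_mem_U (f.SO_le_O hsSO) hx)
    rwa [M.mul_mem_cancel_right (inv_mem hsM), M.mul_mem_cancel_left hsM] at this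
  have hM0 : f.SO ≤ M := by
    rw [← E_eq_SO (sig_ne_id hE) hf, Form.E_le_iff]
    intro v hv0 hv
    by_cases h1 : f.B u v = 0
    · by_cases h2 : f.B w v = 0
      · obtain ⟨c, rfl⟩ := exists_eq_smul_of_perp hf h3 hu hw huw huz hwz hz h1 h2
        rw [f.q_smul, hz, mul_one, mul_eq_zero, map_eq_zero, or_self] at hv
        exact absurd (by rw [hv, zero_smul]) hv0
      · exact Form.U_le_of_B_ne hw hu hv (by rw [hwu]; exact one_ne_zero) h2 hMw hMu
    · exact Form.U_le_of_B_ne hu hw hv (by rw [huw]; exact one_ne_zero) h1 hMu hMw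
  have hM : f.O ≤ M := fun m hm => by
    have hc : ((LinearEquiv.det m : Eˣ) : E) ^ q * (LinearEquiv.det m : Eˣ) = 1 := by
      simpa [HT_σ] using hf.σ_det_mul_det hm
    obtain ⟨v, hv, h⟩ := hV' _ hc
    obtain ⟨d, hd, d1, d2⟩ := RV _ hc
    have := hM0 (x := m * d⁻¹) (Subgroup.mem_inf.2 ⟨f.O.mul_mem hm (f.O.inv_mem hd), by
      rw [MonoidHom.mem_ker, map_mul, map_inv, mul_inv_eq_one]
      exact Units.ext (d1.symm.trans (LinearEquiv.coe_det d).symm)⟩)
    rwa [M.mul_mem_cancel_right (inv_mem (show d ∈ M from ⟨v, d2 v hv h⟩))] at this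
  obtain ⟨φ⟩ := nonempty_equiv_quot_of_rel (H := G) (L := f.O) (fun m g => R m g)
    (fun m m' g g' => Rmul _ _ _ _) (fun m g g' h h' => eq_of_smul_eq_smul (α := Ω) fun p => by
      obtain ⟨c, hc⟩ := h p
      obtain ⟨c', hc'⟩ := h' p
      refine vinj _ _ (c⁻¹ * c') ?_
      rw [mul_smul, ← hc', hc, smul_smul, inv_mul_cancel₀ (Rne _ _ _ _ hc), one_smul])
    (fun g => let ⟨m, hm, h⟩ := hM' g; ⟨⟨m, hm⟩, h⟩) (fun m => hM m.2)
    (Subgroup.center _) (fun m => by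
      rw [mem_center_iff_scal (sig_ne_id hE) hf (by simp) (Tv_le_SO.trans f.SO_le_O)]
      refine ⟨fun ⟨c, hc⟩ p => ⟨c, by rw [← hc, scal_apply, one_smul]⟩, fun h => ?_⟩
      simp only [R, one_smul] at h
      have hm := m.2
      obtain ⟨c1, k1⟩ := h a
      obtain ⟨c2, k2⟩ := h (t • a)
      have n1 := Rne _ _ _ _ k1
      have n2 := Rne _ _ _ _ k2
      rw [va] at k1
      rw [vb1] at k2
      obtain ⟨d, k3⟩ := exists_eq_smul_of_perp hf h3 hu hw huw huz hwz hz (v := m.1 z) (by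
        have := Form.mem_O_B hm u z
        rwa [k1, huz, f.B_smul_left, mul_eq_zero, map_eq_zero, or_iff_right n1] at this) (by
        have := Form.mem_O_B hm w z
        rwa [k2, hwz, f.B_smul_left, mul_eq_zero, map_eq_zero, or_iff_right n2] at this)
      obtain ⟨x, hx⟩ := S.exists_a hE 1
      obtain ⟨y, rfl⟩ := θ.surjective x
      have hb : (θ y).b ≠ 0 := fun h0 => by simpa [hx, h0, zero_pow_q hE] using (θ y).h
      obtain ⟨c3, k4⟩ := h ((y : G) • t • a)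
      rw [vb, hew, map_add, map_add, map_smul, map_smul, k1, k2, k3, hx] at k4
      have j1 := congrArg (f.B u) k4
      have j2 := congrArg (f.B z) k4
      have j3 := congrArg (f.B w) k4
      simp only [f.B_add_right, f.B_smul_right, huw, huz, huu, hzw, hzz, hzu, hww, hwz, hwu, mul_one,
        mul_zero, add_zero, zero_add, one_mul] at j1 j2 j3
      have j4 : c1 = c3 := mul_left_cancel₀ hb (j3.trans (mul_comm _ _))
      refine ⟨Units.mk0 c1 n1, LinearEquiv.ext fun v => ?_⟩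
      obtain ⟨l1, l2⟩ := Form.hyp_proj hu hw huw v
      obtain ⟨c, hc⟩ := exists_eq_smul_of_perp hf h3 hu hw huw huz hwz hz l1 l2
      rw [sub_sub, sub_eq_iff_eq_add] at hc
      rw [hc, scal_apply]
      simp only [map_add, map_smul, k1, k2, k3, Units.val_mk0, j1, j2, j4]
      module)
  exact ⟨φ.trans (Sp.quotientCenterCongr (guEquiv hE 3)).symm⟩

/-- An automorphism of the model group fixing the centre and commuting with a non-trivial element of
the norm-one torus lies in that torus. -/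
theorem eq_tor_of_commute {E : Type*} [Field E] [Fintype E] [CharP E 2] {q : ℕ}
    {hE : Fintype.card E = q ^ 2} (α : MulAut (S hE)) (h1 : ∀ x : S hE, x.a = 0 → α x = x) {z : Eˣ}
    (hz : (z : E) * z ^ q = 1) (hz1 : (z : E) ≠ 1) (h2 : ∀ x, α (S.tor z x) = S.tor z (α x)) :
    ∃ c : Eˣ, (c : E) ^ q * c = 1 ∧ α = S.tor c := by
  have two := CharTwo.two_eq_zero (R := E)
  obtain ⟨c, φ, h⟩ := S.exists_abar_eq two α
  have h3 : ∀ b : E, b ^ q = b → (c : E) ^ q * c * φ b = b := fun b hb => by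
    have := S.map_b_of_abar h (x := S.z b (by rw [hb, CharTwo.add_self_eq_zero])) rfl
    rw [h1 _ rfl] at this
    exact this.symm
  have hc : (c : E) ^ q * c = 1 := by simpa using h3 1 (one_pow q)
  have h4 : φ z = z := by
    obtain ⟨x, hx⟩ := S.exists_a hE 1
    have := congrArg S.a (h2 x)
    rw [S.tor_a, ← S.abar_a α, ← S.abar_a α, h, h, S.tor_a, hx, mul_one, map_one, mul_one, mul_comm] at this
    exact mul_right_cancel₀ c.ne_zero this
  have h5 : ∀ e, φ e = e := fun e => by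
    obtain ⟨u, v, hu, hv, rfl⟩ := exists_fixed_lin hE hz hz1 e
    have k1 := h3 u hu
    have k2 := h3 v hv
    rw [hc, one_mul] at k1 k2
    rw [map_add, map_mul, k1, k2, h4]
  obtain ⟨k, hk, e⟩ := S.exists_eq_cen (α := S.tor c⁻¹ * α) fun e => by
    rw [S.abar_mul, h, h5]
    exact (S.abar_aut _ 1 _).trans (by simp)
  have h6 : ∀ e, k (z * e) = k e := fun e' => by
    obtain ⟨x, rfl⟩ := S.exists_a hE e'
    have k1 : (S.tor c⁻¹ * α : MulAut _) (S.tor z x) = S.tor z ((S.tor c⁻¹ * α : MulAut _) x) := by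
      rw [MulAut.mul_apply, h2, ← MulAut.mul_apply, ← map_mul, mul_comm, map_mul]; rfl
    have k2 := congrArg S.b k1
    rw [e, S.cen_b, S.tor_b, S.tor_b, S.cen_b, S.tor_a, mul_comm ((z : E) ^ q), hz] at k2
    simpa using k2
  have h7 : ∀ e, k e = 0 := fun e => by
    have : (z : E) - 1 ≠ 0 := sub_ne_zero.2 hz1
    rw [← mul_div_cancel₀ e this, sub_mul, map_sub, h6, one_mul, sub_self]
  refine ⟨c, hc, ?_⟩
  rw [map_inv, inv_mul_eq_iff_eq_mul] at e
  rw [e]
  ext x <;> simp [h7]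

/-- Recognition of `PGU(3, q)`. -/
theorem recog_PGU {F : Type*} [Field F] [Finite G] [FaithfulSMul G Ω] (hS : IsRankOneSetup G Ω a t Q)
    (C : FC F a t Q) (hP : IsPGroup 2 Q) (hna : ∃ x ∈ Q, ∃ y ∈ Q, x * y ≠ y * x)
    (hcard : Nat.card Q = Nat.card F ^ 3) (hVW : Vg a t ≤ Wg a t)
    (hab : ∀ v ∈ Vg a t, ∀ w ∈ Vg a t, v * w = w * v) (hV : Nat.card (Vg a t) = Nat.card F + 1)
    (E : Type*) [Field E] [Fintype E] (hE : Fintype.card E = Nat.card F ^ 2) :
    Nonempty (G ≃* GU 3 E (Nat.card F) ⧸ Subgroup.center (GU 3 E (Nat.card F))) := by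
  have := C.finite
  have hW : Wg a t ≠ ⊥ := fun h => by
    rw [h, le_bot_iff] at hVW
    have := Nat.card_pos (α := F)
    rw [hVW, Subgroup.card_bot] at hV
    omega
  have H : UHyp C := ⟨hS, inferInstance, hP, hna, hcard, hW⟩
  obtain ⟨ζ, h1, h2, h3, ω, h4, h5, h6⟩ := H.exists_omega
  have O : OC C ζ ω := ⟨h1, h2, h3, h4, h5, h6⟩
  obtain ⟨X, hX⟩ := H.exists_X h1 h2 h4 h5 E hE
  obtain ⟨_, ι, z, χ, I⟩ := H.exists_IC O hE hX
  obtain ⟨b, B⟩ := H.exists_BC O hE hX I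
  obtain ⟨δ, hδ⟩ := exists_mul_pow_q_eq hE (trace_pow_q hE z)
  have hδ0 : δ ≠ 0 := by rintro rfl; exact add_pow_q_ne I.hz I.hz1 (by rw [← hδ, zero_mul])
  let θ : Q →* U3.S hE := MonoidHom.mk'
    (fun x => ⟨δ * X x, b x, by rw [B.tr _ x.2, ← hδ]; ring⟩) fun x y => U3.S.ext
      (by simp only [U3.S.mul_a, Subgroup.coe_mul, hX.add _ x.2 _ y.2, mul_add])
      (by simp only [U3.S.mul_b, Subgroup.coe_mul, B.mul _ x.2 _ y.2, ← hδ]; ring)
  have hθ : Function.Injective θ := (injective_iff_map_eq_one θ).mpr fun x hx => by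
    have e1 : δ * X x = 0 := congrArg U3.S.a hx
    have e2 : b x = 0 := congrArg U3.S.b hx
    obtain ⟨u, hu⟩ := C.exists_z x.2 ((hX.zero _ x.2).mp ((mul_eq_zero.mp e1).resolve_left hδ0))
    rw [← hu, B.hz, map_eq_zero] at e2
    exact Subtype.ext (by rw [← hu, e2, C.z_zero]; rfl)
  let θ' := MulEquiv.ofBijective θ (hθ.bijective_of_nat_card_le (by rw [U3.S.card_S, hcard]))
  have hθ' : ∀ x, θ' x = θ x := fun _ => rfl
  have hN : Vg a t ≤ Subgroup.normalizer (Q : Set G) :=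
    Subgroup.le_normalizer_iff.2 fun v hv x hx => conj_mem_Q hS hv.1.1 hx
  let z' : Eˣ := Units.mk0 z (left_ne_zero_of_mul_eq_one I.hz)
  have k1 : ∀ x : Q, θ' ⟨_, conj_mem_Q hS h1.1.1.1 x.2⟩ = S.tor z' (θ' x) := fun x => S.ext
    (show δ * X _ = z * (δ * X x) by rw [I.hζ _ x.2]; ring)
    (show b _ = z ^ _ * z * b x by rw [B.hζ _ x.2, mul_comm _ z, I.hz, one_mul])
  have k2 : ∀ v : Vg a t, ∃ c : Eˣ, (c : E) ^ Nat.card F * c = 1 ∧
      ∀ x : Q, θ' ⟨_, conj_mem_Q hS v.2.1.1 x.2⟩ = S.tor c (θ' x) := fun v => by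
    refine (eq_tor_of_commute (MulAut.congr θ' (Q.normalizerMonoidHom ⟨v, hN v.2⟩))
      (fun x hx => ?_) (z := z') I.hz I.hz1 (fun x => ?_)).imp fun c ⟨hc, e⟩ =>
        ⟨hc, fun x => by rw [← e]; simp; rfl⟩
    · obtain ⟨x, rfl⟩ := θ'.surjective x
      obtain ⟨u, hu⟩ := C.exists_z x.2 ((hX.zero _ x.2).mp ((mul_eq_zero.mp hx).resolve_left hδ0))
      simp only [MulAut.congr_apply, MulEquiv.trans_apply, MulEquiv.symm_apply_apply]
      refine congrArg θ' (Subtype.ext ?_)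
      show (v : G) * x * (v : G)⁻¹ = x
      rw [← hu, ((C.mem_W_iff hS).1 (hVW v.2)).2, mul_inv_cancel_right]
    · obtain ⟨x, rfl⟩ := θ'.surjective x
      simp only [← k1, MulAut.congr_apply, MulEquiv.trans_apply, MulEquiv.symm_apply_apply]
      refine congrArg θ' (Subtype.ext ?_)
      show (v : G) * (ζ * x * ζ⁻¹) * (v : G)⁻¹ = ζ * (v * x * (v : G)⁻¹) * ζ⁻¹
      calc _ = (v * ζ) * x * (v * ζ : G)⁻¹ := by group
        _ = _ := by rw [hab v v.2 ζ h1.1]; group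
  choose c hc hc' using k2
  refine recog_of_model_GU hS hE θ' (fun x hx => ?_) (fun v hv => ⟨_, hc ⟨v, hv⟩, hc' ⟨v, hv⟩⟩)
    fun d hd => ?_
  · by_cases hx2 : (x : G) * x = 1
    · obtain ⟨u, hu⟩ := C.exists_z x.2 hx2
      have hu0 : u ≠ 0 := by rintro rfl; exact hx (Subtype.ext (hu.symm.trans C.z_zero))
      refine ⟨⟨_, C.z_mem u⁻¹⟩, by rw [← hu, C.t_smul_z hS H.hr hu0], ?_, ?_⟩
      · show δ * X (C.z u⁻¹) * b x = δ * X x
        rw [← hu, H.X_z hX, H.X_z hX, mul_zero, zero_mul]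
      · show b (C.z u⁻¹) * b x = 1
        rw [← hu, B.hz, B.hz, ← map_mul, inv_mul_cancel₀ hu0, map_one]
    · obtain ⟨e1, -, e2⟩ := H.ph_out x.2 hx2
      obtain ⟨e3, e4⟩ := H.good O hE hX I B x.2 hx2
      refine ⟨⟨_, e1⟩, e2, ?_, e4⟩
      show δ * X (ph a t Q x) * b x = δ * X x
      rw [mul_assoc, e3]
  · have hi : Function.Injective fun v => (⟨c v, (mem_rootsOfUnity' _ _).2 ((pow_succ _ _).trans (hc v))⟩ :
        rootsOfUnity (Nat.card F + 1) E) := fun v w h => by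
      refine Subtype.ext (inv_mul_eq_one.1 (eq_one_of_centralizes_Q hS
        (mul_mem (inv_mem v.2.1) w.2.1) fun x hx => ?_))
      have := hc' v ⟨x, hx⟩
      rw [show c v = c w from congrArg Subtype.val h, ← hc' w] at this
      have e : (v : G) * x * (v : G)⁻¹ = w * x * (w : G)⁻¹ := congrArg Subtype.val (θ'.injective this)
      calc _ = (v : G)⁻¹ * (w * x * (w : G)⁻¹) * w := by group
        _ = _ := by rw [← e]; group
    obtain ⟨v, hv⟩ := (hi.bijective_of_nat_card_le (by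
      rw [card_rootsOfUnity_of_dvd hE dvd_rfl, hV])).2
      ⟨d, (mem_rootsOfUnity' _ _).2 ((pow_succ _ _).trans hd)⟩
    exact ⟨v, v.2, fun x => by rw [hc', show c v = d from congrArg Subtype.val hv]⟩

end CL.PS
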