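import Mathlib
import Cfsg.Agent.PERM.PGU3a
import Cfsg.Agent.INV.Bender.Cons

/-!
Suzuki's characterisation of `PGU(3, q)`, `q` even, by the centraliser of an involution.
-/

set_option autoImplicit false
open Cfsg MulAction

namespace CL.PGU3

open Module CL.Witt CL.SqField CL.Uni CL.U3 CL.PS CL.TwoInv

variable {E : Type*} [Field E] [Fintype E] {q : ℕ}

/-- The shape of the centraliser of an involution of `PGU(3, q)`. -/
def CU (hE : Fintype.card E = q ^ 2) (C : Type*) [Group C] : Prop :=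
  ∃ (ι : S hE →* C) (δ : C →* Eˣ), Function.Injective ι ∧ (∀ x, δ x = 1 ↔ ∃ y, ι y = x) ∧
    Nat.card C = (q + 1) * q ^ 3 ∧ (∀ x, (∀ y, x * ι y = ι y * x) → δ x = 1) ∧
    ∀ y, y.a = 0 → ∀ x, x * ι y = ι y * x

variable {hE : Fintype.card E = q ^ 2}

theorem CU.congr {C D : Type*} [Group C] [Group D] (h : CU hE C) (e : C ≃* D) : CU hE D := by
  obtain ⟨ι, δ, h1, h2, h3, h4, h5⟩ := h
  refine ⟨e.toMonoidHom.comp ι, δ.comp e.symm.toMonoidHom, e.injective.comp h1, fun x => ?_,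
    Nat.card_congr e.toEquiv ▸ h3, fun x hx => h4 _ fun y => e.injective (by simpa using hx y),
    fun y hy x => e.symm.injective (by simpa using h5 y hy (e.symm x))⟩
  exact (h2 _).trans (exists_congr fun y => e.eq_symm_apply)

variable [CharP E 2]

theorem exists_cu (hE : Fintype.card E = q ^ 2) :
    ∃ y : GU 3 E q ⧸ Subgroup.center (GU 3 E q), orderOf y = 2 ∧ CU hE (Subgroup.centralizer {y}) := by
  let f := std hE (Fin 3)
  have hf : f.Nondeg := std_nondeg hE (Fin 3)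
  have h3 : finrank E (Fin 3 → E) = 3 := by simp
  have two := CharTwo.two_eq_zero (R := E)
  obtain ⟨u, hu0, hu⟩ := exists_isotropic (sig_ne_id hE) hf (by simp)
  obtain ⟨w, z, hw, huw, huz, hwz, hz⟩ := exists_triple hf h3.ge hu hu0
  have hzu := f.B_eq_zero_symm huz
  have hzz : f.B z z = 1 := by rw [← f.herm_q, hz]
  let e : S hE →* _ := emb hu huz hz
  have he : Function.Injective e := emb_injective hu huz hz huw (f.B_eq_zero_symm hwz)
  have hr := range_emb hf h3 hu hw huw huz hwz hz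
  let H := f.O ⊓ stabilizer ((Fin 3 → E) ≃ₗ[E] (Fin 3 → E)) u
  have hUH : ∀ g, g ∈ H ⊓ f.SO ↔ ∃ y, e y = g := fun g =>
    ⟨fun h => hr.ge (mem_U_of_apply_eq hf h3 hu hu0 h.2 h.1.2), by
      rintro ⟨y, rfl⟩
      have := emb_mem_U hu huz hz y
      exact ⟨⟨Form.U_le_O u this, apply_eq_of_mem_U this⟩, Form.U_le_SO _ u this⟩⟩
  have hc : ∀ y : S hE, y.a = 0 → y.b ≠ 0 → ∀ g ∈ f.O,
      (g * e y = e y * g ↔ ∃ c : E, c ^ (q + 1) = 1 ∧ g u = c • u) := fun y hy hb g hg => by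
    rw [emb_apply, hy, zero_smul]
    exact commute_tv_iff hf hu hu0 hb (S.tr_b_of_a hy) hg
  have hH : CU hE H := by
    refine ⟨e.codRestrict H fun y => ((hUH _).2 ⟨y, rfl⟩).1, LinearEquiv.det.comp H.subtype,
      (MonoidHom.injective_codRestrict _ _ _).2 he, fun x => ?_, ?_, fun x hx => ?_, fun y hy x => ?_⟩
    · exact ⟨fun h => ((hUH x).1 ⟨x.2, x.2.1, h⟩).imp fun y => Subtype.ext,
        fun ⟨y, h⟩ => ((hUH x).2 ⟨y, congrArg Subtype.val h⟩).2.2⟩
    · rw [← card_inf_SO hf inf_le_left fun d hd => ?_, show H ⊓ f.SO = e.range from Subgroup.ext hUH,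
        ← Nat.card_congr (MonoidHom.ofInjective he).toEquiv, S.card_S]
      obtain ⟨g, hg, -, g2, g3⟩ := exists_quasiRefl (f := f) hzz (d := d) hd
      exact ⟨g, ⟨hg, g2 u hzu⟩, g3⟩
    · show LinearEquiv.det x.1 = 1
      obtain ⟨g, hg, g1, g2, g3⟩ := exists_quasiRefl (f := f) hzz (d := (LinearEquiv.det x.1 : Eˣ))
        (by rw [LinearEquiv.coe_det]; exact hf.σ_det_mul_det x.2.1)
      have hgH : g ∈ H := ⟨hg, g2 u hzu⟩
      obtain ⟨s, hs⟩ := (hUH (x * g⁻¹)).1 ⟨H.mul_mem x.2 (H.inv_mem hgH), Subgroup.mem_inf.2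
        ⟨(H.mul_mem x.2 (H.inv_mem hgH)).1, by
          rw [MonoidHom.mem_ker, map_mul, map_inv, mul_inv_eq_one]
          exact Units.ext (g3.symm.trans (LinearEquiv.coe_det g).symm)⟩⟩
      obtain ⟨y, hy⟩ := S.exists_a hE 1
      have k1 := conj_emb hu huz hz hg (c := 1) (by rw [g2 u hzu]; simp) g1 y
      have k2 : x.1 * e y = e y * x := congrArg Subtype.val (hx y)
      rw [eq_mul_inv_iff_mul_eq] at hs
      rw [← hs, mul_assoc, ← mul_assoc (e y), mul_inv_eq_iff_eq_mul.1 k1, ← mul_assoc, mul_left_inj,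
        ← map_mul, ← map_mul] at k2
      have k3 := congrArg S.a (he k2)
      rw [S.mul_a, S.mul_a, S.tor_a, hy, add_comm, add_left_inj, one_pow, one_mul, mul_one] at k3
      exact Units.ext k3
    · by_cases hb : y.b = 0
      · rw [show y = 1 from S.ext hy hb, map_one, mul_one, one_mul]
      · exact Subtype.ext ((hc y hy hb x x.2.1).2 ⟨1, one_pow _, x.2.2.trans (one_smul _ _).symm⟩)
  let π : f.O →* GU 3 E q ⧸ Subgroup.center (GU 3 E q) :=
    (QuotientGroup.mk' _).comp (guEquiv hE 3).symm.toMonoidHom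
  have hπ : ∀ g, π g = 1 ↔ ∃ c : Eˣ, scal _ c = g.1 := fun g => by
    rw [← mem_center_iff_scal (sig_ne_id hE) hf (by simp) (Tv_le_SO.trans f.SO_le_O),
      ← Sp.mem_center_of_mulEquiv (guEquiv hE 3).symm]
    exact QuotientGroup.eq_one_iff _
  have hπs : Function.Surjective π :=
    (QuotientGroup.mk'_surjective _).comp (guEquiv hE 3).symm.surjective
  let ψ := π.comp (Subgroup.inclusion (inf_le_left : H ≤ f.O))
  have hψ : Function.Injective ψ := (injective_iff_map_eq_one _).2 fun g hg => by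
    obtain ⟨c, hc⟩ := (hπ _).1 hg
    have h1 : (c : E) • u = (1 : E) • u := by rw [← scal_apply, hc, one_smul]; exact g.2.2
    rw [show c = 1 from Units.ext (smul_left_injective E hu0 h1), map_one] at hc
    exact Subtype.ext hc.symm
  let y : S hE := S.z 1 (by rw [one_pow, CharTwo.add_self_eq_zero])
  have hy : y * y = 1 := (S.mul_self_eq_one_iff two).2 rfl
  let T : H := ⟨e y, ((hUH _).2 ⟨y, rfl⟩).1⟩
  have hT : T * T = 1 := Subtype.ext (show e y * e y = 1 by rw [← map_mul, hy, map_one])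
  refine ⟨ψ T, orderOf_eq_two_of (by rw [← map_mul, hT, map_one]) fun h => ?_,
    hH.congr ((MonoidHom.ofInjective hψ).trans (MulEquiv.subgroupCongr (Subgroup.ext fun p => ?_)))⟩
  · have := congrArg Subtype.val (hψ (h.trans (map_one ψ).symm))
    exact one_ne_zero (congrArg S.b (he (this.trans (map_one e).symm)))
  rw [Subgroup.mem_centralizer_singleton_iff]
  constructor
  · rintro ⟨g, rfl⟩
    rw [← map_mul, ← map_mul]
    exact congrArg ψ (Subtype.ext ((hc y rfl one_ne_zero g g.2.1).2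
      ⟨1, one_pow _, g.2.2.trans (one_smul _ _).symm⟩))
  · intro h
    obtain ⟨m, rfl⟩ := hπs p
    obtain ⟨c, hc1⟩ := (hπ (m * ⟨_, T.2.1⟩ * (⟨_, T.2.1⟩ * m)⁻¹)).1 (by
      rw [map_mul, map_inv, map_mul, map_mul, mul_inv_eq_one]; exact h)
    have k1 : m.1 * e y * m.1⁻¹ = scal _ c * e y := by
      rw [hc1]; simp [T, mul_assoc]
    have k2 : e y * e y = 1 := congrArg Subtype.val hT
    have k3 : scal (Fin 3 → E) (c * c) = scal _ 1 := by
      calc _ = scal _ c * e y * (scal _ c * e y) := by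
            rw [map_mul, mul_assoc, ← mul_assoc (e y), scal_comm c (e y), mul_assoc, k2, mul_one]
        _ = m.1 * (e y * e y) * m.1⁻¹ := by rw [← k1]; group
        _ = _ := by rw [k2, mul_one, mul_inv_cancel, map_one]
    have k4 : c = 1 := Units.ext (by
      have := congrArg Units.val (scal_injective k3)
      exact (mul_self_eq_one_iff.1 this).elim id fun h => h.trans (CharTwo.neg_eq 1))
    rw [k4, map_one, one_mul, mul_inv_eq_iff_eq_mul] at k1
    obtain ⟨d, hd, hd'⟩ := (hc y rfl one_ne_zero m m.2).1 k1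
    have hd0 : d ≠ 0 := by rintro rfl; simp at hd
    have hs : scal _ (Units.mk0 d hd0) ∈ f.O := scal_mem_O (by simpa [HT_σ, pow_succ] using hd)
    refine ⟨⟨m.1 * (scal (Fin 3 → E) (Units.mk0 d hd0))⁻¹, f.O.mul_mem m.2 (f.O.inv_mem hs), ?_⟩, ?_⟩
    · show (m.1 * (scal (Fin 3 → E) (Units.mk0 d hd0))⁻¹ : _ ≃ₗ[E] _) u = u
      rw [← map_inv, LinearEquiv.mul_apply, scal_apply, map_smul, hd', smul_smul]
      simp [hd0]
    · show π (m * ⟨_, hs⟩⁻¹) = π m
      rw [map_mul, map_inv, (hπ ⟨_, hs⟩).2 ⟨_, rfl⟩, inv_one, mul_one]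

variable {G : Type*} [Group G] [Finite G]

/-- The shape of involution centralisers, inside the ambient group. -/
structure Cen (hE : Fintype.card E = q ^ 2) (s : G) (ι : S hE →* G)
    (δ : Subgroup.centralizer {s} →* Eˣ) : Prop where
  inj : Function.Injective ι
  mem : ∀ y, ι y ∈ Subgroup.centralizer {s}
  ker : ∀ x, δ x = 1 ↔ x.1 ∈ ι.range
  card : Nat.card (Subgroup.centralizer {s}) = (q + 1) * q ^ 3
  cen : ∀ x : Subgroup.centralizer {s}, (∀ y, x.1 * ι y = ι y * x) → δ x = 1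
  comm : ∀ y ∈ ι.range, y * y = 1 → ∀ x ∈ Subgroup.centralizer {s}, x * y = y * x

omit [Finite G] in
theorem CU.cen {s : G} (h : CU hE (Subgroup.centralizer {s})) : ∃ ι δ, Cen hE s ι δ := by
  obtain ⟨ι, δ, h1, h2, h3, h4, h5⟩ := h
  refine ⟨(Subgroup.subtype _).comp ι, δ, Subtype.val_injective.comp h1, fun y => (ι y).2,
    fun x => (h2 x).trans (exists_congr fun y => Subtype.ext_iff), h3,
    fun x hx => h4 x fun y => Subtype.ext (hx y), ?_⟩
  rintro _ ⟨y, rfl⟩ hy x hx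
  refine congrArg Subtype.val (h5 y ((S.mul_self_eq_one_iff (CharTwo.two_eq_zero)).1 (h1 ?_)) ⟨x, hx⟩)
  rw [map_mul, map_one]
  exact Subtype.ext hy

namespace Cen
variable {s : G} {ι : S hE →* G} {δ : Subgroup.centralizer {s} →* Eˣ} (h : Cen hE s ι δ)
include h

omit [Finite G] h in
theorem pgroup : IsPGroup 2 ι.range := (S.isPGroup hE 2).of_surjective _ ι.rangeRestrict_surjective

omit [Finite G] in
theorem eq_range {P : Sylow 2 G} (hP : (P : Subgroup G) ≤ Subgroup.centralizer {s}) :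
    ι.range = P := by
  refine P.is_maximal' pgroup fun x hx => (h.ker ⟨x, hP hx⟩).1 (Units.ext ?_)
  obtain ⟨k, hk⟩ := P.isPGroup' ⟨x, hx⟩
  have h1 : δ ⟨x, hP hx⟩ ^ 2 ^ k = 1 := by
    rw [← map_pow, ← map_one δ]
    exact congrArg δ (Subtype.ext (congrArg Subtype.val hk :))
  have h2 := congrArg Units.val h1
  rw [Units.val_pow_eq_pow_val, ← iterateFrobenius_def, Units.val_one, ← map_one (iterateFrobenius E 2 k)] at h2
  exact (iterateFrobenius E 2 k).injective h2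

theorem eq_one_of_oddCore {x : G} (hx : x ∈ oddCore G) (hs : x ∈ Subgroup.centralizer {s}) : x = 1 := by
  have h1 : ∀ x ∈ oddCore G, x ∈ ι.range → x = 1 := fun x hx hx' => by
    obtain ⟨k, hk⟩ := pgroup (ι := ι) ⟨x, hx'⟩
    exact orderOf_eq_one_iff.1 (Nat.eq_one_of_dvd_coprimes ((coprime_card_pPrimeCore 2 G).pow_right k)
      (Subgroup.orderOf_dvd_natCard _ hx) (orderOf_dvd_of_pow_eq_one (congrArg Subtype.val hk)))
  refine h1 x hx ((h.ker ⟨x, hs⟩).1 (h.cen _ fun y => mul_inv_eq_one.1 (h1 _ ?_ ?_)))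
  · have := mul_mem hx ((inferInstance : (oddCore G).Normal).conj_mem _ (inv_mem hx) (ι y))
    simpa only [mul_inv_rev, mul_assoc] using this
  · refine (h.ker (⟨x, hs⟩ * ⟨_, h.mem y⟩ * (⟨_, h.mem y⟩ * ⟨x, hs⟩)⁻¹)).1 ?_
    rw [map_mul, map_inv, map_mul, map_mul, mul_comm (δ _), mul_inv_cancel]

end Cen

theorem recog (hq : 2 < q) (hev : Even (Nat.card G))
    (hC : ∀ s : G, orderOf s = 2 → CU hE (Subgroup.centralizer {s}))
    (hS : ∀ P : Sylow 2 G, ¬ (P : Subgroup G).Normal) :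
    Nonempty (G ≃* GU 3 E q ⧸ Subgroup.center (GU 3 E q)) := by
  have two := CharTwo.two_eq_zero (R := E)
  choose ι δ h using fun s hs => (hC s hs).cen
  have h1 : ∀ (P : Sylow 2 G) s (hs : orderOf s = 2), s ∈ P → (ι s hs).range = P := fun P s hs hP => by
    have : Nontrivial P := ⟨⟨s, hP⟩, 1, fun e => ne_one_of_orderOf_eq_two hs (congrArg Subtype.val e)⟩
    obtain ⟨r, hr⟩ := exists_prime_orderOf_dvd_card' 2 (G := Subgroup.center P) (by
      obtain ⟨k, hk, e⟩ := ((P.isPGroup'.to_subgroup _).nontrivial_iff_card).1 P.isPGroup'.center_nontrivial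
      exact e ▸ dvd_pow_self 2 hk.ne')
    have hr2 : orderOf (r.1 : G) = 2 := by rw [Subgroup.orderOf_coe, Subgroup.orderOf_coe, hr]
    have h2 : (P : Subgroup G) ≤ Subgroup.centralizer {(r.1 : G)} := fun x hx =>
      Subgroup.mem_centralizer_singleton_iff.2 (congrArg Subtype.val (Subgroup.mem_center_iff.1 r.2 ⟨x, hx⟩))
    exact (h s hs).eq_range fun x hx => Subgroup.mem_centralizer_singleton_iff.2
      ((h _ hr2).comm s (((h _ hr2).eq_range h2).ge hP) (mul_self_of_orderOf_eq_two hs) x (h2 hx))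
  have hI : IFix G (Sylow 2 G) := fun s hs => by
    have hp : IsPGroup 2 (Subgroup.zpowers s) := IsPGroup.of_card (n := 1) (by rw [Nat.card_zpowers, hs, pow_one])
    have k : ∀ P : Sylow 2 G, s • P = P ↔ s ∈ P := fun P => by
      rw [Sylow.smul_eq_iff_mem_normalizer]
      exact ⟨fun h => (hp.inf_normalizer_sylow P).le ⟨Subgroup.mem_zpowers s, h⟩ |>.2,
        fun h => Subgroup.le_normalizer h⟩
    obtain ⟨P, hP⟩ := hp.exists_le_sylow
    exact ⟨P, (k P).2 (hP (Subgroup.mem_zpowers s)), fun R hR => Sylow.ext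
      ((h1 R s hs ((k R).1 hR)).symm.trans (h1 P s hs (hP (Subgroup.mem_zpowers s))))⟩
  have : Nontrivial (Sylow 2 G) := not_subsingleton_iff_nontrivial.1 fun _ =>
    hS default (Sylow.normal_of_subsingleton _)
  have h2 : Rank2 G := by
    obtain ⟨s, hs⟩ := exists_prime_orderOf_dvd_card' 2 (G := G) hev.two_dvd
    obtain ⟨c, hc, c0, c1⟩ := exists_fixed_ne hE hq.ne'
    have k : ∀ y : S hE, y.a = 0 → ι s hs y * ι s hs y = 1 := fun y hy => by
      rw [← map_mul, (S.mul_self_eq_one_iff two).2 hy, map_one]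
    refine ⟨ι s hs (S.z c (by rw [← sig_apply hE, hc, CharTwo.add_self_eq_zero])),
      ι s hs (S.z 1 (by rw [one_pow, CharTwo.add_self_eq_zero])),
      fun e => c0 (congrArg S.b ((h s hs).inj (e.trans (map_one _).symm))),
      fun e => one_ne_zero (congrArg S.b ((h s hs).inj (e.trans (map_one _).symm))),
      fun e => c1 (congrArg S.b ((h s hs).inj e)), k _ rfl, k _ rfl,
      (h s hs).comm _ ⟨_, rfl⟩ (k _ rfl) _ ((h s hs).mem _)⟩
  have hO : ∀ x ∈ oddCore G, x = 1 := fun x hx => by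
    have k : ∀ s : G, orderOf s = 2 → ∀ x ∈ oddCore G, s * x * s⁻¹ = x⁻¹ := fun s hs x hx =>
      congrArg Subtype.val (congrFun (MonoidHom.FixedPointFree.coe_eq_inv_of_involutive
        (φ := MulAut.conjNormal (H := oddCore G) s) (fun y hy => Subtype.ext ((h s hs).eq_one_of_oddCore y.2
          (Subgroup.mem_centralizer_singleton_iff.2 (mul_inv_eq_iff_eq_mul.1 (congrArg Subtype.val hy)).symm)))
        fun y => by rw [← MulAut.mul_apply, ← map_mul, mul_self_of_orderOf_eq_two hs, map_one]; rfl) ⟨x, hx⟩)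
    obtain ⟨s, r, s1, r1, h3, s2, r2, h4⟩ := h2
    have s3 := orderOf_eq_two_of s2 s1
    have r3 := orderOf_eq_two_of r2 r1
    refine (h _ (Bender.orderOf_mul_of_comm s3 r3 h3 h4)).eq_one_of_oddCore hx
      (Subgroup.mem_centralizer_singleton_iff.2 (mul_inv_eq_iff_eq_mul.1 ?_).symm)
    calc _ = s * (r * x * r⁻¹) * s⁻¹ := by group
      _ = _ := by rw [k r r3 x hx, k s s3 _ (inv_mem hx), inv_inv]
  have : FaithfulSMul G (Sylow 2 G) := ⟨fun {g g'} H => inv_mul_eq_one.1 (hO _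
    ((Bender.mem_oddCore_iff hI h2 _).2 fun c => by rw [mul_smul, ← H, inv_smul_smul]))⟩
  obtain ⟨t, Q, hR, hQ⟩ := Bender.rankOneSetup hI h2 (default : Sylow 2 G)
  obtain ⟨n, -, ⟨C⟩⟩ := exists_FC hR h2 (Cfsg.Agent.S0205.result hR.odd_card)
  obtain ⟨P, rfl⟩ := Bender.exists_sylow_eq hR hQ
  have hs : orderOf (C.z 1) = 2 :=
    orderOf_eq_two_of (C.z_mul_self 1) fun e => one_ne_zero (C.z_eq_one_iff.1 e)
  have h3 := h1 P _ hs (C.z_mem 1)
  replace h := h _ hs
  generalize δ _ hs = δ, ι _ hs = ι at h h3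
  have h4 : Nat.card (GaloisField 2 n) = q := by
    rw [← C.card_Q0, ← S.card_center hE, ← h3]
    refine (Nat.card_congr (Equiv.ofBijective (fun y => ⟨ι y.1, ⟨y, rfl⟩, by
      rw [← map_mul, (S.mul_self_eq_one_iff two).2 (S.mem_center_iff.1 y.2), map_one]⟩)
      ⟨fun y y' e => Subtype.ext (h.inj (congrArg Subtype.val e)), ?_⟩)).symm
    rintro ⟨_, ⟨y, rfl⟩, hy⟩
    exact ⟨⟨y, S.mem_center_iff.2 ((S.mul_self_eq_one_iff two).1 (h.inj (by
      rw [map_mul, hy, map_one])))⟩, rfl⟩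
  have h5 : Vg default t ≤ Subgroup.centralizer {C.z 1} := fun v hv =>
    Subgroup.mem_centralizer_singleton_iff.2 ((C.mem_V_iff' hR).1 hv).2
  have h6 : Function.Injective (δ.comp (Subgroup.inclusion h5)) :=
    (injective_iff_map_eq_one _).2 fun v hv =>
      Subtype.ext (eq_one_of_mem_Q_of_mem_D hR (h3.le ((h.ker _).1 hv)) v.2.1)
  have h7 : Nat.card P = q ^ 3 := by
    rw [← S.card_S hE, Nat.card_congr (MonoidHom.ofInjective h.inj).toEquiv, h3]
  subst h4
  refine recog_PGU hR C hQ ?_ h7 (fun v hv => (C.mem_W_iff hR).2 ⟨hv.1, fun x =>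
    h.comm _ (h3.ge (C.z_mem x)) (C.z_mul_self x) v (h5 hv)⟩) (fun v hv w hw => congrArg Subtype.val
      (h6 (a₁ := ⟨v, hv⟩ * ⟨w, hw⟩) (a₂ := ⟨w, hw⟩ * ⟨v, hv⟩) (by rw [map_mul, map_mul, mul_comm]))) ?_ E hE
  · obtain ⟨x, hx⟩ := S.exists_a hE 1
    by_contra hc
    push Not at hc
    exact one_ne_zero (hx ▸ S.mem_center_iff.1 (Subgroup.mem_center_iff.2 fun y => h.inj (by
      rw [map_mul, map_mul]; exact hc _ (h3.le ⟨y, rfl⟩) _ (h3.le ⟨x, rfl⟩))))
  · have k1 : (δ.comp (Subgroup.inclusion h5)).range = δ.range := by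
      refine le_antisymm (by rintro _ ⟨v, rfl⟩; exact ⟨_, rfl⟩) ?_
      rintro _ ⟨⟨x, hx⟩, rfl⟩
      obtain ⟨y, hy, d, d1, d2, rfl⟩ := exists_Q_mul_D hR (smul_a_of_commute hR (C.z_mem 1)
        (ne_one_of_orderOf_eq_two hs) (Subgroup.mem_centralizer_singleton_iff.1 hx))
      obtain ⟨y, rfl⟩ := h3.ge hy
      have hd := (Subgroup.mul_mem_cancel_left _ (h.mem y)).1 hx
      refine ⟨⟨d, (C.mem_V_iff' hR).2 ⟨⟨d1, d2⟩, Subgroup.mem_centralizer_singleton_iff.1 hd⟩⟩, ?_⟩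
      rw [show (⟨_, hx⟩ : Subgroup.centralizer _) = ⟨_, h.mem y⟩ * ⟨d, hd⟩ from rfl, map_mul,
        (h.ker _).2 ⟨y, rfl⟩, one_mul]
      rfl
    have k2 := Subgroup.card_mul_index δ.ker
    have k3 : Nat.card δ.ker = Nat.card P := by
      rw [← Subgroup.card_map_of_injective (Subgroup.subtype_injective _)]
      refine congrArg (fun H : Subgroup G => Nat.card H) ((le_antisymm ?_ ?_).trans h3)
      · rintro _ ⟨x, hx, rfl⟩; exact (h.ker x).1 hx
      · rintro _ ⟨y, rfl⟩; exact ⟨⟨_, h.mem y⟩, (h.ker _).2 ⟨y, rfl⟩, rfl⟩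
    rw [Subgroup.index_ker, ← k1, ← Nat.card_congr (MonoidHom.ofInjective h6).toEquiv, h.card, k3, h7,
      mul_comm] at k2
    exact Nat.eq_of_mul_eq_mul_right (by positivity) k2

end CL.PGU3
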