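import Mathlib
import Cfsg.Agent.PERM.Plane3
import Cfsg.Agent.PERM.Derange

/-!
A doubly transitive collineation group of a finite projective plane contains an elation.
-/

set_option autoImplicit false

namespace CL.SymDes

open Finset MulAction Subgroup CL.MSS
open scoped Classical commutatorElement

theorem burnside_mul (G Z W : Type*) [Group G] [Fintype G] [Fintype Z] [Fintype W] [MulAction G Z]
    [MulAction G W] : ∑ g : G, (∑ z : Z, ind (g • z = z)) * (∑ z : W, ind (g • z = z)) =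
      (Nat.card (orbitRel.Quotient G (Z × W)) * Fintype.card G : ℕ) := by
  have := Fintype.ofFinite (orbitRel.Quotient G (Z × W))
  rw [Nat.card_eq_fintype_card, ← sum_card_fixedBy_eq_card_orbits_mul_card_group, Nat.cast_sum]
  refine sum_congr rfl fun g _ => ?_
  rw [← Nat.card_eq_fintype_card, sum_mul_sum, ← Fintype.sum_prod_type']
  refine Eq.trans ?_ (sum_ind_card fun z : Z × W => g • z = z)
  exact sum_congr rfl fun z _ => by rw [← ind_and, Prod.ext_iff]; rfl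

section Orbits

variable {G Z : Type*} [Group G] [Finite G] [MulAction G Z] [Fintype Z] {p : ℕ} [Fact p.Prime]

theorem sylow_orbit_dvd {H P : Subgroup G} (hP : SylIn p P H) {S : Z → Prop} {x : Z}
    (h : ∀ y, S y ↔ ∃ g ∈ H, g • x = y) {j : ℕ} (hd : (p ^ j : ℤ) ∣ ∑ y, ind (S y)) :
    p ^ j ∣ (orbit P x).ncard := by
  have e : ∑ y, ind (S y) = (orbit H x).ncard := by
    rw [sum_ind_card, ← Nat.card_coe_set_eq]
    exact congrArg _ (Nat.card_congr (Equiv.subtypeEquivRight fun y => (h y).trans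
      ⟨fun ⟨g, hg, e⟩ => ⟨⟨g, hg⟩, e⟩, fun ⟨g, e⟩ => ⟨g, g.2, e⟩⟩))
  rw [e, CL.Perm.ncard_suborbit] at hd
  rw [CL.Perm.ncard_suborbit]
  have h1 := relIndex_mul_relIndex (stabilizer G x ⊓ P) P H inf_le_right hP.le
  have h2 := relIndex_mul_relIndex (stabilizer G x ⊓ P) (stabilizer G x ⊓ H) H
    (inf_le_inf_left _ hP.le) inf_le_right
  rw [inf_relIndex_right] at h1 h2
  refine (Nat.Coprime.pow_left j ((Nat.Prime.coprime_iff_not_dvd Fact.out).2
    hP.not_dvd_relIndex)).dvd_of_dvd_mul_right ?_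
  rw [h1, ← h2]
  exact Dvd.dvd.mul_left (by exact_mod_cast hd) _

theorem sylow_trans {H P : Subgroup G} (hP : SylIn p P H) {S : Z → Prop} {x : Z}
    (h : ∀ y, S y ↔ ∃ g ∈ H, g • x = y) {j : ℕ} (hd : ∑ y, ind (S y) = p ^ j) {y : Z} (hy : S y) :
    ∃ g ∈ P, g • x = y := by
  have h1 := Nat.le_of_dvd ((Set.ncard_pos (Set.toFinite _)).2 ⟨x, mem_orbit_self x⟩)
    (sylow_orbit_dvd hP h hd.symm.dvd)
  have h2 : orbit P x = {y | S y} := Set.eq_of_subset_of_ncard_le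
    (by rintro _ ⟨g, rfl⟩; exact (h _).2 ⟨g, hP.le g.2, rfl⟩) (by
      rw [sum_ind_card] at hd
      rw [← Nat.card_coe_set_eq]
      exact (show Nat.card {y // S y} = p ^ j by exact_mod_cast hd).trans_le h1)
  obtain ⟨g, e⟩ : y ∈ orbit P x := h2 ▸ hy
  exact ⟨g, g.2, e⟩

omit [Fintype Z] in
theorem exists_derang [Finite Z] {D : Subgroup G} {S : Z → Prop} {x y : Z} (hxy : x ≠ y) (hy : S y)
    (h : ∀ y, S y ↔ ∃ g ∈ D, g • x = y) : ∃ d ∈ D, ∀ z, S z → d • z ≠ z := by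
  by_contra hc
  push Not at hc
  let T : SubMulAction D Z := ⟨{z | S z}, fun g z hz => by
    obtain ⟨k, hk, rfl⟩ := (h z).1 hz
    exact (h _).2 ⟨g * k, mul_mem g.2 hk, mul_smul _ _ _⟩⟩
  have hx : x ∈ T := (h x).2 ⟨1, one_mem _, one_smul _ _⟩
  have : Nonempty T := ⟨⟨x, hx⟩⟩
  have : IsPretransitive D T := (isPretransitive_iff_base (⟨x, hx⟩ : T)).2 fun z =>
    let ⟨g, hg, e⟩ := (h z).1 z.2
    ⟨⟨g, hg⟩, Subtype.ext e⟩
  obtain ⟨g, e⟩ := (CL.Perm.derang_aux (G := D) (Ω := T) ⊥ fun g hg =>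
    let ⟨z, hz, e⟩ := hc g g.2
    absurd (Subtype.ext e) (hg ⟨z, hz⟩)).1.exists_smul_eq ⟨x, hx⟩ ⟨y, hy⟩
  rw [Subsingleton.elim g 1, one_smul] at e
  exact hxy (congrArg Subtype.val e)

omit [Finite G] in
theorem exists_fix_of_not_dvd {H : Subgroup G} (hH : IsPGroup p H) (P : Z → Prop)
    (hP : ∀ h ∈ H, ∀ x, P x → P (h • x)) (h : ¬ (p : ℤ) ∣ ∑ x, ind (P x)) :
    ∃ x, P x ∧ ∀ h ∈ H, h • x = x := by
  by_contra hc
  have := dvd_sub_fix hH P hP
  rw [sum_eq_zero (f := fun x => ind (P x ∧ ∀ h ∈ H, h • x = x))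
    fun x _ => ind_neg fun h => hc ⟨x, h⟩, sub_zero] at this
  exact h this

end Orbits

namespace Pl

variable {G Ω Y : Type*} [Group G] [Fintype Ω] [Fintype Y] [MulAction G Ω] [MulAction G Y]
  {π : Pl G Ω Y} [Finite G]

theorem antiflag (two : ∀ {a b c d : Ω}, a ≠ b → c ≠ d → ∃ g : G, g • a = c ∧ g • b = d)
    {x y : Ω} {B C : Y} (h1 : ¬ π.I x B) (h2 : ¬ π.I y C) : ∃ g : G, g • x = y ∧ g • B = C := by
  have := Fintype.ofFinite G
  obtain ⟨z, hz, -⟩ := π.exists_pt B x x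
  have hab : x ≠ z := by rintro rfl; exact h1 hz
  have e := burnside_mul G Ω Y
  simp only [π.fix_eq π.hI, burnside_mul, Nat.cast_inj, mul_left_inj' Fintype.card_ne_zero] at e
  have h3 : Nat.card (orbitRel.Quotient G (Ω × Ω)) ≤ 2 := by
    refine (Nat.card_le_card_of_surjective (α := Fin 2)
      ![Quotient.mk _ (x, x), Quotient.mk _ (x, z)] ?_).trans (by simp)
    rintro ⟨u, v⟩
    by_cases huv : u = v
    · obtain ⟨g, hg⟩ : ∃ g : G, g • u = x := by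
        by_cases hx : u = x
        · exact ⟨1, by rw [one_smul, hx]⟩
        · obtain ⟨g, hg, -⟩ := two hx hab
          exact ⟨g, hg⟩
      exact ⟨0, Quotient.sound ⟨g, Prod.ext hg (huv ▸ hg)⟩⟩
    · obtain ⟨g, hg, hg'⟩ := two huv hab
      exact ⟨1, Quotient.sound ⟨g, Prod.ext hg hg'⟩⟩
  by_contra hc
  have h4 : ∀ {x C}, ¬ π.I x C → (Quotient.mk _ (x, C) : orbitRel.Quotient G (Ω × Y)) ≠
      Quotient.mk _ (z, B) := fun h e => by
    obtain ⟨g, hg⟩ := Quotient.exact e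
    obtain ⟨rfl, rfl⟩ := Prod.ext_iff.1 hg
    exact h (π.smul_I g hz)
  have h5 : (Quotient.mk _ (y, C) : orbitRel.Quotient G (Ω × Y)) ≠ Quotient.mk _ (x, B) := fun e => by
    obtain ⟨g, hg⟩ := Quotient.exact e
    exact hc ⟨g, congrArg Prod.fst hg, congrArg Prod.snd hg⟩
  have := Fintype.ofFinite (orbitRel.Quotient G (Ω × Y))
  have h6 := Fintype.two_lt_card_iff.2 ⟨_, _, _, h5, h4 h2, h4 h1⟩
  rw [← Nat.card_eq_fintype_card] at h6
  exact (e ▸ h3).not_gt h6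

omit [Finite G] in
theorem sum_not_I (l : Y) (x0 : Ω) : ∑ x, ind (¬ π.I x l) = (π.k - 1) ^ 2 := by
  have : ∑ x, ind (¬ π.I x l) = ∑ x, (1 - ind (π.I x l)) :=
    sum_congr rfl fun x _ => by by_cases h : π.I x l <;> simp [ind, h]
  rw [this, sum_sub_distrib, π.hk, sum_const, card_univ, nsmul_eq_mul, π.card_eq x0]
  ring

omit [Finite G] in
theorem exists_flag {p : ℕ} [hp : Fact p.Prime] (hd : (p : ℤ) ∣ π.k - 1) (x0 : Ω) {P : Subgroup G}
    (hP : IsPGroup p P) : ∃ (c : Ω) (l : Y), π.I c l ∧ P ≤ stabilizer G c ⊓ stabilizer G l := by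
  have h0 : ¬ (p : ℤ) ∣ 1 := by exact_mod_cast hp.out.not_dvd_one
  obtain ⟨c, -, hc⟩ := exists_fix_of_not_dvd hP (fun _ : Ω => True) (fun _ _ _ _ => trivial) (by
    simp only [ind_pos, sum_const, card_univ, nsmul_eq_mul, mul_one, π.card_eq x0]
    exact fun h => h0 ((dvd_add_right (hd.mul_left _)).1 h))
  obtain ⟨l, h1, hl⟩ := exists_fix_of_not_dvd hP (π.I c) (fun g hg C h => hc g hg ▸ π.smul_I g h) (by
    rw [π.hr]
    exact fun h => h0 (by simpa using dvd_sub h hd))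
  exact ⟨c, l, h1, fun g hg => ⟨hc g hg, hl g hg⟩⟩

theorem exists_El_of_even (two : ∀ {a b c d : Ω}, a ≠ b → c ≠ d → ∃ g : G, g • a = c ∧ g • b = d)
    (hk : 2 ∣ π.k - 1) (x0 : Ω) : ∃ e c a, π.El e c a := by
  obtain ⟨P, hP⟩ := exists_sylIn 2 (⊤ : Subgroup G)
  obtain ⟨c, l, hcl, hle⟩ := exists_flag (p := 2) hk x0 hP.pgroup
  obtain ⟨j, m, hm, e⟩ := Nat.exists_eq_two_pow_mul_odd (n := (π.k - 1).toNat) (by
    have := π.k3; omega)
  have e' : π.k - 1 = 2 ^ j * m := by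
    have := π.k3
    zify at e
    rw [← e]
    omega
  have hj : j ≠ 0 := by
    rintro rfl
    obtain ⟨i, rfl⟩ := hm
    omega
  have h1 : ∀ x, π.I x l → x ≠ c → 2 ^ j ∣ (orbit P x).ncard := fun x hx hxc =>
    sylow_orbit_dvd (hP.of_le hle le_top) (S := fun y => π.I y l ∧ y ≠ c) (fun y => ⟨fun hy => by
      obtain ⟨g, h1, h2⟩ := two hxc hy.2
      exact ⟨g, ⟨h2, π.join_eq hy.2 (h1 ▸ π.smul_I g hx) (h2 ▸ π.smul_I g hcl) hy.1 hcl⟩, h1⟩, by
      rintro ⟨g, hg, rfl⟩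
      exact ⟨hg.2 ▸ π.smul_I g hx, fun e => hxc (MulAction.injective g (e.trans hg.1.symm))⟩⟩)
      (by rw [sum_line_sub l hcl, e']; simp)
  have hP1 : P ≠ ⊥ := by
    rintro rfl
    obtain ⟨x, hx, hxc, -⟩ := π.exists_pt l c c
    have := (dvd_pow_self 2 hj).trans (h1 x hx hxc)
    rw [CL.Perm.ncard_suborbit, relIndex_bot_right] at this
    omega
  obtain ⟨⟨w, hw⟩, hw1⟩ := ne_bot_iff_exists_ne_one.1
    (inf_centralizer_ne_bot hP.pgroup hP.pgroup le_normalizer hP1)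
  obtain ⟨n, hn⟩ := isPGroup_iff_forall_mem.1 hP.pgroup w hw.1
  obtain ⟨z, hz, hz1, hz2⟩ := exists_sq_mem (S := ⊥) n (fun e => hw1 (Subtype.ext e)) hn
  have hz3 := zpowers_le.2 hw hz
  by_cases h2 : ∃ a, z ∈ π.Ax a
  · obtain ⟨a, ha⟩ := h2
    obtain ⟨d, hd⟩ := exists_Cen ha
    refine ⟨z, d, a, hz1, hd, ha, by_contra fun h => ?_⟩
    have := Hom.odd ⟨hz1, hz2, hd, ha, h⟩
    omega
  obtain ⟨r, hr, h3⟩ := baer hz2 (not_exists.1 h2) x0
  have h4 := CL.Perm.dvd_ncard_of_dvd_orbits (H := P) {y | (z • y = y ∧ π.I y l) ∧ y ≠ c}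
    (fun g y hy => ⟨⟨by
      change z • (g : G) • y = (g : G) • y
      rw [← mul_smul, ← hz3.2 g g.2, mul_smul, hy.1.1], (hle g.2).2 ▸ π.smul_I g hy.1.2⟩,
      fun e => hy.2 (MulAction.injective (g : G) (e.trans (hle g.2).1.symm))⟩) _
    fun y hy => h1 y hy.1.2 hy.2
  have h5 : ({y | (z • y = y ∧ π.I y l) ∧ y ≠ c}.ncard : ℤ) = r - 1 := by
    rw [← Nat.card_coe_set_eq, ← hr.hk l (hle hz3.1).2, ← sum_ind_eq' c, ← sum_sub_distrib]
    refine (sum_ind_card _).symm.trans (sum_congr rfl fun y _ => ?_)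
    by_cases h : y = c
    · simp [ind, h, hcl, show z • c = c from (hle hz3.1).1]
    · simp [ind, h]
  obtain ⟨u, hu⟩ : (2 : ℤ) ^ j ∣ r - 1 := by rw [← h5]; exact_mod_cast h4
  rw [hu, e', mul_pow, sq, mul_assoc, mul_right_inj' (by positivity)] at h3
  have : (2 : ℤ) ∣ m := h3 ▸ (dvd_pow_self 2 hj).mul_right _
  obtain ⟨i, rfl⟩ := hm
  omega

theorem trans_off (two : ∀ {a b c d : Ω}, a ≠ b → c ≠ d → ∃ g : G, g • a = c ∧ g • b = d)
    {p j : ℕ} [Fact p.Prime] (hk : π.k - 1 = p ^ j) {P : Subgroup G} (hP : SylIn p P ⊤) {l : Y}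
    (hl : P ≤ stabilizer G l) {x y : Ω} (hx : ¬ π.I x l) (hy : ¬ π.I y l) : ∃ g ∈ P, g • x = y :=
  sylow_trans (hP.of_le hl le_top) (S := fun y => ¬ π.I y l) (j := j * 2) (fun y => ⟨fun hy =>
    let ⟨g, h1, h2⟩ := antiflag two hx hy
    ⟨g, h2, h1⟩, by
      rintro ⟨g, hg, rfl⟩
      rwa [← show g • l = l from hg, π.hI]⟩) (by rw [sum_not_I l x, hk, pow_mul]) hy

theorem exists_El_of_pow (two : ∀ {a b c d : Ω}, a ≠ b → c ≠ d → ∃ g : G, g • a = c ∧ g • b = d)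
    (two' : ∀ {a b c d : Y}, a ≠ b → c ≠ d → ∃ g : G, g • a = c ∧ g • b = d)
    {p j : ℕ} [Fact p.Prime] (hk : π.k - 1 = p ^ j) (x0 : Ω) : ∃ e c a, π.El e c a := by
  obtain ⟨P0, hP0⟩ := exists_sylIn p (⊤ : Subgroup G)
  obtain ⟨c, l, hcl, hle0⟩ := exists_flag (p := p) (hk ▸ dvd_pow_self _ (by
    rintro rfl
    have := π.k3
    rw [pow_zero] at hk
    omega)) x0 hP0.pgroup
  obtain ⟨c', hc', hcc, -⟩ := π.exists_pt l c c
  obtain ⟨M, hM, hMl, -⟩ := π.exists_line c l l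
  obtain ⟨M', hM', hMl', hMM⟩ := π.exists_line c l M
  obtain ⟨D, hD⟩ := exists_sylIn p (stabilizer G c ⊓ stabilizer G c')
  have hDl : stabilizer G c ⊓ stabilizer G c' ≤ stabilizer G c ⊓ stabilizer G l := fun g hg =>
    ⟨hg.1, π.fix_line hcc hg.2 hg.1 hc' hcl⟩
  have h0 : ∀ g ∈ stabilizer G c ⊓ stabilizer G l, π.I c (g • M) ∧ g • M ≠ l := fun g hg =>
    ⟨hg.1 ▸ π.smul_I g hM, fun e => hMl (MulAction.injective g (e.trans hg.2.symm))⟩
  have h1 : ∀ N, (π.I c N ∧ N ≠ l) ↔ ∃ g ∈ stabilizer G c ⊓ stabilizer G c', g • M = N := by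
    refine fun N => ⟨fun hN => ?_, by rintro ⟨g, hg, rfl⟩; exact h0 g (hDl hg)⟩
    obtain ⟨t, ht1, ht2⟩ := two hcc hcc.symm
    have htl : t • l = l := π.join_eq hcc (ht2 ▸ π.smul_I t hcl) (ht1 ▸ π.smul_I t hc') hc' hcl
    have h2 : ∀ N, π.I c N → N ≠ l → ¬ π.I c (t • N) := fun N h1 h2 h3 =>
      h2 (π.join_eq hcc (by rwa [← ht1, π.hI] at h3) h1 hc' hcl)
    obtain ⟨g, hg, e⟩ := trans_off (π := π.dual) two' hk hP0 (hle0.trans inf_le_left)
      (h2 M hM hMl) (h2 N hN.1 hN.2)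
    have h3 : g • c' = c' := π.meet_eq (B := t • N) (C := l)
      (fun e => hN.2 (MulAction.injective t (e.trans htl.symm)))
      (e ▸ π.smul_I g (ht2 ▸ π.smul_I t hM)) ((hle0 hg).2 ▸ π.smul_I g hc')
      (ht2 ▸ π.smul_I t hN.1) hc'
    refine ⟨t⁻¹ * g * t, ⟨?_, ?_⟩, by rw [mul_smul, mul_smul, e, inv_smul_smul]⟩
    · change (t⁻¹ * g * t) • c = c
      rw [mul_smul, mul_smul, ht2, h3, inv_smul_eq_iff, ht2]
    · change (t⁻¹ * g * t) • c' = c'
      rw [mul_smul, mul_smul, ht1, show g • c = c from (hle0 hg).1, inv_smul_eq_iff, ht1]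
  obtain ⟨d, hd, hdN⟩ := exists_derang (D := D) (S := fun N => π.I c N ∧ N ≠ l) hMM.symm ⟨hM', hMl'⟩
    fun N => ⟨sylow_trans hD h1 ((sum_line_sub (π := π.dual) c hcl).trans hk), by
      rintro ⟨g, hg, rfl⟩; exact h0 g (hDl (hD.le hg))⟩
  obtain ⟨P, hP1, hDP⟩ := exists_sylIn_ge hD.pgroup (hD.le.trans hDl)
  have hP := hP1.trans_of_sylIn le_top hP0 hle0
  have hle := hP1.le
  obtain ⟨⟨z, hz, hzc⟩, hz1⟩ := ne_bot_iff_exists_ne_one.1
    (inf_centralizer_ne_bot hP.pgroup hP.pgroup le_normalizer (by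
      rintro rfl
      exact hdN M ⟨hM, hMl⟩ (by rw [mem_bot.1 (hDP hd), one_smul])))
  replace hz1 : z ≠ 1 := fun e => hz1 (Subtype.ext e)
  have t1 : ∀ {x y}, ¬ π.I x l → ¬ π.I y l → ∃ g ∈ P, g • x = y :=
    trans_off two hk hP (hle.trans inf_le_right)
  have t2 : ∀ {x y}, ¬ π.I c x → ¬ π.I c y → ∃ g ∈ P, g • x = y :=
    trans_off (π := π.dual) two' hk hP (hle.trans inf_le_left)
  have z1 : ∀ x, ¬ π.I x l → z • x ≠ x := fun x hx e => by
    have h2 : ∀ y, ¬ π.I y l → z • y = y := fun y hy => by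
      obtain ⟨g, hg, rfl⟩ := t1 hx hy
      rw [← mul_smul, ← hzc g hg, mul_smul, e]
    have h3 : ∀ N, π.I c N → N ≠ l → z ∈ π.Ax N := fun N h3 h4 => mem_Ax.2 fun y hy => by
      by_cases h5 : π.I y l
      · rw [π.meet_eq h4 hy h5 h3 hcl]
        exact (hle hz).1
      · exact h2 y h5
    exact hz1 (eq_one_of_Ax hMM (h3 M' hM' hMl') (h3 M hM hMl))
  by_cases z2 : ∃ N, π.I c N ∧ N ≠ l ∧ z • N = N
  · obtain ⟨N, h2, h3, h4⟩ := z2
    have h5 : z ∈ π.Cen c := mem_Cen.2 fun C hC => by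
      by_cases h6 : C = l
      · exact h6 ▸ (hle hz).2
      obtain ⟨x, hx, hxc, -⟩ := π.exists_pt N c c
      obtain ⟨y, hy, hyc, -⟩ := π.exists_pt C c c
      obtain ⟨g, hg, rfl⟩ := t1 (fun h => hxc (π.meet_eq h3 hx h h2 hcl))
        (fun h => hyc (π.meet_eq h6 hy h hC hcl))
      rw [π.join_eq hyc hy hC (π.smul_I g hx) ((hle hg).1 ▸ π.smul_I g h2), ← mul_smul,
        ← hzc g hg, mul_smul, h4]
    obtain ⟨a, ha⟩ := exists_Ax h5
    refine ⟨z, c, a, hz1, h5, ha, by_contra fun h => ?_⟩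
    have hal : a ≠ l := fun e => h (e ▸ hcl)
    obtain ⟨u, hu, hul⟩ := π.exists_meet hal
    obtain ⟨x, hx, hxu, -⟩ := π.exists_pt a u u
    exact z1 x (fun h' => hxu (π.meet_eq hal hx h' hu hul)) (Ax_pt ha hx)
  exfalso
  have hex : ∀ x : {x // ¬ π.I x l}, ∃ C, π.I x.1 C ∧ π.I (z • x.1) C :=
    fun x => π.exists_join (z1 x x.2).symm
  choose φ hφ1 hφ2 using hex
  have hφ3 : ∀ x, ¬ π.I c (φ x) := fun x h => z2 ⟨φ x, h,
    fun e => x.2 (by have := hφ1 x; rwa [e] at this),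
    π.join_eq (x := z • x.1) (y := c) (fun e => x.2 (by rw [← π.hI z, (hle hz).2, e]; exact hcl))
      (π.smul_I z (hφ1 x)) ((hle hz).1 ▸ π.smul_I z h) (hφ2 x) h⟩
  have hφ4 : ∀ g ∈ P, ∀ x y : {x // ¬ π.I x l}, g • x.1 = y.1 → φ y = g • φ x := fun g hg x y e =>
    π.join_eq (z1 y y.2).symm (hφ1 y) (hφ2 y) (e ▸ π.smul_I g (hφ1 x)) (by
      rw [← e, ← mul_smul, ← hzc g hg, mul_smul]; exact π.smul_I g (hφ2 x))
  have hinv : ∀ g ∈ P, ∀ x, ¬ π.I x l → ¬ π.I (g • x) l := fun g hg x hx => by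
    rwa [← show g • l = l from (hle hg).2, π.hI]
  have hs : Function.Surjective fun x => (⟨φ x, hφ3 x⟩ : {C // ¬ π.I c C}) := fun C => by
    obtain ⟨x, hx, hxc, -⟩ := π.exists_pt M c c
    have hxl : ¬ π.I x l := fun h => hxc (π.meet_eq hMl hx h hM hcl)
    obtain ⟨g, hg, e⟩ := t2 (hφ3 ⟨x, hxl⟩) C.2
    exact ⟨⟨g • x, hinv g hg x hxl⟩, Subtype.ext ((hφ4 g hg _ _ rfl).trans e)⟩
  have hi := (hs.bijective_of_nat_card_le (by
    zify
    rw [← sum_ind_card, ← sum_ind_card, sum_not_I l x0]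
    exact (sum_not_I (π := π.dual) c l).ge)).1
  have h2 : ∑ C, ind (¬ π.I c C ∧ d • C = C) ≤ ∑ x, ind (¬ π.I x l ∧ d • x = x) := by
    rw [sum_ind_card, sum_ind_card, Nat.cast_le]
    refine Nat.card_le_card_of_surjective (fun x => ⟨φ ⟨x.1, x.2.1⟩, hφ3 _,
      (hφ4 d (hDP hd) _ _ x.2.2).symm⟩) fun C => ?_
    obtain ⟨x, hx⟩ := hs ⟨C.1, C.2.1⟩
    have hx' : φ x = C.1 := congrArg Subtype.val hx
    refine ⟨⟨x.1, x.2, congrArg Subtype.val (@hi ⟨_, hinv d (hDP hd) x x.2⟩ x (Subtype.ext ?_))⟩,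
      Subtype.ext hx'⟩
    exact (hφ4 d (hDP hd) _ _ rfl).trans (by rw [hx', C.2.2]; exact hx'.symm)
  have h3 : ∑ C : Y, ind (d • C = C) ≤ ∑ C, ind (¬ π.I c C ∧ d • C = C) + 1 := by
    rw [← sum_ind_eq' l, ← sum_add_distrib]
    refine sum_le_sum fun C _ => ?_
    by_cases h4 : d • C = C
    · by_cases h5 : C = l
      · rw [ind_pos h4, ind_pos h5]
        linarith [ind_nonneg (¬ π.I c C ∧ d • C = C)]
      · have : ¬ π.I c C := fun h => hdN C ⟨h, h5⟩ h4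
        simp [ind, h5, h4, this]
    · rw [ind_neg h4]
      exact add_nonneg (ind_nonneg _) (ind_nonneg _)
  have h4 : ∑ x : Ω, ind (d • x = x) = ∑ x, ind (¬ π.I x l ∧ d • x = x) +
      ∑ x, ind (π.I x l ∧ d • x = x) := by
    rw [← sum_add_distrib]
    exact sum_congr rfl fun x _ => by by_cases h : π.I x l <;> simp [ind, h]
  have h5 := two_le_sum_ind (P := fun x => π.I x l ∧ d • x = x) hcc ⟨hc', (hD.le hd).2⟩
    ⟨hcl, (hD.le hd).1⟩
  have := π.fix_eq π.hI d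
  omega

/-- A doubly transitive collineation group contains an elation. -/
theorem exists_El (two : ∀ {a b c d : Ω}, a ≠ b → c ≠ d → ∃ g : G, g • a = c ∧ g • b = d)
    (x0 : Ω) : ∃ e c a, π.El e c a := by
  by_cases hk : 2 ∣ π.k - 1
  · exact exists_El_of_even two hk x0
  obtain ⟨a0⟩ : Nonempty Y := Fintype.card_pos_iff.1 (π.card ▸ Fintype.card_pos_iff.2 ⟨x0⟩)
  obtain ⟨y, -, hy, -⟩ := π.exists_pt a0 x0 x0
  have two' : ∀ {a b c d : Y}, a ≠ b → c ≠ d → ∃ g : G, g • a = c ∧ g • b = d :=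
    two_of_fix_eq (π.fix_eq π.hI) two hy
  obtain ⟨p, j, hp, e⟩ := pow_of_odd (π := π) x0 (by omega) two two'
  have := Fact.mk hp
  exact exists_El_of_pow two two' e x0

/-- The elation groups of a plane with a doubly transitive collineation group. -/
theorem exists_sys [FaithfulSMul G Ω]
    (two : ∀ {a b c d : Ω}, a ≠ b → c ≠ d → ∃ g : G, g • a = c ∧ g • b = d) (x0 : Ω) :
    ∃ p : ℕ, p.Prime ∧ ∃ S : CL.ONan.Sys G Ω p, (∀ x, S.A x = π.EC x) ∧
      ∀ {x y C}, x ≠ y → π.I x C → π.I y C → ∀ z, z ∈ S.L x y ↔ π.I z C := by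
  obtain ⟨e, c, a, he⟩ := exists_El (π := π) two x0
  obtain ⟨y, hy, hyc, -⟩ := π.exists_pt a c c
  obtain ⟨b, hb, hba, -⟩ := π.exists_line c a a
  obtain ⟨y', hy', hyc', -⟩ := π.exists_pt b c c
  obtain ⟨g, h1, h2⟩ := two hyc hyc'
  have he' := he.conj g
  have hgb : g • a = b := π.join_eq hyc' (h1 ▸ π.smul_I g hy) (h2 ▸ π.smul_I g he.I) hy' hb
  rw [h2, hgb] at he'
  obtain ⟨p, hp, hpow⟩ := EC_pow he' he hba
  have tr : ∀ x, ∃ t : G, t • x = c := fun x => by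
    by_cases h : x = c
    · exact ⟨1, by rw [h, one_smul]⟩
    · obtain ⟨t, ht, -⟩ := two h hyc.symm
      exact ⟨t, ht⟩
  let S : CL.ONan.Sys G Ω p :=
    { A := π.EC
      cj := fun g x => le_antisymm (cj_le_iff_forall.2 fun _ h => conj_EC g h)
        fun u hu => mem_cj.2 (by simpa using conj_EC g⁻¹ hu)
      fix := fun h => Cen_smul h.1
      comm := fun {x u v} hu hv => by
        obtain ⟨t, rfl⟩ := tr x
        have := EC_comm he' he hba (conj_EC t hu) (conj_EC t hv)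
        rwa [conj_mul, conj_mul, mul_left_inj, mul_right_inj] at this
      pow := fun {x u} hu => by
        obtain ⟨t, rfl⟩ := tr x
        simpa using hpow _ (conj_EC t hu)
      two := two
      nsr := ⟨c, y, hyc.symm, e, he.mem_EC, he.ne, Ax_pt he.ax hy⟩ }
  have := Fact.mk hp
  refine ⟨p, hp, S, fun _ => rfl, fun {x y C} hxy hx hy z => ⟨?_, fun hz => by_contra fun h => ?_⟩⟩
  · rintro (rfl | ⟨b, hb, rfl⟩)
    · exact hy
    · exact Cen_line hb.1 hy ▸ π.smul_I b hx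
  · obtain ⟨u, ⟨h3, d, hd, h4⟩, h5, h6⟩ := S.exists_move_of_notMem hxy h
    have h7 := (pt_of_fix (by rintro rfl; exact h6 (one_smul _ _)) h3 h4 h5).resolve_left hxy.symm
    exact h6 (Ax_pt h4 (π.join_eq hxy hx hy hd h7 ▸ hz))

open scoped LinearAlgebra.Projectivization in
/-- The Ostrom–Wagner theorem. -/
theorem ostrom_wagner (two : ∀ {a b c d : Ω}, a ≠ b → c ≠ d → ∃ g : G, g • a = c ∧ g • b = d)
    (x0 : Ω) : ∃ (F : Type) (_ : Field F) (_ : Fintype F) (e : Ω ≃ ℙ F (Fin 3 → F)),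
      ∀ {x y C}, x ≠ y → π.I x C → π.I y C →
        ∀ z, π.I z C ↔ (e z).submodule ≤ (e x).submodule ⊔ (e y).submodule := by
  have : FaithfulSMul G Ω := faithfulSMul_iff.2 π.faith
  obtain ⟨p, hp, S, -, hL⟩ := exists_sys (π := π) two x0
  have := Fact.mk hp
  obtain ⟨F, _, _, n, e, hn, he, -⟩ := S.main
  have key : ∀ {x y C}, x ≠ y → π.I x C → π.I y C →
      ∀ z, π.I z C ↔ (e z).submodule ≤ (e x).submodule ⊔ (e y).submodule :=
    fun h hx hy z => (hL h hx hy z).symm.trans (he _ _ _ h)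
  obtain rfl : n = 3 := by
    by_contra h3
    obtain ⟨m, rfl⟩ : ∃ m, n = m + 4 := ⟨n - 4, by omega⟩
    let P : Fin (m + 4) → Ω := fun i => e.symm (Projectivization.mk F (Pi.single i 1) (by simp))
    have h1 : ∀ i j, i ≠ j → ∃ C, ∀ z, π.I z C → ∀ k, k ≠ i → k ≠ j → (e z).rep k = 0 := by
      intro i j hij
      have h2 : P i ≠ P j := fun h => by
        obtain ⟨a, ha⟩ := (Projectivization.mk_eq_mk_iff' _ _ _ _ _).1 (e.symm.injective h)
        simpa [hij] using congrFun ha i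
      obtain ⟨C, h4, h5⟩ := π.exists_join h2
      refine ⟨C, fun z hz k hi hj => ?_⟩
      have := (key h2 h4 h5 z).1 hz
      simp only [P, Equiv.apply_symm_apply, Projectivization.submodule_mk] at this
      rw [Projectivization.submodule_eq, Submodule.span_singleton_le_iff_mem,
        ← Submodule.span_insert, Submodule.mem_span_pair] at this
      obtain ⟨a, b, h6⟩ := this
      simp [← h6, hi, hj]
    obtain ⟨B, hB⟩ := h1 0 1 (by simp)
    obtain ⟨C, hC⟩ := h1 ⟨2, by omega⟩ ⟨3, by omega⟩ (by simp)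
    obtain ⟨z, h4, h5⟩ : ∃ z, π.I z B ∧ π.I z C := by
      by_cases h : B = C
      · obtain ⟨z, hz, -⟩ := π.exists_pt B x0 x0
        exact ⟨z, hz, h ▸ hz⟩
      · exact π.exists_meet h
    refine (e z).rep_nonzero (funext fun k => ?_)
    by_cases hk : k = 0 ∨ k = 1
    · refine hC z h5 k ?_ ?_ <;> rcases hk with rfl | rfl <;> simp [Fin.ext_iff]
    · exact hB z h4 k (not_or.1 hk).1 (not_or.1 hk).2
  exact ⟨F, inferInstance, inferInstance, e, key⟩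

end Pl

end CL.SymDes
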