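import Cfsg.Agent.PERM.ZassKer

/-!
# Finite Moufang sets with abelian root groups of odd order inside a triply transitive group

`G` acts faithfully on `Ω`, `U` (resp. `V`) is an abelian normal subgroup of the stabiliser of `a`
(resp. `o`) which is regular on the remaining points, and the stabiliser of `a` and `o` is
transitive on the remaining points.  We show that the Moufang set is special and study the
involutions `mu c`.
-/

set_option autoImplicit false

namespace CL.Saxl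

open MulAction CL.Zass

variable {G Ω : Type*} [Group G] [MulAction G Ω]

/-- The set-up. -/
structure MS (a o : Ω) (U V : Subgroup G) : Prop where
  faith : ∀ g : G, (∀ x : Ω, g • x = x) → g = 1
  ne : a ≠ o
  kU : Ker a U
  kV : Ker o V
  sw : ∀ τ : G, τ • a = o → τ • o = a → ∀ u ∈ U, τ * u * τ⁻¹ ∈ V
  sw' : ∀ τ : G, τ • a = o → τ • o = a → ∀ v ∈ V, τ * v * τ⁻¹ ∈ U
  cU : ∀ u ∈ U, ∀ v ∈ U, u * v = v * u
  cV : ∀ u ∈ V, ∀ v ∈ V, u * v = v * u
  oU : ∀ u ∈ U, u * u = 1 → u = 1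
  oV : ∀ u ∈ V, u * u = 1 → u = 1
  ex : ∃ τ : G, τ • a = o ∧ τ • o = a
  tr : ∀ c d : Ω, c ≠ a → c ≠ o → d ≠ a → d ≠ o → ∃ g : G, g • a = a ∧ g • o = o ∧ g • c = d

open Classical in
/-- The element of `U` taking `o` to `y`. -/
noncomputable def io (U : Subgroup G) (o y : Ω) : G :=
  if h : ∃ u ∈ U, u • o = y then h.choose else 1

open Classical in
/-- Negation. -/
noncomputable def ng (U : Subgroup G) (o y : Ω) : Ω :=
  if ∃ u ∈ U, u • o = y then (io U o y)⁻¹ • o else y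

/-- The map `μ_c`. -/
noncomputable def mu (a o : Ω) (U V : Subgroup G) (c : Ω) : G :=
  (io V a c)⁻¹ * io U o c * (io V a c)⁻¹

theorem io_eq {a o : Ω} {U : Subgroup G} (hK : Ker a U) (ho : a ≠ o) {u : G} (hu : u ∈ U) :
    io U o (u • o) = u := by
  have h : ∃ u' ∈ U, u' • o = u • o := ⟨u, hu, rfl⟩
  rw [io, dif_pos h]
  exact hK.eq_of_smul_eq h.choose_spec.1 hu ho.symm h.choose_spec.2

namespace MS

variable {a o : Ω} {U V : Subgroup G} (h : MS a o U V)
include h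

theorem symm : MS o a V U :=
  ⟨h.faith, h.ne.symm, h.kV, h.kU, fun τ h1 h2 => h.sw' τ h2 h1, fun τ h1 h2 => h.sw τ h2 h1,
    h.cV, h.cU, h.oV, h.oU, h.ex.imp fun _ h' => h'.symm, fun c d h1 h2 h3 h4 => by
      obtain ⟨g, h5, h6, h7⟩ := h.tr c d h2 h1 h4 h3
      exact ⟨g, h6, h5, h7⟩⟩

theorem ext {g g' : G} (hg : ∀ x : Ω, g • x = g' • x) : g = g' := by
  have := h.faith (g'⁻¹ * g) fun x => by rw [mul_smul, hg, inv_smul_smul]
  rw [← mul_inv_cancel_left g' g, this, mul_one]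

theorem exU {y : Ω} (hy : y ≠ a) : ∃ u ∈ U, u • o = y := h.kU.trans o y h.ne.symm hy

theorem eqU {u v : G} (hu : u ∈ U) (hv : v ∈ U) (e : u • o = v • o) : u = v :=
  h.kU.eq_of_smul_eq hu hv h.ne.symm e

theorem neU {u : G} (hu : u ∈ U) : u • o ≠ a := h.kU.smul_ne hu h.ne.symm

theorem ng_smul {u : G} (hu : u ∈ U) : ng U o (u • o) = u⁻¹ • o := by
  rw [ng, if_pos ⟨u, hu, rfl⟩, io_eq h.kU h.ne hu]

theorem ng_a : ng U o a = a := by
  rw [ng, if_neg]
  rintro ⟨u, hu, e⟩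
  exact h.neU hu e

theorem ng_o : ng U o o = o := by
  have := h.ng_smul U.one_mem
  rwa [one_smul, inv_one, one_smul] at this

theorem ng_U {u : G} (hu : u ∈ U) (y : Ω) : ng U o (u • y) = u⁻¹ • ng U o y := by
  by_cases hy : y = a
  · rw [hy, h.kU.fix u hu, h.ng_a, h.kU.fix _ (U.inv_mem hu)]
  obtain ⟨w, hw, rfl⟩ := h.exU hy
  rw [← mul_smul, h.ng_smul (U.mul_mem hu hw), h.ng_smul hw, ← mul_smul, h.cU u hu w hw,
    mul_inv_rev]

omit h in
theorem conj_smul {g u : G} (go : g • o = o) : (g * u * g⁻¹) • o = g • u • o := by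
  rw [mul_smul, mul_smul, inv_smul_eq_iff.2 go.symm]

theorem ng_St {g : G} (ga : g • a = a) (go : g • o = o) (y : Ω) :
    ng U o (g • y) = g • ng U o y := by
  by_cases hy : y = a
  · rw [hy, ga, h.ng_a, ga]
  obtain ⟨w, hw, rfl⟩ := h.exU hy
  rw [← conj_smul go, h.ng_smul (h.kU.norm g ga w hw), h.ng_smul hw, ← conj_smul go]
  congr 1
  group

theorem ng_ng (y : Ω) : ng U o (ng U o y) = y := by
  by_cases hy : y = a
  · rw [hy, h.ng_a, h.ng_a]
  obtain ⟨w, hw, rfl⟩ := h.exU hy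
  rw [h.ng_smul hw, h.ng_smul (U.inv_mem hw), inv_inv]

theorem ng_ne_a {y : Ω} (hy : y ≠ a) : ng U o y ≠ a := fun e => hy (by
  rw [← h.ng_ng y, e, h.ng_a])

theorem ng_ne_o {y : Ω} (hy : y ≠ o) : ng U o y ≠ o := fun e => hy (by
  rw [← h.ng_ng y, e, h.ng_o])

theorem ng_ne {y : Ω} (ha : y ≠ a) (ho : y ≠ o) : ng U o y ≠ y := by
  obtain ⟨w, hw, rfl⟩ := h.exU ha
  rw [h.ng_smul hw]
  intro e
  have h1 := h.eqU (U.inv_mem hw) hw e
  have h2 : w = 1 := h.oU w hw (by rw [← mul_inv_cancel w, h1])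
  exact ho (by rw [h2, one_smul])

theorem ng_sw {τ : G} (ta : τ • a = o) (tb : τ • o = a) (y : Ω) :
    ng V a (τ • y) = τ • ng U o y := by
  by_cases hy : y = a
  · rw [hy, ta, h.symm.ng_a, h.ng_a, ta]
  obtain ⟨w, hw, rfl⟩ := h.exU hy
  have e : ∀ w : G, τ • w • o = (τ * w * τ⁻¹) • a := fun w => by
    rw [mul_smul, mul_smul, inv_smul_eq_iff.2 tb.symm]
  rw [h.ng_smul hw, e, e, h.symm.ng_smul (h.sw τ ta tb w hw)]
  congr 1
  group

/-- An element fixing `a`, `o` and `u • o` commutes with `u`. -/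
theorem conj_eq {g u u' : G} (ga : g • a = a) (go : g • o = o) (hu : u ∈ U) (hu' : u' ∈ U)
    (e : g • u • o = u' • o) : g * u * g⁻¹ = u' :=
  h.eqU (h.kU.norm g ga u hu) hu' (by rw [conj_smul go, e])

omit h in
theorem ne_of_fix {g : G} {x y : Ω} (gx : g • x = x) (hy : y ≠ x) : g • y ≠ x :=
  fun e => hy (by rwa [← gx, smul_left_cancel_iff] at e)

variable [Finite G]

/-- Three-point stabilisers are not properly contained in each other. -/
theorem fix_of_le {A : Subgroup G}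
    (hA : ∀ k : G, k • a = a → k • o = o → ∀ g ∈ A, k * g * k⁻¹ ∈ A) {c d : Ω} (ca : c ≠ a)
    (co : c ≠ o) (da : d ≠ a) (do' : d ≠ o) (hle : ∀ g ∈ A, g • c = c → g • d = d) {g : G}
    (hg : g ∈ A) (gd : g • d = d) : g • c = c := by
  obtain ⟨k, ka, ko, kc⟩ := h.tr d c da do' ca co
  have h1 : A ⊓ stabilizer G c ≤ A ⊓ stabilizer G d := fun x hx => ⟨hx.1, hle x hx.1 hx.2⟩
  have h2 : Nat.card (A ⊓ stabilizer G d : Subgroup G) ≤
      Nat.card (A ⊓ stabilizer G c : Subgroup G) := by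
    refine Nat.card_le_card_of_injective (fun x => ⟨k * x.1 * k⁻¹, hA k ka ko _ x.2.1, ?_⟩) ?_
    · have : x.1 • d = d := x.2.2
      show (k * x.1 * k⁻¹) • c = c
      rw [mul_smul, mul_smul, inv_smul_eq_iff.2 kc.symm, this, kc]
    · intro x y e
      exact Subtype.ext (by simpa using congrArg Subtype.val e)
  have h3 := Subgroup.eq_of_le_of_card_ge h1 h2
  have h4 : g ∈ A ⊓ stabilizer G d := ⟨hg, gd⟩
  rw [← h3] at h4
  exact h4.2

omit h [Finite G] in
theorem conj_St (k : G) (ka : k • a = a) (ko : k • o = o) (g : G) (hg : g ∈ St G a o) :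
    k * g * k⁻¹ ∈ St G a o :=
  ⟨(conj_smul ka).trans (by rw [show g • a = a from hg.1, ka]),
    (conj_smul ko).trans (by rw [show g • o = o from hg.2, ko])⟩

/-- The Moufang set is special. -/
theorem special (y : Ω) : ng V a y = ng U o y := by
  by_cases ya : y = a
  · rw [ya, h.ng_a, h.symm.ng_o]
  by_cases yo : y = o
  · rw [yo, h.ng_o, h.symm.ng_a]
  obtain ⟨g, ga, go, gy⟩ := h.tr y (ng V a y) ya yo (h.symm.ng_ne_o ya) (h.symm.ng_ne_a yo)
  obtain ⟨u, hu, rfl⟩ := h.exU ya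
  have hu' := h.kU.norm g ga u hu
  have e1 : (g * u * g⁻¹) • o = ng V a (u • o) := by rw [conj_smul go, gy]
  have e2 : g * (g * u * g⁻¹) * g⁻¹ = u :=
    h.conj_eq ga go hu' hu (by rw [e1, ← h.symm.ng_St go ga, gy, h.symm.ng_ng])
  by_cases hz : (u * (g * u * g⁻¹)) • o = o
  · have e3 := h.eqU (U.mul_mem hu hu') U.one_mem (by rw [hz, one_smul])
    rw [← e1, h.ng_smul hu, eq_inv_of_mul_eq_one_right e3]
  exfalso
  refine h.symm.ng_ne yo ya ?_
  rw [← gy]
  refine h.fix_of_le conj_St ya yo (h.neU (U.mul_mem hu hu')) hz (fun k hk kc => ?_) ⟨ga, go⟩ ?_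
  · have ka : k • a = a := hk.1
    have ko : k • o = o := hk.2
    have e4 := h.conj_eq ka ko hu hu kc
    have e5 := h.conj_eq ka ko hu' hu' (by rw [e1, ← h.symm.ng_St ko ka, kc])
    rw [← conj_smul ko]
    congr 1
    calc k * (u * (g * u * g⁻¹)) * k⁻¹ = (k * u * k⁻¹) * (k * (g * u * g⁻¹) * k⁻¹) := by group
      _ = _ := by rw [e4, e5]
  · rw [← conj_smul go]
    congr 1
    calc g * (u * (g * u * g⁻¹)) * g⁻¹ = (g * u * g⁻¹) * (g * (g * u * g⁻¹) * g⁻¹) := by group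
      _ = _ := by rw [e2, h.cU _ hu' _ hu]

theorem ng_V {v : G} (hv : v ∈ V) (y : Ω) : ng U o (v • y) = v⁻¹ • ng U o y := by
  rw [← h.special, ← h.special, h.symm.ng_U hv]

theorem ng_tau {τ : G} (ta : τ • a = o) (tb : τ • o = a) (y : Ω) :
    ng U o (τ • y) = τ • ng U o y := by
  rw [← h.special, h.ng_sw ta tb]

omit [Finite G] in
theorem exUV {c : Ω} (ca : c ≠ a) (co : c ≠ o) : ∃ u ∈ U, ∃ v ∈ V, u • o = c ∧ v • c = a := by
  obtain ⟨u, hu, e⟩ := h.exU ca
  obtain ⟨v, hv, e'⟩ := h.symm.exU co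
  exact ⟨u, hu, v⁻¹, V.inv_mem hv, e, by rw [inv_smul_eq_iff, e']⟩

omit [Finite G] in
theorem mu_eq {c : Ω} {u v : G} (hu : u ∈ U) (hv : v ∈ V) (e1 : u • o = c) (e2 : v • c = a) :
    mu a o U V c = v * u * v := by
  have e3 : v⁻¹ • a = c := by rw [inv_smul_eq_iff, e2]
  rw [mu]
  conv_lhs => rw [← e3, io_eq h.kV h.ne.symm (V.inv_mem hv), e3, ← e1, io_eq h.kU h.ne hu, inv_inv]

theorem v_a {c : Ω} {v : G} (hv : v ∈ V) (e2 : v • c = a) : v • a = ng U o c := by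
  have e3 : v⁻¹ • a = c := by rw [inv_smul_eq_iff, e2]
  rw [← e3, h.ng_V (V.inv_mem hv), inv_inv, h.ng_a]

section mu

variable {c : Ω} (ca : c ≠ a) (co : c ≠ o)
include ca co

theorem mu_a : mu a o U V c • a = o := by
  obtain ⟨u, hu, v, hv, e1, e2⟩ := h.exUV ca co
  rw [h.mu_eq hu hv e1 e2, mul_smul, mul_smul, h.v_a hv e2, ← e1, h.ng_smul hu, smul_inv_smul,
    h.kV.fix v hv]

omit [Finite G] in
theorem mu_o : mu a o U V c • o = a := by
  obtain ⟨u, hu, v, hv, e1, e2⟩ := h.exUV ca co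
  rw [h.mu_eq hu hv e1 e2, mul_smul, mul_smul, h.kV.fix v hv, e1, e2]

theorem mu_c : mu a o U V c • c = ng U o c := by
  obtain ⟨u, hu, v, hv, e1, e2⟩ := h.exUV ca co
  rw [h.mu_eq hu hv e1 e2, mul_smul, mul_smul, e2, h.kU.fix u hu, h.v_a hv e2]

theorem mu_inv : (mu a o U V c)⁻¹ = mu a o U V c := by
  refine h.ext fun y => ?_
  rw [← h.ng_ng y, ← h.ng_tau (h.mu_a ca co) (h.mu_o ca co)]
  obtain ⟨u, hu, v, hv, e1, e2⟩ := h.exUV ca co
  rw [h.mu_eq hu hv e1 e2, mul_smul, mul_smul, h.ng_V hv, h.ng_U hu, h.ng_V hv, ← mul_smul,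
    ← mul_smul]
  congr 1
  group

theorem mu_mul_mu : mu a o U V c * mu a o U V c = 1 := by
  nth_rewrite 1 [← h.mu_inv ca co]
  exact inv_mul_cancel _

theorem mu_ng : mu a o U V (ng U o c) = mu a o U V c := by
  obtain ⟨u, hu, v, hv, e1, e2⟩ := h.exUV ca co
  rw [← h.mu_inv ca co, h.mu_eq hu hv e1 e2, h.mu_eq (U.inv_mem hu) (V.inv_mem hv)
    (by rw [← e1, h.ng_smul hu]) (by rw [inv_smul_eq_iff, h.v_a hv e2])]
  group

omit [Finite G] in
theorem mu_conj {g : G} (ga : g • a = a) (go : g • o = o) :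
    g * mu a o U V c * g⁻¹ = mu a o U V (g • c) := by
  obtain ⟨u, hu, v, hv, e1, e2⟩ := h.exUV ca co
  rw [h.mu_eq hu hv e1 e2, h.mu_eq (h.kU.norm g ga u hu) (h.kV.norm g go v hv)
    (by rw [conj_smul go, e1]) (by rw [mul_smul, mul_smul, inv_smul_smul, e2, ga])]
  group

omit [Finite G] in
theorem mu_mem {H : Subgroup G} (hU : U ≤ H) (hV : V ≤ H) : mu a o U V c ∈ H := by
  obtain ⟨u, hu, v, hv, e1, e2⟩ := h.exUV ca co
  rw [h.mu_eq hu hv e1 e2]
  exact H.mul_mem (H.mul_mem (hV hv) (hU hu)) (hV hv)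

omit ca co in
theorem mu_u_mu {u v : G} (ca : c ≠ a) (co : c ≠ o) (hu : u ∈ U) (hv : v ∈ V) (e1 : u • o = c)
    (e2 : v • c = a) : mu a o U V c * u * mu a o U V c = v := by
  have h1 := h.sw _ (h.mu_a ca co) (h.mu_o ca co) u hu
  rw [h.mu_inv ca co] at h1
  refine h.symm.eqU h1 hv ?_
  rw [mul_smul, mul_smul, h.mu_a ca co, e1, h.mu_c ca co, h.v_a hv e2]

omit ca co in
theorem mu_eq' {u v : G} (ca : c ≠ a) (co : c ≠ o) (hu : u ∈ U) (hv : v ∈ V) (e1 : u • o = c)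
    (e2 : v • c = a) : mu a o U V c = u * v * u := by
  have h1 := h.mu_u_mu ca co hu hv e1 e2
  have h2 := h.mu_mul_mu ca co
  have h3 := h.mu_eq hu hv e1 e2
  generalize mu a o U V c = m at *
  have h4 : m * v * m = u := by
    rw [← h1]
    calc m * (m * u * m) * m = (m * m) * u * (m * m) := by group
      _ = u := by rw [h2, one_mul, mul_one]
  calc m = m * m * m := by rw [h2, one_mul]
    _ = m * (v * u * v) * m := by rw [← h3]
    _ = (m * v * m) * (m * u * m) * (m * v * m) := by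
      calc m * (v * u * v) * m = m * v * (m * m) * u * (m * m) * v * m := by rw [h2]; group
        _ = _ := by group
    _ = _ := by rw [h4, h1]

theorem mu_conj' {τ : G} (ta : τ • a = o) (tb : τ • o = a) :
    τ * mu a o U V c * τ⁻¹ = mu a o U V (τ • c) := by
  obtain ⟨u, hu, v, hv, e1, e2⟩ := h.exUV ca co
  have n1 : τ • c ≠ a := fun e => co (by rwa [← tb, smul_left_cancel_iff] at e)
  have n2 : τ • c ≠ o := fun e => ca (by rwa [← ta, smul_left_cancel_iff] at e)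
  rw [← h.mu_ng n1 n2, h.mu_eq hu hv e1 e2, h.mu_eq' (h.ng_ne_a n1) (h.ng_ne_o n2)
    (h.sw' τ ta tb v hv) (h.sw τ ta tb u hu) ?_ ?_]
  · group
  · rw [mul_smul, mul_smul, inv_smul_eq_iff.2 ta.symm, h.v_a hv e2, h.ng_tau ta tb]
  · rw [h.ng_tau ta tb, mul_smul, mul_smul, inv_smul_smul, ← e1, h.ng_smul hu, smul_inv_smul, tb]

theorem mu_inj {d : Ω} (da : d ≠ a) (do' : d ≠ o) (e : mu a o U V c = mu a o U V d) :
    d = c ∨ d = ng U o c := by
  have key : ∀ {c d : Ω}, c ≠ a → c ≠ o → d ≠ a → d ≠ o → mu a o U V c = mu a o U V d →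
      ∀ {u u' r : G}, u ∈ U → u' ∈ U → r ∈ U → u • o = c → u' • o = d →
      mu a o U V c • (u * u') • o = r • o → u * r = r⁻¹ := by
    intro c d ca co da do' e u u' r hu hu' hr e1 e2 e3
    obtain ⟨v, hv, e4⟩ := h.symm.exU co
    have e5 : v⁻¹ • c = a := by rw [inv_smul_eq_iff, e4]
    have h1 := h.mu_u_mu ca co hu (V.inv_mem hv) e1 e5
    have h2 := h.mu_eq' ca co hu (V.inv_mem hv) e1 e5
    have h3 := h.mu_mul_mu ca co
    have h4 := h.mu_c da do'
    have h5 := h.ng_tau (h.mu_a ca co) (h.mu_o ca co)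
    rw [← e] at h4
    generalize mu a o U V c = m at *
    have h6 : u * m * u = m * u⁻¹ * m := by
      rw [← h1] at h2
      calc u * m * u = (m * m) * (u * m * u) := by rw [h3, one_mul]
        _ = m * u⁻¹ * (u * (m * u * m) * u) := by group
        _ = _ := by rw [← h2]
    refine h.eqU (U.mul_mem hu hr) (U.inv_mem hr) ?_
    rw [mul_smul, ← e3, ← h.ng_smul hr, ← e3, h5, mul_smul u u', h.ng_U hu, e2, ← h4]
    have := congrArg (· • d) h6
    simpa only [mul_smul] using this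
  obtain ⟨u, hu, e1⟩ := h.exU ca
  obtain ⟨u', hu', e2⟩ := h.exU da
  by_cases hz : (u * u') • o = o
  · right
    have e3 := h.eqU (U.mul_mem hu hu') U.one_mem (by rw [hz, one_smul])
    rw [← e2, ← e1, h.ng_smul hu, eq_inv_of_mul_eq_one_right e3]
  left
  obtain ⟨r, hr, e3⟩ := h.exU (y := mu a o U V c • (u * u') • o) fun e' =>
    hz ((smul_left_cancel_iff _).1 (e'.trans (h.mu_o ca co).symm))
  have k1 := key ca co da do' e hu hu' hr e1 e2 e3.symm
  have k2 := key da do' ca co e.symm hu' hu hr e2 e1 (by rw [← e, ← h.cU u hu u' hu', e3])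
  rw [← e1, ← e2, mul_right_cancel (k1.trans k2.symm)]

/-- The element of order three attached to `c`. -/
theorem exists_three {H : Subgroup G} (hU : U ≤ H) (hV : V ≤ H) :
    ∃ x ∈ H, x ^ 3 = 1 ∧ x ≠ 1 ∧
      (∀ g : G, g • a = a → g • o = o → g • c = c → ∀ y : Ω, g • x • y = x • g • y) ∧
      ∀ g : G, g • a = a → g • o = o → g • c = ng U o c → ∀ y : Ω, g • y = ng U o y →
        g • x • y = ng U o (x • y) := by
  obtain ⟨u, hu, v, hv, e1, e2⟩ := h.exUV ca co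
  have e3 := h.v_a hv e2
  refine ⟨v * u, H.mul_mem (hV hv) (hU hu), ?_, fun e => ?_, fun g ga go gc y => ?_,
    fun g ga go gc y gy => ?_⟩
  · rw [← h.mu_mul_mu ca co]
    nth_rewrite 1 [h.mu_eq hu hv e1 e2]
    rw [h.mu_eq' ca co hu hv e1 e2, pow_succ, pow_two]
    group
  · have := congrArg (· • a) e
    simp only [mul_smul, one_smul, h.kU.fix u hu, e3] at this
    exact h.ng_ne_a ca this
  · have h1 := h.conj_eq ga go hu hu (by rw [e1, gc])
    have h2 := h.symm.conj_eq go ga hv hv (by rw [e3, ← h.ng_St ga go, gc])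
    rw [← mul_smul, ← mul_smul]
    congr 1
    calc g * (v * u) = (g * v * g⁻¹) * (g * u * g⁻¹) * g := by group
      _ = _ := by rw [h1, h2]
  · have h1 := h.conj_eq ga go hu (U.inv_mem hu) (by rw [e1, gc, ← e1, h.ng_smul hu])
    have h2 := h.symm.conj_eq go ga hv (V.inv_mem hv)
      (by rw [e3, ← h.ng_St ga go, gc, h.ng_ng, eq_inv_smul_iff, e2])
    rw [mul_smul, h.ng_V hv, h.ng_U hu, ← gy, ← h1, ← h2]
    simp only [mul_smul, inv_smul_smul]

end mu

end MS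

end CL.Saxl
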