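import Cfsg.Agent.PERM.Saxl1
import Cfsg.Agent.TECH.SylIn

/-!
# At most two orbits of the two-point stabiliser when elements of order three have no fixed points
-/

set_option autoImplicit false

namespace CL.Saxl

open MulAction CL.Zass CL.MSS
open scoped Pointwise

variable {G Ω : Type*} [Group G] [MulAction G Ω]

/-- `H` has at most two orbits on the triples starting with `a`, `o`. -/
def Two (H : Subgroup G) (a o : Ω) : Prop :=
  ∀ c d e : Ω, c ≠ a → c ≠ o → d ≠ a → d ≠ o → e ≠ a → e ≠ o →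
    ∃ g ∈ H, g • a = a ∧ g • o = o ∧ (g • c = d ∨ g • c = e ∨ g • d = e)

/-- Elements of order three of `H` have no fixed points. -/
def Fr (H : Subgroup G) (Ω : Type*) [MulAction G Ω] : Prop :=
  ∀ x ∈ H, x ^ 3 = 1 → ∀ y : Ω, x • y = y → x = 1

theorem Fr.three_dvd {H : Subgroup G} (h3 : Fr H Ω) {x : G} (hx : x ∈ H) (x3 : x ^ 3 = 1)
    (x1 : x ≠ 1) (S : Set Ω) (hS : ∀ y ∈ S, x • y ∈ S) : 3 ∣ S.ncard := by
  have : Fact (Nat.Prime 3) := ⟨Nat.prime_three⟩
  have ho : orderOf x = 3 := orderOf_eq_prime x3 x1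
  rw [← ho, ← Nat.card_zpowers]
  refine card_dvd_ncard_of_free _ S (fun g hg y hy => ?_) fun g hg y _ e => ?_
  · obtain ⟨k, rfl⟩ := (isOfFinOrder_iff_pow_eq_one.2 ⟨3, by norm_num, x3⟩).mem_powers_iff_mem_zpowers.2 hg
    show x ^ k • y ∈ S
    clear hg
    induction k with
    | zero => simpa using hy
    | succ k ih => rw [pow_succ', mul_smul]; exact hS _ ih
  · obtain ⟨k, rfl⟩ := Subgroup.mem_zpowers_iff.1 hg
    exact h3 _ (H.zpow_mem hx k) (by rw [← zpow_natCast, ← zpow_mul, mul_comm, zpow_mul,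
      zpow_natCast, x3, one_zpow]) y e

theorem exists_invol [Finite G] {K : Subgroup G} (hK : IsPGroup 2 K) (h : K ≠ ⊥) :
    ∃ t ∈ K, t * t = 1 ∧ t ≠ 1 := by
  have : Fact (Nat.Prime 2) := ⟨Nat.prime_two⟩
  have h2 := hK.card_eq_or_dvd.resolve_left fun e => h (Subgroup.card_eq_one.1 e)
  obtain ⟨t, ht⟩ := exists_prime_orderOf_dvd_card' 2 h2
  refine ⟨t, t.2, ?_, fun e => ?_⟩
  · rw [← Subgroup.coe_mul, ← pow_two, ← ht, pow_orderOf_eq_one, Subgroup.coe_one]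
  · rw [show t = 1 from Subtype.ext e, orderOf_one] at ht
    omega

namespace MS

variable {a o : Ω} {U V : Subgroup G} (h : MS a o U V)
include h

theorem ncard_pts [Finite G] (p : Ω → Prop) (pa : p a) :
    {y | p y}.ncard = {u | u ∈ U ∧ p (u • o)}.ncard + 1 := by
  have e : {y | p y} = insert a ((· • o) '' {u | u ∈ U ∧ p (u • o)}) := by
    ext y
    refine ⟨fun hy => ?_, ?_⟩
    · by_cases ya : y = a
      · exact Or.inl ya
      obtain ⟨u, hu, rfl⟩ := h.exU ya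
      exact Or.inr ⟨u, ⟨hu, hy⟩, rfl⟩
    · rintro (rfl | ⟨u, hu, rfl⟩)
      exacts [pa, hu.2]
  rw [e, Set.ncard_insert_of_notMem (by
    rintro ⟨u, hu, e'⟩
    exact h.neU hu.1 e') (Set.toFinite _),
    Set.InjOn.ncard_image fun u hu v hv e' => h.eqU hu.1 hv.1 e']

theorem exists_sq [Finite G] {u : G} (hu : u ∈ U) : ∃ s ∈ U, s * s = u := by
  have hi : Function.Injective fun s : U => s * s := fun s t e => by
    have e' : (s : G) * s = t * t := congrArg Subtype.val e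
    have h1 : (s : G) * (t : G)⁻¹ = 1 := h.oU _ (U.mul_mem s.2 (U.inv_mem t.2)) (by
      calc (s : G) * (t : G)⁻¹ * (s * (t : G)⁻¹) = s * ((t : G)⁻¹ * s) * (t : G)⁻¹ := by group
        _ = s * s * (t : G)⁻¹ * (t : G)⁻¹ := by rw [h.cU _ (U.inv_mem t.2) _ s.2]; group
        _ = 1 := by rw [e']; group)
    exact Subtype.ext (mul_inv_eq_one.1 h1)
  obtain ⟨s, hs⟩ := Finite.surjective_of_injective hi ⟨u, hu⟩
  exact ⟨s, s.2, congrArg Subtype.val hs⟩

theorem card_split [Finite G] {t : G} (ta : t • a = a) (tt : t * t = 1) :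
    {u | u ∈ U}.ncard =
      {u | u ∈ U ∧ t * u * t⁻¹ = u}.ncard * {u | u ∈ U ∧ t * u * t⁻¹ = u⁻¹}.ncard := by
  rw [← Set.ncard_prod]
  refine (Set.ncard_congr (fun x _ => x.1 * x.2) (fun x hx => U.mul_mem hx.1.1 hx.2.1) ?_ ?_).symm
  · rintro ⟨p, m⟩ ⟨p', m'⟩ ⟨⟨hp, ep⟩, hm, em⟩ ⟨⟨hp', ep'⟩, hm', em'⟩ e
    simp only at hp ep hm em hp' ep' hm' em' e
    have e1 : p * m⁻¹ = p' * m'⁻¹ := by
      calc p * m⁻¹ = t * (p * m) * t⁻¹ := by rw [← em]; nth_rewrite 1 [← ep]; group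
        _ = _ := by rw [e, ← em']; nth_rewrite 2 [← ep']; group
    have e2 : p * p = p' * p' := by
      calc p * p = (p * m) * (m⁻¹ * p) := by group
        _ = (p' * m') * (m'⁻¹ * p') := by
          rw [e, h.cU _ (U.inv_mem hm) _ hp, e1, h.cU _ (U.inv_mem hm') _ hp']
        _ = _ := by group
    have e3 : p * p'⁻¹ = 1 := h.oU _ (U.mul_mem hp (U.inv_mem hp')) (by
      calc p * p'⁻¹ * (p * p'⁻¹) = p * (p'⁻¹ * p) * p'⁻¹ := by group
        _ = p * p * p'⁻¹ * p'⁻¹ := by rw [h.cU _ (U.inv_mem hp') _ hp]; group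
        _ = 1 := by rw [e2]; group)
    obtain rfl := mul_inv_eq_one.1 e3
    rw [mul_left_cancel e]
  · intro u hu
    obtain ⟨s, hs, rfl⟩ := h.exists_sq hu
    have hs' := h.kU.norm t ta s hs
    have e : t * (t * s * t⁻¹) * t⁻¹ = s := by
      calc t * (t * s * t⁻¹) * t⁻¹ = (t * t) * s * (t * t)⁻¹ := by group
        _ = s := by rw [tt]; group
    obtain ⟨r, hr, e1⟩ := h.exists_sq hs
    have hr' := h.kU.norm t ta r hr
    refine ⟨(s * (t * s * t⁻¹), s * (t * s * t⁻¹)⁻¹), ⟨⟨U.mul_mem hs hs', ?_⟩,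
      U.mul_mem hs (U.inv_mem hs'), ?_⟩, ?_⟩
    · calc t * (s * (t * s * t⁻¹)) * t⁻¹ = (t * s * t⁻¹) * (t * (t * s * t⁻¹) * t⁻¹) := by group
        _ = _ := by rw [e, h.cU _ hs' _ hs]
    · calc t * (s * (t * s * t⁻¹)⁻¹) * t⁻¹ = (t * s * t⁻¹) * (t * (t * s * t⁻¹) * t⁻¹)⁻¹ := by group
        _ = _ := by rw [e]; group
    · show s * (t * s * t⁻¹) * (s * (t * s * t⁻¹)⁻¹) = s * s
      rw [h.cU s hs _ (U.inv_mem hs')]
      group

variable [Finite G] {H : Subgroup G} (hU : U ≤ H) (hV : V ≤ H) (h3 : Fr H Ω)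
  (hn : 3 ∣ Nat.card Ω)
include hU hV h3 hn

/-- Every involution fixing `a` and `o` is the negation. -/
theorem invol {t : G} (ta : t • a = a) (to' : t • o = o) (tt : t * t = 1) (t1 : t ≠ 1) (y : Ω) :
    t • y = ng U o y := by
  by_contra hy
  have ee : ∀ s, t * (t * s * t⁻¹) * t⁻¹ = s := fun s => by
    calc t * (t * s * t⁻¹) * t⁻¹ = (t * t) * s * (t * t)⁻¹ := by group
      _ = s := by rw [tt]; group
  have d1 : 3 ∣ {y : Ω | t • y = y}.ncard := by
    have ya : y ≠ a := fun e => hy (by rw [e, ta, h.ng_a])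
    obtain ⟨u, hu, rfl⟩ := h.exU ya
    have hu' := h.kU.norm t ta u hu
    obtain ⟨x, hx, x3, x1, hc, -⟩ := h.exists_three (c := (u * (t * u * t⁻¹)) • o)
      (h.neU (U.mul_mem hu hu')) (fun e => hy (by
        have e3 := h.eqU (U.mul_mem hu hu') U.one_mem (by rw [e, one_smul])
        rw [← conj_smul to', h.ng_smul hu, eq_inv_of_mul_eq_one_right e3])) hU hV
    refine h3.three_dvd hx x3 x1 _ fun z hz => ?_
    show t • x • z = x • z
    rw [hc t ta to' ?_, show t • z = z from hz]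
    rw [← conj_smul to']
    congr 1
    calc t * (u * (t * u * t⁻¹)) * t⁻¹ = (t * u * t⁻¹) * (t * (t * u * t⁻¹) * t⁻¹) := by group
      _ = _ := by rw [ee, h.cU _ hu' _ hu]
  have d2 : 3 ∣ {y : Ω | t • y = ng U o y}.ncard := by
    obtain ⟨y, hy⟩ : ∃ y : Ω, t • y ≠ y := by
      by_contra hh
      exact t1 (h.faith t (by simpa using hh))
    have ya : y ≠ a := fun e => hy (by rw [e, ta])
    obtain ⟨u, hu, rfl⟩ := h.exU ya
    have hu' := h.kU.norm t ta u hu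
    have hw := U.mul_mem hu (U.inv_mem hu')
    obtain ⟨x, hx, x3, x1, -, hc⟩ := h.exists_three (c := (u * (t * u * t⁻¹)⁻¹) • o)
      (h.neU hw) (fun e => hy (by
        have e3 := h.eqU hw U.one_mem (by rw [e, one_smul])
        rw [← conj_smul to', ← mul_inv_eq_one.1 e3])) hU hV
    refine h3.three_dvd hx x3 x1 _ fun z hz => hc t ta to' ?_ z hz
    rw [← conj_smul to', h.ng_smul hw]
    congr 1
    calc t * (u * (t * u * t⁻¹)⁻¹) * t⁻¹ = (t * u * t⁻¹) * (t * (t * u * t⁻¹) * t⁻¹)⁻¹ := by group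
      _ = _ := by rw [ee]; group
  have c0 := h.ncard_pts (fun _ => True) trivial
  have c1 := h.ncard_pts (fun y => t • y = y) ta
  have c2 := h.ncard_pts (fun y => t • y = ng U o y) (by rw [ta, h.ng_a])
  have s1 : {u | u ∈ U ∧ t • u • o = u • o} = {u | u ∈ U ∧ t * u * t⁻¹ = u} := by
    ext u
    refine and_congr_right fun hu => ⟨h.conj_eq ta to' hu hu, fun e => ?_⟩
    rw [← conj_smul to', e]
  have s2 : {u | u ∈ U ∧ t • u • o = ng U o (u • o)} = {u | u ∈ U ∧ t * u * t⁻¹ = u⁻¹} := by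
    ext u
    refine and_congr_right fun hu => ?_
    rw [h.ng_smul hu]
    refine ⟨h.conj_eq ta to' hu (U.inv_mem hu), fun e => ?_⟩
    rw [← conj_smul to', e]
  rw [s1] at c1
  rw [s2] at c2
  simp only [and_true, Set.ofPred_true, Set.ncard_univ] at c0
  rw [h.card_split ta tt] at c0
  rw [c0] at hn
  rw [c1] at d1
  rw [c2] at d2
  generalize Set.ncard {u | u ∈ U ∧ t * u * t⁻¹ = u} = p at *
  generalize Set.ncard {u | u ∈ U ∧ t * u * t⁻¹ = u⁻¹} = m at *
  have : p * m % 3 = 1 := by rw [Nat.mul_mod, show p % 3 = 2 by omega, show m % 3 = 2 by omega]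
  omega

theorem two : Two H a o := by
  classical
  have : Fact (Nat.Prime 2) := ⟨Nat.prime_two⟩
  let K : Subgroup G := H ⊓ stabilizer G ({a, o} : Set Ω)
  have hK : ∀ {g : G}, g ∈ K → (g • a = a ∧ g • o = o) ∨ (g • a = o ∧ g • o = a) := by
    intro g hg
    have e : g • ({a, o} : Set Ω) = {a, o} := hg.2
    rw [Set.smul_set_insert, Set.smul_set_singleton, Set.pair_eq_pair_iff] at e
    exact e
  have hm : ∀ {c : Ω}, c ≠ a → c ≠ o → mu a o U V c ∈ K := fun ca co => ⟨h.mu_mem ca co hU hV, by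
    show _ • _ = _
    rw [Set.smul_set_insert, Set.smul_set_singleton, h.mu_a ca co, h.mu_o ca co, Set.pair_comm]⟩
  obtain ⟨S, hS⟩ := exists_sylIn 2 K
  have key : ∀ c : Ω, c ≠ a → c ≠ o →
      ∃ g ∈ H, g • a = a ∧ g • o = o ∧ mu a o U V (g • c) ∈ S := by
    intro c ca co
    obtain ⟨g, hg, hle⟩ := hS.exists_conj_le (isPGroup_zpowers (k := 1)
      (by rw [pow_one, pow_two, h.mu_mul_mu ca co])) (Subgroup.zpowers_le_of_mem (hm ca co))
    have h1 := cj_le_iff_forall.1 hle _ (Subgroup.mem_zpowers _)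
    rcases hK hg with ⟨ga, go⟩ | ⟨ga, go⟩
    · exact ⟨g, hg.1, ga, go, by rwa [h.mu_conj ca co ga go] at h1⟩
    · have e1 : (g * mu a o U V c) • a = a := by rw [mul_smul, h.mu_a ca co, go]
      have e2 : (g * mu a o U V c) • o = o := by rw [mul_smul, h.mu_o ca co, ga]
      refine ⟨_, H.mul_mem hg.1 (hm ca co).1, e1, e2, ?_⟩
      rw [← h.mu_conj ca co e1 e2]
      convert h1 using 1
      group
  let S0 : Subgroup G := S ⊓ St G a o
  have free : ∀ s ∈ S0, ∀ c : Ω, c ≠ a → c ≠ o → s • c = c → s = 1 := by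
    intro s hs c ca co e
    by_contra s1
    obtain ⟨t, ht, tt, t1⟩ := exists_invol (K := S0 ⊓ stabilizer G c)
      (hS.pgroup.to_le (inf_le_left.trans inf_le_left)) fun e' => s1 (by
        rw [← Subgroup.mem_bot, ← e']
        exact ⟨hs, e⟩)
    exact h.ng_ne ca co ((h.invol hU hV h3 hn ht.1.2.1 ht.1.2.2 tt t1 c).symm.trans ht.2)
  intro c d e ca co da do' ea eo
  by_contra hne
  push Not at hne
  obtain ⟨g1, hg1, a1, o1, m1⟩ := key c ca co
  obtain ⟨g2, hg2, a2, o2, m2⟩ := key d da do'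
  obtain ⟨g3, hg3, a3, o3, m3⟩ := key e ea eo
  let C : Set Ω := {y | y ≠ a ∧ y ≠ o ∧ mu a o U V y ∈ S}
  let O : Ω → Set Ω := fun y => (· • y) '' (S0 : Set G)
  have hO : ∀ y ∈ C, O y ⊆ C ∧ (O y).ncard = (S0 : Set G).ncard := by
    intro y hy
    refine ⟨?_, Set.InjOn.ncard_image fun s hs s' hs' e' => ?_⟩
    · rintro _ ⟨s, hs, rfl⟩
      refine ⟨ne_of_fix hs.2.1 hy.1, ne_of_fix hs.2.2 hy.2.1, ?_⟩
      show mu a o U V (s • y) ∈ S
      rw [← h.mu_conj hy.1 hy.2.1 hs.2.1 hs.2.2]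
      exact S.mul_mem (S.mul_mem hs.1 hy.2.2) (S.inv_mem hs.1)
    · have := free (s'⁻¹ * s) (S0.mul_mem (S0.inv_mem hs') hs) y hy.1 hy.2.1
        (by rw [mul_smul, inv_smul_eq_iff]; exact e')
      rw [← mul_inv_cancel_left s' s, this, mul_one]
  have hD : ∀ {x y : Ω} {g g' : G}, g ∈ H → g • a = a → g • o = o → g' ∈ H → g' • a = a →
      g' • o = o → (∀ k ∈ H, k • a = a → k • o = o → k • x ≠ y) →
      Disjoint (O (g • x)) (O (g' • y)) := by
    intro x y g g' hg ga go hg' ga' go' hk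
    rw [Set.disjoint_left]
    rintro _ ⟨s, hs, rfl⟩ ⟨s', hs', e'⟩
    have hs1 : s • a = a := hs.2.1
    have hs2 : s • o = o := hs.2.2
    have hs3 : s' • a = a := hs'.2.1
    have hs4 : s' • o = o := hs'.2.2
    refine hk ((s' * g')⁻¹ * (s * g)) (H.mul_mem (H.inv_mem (H.mul_mem (hS.le hs'.1).1 hg'))
      (H.mul_mem (hS.le hs.1).1 hg)) ?_ ?_ ?_
    · rw [mul_smul, inv_smul_eq_iff, mul_smul, mul_smul, ga, ga', hs1, hs3]
    · rw [mul_smul, inv_smul_eq_iff, mul_smul, mul_smul, go, go', hs2, hs4]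
    · rw [mul_smul, inv_smul_eq_iff, mul_smul, mul_smul]
      exact e'.symm
  have : Finite Ω := Nat.finite_of_card_ne_zero (by
    have := h.ncard_pts (fun _ => True) trivial
    simp only [Set.ofPred_true, Set.ncard_univ] at this
    omega)
  have k1 : g1 • c ∈ C := ⟨ne_of_fix a1 ca, ne_of_fix o1 co, m1⟩
  have k2 : g2 • d ∈ C := ⟨ne_of_fix a2 da, ne_of_fix o2 do', m2⟩
  have k3 : g3 • e ∈ C := ⟨ne_of_fix a3 ea, ne_of_fix o3 eo, m3⟩
  have lo : (O (g1 • c) ∪ O (g2 • d) ∪ O (g3 • e)).ncard ≤ C.ncard := Set.ncard_le_ncard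
    (Set.union_subset (Set.union_subset (hO _ k1).1 (hO _ k2).1) (hO _ k3).1)
  rw [Set.ncard_union_eq (Set.disjoint_union_left.2
      ⟨hD hg1 a1 o1 hg3 a3 o3 fun k hk ka ko => (hne k hk ka ko).2.1,
        hD hg2 a2 o2 hg3 a3 o3 fun k hk ka ko => (hne k hk ka ko).2.2⟩),
    Set.ncard_union_eq (hD hg1 a1 o1 hg2 a2 o2 fun k hk ka ko => (hne k hk ka ko).1),
    (hO _ k1).2, (hO _ k2).2, (hO _ k3).2] at lo
  let f := Finite.equivFin Ω
  let m := mu a o U V (g1 • c)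
  have half : ∀ B : Set Ω, B ⊆ C → (∀ y ∈ B, ng U o y ∉ B) → B.ncard ≤ (S0 : Set G).ncard := by
    intro B hB hB'
    refine Set.ncard_le_ncard_of_injOn (fun y => m * mu a o U V y) (fun y hy => ?_)
      fun y hy z hz e' => ?_
    · have hy := hB hy
      refine ⟨S.mul_mem m1 hy.2.2, ?_, ?_⟩
      · show _ • _ = _
        rw [mul_smul, h.mu_a hy.1 hy.2.1, h.mu_o k1.1 k1.2.1]
      · show _ • _ = _
        rw [mul_smul, h.mu_o hy.1 hy.2.1, h.mu_a k1.1 k1.2.1]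
    · rcases h.mu_inj (hB hy).1 (hB hy).2.1 (hB hz).1 (hB hz).2.1 (mul_left_cancel e') with e1 | e1
      · exact e1.symm
      · exact (hB' y hy (e1 ▸ hz)).elim
  have l1 := half {y | y ∈ C ∧ f y < f (ng U o y)} (fun y hy => hy.1) fun y hy hy' => by
    have := hy'.2
    rw [h.ng_ng] at this
    exact lt_asymm this hy.2
  have l2 := half {y | y ∈ C ∧ f (ng U o y) < f y} (fun y hy => hy.1) fun y hy hy' => by
    have := hy'.2
    rw [h.ng_ng] at this
    exact lt_asymm this hy.2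
  have l3 : C.ncard ≤ ({y | y ∈ C ∧ f y < f (ng U o y)} ∪ {y | y ∈ C ∧ f (ng U o y) < f y}).ncard :=
    Set.ncard_le_ncard fun y hy => by
      rcases lt_trichotomy (f y) (f (ng U o y)) with e1 | e1 | e1
      · exact Or.inl ⟨hy, e1⟩
      · exact (h.ng_ne hy.1 hy.2.1 (f.injective e1).symm).elim
      · exact Or.inr ⟨hy, e1⟩
  have l4 := Set.ncard_union_le {y | y ∈ C ∧ f y < f (ng U o y)} {y | y ∈ C ∧ f (ng U o y) < f y}
  have l5 : 0 < (S0 : Set G).ncard := (Set.ncard_pos (Set.toFinite _)).2 ⟨1, S0.one_mem⟩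
  omega

end MS

end CL.Saxl
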