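import Cfsg.Agent.PERM.Saxl2
import Cfsg.Agent.PERM.ZassFeit
import Cfsg.Agent.PERM.TwoTrans
import Cfsg.Agent.PLOC.ClassTwo
import Cfsg.Agent.SOLV.Frobenius
import Cfsg.Agent.SOLV.Glauberman
import Cfsg.Agent.ODDC.FT

/-!
# The Hua subgroup of odd order is semiregular
-/

set_option autoImplicit false

namespace CL.Saxl

open MulAction CL.Zass CL.MSS
open scoped commutatorElement

variable {G Ω : Type*} [Group G] [MulAction G Ω]

/-- The Hua subgroup. -/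
def Hua (a o : Ω) (U V : Subgroup G) : Subgroup G :=
  Subgroup.closure {g | ∃ c d : Ω, c ≠ a ∧ c ≠ o ∧ d ≠ a ∧ d ≠ o ∧ g = mu a o U V c * mu a o U V d}

/-- Invariance under the stabiliser of the pair. -/
def Inv (a o : Ω) (A : Subgroup G) : Prop :=
  ∀ k : G, (k • a = a ∧ k • o = o) ∨ (k • a = o ∧ k • o = a) → ∀ g ∈ A, k * g * k⁻¹ ∈ A

theorem odd_card [Finite G] {J : Subgroup G} (hJ : ∀ g ∈ J, g * g = 1 → g = 1) :
    Odd (Nat.card J) := by
  have : Fact (Nat.Prime 2) := ⟨Nat.prime_two⟩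
  rw [← Nat.not_even_iff_odd, even_iff_two_dvd]
  intro h2
  obtain ⟨t, ht⟩ := exists_prime_orderOf_dvd_card' 2 h2
  have := hJ t t.2 (by rw [← Subgroup.coe_mul, ← pow_two, ← ht, pow_orderOf_eq_one,
    Subgroup.coe_one])
  rw [show t = 1 from Subtype.ext this, orderOf_one] at ht
  omega

theorem exists_sq_pow [Finite G] {J : Subgroup G} (hJ : ∀ g ∈ J, g * g = 1 → g = 1) {j : G}
    (hj : j ∈ J) : ∃ k : ℕ, (j * j) ^ k = j := by
  obtain ⟨k, hk⟩ := odd_card hJ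
  have h1 : j ^ Nat.card J = 1 := congrArg Subtype.val (pow_card_eq_one' (x := (⟨j, hj⟩ : J)))
  refine ⟨k + 1, ?_⟩
  rw [← pow_two, ← pow_mul, show 2 * (k + 1) = Nat.card J + 1 by omega, pow_succ, h1, one_mul]

/-- A fixed point free involutory automorphism: the group is abelian. -/
theorem comm_of_fpf [Finite G] {B : Subgroup G} (hB : ∀ g ∈ B, g * g = 1 → g = 1) {m : G}
    (mm : m * m = 1) (hm : ∀ g ∈ B, m * g * m⁻¹ ∈ B) (hf : ∀ g ∈ B, m * g * m⁻¹ = g → g = 1) :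
    ∀ x ∈ B, ∀ y ∈ B, x * y = y * x := by
  have key : ∀ x ∈ B, m * x * m⁻¹ = x⁻¹ := by
    intro x hx
    have hw := B.mul_mem (B.inv_mem hx) (hm x hx)
    obtain ⟨k, hk⟩ := exists_sq_pow hB hw
    have e1 : m * (x⁻¹ * (m * x * m⁻¹)) * m⁻¹ = (x⁻¹ * (m * x * m⁻¹))⁻¹ := by
      calc _ = m * x⁻¹ * m⁻¹ * ((m * m) * x * (m * m)⁻¹) := by group
        _ = _ := by rw [mm]; group
    set w := x⁻¹ * (m * x * m⁻¹) with hw'
    have e2 : m * w ^ k * m⁻¹ = (w ^ k)⁻¹ := by rw [← conj_pow, e1, inv_pow]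
    have e3 : w ^ k * w ^ k = w := by rw [← (Commute.refl w).mul_pow, hk]
    have e4 := hf (x * w ^ k) (B.mul_mem hx (B.pow_mem hw k)) (by
      calc m * (x * w ^ k) * m⁻¹ = x * (x⁻¹ * (m * x * m⁻¹)) * (m * w ^ k * m⁻¹) := by group
        _ = x * (w ^ k * w ^ k) * (w ^ k)⁻¹ := by rw [e2, e3]
        _ = _ := by group)
    rw [eq_inv_of_mul_eq_one_left e4]
    calc m * (w ^ k)⁻¹ * m⁻¹ = (m * w ^ k * m⁻¹)⁻¹ := by group
      _ = _ := by rw [e2]
  intro x hx y hy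
  rw [← inv_inj, ← key _ (B.mul_mem hx hy), mul_inv_rev, ← key x hx, ← key y hy]
  group

namespace MS

variable {a o : Ω} {U V : Subgroup G} (h : MS a o U V) [Finite G]
include h

/-- An abelian subgroup normal in the two-point stabiliser is semiregular. -/
theorem free_of_comm {A : Subgroup G} (hle : A ≤ St G a o)
    (hA : ∀ k : G, k • a = a → k • o = o → ∀ g ∈ A, k * g * k⁻¹ ∈ A)
    (hc : ∀ x ∈ A, ∀ y ∈ A, x * y = y * x) {g : G} (hg : g ∈ A) {c : Ω} (ca : c ≠ a) (co : c ≠ o)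
    (gc : g • c = c) : g = 1 := by
  refine h.faith g fun d => ?_
  have fa : ∀ {k}, k ∈ A → k • a = a := fun hk => (hle hk).1
  have fo : ∀ {k}, k ∈ A → k • o = o := fun hk => (hle hk).2
  by_cases da : d = a
  · rw [da, fa hg]
  by_cases do' : d = o
  · rw [do', fo hg]
  obtain ⟨u, hu, rfl⟩ := h.exU ca
  obtain ⟨w, hw, rfl⟩ := h.exU da
  by_cases hz : (u * w) • o = o
  · have e3 := h.eqU (U.mul_mem hu hw) U.one_mem (by rw [hz, one_smul])
    rw [eq_inv_of_mul_eq_one_right e3, ← h.ng_smul hu, ← h.ng_St (fa hg) (fo hg), gc]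
  have cj : ∀ {u}, u ∈ U → ∀ b ∈ A, b • u • o = u • o → ∀ k ∈ A,
      b * (k * u * k⁻¹) * b⁻¹ = k * u * k⁻¹ := by
    intro u hu b hb e k hk
    calc b * (k * u * k⁻¹) * b⁻¹ = (b * k) * u * (b * k)⁻¹ := by group
      _ = k * (b * u * b⁻¹) * k⁻¹ := by rw [hc b hb k hk]; group
      _ = _ := by rw [h.conj_eq (fa hb) (fo hb) hu hu e]
  by_contra hne
  have key : ∀ k ∈ A, k • (u * w) • o = (u * w) • o → k * u * k⁻¹ = u ∧ k * w * k⁻¹ = w := by
    intro k hk e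
    have e1 := h.conj_eq (fa hk) (fo hk) (U.mul_mem hu hw) (U.mul_mem hu hw) e
    have e2 : u⁻¹ * (k * u * k⁻¹) = w * (k * w * k⁻¹)⁻¹ := by
      calc u⁻¹ * (k * u * k⁻¹) = u⁻¹ * (k * (u * w) * k⁻¹) * (k * w * k⁻¹)⁻¹ := by group
        _ = _ := by rw [e1]; group
    have hr := U.mul_mem (U.inv_mem hu) (h.kU.norm k (fa hk) u hu)
    by_cases r1 : (u⁻¹ * (k * u * k⁻¹)) • o = o
    · have e3 := h.eqU hr U.one_mem (by rw [r1, one_smul])
      exact ⟨(inv_mul_eq_one.1 e3).symm, (mul_inv_eq_one.1 (e2 ▸ e3)).symm⟩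
    refine (hne (h.fix_of_le hA da do' (h.neU hr) r1 (fun b hb e => ?_) hg ?_)).elim
    · rw [← conj_smul (fo hb), e2]
      congr 1
      calc b * (w * (k * w * k⁻¹)⁻¹) * b⁻¹ = (b * w * b⁻¹) * (b * (k * w * k⁻¹) * b⁻¹)⁻¹ := by group
        _ = _ := by rw [cj hw b hb e k hk, h.conj_eq (fa hb) (fo hb) hw hw e]
    · rw [← conj_smul (fo hg)]
      congr 1
      calc g * (u⁻¹ * (k * u * k⁻¹)) * g⁻¹ = (g * u * g⁻¹)⁻¹ * (g * (k * u * k⁻¹) * g⁻¹) := by group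
        _ = _ := by rw [cj hu g hg gc k hk, h.conj_eq (fa hg) (fo hg) hu hu gc]
  have e4 := h.fix_of_le hA (h.neU (U.mul_mem hu hw)) hz ca co
    (fun k hk e => by rw [← conj_smul (fo hk), (key k hk e).1]) hg gc
  exact hne (by rw [← conj_smul (fo hg), (key g hg e4).2])

theorem hua_le_St : Hua a o U V ≤ St G a o := by
  rw [Hua, Subgroup.closure_le]
  rintro _ ⟨c, d, ca, co, da, do', rfl⟩
  exact ⟨(mul_smul _ _ a).trans (by rw [h.mu_a da do', h.mu_o ca co]),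
    (mul_smul _ _ o).trans (by rw [h.mu_o da do', h.mu_a ca co])⟩

omit [Finite G] in
theorem hua_le {H : Subgroup G} (hU : U ≤ H) (hV : V ≤ H) : Hua a o U V ≤ H := by
  rw [Hua, Subgroup.closure_le]
  rintro _ ⟨c, d, ca, co, da, do', rfl⟩
  exact H.mul_mem (h.mu_mem ca co hU hV) (h.mu_mem da do' hU hV)

theorem exists_conj_mu {k : G} (hk : (k • a = a ∧ k • o = o) ∨ (k • a = o ∧ k • o = a)) {c : Ω}
    (ca : c ≠ a) (co : c ≠ o) : k • c ≠ a ∧ k • c ≠ o ∧ k * mu a o U V c * k⁻¹ = mu a o U V (k • c) := by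
  rcases hk with ⟨ka, ko⟩ | ⟨ka, ko⟩
  · exact ⟨ne_of_fix ka ca, ne_of_fix ko co, h.mu_conj ca co ka ko⟩
  · exact ⟨fun e => co ((smul_left_cancel_iff k).1 (e.trans ko.symm)),
      fun e => ca ((smul_left_cancel_iff k).1 (e.trans ka.symm)), h.mu_conj' ca co ka ko⟩

theorem inv_hua : Inv a o (Hua a o U V) := by
  intro k hk
  rw [← cj_le_iff_forall, Hua, cj_closure, Subgroup.closure_le]
  rintro _ ⟨_, ⟨c, d, ca, co, da, do', rfl⟩, rfl⟩
  obtain ⟨h1, h2, h3⟩ := h.exists_conj_mu hk ca co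
  obtain ⟨h4, h5, h6⟩ := h.exists_conj_mu hk da do'
  refine Subgroup.subset_closure ⟨_, _, h1, h2, h4, h5, ?_⟩
  rw [← h3, ← h6]
  group

variable (hT : ∀ g ∈ Hua a o U V, g * g = 1 → g = 1)
include hT

theorem free_of_inv {c w : Ω} (ca : c ≠ a) (co : c ≠ o) (wa : w ≠ a) (wo : w ≠ o) {g : G}
    (hg : g ∈ Hua a o U V) (e : mu a o U V c * g * (mu a o U V c)⁻¹ = g⁻¹) (gw : g • w = w) :
    g = 1 := by
  have e1 := h.mu_conj wa wo (h.hua_le_St hg).1 (h.hua_le_St hg).2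
  rw [gw] at e1
  obtain ⟨k, hk⟩ := exists_sq_pow hT
    (Subgroup.subset_closure ⟨c, w, ca, co, wa, wo, rfl⟩ : mu a o U V c * mu a o U V w ∈ Hua a o U V)
  generalize mu a o U V c = m at *
  generalize mu a o U V w = n at *
  have e2 : m * n * g * (m * n)⁻¹ = g⁻¹ := by
    rw [← e]
    calc m * n * g * (m * n)⁻¹ = m * g * (g⁻¹ * n * g * n⁻¹) * m⁻¹ := by group
      _ = m * g * (g⁻¹ * (g * n * g⁻¹) * g * n⁻¹) * m⁻¹ := by rw [e1]
      _ = _ := by group
  generalize m * n = j at *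
  have e3 : Commute (j * j) g := by
    show j * j * g = g * (j * j)
    calc j * j * g = j * (j * g * j⁻¹) * j := by group
      _ = j * g⁻¹ * j := by rw [e2]
      _ = (j * g * j⁻¹)⁻¹ * (j * j) := by group
      _ = _ := by rw [e2, inv_inv]
  have e4 := e3.pow_left k
  rw [hk] at e4
  rw [e4.eq, mul_inv_cancel_right] at e2
  exact hT g hg (by nth_rewrite 1 [e2]; exact inv_mul_cancel g)

theorem fix_of_comm {c : Ω} (ca : c ≠ a) (co : c ≠ o) {g : G} (hg : g ∈ Hua a o U V)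
    (e : mu a o U V c * g * (mu a o U V c)⁻¹ = g) : g • c = c := by
  have ga : g • a = a := (h.hua_le_St hg).1
  have go : g • o = o := (h.hua_le_St hg).2
  have e1 := h.mu_conj ca co ga go
  have e2 : g * mu a o U V c * g⁻¹ = mu a o U V c := by
    nth_rewrite 1 [← e]
    group
  rcases h.mu_inj ca co (ne_of_fix ga ca) (ne_of_fix go co) (e2.symm.trans e1) with e3 | e3
  · exact e3
  obtain ⟨k, hk⟩ := exists_sq_pow hT hg
  rw [← hk]
  exact (stabilizer G c).pow_mem (show (g * g) • c = c by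
    rw [mul_smul, e3, ← h.ng_St ga go, e3, h.ng_ng]) k

theorem inv_of_comm {A : Subgroup G} (hle : A ≤ Hua a o U V) (hA : Inv a o A)
    (hc : ∀ x ∈ A, ∀ y ∈ A, x * y = y * x) {c : Ω} (ca : c ≠ a) (co : c ≠ o) {g : G} (hg : g ∈ A) :
    mu a o U V c * g * (mu a o U V c)⁻¹ = g⁻¹ := by
  have h1 := hA _ (Or.inr ⟨h.mu_a ca co, h.mu_o ca co⟩) g hg
  have h2 := A.mul_mem hg h1
  refine eq_inv_of_mul_eq_one_right (h.free_of_comm (hle.trans h.hua_le_St)
    (fun k ka ko => hA k (Or.inl ⟨ka, ko⟩)) hc h2 ca co (h.fix_of_comm hT ca co (hle h2) ?_))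
  have mm := h.mu_mul_mu ca co
  rw [hc g hg _ h1]
  nth_rewrite 2 [← hc g hg _ h1]
  rw [← hc g hg _ h1]
  nth_rewrite 2 [hc g hg _ h1]
  generalize mu a o U V c = m at *
  calc m * (g * (m * g * m⁻¹)) * m⁻¹ = m * g * m⁻¹ * ((m * m) * g * (m * m)⁻¹) := by group
    _ = _ := by rw [mm]; group

theorem central_of_comm {A : Subgroup G} (hle : A ≤ Hua a o U V) (hA : Inv a o A)
    (hc : ∀ x ∈ A, ∀ y ∈ A, x * y = y * x) {g : G} (hg : g ∈ A) {t : G} (ht : t ∈ Hua a o U V) :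
    Commute t g := by
  refine Subgroup.mem_centralizer_singleton_iff.1
    ((Subgroup.closure_le (Subgroup.centralizer {g})).2 ?_ ht)
  rintro _ ⟨c, d, ca, co, da, do', rfl⟩
  have e1 := h.inv_of_comm hT hle hA hc ca co (A.inv_mem hg)
  have e2 := h.inv_of_comm hT hle hA hc da do' hg
  rw [SetLike.mem_coe, Subgroup.mem_centralizer_singleton_iff]
  generalize mu a o U V c = m at *
  generalize mu a o U V d = n at *
  calc m * n * g = m * (n * g * n⁻¹) * m⁻¹ * (m * n) := by group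
    _ = _ := by rw [e2, e1, inv_inv]

theorem hua_comm {c : Ω} (ca : c ≠ a) (co : c ≠ o) :
    ∀ x ∈ Hua a o U V, ∀ y ∈ Hua a o U V, x * y = y * x := by
  by_contra hne
  obtain ⟨B, ⟨hle, hB, hn⟩, hmin⟩ := exists_minimal_of_wellFoundedLT
    (fun B : Subgroup G => B ≤ Hua a o U V ∧ Inv a o B ∧ ¬ ∀ x ∈ B, ∀ y ∈ B, x * y = y * x)
    ⟨_, le_rfl, h.inv_hua, hne⟩
  have hBo : ∀ g ∈ B, g * g = 1 → g = 1 := fun g hg => hT g (hle hg)
  have hlt := CL.commutator_lt_of_isSolvable (M := B) (CL.PF.Feit_Thompson (odd_card hBo)) (by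
    rintro rfl
    exact hn fun x hx y hy => by rw [Subgroup.mem_bot.1 hx, Subgroup.mem_bot.1 hy])
  have hI : Inv a o ⁅B, B⁆ := fun k hk => by
    rw [← cj_le_iff_forall, cj_commutator]
    exact Subgroup.commutator_mono (cj_le_iff_forall.2 (hB k hk)) (cj_le_iff_forall.2 (hB k hk))
  have hC : ∀ x ∈ ⁅B, B⁆, ∀ y ∈ ⁅B, B⁆, x * y = y * x := by
    by_contra hh
    exact hlt.not_ge (hmin ⟨hlt.le.trans hle, hI, hh⟩ hlt.le)
  have hZ : ∀ t ∈ B, ∀ x ∈ B, ∀ y ∈ B, Commute t ⁅x, y⁆ := fun t ht x hx y hy =>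
    h.central_of_comm hT (hlt.le.trans hle) hI hC (Subgroup.commutator_mem_commutator hx hy)
      (hle ht)
  have mm := h.mu_mul_mu ca co
  have hm := hB _ (Or.inr ⟨h.mu_a ca co, h.mu_o ca co⟩)
  obtain ⟨x0, hx0, e0, n0⟩ : ∃ g ∈ B, mu a o U V c * g * (mu a o U V c)⁻¹ = g ∧ g ≠ 1 := by
    by_contra hh
    push Not at hh
    exact hn (comm_of_fpf hBo mm hm hh)
  obtain ⟨r, hr, hrd⟩ := Nat.exists_prime_and_dvd (n := orderOf x0) (by rwa [Ne, orderOf_eq_one_iff])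
  have := Fact.mk hr
  have ro : Odd r := (odd_card hBo).of_dvd_nat (hrd.trans (by
    rw [← Subgroup.orderOf_mk x0 hx0]
    exact orderOf_dvd_natCard _))
  have o1 := orderOf_pow_orderOf_div (orderOf_pos x0).ne' hrd
  let E : Subgroup G :=
    { carrier := {g | g ∈ B ∧ g ^ r = 1}
      one_mem' := ⟨B.one_mem, one_pow r⟩
      mul_mem' := fun {x y} hx hy => ⟨B.mul_mem hx.1 hy.1, CL.PG.mul_pow_eq_one_of_odd
        (hZ x hx.1 y hy.1 x hx.1) (hZ y hy.1 y hy.1 x hx.1) ro hx.2 hy.2⟩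
      inv_mem' := fun {x} hx => ⟨B.inv_mem hx.1, by rw [inv_pow, hx.2, inv_one]⟩ }
  have hE : Inv a o E := fun k hk g hg => ⟨hB k hk g hg.1, by rw [conj_pow, hg.2]; group⟩
  have hEB : E ≤ B := fun g hg => hg.1
  have hBE : B ≤ E := hmin ⟨hEB.trans hle, hE, fun hc => by
    have hx1 : x0 ^ (orderOf x0 / r) ∈ E := ⟨B.pow_mem hx0 _, by
      nth_rewrite 2 [← o1]
      exact pow_orderOf_eq_one _⟩
    have e1 := h.inv_of_comm hT (hEB.trans hle) hE hc ca co hx1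
    rw [← conj_pow, e0] at e1
    rw [hBo _ hx1.1 (by nth_rewrite 1 [e1]; exact inv_mul_cancel _), orderOf_one] at o1
    exact hr.one_lt.ne o1⟩ hEB
  push Not at hn
  obtain ⟨x, hx, y, hy, hxy⟩ := hn
  have z1 : ⁅x, y⁆ ≠ 1 := fun e => hxy (commutatorElement_eq_one_iff_mul_comm.1 e)
  have hz := Subgroup.commutator_mem_commutator hx hy
  have zi := h.inv_of_comm hT (hlt.le.trans hle) hI hC ca co hz
  have key : ∀ w ∈ B, mu a o U V c * w * (mu a o U V c)⁻¹ = w⁻¹ → w ∈ Subgroup.zpowers ⁅x, y⁆ := by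
    intro w hw e
    have hA : IsMulCommutative (Subgroup.closure {w, ⁅x, y⁆}) :=
      Subgroup.isMulCommutative_closure (by
        rintro _ (rfl | rfl) _ (rfl | rfl)
        exacts [rfl, hZ _ hw x hx y hy, (hZ _ hw x hx y hy).symm, rfl])
    have hAB : Subgroup.closure {w, ⁅x, y⁆} ≤ B := (Subgroup.closure_le _).2 (by
      rintro _ (rfl | rfl)
      exacts [hw, hlt.le hz])
    have hAi : ∀ g ∈ Subgroup.closure {w, ⁅x, y⁆},
        mu a o U V c * g * (mu a o U V c)⁻¹ = g⁻¹ := by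
      intro g hg
      induction hg using Subgroup.closure_induction with
      | mem g hg => rcases hg with rfl | rfl; exacts [e, zi]
      | one => group
      | mul g g' hg hg' e1 e2 =>
        have e3 : g * g' = g' * g := congrArg Subtype.val (hA.is_comm.comm ⟨g, hg⟩ ⟨g', hg'⟩)
        nth_rewrite 2 [e3]
        rw [mul_inv_rev, ← e1, ← e2]
        group
      | inv g hg e1 =>
        calc _ = (mu a o U V c * g * (mu a o U V c)⁻¹)⁻¹ := by group
          _ = _ := by rw [e1]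
    obtain ⟨u0, hu0, e0⟩ := h.exU ca
    have hcy : IsCyclic (Subgroup.closure {w, ⁅x, y⁆}) :=
      CL.Frob.isCyclic_of_comm (H := U) (fun e => co (by
        rw [e, Subgroup.mem_bot] at hu0
        rw [← e0, hu0, one_smul])) (fun g hg => h.kU.stabilizer_le_normalizer
          (h.hua_le_St (hle (hAB hg))).1) fun g hg g1 => by
        rw [eq_bot_iff]
        rintro u ⟨hu, hc⟩
        by_contra u1
        have hc : u * g = g * u := Subgroup.mem_centralizer_singleton_iff.1 hc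
        refine g1 (h.free_of_inv hT ca co (h.neU hu) (fun e => u1 (h.eqU hu U.one_mem
          (by rw [e, one_smul]))) (hle (hAB hg)) (hAi g hg) ?_)
        rw [← mul_smul, ← hc, mul_smul, show g • o = o from (h.hua_le_St (hle (hAB hg))).2]
    obtain ⟨g, hg⟩ := hcy.exists_ofOrder_eq_natCard
    have h1 : Nat.card (Subgroup.closure {w, ⁅x, y⁆}) ≤ Nat.card (Subgroup.zpowers ⁅x, y⁆) := by
      rw [← hg, Nat.card_zpowers, orderOf_eq_prime (hBE (hlt.le hz)).2 z1]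
      exact Nat.le_of_dvd hr.pos (orderOf_dvd_of_pow_eq_one (Subtype.ext (hBE (hAB g.2)).2))
    rw [Subgroup.eq_of_le_of_card_ge (Subgroup.zpowers_le_of_mem
      (Subgroup.subset_closure (Set.mem_insert_of_mem _ (Set.mem_singleton _)))) h1]
    exact Subgroup.subset_closure (Set.mem_insert _ _)
  have cen : ∀ w ∈ B, ∀ t ∈ B, Commute t (w⁻¹ * (mu a o U V c * w * (mu a o U V c)⁻¹)) := by
    intro w hw t ht
    obtain ⟨k, hk⟩ := Subgroup.mem_zpowers_iff.1 (key _ (B.mul_mem (B.inv_mem hw) (hm w hw)) (by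
      generalize mu a o U V c = m at *
      calc _ = m * w⁻¹ * m⁻¹ * ((m * m) * w * (m * m)⁻¹) := by group
        _ = _ := by rw [mm]; group))
    rw [← hk]
    exact (hZ t ht x hx y hy).zpow_right k
  have c1 := cen x hx
  have c2 := cen y hy
  have hs := B.mul_mem (B.inv_mem hx) (hm x hx)
  generalize mu a o U V c = m at *
  have e1 : m * ⁅x, y⁆ * m⁻¹ = ⁅x * (x⁻¹ * (m * x * m⁻¹)), y * (y⁻¹ * (m * y * m⁻¹))⁆ := by
    simp only [commutatorElement_def]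
    group
  generalize x⁻¹ * (m * x * m⁻¹) = s at *
  generalize y⁻¹ * (m * y * m⁻¹) = s' at *
  have e2 : ⁅x * s, y * s'⁆ = ⁅x, y⁆ := by
    simp only [commutatorElement_def]
    calc x * s * (y * s') * (x * s)⁻¹ * (y * s')⁻¹
        = x * (s * y * s⁻¹) * (s * s' * s⁻¹) * (x⁻¹ * s'⁻¹ * x) * x⁻¹ * y⁻¹ := by group
      _ = _ := by
        rw [← (c1 y hy).eq, (c2 s hs).eq, ((c2 _ (B.inv_mem hx)).inv_right).eq]
        group
  rw [e1, e2] at zi
  exact z1 (hBo _ (hlt.le hz) (by nth_rewrite 1 [zi]; exact inv_mul_cancel _))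

theorem hua_free {g : G} (hg : g ∈ Hua a o U V) {c : Ω} (ca : c ≠ a) (co : c ≠ o)
    (gc : g • c = c) : g = 1 :=
  h.free_of_comm h.hua_le_St (fun k ka ko => h.inv_hua k (Or.inl ⟨ka, ko⟩)) (h.hua_comm hT ca co)
    hg ca co gc

end MS

end CL.Saxl
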