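import Cfsg.Agent.PERM.Saxl3

/-!
# The little projective group is `PSL₂` when the Hua subgroup has odd order
-/

set_option autoImplicit false

namespace CL.Saxl

open MulAction CL.Zass CL.MSS

variable {G Ω : Type*} [Group G] [MulAction G Ω]

/-- The little projective group. -/
def Lit (a o : Ω) (U V : Subgroup G) : Subgroup G :=
  Subgroup.closure ((U : Set G) ∪ {g | ∃ c : Ω, c ≠ a ∧ c ≠ o ∧ g = mu a o U V c})

theorem exists_notMem [Finite Ω] (s : Finset Ω) (hs : s.card < Nat.card Ω) : ∃ x, x ∉ s := by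
  have := Fintype.ofFinite Ω
  obtain ⟨x, -, hx⟩ := Finset.exists_mem_notMem_of_card_lt_card (s := s) (t := Finset.univ)
    (by rwa [Finset.card_univ, ← Nat.card_eq_fintype_card])
  exact ⟨x, hx⟩

namespace MS

variable {a o : Ω} {U V : Subgroup G} (h : MS a o U V) [Finite G]
include h

omit h [Finite G] in
theorem le_lit : U ≤ Lit a o U V := fun _ hu => Subgroup.subset_closure (Or.inl hu)

omit h [Finite G] in
theorem mu_mem_lit {c : Ω} (ca : c ≠ a) (co : c ≠ o) : mu a o U V c ∈ Lit a o U V :=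
  Subgroup.subset_closure (Or.inr ⟨c, ca, co, rfl⟩)

omit [Finite G] in
theorem lit_le {H : Subgroup G} (hU : U ≤ H) (hV : V ≤ H) : Lit a o U V ≤ H := by
  rw [Lit, Subgroup.closure_le]
  rintro g (hg | ⟨c, ca, co, rfl⟩)
  exacts [hU hg, h.mu_mem ca co hU hV]

theorem bruhat {c : Ω} (ca : c ≠ a) (co : c ≠ o) {g : G} (hg : g ∈ Lit a o U V) :
    (∃ u ∈ U, ∃ t ∈ Hua a o U V, g = u * t) ∨
      ∃ u ∈ U, ∃ t ∈ Hua a o U V, ∃ w ∈ U, g = u * t * mu a o U V c * w := by
  have mm := h.mu_mul_mu ca co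
  have mi := h.mu_inv ca co
  have nT : ∀ {t}, t ∈ Hua a o U V → ∀ {u}, u ∈ U → t * u * t⁻¹ ∈ U := fun ht u hu =>
    h.kU.norm _ (h.hua_le_St ht).1 u hu
  have mT := h.inv_hua _ (Or.inr ⟨h.mu_a ca co, h.mu_o ca co⟩)
  let P : G → Prop := fun g => (∃ u ∈ U, ∃ t ∈ Hua a o U V, g = u * t) ∨
      ∃ u ∈ U, ∃ t ∈ Hua a o U V, ∃ w ∈ U, g = u * t * mu a o U V c * w
  have hU : ∀ x ∈ U, ∀ g, P g → P (x * g) := by
    rintro x hx _ (⟨u, hu, t, ht, rfl⟩ | ⟨u, hu, t, ht, w, hw, rfl⟩)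
    · exact Or.inl ⟨_, U.mul_mem hx hu, t, ht, by group⟩
    · exact Or.inr ⟨_, U.mul_mem hx hu, t, ht, w, hw, by group⟩
  have hT : ∀ x ∈ Hua a o U V, ∀ g, P g → P (x * g) := by
    rintro x hx _ (⟨u, hu, t, ht, rfl⟩ | ⟨u, hu, t, ht, w, hw, rfl⟩)
    · exact Or.inl ⟨_, nT hx hu, _, mul_mem hx ht, by group⟩
    · exact Or.inr ⟨_, nT hx hu, _, mul_mem hx ht, w, hw, by group⟩
  have hm : ∀ g, P g → P (mu a o U V c * g) := by
    rintro _ (⟨u, hu, t, ht, rfl⟩ | ⟨u, hu, t, ht, w, hw, rfl⟩)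
    · exact Or.inr ⟨1, U.one_mem, _, mT t ht, _, nT (inv_mem ht) hu, by group⟩
    by_cases u1 : u • o = o
    · have e := h.eqU hu U.one_mem (by rw [u1, one_smul])
      refine Or.inl ⟨_, nT (mT t ht) hw, _, mT t ht, ?_⟩
      nth_rewrite 2 [← mi]
      rw [e]
      group
    obtain ⟨v, hv, e⟩ := h.symm.exU u1
    have e' : v⁻¹ • u • o = a := by rw [inv_smul_eq_iff, e]
    have k1 := h.mu_u_mu (h.neU hu) u1 hu (V.inv_mem hv) rfl e'
    have k2 := h.mu_eq' (h.neU hu) u1 hu (V.inv_mem hv) rfl e'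
    have k3 := h.mu_mul_mu (h.neU hu) u1
    have hs : mu a o U V c * mu a o U V (u • o) ∈ Hua a o U V :=
      Subgroup.subset_closure ⟨_, _, ca, co, h.neU hu, u1, rfl⟩
    have ht' := mT t ht
    refine Or.inr ⟨_, nT hs (U.inv_mem hu), _, mul_mem hs (mT _ ht'), _,
      U.mul_mem (nT (inv_mem ht') (nT hs (U.inv_mem hu))) hw, ?_⟩
    generalize mu a o U V c = m at *
    generalize mu a o U V (u • o) = n at *
    have k4 : n * u * n = u⁻¹ * n * u⁻¹ := by rw [k1]; nth_rewrite 1 [k2]; group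
    have k5 : n⁻¹ = n := inv_eq_of_mul_eq_one_right k3
    symm
    calc _ = m * n * u⁻¹ * (m * m) * n * u⁻¹ * n⁻¹ * t * m⁻¹ * w := by group
      _ = m * n * (u⁻¹ * n * u⁻¹) * n * t * m * w := by rw [mm, k5, mi]; group
      _ = m * (n * n) * u * (n * n) * t * m * w := by rw [← k4]; group
      _ = _ := by rw [k3]; group
  induction hg using Subgroup.closure_induction_left with
  | one => exact Or.inl ⟨1, U.one_mem, 1, one_mem _, by group⟩
  | mul_left x hx y _ hy =>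
    rcases hx with hx | ⟨d, da, do', rfl⟩
    · exact hU x hx y hy
    · have := hT _ (Subgroup.subset_closure ⟨_, _, da, do', ca, co, rfl⟩) _ (hm y hy)
      rwa [mul_assoc, ← mul_assoc (mu a o U V c), mm, one_mul] at this
  | inv_mul_cancel x hx y _ hy =>
    rcases hx with hx | ⟨d, da, do', rfl⟩
    · exact hU _ (U.inv_mem hx) y hy
    · have := hT _ (Subgroup.subset_closure ⟨_, _, da, do', ca, co, rfl⟩) _ (hm y hy)
      rwa [mul_assoc, ← mul_assoc (mu a o U V c), mm, one_mul, ← h.mu_inv da do'] at this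

theorem mem_hua {c : Ω} (ca : c ≠ a) (co : c ≠ o) {g : G} (hg : g ∈ Lit a o U V) (ga : g • a = a)
    (go : g • o = o) : g ∈ Hua a o U V := by
  rcases h.bruhat ca co hg with ⟨u, hu, t, ht, rfl⟩ | ⟨u, hu, t, ht, w, hw, rfl⟩
  · rw [mul_smul, show t • o = o from (h.hua_le_St ht).2] at go
    rwa [h.eqU hu U.one_mem (by rw [go, one_smul]), one_mul]
  · rw [mul_smul, mul_smul, mul_smul, h.kU.fix w hw, h.mu_a ca co,
      show t • o = o from (h.hua_le_St ht).2] at ga
    exact (h.neU hu ga).elim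

theorem lit_two {c : Ω} (ca : c ≠ a) (co : c ≠ o) {x y : Ω} (hxy : x ≠ y) :
    ∃ n ∈ Lit a o U V, n • a = x ∧ n • o = y := by
  by_cases xa : x = a
  · obtain ⟨u, hu, e⟩ := h.exU (y := y) (xa ▸ hxy.symm)
    exact ⟨u, le_lit hu, by rw [h.kU.fix u hu, xa], e⟩
  obtain ⟨u, hu, e⟩ := h.exU xa
  obtain ⟨w, hw, e'⟩ := h.exU (y := (u * mu a o U V c)⁻¹ • y) fun e' => hxy (by
    rw [inv_smul_eq_iff, mul_smul, h.mu_a ca co, e] at e'
    exact e'.symm)
  refine ⟨u * mu a o U V c * w, mul_mem (mul_mem (le_lit hu) (mu_mem_lit ca co)) (le_lit hw),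
    ?_, ?_⟩
  · rw [mul_smul, h.kU.fix w hw, mul_smul, h.mu_a ca co, e]
  · rw [mul_smul, e', smul_inv_smul]

theorem lit_normal {c : Ω} (ca : c ≠ a) (co : c ≠ o) : (Lit a o U V).Normal := by
  refine ⟨fun n hn g => ?_⟩
  obtain ⟨k, hk, ka, ko⟩ := h.lit_two ca co (x := g • a) (y := g • o)
    fun e => h.ne ((smul_left_cancel_iff g).1 e)
  have ga : (k⁻¹ * g) • a = a := by rw [mul_smul, inv_smul_eq_iff, ka]
  have go : (k⁻¹ * g) • o = o := by rw [mul_smul, inv_smul_eq_iff, ko]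
  have h1 : (k⁻¹ * g) •ᶜ Lit a o U V ≤ Lit a o U V := by
    rw [Lit, cj_closure, Subgroup.closure_le]
    rintro _ ⟨x, hx | ⟨d, da, do', rfl⟩, rfl⟩
    · exact le_lit (h.kU.norm _ ga x hx)
    · show _ * _ * _ ∈ Lit a o U V
      rw [h.mu_conj da do' ga go]
      exact mu_mem_lit (ne_of_fix ga da) (ne_of_fix go do')
  have := mul_mem (mul_mem hk (cj_le_iff_forall.1 h1 n hn)) (inv_mem hk)
  convert this using 1
  group

theorem psl [Finite Ω] (hT : ∀ g ∈ Hua a o U V, g * g = 1 → g = 1) (h2 : 2 ∣ Nat.card Ω)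
    (h3 : 3 ∣ Nat.card Ω) : ∃ (K : Type) (_ : Field K) (_ : Fintype K),
      Fintype.card K + 1 = Nat.card Ω ∧
        Nonempty (Lit a o U V ≃* Matrix.ProjectiveSpecialLinearGroup (Fin 2) K) := by
  classical
  have : Nonempty Ω := ⟨a⟩
  have hpos : 0 < Nat.card Ω := Nat.card_pos
  obtain ⟨c, hc⟩ := exists_notMem {a, o} (Finset.card_le_two.trans_lt (by omega))
  simp only [Finset.mem_insert, Finset.mem_singleton, not_or] at hc
  obtain ⟨ca, co⟩ := hc
  obtain ⟨d, hd⟩ := exists_notMem {a, o, c, ng U o c} (Finset.card_le_four.trans_lt (by omega))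
  simp only [Finset.mem_insert, Finset.mem_singleton, not_or] at hd
  have hf : FaithfulSMul (Lit a o U V) Ω := ⟨fun {x y} e => Subtype.ext (h.ext e)⟩
  have ht : IsMultiplyPretransitive (Lit a o U V) Ω 2 := is_two_pretransitive_iff.2
    fun {x y z w} hxy hzw => by
      obtain ⟨n, hn, e1, e2⟩ := h.lit_two ca co hxy
      obtain ⟨n', hn', e3, e4⟩ := h.lit_two ca co hzw
      refine ⟨⟨n' * n⁻¹, mul_mem hn' (inv_mem hn)⟩, ?_, ?_⟩
      · show (n' * n⁻¹) • x = z
        rw [← e1, mul_smul, inv_smul_smul, e3]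
      · show (n' * n⁻¹) • y = w
        rw [← e2, mul_smul, inv_smul_smul, e4]
  have hZ : Cfsg.IsZassenhausGroup (Lit a o U V) Ω := by
    refine ⟨hf, ht, fun g x y z hxy hyz hxz gx gy gz => ?_, ⟨⟨_, mul_mem (mu_mem_lit ca co)
      (mu_mem_lit hd.1 hd.2.1)⟩, fun e => ?_, a, o, h.ne, ?_, ?_⟩, fun N hN hN' => ?_⟩
    · obtain ⟨n, hn, e1, e2⟩ := h.lit_two ca co hxy
      have gx : (g : G) • x = x := gx
      have gy : (g : G) • y = y := gy
      have gz : (g : G) • z = z := gz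
      have := h.hua_free hT (h.mem_hua ca co (mul_mem (mul_mem (inv_mem hn) g.2) hn)
        (by rw [mul_smul, mul_smul, e1, gx, inv_smul_eq_iff, e1])
        (by rw [mul_smul, mul_smul, e2, gy, inv_smul_eq_iff, e2])) (c := n⁻¹ • z)
        (fun e => hxz (by rw [inv_smul_eq_iff, e1] at e; exact e.symm))
        (fun e => hyz (by rw [inv_smul_eq_iff, e2] at e; exact e.symm))
        (by rw [mul_smul, smul_inv_smul, mul_smul, gz])
      refine Subtype.ext ?_
      calc (g : G) = n * (n⁻¹ * g * n) * n⁻¹ := by group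
        _ = 1 := by rw [this]; group
    · have e' : mu a o U V c * mu a o U V d = 1 := congrArg Subtype.val e
      rw [← h.mu_mul_mu ca co] at e'
      rcases h.mu_inj ca co hd.1 hd.2.1 (mul_left_cancel e').symm with e1 | e1
      exacts [hd.2.2.1 e1, hd.2.2.2 e1]
    · exact (mul_smul _ _ a).trans (by rw [h.mu_a hd.1 hd.2.1, h.mu_o ca co])
    · exact (mul_smul _ _ o).trans (by rw [h.mu_o hd.1 hd.2.1, h.mu_a ca co])
    · by_contra hh
      push Not at hh
      obtain ⟨-, p, -, -, -, -, hp, -, -, j, -, e⟩ :=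
        CL.Perm.exists_regular_normal_of_two_point_trivial ht N (by
          rintro rfl
          obtain ⟨⟨g, hg⟩, e⟩ := hN'.exists_smul_eq a o
          rw [Subgroup.mem_bot] at hg
          subst hg
          exact h.ne ((one_smul _ a).symm.trans e)) fun n hn x y _ e _ => by
            have : (⟨n, hn⟩ : N) ∈ stabilizer N x := e
            rw [hh x, Subgroup.mem_bot] at this
            exact congrArg Subtype.val this
      rw [e] at h2 h3
      have e2 := (Nat.prime_dvd_prime_iff_eq Nat.prime_two hp).1 (Nat.prime_two.dvd_of_dvd_pow h2)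
      have e3 := (Nat.prime_dvd_prime_iff_eq Nat.prime_three hp).1
        (Nat.prime_three.dvd_of_dvd_pow h3)
      omega
  rcases sharp_or_psl_of_comm hZ h.ne (h.kU.subgroupOf le_lit)
    (fun u hu v hv => Subtype.ext (h.cU u hu v hv)) with e | ⟨-, K, _, _, e, -, e'⟩
  · have := odd_card (J := St (Lit a o U V) a o) fun g hg e => Subtype.ext
      (hT g (h.mem_hua ca co g.2 hg.1 hg.2) (congrArg Subtype.val e))
    rw [e, Nat.odd_iff] at this
    omega
  · exact ⟨K, inferInstance, inferInstance, e, e'⟩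

end MS

end CL.Saxl
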